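import Cfsg.Agent.GK.SL3D

/-!
Presentations glued from two presentations by finitely many further relators in the free product.
-/

set_option autoImplicit false

namespace Cfsg.Agent.GK

open Subgroup

universe v

theorem lift_map_gen {α β : Type*} {H : Type*} [Group H] (f : α → β) (g : β → H) (w : FreeGroup α) :
    FreeGroup.lift g (FreeGroup.map f w) = FreeGroup.lift (fun i => g (f i)) w := by
  have : (FreeGroup.lift g).comp (FreeGroup.map f) = FreeGroup.lift (fun i => g (f i)) := by
    ext1 i
    simp
  exact DFunLike.congr_fun this w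

section amal
variable {a b k : ℕ} {GA GB G : Type*} [Group GA] [Group GB] [Group G]

open scoped Classical in
theorem glue_pres {RA : Finset (FreeGroup (Fin a))} {RB : Finset (FreeGroup (Fin b))} {xA : Fin a → GA}
    {xB : Fin b → GB} (PA : IsPres (RA : Set (FreeGroup (Fin a))) xA) (PB : IsPres (RB : Set (FreeGroup (Fin b))) xB)
    (iA : GA →* G) (iB : GB →* G) (E : Fin k → Monoid.Coprod GA GB) (hE : ∀ i, Monoid.Coprod.lift iA iB (E i) = 1)
    (hU : ∀ (Γ : Type) [Group Γ] (ρ : GA →* Γ) (θ : GB →* Γ), (∀ i, Monoid.Coprod.lift ρ θ (E i) = 1) →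
      ρ.range ⊔ θ.range = ⊤ → ∀ π : Γ →* G, (∀ g, π (ρ g) = iA g) → (∀ g, π (θ g) = iB g) →
      Function.Bijective π) :
    ∃ (R : Finset (FreeGroup (Fin (a + b)))) (x : Fin (a + b) → G), R.card ≤ RA.card + RB.card + k ∧
      IsPres (R : Set (FreeGroup (Fin (a + b)))) x := by
  let x : Fin (a + b) → G := Fin.addCases (fun i => iA (xA i)) (fun i => iB (xB i))
  let ιA : FreeGroup (Fin a) →* FreeGroup (Fin (a + b)) := FreeGroup.map (Fin.castAdd b)
  let ιB : FreeGroup (Fin b) →* FreeGroup (Fin (a + b)) := FreeGroup.map (Fin.natAdd a)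
  let Φ : FreeGroup (Fin (a + b)) →* Monoid.Coprod GA GB :=
    FreeGroup.lift (Fin.addCases (fun i => Monoid.Coprod.inl (xA i)) (fun i => Monoid.Coprod.inr (xB i)))
  have hΦA : ∀ w, Φ (ιA w) = Monoid.Coprod.inl (FreeGroup.lift xA w) := by
    intro w
    rw [lift_map_gen, IsPres.lift_word (x := xA) (ρ := (Monoid.Coprod.inl : GA →* Monoid.Coprod GA GB))]
    intro i
    simp
  have hΦB : ∀ w, Φ (ιB w) = Monoid.Coprod.inr (FreeGroup.lift xB w) := by
    intro w
    rw [lift_map_gen, IsPres.lift_word (x := xB) (ρ := (Monoid.Coprod.inr : GB →* Monoid.Coprod GA GB))]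
    intro i
    simp
  have hΦ : Function.Surjective Φ := by
    rw [← MonoidHom.range_eq_top, eq_top_iff, ← Monoid.Coprod.range_inl_sup_range_inr]
    refine sup_le ?_ ?_
    · rintro _ ⟨g, rfl⟩
      obtain ⟨w, rfl⟩ := PA.surj g
      exact ⟨ιA w, hΦA w⟩
    · rintro _ ⟨g, rfl⟩
      obtain ⟨w, rfl⟩ := PB.surj g
      exact ⟨ιB w, hΦB w⟩
  choose w hw using fun i => hΦ (E i)
  let R : Finset (FreeGroup (Fin (a + b))) := RA.image ιA ∪ RB.image ιB ∪ Finset.univ.image w
  refine ⟨R, x, ?_, ?_⟩
  · have h1 : (RA.image ιA).card ≤ RA.card := Finset.card_image_le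
    have h2 : (RB.image ιB).card ≤ RB.card := Finset.card_image_le
    have h3 : ((Finset.univ : Finset (Fin k)).image w).card ≤ k := by
      refine Finset.card_image_le.trans ?_
      rw [Finset.card_univ, Fintype.card_fin]
    have h4 := Finset.card_union_le (RA.image ιA ∪ RB.image ιB) (Finset.univ.image w)
    have h5 := Finset.card_union_le (RA.image ιA) (RB.image ιB)
    change (RA.image ιA ∪ RB.image ιB ∪ Finset.univ.image w).card ≤ _
    omega
  · apply isPres_of_bij
    · intro r hr
      rw [Finset.mem_coe, Finset.mem_union, Finset.mem_union, Finset.mem_image, Finset.mem_image,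
        Finset.mem_image] at hr
      rcases hr with (⟨r, hr, rfl⟩ | ⟨r, hr, rfl⟩) | ⟨i, -, rfl⟩
      · rw [lift_map_gen]
        have : (fun i => x (Fin.castAdd b i)) = fun i => iA (xA i) := by
          funext i; simp [x]
        rw [this, ← IsPres.lift_word (x := xA) (ρ := iA) (fun i => rfl), (PA.ker r).2 (subset_normalClosure hr),
          map_one]
      · rw [lift_map_gen]
        have : (fun i => x (Fin.natAdd a i)) = fun i => iB (xB i) := by
          funext i; simp [x]
        rw [this, ← IsPres.lift_word (x := xB) (ρ := iB) (fun i => rfl), (PB.ker r).2 (subset_normalClosure hr),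
          map_one]
      · have h1 : (Monoid.Coprod.lift iA iB).comp Φ = FreeGroup.lift x := by
          ext1 i
          rw [MonoidHom.comp_apply, FreeGroup.lift_apply_of, FreeGroup.lift_apply_of]
          refine Fin.addCases (fun i => ?_) (fun i => ?_) i
          · simp [x]
          · simp [x]
        have h2 := DFunLike.congr_fun h1 (w i)
        rw [← h2, MonoidHom.comp_apply, hw]
        exact hE i
    · intro π hπ
      set Γ := PresentedGroup (R : Set (FreeGroup (Fin (a + b)))) with hΓ
      let g : Fin (a + b) → Γ := fun i => PresentedGroup.of i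
      have hrel : ∀ r ∈ R, FreeGroup.lift g r = 1 := fun r hr => lift_of_rel (Finset.mem_coe.2 hr)
      obtain ⟨ρ, hρ⟩ := PA.lift_hom (fun i => g (Fin.castAdd b i)) (by
        intro r hr
        rw [← lift_map_gen]
        exact hrel _ (Finset.mem_union_left _ (Finset.mem_union_left _ (Finset.mem_image_of_mem _ hr))))
      obtain ⟨θ, hθ⟩ := PB.lift_hom (fun i => g (Fin.natAdd a i)) (by
        intro r hr
        rw [← lift_map_gen]
        exact hrel _ (Finset.mem_union_left _ (Finset.mem_union_right _ (Finset.mem_image_of_mem _ hr))))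
      refine hU Γ ρ θ ?_ ?_ π ?_ ?_
      · intro i
        have h1 : (Monoid.Coprod.lift ρ θ).comp Φ = FreeGroup.lift g := by
          ext1 i
          rw [MonoidHom.comp_apply, FreeGroup.lift_apply_of, FreeGroup.lift_apply_of]
          refine Fin.addCases (fun i => ?_) (fun i => ?_) i
          · simp [hρ]
          · simp [hθ]
        have h2 := DFunLike.congr_fun h1 (w i)
        rw [MonoidHom.comp_apply, hw] at h2
        rw [h2]
        exact hrel _ (Finset.mem_union_right _ (Finset.mem_image_of_mem _ (Finset.mem_univ i)))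
      · rw [eq_top_iff, ← closure_of_eq_top, closure_le]
        rintro _ ⟨i, rfl⟩
        refine Fin.addCases (fun i => ?_) (fun i => ?_) i
        · exact (le_sup_left : ρ.range ≤ _) ⟨xA i, hρ i⟩
        · exact (le_sup_right : θ.range ≤ _) ⟨xB i, hθ i⟩
      · intro y
        obtain ⟨v, rfl⟩ := PA.surj y
        rw [IsPres.lift_word hρ, IsPres.lift_word (x := xA) (y := fun i => iA (xA i)) (ρ := iA) (fun i => rfl),
          IsPres.lift_word (x := fun i => g (Fin.castAdd b i)) (y := fun i => iA (xA i)) (ρ := π)]
        intro i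
        have := hπ (Fin.castAdd b i)
        simpa [x] using this
      · intro y
        obtain ⟨v, rfl⟩ := PB.surj y
        rw [IsPres.lift_word hθ, IsPres.lift_word (x := xB) (y := fun i => iB (xB i)) (ρ := iB) (fun i => rfl),
          IsPres.lift_word (x := fun i => g (Fin.natAdd a i)) (y := fun i => iB (xB i)) (ρ := π)]
        intro i
        have := hπ (Fin.natAdd a i)
        simpa [x] using this

end amal

end Cfsg.Agent.GK
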