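import Cfsg.Agent.GK.Carm

/-!
The base group: `a`, `z` with `b` a word in `a`, `z`, and the four relations
`a ^ p = b ^ (p-1)`, `b a^(m+1) b⁻¹ = a^m`, `z^3 = (z (a z a⁻¹))^2`, `b z b⁻¹ = z⁻¹`
present a group which is the alternating group of degree `p + 2` up to the central element `z^3` of order at most 2.
-/

set_option autoImplicit false

namespace Cfsg.Agent.GK

open Subgroup Equiv

section tetra
variable {G : Type*} [Group G]

/-- binary tetrahedral group -/
theorem tetra {x y : G} (h1 : x ^ 3 = y ^ 3) (h2 : x ^ 3 = (x * y) ^ 2) : x ^ 3 * x ^ 3 = 1 := by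
  have e1 : x * y * x = y * y := by
    have : x * y * x * y = y * y * y := by
      have := h1.symm.trans h2
      rw [pow_succ, pow_two, pow_two] at this
      rw [this]; group
    exact mul_right_cancel this
  have e2 : y * x * y = x * x := by
    have : x * (y * x * y) = x * (x * x) := by
      rw [pow_succ, pow_two, pow_two] at h2
      rw [← mul_assoc x x x, h2]; group
    exact mul_left_cancel this
  set w := x ^ 3 with hw
  have hwx : w = x * x * x := by rw [hw, pow_succ, pow_two]
  have hwy : w = y * y * y := by rw [h1, pow_succ, pow_two]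
  have cy : w * y = y * w := by rw [hwy]; group
  have cx : w * x = x * w := by rw [hwx]; group
  have cxx : x * x * w = w * (x * x) := by rw [mul_assoc, ← cx, ← mul_assoc, ← cx, mul_assoc]
  have key : w * y = w * (w * w * y) := by
    calc w * y = y * y * (y * y) := by rw [hwy]; group
      _ = (x * y * x) * (x * y * x) := by rw [e1]
      _ = x * y * (x * x) * y * x := by group
      _ = x * y * (y * x * y) * y * x := by rw [e2]
      _ = x * (y * y) * x * (y * y) * x := by group
      _ = x * (x * y * x) * x * (x * y * x) * x := by rw [e1]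
      _ = (x * x) * (y * (x * x * x)) * y * (x * x) := by group
      _ = (x * x) * (w * y) * y * (x * x) := by rw [← hwx, cy]
      _ = (x * x * w) * (y * y) * (x * x) := by group
      _ = w * (x * x) * (y * y) * (x * x) := by rw [cxx]
      _ = w * (x * x) * (x * y * x) * (x * x) := by rw [e1]
      _ = w * (x * x * x) * y * (x * x * x) := by group
      _ = w * w * (y * w) := by rw [← hwx]; group
      _ = w * (w * w * y) := by rw [← cy]; group
  have k2 := mul_left_cancel key
  have : (w * w) * y = 1 * y := by rw [one_mul]; exact k2.symm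
  exact mul_right_cancel this

theorem sq_comm {x y w : G} (h : (x * y) ^ 2 = w) (hw : Commute w x) : (y * x) ^ 2 = w := by
  have h1 : (y * x) ^ 2 = x⁻¹ * (x * y) ^ 2 * x := by
    rw [pow_two, pow_two]; group
  rw [h1, h, mul_assoc, hw.eq]; group

end tetra

section base
variable {G : Type*} [Group G] {p : ℕ} [hp : Fact p.Prime]

/-- hypotheses of the base lemma -/
structure BaseRel (p : ℕ) (r : ZMod p) (m : ℕ) (a z b : G) : Prop where
  r1 : a ^ p = b ^ (p - 1)
  r2 : b * a ^ (m + 1) * b⁻¹ = a ^ m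
  r3 : z ^ 3 = (z * (a * z * a⁻¹)) ^ 2
  r4 : b * z * b⁻¹ = z⁻¹
  hm : r * ((m : ZMod p) + 1) = m
  hr : ∀ j : ZMod p, j ≠ 0 → ∃ k : ℕ, r ^ k = j

variable {r : ZMod p} {m : ℕ} {a z b : G}

omit hp in
theorem BaseRel.ap (h : BaseRel p r m a z b) : a ^ p = 1 := by
  have h1 : b * (a ^ p) ^ (m + 1) * b⁻¹ = (a ^ p) ^ m := by
    have : (b * a ^ (m + 1) * b⁻¹) ^ p = (a ^ m) ^ p := by rw [h.r2]
    rw [conj_pow] at this
    rw [← pow_mul, mul_comm p, pow_mul, this, ← pow_mul, ← pow_mul, mul_comm m]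
  have h2 : b * (a ^ p) ^ (m + 1) * b⁻¹ = (a ^ p) ^ (m + 1) := by
    have : Commute b (a ^ p) := by rw [h.r1]; exact (Commute.refl b).pow_right _
    rw [(this.pow_right (m + 1)).eq]; group
  rw [h2, pow_succ] at h1
  exact mul_eq_left.1 h1

/-- powers of `a` indexed by `ZMod p` -/
def al (a : G) (i : ZMod p) : G := a ^ i.val

theorem al_nat (h : a ^ p = 1) (n : ℕ) : al a (n : ZMod p) = a ^ n := by
  rw [al, ZMod.val_natCast, ← pow_eq_pow_mod n h]

theorem al_add (h : a ^ p = 1) (i j : ZMod p) : al a (i + j) = al a i * al a j := by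
  rw [al, al, al, ZMod.val_add, ← pow_eq_pow_mod _ h, pow_add]

theorem al_zero : al a (0 : ZMod p) = 1 := by simp [al]

theorem al_one (h : a ^ p = 1) : al a (1 : ZMod p) = a := by
  have := al_nat (p := p) h 1
  simpa using this

theorem BaseRel.b_al (h : BaseRel p r m a z b) (i : ZMod p) : b * al a i * b⁻¹ = al a (r * i) := by
  have hap := h.ap
  have hm1 : ((m : ZMod p) + 1) ≠ 0 := by
    intro h0
    have h1 := h.hm
    rw [h0, mul_zero] at h1
    rw [← h1, zero_add] at h0
    exact one_ne_zero h0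
  -- i = (m+1) * j
  obtain ⟨j, hj⟩ : ∃ j : ZMod p, i = ((m : ZMod p) + 1) * j := ⟨((m : ZMod p) + 1)⁻¹ * i, by
    rw [← mul_assoc, mul_inv_cancel₀ hm1, one_mul]⟩
  have h1 : al a i = (a ^ (m + 1)) ^ j.val := by
    rw [← pow_mul, ← al_nat hap]
    congr 1
    push_cast
    rw [ZMod.natCast_zmod_val, hj]
  have h2 : al a (r * i) = (a ^ m) ^ j.val := by
    rw [← pow_mul, ← al_nat hap]
    congr 1
    push_cast
    rw [ZMod.natCast_zmod_val, hj, ← mul_assoc, h.hm]
  rw [h1, h2, ← conj_pow, h.r2]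

/-- the conjugates of `z` -/
def xx (a z : G) (i : ZMod p) : G := al a i * z * (al a i)⁻¹

theorem xx_zero : xx a z (0 : ZMod p) = z := by simp [xx, al_zero]

theorem xx_conj (h : a ^ p = 1) (i j : ZMod p) : al a i * xx a z j * (al a i)⁻¹ = xx a z (i + j) := by
  rw [xx, xx, al_add h]; group

theorem BaseRel.b_xx (h : BaseRel p r m a z b) (i : ZMod p) :
    b * xx a z i * b⁻¹ = (xx a z (r * i))⁻¹ := by
  have : b * xx a z i * b⁻¹ = (b * al a i * b⁻¹) * (b * z * b⁻¹) * (b * al a i * b⁻¹)⁻¹ := by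
    rw [xx]; group
  rw [this, h.b_al, h.r4, xx]; group

theorem BaseRel.sq0 (h : BaseRel p r m a z b) (j : ZMod p) (hj : j ≠ 0) :
    (z * xx a z j) ^ 2 = z ^ 3 := by
  obtain ⟨k, rfl⟩ := h.hr j hj
  clear hj
  induction k with
  | zero =>
    rw [pow_zero]
    have : xx a z (1 : ZMod p) = a * z * a⁻¹ := by rw [xx, al_one h.ap]
    rw [this]; exact h.r3.symm
  | succ k ih =>
    have h1 : (b * (z * xx a z (r ^ k)) * b⁻¹) ^ 2 = b * z ^ 3 * b⁻¹ := by rw [conj_pow, ih]
    have h2 : b * z ^ 3 * b⁻¹ = (z ^ 3)⁻¹ := by rw [← conj_pow, h.r4, inv_pow]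
    have h3 : b * (z * xx a z (r ^ k)) * b⁻¹ = (xx a z (r ^ (k + 1)) * z)⁻¹ := by
      have : b * (z * xx a z (r ^ k)) * b⁻¹ = (b * z * b⁻¹) * (b * xx a z (r ^ k) * b⁻¹) := by group
      rw [this, h.r4, h.b_xx, ← pow_succ', mul_inv_rev]
    rw [h2, h3, inv_pow, inv_inj] at h1
    exact sq_comm h1 ((Commute.refl z).pow_left 3 |> fun hc => by
      have hc2 : Commute (z ^ 3) (xx a z (r ^ (k + 1))) := by
        -- z^3 commutes with (x z)^2 = z^3 and z, hence with x z ... use that z^3 = (xz)^2 commutes with xz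
        have c1 : Commute (z ^ 3) (xx a z (r ^ (k + 1)) * z) := by
          rw [← h1]; exact (Commute.refl _).pow_left 2
        have c2 : Commute (z ^ 3) z⁻¹ := ((Commute.refl z).pow_left 3).inv_right
        have := c1.mul_right c2
        simpa using this
      exact hc2)

theorem BaseRel.sq (h : BaseRel p r m a z b) (i j : ZMod p) (hij : i ≠ j) :
    (xx a z i * xx a z j) ^ 2 = xx a z i ^ 3 := by
  have h1 := h.sq0 (j - i) (sub_ne_zero.2 hij.symm)
  have h2 : (al a i * (z * xx a z (j - i)) * (al a i)⁻¹) ^ 2 = al a i * z ^ 3 * (al a i)⁻¹ := by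
    rw [conj_pow, h1]
  have h3 : al a i * (z * xx a z (j - i)) * (al a i)⁻¹ = xx a z i * xx a z j := by
    have e1 := xx_conj (z := z) h.ap i (j - i)
    rw [add_sub_cancel] at e1
    have e0 : xx a z i = al a i * z * (al a i)⁻¹ := rfl
    rw [← e1, e0]; group
  rw [h3, ← conj_pow] at h2
  exact h2

theorem BaseRel.cube_eq (h : BaseRel p r m a z b) (i : ZMod p) : xx a z i ^ 3 = z ^ 3 := by
  by_cases hi : i = 0
  · rw [hi, xx_zero]
  · have h1 := h.sq i 0 hi
    have h2 := h.sq 0 i (Ne.symm hi)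
    have h3 := sq_comm h2 ((Commute.refl _).pow_left 3)
    rw [h1, xx_zero] at h3
    exact h3

theorem BaseRel.comm (h : BaseRel p r m a z b) (i : ZMod p) : Commute (z ^ 3) (xx a z i) := by
  rw [← h.cube_eq i]
  exact (Commute.refl _).pow_left 3

theorem BaseRel.w_sq (h : BaseRel p r m a z b) : z ^ 3 * z ^ 3 = 1 := by
  have h1 := h.sq0 1 one_ne_zero
  exact tetra (y := xx a z (1 : ZMod p)) (h.cube_eq 1).symm h1.symm

theorem BaseRel.closure_xx (h : BaseRel p r m a z b) (hb : b ∈ closure ({a, z} : Set G)) :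
    closure (Set.range (xx a z : ZMod p → G)) = closure ({a, z} : Set G) := by
  set N := closure (Set.range (xx a z : ZMod p → G)) with hN
  have hx : ∀ i, xx a z i ∈ N := fun i => subset_closure ⟨i, rfl⟩
  have hz : z ∈ N := by have := hx 0; rwa [xx_zero] at this
  have haN : ∀ n ∈ N, a * n * a⁻¹ ∈ N := by
    intro n hn
    have hmap : N.map (MulAut.conj a).toMonoidHom ≤ N := by
      rw [hN, MonoidHom.map_closure, closure_le]
      rintro _ ⟨_, ⟨i, rfl⟩, rfl⟩
      change a * xx a z i * a⁻¹ ∈ _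
      have := xx_conj (z := z) h.ap 1 i
      rw [al_one h.ap] at this
      rw [this]
      exact hx _
    exact hmap (mem_map_of_mem _ hn)
  have haN' : ∀ (k : ℕ), ∀ n ∈ N, a ^ k * n * (a ^ k)⁻¹ ∈ N := by
    intro k
    induction k with
    | zero => intro n hn; simpa using hn
    | succ k ih =>
      intro n hn
      have := haN _ (ih n hn)
      rw [pow_succ']
      simpa [mul_assoc] using this
  have hainv : a⁻¹ = a ^ (p - 1) := by
    rw [eq_comm, ← mul_eq_one_iff_eq_inv, ← pow_succ, Nat.sub_add_cancel hp.out.one_le]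
    exact h.ap
  -- every element of closure {a,z} is a^k n
  have hform : ∀ g ∈ closure ({a, z} : Set G), ∃ k : ℕ, ∃ n ∈ N, g = n * a ^ k := by
    have hstep : ∀ s ∈ ({a, z} : Set G), ∀ g : G, (∃ k : ℕ, ∃ n ∈ N, g = n * a ^ k) →
        (∃ k : ℕ, ∃ n ∈ N, g * s = n * a ^ k) := by
      rintro s hs g ⟨k, n, hn, rfl⟩
      rcases hs with rfl | hs
      · exact ⟨k + 1, n, hn, by rw [pow_succ, mul_assoc]⟩
      · rw [Set.mem_singleton_iff] at hs
        subst hs
        exact ⟨k, n * (a ^ k * s * (a ^ k)⁻¹), N.mul_mem hn (haN' k s hz), by group⟩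
    intro g hg
    induction hg using Subgroup.closure_induction_right with
    | one => exact ⟨0, 1, N.one_mem, by simp⟩
    | mul_right g hg s hs ih => exact hstep s hs g ih
    | mul_inv_cancel g hg s hs ih =>
      rcases hs with rfl | hs
      · obtain ⟨k, n, hn, rfl⟩ := ih
        exact ⟨k + (p - 1), n, hn, by rw [hainv, pow_add, mul_assoc]⟩
      · rw [Set.mem_singleton_iff] at hs
        subst hs
        obtain ⟨k, n, hn, rfl⟩ := ih
        exact ⟨k, n * (a ^ k * s⁻¹ * (a ^ k)⁻¹), N.mul_mem hn (haN' k _ (N.inv_mem hz)), by group⟩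
  -- a in N
  have haN1 : a ∈ N := by
    obtain ⟨k, n, hn, hbk⟩ := hform b hb
    have h1 := h.r2
    rw [hbk] at h1
    -- n a^k a^(m+1) a^-k n^-1 = a^m
    have h2 : n * a ^ (m + 1) * n⁻¹ = a ^ m := by
      rw [← h1]
      have : a ^ k * a ^ (m + 1) = a ^ (m + 1) * a ^ k := by rw [← pow_add, ← pow_add, add_comm]
      calc n * a ^ (m + 1) * n⁻¹ = n * (a ^ (m + 1) * a ^ k) * (a ^ k)⁻¹ * n⁻¹ := by group
        _ = n * (a ^ k * a ^ (m + 1)) * (a ^ k)⁻¹ * n⁻¹ := by rw [this]
        _ = _ := by group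
    have h3 : n * (a ^ (m + 1) * n⁻¹ * (a ^ (m + 1))⁻¹) = a⁻¹ := by
      calc n * (a ^ (m + 1) * n⁻¹ * (a ^ (m + 1))⁻¹) = (n * a ^ (m + 1) * n⁻¹) * (a ^ (m + 1))⁻¹ := by group
        _ = a⁻¹ := by rw [h2, pow_succ]; group
    have h4 : a⁻¹ ∈ N := by
      rw [← h3]
      exact N.mul_mem hn (haN' (m + 1) _ (N.inv_mem hn))
    simpa using N.inv_mem h4
  apply le_antisymm
  · rw [hN, closure_le]
    rintro _ ⟨i, rfl⟩
    have ha : a ∈ closure ({a, z} : Set G) := subset_closure (by simp)
    have hzz : z ∈ closure ({a, z} : Set G) := subset_closure (by simp)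
    exact mul_mem (mul_mem (pow_mem ha _) hzz) (inv_mem (pow_mem ha _))
  · rw [closure_le]
    rintro g (rfl | hg)
    · exact haN1
    · rw [Set.mem_singleton_iff] at hg
      subst hg; exact hz

/-- the kernel of a map to permutations sending `xx i` to the 3-cycles `X i` is generated by `z ^ 3` -/
theorem BaseRel.ker (h : BaseRel p r m a z b) (hb : b ∈ closure ({a, z} : Set G)) {H : Type*} [Group H]
    (π : G →* H) (ι : Perm (Option (Option (ZMod p))) →* H) (hι : Function.Injective ι)
    (hπ : ∀ i : ZMod p, π (xx a z i) = ι (X i)) (g : G) (hg : g ∈ closure ({a, z} : Set G)) (hg1 : π g = 1) :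
    g = 1 ∨ g = z ^ 3 := by
  rw [← h.closure_xx hb] at hg
  set N := closure (Set.range (xx a z : ZMod p → G)) with hN
  have hx : ∀ i, xx a z i ∈ N := fun i => subset_closure ⟨i, rfl⟩
  have hz : z ∈ N := by have := hx 0; rwa [xx_zero] at this
  let w : N := ⟨z ^ 3, N.pow_mem hz 3⟩
  have hwc : ∀ n : N, Commute w n := by
    intro n
    have : ∀ n ∈ N, Commute (z ^ 3) n := by
      intro n hn
      induction hn using Subgroup.closure_induction with
      | mem g hg => obtain ⟨i, rfl⟩ := hg; exact h.comm i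
      | one => exact Commute.one_right _
      | mul g k _ _ ih1 ih2 => exact ih1.mul_right ih2
      | inv g _ ih => exact ih.inv_right
    exact Subtype.ext (this n n.2)
  have hnorm : (zpowers w).Normal := by
    constructor
    intro n hn g
    obtain ⟨k, rfl⟩ := mem_zpowers_iff.1 hn
    have : g * w ^ k * g⁻¹ = w ^ k := by
      rw [(((hwc g).zpow_left k).eq).symm]; group
    rw [this]
    exact zpow_mem (mem_zpowers w) k
  let q := QuotientGroup.mk' (zpowers w)
  have hq : ∀ n : N, q n = 1 ↔ n ∈ zpowers w := fun n => QuotientGroup.eq_one_iff n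
  obtain ⟨φ, hφ⟩ := exists_hom (fun i : ZMod p => q ⟨xx a z i, hx i⟩) (by
      intro i
      rw [← map_pow, hq]
      have : (⟨xx a z i, hx i⟩ : N) ^ 3 = w := Subtype.ext (h.cube_eq i)
      rw [this]
      exact mem_zpowers w) (by
      intro i j hij
      rw [← map_mul, ← map_pow, hq]
      have : ((⟨xx a z i, hx i⟩ : N) * ⟨xx a z j, hx j⟩) ^ 2 = w :=
        Subtype.ext ((h.sq i j hij).trans (h.cube_eq i))
      rw [this]
      exact mem_zpowers w)
  have hπw : π (z ^ 3) = 1 := by
    have := hπ 0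
    rw [xx_zero] at this
    rw [map_pow, this, ← map_pow, X_cube, map_one]
  let πb : (N ⧸ zpowers w) →* H := QuotientGroup.lift (zpowers w) (π.comp N.subtype) (by
    rw [zpowers_le]
    exact hπw)
  have hπb : ∀ n : N, πb (q n) = π n := fun n => rfl
  have hcomp : πb.comp φ = ι.comp (alternatingGroup (Option (Option (ZMod p)))).subtype := by
    refine MonoidHom.eq_of_eqOn_dense closure_XA ?_
    rintro _ ⟨i, rfl⟩
    change πb (φ (XA i)) = ι (X i)
    rw [hφ, hπb, hπ]
  have hsurj : Function.Surjective φ := by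
    rw [← MonoidHom.range_eq_top, eq_top_iff]
    rintro y -
    obtain ⟨⟨n, hn⟩, rfl⟩ := QuotientGroup.mk'_surjective (zpowers w) y
    have : ∀ n (hn : n ∈ N), q ⟨n, hn⟩ ∈ φ.range := by
      intro n hn
      induction hn using Subgroup.closure_induction with
      | mem g hg => obtain ⟨i, rfl⟩ := hg; exact ⟨XA i, hφ i⟩
      | one => exact ⟨1, by rw [map_one]; exact (map_one q).symm⟩
      | mul g k hg hk ih1 ih2 =>
        have : (⟨g * k, N.mul_mem hg hk⟩ : N) = ⟨g, hg⟩ * ⟨k, hk⟩ := rfl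
        rw [this, map_mul]
        exact mul_mem ih1 ih2
      | inv g hg ih =>
        have : (⟨g⁻¹, N.inv_mem hg⟩ : N) = (⟨g, hg⟩)⁻¹ := rfl
        rw [this, map_inv]
        exact inv_mem ih
    exact this n hn
  obtain ⟨t, ht⟩ := hsurj (q ⟨g, hg⟩)
  have ht1 : t = 1 := by
    have h1 : πb (φ t) = 1 := by rw [ht, hπb]; exact hg1
    have h2 : ι (t : Perm (Option (Option (ZMod p)))) = 1 := by
      have := DFunLike.congr_fun hcomp t
      exact this.symm.trans h1
    have h3 : (t : Perm (Option (Option (ZMod p)))) = 1 := hι (by rw [h2, map_one])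
    exact Subtype.ext h3
  rw [ht1, map_one] at ht
  have h4 := (hq _).1 ht.symm
  obtain ⟨k, hk⟩ := mem_zpowers_iff.1 h4
  have hk' : (z ^ 3) ^ k = g := congrArg Subtype.val hk
  have hw2 : (z ^ 3) ^ (2 : ℤ) = 1 := by
    have := h.w_sq
    rw [← pow_two] at this
    exact_mod_cast this
  rcases Int.even_or_odd' k with ⟨l, rfl | rfl⟩
  · left
    rw [← hk', zpow_mul, hw2, one_zpow]
  · right
    rw [← hk', zpow_add, zpow_mul, hw2, one_zpow, one_mul, zpow_one]

end base

end Cfsg.Agent.GK
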