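import Cfsg.Agent.GK.Glue

/-!
Concrete permutations of `Option (Option Λ)` and the abstract side of the base group inside a glued group.
-/

set_option autoImplicit false

namespace Cfsg.Agent.GK

open Subgroup Equiv

section iota
variable {J Λ : Type*} [DecidableEq J] [DecidableEq Λ] (e : J ↪ Λ)

/-- extension of permutations along the embedding of labels -/
noncomputable def EE : Perm J →* Perm Λ := Perm.viaEmbeddingHom e

/-- extension of permutations along the embedding of points -/
noncomputable def io : Perm (Option (Option J)) →* Perm (Option (Option Λ)) :=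
  Perm.viaEmbeddingHom e.optionMap.optionMap

omit [DecidableEq J] [DecidableEq Λ] in
theorem EE_apply (g : Perm J) (x : J) : EE e g (e x) = e (g x) := Perm.viaEmbedding_apply g e x

omit [DecidableEq J] [DecidableEq Λ] in
theorem EE_apply_of (g : Perm J) (x : Λ) (hx : x ∉ Set.range e) : EE e g x = x :=
  Perm.viaEmbedding_apply_of_notMem g e x hx

omit [DecidableEq J] [DecidableEq Λ] in
theorem io_injective : Function.Injective (io e) := Perm.viaEmbeddingHom_injective _

omit [DecidableEq J] [DecidableEq Λ] in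
theorem EE_injective : Function.Injective (EE e) := Perm.viaEmbeddingHom_injective _

omit [DecidableEq J] [DecidableEq Λ] in
theorem io_eq (g : Perm (Option (Option J))) (h : Perm (Option (Option Λ)))
    (h1 : ∀ x, h (Option.map (Option.map e) x) = Option.map (Option.map e) (g x))
    (h2 : ∀ l : Λ, l ∉ Set.range e → h (some (some l)) = some (some l)) : io e g = h := by
  ext1 y
  by_cases hy : y ∈ Set.range (e.optionMap.optionMap)
  · obtain ⟨x, rfl⟩ := hy
    refine (Perm.viaEmbedding_apply g e.optionMap.optionMap x).trans ?_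
    exact (h1 x).symm
  · refine (Perm.viaEmbedding_apply_of_notMem g e.optionMap.optionMap y hy).trans ?_
    rcases y with _ | _ | l
    · exact absurd ⟨none, rfl⟩ hy
    · exact absurd ⟨some none, rfl⟩ hy
    · refine (h2 l ?_).symm
      rintro ⟨j, rfl⟩
      exact hy ⟨some (some j), rfl⟩

omit [DecidableEq J] [DecidableEq Λ] in
theorem io_up (g : Perm J) : io e (up g) = up (EE e g) := by
  refine io_eq e _ _ ?_ ?_
  · intro x
    rcases x with _ | _ | x
    · rfl
    · rfl
    · simp [EE_apply]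
  · intro l hl
    rw [up_some_some, EE_apply_of e g l hl]

theorem io_tau : io e tau = tau := by
  refine io_eq e _ _ ?_ ?_
  · intro x
    rcases x with _ | _ | x <;> simp
  · intro l hl
    simp

theorem io_X (i : J) : io e (X i) = X (e i) := by
  refine io_eq e _ _ ?_ ?_
  · intro x
    rcases x with _ | _ | x
    · simp
    · simp
    · by_cases h : x = i
      · subst h; simp
      · rw [X_other h]
        simp [X_other (e.injective.ne h)]
  · intro l hl
    exact X_other (fun h => hl ⟨i, h.symm⟩)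

end iota

section signs
variable {Λ : Type*} [DecidableEq Λ] [Fintype Λ]

theorem sign_up (g : Perm Λ) : Perm.sign (up g) = Perm.sign g := by
  change Perm.sign (Equiv.optionCongr (Equiv.optionCongr g)) = _
  rw [Equiv.optionCongr_sign, Equiv.optionCongr_sign]

end signs

section rot

/-- rotation of `ZMod N` -/
def rot (N : ℕ) : Perm (ZMod N) := Equiv.addLeft 1

@[simp] theorem rot_apply (N : ℕ) (x : ZMod N) : rot N x = 1 + x := rfl

theorem rot_pow (N k : ℕ) (x : ZMod N) : (rot N ^ k) x = k + x := by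
  induction k with
  | zero => simp
  | succ k ih => rw [pow_succ', Perm.mul_apply, ih, rot_apply]; push_cast; ring

theorem rot_pow_self (N : ℕ) : rot N ^ N = 1 := by
  ext x; rw [rot_pow]; simp

theorem sign_rot (N : ℕ) [NeZero N] : Perm.sign (rot N) = (-1) ^ (N - 1) := by
  obtain ⟨n, rfl⟩ := Nat.exists_eq_succ_of_ne_zero (NeZero.ne N)
  have h1 : (rot (n + 1) : Perm (Fin (n + 1))) = finRotate (n + 1) := by
    refine Equiv.ext fun x => ?_
    have h2 : ∀ x : Fin (n + 1), finRotate (n + 1) x = x + 1 := fun x => finRotate_apply x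
    exact (@add_comm (ZMod (n + 1)) _ 1 x).trans (h2 x).symm
  have h3 := sign_finRotate (n + 1)
  rw [← h1] at h3
  have h5 : ∀ (d1 d2 : DecidableEq (Fin (n + 1))) (f1 f2 : Fintype (Fin (n + 1))) (g : Perm (Fin (n + 1))),
      @Perm.sign _ d1 f1 g = @Perm.sign _ d2 f2 g := by
    intro d1 d2 f1 f2 g
    rw [Subsingleton.elim d1 d2, Subsingleton.elim f1 f2]
  exact (h5 _ _ _ _ _).trans h3

end rot

section cyc
variable {S : Type*} [DecidableEq S] (N : ℕ)

/-- the long cycle on the labels -/
def cL (N : ℕ) (S : Type*) : Perm (ZMod N ⊕ S) := Equiv.sumCongr (rot N) (Equiv.refl S)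

omit [DecidableEq S] in
@[simp] theorem cL_inl (i : ZMod N) : cL N S (Sum.inl i) = Sum.inl (1 + i) := rfl
omit [DecidableEq S] in
@[simp] theorem cL_inr (s : S) : cL N S (Sum.inr s) = Sum.inr s := rfl

omit [DecidableEq S] in
theorem cL_pow_inl (k : ℕ) (i : ZMod N) : (cL N S ^ k) (Sum.inl i) = Sum.inl (k + i) := by
  induction k with
  | zero => simp
  | succ k ih => rw [pow_succ', Perm.mul_apply, ih, cL_inl]; push_cast; congr 1; ring

omit [DecidableEq S] in
theorem cL_pow_inr (k : ℕ) (s : S) : (cL N S ^ k) (Sum.inr s) = Sum.inr s := by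
  induction k with
  | zero => simp
  | succ k ih => rw [pow_succ', Perm.mul_apply, ih, cL_inr]

omit [DecidableEq S] in
theorem cL_pow_self : cL N S ^ N = 1 := by
  ext1 x
  rcases x with i | s
  · rw [cL_pow_inl]; simp
  · rw [cL_pow_inr]; rfl

theorem sign_cL [NeZero N] [Fintype S] : Perm.sign (cL N S) = (-1) ^ (N - 1) := by
  have : Perm.sign (cL N S) = Perm.sign (rot N) * Perm.sign (Equiv.refl S) := Perm.sign_sumCongr _ _
  rw [this, sign_rot]
  have : Perm.sign (Equiv.refl S) = 1 := Perm.sign_one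
  rw [this, mul_one]

/-- an auxiliary: if an orbit of `f` closes up after `M` steps and everything else is fixed, `f ^ M = 1` -/
theorem pow_eq_one_of_orbit {α : Type*} (f : Perm α) (x0 : α) (M : ℕ) (h : (f ^ M) x0 = x0)
    (hall : ∀ x, (∃ k, (f ^ k) x0 = x) ∨ f x = x) : f ^ M = 1 := by
  ext1 x
  rcases hall x with ⟨k, rfl⟩ | hx
  · rw [← Perm.mul_apply, ← pow_add, add_comm, pow_add, Perm.mul_apply, h]; rfl
  · have : ∀ k : ℕ, (f ^ k) x = x := by
      intro k
      induction k with
      | zero => rfl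
      | succ k ih => rw [pow_succ', Perm.mul_apply, ih, hx]
    exact this M

/-- even/odd: the order of `c X₀` when `c` fixes the two extra points -/
theorem cX_pow_fix [NeZero N] : (up (cL N S) * X (Sum.inl 0)) ^ (N + 2) = 1 := by
  set f := up (cL N S) * X (Sum.inl 0 : ZMod N ⊕ S) with hf
  have f0 : f none = some none := by simp [hf]
  have f1 : f (some none) = some (some (Sum.inl 1)) := by simp [hf]
  have f2 : f (some (some (Sum.inl 0))) = none := by simp [hf]
  have f3 : ∀ i : ZMod N, i ≠ 0 → f (some (some (Sum.inl i))) = some (some (Sum.inl (1 + i))) := by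
    intro i hi
    rw [hf, Perm.mul_apply, X_other (by simpa using hi)]; rfl
  have h4 : ∀ k : ℕ, k + 1 ≤ N → (f ^ (k + 2)) none = some (some (Sum.inl ((k + 1 : ℕ) : ZMod N))) := by
    intro k
    induction k with
    | zero =>
      intro _
      rw [zero_add, pow_two, Perm.mul_apply, f0, f1]; simp
    | succ k ih =>
      intro hk
      rw [show k + 1 + 2 = (k + 2) + 1 from rfl, pow_succ', Perm.mul_apply, ih (by omega), f3]
      · congr 3; push_cast; ring
      · intro h0
        rw [ZMod.natCast_eq_zero_iff] at h0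
        exact absurd (Nat.le_of_dvd (by omega) h0) (by omega)
  have hN : 0 < N := Nat.pos_of_ne_zero (NeZero.ne N)
  have h5 : (f ^ (N + 1)) none = some (some (Sum.inl 0)) := by
    have := h4 (N - 1) (by omega)
    rw [show N - 1 + 2 = N + 1 by omega, show N - 1 + 1 = N by omega] at this
    rw [this]; simp
  refine pow_eq_one_of_orbit f none (N + 2) ?_ ?_
  · rw [show N + 2 = (N + 1) + 1 from rfl, pow_succ', Perm.mul_apply, h5, f2]
  · intro x
    rcases x with _ | _ | i | s
    · exact Or.inl ⟨0, rfl⟩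
    · exact Or.inl ⟨1, by rw [pow_one, f0]⟩
    · left
      by_cases hi : i = 0
      · exact ⟨N + 1, by rw [h5, hi]⟩
      · have hv : i.val ≠ 0 := fun h => hi ((ZMod.val_eq_zero i).1 h)
        have hlt := i.val_lt
        refine ⟨i.val - 1 + 2, ?_⟩
        rw [h4 _ (by omega), show i.val - 1 + 1 = i.val by omega, ZMod.natCast_zmod_val]
    · right
      rw [hf, Perm.mul_apply, X_other (by simp)]; rfl

/-- the order of `c X₀` when `c` interchanges the two extra points -/
theorem cX_pow_swap [NeZero N] : (up (cL N S) * tau * X (Sum.inl 0)) ^ (N + 1) = 1 := by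
  set f := up (cL N S) * tau * X (Sum.inl 0 : ZMod N ⊕ S) with hf
  have f0 : f none = none := by simp [hf]
  have f1 : f (some none) = some (some (Sum.inl 1)) := by simp [hf]
  have f2 : f (some (some (Sum.inl 0))) = some none := by simp [hf]
  have f3 : ∀ i : ZMod N, i ≠ 0 → f (some (some (Sum.inl i))) = some (some (Sum.inl (1 + i))) := by
    intro i hi
    rw [hf, Perm.mul_apply, X_other (by simpa using hi), Perm.mul_apply, tau_some_some]; rfl
  have h4 : ∀ k : ℕ, k + 1 ≤ N → (f ^ (k + 1)) (some none) = some (some (Sum.inl ((k + 1 : ℕ) : ZMod N))) := by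
    intro k
    induction k with
    | zero =>
      intro _
      rw [zero_add, pow_one, f1]; simp
    | succ k ih =>
      intro hk
      rw [pow_succ', Perm.mul_apply, ih (by omega), f3]
      · congr 3; push_cast; ring
      · intro h0
        rw [ZMod.natCast_eq_zero_iff] at h0
        exact absurd (Nat.le_of_dvd (by omega) h0) (by omega)
  have hN : 0 < N := Nat.pos_of_ne_zero (NeZero.ne N)
  have h5 : (f ^ N) (some none) = some (some (Sum.inl 0)) := by
    have := h4 (N - 1) (by omega)
    rw [show N - 1 + 1 = N by omega] at this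
    rw [this]; simp
  refine pow_eq_one_of_orbit f (some none) (N + 1) ?_ ?_
  · rw [pow_succ', Perm.mul_apply, h5, f2]
  · intro x
    rcases x with _ | _ | i | s
    · exact Or.inr f0
    · exact Or.inl ⟨0, rfl⟩
    · left
      by_cases hi : i = 0
      · exact ⟨N, by rw [h5, hi]⟩
      · have hv : i.val ≠ 0 := fun h => hi ((ZMod.val_eq_zero i).1 h)
        have hlt := i.val_lt
        refine ⟨i.val - 1 + 1, ?_⟩
        rw [h4 _ (by omega), show i.val - 1 + 1 = i.val by omega, ZMod.natCast_zmod_val]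
    · right
      rw [hf, Perm.mul_apply, X_other (by simp), Perm.mul_apply, tau_some_some]; rfl

end cyc

section abs
variable {G : Type*} [Group G] {p : ℕ} [hp : Fact p.Prime] {r : ZMod p} {m : ℕ} {a z b v d : G}
  {Λ : Type*} [DecidableEq Λ] {e : ZMod p ↪ Λ} {π : G →* Perm (Option (Option Λ))} {v0 : Perm (ZMod p)}
  {σ : ℤˣ}

omit [DecidableEq Λ] in
theorem pi_xx (ha : π a = io e (up (rot p))) (hz : π z = io e (X 0)) (i : ZMod p) :
    π (xx a z i) = io e (X i) := by
  have h1 : π (al a i) = io e (up (rot p ^ i.val)) := by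
    rw [al, map_pow, ha, ← map_pow, ← map_pow]
  rw [xx, map_mul, map_mul, map_inv, h1, hz, ← map_inv, ← map_mul, ← map_mul, up_conj_X]
  congr 2
  rw [rot_pow]; simp

theorem z_cube (h : BaseRel p r m a z b) (r5 : d * z ^ 4 * d⁻¹ = z ^ (σ : ℤ)) : z ^ 3 = 1 := by
  have h1 : (d * z ^ 4 * d⁻¹) ^ 3 = (z ^ (σ : ℤ)) ^ 3 := by rw [r5]
  have h2 : (z ^ 4) ^ 3 = 1 := by
    have := h.w_sq
    calc (z ^ 4) ^ 3 = (z ^ 3 * z ^ 3) ^ 2 := by rw [← pow_mul, ← pow_add, ← pow_mul]
      _ = 1 := by rw [this, one_pow]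
  rw [conj_pow, h2, mul_one, mul_inv_cancel] at h1
  rcases Int.units_eq_one_or σ with rfl | rfl
  · simpa using h1.symm
  · have := h1.symm
    simp only [Units.val_neg, Units.val_one, zpow_neg, zpow_one, inv_pow, inv_eq_one] at this
    exact this

theorem inj0 (h : BaseRel p r m a z b) (hb : b ∈ closure ({a, z} : Set G)) (z3 : z ^ 3 = 1)
    (ha : π a = io e (up (rot p))) (hz : π z = io e (X 0)) (g : G) (hg : g ∈ closure ({a, z} : Set G))
    (hg1 : π g = 1) : g = 1 := by
  rcases h.ker hb π (io e) (io_injective e) (pi_xx ha hz) g hg hg1 with h1 | h1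
  · exact h1
  · rw [h1, z3]

theorem inj0' (h : BaseRel p r m a z b) (hb : b ∈ closure ({a, z} : Set G)) (z3 : z ^ 3 = 1)
    (ha : π a = io e (up (rot p))) (hz : π z = io e (X 0)) {g g' : G} (hg : g ∈ closure ({a, z} : Set G))
    (hg' : g' ∈ closure ({a, z} : Set G)) (hgg : π g = π g') : g = g' := by
  have := inj0 h hb z3 ha hz (g * g'⁻¹) (mul_mem hg (inv_mem hg')) (by rw [map_mul, map_inv, hgg]; group)
  exact mul_inv_eq_one.1 this

omit hp in
theorem xx_mem (i : ZMod p) : xx a z i ∈ closure ({a, z} : Set G) := by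
  have ha : a ∈ closure ({a, z} : Set G) := subset_closure (by simp)
  have hzz : z ∈ closure ({a, z} : Set G) := subset_closure (by simp)
  exact mul_mem (mul_mem (pow_mem ha _) hzz) (inv_mem (pow_mem ha _))

theorem v_xx (h : BaseRel p r m a z b) (hb : b ∈ closure ({a, z} : Set G)) (z3 : z ^ 3 = 1)
    (ha : π a = io e (up (rot p))) (hz : π z = io e (X 0)) (hv : v ∈ closure ({a, z} : Set G))
    (hpv : π v = io e (up v0 * tau)) (k : ℕ) :
    v ^ k * z * (v ^ k)⁻¹ = xx a z ((v0 ^ k) 0) ^ ((((-1 : ℤˣ) ^ k : ℤˣ)) : ℤ) := by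
  have hz0 : z ∈ closure ({a, z} : Set G) := subset_closure (by simp)
  induction k with
  | zero => simp [xx_zero]
  | succ k ih =>
    have h1 : v ^ (k + 1) * z * (v ^ (k + 1))⁻¹ = v * (v ^ k * z * (v ^ k)⁻¹) * v⁻¹ := by
      rw [pow_succ']; group
    rw [h1, ih]
    apply inj0' h hb z3 ha hz
    · exact mul_mem (mul_mem hv (zpow_mem (xx_mem _) _)) (inv_mem hv)
    · exact zpow_mem (xx_mem _) _
    · rw [map_mul, map_mul, map_inv, map_zpow, map_zpow, pi_xx ha hz, pi_xx ha hz, hpv, conj_upow]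
      rw [← map_inv, ← map_mul, ← map_mul, ← map_zpow, ← map_zpow]
      congr 1
      have h2 : up v0 * tau * X ((v0 ^ k) 0) * (up v0 * tau)⁻¹ = (X ((v0 ^ (k + 1)) 0))⁻¹ := by
        have h3 : up v0 * tau * X ((v0 ^ k) 0) * (up v0 * tau)⁻¹ =
            up v0 * (tau * X ((v0 ^ k) 0) * tau⁻¹) * (up v0)⁻¹ := by group
        rw [h3, tau_conj_X, ← conj_inv, up_conj_X, pow_succ', Perm.mul_apply]
      have h4 : ((-1 : ℤˣ) ^ (k + 1)) = (-1) ^ k * (-1) := pow_succ _ _
      rw [h2, h4, Units.val_mul, mul_comm, zpow_mul]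
      simp

theorem d_xx (h : BaseRel p r m a z b) (hb : b ∈ closure ({a, z} : Set G)) (z3 : z ^ 3 = 1)
    (ha : π a = io e (up (rot p))) (hz : π z = io e (X 0)) (hv : v ∈ closure ({a, z} : Set G))
    (hpv : π v = io e (up v0 * tau)) (r5 : d * z ^ 4 * d⁻¹ = z ^ (σ : ℤ)) (r6 : d * v * d⁻¹ = v) (k : ℕ) :
    d * xx a z ((v0 ^ k) 0) * d⁻¹ = xx a z ((v0 ^ k) 0) ^ (σ : ℤ) := by
  have z4 : z ^ 4 = z := by rw [pow_succ, z3, one_mul]
  rw [z4] at r5
  have h1 := v_xx h hb z3 ha hz hv hpv k
  have h2 : xx a z ((v0 ^ k) 0) = (v ^ k * z * (v ^ k)⁻¹) ^ ((((-1 : ℤˣ) ^ k : ℤˣ)) : ℤ) := by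
    rw [h1, upow_upow]
  have h3 : d * (v ^ k * z * (v ^ k)⁻¹) * d⁻¹ = (v ^ k * z * (v ^ k)⁻¹) ^ (σ : ℤ) := by
    have h4 : d * v ^ k * d⁻¹ = v ^ k := by rw [← conj_pow, r6]
    have h5 : d * (v ^ k * z * (v ^ k)⁻¹) * d⁻¹ = (d * v ^ k * d⁻¹) * (d * z * d⁻¹) * (d * v ^ k * d⁻¹)⁻¹ := by
      group
    rw [h5, h4, r5, conj_upow]
  rw [h2, conj_upow, h3, ← zpow_mul, ← zpow_mul, mul_comm]

end abs

end Cfsg.Agent.GK
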