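import Cfsg.Agent.GK.Sp1

/-!
Embeddings of special linear groups along injections, and matrices fixing a coordinate decomposition.
-/

set_option autoImplicit false

namespace Cfsg.Agent.GK

open Subgroup

universe v

section emb
variable {F : Type v} [Field F] {κ l : Type*} [Fintype κ] [DecidableEq κ] [Fintype l] [DecidableEq l]

/-- block sum with the identity -/
def blk (κ : Type*) (μ : Type*) [Fintype κ] [DecidableEq κ] [Fintype μ] [DecidableEq μ] :
    Matrix.SpecialLinearGroup κ F →* Matrix.SpecialLinearGroup (κ ⊕ μ) F where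
  toFun A := ⟨Matrix.fromBlocks (A : Matrix κ κ F) 0 0 1, by
    rw [Matrix.det_fromBlocks_zero₂₁, A.2, Matrix.det_one, mul_one]⟩
  map_one' := Subtype.ext Matrix.fromBlocks_one
  map_mul' A B := by
    apply Subtype.ext
    change Matrix.fromBlocks ((A : Matrix κ κ F) * (B : Matrix κ κ F)) 0 0 1 =
      Matrix.fromBlocks (A : Matrix κ κ F) 0 0 1 * Matrix.fromBlocks (B : Matrix κ κ F) 0 0 1
    rw [Matrix.fromBlocks_multiply]
    simp

theorem blk_tv {μ : Type*} [Fintype μ] [DecidableEq μ] {i j : κ} (hij : i ≠ j)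
    (hij' : (Sum.inl i : κ ⊕ μ) ≠ Sum.inl j) (s : F) : blk κ μ (tvl hij s) = tvl hij' s := by
  apply Subtype.ext
  change Matrix.fromBlocks (Matrix.transvection i j s) 0 0 1 = Matrix.transvection (Sum.inl i) (Sum.inl j) s
  ext a b
  rcases a with a | a <;> rcases b with b | b <;>
    simp [Matrix.transvection, Matrix.single_apply, Matrix.one_apply]

open scoped Classical in
/-- the index equivalence -/
noncomputable def embE (e : κ → l) (he : Function.Injective e) : κ ⊕ ↥(Set.range e)ᶜ ≃ l :=
  (Equiv.sumCongr (Equiv.ofInjective e he) (Equiv.refl _)).trans (Equiv.Set.sumCompl (Set.range e))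

omit [DecidableEq κ] [Fintype l] in
theorem embE_inl (e : κ → l) (he : Function.Injective e) (i : κ) : embE e he (Sum.inl i) = e i := rfl

omit [DecidableEq κ] [Fintype l] in
theorem embE_symm (e : κ → l) (he : Function.Injective e) (i : κ) : (embE e he).symm (e i) = Sum.inl i := by
  rw [Equiv.symm_apply_eq]; rfl

omit [DecidableEq κ] [Fintype l] in
theorem embE_symm_of (e : κ → l) (he : Function.Injective e) {x : l} (hx : x ∉ Set.range e) :
    ∃ y, (embE e he).symm x = Sum.inr y := by
  rcases h : (embE e he).symm x with i | y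
  · exfalso
    apply hx
    rw [Equiv.symm_apply_eq] at h
    exact ⟨i, by rw [h]; rfl⟩
  · exact ⟨y, rfl⟩

open scoped Classical in
/-- the embedding of special linear groups -/
noncomputable def emb (e : κ → l) (he : Function.Injective e) :
    Matrix.SpecialLinearGroup κ F →* Matrix.SpecialLinearGroup l F :=
  (reSL (embE e he)).toMonoidHom.comp (blk κ ↥(Set.range e)ᶜ)

theorem tvl_congr {i j i' j' : l} (h : i ≠ j) (h' : i' ≠ j') (hi : i = i') (hj : j = j') (a : F) :
    tvl h a = tvl h' a := by
  subst hi; subst hj; rfl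

theorem emb_tv (e : κ → l) (he : Function.Injective e) {i j : κ} (h : i ≠ j) (h' : e i ≠ e j) (a : F) :
    emb e he (tvl h a) = tvl h' a := by
  classical
  change reSL (embE e he) (blk κ ↥(Set.range e)ᶜ (tvl h a)) = _
  rw [blk_tv h (fun hh => h (Sum.inl_injective hh)), reSL_tv (embE e he) _ h']
  rfl

theorem emb_apply (e : κ → l) (he : Function.Injective e) (A : Matrix.SpecialLinearGroup κ F) (i j : κ) :
    ((emb e he A : Matrix.SpecialLinearGroup l F) : Matrix l l F) (e i) (e j) = (A : Matrix κ κ F) i j := by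
  change Matrix.fromBlocks (A : Matrix κ κ F) 0 0 1 ((embE e he).symm (e i)) ((embE e he).symm (e j)) = _
  rw [embE_symm, embE_symm, Matrix.fromBlocks_apply₁₁]

theorem emb_apply_left (e : κ → l) (he : Function.Injective e) (A : Matrix.SpecialLinearGroup κ F) {x : l}
    (hx : x ∉ Set.range e) (y : l) :
    ((emb e he A : Matrix.SpecialLinearGroup l F) : Matrix l l F) x y = if x = y then 1 else 0 := by
  classical
  change Matrix.fromBlocks (A : Matrix κ κ F) 0 0 1 ((embE e he).symm x) ((embE e he).symm y) = _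
  obtain ⟨z, hz⟩ := embE_symm_of e he hx
  by_cases hy : y ∈ Set.range e
  · obtain ⟨j, rfl⟩ := hy
    rw [hz, embE_symm, Matrix.fromBlocks_apply₂₁, if_neg]
    · rfl
    · rintro rfl; exact hx ⟨j, rfl⟩
  · obtain ⟨w, hw⟩ := embE_symm_of e he hy
    rw [hz, hw, Matrix.fromBlocks_apply₂₂, Matrix.one_apply]
    congr 1
    rw [eq_iff_iff]
    constructor
    · rintro rfl
      exact (embE e he).symm.injective (hz.trans hw.symm)
    · rintro rfl
      exact Sum.inr_injective (hz.symm.trans hw)

theorem emb_apply_right (e : κ → l) (he : Function.Injective e) (A : Matrix.SpecialLinearGroup κ F) {y : l}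
    (hy : y ∉ Set.range e) (x : l) :
    ((emb e he A : Matrix.SpecialLinearGroup l F) : Matrix l l F) x y = if x = y then 1 else 0 := by
  by_cases hx : x ∈ Set.range e
  · obtain ⟨i, rfl⟩ := hx
    obtain ⟨w, hw⟩ := embE_symm_of e he hy
    change Matrix.fromBlocks (A : Matrix κ κ F) 0 0 1 ((embE e he).symm (e i)) ((embE e he).symm y) = _
    rw [hw, embE_symm, Matrix.fromBlocks_apply₁₂, if_neg]
    · rfl
    · rintro rfl; exact hy ⟨i, rfl⟩
  · exact emb_apply_left e he A hx y

end emb

section mo
variable {F : Type v} [Field F] {l : Type*} [Fintype l] [DecidableEq l]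

/-- `g e_i = c e_j`, and `g` maps the complement of `e_i` to that of `e_j` -/
def Mo (g : Matrix.SpecialLinearGroup l F) (i j : l) (c : Fˣ) : Prop :=
  (∀ m, (g : Matrix l l F) m i = if m = j then (c : F) else 0) ∧ (∀ m, (g : Matrix l l F) j m = if m = i then (c : F) else 0)

theorem Mo.one (i : l) : Mo (1 : Matrix.SpecialLinearGroup l F) i i 1 := by
  constructor
  · intro m
    rw [Matrix.SpecialLinearGroup.coe_one, Matrix.one_apply]; rfl
  · intro m
    rw [Matrix.SpecialLinearGroup.coe_one, Matrix.one_apply]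
    simp only [eq_comm, Units.val_one]

theorem Mo.mul {g h : Matrix.SpecialLinearGroup l F} {i j k : l} {c d : Fˣ} (hg : Mo g j k c) (hh : Mo h i j d) :
    Mo (g * h) i k (c * d) := by
  constructor
  · intro m
    rw [Matrix.SpecialLinearGroup.coe_mul, Matrix.mul_apply, Finset.sum_eq_single j]
    · rw [hg.1, hh.1, if_pos rfl]
      split_ifs
      · rw [Units.val_mul]
      · rw [zero_mul]
    · intro x _ hx
      rw [hh.1, if_neg hx, mul_zero]
    · intro h; exact absurd (Finset.mem_univ _) h
  · intro m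
    rw [Matrix.SpecialLinearGroup.coe_mul, Matrix.mul_apply, Finset.sum_eq_single j]
    · rw [hg.2, hh.2, if_pos rfl]
      split_ifs
      · rw [Units.val_mul]
      · rw [mul_zero]
    · intro x _ hx
      rw [hg.2, if_neg hx, zero_mul]
    · intro h; exact absurd (Finset.mem_univ _) h

theorem Mo.inv {g : Matrix.SpecialLinearGroup l F} {i j : l} {c : Fˣ} (hg : Mo g i j c) : Mo g⁻¹ j i c⁻¹ := by
  have hc := c.ne_zero
  have e1 : ((g⁻¹ : Matrix.SpecialLinearGroup l F) : Matrix l l F) * (g : Matrix l l F) = 1 := by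
    rw [← Matrix.SpecialLinearGroup.coe_mul, inv_mul_cancel, Matrix.SpecialLinearGroup.coe_one]
  have e2 : (g : Matrix l l F) * ((g⁻¹ : Matrix.SpecialLinearGroup l F) : Matrix l l F) = 1 := by
    rw [← Matrix.SpecialLinearGroup.coe_mul, mul_inv_cancel, Matrix.SpecialLinearGroup.coe_one]
  constructor
  · intro m
    have h := congrFun (congrFun e1 m) i
    rw [Matrix.mul_apply, Finset.sum_eq_single j, hg.1, if_pos rfl, Matrix.one_apply] at h
    · by_cases hm : m = i
      · rw [if_pos hm] at h
        rw [if_pos hm, Units.val_inv_eq_inv_val]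
        exact eq_inv_of_mul_eq_one_left h
      · rw [if_neg hm] at h
        rw [if_neg hm]
        exact (mul_eq_zero.1 h).resolve_right hc
    · intro x _ hx
      rw [hg.1, if_neg hx, mul_zero]
    · intro h; exact absurd (Finset.mem_univ _) h
  · intro m
    have h := congrFun (congrFun e2 j) m
    rw [Matrix.mul_apply, Finset.sum_eq_single i, hg.2, if_pos rfl, Matrix.one_apply] at h
    · by_cases hm : m = j
      · rw [if_pos hm.symm] at h
        rw [if_pos hm, Units.val_inv_eq_inv_val]
        exact eq_inv_of_mul_eq_one_right h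
      · rw [if_neg (Ne.symm hm)] at h
        rw [if_neg hm]
        exact (mul_eq_zero.1 h).resolve_left hc
    · intro x _ hx
      rw [hg.2, if_neg hx, zero_mul]
    · intro h; exact absurd (Finset.mem_univ _) h

theorem Mo.tv {i j k : l} (h : j ≠ k) (hj : i ≠ j) (hk : i ≠ k) (a : F) : Mo (tvl h a) i i 1 := by
  constructor
  · intro m
    rw [tvl_coe, Matrix.transvection, Matrix.add_apply, Matrix.one_apply, Matrix.single_apply]
    have : ¬ (j = m ∧ k = i) := fun h => hk h.2.symm
    rw [if_neg this, add_zero]; rfl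
  · intro m
    rw [tvl_coe, Matrix.transvection, Matrix.add_apply, Matrix.one_apply, Matrix.single_apply]
    have : ¬ (j = i ∧ k = m) := fun h => hj h.1.symm
    rw [if_neg this, add_zero]
    simp only [eq_comm, Units.val_one]

/-- conjugation of a transvection -/
theorem Mo.conj {g : Matrix.SpecialLinearGroup l F} {i j i' j' : l} {c d : Fˣ} (hi : Mo g i i' c) (hj : Mo g j j' d)
    (h : i ≠ j) (h' : i' ≠ j') (a : F) : g * tvl h a * g⁻¹ = tvl h' ((c : F) * a * ((d⁻¹ : Fˣ) : F)) := by
  have hd := d.ne_zero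
  rw [mul_inv_eq_iff_eq_mul]
  apply Subtype.ext
  rw [Matrix.SpecialLinearGroup.coe_mul, Matrix.SpecialLinearGroup.coe_mul, tvl_coe, tvl_coe]
  ext x y
  rw [Matrix.transvection, Matrix.transvection, mul_add, add_mul, mul_one, one_mul, Matrix.add_apply, Matrix.add_apply]
  congr 1
  rw [Matrix.mul_apply, Matrix.mul_apply, Finset.sum_eq_single i, Finset.sum_eq_single j']
  · rw [hi.1, hj.2]
    by_cases h1 : x = i' <;> by_cases h2 : y = j
    · subst h1; subst h2
      simp
    · subst h1
      simp [Matrix.single_apply, h2, Ne.symm h2]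
    · subst h2
      simp [Matrix.single_apply, h1, Ne.symm h1]
    · simp [Matrix.single_apply, h1, h2, Ne.symm h1]
  · intro z _ hz
    rw [Matrix.single_apply, if_neg (fun h => hz h.2.symm), zero_mul]
  · intro h; exact absurd (Finset.mem_univ _) h
  · intro z _ hz
    rw [Matrix.single_apply, if_neg (fun h => hz h.1.symm), mul_zero]
  · intro h; exact absurd (Finset.mem_univ _) h

/-- enough monomial matrices -/
theorem exists_mo {i j i' j' : l} (h : i ≠ j) (h' : i' ≠ j') : ∃ (g : Matrix.SpecialLinearGroup l F) (c : Fˣ),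
    c * c = 1 ∧ Mo g i i' c ∧ Mo g j j' 1 := by
  obtain ⟨σ, hσ⟩ := exists_perm (v := ![i, j]) (w := ![i', j'])
    (by intro x y hxy; fin_cases x <;> fin_cases y <;> simp_all [eq_comm])
    (by intro x y hxy; fin_cases x <;> fin_cases y <;> simp_all [eq_comm])
  have h0 : σ i = i' := hσ 0
  have h1 : σ j = j' := hσ 1
  have hsq : ((Equiv.Perm.sign σ : ℤ) : F) * ((Equiv.Perm.sign σ : ℤ) : F) = 1 := by
    rcases Int.units_eq_one_or (Equiv.Perm.sign σ) with h | h <;> rw [h] <;> simp
  let c : Fˣ := ⟨((Equiv.Perm.sign σ : ℤ) : F), ((Equiv.Perm.sign σ : ℤ) : F), hsq, hsq⟩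
  let D : Matrix l l F := Matrix.diagonal (fun x => if x = i then (c : F) else 1)
  have hD : D.det = (c : F) := by
    rw [Matrix.det_diagonal, Finset.prod_ite_eq' Finset.univ i]
    simp
  have hdet : ((pmat σ : Matrix l l F) * D).det = 1 := by
    rw [Matrix.det_mul, det_pmat, hD]; exact hsq
  have happ : ∀ x y, ((pmat σ : Matrix l l F) * D) x y = (if x = σ y then 1 else 0) * (if y = i then (c : F) else 1) := by
    intro x y
    rw [Matrix.mul_diagonal, pmat_apply]
  refine ⟨⟨(pmat σ : Matrix l l F) * D, hdet⟩, c, ?_, ⟨?_, ?_⟩, ⟨?_, ?_⟩⟩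
  · ext; exact hsq
  · intro m
    change ((pmat σ : Matrix l l F) * D) m i = _
    rw [happ, if_pos rfl, h0]
    split_ifs <;> simp
  · intro m
    change ((pmat σ : Matrix l l F) * D) i' m = _
    rw [happ, ← h0]
    by_cases hm : m = i
    · subst hm; simp
    · rw [if_neg hm, if_neg hm, if_neg (fun e => hm (σ.injective e).symm)]; simp
  · intro m
    change ((pmat σ : Matrix l l F) * D) m j = _
    rw [happ, if_neg (Ne.symm h), h1]
    split_ifs <;> simp
  · intro m
    change ((pmat σ : Matrix l l F) * D) j' m = _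
    rw [happ, ← h1]
    by_cases hm : m = j
    · subst hm; simp [Ne.symm h]
    · rw [if_neg hm, if_neg (fun e => hm (σ.injective e).symm)]; simp

end mo

end Cfsg.Agent.GK
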