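import Cfsg.Agent.GK.Pres

/-!
Final assembly: `A_n` and `S_n`, `n ≥ 5`, have presentations with three generators and seven relators.
-/

set_option autoImplicit false

namespace Cfsg.Agent.GK

open Subgroup Equiv

section close
variable {Λ : Type*} [DecidableEq Λ] [Fintype Λ] {ι : Type*}

theorem alt_le_closure {K : Subgroup (Perm (Option (Option Λ)))} (hX : ∀ l, X l ∈ K) :
    alternatingGroup (Option (Option Λ)) ≤ K := by
  rw [← closure_X, closure_le]
  rintro _ ⟨l, rfl⟩
  exact hX l

theorem close_alt (x : ι → Perm (Option (Option Λ))) (hX : ∀ l, X l ∈ closure (Set.range x))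
    (hs : ∀ i, Perm.sign (x i) = 1) : closure (Set.range x) = alternatingGroup (Option (Option Λ)) := by
  apply le_antisymm
  · rw [closure_le]
    rintro _ ⟨i, rfl⟩
    exact hs i
  · exact alt_le_closure hX

theorem close_sym (x : ι → Perm (Option (Option Λ))) (hX : ∀ l, X l ∈ closure (Set.range x))
    (i0 : ι) (hs : Perm.sign (x i0) = -1) : closure (Set.range x) = ⊤ := by
  have h1 := alt_le_closure hX
  rw [eq_top_iff]
  intro g _
  have hx0 : x i0 ∈ closure (Set.range x) := subset_closure ⟨i0, rfl⟩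
  rcases Int.units_eq_one_or (Perm.sign g) with hg | hg
  · exact h1 hg
  · have h2 : Perm.sign (g * x i0) = 1 := by rw [map_mul, hg, hs]; rfl
    have h3 : g * x i0 ∈ closure (Set.range x) := h1 h2
    have : g = (g * x i0) * (x i0)⁻¹ := by group
    rw [this]
    exact mul_mem h3 (inv_mem hx0)

theorem isPres_alt (x : ι → Perm (Option (Option Λ))) (R : Set (FreeGroup ι))
    (hX : ∀ l, X l ∈ closure (Set.range x)) (hs : ∀ i, Perm.sign (x i) = 1)
    (hrel : ∀ r ∈ R, FreeGroup.lift x r = 1)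
    (hinj : ∀ π : PresentedGroup R →* Perm (Option (Option Λ)), (∀ i, π (PresentedGroup.of i) = x i) →
      Function.Injective π) :
    IsPres R (fun i => (⟨x i, hs i⟩ : alternatingGroup (Option (Option Λ)))) := by
  set x' : ι → alternatingGroup (Option (Option Λ)) := fun i => ⟨x i, hs i⟩ with hx'
  have hlift : ∀ w, ((FreeGroup.lift x' w : alternatingGroup (Option (Option Λ))) :
      Perm (Option (Option Λ))) = FreeGroup.lift x w := by
    intro w
    have : (alternatingGroup (Option (Option Λ))).subtype.comp (FreeGroup.lift x') = FreeGroup.lift x := by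
      ext1 i
      simp [hx']
    exact DFunLike.congr_fun this w
  apply isPres_of_inj
  · intro r hr
    exact Subtype.ext ((hlift r).trans (hrel r hr))
  · have h1 : (closure (Set.range x')).map (alternatingGroup (Option (Option Λ))).subtype =
        alternatingGroup (Option (Option Λ)) := by
      rw [MonoidHom.map_closure, ← Set.range_comp]
      exact close_alt x hX hs
    rw [eq_top_iff]
    intro g _
    have h2 : (g : Perm (Option (Option Λ))) ∈
        (closure (Set.range x')).map (alternatingGroup (Option (Option Λ))).subtype := by rw [h1]; exact g.2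
    obtain ⟨g', hg', he⟩ := mem_map.1 h2
    have : g' = g := Subtype.ext he
    rwa [← this]
  · intro π hπ
    have h1 := hinj ((alternatingGroup (Option (Option Λ))).subtype.comp π) (fun i => by
      change ((π (PresentedGroup.of i) : alternatingGroup (Option (Option Λ))) : Perm (Option (Option Λ))) = x i
      rw [hπ])
    intro u w huw
    apply h1
    change ((π u : alternatingGroup (Option (Option Λ))) : Perm (Option (Option Λ))) = (π w : _)
    rw [huw]

theorem isPres_sym (x : ι → Perm (Option (Option Λ))) (R : Set (FreeGroup ι))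
    (hX : ∀ l, X l ∈ closure (Set.range x)) (i0 : ι) (hs : Perm.sign (x i0) = -1)
    (hrel : ∀ r ∈ R, FreeGroup.lift x r = 1)
    (hinj : ∀ π : PresentedGroup R →* Perm (Option (Option Λ)), (∀ i, π (PresentedGroup.of i) = x i) →
      Function.Injective π) : IsPres R x :=
  isPres_of_inj hrel (close_sym x hX i0 hs) hinj

end close

section AB
variable {p : ℕ} [hp : Fact p.Prime] {N : ℕ} [NeZero N]

theorem sign_io_rot {Λ : Type*} [DecidableEq Λ] [Fintype Λ] (hp3 : 3 ≤ p) (e : ZMod p ↪ Λ) :
    Perm.sign (io e (up (rot p))) = 1 := by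
  have h1 : (io e (up (rot p))) ^ p = 1 := by
    rw [← map_pow, ← map_pow, rot_pow_self, map_one, map_one]
  have h2 : Perm.sign (io e (up (rot p))) ^ p = 1 := by rw [← map_pow, h1, map_one]
  rcases Int.units_eq_one_or (Perm.sign (io e (up (rot p)))) with h | h
  · exact h
  · rw [h] at h2
    have hodd : Odd p := hp.out.odd_of_ne_two (by omega)
    rw [hodd.neg_one_pow] at h2
    exact absurd h2 (by decide)

theorem sign_c {S : Type*} [DecidableEq S] [Fintype S] (hN : Even N)
    {T : Perm (Option (Option (ZMod N ⊕ S)))} {σ : ℤˣ} (hT : IsT T σ) :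
    Perm.sign (up (cL N S) * T) = -σ := by
  have hodd : Odd (N - 1) := Nat.Even.sub_odd (Nat.pos_of_ne_zero (NeZero.ne N)) hN odd_one
  rw [map_mul, sign_up, sign_cL, hT.sign, hodd.neg_one_pow, neg_one_mul]

theorem IsT.comm {Λ : Type*} [DecidableEq Λ] {T : Perm (Option (Option Λ))} {σ : ℤˣ} (h : IsT T σ)
    {δ ν : Perm Λ} (hc : Commute δ ν) : (up δ * T) * (up ν * tau) * (up δ * T)⁻¹ = up ν * tau := by
  have h1 : Commute T (up ν * tau) := (h.comm_up ν).mul_right h.comm_tau
  have h2 : Commute (up δ) (up ν * tau) := (hc.map up).mul_right (tau_comm_up δ).symm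
  exact (h2.mul_left h1).mul_inv_cancel

omit [NeZero N] in
theorem Y_id {S : Type*} [DecidableEq S] {σ : ℤˣ}
    {T : Perm (Option (Option (ZMod N ⊕ S)))} (hT : IsT T σ) (n : ℕ) :
    Y (up (cL N S) * T) (X (Sum.inl 0)) σ n = X (Sum.inl (n : ZMod N)) :=
  pi_Y hT (MonoidHom.id _) rfl rfl n

theorem Y_mem {G : Type*} [Group G] {c y : G} {K : Subgroup G} (hc : c ∈ K) (hy : y ∈ K) (σ : ℤˣ) (n : ℕ) :
    Y c y σ n ∈ K := mul_mem (mul_mem (pow_mem hc _) (zpow_mem hy _)) (inv_mem (pow_mem hc _))

/-- the exponent in the last relation -/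
def MM (N : ℕ) (σ : ℤˣ) : ℕ := if σ = 1 then N + 2 else N + 1

omit [NeZero N] in
theorem MM_cases {Λ : Type*} [DecidableEq Λ] {T : Perm (Option (Option Λ))} {σ : ℤˣ} (hT : IsT T σ) :
    MM N σ = N + 1 ∨ MM N σ = N + 2 ∧ σ = 1 := by
  rcases hT with ⟨-, rfl⟩ | ⟨-, rfl⟩
  · right; simp [MM]
  · left; simp [MM]

theorem r7_conc {S : Type*} [DecidableEq S] {σ : ℤˣ} (hN : Even N)
    {T : Perm (Option (Option (ZMod N ⊕ S)))} (hT : IsT T σ) :
    (up (cL N S) * T) ^ N = (up (cL N S) * T * X (Sum.inl 0)) ^ (MM N σ) := by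
  have h1 : (up (cL N S) * T) ^ N = 1 := by
    have hc : Commute (up (cL N S)) T := (hT.comm_up _).symm
    have hT2 : ∀ n, Even n → T ^ n = 1 := by
      rintro _ ⟨k, rfl⟩
      rw [← two_mul, pow_mul, pow_two, hT.mul_self, one_pow]
    rw [hc.mul_pow, ← map_pow, cL_pow_self, map_one, one_mul, hT2 N hN]
  rw [h1]
  rcases hT with ⟨rfl, rfl⟩ | ⟨rfl, rfl⟩
  · rw [mul_one, MM, if_pos rfl, cX_pow_fix]
  · rw [MM, if_neg (by decide), cX_pow_swap]

/-- the data of a seven-relator presentation -/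
structure Seven (Λ : Type*) [DecidableEq Λ] [Fintype Λ] (σ : ℤˣ) (R : Finset (FreeGroup (Fin 3)))
    (x : Fin 3 → Perm (Option (Option Λ))) : Prop where
  card : R.card ≤ 7
  x1 : ∃ l, x 1 = X l
  gen : ∀ l, X l ∈ closure (Set.range x)
  s0 : Perm.sign (x 0) = 1
  s1 : Perm.sign (x 1) = 1
  s2 : Perm.sign (x 2) = -σ
  rel : ∀ r ∈ (R : Set (FreeGroup (Fin 3))), FreeGroup.lift x r = 1
  inj : ∀ π : PresentedGroup (R : Set (FreeGroup (Fin 3))) →* Perm (Option (Option Λ)),
    (∀ i, π (PresentedGroup.of i) = x i) → Function.Injective π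

theorem range3 {α : Type*} (x : Fin 3 → α) : Set.range x = {x 0, x 1, x 2} := by
  ext y
  simp only [Set.mem_range, Set.mem_insert_iff, Set.mem_singleton_iff]
  constructor
  · rintro ⟨i, rfl⟩
    fin_cases i <;> simp
  · rintro (rfl | rfl | rfl)
    exacts [⟨0, rfl⟩, ⟨1, rfl⟩, ⟨2, rfl⟩]

/-- embedding of the labels, type A -/
def eA (p N : ℕ) [Fact p.Prime] [NeZero N] (h : p ≤ N) : ZMod p ↪ ZMod N ⊕ Empty where
  toFun j := Sum.inl (j.val : ZMod N)
  inj' := by
    intro i j hij
    have h1 : ((i.val : ℕ) : ZMod N) = ((j.val : ℕ) : ZMod N) := Sum.inl_injective hij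
    have h2 := congrArg ZMod.val h1
    rw [ZMod.val_natCast, ZMod.val_natCast, Nat.mod_eq_of_lt (i.val_lt.trans_le h),
      Nat.mod_eq_of_lt (j.val_lt.trans_le h)] at h2
    exact ZMod.val_injective p h2

theorem val_one_add {j : ZMod p} (hj : j ≠ -1) : (1 + j).val = 1 + j.val := by
  have h1 : j.val + 1 < p := by
    by_contra hcon
    have h2 := j.val_lt
    have h3 : j.val + 1 = p := by omega
    apply hj
    have h4 : ((j.val + 1 : ℕ) : ZMod p) = 0 := by rw [h3]; simp
    push_cast at h4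
    rw [ZMod.natCast_zmod_val] at h4
    exact eq_neg_of_add_eq_zero_left h4
  have h5 : (1 + j) = ((1 + j.val : ℕ) : ZMod p) := by push_cast; rw [ZMod.natCast_zmod_val]
  rw [h5, ZMod.val_natCast, Nat.mod_eq_of_lt (by omega)]

theorem exists_sevenA (hp3 : 3 ≤ p) (hN : Even N) (h1 : p ≤ N) (h2 : N ≤ 2 * (p - 1)) (σ : ℤˣ) :
    ∃ R x, Seven (ZMod N ⊕ Empty) σ R x := by
  obtain ⟨T, hT⟩ : ∃ T : Perm (Option (Option (ZMod N ⊕ Empty))), IsT T σ := by
    rcases Int.units_eq_one_or σ with h | h
    · exact ⟨1, Or.inl ⟨rfl, h⟩⟩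
    · exact ⟨tau, Or.inr ⟨rfl, h⟩⟩
  obtain ⟨r, hr⟩ := exists_primRoot p
  obtain ⟨m, hm⟩ := hr.exists_m hp3
  let e := eA p N h1
  let v0 : Perm (ZMod p) := rot p * Equiv.swap (-1) (-2)
  have hne : ((-1 : ZMod p)) ≠ -2 := by
    intro hh
    have : (1 : ZMod p) = 0 := by
      have := congrArg (fun t => t + 2) hh
      simp only [neg_add_cancel] at this
      rw [← this]; ring
    exact one_ne_zero this
  have hv0top : v0 (-1) = -1 := by
    change rot p (Equiv.swap (-1) (-2) (-1)) = -1
    rw [Equiv.swap_apply_left, rot_apply]; ring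
  have hv0 : ∀ k : ℕ, k + 2 ≤ p → (v0 ^ k) 0 = k := by
    intro k
    induction k with
    | zero => intro _; simp
    | succ k ih =>
      intro hk
      rw [pow_succ', Perm.mul_apply, ih (by omega)]
      change rot p (Equiv.swap (-1) (-2) (k : ZMod p)) = _
      rw [Equiv.swap_apply_of_ne_of_ne, rot_apply]
      · push_cast; ring
      · intro hh
        have : ((k + 1 : ℕ) : ZMod p) = 0 := by push_cast; rw [hh]; ring
        rw [ZMod.natCast_eq_zero_iff] at this
        exact absurd (Nat.le_of_dvd (by omega) this) (by omega)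
      · intro hh
        have : ((k + 2 : ℕ) : ZMod p) = 0 := by push_cast; rw [hh]; ring
        rw [ZMod.natCast_eq_zero_iff] at this
        exact absurd (Nat.le_of_dvd (by omega) this) (by omega)
  let x : Fin 3 → Perm (Option (Option (ZMod N ⊕ Empty))) :=
    ![io e (up (rot p)), io e (X 0), up (cL N Empty) * T]
  have hx0 : x 0 = io e (up (rot p)) := rfl
  have hx1 : x 1 = io e (X 0) := rfl
  have hx2 : x 2 = up (cL N Empty) * T := rfl
  have he0 : e 0 = Sum.inl 0 := by
    change Sum.inl (((0 : ZMod p).val : ℕ) : ZMod N) = _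
    simp
  have hx1' : x 1 = X (Sum.inl 0) := by rw [hx1, io_X, he0]
  have hsmu : Perm.sign (up (mu r hr.ne) * tau) = 1 := by
    rw [map_mul, sign_up, hr.sign_mu hp3, sign_tau]; rfl
  have hsv : Perm.sign (up v0 * tau) = 1 := by
    rw [map_mul, sign_up, map_mul, sign_rot_prime hp3, Perm.sign_swap hne, sign_tau]; rfl
  obtain ⟨B, hB, hBe⟩ := exists_word x (io_mem e hsmu)
  obtain ⟨V, hV, hVe⟩ := exists_word x (io_mem e hsv)
  have hbase := (hr.baseRel hp3 hm).map (io e)
  have hδ : Commute ((EE e (rot p))⁻¹ * cL N Empty) (EE e v0) := by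
    refine disj_commute e (-1) ?_ hv0top
    intro j hj
    change cL N Empty (Sum.inl (j.val : ZMod N)) = Sum.inl (((1 + j).val : ℕ) : ZMod N)
    rw [cL_inl, val_one_add hj]
    push_cast; rfl
  have hδ0 : ((EE e (rot p))⁻¹ * cL N Empty) (e 0) = e 0 := by
    rw [Perm.mul_apply, Perm.inv_eq_iff_eq, EE_apply]
    change cL N Empty (Sum.inl (((0 : ZMod p).val : ℕ) : ZMod N)) = Sum.inl (((1 + 0 : ZMod p).val : ℕ) : ZMod N)
    rw [cL_inl, val_one_add (by
      intro hh
      have : (1 : ZMod p) = 0 := by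
        have := congrArg (fun t => t + 1) hh
        simpa using this
      exact one_ne_zero this)]
    push_cast; rfl
  have hd : (x 0)⁻¹ * x 2 = up ((EE e (rot p))⁻¹ * cL N Empty) * T := by
    rw [hx0, hx2, io_up, map_mul, map_inv, mul_assoc]
  have hgenX : ∀ l, X l ∈ closure (Set.range x) := by
    intro l
    rcases l with i | s
    · have := Y_id (N := N) (S := Empty) hT i.val
      rw [ZMod.natCast_zmod_val] at this
      rw [← this]
      refine Y_mem ?_ ?_ _ _
      · exact subset_closure ⟨2, hx2⟩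
      · exact subset_closure ⟨1, hx1'⟩
    · exact s.elim
  refine ⟨rels p m N (MM N σ) σ (FreeGroup.of 0) B V (FreeGroup.of 1), x,
    ⟨rels_card _ _ _ _ _ _ _ _ _, ⟨_, hx1'⟩, hgenX, ?_, ?_, ?_, ?_, ?_⟩⟩
  · rw [hx0]; exact sign_io_rot hp3 e
  · rw [hx1']; exact sign_X _
  · rw [hx2]; exact sign_c hN hT
  · rw [rels_iff, hBe, hVe, FreeGroup.lift_apply_of, FreeGroup.lift_apply_of]
    refine ⟨hbase.r1, hbase.r2, hbase.r3, hbase.r4, ?_, ?_, ?_⟩
    · rw [hd, hx1, io_X, pow_succ, X_cube, one_mul, hT.conj, hδ0]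
    · have hν : io e (up v0 * tau) = up (EE e v0) * tau := by rw [map_mul, io_up, io_tau]
      rw [hd, hν]
      exact hT.comm hδ
    · rw [hx2, hx1']
      exact r7_conc hN hT
  · intro π hπ
    set P := PresentedGroup ((rels p m N (MM N σ) σ (FreeGroup.of 0) B V (FreeGroup.of 1) :
      Finset (FreeGroup (Fin 3))) : Set (FreeGroup (Fin 3))) with hP
    let g : Fin 3 → P := fun i => PresentedGroup.of i
    have hlift : ∀ w, π (FreeGroup.lift g w) = FreeGroup.lift x w := by
      intro w
      have : π.comp (FreeGroup.lift g) = FreeGroup.lift x := by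
        ext1 i
        rw [MonoidHom.comp_apply, FreeGroup.lift_apply_of, FreeGroup.lift_apply_of]
        exact hπ i
      exact DFunLike.congr_fun this w
    have hrels := (rels_iff p m N (MM N σ) σ (FreeGroup.of 0) B V (FreeGroup.of 1) g).1
      (fun w hw => lift_of_rel hw)
    rw [FreeGroup.lift_apply_of, FreeGroup.lift_apply_of] at hrels
    have hbr : BaseRel p r m (g 0) (g 1) (FreeGroup.lift g B) :=
      ⟨hrels.r1, hrels.r2, hrels.r3, hrels.r4, hm, fun j hj => by
        obtain ⟨k, -, hk⟩ := hr.surj j hj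
        exact ⟨k, hk⟩⟩
    refine typeA_inj (e := e) (v0 := v0) (σ := σ) (T := T) (c := g 2) hbr (word_mem g hB) (word_mem g hV)
      hN h2 hrels.r5 hrels.r6 hrels.r7 ?_ ?_ ?_ hT ?_ he0 hv0 ?_ ?_
    · exact hπ 0
    · exact hπ 1
    · rw [hlift, hVe]
    · exact hπ 2
    · rcases MM_cases (N := N) hT with h | ⟨h, h'⟩
      · exact Or.inl h
      · right
        refine ⟨h, ?_⟩
        rw [show π (g 2) = x 2 from hπ 2, hx2, sign_c hN hT, h']
    · rw [← range3 g]
      exact closure_of_eq_top _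

end AB

end Cfsg.Agent.GK
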