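import Cfsg.Agent.GK.Fin

/-!
Final assembly, type B (odd degree), and the presentations of `A_n`, `S_n`.
-/

set_option autoImplicit false

namespace Cfsg.Agent.GK

open Subgroup Equiv

section B
variable {p : ℕ} [hp : Fact p.Prime] {N : ℕ} [NeZero N]

open scoped Classical in
/-- discrete logarithm -/
noncomputable def dlog {r : ZMod p} (hr : PrimRoot p r) (x : ZMod p) : ℕ :=
  if h : x ≠ 0 then (hr.surj x h).choose else 0

theorem dlog_le {r : ZMod p} (hr : PrimRoot p r) {x : ZMod p} (h : x ≠ 0) : dlog hr x + 2 ≤ p := by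
  rw [dlog, dif_pos h]
  exact (hr.surj x h).choose_spec.1

theorem pow_dlog {r : ZMod p} (hr : PrimRoot p r) {x : ZMod p} (h : x ≠ 0) : r ^ dlog hr x = x := by
  rw [dlog, dif_pos h]
  exact (hr.surj x h).choose_spec.2

theorem dlog_pow {r : ZMod p} (hr : PrimRoot p r) {k : ℕ} (hk : k + 2 ≤ p) : dlog hr (r ^ k) = k := by
  have h0 : r ^ k ≠ 0 := pow_ne_zero _ hr.ne
  exact hr.inj _ _ (dlog_le hr h0) hk (pow_dlog hr h0)

open scoped Classical in
/-- embedding of the labels, type B -/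
noncomputable def eB {r : ZMod p} (hr : PrimRoot p r) (N : ℕ) [NeZero N] (h : p ≤ N + 1) :
    ZMod p ↪ ZMod N ⊕ Unit where
  toFun j := if j = 0 then Sum.inr () else Sum.inl (dlog hr j : ZMod N)
  inj' := by
    intro i j hij
    by_cases hi : i = 0 <;> by_cases hj : j = 0
    · rw [hi, hj]
    · simp [hi, hj] at hij
    · simp [hi, hj] at hij
    · simp only [if_neg hi, if_neg hj] at hij
      have h1 : ((dlog hr i : ℕ) : ZMod N) = ((dlog hr j : ℕ) : ZMod N) := Sum.inl_injective hij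
      have h2 := congrArg ZMod.val h1
      have hi' := dlog_le hr hi
      have hj' := dlog_le hr hj
      rw [ZMod.val_natCast, ZMod.val_natCast, Nat.mod_eq_of_lt (by omega), Nat.mod_eq_of_lt (by omega)] at h2
      rw [← pow_dlog hr hi, ← pow_dlog hr hj, h2]

theorem eB_zero {r : ZMod p} (hr : PrimRoot p r) (h : p ≤ N + 1) : eB hr N h 0 = Sum.inr () := by
  change (if (0 : ZMod p) = 0 then Sum.inr () else Sum.inl (dlog hr 0 : ZMod N)) = _
  rw [if_pos rfl]

theorem eB_ne {r : ZMod p} (hr : PrimRoot p r) (h : p ≤ N + 1) {j : ZMod p} (hj : j ≠ 0) :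
    eB hr N h j = Sum.inl (dlog hr j : ZMod N) := by
  change (if j = 0 then Sum.inr () else Sum.inl (dlog hr j : ZMod N)) = _
  rw [if_neg hj]

theorem exists_sevenB (hp3 : 3 ≤ p) (hN : Even N) (h1 : p ≤ N + 1) (h2 : N ≤ 2 * (p - 2)) (σ : ℤˣ) :
    ∃ R x, Seven (ZMod N ⊕ Unit) σ R x := by
  classical
  obtain ⟨T, hT⟩ : ∃ T : Perm (Option (Option (ZMod N ⊕ Unit))), IsT T σ := by
    rcases Int.units_eq_one_or σ with h | h
    · exact ⟨1, Or.inl ⟨rfl, h⟩⟩
    · exact ⟨tau, Or.inr ⟨rfl, h⟩⟩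
  obtain ⟨r, hr⟩ := exists_primRoot p
  obtain ⟨m, hm⟩ := hr.exists_m hp3
  let e := eB hr N h1
  let s : Perm (ZMod p) := Equiv.swap 0 r⁻¹
  let v0 : Perm (ZMod p) := s * mu r hr.ne * s
  have hss : s * s = 1 := Equiv.swap_mul_self _ _
  have hri : r⁻¹ ≠ 0 := inv_ne_zero hr.ne
  have hs0 : s 0 = r⁻¹ := Equiv.swap_apply_left _ _
  have hs1 : s r⁻¹ = 0 := Equiv.swap_apply_right _ _
  have hv0top : v0 r⁻¹ = r⁻¹ := by
    change s (mu r hr.ne (s r⁻¹)) = r⁻¹
    rw [hs1, mu_apply, mul_zero, hs0]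
  have hrp : r⁻¹ = r ^ (p - 2) := by
    have h3 : r ^ (p - 1) = 1 := ZMod.pow_card_sub_one_eq_one hr.ne
    rw [inv_eq_iff_eq_inv, eq_comm, inv_eq_of_mul_eq_one_left]
    rw [← pow_succ', show p - 2 + 1 = p - 1 by omega, h3]
  have hv0p : ∀ k : ℕ, v0 ^ k = s * mu r hr.ne ^ k * s := by
    intro k
    induction k with
    | zero => rw [pow_zero, pow_zero, mul_one, hss]
    | succ k ih =>
      rw [pow_succ, ih]
      calc s * mu r hr.ne ^ k * s * (s * mu r hr.ne * s)
          = s * mu r hr.ne ^ k * (s * s) * mu r hr.ne * s := by group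
        _ = _ := by rw [hss, mul_one, mul_assoc s, ← pow_succ]
  have hv0 : ∀ k : ℕ, k + 3 ≤ p → (v0 ^ (k + 1)) 0 = r ^ k := by
    intro k hk
    rw [hv0p]
    change s ((mu r hr.ne ^ (k + 1)) (s 0)) = r ^ k
    rw [hs0, mu_pow, pow_succ, mul_assoc, mul_inv_cancel₀ hr.ne, mul_one]
    apply Equiv.swap_apply_of_ne_of_ne
    · exact pow_ne_zero _ hr.ne
    · intro hh
      rw [hrp] at hh
      have := hr.inj k (p - 2) (by omega) (by omega) hh
      omega
  let x : Fin 3 → Perm (Option (Option (ZMod N ⊕ Unit))) :=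
    ![io e (up (rot p)), io e (X 0), up (cL N Unit) * T]
  have hx0 : x 0 = io e (up (rot p)) := rfl
  have hx1 : x 1 = io e (X 0) := rfl
  have hx2 : x 2 = up (cL N Unit) * T := rfl
  have he0 : e 0 = Sum.inr () := eB_zero hr h1
  have hd1 : dlog hr 1 = 0 := by
    have := dlog_pow hr (k := 0) (by omega)
    rwa [pow_zero] at this
  have he1 : e 1 = Sum.inl 0 := by
    change eB hr N h1 1 = _
    rw [eB_ne hr h1 one_ne_zero, hd1]; simp
  have hx1' : x 1 = X (Sum.inr ()) := by rw [hx1, io_X, he0]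
  have hsmu : Perm.sign (up (mu r hr.ne) * tau) = 1 := by
    rw [map_mul, sign_up, hr.sign_mu hp3, sign_tau]; rfl
  have hsv : Perm.sign (up v0 * tau) = 1 := by
    have h3 : Perm.sign v0 = -1 := by
      change Perm.sign (s * mu r hr.ne * s) = -1
      rw [map_mul, map_mul, hr.sign_mu hp3]
      have : Perm.sign s * -1 * Perm.sign s = -(Perm.sign s * Perm.sign s) := by
        rw [mul_neg_one, neg_mul]
      rw [this, Int.units_mul_self]
    rw [map_mul, sign_up, h3, sign_tau]; rfl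
  obtain ⟨B, hB, hBe⟩ := exists_word x (io_mem e hsmu)
  obtain ⟨V, hV, hVe⟩ := exists_word x (io_mem e hsv)
  have hbase := (hr.baseRel hp3 hm).map (io e)
  have hδe : ∀ j, j ≠ r⁻¹ → cL N Unit (e j) = e (mu r hr.ne j) := by
    intro j hj
    by_cases hj0 : j = 0
    · rw [hj0, mu_apply, mul_zero, he0, cL_inr]
    · have hle := dlog_le hr hj0
      have hne : dlog hr j ≠ p - 2 := by
        intro hh
        apply hj
        rw [hrp, ← hh, pow_dlog hr hj0]
      have h3 : mu r hr.ne j = r ^ (dlog hr j + 1) := by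
        rw [mu_apply, pow_succ', pow_dlog hr hj0]
      have h4 : e j = Sum.inl (dlog hr j : ZMod N) := eB_ne hr h1 hj0
      have h5 : e (r ^ (dlog hr j + 1)) = Sum.inl ((dlog hr j + 1 : ℕ) : ZMod N) := by
        change eB hr N h1 _ = _
        rw [eB_ne hr h1 (pow_ne_zero _ hr.ne), dlog_pow hr (by omega)]
      rw [h3, h4, h5, cL_inl]
      push_cast
      congr 1
      ring
  have hδ : Commute ((EE e (mu r hr.ne))⁻¹ * cL N Unit) (EE e v0) :=
    disj_commute e r⁻¹ hδe hv0top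
  have hδ0 : ((EE e (mu r hr.ne))⁻¹ * cL N Unit) (e 0) = e 0 := by
    rw [Perm.mul_apply, Perm.inv_eq_iff_eq, EE_apply]
    exact hδe 0 hri.symm
  have hBx : FreeGroup.lift x B = up (EE e (mu r hr.ne)) * tau := by
    rw [hBe, map_mul, io_up, io_tau]
  have hd : (FreeGroup.lift x B)⁻¹ * x 2 = up ((EE e (mu r hr.ne))⁻¹ * cL N Unit) * (tau * T) := by
    rw [hBx, hx2, map_mul, map_inv, mul_inv_rev, tau_inv]
    have h3 : tau * (up (EE e (mu r hr.ne)))⁻¹ = (up (EE e (mu r hr.ne)))⁻¹ * tau := by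
      rw [← map_inv]; exact tau_comm_up _
    have h4 : tau * up (cL N Unit) = up (cL N Unit) * tau := tau_comm_up _
    calc tau * (up (EE e (mu r hr.ne)))⁻¹ * (up (cL N Unit) * T)
        = (up (EE e (mu r hr.ne)))⁻¹ * (tau * up (cL N Unit)) * T := by rw [h3]; group
      _ = _ := by rw [h4]; group
  have hy : X (Sum.inl 0) = x 0 * x 1 * (x 0)⁻¹ := by
    rw [hx0, hx1, ← map_inv, ← map_mul, ← map_mul, up_conj_X, rot_apply, add_zero, io_X, he1]
  have hgenX : ∀ l, X l ∈ closure (Set.range x) := by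
    intro l
    rcases l with i | u
    · have := Y_id (N := N) (S := Unit) hT i.val
      rw [ZMod.natCast_zmod_val] at this
      rw [← this]
      refine Y_mem ?_ ?_ _ _
      · exact subset_closure ⟨2, hx2⟩
      · rw [hy]
        exact mul_mem (mul_mem (subset_closure ⟨0, rfl⟩) (subset_closure ⟨1, rfl⟩))
          (inv_mem (subset_closure ⟨0, rfl⟩))
    · exact subset_closure ⟨1, hx1'⟩
  refine ⟨rels p m N (MM N σ) (((-σ : ℤˣ)) : ℤ) B B V
    (FreeGroup.of 0 * FreeGroup.of 1 * (FreeGroup.of 0)⁻¹), x,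
    ⟨rels_card _ _ _ _ _ _ _ _ _, ⟨_, hx1'⟩, hgenX, ?_, ?_, ?_, ?_, ?_⟩⟩
  · rw [hx0]; exact sign_io_rot hp3 e
  · rw [hx1']; exact sign_X _
  · rw [hx2]; exact sign_c hN hT
  · rw [rels_iff]
    refine ⟨?_, ?_, hbase.r3, ?_, ?_, ?_, ?_⟩
    · rw [hBe]; exact hbase.r1
    · rw [hBe]; exact hbase.r2
    · rw [hBe]; exact hbase.r4
    · rw [hd, hx1, io_X, pow_succ, X_cube, one_mul, hT.tau_mul.conj, hδ0]
    · have hν : io e (up v0 * tau) = up (EE e v0) * tau := by rw [map_mul, io_up, io_tau]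
      rw [hd, hVe, hν]
      exact hT.tau_mul.comm hδ
    · rw [map_mul, map_mul, map_inv, FreeGroup.lift_apply_of, FreeGroup.lift_apply_of, ← hy, hx2]
      exact r7_conc hN hT
  · intro π hπ
    set P := PresentedGroup ((rels p m N (MM N σ) (((-σ : ℤˣ)) : ℤ) B B V
      (FreeGroup.of 0 * FreeGroup.of 1 * (FreeGroup.of 0)⁻¹) : Finset (FreeGroup (Fin 3))) :
      Set (FreeGroup (Fin 3))) with hP
    let g : Fin 3 → P := fun i => PresentedGroup.of i
    have hlift : ∀ w, π (FreeGroup.lift g w) = FreeGroup.lift x w := by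
      intro w
      have : π.comp (FreeGroup.lift g) = FreeGroup.lift x := by
        ext1 i
        rw [MonoidHom.comp_apply, FreeGroup.lift_apply_of, FreeGroup.lift_apply_of]
        exact hπ i
      exact DFunLike.congr_fun this w
    have hrels := (rels_iff p m N (MM N σ) (((-σ : ℤˣ)) : ℤ) B B V
      (FreeGroup.of 0 * FreeGroup.of 1 * (FreeGroup.of 0)⁻¹) g).1
      (fun w hw => lift_of_rel hw)
    rw [map_mul, map_mul, map_inv, FreeGroup.lift_apply_of, FreeGroup.lift_apply_of] at hrels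
    have hbr : BaseRel p r m (g 0) (g 1) (FreeGroup.lift g B) :=
      ⟨hrels.r1, hrels.r2, hrels.r3, hrels.r4, hm, fun j hj => by
        obtain ⟨k, -, hk⟩ := hr.surj j hj
        exact ⟨k, hk⟩⟩
    refine typeB_inj (e := e) (v0 := v0) (σ := σ) (T := T) (c := g 2) hbr (word_mem g hB) (word_mem g hV)
      hN h2 hrels.r5 hrels.r6 hrels.r7 ?_ ?_ ?_ hT ?_ he0 he1 hv0 hr.surj ?_ ?_ ?_
    · exact hπ 0
    · exact hπ 1
    · rw [hlift, hVe]
    · exact hπ 2
    · intro k hk1 hk2 hh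
      have := hr.inj k 0 hk2 (by omega) (by rw [hh, pow_zero])
      omega
    · rcases MM_cases (N := N) hT with h | ⟨h, h'⟩
      · exact Or.inl h
      · right
        refine ⟨h, ?_⟩
        rw [show π (g 2) = x 2 from hπ 2, hx2, sign_c hN hT, h']
    · rw [← range3 g]
      exact closure_of_eq_top _

end B

section final

/-- both types together -/
theorem exists_seven (n : ℕ) (hn : 5 ≤ n) :
    ∃ (Λ : Type) (_ : Fintype Λ) (_ : DecidableEq Λ), Fintype.card Λ + 2 = n ∧
      ∀ σ : ℤˣ, ∃ R x, Seven Λ σ R x := by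
  rcases Nat.even_or_odd n with he | ho
  · obtain ⟨k, hk⟩ := he
    obtain ⟨p, hp, h1, h2⟩ := Nat.exists_prime_lt_and_le_two_mul (k - 1) (by omega)
    have : Fact p.Prime := ⟨hp⟩
    have : NeZero (n - 2) := ⟨by omega⟩
    refine ⟨ZMod (n - 2) ⊕ Empty, inferInstance, inferInstance, ?_, fun σ => ?_⟩
    · rw [Fintype.card_sum, ZMod.card, Fintype.card_empty]; omega
    · refine exists_sevenA (p := p) (by omega) ?_ (by omega) (by omega) σ
      exact ⟨k - 1, by omega⟩
  · obtain ⟨k, hk⟩ := ho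
    obtain ⟨p, hp, h1, h2⟩ := Nat.exists_prime_lt_and_le_two_mul k (by omega)
    have hne : p ≠ 2 * k := by
      rintro rfl
      have := (Nat.prime_mul_iff.1 hp)
      omega
    have : Fact p.Prime := ⟨hp⟩
    have : NeZero (n - 3) := ⟨by omega⟩
    refine ⟨ZMod (n - 3) ⊕ Unit, inferInstance, inferInstance, ?_, fun σ => ?_⟩
    · rw [Fintype.card_sum, ZMod.card, Fintype.card_unit]; omega
    · refine exists_sevenB (p := p) (by omega) ?_ (by omega) (by omega) σ
      exact ⟨k - 1, by omega⟩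

end final

end Cfsg.Agent.GK
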