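import Cfsg.Agent.GK.SL2P

/-!
Field facts for the presentations of `SL₂(F)`.
-/

set_option autoImplicit false

namespace Cfsg.Agent.GK

open Subgroup Polynomial

section cc
variable {G : Type*} [Group G] {p : ℕ} [hp : Fact p.Prime] {u k : G}

theorem CC_of_deg {f : (ZMod p)[X]} (hf : f.Monic) (h1 : Psi u k f = 1)
    (hc : ∀ i j, i < f.natDegree → j < f.natDegree → Commute (cj u k i) (cj u k j)) : CC u k := by
  have : Fact (1 < p) := ⟨hp.out.one_lt⟩
  set n := f.natDegree with hn
  set S : Set G := {x | ∃ i, i < n ∧ x = cj u k i} with hS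
  set A := closure S with hA
  have hmem : ∀ i, i < n → cj u k i ∈ A := fun i hi => subset_closure ⟨i, hi, rfl⟩
  have hpw : ∀ (c : ℕ → ℕ) (m : ℕ), m ≤ n → pw u k c m ∈ A := by
    intro c m
    induction m with
    | zero => intro _; exact one_mem _
    | succ m ih =>
      intro hm
      rw [pw_succ]
      exact mul_mem (ih (by omega)) (pow_mem (hmem m (by omega)) _)
  have hcn : cj u k n ∈ A := by
    rw [Psi, ← hn, pw_succ] at h1
    have hc1 : (f.coeff n).val = 1 := by
      rw [hn, hf.coeff_natDegree, ZMod.val_one]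
    simp only [hc1, pow_one] at h1
    rw [mul_eq_one_iff_inv_eq] at h1
    rw [← h1]
    exact inv_mem (hpw _ n le_rfl)
  have hcl : ∀ x ∈ A, k * x * k⁻¹ ∈ A := by
    intro x hx
    have hle : A ≤ A.comap (MulAut.conj k).toMonoidHom := by
      rw [hA, closure_le]
      rintro _ ⟨i, hi, rfl⟩
      change k * cj u k i * k⁻¹ ∈ A
      have := cj_shift u k 1 i
      rw [pow_one, add_comm] at this
      rw [this]
      rcases Nat.lt_or_ge (i + 1) n with h | h
      · exact hmem _ h
      · rw [show i + 1 = n by omega]; exact hcn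
    exact hle hx
  have hall : ∀ j, cj u k j ∈ A := by
    intro j
    induction j with
    | zero =>
      rcases Nat.eq_zero_or_pos n with h | h
      · rw [h] at hcn; exact hcn
      · exact hmem 0 h
    | succ j ih =>
      have := cj_shift u k 1 j
      rw [pow_one, add_comm] at this
      rw [← this]
      exact hcl _ ih
  have hab : ∀ x ∈ A, ∀ y ∈ A, Commute x y := by
    intro x hx y hy
    have h2 : ∀ y ∈ A, ∀ s ∈ S, Commute s y := by
      intro y hy s hs
      induction hy using Subgroup.closure_induction with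
      | mem y hy =>
        obtain ⟨i, hi, rfl⟩ := hs
        obtain ⟨j, hj, rfl⟩ := hy
        exact hc i j hi hj
      | one => exact Commute.one_right _
      | mul y z _ _ h1 h2 => exact h1.mul_right h2
      | inv y _ h1 => exact h1.inv_right
    induction hx using Subgroup.closure_induction with
    | mem x hx => exact h2 y hy x hx
    | one => exact Commute.one_left _
    | mul x z _ _ h1 h2 => exact h1.mul_left h2
    | inv x _ h1 => exact h1.inv_left
  exact fun i j => hab _ (hall i) _ (hall j)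

theorem CC_of_deg_one {f : (ZMod p)[X]} (hf : f.Monic) (h1 : Psi u k f = 1) (hd : f.natDegree ≤ 1) :
    CC u k := by
  apply CC_of_deg hf h1
  intro i j hi hj
  have : i = j := by omega
  rw [this]

theorem CC_of_deg_two {f : (ZMod p)[X]} (hf : f.Monic) (h1 : Psi u k f = 1) (hd : f.natDegree ≤ 2)
    (hc : Commute u (k * u * k⁻¹)) : CC u k := by
  have h01 : Commute (cj u k 0) (cj u k 1) := by
    rw [cj_zero, cj, pow_one]; exact hc
  apply CC_of_deg hf h1
  intro i j hi hj
  have hi' : i = 0 ∨ i = 1 := by omega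
  have hj' : j = 0 ∨ j = 1 := by omega
  rcases hi' with rfl | rfl <;> rcases hj' with rfl | rfl
  · exact Commute.refl _
  · exact h01
  · exact h01.symm
  · exact Commute.refl _

end cc

section fld
variable {F : Type*} [Field F] [Fintype F] {p : ℕ} [hp : Fact p.Prime] [Algebra (ZMod p) F] [CharP F p]

omit [CharP F p] in
/-- either `κ` generates the field, or it lies in a proper subfield of order `Q` -/
theorem adjoin_cases (κ : F) : (∀ s : F, ∃ f : (ZMod p)[X], aeval κ f = s) ∨
    ∃ Q m n : ℕ, Q = p ^ m ∧ 2 ≤ n ∧ 2 ≤ Q ∧ Fintype.card F = Q ^ n ∧ κ ^ Q = κ := by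
  classical
  set K := IntermediateField.adjoin (ZMod p) {κ} with hK
  have hint : IsAlgebraic (ZMod p) κ := Algebra.IsAlgebraic.isAlgebraic κ
  have hFK : Fintype K := Fintype.ofFinite K
  have hcard := Module.card_eq_pow_finrank (K := K) (V := F)
  have hκ : κ ∈ K := IntermediateField.mem_adjoin_simple_self _ κ
  by_cases hn : Module.finrank K F = 1
  · left
    intro s
    have htop : K = ⊤ := by
      rw [← IntermediateField.finrank_eq_one_iff_eq_top]
      exact hn
    have hs : s ∈ K := by rw [htop]; trivial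
    have hs' : s ∈ K.toSubalgebra := hs
    rw [hK, IntermediateField.adjoin_simple_toSubalgebra_of_isAlgebraic hint,
      Algebra.adjoin_singleton_eq_range_aeval] at hs'
    exact hs'
  · right
    have hcard2 := Module.card_eq_pow_finrank (K := ZMod p) (V := K)
    rw [ZMod.card] at hcard2
    refine ⟨Fintype.card K, Module.finrank (ZMod p) K, Module.finrank K F, hcard2, ?_, Fintype.one_lt_card,
      hcard, ?_⟩
    · have : 0 < Module.finrank K F := Module.finrank_pos
      omega
    · have := FiniteField.pow_card (⟨κ, hκ⟩ : K)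
      exact congrArg Subtype.val this

end fld

section fld2
variable {F : Type*} [Field F] [Fintype F] {p : ℕ} [hp : Fact p.Prime] [Algebra (ZMod p) F] [CharP F p]
variable {ζ : Fˣ}

theorem gen_order_sq (hζ : IsGen ζ) : Fintype.card F - 1 ≤ 2 * orderOf (ζ ^ 2) := by
  classical
  have h1 : (ζ ^ (2 * orderOf (ζ ^ 2))) = 1 := by
    rw [pow_mul, pow_orderOf_eq_one]
  have h2 := orderOf_dvd_of_pow_eq_one h1
  rw [hζ.orderOf] at h2
  exact Nat.le_of_dvd (by have := orderOf_pos (ζ ^ 2); omega) h2

omit [CharP F p] in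
/-- `ζ²` generates the field -/
theorem gen_adjoin_sq (hζ : IsGen ζ) (s : F) : ∃ f : (ZMod p)[X], aeval (((ζ ^ 1 : Fˣ) : F) ^ 2) f = s := by
  classical
  rcases adjoin_cases (p := p) ((((ζ ^ 1 : Fˣ) : F) ^ 2)) with h | ⟨Q, m, n, hQ, hn, hQ2, hc, hκ⟩
  · exact h s
  · exfalso
    have h1 : (ζ ^ 2) ^ (Q - 1) = 1 := by
      have : (ζ ^ 2) ^ Q = ζ ^ 2 := by
        ext
        push_cast
        rw [pow_one] at hκ
        exact hκ
      have h2 : (ζ ^ 2) ^ (Q - 1) * ζ ^ 2 = ζ ^ 2 := by
        rw [← pow_succ, Nat.sub_add_cancel (by omega)]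
        exact this
      exact mul_eq_right.1 h2
    have h2 := Nat.le_of_dvd (by omega) (orderOf_dvd_of_pow_eq_one h1)
    have h3 := gen_order_sq hζ
    have h4 : Q ^ 2 ≤ Q ^ n := Nat.pow_le_pow_right (by omega) hn
    rw [hc] at h3
    have h5 : Q ^ n ≤ 2 * (Q - 1) + 1 := by omega
    obtain ⟨r, rfl⟩ := Nat.exists_eq_add_of_le hQ2
    have h6 : (2 + r) ^ 2 ≤ 2 * (2 + r - 1) + 1 := h4.trans h5
    have h7 : 2 + r - 1 = r + 1 := by omega
    rw [h7] at h6
    nlinarith

/-- the square of `(ζ + ζ⁻¹)/2` generates the field -/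
theorem gen_adjoin_trace (hζ : IsGen ζ) (hodd : Odd (Fintype.card F)) (h9 : Fintype.card F ≠ 9) {a : F}
    (ha : 2 * a = ζ + (ζ : F)⁻¹) (s : F) : ∃ f : (ZMod p)[X], aeval (a ^ 2) f = s := by
  classical
  rcases adjoin_cases (p := p) (a ^ 2) with h | ⟨Q, m, n, hQ, hn, hQ2, hc, hκ⟩
  · exact h s
  · exfalso
    have hζ0 : (ζ : F) ≠ 0 := ζ.ne_zero
    -- trace of ζ²
    have hadd : ∀ x y : F, (x + y) ^ Q = x ^ Q + y ^ Q := by
      intro x y
      rw [hQ]
      exact add_pow_char_pow x y p m
    have hsub : ∀ x y : F, (x - y) ^ Q = x ^ Q - y ^ Q := by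
      intro x y
      rw [hQ]
      exact sub_pow_char_pow x y m
    have hnat : ∀ c : ℕ, ((c : F)) ^ Q = c := by
      intro c
      induction c with
      | zero => simp; omega
      | succ c ih => rw [Nat.cast_add, hadd, ih, Nat.cast_one, one_pow]
    have htr : ((ζ : F) ^ 2 + ((ζ : F) ^ 2)⁻¹) ^ Q = (ζ : F) ^ 2 + ((ζ : F) ^ 2)⁻¹ := by
      have e : (ζ : F) ^ 2 + ((ζ : F) ^ 2)⁻¹ = (4 : ℕ) * a ^ 2 - (2 : ℕ) := by
        have : (4 : F) * a ^ 2 = (2 * a) ^ 2 := by ring
        push_cast
        rw [this, ha]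
        field_simp
        ring
      rw [e, hsub, mul_pow, hκ, hnat, hnat]
    set x := (ζ : F) ^ 2 with hx
    have hx0 : x ≠ 0 := pow_ne_zero _ hζ0
    rw [hadd, inv_pow] at htr
    have hy0 : x ^ Q ≠ 0 := pow_ne_zero _ hx0
    have hprod : (x ^ Q - x) * (x ^ Q * x - 1) = 0 := by
      have : x ^ Q + (x ^ Q)⁻¹ - (x + x⁻¹) = 0 := sub_eq_zero.2 htr
      have h2 : (x ^ Q - x) * (x ^ Q * x - 1) = (x ^ Q + (x ^ Q)⁻¹ - (x + x⁻¹)) * (x ^ Q * x) := by
        field_simp
        ring
      rw [h2, this, zero_mul]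
    have hodd' : Odd Q := by
      by_contra hcon
      rw [Nat.not_odd_iff_even] at hcon
      rw [hc] at hodd
      exact (Nat.not_odd_iff_even.2 (hcon.pow_of_ne_zero (by omega))) hodd
    have hord : orderOf (ζ ^ 2) ≤ Q + 1 := by
      rcases mul_eq_zero.1 hprod with h | h
      · have h1 : (ζ ^ 2) ^ (Q - 1) = 1 := by
          have : (ζ ^ 2) ^ Q = ζ ^ 2 := by
            ext
            push_cast
            exact sub_eq_zero.1 h
          have h2 : (ζ ^ 2) ^ (Q - 1) * ζ ^ 2 = ζ ^ 2 := by
            rw [← pow_succ, Nat.sub_add_cancel (by omega)]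
            exact this
          exact mul_eq_right.1 h2
        have := Nat.le_of_dvd (by omega) (orderOf_dvd_of_pow_eq_one h1)
        omega
      · have h1 : (ζ ^ 2) ^ (Q + 1) = 1 := by
          rw [pow_succ]
          ext
          push_cast
          exact sub_eq_zero.1 h
        exact Nat.le_of_dvd (by omega) (orderOf_dvd_of_pow_eq_one h1)
    have h3 := gen_order_sq hζ
    rw [hc] at h3
    have hQ3 : 3 ≤ Q := by
      obtain ⟨c, rfl⟩ := hodd'
      omega
    have h5 : Q ^ n ≤ 2 * Q + 3 := by omega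
    rcases Nat.lt_or_ge n 3 with hn3 | hn3
    · have hn2 : n = 2 := by omega
      rw [hn2] at h5 hc
      have hQ4 : Q = 3 := by
        by_contra hcon
        have : 4 ≤ Q := by omega
        nlinarith
      apply h9
      rw [hc, hQ4]
      norm_num
    · have h4 : Q ^ 3 ≤ Q ^ n := Nat.pow_le_pow_right (by omega) hn3
      have h6 : Q ^ 3 ≤ 2 * Q + 3 := h4.trans h5
      have h7 : Q ^ 3 = Q * Q * Q := by ring
      nlinarith

end fld2

end Cfsg.Agent.GK
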