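import Cfsg.Agent.GK.Base

/-!
Gluing: from a base alternating group and one more element `c` (a long cycle) to the whole alternating or
symmetric group.
-/

set_option autoImplicit false

namespace Cfsg.Agent.GK

open Subgroup Equiv

section sgn
variable {G : Type*} [Group G]

theorem upow_upow (x : G) (τ : ℤˣ) : (x ^ (τ : ℤ)) ^ (τ : ℤ) = x := by
  rcases Int.units_eq_one_or τ with rfl | rfl <;> simp

theorem upow_cube {x : G} (h : x ^ 3 = 1) (τ : ℤˣ) : (x ^ (τ : ℤ)) ^ 3 = 1 := by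
  rcases Int.units_eq_one_or τ with rfl | rfl <;> simp [h]

theorem sq_one_comm {x y : G} (h : (x * y) ^ 2 = 1) : (y * x) ^ 2 = 1 := sq_comm h (Commute.one_left _)

theorem upow_sq {x y : G} (τ : ℤˣ) (h : (x ^ (τ : ℤ) * y ^ (τ : ℤ)) ^ 2 = 1) : (x * y) ^ 2 = 1 := by
  rcases Int.units_eq_one_or τ with rfl | rfl
  · simpa using h
  · have h1 : ((y * x) ^ 2)⁻¹ = 1 := by
      rw [← inv_pow, mul_inv_rev]
      simpa using h
    exact sq_one_comm (inv_eq_one.1 h1)

theorem conj_upow (c x : G) (τ : ℤˣ) : c * x ^ (τ : ℤ) * c⁻¹ = (c * x * c⁻¹) ^ (τ : ℤ) := (conj_zpow).symm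

/-- twisted translates of `y` by `c` -/
def Y (c y : G) (σ : ℤˣ) (i : ℕ) : G := c ^ i * y ^ (((σ ^ i : ℤˣ)) : ℤ) * (c ^ i)⁻¹

theorem Y_zero (c y : G) (σ : ℤˣ) : Y c y σ 0 = y := by simp [Y]

theorem Y_shift (c y : G) (σ : ℤˣ) (i k : ℕ) :
    c ^ i * Y c y σ k * (c ^ i)⁻¹ = (Y c y σ (k + i)) ^ (((σ ^ i : ℤˣ)) : ℤ) := by
  rw [Y, Y, ← conj_upow]
  have h1 : (y ^ (((σ ^ (k + i) : ℤˣ)) : ℤ)) ^ (((σ ^ i : ℤˣ)) : ℤ) = y ^ (((σ ^ k : ℤˣ)) : ℤ) := by
    rw [pow_add, Units.val_mul, zpow_mul, upow_upow]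
  rw [h1, show k + i = i + k from add_comm _ _, pow_add]
  group

theorem Y_succ (c y : G) (σ : ℤˣ) (k : ℕ) :
    c * Y c y σ k * c⁻¹ = (Y c y σ (k + 1)) ^ (σ : ℤ) := by
  have := Y_shift c y σ 1 k
  simpa using this

theorem Y_succ' (c y : G) (σ : ℤˣ) (k : ℕ) :
    Y c y σ (k + 1) = (c * Y c y σ k * c⁻¹) ^ (σ : ℤ) := by
  rw [Y_succ, upow_upow]

theorem Y_cube {c y : G} {σ : ℤˣ} (h : y ^ 3 = 1) (i : ℕ) : Y c y σ i ^ 3 = 1 := by
  rw [Y, conj_pow, upow_cube h]; group

theorem Y_period {c y : G} {σ : ℤˣ} {N : ℕ} (hN : Even N) (hc : Commute (c ^ N) y) (i : ℕ) :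
    Y c y σ (i + N) = Y c y σ i := by
  have hs : σ ^ N = 1 := by
    obtain ⟨k, rfl⟩ := hN
    rw [← two_mul, pow_mul, Int.units_sq, one_pow]
  rw [Y, Y, pow_add, pow_add, hs, mul_one]
  have := (hc.zpow_right (((σ ^ i : ℤˣ)) : ℤ)).eq
  calc c ^ i * c ^ N * y ^ (((σ ^ i : ℤˣ)) : ℤ) * (c ^ i * c ^ N)⁻¹
      = c ^ i * (c ^ N * y ^ (((σ ^ i : ℤˣ)) : ℤ)) * (c ^ N)⁻¹ * (c ^ i)⁻¹ := by group
    _ = _ := by rw [this]; group

end sgn

section index2
variable {G : Type*} [Group G]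

theorem index_two_cover {K : Subgroup G} {c : G} (hc : ∀ k ∈ K, c * k * c⁻¹ ∈ K) (hc2 : c ^ 2 ∈ K)
    (hgen : closure (insert c (K : Set G)) = ⊤) (g : G) : g ∈ K ∨ g * c ∈ K := by
  have hc' : ∀ k ∈ K, c⁻¹ * k * c ∈ K := by
    intro k hk
    have : c⁻¹ * k * c = (c ^ 2)⁻¹ * (c * k * c⁻¹) * c ^ 2 := by group
    rw [this]
    exact K.mul_mem (K.mul_mem (K.inv_mem hc2) (hc k hk)) hc2
  have hg : g ∈ closure (insert c (K : Set G)) := by rw [hgen]; trivial
  induction hg using Subgroup.closure_induction_right with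
  | one => left; exact K.one_mem
  | mul_right g hg s hs ih =>
    rcases hs with rfl | hs
    · rcases ih with h | h
      · right
        rw [mul_assoc, ← pow_two]
        exact K.mul_mem h hc2
      · left; exact h
    · rcases ih with h | h
      · left; exact K.mul_mem h hs
      · right
        have : g * s * c = (g * c) * (c⁻¹ * s * c) := by group
        rw [this]
        exact K.mul_mem h (hc' s hs)
  | mul_inv_cancel g hg s hs ih =>
    rcases hs with rfl | hs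
    · rcases ih with h | h
      · right; simpa using h
      · left
        have : g * s⁻¹ = (g * s) * (s ^ 2)⁻¹ := by group
        rw [this]
        exact K.mul_mem h (K.inv_mem hc2)
    · rcases ih with h | h
      · left; exact K.mul_mem h (K.inv_mem hs)
      · right
        have : g * s⁻¹ * c = (g * c) * (c⁻¹ * s⁻¹ * c) := by group
        rw [this]
        exact K.mul_mem h (hc' _ (K.inv_mem hs))

theorem pow_mul_mem {K : Subgroup G} {c : G} (hc : ∀ k ∈ K, c * k * c⁻¹ ∈ K) {y : G} (hy : y ∈ K) (M : ℕ) :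
    ∃ k ∈ K, (c * y) ^ M = k * c ^ M := by
  induction M with
  | zero => exact ⟨1, K.one_mem, by simp⟩
  | succ M ih =>
    obtain ⟨k, hk, he⟩ := ih
    refine ⟨c * y * k * c⁻¹, ?_, ?_⟩
    · have : c * y * k * c⁻¹ = c * (y * k) * c⁻¹ := by group
      rw [this]
      exact hc _ (K.mul_mem hy hk)
    · rw [pow_succ', he, pow_succ']; group

end index2

section glue
variable {G : Type*} [Group G] {N K M : ℕ} [NeZero N] {S : Type*} [Fintype S] [DecidableEq S]
  {y c : G} {σ : ℤˣ} {xs : S → G}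

/-- hypotheses of the gluing theorem -/
structure GlueRel (N K M : ℕ) (y c : G) (σ : ℤˣ) (xs : S → G) : Prop where
  even : Even N
  le : N ≤ 2 * K
  y3 : y ^ 3 = 1
  yk : ∀ k, 1 ≤ k → k ≤ K → (y * Y c y σ k) ^ 2 = 1
  cN : c ^ N = (c * y) ^ M
  s3 : ∀ s, xs s ^ 3 = 1
  ss : ∀ s s', s ≠ s' → (xs s * xs s') ^ 2 = 1
  sy : ∀ s, (xs s * y) ^ 2 = 1
  cs : ∀ s, c * xs s * c⁻¹ = (xs s) ^ (σ : ℤ)

/-- the Carmichael family -/
def fam (N : ℕ) (y c : G) (σ : ℤˣ) (xs : S → G) : ZMod N ⊕ S → G :=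
  Sum.elim (fun i => Y c y σ i.val) xs

omit [NeZero N] [Fintype S] [DecidableEq S] in
theorem GlueRel.comm (h : GlueRel N K M y c σ xs) : Commute (c ^ N) y := by
  have h1 : Commute (c ^ N) (c * y) := by rw [h.cN]; exact (Commute.refl _).pow_left M
  have h2 : Commute (c ^ N) c⁻¹ := ((Commute.refl c).pow_left N).inv_right
  have := h2.mul_right h1
  simpa using this

omit [NeZero N] [Fintype S] [DecidableEq S] in
theorem GlueRel.period (h : GlueRel N K M y c σ xs) (i : ℕ) : Y c y σ (i + N) = Y c y σ i :=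
  Y_period h.even h.comm i

omit [NeZero N] [Fintype S] [DecidableEq S] in
theorem GlueRel.yk' (h : GlueRel N K M y c σ xs) (k : ℕ) (h1 : 1 ≤ k) (h2 : k < N) :
    (y * Y c y σ k) ^ 2 = 1 := by
  by_cases hk : k ≤ K
  · exact h.yk k h1 hk
  · have hle := h.le
    have h3 := h.yk (N - k) (by omega) (by omega)
    have h4 : (c ^ k * (y * Y c y σ (N - k)) * (c ^ k)⁻¹) ^ 2 = 1 := by rw [conj_pow, h3]; group
    have h5 : c ^ k * (y * Y c y σ (N - k)) * (c ^ k)⁻¹ =
        (Y c y σ k) ^ (((σ ^ k : ℤˣ)) : ℤ) * y ^ (((σ ^ k : ℤˣ)) : ℤ) := by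
      have e1 := Y_shift c y σ k 0
      have e2 := Y_shift c y σ k (N - k)
      rw [Y_zero, zero_add] at e1
      have e3 : Y c y σ (N - k + k) = y := by
        rw [Nat.sub_add_cancel h2.le]
        have := h.period 0
        rwa [zero_add, Y_zero] at this
      rw [e3] at e2
      rw [← e1, ← e2]; group
    rw [h5] at h4
    exact sq_one_comm (upow_sq _ h4)

omit [NeZero N] [Fintype S] [DecidableEq S] in
theorem GlueRel.pair (h : GlueRel N K M y c σ xs) (i j : ℕ) (hij : i < j) (hj : j < N) :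
    (Y c y σ i * Y c y σ j) ^ 2 = 1 := by
  have h3 := h.yk' (j - i) (by omega) (by omega)
  have h4 : (c ^ i * (y * Y c y σ (j - i)) * (c ^ i)⁻¹) ^ 2 = 1 := by rw [conj_pow, h3]; group
  have h5 : c ^ i * (y * Y c y σ (j - i)) * (c ^ i)⁻¹ =
      (Y c y σ i) ^ (((σ ^ i : ℤˣ)) : ℤ) * (Y c y σ j) ^ (((σ ^ i : ℤˣ)) : ℤ) := by
    have e1 := Y_shift c y σ i 0
    have e2 := Y_shift c y σ i (j - i)
    rw [Y_zero, zero_add] at e1
    rw [Nat.sub_add_cancel hij.le] at e2
    rw [← e1, ← e2]; group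
  rw [h5] at h4
  exact upow_sq _ h4

omit [NeZero N] [Fintype S] [DecidableEq S] in
theorem GlueRel.cs' (h : GlueRel N K M y c σ xs) (s : S) (i : ℕ) :
    c ^ i * xs s * (c ^ i)⁻¹ = (xs s) ^ (((σ ^ i : ℤˣ)) : ℤ) := by
  induction i with
  | zero => simp
  | succ i ih =>
    calc c ^ (i + 1) * xs s * (c ^ (i + 1))⁻¹ = c * (c ^ i * xs s * (c ^ i)⁻¹) * c⁻¹ := by
          rw [pow_succ']; group
      _ = (c * xs s * c⁻¹) ^ (((σ ^ i : ℤˣ)) : ℤ) := by rw [ih, conj_upow]
      _ = _ := by rw [h.cs, ← zpow_mul, ← Units.val_mul, ← pow_succ']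

omit [NeZero N] [Fintype S] [DecidableEq S] in
theorem GlueRel.spair (h : GlueRel N K M y c σ xs) (s : S) (i : ℕ) :
    (xs s * Y c y σ i) ^ 2 = 1 := by
  have h4 : (c ^ i * (xs s * y) * (c ^ i)⁻¹) ^ 2 = 1 := by rw [conj_pow, h.sy]; group
  have h5 : c ^ i * (xs s * y) * (c ^ i)⁻¹ =
      (xs s) ^ (((σ ^ i : ℤˣ)) : ℤ) * (Y c y σ i) ^ (((σ ^ i : ℤˣ)) : ℤ) := by
    have e1 := Y_shift c y σ i 0
    rw [Y_zero, zero_add] at e1
    rw [← e1, ← h.cs' s i]; group
  rw [h5] at h4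
  exact upow_sq _ h4

omit [Fintype S] [DecidableEq S] in
theorem GlueRel.fam_nat (h : GlueRel N K M y c σ xs) (n : ℕ) :
    Y c y σ n = fam N y c σ xs (Sum.inl (n : ZMod N)) := by
  change Y c y σ n = Y c y σ (n : ZMod N).val
  rw [ZMod.val_natCast]
  conv_lhs => rw [← Nat.mod_add_div n N]
  induction n / N with
  | zero => simp
  | succ k ih => rw [Nat.mul_succ, ← add_assoc, h.period, ih]

omit [Fintype S] [DecidableEq S] in
theorem GlueRel.fam3 (h : GlueRel N K M y c σ xs) (l : ZMod N ⊕ S) : fam N y c σ xs l ^ 3 = 1 := by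
  rcases l with i | s
  · exact Y_cube h.y3 _
  · exact h.s3 s

omit [Fintype S] [DecidableEq S] in
theorem GlueRel.fam2 (h : GlueRel N K M y c σ xs) (l l' : ZMod N ⊕ S) (hl : l ≠ l') :
    (fam N y c σ xs l * fam N y c σ xs l') ^ 2 = 1 := by
  rcases l with i | s <;> rcases l' with j | t
  · have hij : i.val ≠ j.val := fun hh => hl (by rw [ZMod.val_injective N hh])
    rcases lt_or_gt_of_ne hij with h1 | h1
    · exact h.pair _ _ h1 j.val_lt
    · exact sq_one_comm (h.pair _ _ h1 i.val_lt)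
  · exact sq_one_comm (h.spair t i.val)
  · exact h.spair s j.val
  · exact h.ss s t (fun hh => hl (by rw [hh]))

omit [Fintype S] [DecidableEq S] in
theorem GlueRel.c_fam (h : GlueRel N K M y c σ xs) (l : ZMod N ⊕ S) :
    ∃ l', c * fam N y c σ xs l * c⁻¹ = (fam N y c σ xs l') ^ (σ : ℤ) := by
  rcases l with i | s
  · refine ⟨Sum.inl ((i.val + 1 : ℕ) : ZMod N), ?_⟩
    rw [← h.fam_nat]
    exact Y_succ c y σ i.val
  · exact ⟨Sum.inr s, h.cs s⟩

/-- the gluing theorem -/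
theorem GlueRel.inj (h : GlueRel N K M y c σ xs)
    (π : G →* Perm (Option (Option (ZMod N ⊕ S)))) (hπ : ∀ l, π (fam N y c σ xs l) = X l)
    (hM : M = N + 1 ∨ M = N + 2 ∧ Perm.sign (π c) = -1)
    (hgen : closure (insert c (Set.range (fam N y c σ xs))) = ⊤) :
    Function.Injective π := by
  set Q := closure (Set.range (fam N y c σ xs)) with hQ
  have hx : ∀ l, fam N y c σ xs l ∈ Q := fun l => subset_closure ⟨l, rfl⟩
  have hcQ : ∀ k ∈ Q, c * k * c⁻¹ ∈ Q := by
    intro n hn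
    have hmap : Q.map (MulAut.conj c).toMonoidHom ≤ Q := by
      rw [hQ, MonoidHom.map_closure, closure_le]
      rintro _ ⟨_, ⟨l, rfl⟩, rfl⟩
      change c * fam N y c σ xs l * c⁻¹ ∈ _
      obtain ⟨l', hl'⟩ := h.c_fam l
      rw [hl']
      exact Q.zpow_mem (hx l') _
    exact hmap (mem_map_of_mem _ hn)
  have hyQ : y ∈ Q := by
    have := h.fam_nat 0
    rw [Y_zero] at this
    rw [this]; exact hx _
  obtain ⟨φ, hφ⟩ := exists_hom (fam N y c σ xs) h.fam3 h.fam2
  have hcomp : π.comp φ = (alternatingGroup (Option (Option (ZMod N ⊕ S)))).subtype := by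
    refine MonoidHom.eq_of_eqOn_dense closure_XA ?_
    rintro _ ⟨i, rfl⟩
    change π (φ (XA i)) = X i
    rw [hφ, hπ]
  have hrange : ∀ g ∈ Q, ∃ t, φ t = g := by
    intro g hg
    have : Q ≤ φ.range := by
      rw [hQ, closure_le]
      rintro _ ⟨l, rfl⟩
      exact ⟨XA l, hφ l⟩
    exact this hg
  have hsign : ∀ g ∈ Q, Perm.sign (π g) = 1 := by
    intro g hg
    obtain ⟨t, rfl⟩ := hrange g hg
    have : π (φ t) = (t : Perm _) := DFunLike.congr_fun hcomp t
    rw [this]; exact t.2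
  have hinjQ : ∀ g ∈ Q, π g = 1 → g = 1 := by
    intro g hg hg1
    obtain ⟨t, rfl⟩ := hrange g hg
    have : π (φ t) = (t : Perm _) := DFunLike.congr_fun hcomp t
    rw [this] at hg1
    rw [show t = 1 from Subtype.ext hg1, map_one]
  have hgen' : closure (insert c (Q : Set G)) = ⊤ := by
    rw [eq_top_iff, ← hgen]
    refine closure_mono ?_
    exact Set.insert_subset_insert subset_closure
  obtain ⟨k, hk, hkM⟩ := pow_mul_mem hcQ hyQ M
  have hcN := h.cN
  rw [hkM] at hcN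
  rw [injective_iff_map_eq_one]
  intro g hg
  rcases hM with rfl | ⟨rfl, hodd⟩
  · have hc : c ∈ Q := by
      have : c = (k⁻¹ : G) := by
        rw [pow_succ', ← mul_assoc] at hcN
        have h2 : 1 = k * c := by
          have := mul_right_cancel ((one_mul (c ^ N)).trans hcN)
          exact this
        exact eq_inv_of_mul_eq_one_right h2.symm
      rw [this]
      exact Q.inv_mem hk
    have htop : Q = ⊤ := by
      rw [eq_top_iff, ← hgen', closure_le]
      rintro x (rfl | hx)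
      · exact hc
      · exact hx
    exact hinjQ g (by rw [htop]; trivial) hg
  · have hc2 : c ^ 2 ∈ Q := by
      have : c ^ 2 = (k⁻¹ : G) := by
        rw [add_comm, pow_add, ← mul_assoc] at hcN
        have h2 : 1 = k * c ^ 2 := mul_right_cancel ((one_mul (c ^ N)).trans hcN)
        exact eq_inv_of_mul_eq_one_right h2.symm
      rw [this]
      exact Q.inv_mem hk
    rcases index_two_cover hcQ hc2 hgen' g with h1 | h1
    · exact hinjQ g h1 hg
    · exfalso
      have := hsign _ h1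
      rw [map_mul, hg, one_mul, hodd] at this
      exact absurd this (by decide)

end glue

end Cfsg.Agent.GK
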