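import Cfsg.Agent.GK.Basic

/-!
Additive groups of finite fields inside a group: products of conjugates of one element `u` under powers of `k`.
-/

set_option autoImplicit false

namespace Cfsg.Agent.GK

open Subgroup Polynomial

section pw
variable {G H : Type*} [Group G] [Group H]

/-- product of the elements `k ^ n * u ^ c n * k ^ (-n)` -/
def pw (u k : G) (c : ℕ → ℕ) : ℕ → G
  | 0 => 1
  | n + 1 => pw u k c n * (k ^ n * u ^ c n * (k ^ n)⁻¹)

theorem map_pw (f : G →* H) (u k : G) (c : ℕ → ℕ) (n : ℕ) : f (pw u k c n) = pw (f u) (f k) c n := by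
  induction n with
  | zero => exact map_one f
  | succ n ih => rw [pw, pw, map_mul, ih, map_mul, map_mul, map_inv, map_pow, map_pow]

/-- conjugates -/
def cj (u k : G) (n : ℕ) : G := k ^ n * u * (k ^ n)⁻¹

theorem cj_zero (u k : G) : cj u k 0 = u := by simp [cj]

theorem cj_shift (u k : G) (m n : ℕ) : k ^ m * cj u k n * (k ^ m)⁻¹ = cj u k (m + n) := by
  rw [cj, cj, pow_add]; group

theorem cj_pow (u k : G) (n c : ℕ) : k ^ n * u ^ c * (k ^ n)⁻¹ = cj u k n ^ c := by
  rw [cj, conj_pow]

theorem pw_succ (u k : G) (c : ℕ → ℕ) (n : ℕ) : pw u k c (n + 1) = pw u k c n * cj u k n ^ c n := by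
  rw [pw, cj_pow]

variable {u k : G} {p : ℕ}

theorem cj_p (hp : u ^ p = 1) (n : ℕ) : cj u k n ^ p = 1 := by
  rw [← cj_pow, hp]; group

/-- pairwise commuting conjugates -/
def CC (u k : G) : Prop := ∀ i j : ℕ, Commute (cj u k i) (cj u k j)

theorem pw_commute (h : CC u k) (c : ℕ → ℕ) (n j : ℕ) : Commute (pw u k c n) (cj u k j) := by
  induction n with
  | zero => exact Commute.one_left _
  | succ n ih =>
    rw [pw_succ]
    exact ih.mul_left ((h n j).pow_left _)

theorem pw_add (h : CC u k) (c d : ℕ → ℕ) (n : ℕ) :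
    pw u k (fun i => c i + d i) n = pw u k c n * pw u k d n := by
  induction n with
  | zero => simp [pw]
  | succ n ih =>
    rw [pw_succ, pw_succ, pw_succ, ih, pow_add]
    have := (pw_commute h d n n).pow_right (c n)
    calc pw u k c n * pw u k d n * (cj u k n ^ c n * cj u k n ^ d n)
        = pw u k c n * (pw u k d n * cj u k n ^ c n) * cj u k n ^ d n := by group
      _ = pw u k c n * (cj u k n ^ c n * pw u k d n) * cj u k n ^ d n := by rw [this.eq]
      _ = _ := by group

theorem pw_congr (hp : u ^ p = 1) {c d : ℕ → ℕ} (n : ℕ) (h : ∀ i < n, c i % p = d i % p) :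
    pw u k c n = pw u k d n := by
  induction n with
  | zero => rfl
  | succ n ih =>
    rw [pw_succ, pw_succ, ih (fun i hi => h i (by omega))]
    congr 1
    rw [pow_eq_pow_mod _ (cj_p hp n), h n (by omega), ← pow_eq_pow_mod _ (cj_p hp n)]

theorem pw_extend {c : ℕ → ℕ} {n m : ℕ} (hnm : n ≤ m) (h : ∀ i, n ≤ i → c i = 0) :
    pw u k c m = pw u k c n := by
  induction m, hnm using Nat.le_induction with
  | base => rfl
  | succ m hm ih => rw [pw_succ, ih, h m hm, pow_zero, mul_one]

theorem pw_shift (c : ℕ → ℕ) (n : ℕ) :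
    k * pw u k c n * k⁻¹ = pw u k (fun i => if i = 0 then 0 else c (i - 1)) (n + 1) := by
  induction n with
  | zero => simp [pw]
  | succ n ih =>
    rw [pw_succ _ _ _ (n + 1), ← ih, pw_succ]
    have := cj_shift u k 1 n
    rw [pow_one, add_comm] at this
    simp only [Nat.add_eq_zero_iff, one_ne_zero, and_false, if_false, Nat.add_sub_cancel]
    rw [← this, conj_pow]
    group

end pw

section Psi
variable {G : Type*} [Group G] {p : ℕ} [hp : Fact p.Prime] {u k : G}

/-- evaluation of a polynomial -/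
noncomputable def Psi (u k : G) (f : (ZMod p)[X]) : G := pw u k (fun n => (f.coeff n).val) (f.natDegree + 1)

theorem Psi_eq (f : (ZMod p)[X]) {N : ℕ} (hN : f.natDegree + 1 ≤ N) :
    Psi u k f = pw u k (fun n => (f.coeff n).val) N := by
  rw [Psi, pw_extend hN]
  intro i hi
  rw [coeff_eq_zero_of_natDegree_lt (by omega)]
  exact ZMod.val_zero

theorem map_Psi {H : Type*} [Group H] (φ : G →* H) (f : (ZMod p)[X]) : φ (Psi u k f) = Psi (φ u) (φ k) f :=
  map_pw φ _ _ _ _

theorem Psi_zero : Psi u k (0 : (ZMod p)[X]) = 1 := by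
  rw [Psi, natDegree_zero, pw_succ]
  simp [pw]

theorem Psi_one : Psi u k (1 : (ZMod p)[X]) = u := by
  have : Fact (1 < p) := ⟨hp.out.one_lt⟩
  rw [Psi, natDegree_one, pw_succ]
  simp [pw, cj_zero, ZMod.val_one]

theorem Psi_add (hu : u ^ p = 1) (h : CC u k) (f g : (ZMod p)[X]) :
    Psi u k (f + g) = Psi u k f * Psi u k g := by
  set N := max f.natDegree g.natDegree + 1 with hN
  have h1 : (f + g).natDegree + 1 ≤ N := Nat.succ_le_succ (natDegree_add_le f g)
  have h2 : f.natDegree + 1 ≤ N := Nat.succ_le_succ (le_max_left _ _)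
  have h3 : g.natDegree + 1 ≤ N := Nat.succ_le_succ (le_max_right _ _)
  rw [Psi_eq _ h1, Psi_eq _ h2, Psi_eq _ h3, ← pw_add h]
  apply pw_congr hu
  intro i _
  rw [coeff_add, ZMod.val_add, Nat.mod_mod]

theorem Psi_X_mul (f : (ZMod p)[X]) : Psi u k (X * f) = k * Psi u k f * k⁻¹ := by
  have h1 : (X * f).natDegree + 1 ≤ f.natDegree + 1 + 1 := by
    have := natDegree_mul_le (p := (X : (ZMod p)[X])) (q := f)
    have h2 := natDegree_X_le (R := ZMod p)
    omega
  rw [Psi_eq _ h1, Psi, pw_shift]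
  congr 1
  funext i
  rcases i with _ | i
  · simp
  · simp [coeff_X_mul]

theorem Psi_X_pow_mul (f : (ZMod p)[X]) (n : ℕ) : Psi u k (X ^ n * f) = k ^ n * Psi u k f * (k ^ n)⁻¹ := by
  induction n with
  | zero => simp
  | succ n ih => rw [pow_succ', mul_assoc, Psi_X_mul, ih, pow_succ']; group

theorem Psi_nsmul (hu : u ^ p = 1) (h : CC u k) (f : (ZMod p)[X]) (n : ℕ) :
    Psi u k (n • f) = Psi u k f ^ n := by
  induction n with
  | zero => rw [zero_smul, Psi_zero, pow_zero]
  | succ n ih => rw [succ_nsmul, Psi_add hu h, ih, pow_succ]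

theorem Psi_C_mul (hu : u ^ p = 1) (h : CC u k) (f : (ZMod p)[X]) (a : ZMod p) :
    Psi u k (C a * f) = Psi u k f ^ a.val := by
  rw [← Psi_nsmul hu h]
  congr 1
  rw [nsmul_eq_mul]
  congr 1
  rw [← C_eq_natCast, ZMod.natCast_zmod_val]

theorem Psi_mul (hu : u ^ p = 1) (h : CC u k) (f g : (ZMod p)[X]) (hf : Psi u k f = 1) :
    Psi u k (g * f) = 1 := by
  induction g using Polynomial.induction_on' with
  | add g1 g2 h1 h2 => rw [add_mul, Psi_add hu h, h1, h2, one_mul]
  | monomial n a =>
    rw [← C_mul_X_pow_eq_monomial, mul_assoc, Psi_C_mul hu h, Psi_X_pow_mul, hf]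
    simp

variable {F : Type*} [Field F] [Algebra (ZMod p) F] {κ : F}

theorem Psi_congr (hu : u ^ p = 1) (h : CC u k) (hm : Psi u k (minpoly (ZMod p) κ) = 1) {f g : (ZMod p)[X]}
    (hfg : aeval κ f = aeval κ g) : Psi u k f = Psi u k g := by
  have h1 : aeval κ (f - g) = 0 := by rw [map_sub, hfg, sub_self]
  obtain ⟨q, hq⟩ := minpoly.dvd (ZMod p) κ h1
  have h2 : Psi u k (f - g) = 1 := by
    rw [hq, mul_comm]
    exact Psi_mul hu h _ _ hm
  have h3 : f = (f - g) + g := by ring
  rw [h3, Psi_add hu h, h2, one_mul]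

/-- the parametrization of the additive group of the field -/
noncomputable def XX (u k : G) (F0 : F → (ZMod p)[X]) (s : F) : G := Psi u k (F0 s)

variable {F0 : F → (ZMod p)[X]}

theorem XX_add (hu : u ^ p = 1) (h : CC u k) (hm : Psi u k (minpoly (ZMod p) κ) = 1)
    (hF : ∀ s, aeval κ (F0 s) = s) (s t : F) : XX u k F0 (s + t) = XX u k F0 s * XX u k F0 t := by
  rw [XX, XX, XX, ← Psi_add hu h]
  apply Psi_congr hu h hm
  rw [hF, map_add, hF, hF]

theorem XX_one (hu : u ^ p = 1) (h : CC u k) (hm : Psi u k (minpoly (ZMod p) κ) = 1)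
    (hF : ∀ s, aeval κ (F0 s) = s) : XX u k F0 1 = u := by
  rw [XX, Psi_congr hu h hm (g := 1) (by rw [hF, map_one]), Psi_one]

theorem XX_conj (hu : u ^ p = 1) (h : CC u k) (hm : Psi u k (minpoly (ZMod p) κ) = 1)
    (hF : ∀ s, aeval κ (F0 s) = s) (s : F) : k * XX u k F0 s * k⁻¹ = XX u k F0 (κ * s) := by
  rw [XX, XX, ← Psi_X_mul]
  apply Psi_congr hu h hm
  rw [map_mul, aeval_X, hF, hF]

/-- an element commuting with `k` and acting correctly on `u` acts correctly everywhere -/
theorem XX_conj' (hu : u ^ p = 1) (h : CC u k) (hm : Psi u k (minpoly (ZMod p) κ) = 1)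
    (hF : ∀ s, aeval κ (F0 s) = s) {y : G} (hy : Commute y k) {η : F}
    (hyu : y * u * y⁻¹ = XX u k F0 η) (s : F) : y * XX u k F0 s * y⁻¹ = XX u k F0 (η * s) := by
  -- induct over polynomials
  have key : ∀ f : (ZMod p)[X], y * Psi u k f * y⁻¹ = XX u k F0 (η * aeval κ f) := by
    intro f
    induction f using Polynomial.induction_on' with
    | add f g h1 h2 =>
      rw [Psi_add hu h, map_add, mul_add, XX_add hu h hm hF, ← h1, ← h2]; group
    | monomial n a =>
      have hx0 : XX u k F0 0 = 1 := by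
        have := XX_add hu h hm hF 0 0
        rw [add_zero] at this
        exact (mul_eq_left.1 this.symm)
      have hXn : ∀ (n : ℕ) (s : F), XX u k F0 (n • s) = XX u k F0 s ^ n := by
        intro n s
        induction n with
        | zero => rw [zero_smul, hx0, pow_zero]
        | succ n ih => rw [succ_nsmul, XX_add hu h hm hF, ih, pow_succ]
      have hkn : ∀ (n : ℕ) (s : F), k ^ n * XX u k F0 s * (k ^ n)⁻¹ = XX u k F0 (κ ^ n * s) := by
        intro n s
        induction n with
        | zero => simp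
        | succ n ih =>
          have : k ^ (n + 1) * XX u k F0 s * (k ^ (n + 1))⁻¹ = k * (k ^ n * XX u k F0 s * (k ^ n)⁻¹) * k⁻¹ := by
            rw [pow_succ']; group
          rw [this, ih, XX_conj hu h hm hF, pow_succ', mul_assoc]
      have h1 : Psi u k (monomial n a) = (k ^ n * u * (k ^ n)⁻¹) ^ a.val := by
        rw [← C_mul_X_pow_eq_monomial, Psi_C_mul hu h]
        congr 1
        rw [← mul_one (X ^ n), Psi_X_pow_mul, Psi_one]
      have h2 : y * (k ^ n * u * (k ^ n)⁻¹) * y⁻¹ = k ^ n * (y * u * y⁻¹) * (k ^ n)⁻¹ := by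
        have hyn := (hy.pow_right n).eq
        have hyn' : (k ^ n)⁻¹ * y⁻¹ = y⁻¹ * (k ^ n)⁻¹ := by
          rw [← mul_inv_rev, ← mul_inv_rev, hyn]
        calc y * (k ^ n * u * (k ^ n)⁻¹) * y⁻¹ = (y * k ^ n) * u * ((k ^ n)⁻¹ * y⁻¹) := by group
          _ = _ := by rw [hyn, hyn']; group
      rw [h1, ← conj_pow, h2, hyu, hkn, ← hXn]
      congr 1
      rw [aeval_monomial, nsmul_eq_mul]
      have : ((a.val : ℕ) : F) = algebraMap (ZMod p) F a := by
        rw [← map_natCast (algebraMap (ZMod p) F), ZMod.natCast_zmod_val]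
      rw [this]; ring
  have h1 := key (F0 s)
  rw [hF] at h1
  exact h1

end Psi

section triangle
variable {G : Type*} [Group G]

theorem triangle {u A B : G} (hAB : Commute A B) (h1 : A * u * A⁻¹ = u * (B * u * B⁻¹))
    (h2 : Commute u (A * u * A⁻¹)) : CC u A := by
  have hr : ∀ n : ℕ, Commute u (cj u A n) ∧ Commute u (cj u A (n + 1)) := by
    intro n
    induction n with
    | zero => 
      refine ⟨by rw [cj_zero], ?_⟩
      have : cj u A (0 + 1) = A * u * A⁻¹ := by simp [cj]
      rw [this]; exact h2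
    | succ n ih =>
      refine ⟨ih.2, ?_⟩
      obtain ⟨c0, c1⟩ := ih
      -- u commutes with w n and w (n+1)
      have hA : ∀ m, A * cj u A m * A⁻¹ = cj u A (m + 1) := by
        intro m
        have := cj_shift u A 1 m
        rwa [pow_one, add_comm] at this
      -- the element v = B u B⁻¹ = u⁻¹ * w 1
      set v := B * u * B⁻¹ with hv
      have hv1 : v = u⁻¹ * (A * u * A⁻¹) := by rw [h1]; group
      -- w 1 commutes with w (n+1) and w (n+2) [translates by A]
      have d1 : Commute (A * u * A⁻¹) (cj u A (n + 1)) := by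
        have := c0.conj A
        rwa [hA] at this
      have d2 : Commute (A * u * A⁻¹) (cj u A (n + 1 + 1)) := by
        have := c1.conj A
        rwa [hA] at this
      -- v commutes with w (n+1)
      have e1 : Commute v (cj u A (n + 1)) := by
        rw [hv1]; exact c1.inv_left.mul_left d1
      -- v commutes with B w(n+1) B⁻¹
      have e2 : Commute v (B * cj u A (n + 1) * B⁻¹) := c1.conj B
      -- w (n+2) = w (n+1) * (B w (n+1) B⁻¹)
      have e3 : cj u A (n + 1 + 1) = cj u A (n + 1) * (B * cj u A (n + 1) * B⁻¹) := by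
        have hc : Commute (A ^ (n + 1)) B := hAB.pow_left _
        have h3 : cj u A (n + 1 + 1) = A ^ (n + 1) * (A * u * A⁻¹) * (A ^ (n + 1))⁻¹ := by
          rw [cj, pow_succ]; group
        have h4 : B * cj u A (n + 1) * B⁻¹ = A ^ (n + 1) * v * (A ^ (n + 1))⁻¹ := by
          rw [cj, hv]
          have hc' : (A ^ (n + 1))⁻¹ * B⁻¹ = B⁻¹ * (A ^ (n + 1))⁻¹ := by
            rw [← mul_inv_rev, ← mul_inv_rev, hc.eq]
          calc B * (A ^ (n + 1) * u * (A ^ (n + 1))⁻¹) * B⁻¹
              = (B * A ^ (n + 1)) * u * ((A ^ (n + 1))⁻¹ * B⁻¹) := by group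
            _ = _ := by rw [← hc.eq, hc']; group
        rw [h3, h4, h1, cj]; group
      have e4 : Commute v (cj u A (n + 1 + 1)) := by
        rw [e3]; exact e1.mul_right e2
      have e5 : u = (A * u * A⁻¹) * v⁻¹ := by rw [h1]; group
      have e6 := d2.mul_left e4.inv_left
      rwa [← e5] at e6
  have hall : ∀ i d : ℕ, Commute (cj u A i) (cj u A (i + d)) := by
    intro i d
    have := (hr d).1.conj (A ^ i)
    rwa [cj_shift, show A ^ i * u * (A ^ i)⁻¹ = cj u A i from rfl] at this
  intro i j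
  rcases le_total i j with h | h
  · obtain ⟨d, rfl⟩ := Nat.exists_eq_add_of_le h
    exact hall i d
  · obtain ⟨d, rfl⟩ := Nat.exists_eq_add_of_le h
    exact (hall j d).symm

end triangle

end Cfsg.Agent.GK
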