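import Cfsg.Agent.GK.Sp3
import Cfsg.Agent.Stb.OTor

/-!
Relations of type `D_n` from `SL_n` and commuting sign changes: the Steinberg relations.
-/

set_option autoImplicit false
set_option linter.unusedSectionVars false

namespace Cfsg.Agent.GK.Om

open Subgroup
open scoped commutatorElement

attribute [local instance] Stb.sumNeg

universe v

section dn
variable {F : Type v} [Field F] {l : Type*} [Fintype l] [DecidableEq l] {Γ : Type*} [Group Γ]

/-- root elements of `SL_n` -/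
def XX (ρ : Matrix.SpecialLinearGroup l F →* Γ) (i j : l) (a : F) : Γ := if h : i ≠ j then ρ (tvl h a) else 1

/-- sign change of a signed index, with the auxiliary index `k` -/
def tp (T : l → Γ) (k : l) : l ⊕ l → Γ := Sum.elim (fun _ => 1) (fun i => T i * T k)

/-- root elements with an auxiliary index -/
def yd (ρ : Matrix.SpecialLinearGroup l F →* Γ) (T : l → Γ) (k : l) (p q : l ⊕ l) (a : F) : Γ :=
  (tp T k p * tp T k (-q)) * XX ρ (ab p) (ab q) a * (tp T k p * tp T k (-q))⁻¹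

/-- root elements -/
def yD (ρ : Matrix.SpecialLinearGroup l F →* Γ) (T : l → Γ) (K : l → l → l) (p q : l ⊕ l) (a : F) : Γ :=
  yd ρ T (K (ab p) (ab q)) p q a

/-- the conditions -/
structure DG (ρ : Matrix.SpecialLinearGroup l F →* Γ) (T : l → Γ) : Prop where
  tt : ∀ i, T i * T i = 1
  tc : ∀ i j, Commute (T i) (T j)
  A : ∀ {i j k m : l} (h : k ≠ m), i ≠ k → i ≠ m → j ≠ k → j ≠ m → ∀ a : F, Commute (T i * T j) (ρ (tvl h a))
  B : ∀ {i j : l} (h : i ≠ j) (a : F), (T i * T j) * ρ (tvl h a) * (T i * T j)⁻¹ = ρ (tvl h.symm (-a))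
  E : ∀ {i j k : l} (h : i ≠ j), i ≠ k → j ≠ k → ∀ a b : F,
    Commute (ρ (tvl h a)) ((T j * T k) * ρ (tvl h b) * (T j * T k)⁻¹)
  F' : ∀ {i j k m : l} (h : i ≠ j) (h' : k ≠ m), i ≠ k → i ≠ m → j ≠ k → j ≠ m → ∀ a b : F,
    Commute (ρ (tvl h a)) ((T m * T i) * ρ (tvl h' b) * (T m * T i)⁻¹)

variable {ρ : Matrix.SpecialLinearGroup l F →* Γ} {T : l → Γ}

theorem XX_eq {i j : l} (h : i ≠ j) (a : F) : XX ρ i j a = ρ (tvl h a) := dif_pos h

theorem conj_eq_of_commute {g g' x : Γ} (h : Commute (g'⁻¹ * g) x) : g * x * g⁻¹ = g' * x * g'⁻¹ := by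
  have h1 : g = g' * (g'⁻¹ * g) := by group
  calc g * x * g⁻¹ = g' * (g'⁻¹ * g) * x * (g' * (g'⁻¹ * g))⁻¹ := by rw [← h1]
    _ = g' * ((g'⁻¹ * g) * x) * (g' * (g'⁻¹ * g))⁻¹ := by group
    _ = g' * (x * (g'⁻¹ * g)) * (g' * (g'⁻¹ * g))⁻¹ := by rw [h.eq]
    _ = _ := by group

namespace DG

theorem inv (H : DG ρ T) (i : l) : (T i)⁻¹ = T i := inv_eq_of_mul_eq_one_left (H.tt i)

theorem tinv (H : DG ρ T) (i j : l) : (T i * T j)⁻¹ = T i * T j := by
  rw [mul_inv_rev, H.inv, H.inv, (H.tc j i).eq]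

theorem ttc (H : DG ρ T) (i j k m : l) : Commute (T i * T j) (T k * T m) :=
  ((H.tc i k).mul_right (H.tc i m)).mul_left ((H.tc j k).mul_right (H.tc j m))

theorem tsq (H : DG ρ T) (i j : l) : (T i * T j) * (T i * T j) = 1 := by
  rw [mul_assoc, ← mul_assoc (T j), (H.tc j i).eq, mul_assoc (T i), H.tt, mul_one, H.tt]

/-- `T i T k T j T k = T i T j` -/
theorem tijk (H : DG ρ T) (i j k : l) : (T i * T k) * (T j * T k) = T i * T j := by
  rw [mul_assoc, ← mul_assoc (T k), (H.tc k j).eq, mul_assoc (T j), H.tt, mul_one]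

theorem AX (H : DG ρ T) {i j k m : l} (h1 : i ≠ k) (h2 : i ≠ m) (h3 : j ≠ k) (h4 : j ≠ m) (a : F) :
    Commute (T i * T j) (XX ρ k m a) := by
  by_cases h : k ≠ m
  · rw [XX_eq h]; exact H.A h h1 h2 h3 h4 a
  · rw [XX, dif_neg h]; exact Commute.one_right _

theorem tp_comm (H : DG ρ T) (i j k : l) (p : l ⊕ l) : Commute (T i * T j) (tp T k p) := by
  rcases p with m | m
  · exact Commute.one_right _
  · exact H.ttc i j m k

theorem tp_comm' (H : DG ρ T) (k k' : l) (p q : l ⊕ l) : Commute (tp T k p) (tp T k' q) := by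
  rcases p with m | m
  · exact Commute.one_left _
  · exact H.tp_comm m k k' q

/-- flipping the sign -/
theorem tp_neg (H : DG ρ T) (k : l) (p : l ⊕ l) : tp T k (-p) = (T (ab p) * T k) * tp T k p := by
  rcases p with m | m
  · change T m * T k = T m * T k * 1
    rw [mul_one]
  · change (1 : Γ) = T m * T k * (T m * T k)
    rw [H.tsq]

/-- the auxiliary index does not matter -/
theorem indep (H : DG ρ T) {k k' : l} {p q : l ⊕ l} (h1 : k ≠ ab p) (h2 : k ≠ ab q) (h3 : k' ≠ ab p) (h4 : k' ≠ ab q)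
    (a : F) : yd ρ T k p q a = yd ρ T k' p q a := by
  unfold yd
  apply conj_eq_of_commute
  have hkk : ∀ j : l, (T j * T k')⁻¹ * (T j * T k) = T k' * T k := by
    intro j
    rw [H.tinv, (H.tc j k').eq, (H.tc j k).eq]
    rw [show T k' * T j * (T k * T j) = (T k' * T j) * (T k * T j) from rfl, H.tijk]
  rcases p with i | i <;> rcases q with j | j
  · change Commute (((1 : Γ) * (T j * T k'))⁻¹ * (1 * (T j * T k))) _
    rw [one_mul, one_mul, hkk]
    exact H.AX h3 h4 h1 h2 a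
  · change Commute (((1 : Γ) * 1)⁻¹ * (1 * 1)) _
    rw [one_mul, inv_one, one_mul]
    exact Commute.one_left _
  · change Commute (((T i * T k') * (T j * T k'))⁻¹ * ((T i * T k) * (T j * T k))) _
    rw [H.tijk, H.tijk, inv_mul_cancel]
    exact Commute.one_left _
  · change Commute (((T i * T k') * (1 : Γ))⁻¹ * ((T i * T k) * 1)) _
    rw [mul_one, mul_one, hkk]
    exact H.AX h3 h4 h1 h2 a

theorem conj_comm {g t x : Γ} (h : Commute t g) : t * (g * x * g⁻¹) * t⁻¹ = (t * g) * x * (t * g)⁻¹ := by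
  group

/-- flipping the first index -/
theorem flip1 (H : DG ρ T) (k : l) (p q : l ⊕ l) (a : F) :
    (T (ab p) * T k) * yd ρ T k p q a * (T (ab p) * T k)⁻¹ = yd ρ T k (-p) q a := by
  unfold yd
  rw [conj_comm ((H.tp_comm _ _ _ _).mul_right (H.tp_comm _ _ _ _)), ← mul_assoc (T (ab p) * T k), ← H.tp_neg, ab_neg]

/-- flipping the second index -/
theorem flip2 (H : DG ρ T) (k : l) (p q : l ⊕ l) (a : F) :
    (T (ab q) * T k) * yd ρ T k p q a * (T (ab q) * T k)⁻¹ = yd ρ T k p (-q) a := by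
  unfold yd
  rw [conj_comm ((H.tp_comm _ _ _ _).mul_right (H.tp_comm _ _ _ _)), ← mul_assoc (T (ab q) * T k),
    (H.tp_comm (ab q) k k p).eq, mul_assoc (tp T k p)]
  have := H.tp_neg k (-q)
  rw [neg_neg, ab_neg] at this
  rw [neg_neg, this, ab_neg]

/-- sign changes of other indices -/
theorem flip0 (H : DG ρ T) {i m k : l} {p q : l ⊕ l} (h1 : i ≠ ab p) (h2 : i ≠ ab q) (h3 : m ≠ ab p) (h4 : m ≠ ab q)
    (a : F) : (T i * T m) * yd ρ T k p q a * (T i * T m)⁻¹ = yd ρ T k p q a := by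
  have hc : Commute (T i * T m) (yd ρ T k p q a) := by
    unfold yd
    have hg : Commute (T i * T m) (tp T k p * tp T k (-q)) := (H.tp_comm _ _ _ _).mul_right (H.tp_comm _ _ _ _)
    exact (hg.mul_right (H.AX h1 h2 h3 h4 a)).mul_right hg.inv_right
  rw [hc.eq]; group

variable {K : l → l → l}

/-- equivariance -/
theorem act (H : DG ρ T) (hK : ∀ i j, K i j ≠ i ∧ K i j ≠ j) {i m : l} (him : i ≠ m) {p q : l ⊕ l} (hpq : ab p ≠ ab q) (a : F) :
    (T i * T m) * yD ρ T K p q a * (T i * T m)⁻¹ = yD ρ T K (sk i (sk m p)) (sk i (sk m q)) a := by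
  have aux : ∀ {i m : l}, i ≠ m → m ≠ ab p → m ≠ ab q →
      (T i * T m) * yD ρ T K p q a * (T i * T m)⁻¹ = yD ρ T K (sk i p) (sk i q) a := by
    intro i m him hmp hmq
    have hk := hK (ab p) (ab q)
    by_cases h1 : i = ab p
    · subst h1
      have e1 : sk (ab p) p = -p := if_pos rfl
      rw [e1, sk_ne hpq]
      unfold yD
      rw [ab_neg, H.indep hk.1 hk.2 hmp hmq, H.flip1]
      exact H.indep (by rw [ab_neg]; exact hmp) hmq (by rw [ab_neg]; exact hk.1) hk.2 a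
    · by_cases h2 : i = ab q
      · subst h2
        have e1 : sk (ab q) q = -q := if_pos rfl
        rw [e1, sk_ne hpq.symm]
        unfold yD
        rw [ab_neg, H.indep hk.1 hk.2 hmp hmq, H.flip2]
        exact H.indep hmp (by rw [ab_neg]; exact hmq) hk.1 (by rw [ab_neg]; exact hk.2) a
      · rw [sk_ne h1, sk_ne h2]
        unfold yD
        exact H.flip0 h1 h2 hmp hmq a
  by_cases h3 : m = ab p ∨ m = ab q
  · -- use commutativity, or an auxiliary index
    by_cases h4 : i = ab p ∨ i = ab q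
    · -- both are involved
      set n := K (ab p) (ab q) with hn
      have hk := hK (ab p) (ab q)
      rw [← hn] at hk
      have hne : ∀ x, (x = ab p ∨ x = ab q) → x ≠ n := by
        rintro x (rfl | rfl)
        · exact hk.1.symm
        · exact hk.2.symm
      rw [← H.tijk i m n]
      have e1 := aux (hne m h3) hk.1 hk.2
      have hab1 : ab (sk m p) = ab p := ab_sk m p
      have hab2 : ab (sk m q) = ab q := ab_sk m q
      have e : ∀ x : Γ, (T i * T n) * (T m * T n) * x * ((T i * T n) * (T m * T n))⁻¹ =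
          (T i * T n) * ((T m * T n) * x * (T m * T n)⁻¹) * (T i * T n)⁻¹ := by intro x; group
      rw [e, e1]
      -- the second step, for the new pair
      have hk' := hK (ab (sk m p)) (ab (sk m q))
      by_cases h1 : i = ab p
      · subst h1
        have e2 : sk (ab p) (sk m p) = -(sk m p) := if_pos (ab_sk m p)
        have e3 : sk (ab p) (sk m q) = sk m q := sk_ne (by rw [ab_sk]; exact hpq)
        rw [e2, e3]
        unfold yD
        rw [ab_neg, H.indep hk'.1 hk'.2 (k' := n) (by rw [hab1]; exact hk.1) (by rw [hab2]; exact hk.2)]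
        have := H.flip1 n (sk m p) (sk m q) a
        rw [hab1] at this
        rw [this]
        exact H.indep (by rw [ab_neg, hab1]; exact hk.1) (by rw [hab2]; exact hk.2) (by rw [ab_neg]; exact hk'.1) hk'.2 a
      · have h2 : i = ab q := h4.resolve_left h1
        subst h2
        have e2 : sk (ab q) (sk m q) = -(sk m q) := if_pos (ab_sk m q)
        have e3 : sk (ab q) (sk m p) = sk m p := sk_ne (by rw [ab_sk]; exact hpq.symm)
        rw [e2, e3]
        unfold yD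
        rw [ab_neg, H.indep hk'.1 hk'.2 (k' := n) (by rw [hab1]; exact hk.1) (by rw [hab2]; exact hk.2)]
        have := H.flip2 n (sk m p) (sk m q) a
        rw [hab2] at this
        rw [this]
        exact H.indep (by rw [hab1]; exact hk.1) (by rw [ab_neg, hab2]; exact hk.2) hk'.1 (by rw [ab_neg]; exact hk'.2) a
    · push Not at h4
      have e1 : sk i (sk m p) = sk m p := sk_ne (by rw [ab_sk]; exact h4.1)
      have e2 : sk i (sk m q) = sk m q := sk_ne (by rw [ab_sk]; exact h4.2)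
      rw [e1, e2, (H.tc i m).eq]
      exact aux him.symm h4.1 h4.2
  · push Not at h3
    rw [sk_ne h3.1, sk_ne h3.2]
    exact aux him h3.1 h3.2

/-- symmetry -/
theorem ysymm (H : DG ρ T) (hK : ∀ i j, K i j ≠ i ∧ K i j ≠ j) {p q : l ⊕ l} (hpq : ab p ≠ ab q) (a : F) :
    yD ρ T K p q a = yD ρ T K q p (-a) := by
  have hk := hK (ab p) (ab q)
  have hk' := hK (ab q) (ab p)
  unfold yD
  rw [H.indep hk'.1 hk'.2 hk.2 hk.1]
  set k := K (ab p) (ab q)
  unfold yd
  rw [XX_eq hpq, XX_eq hpq.symm, ← H.B hpq]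
  have e : ∀ x : Γ, (tp T k q * tp T k (-p)) * ((T (ab p) * T (ab q)) * x * (T (ab p) * T (ab q))⁻¹) *
      (tp T k q * tp T k (-p))⁻¹ = ((tp T k q * tp T k (-p)) * (T (ab p) * T (ab q))) * x *
      ((tp T k q * tp T k (-p)) * (T (ab p) * T (ab q)))⁻¹ := by intro x; group
  rw [e]
  have key : (tp T k q * tp T k (-p)) * (T (ab p) * T (ab q)) = tp T k p * tp T k (-q) := by
    have e1 := H.tp_neg k (-q)
    have e2 := H.tp_neg k (-p)
    rw [neg_neg, ab_neg] at e1 e2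
    rw [e1, e2, ← H.tijk (ab p) (ab q) k]
    set A := T (ab p) * T k
    set B := T (ab q) * T k with hB
    set P := tp T k (-p)
    set Q := tp T k (-q)
    have c1 : Commute (A * B) B := (H.ttc _ _ _ _).mul_left (Commute.refl _)
    have c2 : Commute (A * B) Q := (H.tp_comm _ _ _ _).mul_left (H.tp_comm _ _ _ _)
    have c3 : Commute (A * B) P := (H.tp_comm _ _ _ _).mul_left (H.tp_comm _ _ _ _)
    have c4 : Commute Q P := H.tp_comm' _ _ _ _
    have e3 : B * B = 1 := H.tsq _ _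
    calc B * Q * P * (A * B) = A * B * (B * Q * P) := (((c1.mul_right c2).mul_right c3).eq).symm
      _ = A * (B * B) * (Q * P) := by group
      _ = A * P * Q := by rw [e3, c4.eq]; group
  rw [key]

theorem yadd (H : DG ρ T) {p q : l ⊕ l} (hpq : ab p ≠ ab q) (a b : F) :
    yD ρ T K p q (a + b) = yD ρ T K p q a * yD ρ T K p q b := by
  unfold yD yd
  rw [XX_eq hpq, XX_eq hpq, XX_eq hpq, tvl_add, map_mul]
  group

end DG

/-! ### transport -/

/-- symmetries of the root elements -/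
structure Sy (y : l ⊕ l → l ⊕ l → F → Γ) (g : Γ) (π : l ⊕ l → l ⊕ l) : Prop where
  neg : ∀ p, π (-p) = -(π p)
  act : ∀ p q, ab p ≠ ab q → ∀ a, g * y p q a * g⁻¹ = y (π p) (π q) a

/-- the first relation -/
def C1 (y : l ⊕ l → l ⊕ l → F → Γ) (p q r : l ⊕ l) : Prop := ∀ a b, ⁅y p q a, y (-q) r b⁆ = y p r (a * b)

/-- the relation of commuting elements -/
def C4 (y : l ⊕ l → l ⊕ l → F → Γ) (p q r s : l ⊕ l) : Prop := ∀ a b, ⁅y p q a, y r s b⁆ = 1

section tr
variable {y : l ⊕ l → l ⊕ l → F → Γ} {g : Γ} {π : l ⊕ l → l ⊕ l}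

theorem C1.tr (M : Sy y g π) {p q r : l ⊕ l} (hpq : ab p ≠ ab q) (hqr : ab q ≠ ab r) (hpr : ab p ≠ ab r) (h : C1 y p q r) :
    C1 y (π p) (π q) (π r) := by
  intro a b
  have h1 := congrArg (fun x => g * x * g⁻¹) (h a b)
  rwa [conj_com, M.act p q hpq, M.act (-q) r (by rwa [ab_neg]), M.act p r hpr, M.neg] at h1

theorem C4.tr (M : Sy y g π) {p q r s : l ⊕ l} (hpq : ab p ≠ ab q) (hrs : ab r ≠ ab s) (h : C4 y p q r s) :
    C4 y (π p) (π q) (π r) (π s) := by
  intro a b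
  have h1 := congrArg (fun x => g * x * g⁻¹) (h a b)
  rwa [conj_com, M.act p q hpq, M.act r s hrs, mul_one, mul_inv_cancel] at h1

theorem C4.swap {p q r s : l ⊕ l} (h : C4 y p q r s) : C4 y r s p q := by
  intro a b
  have := h b a
  rw [commutatorElement_eq_one_iff_mul_comm] at this ⊢
  exact this.symm

end tr

namespace DG

variable {K : l → l → l}

theorem sy (H : DG ρ T) (hK : ∀ i j, K i j ≠ i ∧ K i j ≠ j) {i m : l} (him : i ≠ m) :
    Sy (yD ρ T K) (T i * T m) (fun p => sk i (sk m p)) where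
  neg p := by rw [sk_neg, sk_neg]
  act _ _ hpq a := H.act hK him hpq a

theorem y_lr (H : DG ρ T) {i j : l} (h : i ≠ j) (a : F) : yD ρ T K (Sum.inl i) (Sum.inr j) a = ρ (tvl h a) := by
  change ((1 : Γ) * 1) * XX ρ i j a * ((1 : Γ) * 1)⁻¹ = _
  rw [XX_eq h]; group

theorem y_ll (H : DG ρ T) (hK : ∀ i j, K i j ≠ i ∧ K i j ≠ j) {i j k : l} (h : i ≠ j) (h1 : k ≠ i) (h2 : k ≠ j) (a : F) :
    yD ρ T K (Sum.inl i) (Sum.inl j) a = (T j * T k) * ρ (tvl h a) * (T j * T k)⁻¹ := by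
  have hk := hK i j
  change yd ρ T (K i j) (Sum.inl i) (Sum.inl j) a = _
  rw [H.indep (p := Sum.inl i) (q := Sum.inl j) (k' := k) hk.1 hk.2 h1 h2]
  change ((1 : Γ) * (T j * T k)) * XX ρ i j a * ((1 : Γ) * (T j * T k))⁻¹ = _
  rw [XX_eq h, one_mul]

/-- flipping an index, with an auxiliary index outside -/
theorem tr1 (H : DG ρ T) (hK : ∀ i j, K i j ≠ i ∧ K i j ≠ j) {m : l} {p q r : l ⊕ l} (i : l) (him : i ≠ m) (hp : m ≠ ab p)
    (hq : m ≠ ab q) (hr : m ≠ ab r)
    (hpq : ab p ≠ ab q) (hqr : ab q ≠ ab r) (hpr : ab p ≠ ab r) (h : C1 (yD ρ T K) p q r) :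
    C1 (yD ρ T K) (sk i p) (sk i q) (sk i r) := by
  have := h.tr (H.sy hK him) hpq hqr hpr
  rwa [sk_ne hp, sk_ne hq, sk_ne hr] at this

theorem tr4 (H : DG ρ T) (hK : ∀ i j, K i j ≠ i ∧ K i j ≠ j) {m : l} {p q r s : l ⊕ l} (i : l) (him : i ≠ m) (hp : m ≠ ab p)
    (hq : m ≠ ab q) (hr : m ≠ ab r) (hs : m ≠ ab s)
    (hpq : ab p ≠ ab q) (hrs : ab r ≠ ab s) (h : C4 (yD ρ T K) p q r s) :
    C4 (yD ρ T K) (sk i p) (sk i q) (sk i r) (sk i s) := by
  have := h.tr (H.sy hK him) hpq hrs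
  rwa [sk_ne hp, sk_ne hq, sk_ne hr, sk_ne hs] at this

end DG

theorem exists_out3 (h4 : 4 ≤ Fintype.card l) (i j k : l) : ∃ m : l, m ≠ i ∧ m ≠ j ∧ m ≠ k := by
  by_contra hcon
  push Not at hcon
  have : (Finset.univ : Finset l) ⊆ {i, j, k} := by
    intro m _
    by_cases h1 : m = i
    · simp [h1]
    · by_cases h2 : m = j
      · simp [h2]
      · simp [hcon m h1 h2]
  have h1 := (Finset.card_le_card this).trans (Finset.card_le_three)
  rw [Finset.card_univ] at h1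
  omega

namespace DG

variable {K : l → l → l}

theorem c1 (H : DG ρ T) (hK : ∀ i j, K i j ≠ i ∧ K i j ≠ j) (h4 : 4 ≤ Fintype.card l) {p q r : l ⊕ l} (hpq : ab p ≠ ab q)
    (hqr : ab q ≠ ab r) (hpr : ab p ≠ ab r) : C1 (yD ρ T K) p q r := by
  have s1 : ∀ i j k : l, i ≠ j → j ≠ k → i ≠ k → C1 (yD ρ T K) (Sum.inl i) (Sum.inr j) (Sum.inr k) := by
    intro i j k h h' h'' a b
    change ⁅yD ρ T K (Sum.inl i) (Sum.inr j) a, yD ρ T K (Sum.inl j) (Sum.inr k) b⁆ = _
    rw [H.y_lr h, H.y_lr h', H.y_lr h'', ← map_commutatorElement, tvl_com h h' h'']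
  have s2 : ∀ (p : l ⊕ l) (j k : l), ab p ≠ j → j ≠ k → ab p ≠ k → C1 (yD ρ T K) p (Sum.inr j) (Sum.inr k) := by
    intro p j k h h' h''
    rcases p with i | i
    · exact s1 i j k h h' h''
    · have h1 : i ≠ j := h
      have h2 : i ≠ k := h''
      obtain ⟨m, m1, m2, m3⟩ := exists_out3 h4 i j k
      have := H.tr1 (p := Sum.inl i) (q := Sum.inr j) (r := Sum.inr k) hK i m1.symm m1 m2 m3 h1 h' h2 (s1 i j k h1 h' h2)
      rwa [sk_l, sk_r' h1, sk_r' h2] at this
  have s3 : ∀ (p q : l ⊕ l) (k : l), ab p ≠ ab q → ab q ≠ k → ab p ≠ k → C1 (yD ρ T K) p q (Sum.inr k) := by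
    intro p q k h h' h''
    rcases q with j | j
    · have h1 : j ≠ k := h'
      have h2 : j ≠ ab p := h.symm
      obtain ⟨m, m1, m2, m3⟩ := exists_out3 h4 (ab p) j k
      have := H.tr1 (q := Sum.inr j) (r := Sum.inr k) hK j m2.symm m1 m2 m3 h h1 h'' (s2 p j k h h1 h'')
      rwa [sk_r, sk_r' h1, sk_ne h2] at this
    · exact s2 p j k h h' h''
  rcases r with k | k
  · have h1 : k ≠ ab p := hpr.symm
    have h2 : k ≠ ab q := hqr.symm
    obtain ⟨m, m1, m2, m3⟩ := exists_out3 h4 (ab p) (ab q) k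
    have := H.tr1 (r := Sum.inr k) hK k m3.symm m1 m2 m3 hpq hqr hpr (s3 p q k hpq hqr hpr)
    rwa [sk_r, sk_ne h1, sk_ne h2] at this
  · exact s3 p q k hpq hqr hpr

theorem c2 (H : DG ρ T) (hK : ∀ i j, K i j ≠ i ∧ K i j ≠ j) (h4 : 4 ≤ Fintype.card l) {p q : l ⊕ l} (hpq : ab p ≠ ab q) :
    C4 (yD ρ T K) p q (-q) p := by
  have s1 : ∀ i j : l, i ≠ j → C4 (yD ρ T K) (Sum.inl i) (Sum.inr j) (Sum.inl j) (Sum.inl i) := by
    intro i j h a b
    obtain ⟨m, m1, m2, -⟩ := exists_out3 h4 i j i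
    rw [H.ysymm hK (show ab (Sum.inl j : l ⊕ l) ≠ ab (Sum.inl i : l ⊕ l) from h.symm), H.y_ll hK h m1 m2, H.y_lr h,
      commutatorElement_eq_one_iff_mul_comm]
    exact (H.E h m1.symm m2.symm a (-b)).eq
  have s2 : ∀ (p : l ⊕ l) (j : l), ab p ≠ j → C4 (yD ρ T K) p (Sum.inr j) (Sum.inl j) p := by
    intro p j h
    rcases p with i | i
    · exact s1 i j h
    · have h1 : i ≠ j := h
      obtain ⟨m, m1, m2, -⟩ := exists_out3 h4 i j i
      have := H.tr4 (m := m) (p := Sum.inl i) (q := Sum.inr j) (r := Sum.inl j) (s := Sum.inl i) hK i m1.symm m1 m2 m2 m1 h1 h1.symm (s1 i j h1)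
      rwa [sk_l, sk_r' h1, sk_l' h1] at this
  rcases q with j | j
  · have h1 : j ≠ ab p := hpq.symm
    obtain ⟨m, m1, m2, -⟩ := exists_out3 h4 (ab p) j j
    have := H.tr4 (m := m) (q := Sum.inr j) (r := Sum.inl j) hK j m2.symm m1 m2 m2 m1 hpq h1 (s2 p j hpq)
    rwa [sk_r, sk_l, sk_ne h1] at this
  · exact s2 p j hpq

/-- one common index -/
theorem c4d (H : DG ρ T) (hK : ∀ i j, K i j ≠ i ∧ K i j ≠ j) (h4 : 4 ≤ Fintype.card l) {p q r : l ⊕ l} (hpq : ab p ≠ ab q)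
    (hqr : ab q ≠ ab r) (hpr : ab p ≠ ab r) : C4 (yD ρ T K) p q p r := by
  have s1 : ∀ i j k : l, i ≠ j → j ≠ k → i ≠ k → C4 (yD ρ T K) (Sum.inl i) (Sum.inr j) (Sum.inl i) (Sum.inr k) := by
    intro i j k h h' h'' a b
    rw [H.y_lr h, H.y_lr h'', ← map_commutatorElement]
    have : ⁅tvl h a, tvl h'' b⁆ = 1 := by
      rw [commutatorElement_eq_one_iff_mul_comm]
      exact tv_comm h h'' h.symm h'' _ _
    rw [this, map_one]
  have s2 : ∀ (p : l ⊕ l) (j k : l), ab p ≠ j → j ≠ k → ab p ≠ k → C4 (yD ρ T K) p (Sum.inr j) p (Sum.inr k) := by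
    intro p j k h h' h''
    rcases p with i | i
    · exact s1 i j k h h' h''
    · have h1 : i ≠ j := h
      have h2 : i ≠ k := h''
      obtain ⟨m, m1, m2, m3⟩ := exists_out3 h4 i j k
      have := H.tr4 (p := Sum.inl i) (q := Sum.inr j) (r := Sum.inl i) (s := Sum.inr k) hK i m1.symm m1 m2 m1 m3 h1 h2 (s1 i j k h1 h' h2)
      rwa [sk_l, sk_r' h1, sk_r' h2] at this
  have s3 : ∀ (p q : l ⊕ l) (k : l), ab p ≠ ab q → ab q ≠ k → ab p ≠ k → C4 (yD ρ T K) p q p (Sum.inr k) := by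
    intro p q k h h' h''
    rcases q with j | j
    · have h1 : j ≠ k := h'
      have h2 : j ≠ ab p := h.symm
      obtain ⟨m, m1, m2, m3⟩ := exists_out3 h4 (ab p) j k
      have := H.tr4 (q := Sum.inr j) (s := Sum.inr k) hK j m2.symm m1 m2 m1 m3 h h'' (s2 p j k h h1 h'')
      rwa [sk_r, sk_r' h1, sk_ne h2] at this
    · exact s2 p j k h h' h''
  rcases r with k | k
  · have h1 : k ≠ ab p := hpr.symm
    have h2 : k ≠ ab q := hqr.symm
    obtain ⟨m, m1, m2, m3⟩ := exists_out3 h4 (ab p) (ab q) k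
    have := H.tr4 (s := Sum.inr k) hK k m3.symm m1 m2 m1 m3 hpq hpr (s3 p q k hpq hqr hpr)
    rwa [sk_r, sk_ne h1, sk_ne h2] at this
  · exact s3 p q k hpq hqr hpr

/-- disjoint indices -/
theorem c4e (H : DG ρ T) (hK : ∀ i j, K i j ≠ i ∧ K i j ≠ j) {p q r s : l ⊕ l} (hpq : ab p ≠ ab q) (hrs : ab r ≠ ab s)
    (h1 : ab p ≠ ab r) (h2 : ab p ≠ ab s) (h3 : ab q ≠ ab r) (h4 : ab q ≠ ab s) : C4 (yD ρ T K) p q r s := by
  -- the two base cases
  have b1 : ∀ i j k m : l, i ≠ j → k ≠ m → i ≠ k → i ≠ m → j ≠ k → j ≠ m →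
      C4 (yD ρ T K) (Sum.inl i) (Sum.inr j) (Sum.inl k) (Sum.inr m) := by
    intro i j k m g1 g2 g3 g4 g5 g6 a b
    rw [H.y_lr g1, H.y_lr g2, ← map_commutatorElement]
    have : ⁅tvl g1 a, tvl g2 b⁆ = 1 := by
      rw [commutatorElement_eq_one_iff_mul_comm]
      exact tv_comm g1 g2 g5 g4 _ _
    rw [this, map_one]
  have b2 : ∀ i j k m : l, i ≠ j → k ≠ m → i ≠ k → i ≠ m → j ≠ k → j ≠ m →
      C4 (yD ρ T K) (Sum.inl i) (Sum.inr j) (Sum.inl k) (Sum.inl m) := by
    intro i j k m g1 g2 g3 g4 g5 g6 a b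
    rw [H.y_lr g1, H.y_ll hK g2 g3 g4, commutatorElement_eq_one_iff_mul_comm]
    exact (H.F' g1 g2 g3 g4 g5 g6 a b).eq
  have b3 : ∀ (i j : l) (s : l ⊕ l) (k : l), i ≠ j → k ≠ ab s → i ≠ k → i ≠ ab s → j ≠ k → j ≠ ab s →
      C4 (yD ρ T K) (Sum.inl i) (Sum.inr j) (Sum.inl k) s := by
    intro i j s k g1 g2 g3 g4 g5 g6
    rcases s with m | m
    · exact b2 i j k m g1 g2 g3 g4 g5 g6
    · exact b1 i j k m g1 g2 g3 g4 g5 g6
  -- flipping both indices of the second pair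
  have b4 : ∀ (i j : l) (r s : l ⊕ l), i ≠ j → ab r ≠ ab s → i ≠ ab r → i ≠ ab s → j ≠ ab r → j ≠ ab s →
      C4 (yD ρ T K) (Sum.inl i) (Sum.inr j) r s := by
    intro i j r s g1 g2 g3 g4 g5 g6
    rcases r with k | k
    · exact b3 i j s k g1 g2 g3 g4 g5 g6
    · replace g2 : k ≠ ab s := g2
      replace g3 : i ≠ k := g3
      replace g5 : j ≠ k := g5
      have e1 : sk k (sk (ab s) (Sum.inl i)) = Sum.inl i := by
        rw [sk_l' (Ne.symm g4), sk_l' (Ne.symm g3)]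
      have e2 : sk k (sk (ab s) (Sum.inr j)) = Sum.inr j := by
        rw [sk_r' (Ne.symm g6), sk_r' (Ne.symm g5)]
      have e3 : sk k (sk (ab s) (Sum.inl k)) = Sum.inr k := by
        rw [sk_l' (Ne.symm g2), sk_l]
      have e4 : sk k (sk (ab s) (-s)) = s := by
        have : sk (ab s) (-s) = s := by
          have := sk_sk (ab s) s
          have e5 : sk (ab s) s = -s := if_pos rfl
          rwa [e5] at this
        rw [this]; exact sk_ne g2
      have := C4.tr (p := Sum.inl i) (q := Sum.inr j) (r := Sum.inl k) (s := -s) (H.sy hK (i := k) (m := ab s) g2)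
        g1 (by rw [ab_neg]; exact g2) (b3 i j (-s) k g1 (by rwa [ab_neg]) g3 (by rwa [ab_neg]) g5 (by rwa [ab_neg]))
      simp only [e1, e2, e3, e4] at this
      exact this
  -- flipping the second index of the first pair, and one of the second
  have b5 : ∀ (i : l) (q r s : l ⊕ l), i ≠ ab q → ab r ≠ ab s → i ≠ ab r → i ≠ ab s → ab q ≠ ab r → ab q ≠ ab s →
      C4 (yD ρ T K) (Sum.inl i) q r s := by
    intro i q r s g1 g2 g3 g4 g5 g6
    rcases q with j | j
    · replace g1 : i ≠ j := g1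
      replace g5 : j ≠ ab r := g5
      replace g6 : j ≠ ab s := g6
      have f : sk (ab r) (-r) = r := by
        have := sk_sk (ab r) r
        have e5 : sk (ab r) r = -r := if_pos rfl
        rwa [e5] at this
      have e1 : sk j (sk (ab r) (Sum.inl i)) = Sum.inl i := by
        rw [sk_l' (Ne.symm g3), sk_l' (Ne.symm g1)]
      have e2 : sk j (sk (ab r) (Sum.inr j)) = Sum.inl j := by
        rw [sk_r' (Ne.symm g5), sk_r]
      have e3 : sk j (sk (ab r) (-r)) = r := by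
        rw [f]; exact sk_ne g5
      have e4 : sk j (sk (ab r) s) = s := by
        rw [sk_ne g2]; exact sk_ne g6
      have := C4.tr (p := Sum.inl i) (q := Sum.inr j) (r := -r) (s := s) (H.sy hK (i := j) (m := ab r) g5) g1
        (by rw [ab_neg]; exact g2) (b4 i j (-r) s g1 (by rwa [ab_neg]) (by rwa [ab_neg]) g4 (by rw [ab_neg]; exact g5) g6)
      simp only [e1, e2, e3, e4] at this
      exact this
    · exact b4 i j r s g1 g2 g3 g4 g5 g6
  rcases p with i | i
  · exact b5 i q r s hpq hrs h1 h2 h3 h4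
  · replace hpq : i ≠ ab q := hpq
    replace h1 : i ≠ ab r := h1
    replace h2 : i ≠ ab s := h2
    have f : sk (ab r) (-r) = r := by
      have := sk_sk (ab r) r
      have e5 : sk (ab r) r = -r := if_pos rfl
      rwa [e5] at this
    have e1 : sk i (sk (ab r) (Sum.inl i)) = Sum.inr i := by
      rw [sk_l' (Ne.symm h1), sk_l]
    have e2 : sk i (sk (ab r) q) = q := by
      rw [sk_ne (Ne.symm h3)]; exact sk_ne hpq
    have e3 : sk i (sk (ab r) (-r)) = r := by
      rw [f]; exact sk_ne h1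
    have e4 : sk i (sk (ab r) s) = s := by
      rw [sk_ne hrs]; exact sk_ne h2
    have := C4.tr (p := Sum.inl i) (q := q) (r := -r) (s := s) (H.sy hK (i := i) (m := ab r) h1) hpq
      (by rw [ab_neg]; exact hrs) (b5 i q (-r) s hpq (by rwa [ab_neg]) (by rwa [ab_neg]) h2 (by rw [ab_neg]; exact h3) h4)
    simp only [e1, e2, e3, e4] at this
    exact this

theorem c4c (H : DG ρ T) {p q : l ⊕ l} (hpq : ab p ≠ ab q) : C4 (yD ρ T K) p q p q := by
  intro a b
  rw [commutatorElement_eq_one_iff_mul_comm, ← H.yadd hpq, ← H.yadd hpq, add_comm]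

theorem symm_left (H : DG ρ T) (hK : ∀ i j, K i j ≠ i ∧ K i j ≠ j) {p q r s : l ⊕ l} (hpq : ab p ≠ ab q)
    (h : C4 (yD ρ T K) p q r s) : C4 (yD ρ T K) q p r s := by
  intro a b
  rw [H.ysymm hK (Ne.symm hpq)]; exact h _ _

theorem symm_right (H : DG ρ T) (hK : ∀ i j, K i j ≠ i ∧ K i j ≠ j) {p q r s : l ⊕ l} (hrs : ab r ≠ ab s)
    (h : C4 (yD ρ T K) p q r s) : C4 (yD ρ T K) p q s r := by
  intro a b
  rw [H.ysymm hK (Ne.symm hrs)]; exact h _ _

theorem c4 (H : DG ρ T) (hK : ∀ i j, K i j ≠ i ∧ K i j ≠ j) (h4 : 4 ≤ Fintype.card l) {i j k m : l ⊕ l} (hij : ab i ≠ ab j)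
    (hkm : ab k ≠ ab m) (hki : k ≠ -i) (hkj : k ≠ -j) (hmi : m ≠ -i) (hmj : m ≠ -j) : C4 (yD ρ T K) i j k m := by
  have key : ∀ {p q : l ⊕ l}, p ≠ -q → ab p = ab q → p = q := fun h e => (eq_or_neg e).resolve_right h
  by_cases h1 : ab k = ab i
  · obtain rfl := key hki h1
    by_cases h2 : ab m = ab j
    · obtain rfl := key hmj h2
      exact H.c4c hij
    · exact H.c4d hK h4 hij (Ne.symm h2) hkm
  · by_cases h2 : ab k = ab j
    · obtain rfl := key hkj h2
      by_cases h3 : ab m = ab i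
      · obtain rfl := key hmi h3
        exact H.symm_right hK hij (H.c4c hij)
      · exact H.symm_left hK hij.symm (H.c4d hK h4 hij.symm (Ne.symm h3) hkm)
    · by_cases h3 : ab m = ab i
      · obtain rfl := key hmi h3
        exact H.symm_right hK hkm.symm (H.c4d hK h4 hij (Ne.symm h2) hkm.symm)
      · by_cases h5 : ab m = ab j
        · obtain rfl := key hmj h5
          exact H.symm_left hK hij.symm (H.symm_right hK hkm.symm (H.c4d hK h4 hij.symm (Ne.symm h1) hkm.symm))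
        · exact H.c4e hK hij hkm (Ne.symm h1) (Ne.symm h3) (Ne.symm h2) (Ne.symm h5)

/-- the Steinberg relations of type `D` -/
theorem orD (H : DG ρ T) (hK : ∀ i j, K i j ≠ i ∧ K i j ≠ j) (h4 : 4 ≤ Fintype.card l)
    (three : ∀ i j : l ⊕ l, ∃ k, k ≠ i ∧ k ≠ -i ∧ k ≠ j ∧ k ≠ -j) {W : Type*} [AddCommGroup W] [Module F W] :
    Stb.OR (F := F) (W := W) (fun _ => 0) (fun _ _ => 0) (yD ρ T K) (fun _ _ => 1) where
  ne := Stb.swap_ne'
  three := three
  symm h1 h2 a := H.ysymm hK (ab_ne h1 h2) a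
  add h1 h2 a b := H.yadd (ab_ne h1 h2) a b
  zadd _ _ _ := (one_mul _).symm
  c1 h1 h2 h3 h4' h5 h6 a b := H.c1 hK h4 (ab_ne h1 h2) (ab_ne h3 h4') (ab_ne h5 h6) a b
  c2 h1 h2 a b := H.c2 hK h4 (ab_ne h1 h2) a b
  c3 {i j} h1 h2 w b := by
    have h0 : yD ρ T K i j 0 = 1 := by
      have := H.yadd (K := K) (ab_ne h1 h2) 0 0
      rw [add_zero] at this
      exact mul_eq_left.1 this.symm
    rw [commutatorElement_one_left, zero_mul, neg_zero, h0, one_mul]
  c4 h1 h2 h3 h4' h5 h6 h7 h8 a b := H.c4 hK h4 (ab_ne h1 h2) (ab_ne h3 h4') h5 h6 h7 h8 a b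
  c5 _ _ _ _ _ _ := commutatorElement_one_left _
  c6 {i j} h1 h2 w w' := by
    have h0 : yD ρ T K i j 0 = 1 := by
      have := H.yadd (K := K) (ab_ne h1 h2) 0 0
      rw [add_zero] at this
      exact mul_eq_left.1 this.symm
    rw [commutatorElement_one_left, neg_zero, h0]

end DG

end dn

end Cfsg.Agent.GK.Om
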