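import Cfsg.Agent.GK.Small
import Cfsg.Agent.GK.Amal

/-!
Presentations of `A₄` and `A₅` with two generators and three resp. four relators.
-/

set_option autoImplicit false

namespace Cfsg.Agent.GK

open Subgroup Equiv

theorem sq_one_swap {G : Type*} [Group G] {x y : G} (h : (x * y) ^ 2 = 1) : (y * x) ^ 2 = 1 := by
  have h1 : (y * x) ^ 2 = x⁻¹ * (x * y) ^ 2 * x := by rw [pow_two, pow_two]; group
  rw [h1, h]; group

theorem alt4_three : ∃ (R : Finset (FreeGroup (Fin 2))) (x : Fin 2 → alternatingGroup (Option (Option (Fin 2)))),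
    R.card ≤ 3 ∧ IsPres (R : Set (FreeGroup (Fin 2))) x := by
  classical
  have hP : IsPres (({FreeGroup.of 0 ^ 3, FreeGroup.of 1 ^ 3, (FreeGroup.of 0 * FreeGroup.of 1) ^ 2} :
      Finset (FreeGroup (Fin 2))) : Set (FreeGroup (Fin 2)))
      (XA : Fin 2 → alternatingGroup (Option (Option (Fin 2)))) := by
    apply isPres_of_hom
    · intro r hr
      simp only [Finset.coe_insert, Finset.coe_singleton, Set.mem_insert_iff, Set.mem_singleton_iff] at hr
      rcases hr with rfl | rfl | rfl
      · rw [map_pow, FreeGroup.lift_apply_of]; exact Subtype.ext (X_cube 0)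
      · rw [map_pow, FreeGroup.lift_apply_of]; exact Subtype.ext (X_cube 1)
      · rw [map_pow, map_mul, FreeGroup.lift_apply_of, FreeGroup.lift_apply_of]
        exact Subtype.ext (X_mul_sq (by decide))
    · exact closure_XA
    · set R : Set (FreeGroup (Fin 2)) := (({FreeGroup.of 0 ^ 3, FreeGroup.of 1 ^ 3,
        (FreeGroup.of 0 * FreeGroup.of 1) ^ 2} : Finset (FreeGroup (Fin 2))) : Set (FreeGroup (Fin 2))) with hR
      have r0 := lift_of_rel (R := R) (r := FreeGroup.of 0 ^ 3) (by simp [hR])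
      have r1 := lift_of_rel (R := R) (r := FreeGroup.of 1 ^ 3) (by simp [hR])
      have r2 := lift_of_rel (R := R) (r := (FreeGroup.of 0 * FreeGroup.of 1) ^ 2) (by simp [hR])
      rw [map_pow, FreeGroup.lift_apply_of] at r0 r1
      rw [map_pow, map_mul, FreeGroup.lift_apply_of, FreeGroup.lift_apply_of] at r2
      apply exists_hom
      · intro i
        fin_cases i
        · exact r0
        · exact r1
      · intro i j hij
        fin_cases i <;> fin_cases j <;> simp only [ne_eq, not_true_eq_false] at hij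
        · exact r2
        · exact sq_one_swap r2
  exact ⟨_, _, Finset.card_le_three, hP⟩

/-- the three-cycle of the three ordinary points -/
def s5 : alternatingGroup (Option (Option (Fin 3))) := ⟨up (finRotate 3), by
  rw [Perm.mem_alternatingGroup, sign_up]; decide⟩

theorem s5_XA (i : Fin 3) : s5 * XA i * s5⁻¹ = XA (finRotate 3 i) := Subtype.ext (up_conj_X _ i)

theorem alt5_four : ∃ (R : Finset (FreeGroup (Fin 2))) (x : Fin 2 → alternatingGroup (Option (Option (Fin 3)))),
    R.card ≤ 4 ∧ IsPres (R : Set (FreeGroup (Fin 2))) x := by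
  classical
  -- a word for s5
  obtain ⟨w, hw⟩ := (lift_surjective_iff (XA : Fin 3 → alternatingGroup (Option (Option (Fin 3))))).2 closure_XA s5
  let a : FreeGroup (Fin 2) := FreeGroup.of 0
  let s : FreeGroup (Fin 2) := FreeGroup.of 1
  let v : FreeGroup (Fin 2) := FreeGroup.lift (fun i : Fin 3 => s ^ (i : ℕ) * a * (s ^ (i : ℕ))⁻¹) w
  have s3 : s5 ^ 3 = 1 := by
    apply Subtype.ext
    change (up (finRotate 3)) ^ 3 = 1
    rw [← map_pow]
    have : (finRotate 3) ^ 3 = 1 := by decide
    rw [this, map_one]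
  have f0 : finRotate 3 0 = 1 := by decide
  have f1 : finRotate 3 1 = 2 := by decide
  have hx : ∀ i : Fin 3, s5 ^ (i : ℕ) * XA 0 * (s5 ^ (i : ℕ))⁻¹ = XA i := by
    intro i
    have e1 : s5 * XA 0 * s5⁻¹ = XA 1 := by rw [s5_XA, f0]
    have e2 : s5 * XA 1 * s5⁻¹ = XA 2 := by rw [s5_XA, f1]
    fin_cases i
    · change s5 ^ 0 * XA 0 * (s5 ^ 0)⁻¹ = XA 0; group
    · change s5 ^ 1 * XA 0 * (s5 ^ 1)⁻¹ = XA 1; rw [pow_one, e1]
    · change s5 ^ 2 * XA 0 * (s5 ^ 2)⁻¹ = XA 2
      rw [← e2, ← e1, pow_two]; group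
  let g : Fin 2 → alternatingGroup (Option (Option (Fin 3))) := ![XA 0, s5]
  have hv : FreeGroup.lift g v = s5 := by
    rw [← hw]
    have : (FreeGroup.lift g).comp (FreeGroup.lift (fun i : Fin 3 => s ^ (i : ℕ) * a * (s ^ (i : ℕ))⁻¹)) =
        FreeGroup.lift XA := by
      ext1 i
      rw [MonoidHom.comp_apply, FreeGroup.lift_apply_of, FreeGroup.lift_apply_of, map_mul, map_mul, map_inv, map_pow,
        FreeGroup.lift_apply_of, FreeGroup.lift_apply_of]
      exact hx i
    exact DFunLike.congr_fun this w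
  have hP : IsPres (({a ^ 3, s ^ 3, (a * (s * a * s⁻¹)) ^ 2, s⁻¹ * v} :
      Finset (FreeGroup (Fin 2))) : Set (FreeGroup (Fin 2))) g := by
    apply isPres_of_hom
    · intro r hr
      simp only [Finset.coe_insert, Finset.coe_singleton, Set.mem_insert_iff, Set.mem_singleton_iff] at hr
      rcases hr with rfl | rfl | rfl | rfl
      · rw [map_pow, FreeGroup.lift_apply_of]; exact Subtype.ext (X_cube 0)
      · rw [map_pow, FreeGroup.lift_apply_of]; exact s3
      · simp only [map_pow, map_mul, map_inv, a, s, FreeGroup.lift_apply_of]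
        change (XA 0 * (s5 * XA 0 * s5⁻¹)) ^ 2 = 1
        rw [s5_XA, f0]
        exact Subtype.ext (X_mul_sq (by decide))
      · rw [map_mul, map_inv, hv, FreeGroup.lift_apply_of]
        exact inv_mul_cancel s5
    · rw [eq_top_iff, ← closure_XA, closure_le]
      rintro _ ⟨i, rfl⟩
      rw [← hx i]
      have m0 : XA 0 ∈ closure (Set.range g) := subset_closure ⟨0, rfl⟩
      have m1 : s5 ∈ closure (Set.range g) := subset_closure ⟨1, rfl⟩
      exact mul_mem (mul_mem (pow_mem m1 _) m0) (inv_mem (pow_mem m1 _))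
    · set R : Set (FreeGroup (Fin 2)) := (({a ^ 3, s ^ 3, (a * (s * a * s⁻¹)) ^ 2, s⁻¹ * v} :
        Finset (FreeGroup (Fin 2))) : Set (FreeGroup (Fin 2))) with hR
      let A : PresentedGroup R := PresentedGroup.of 0
      let S : PresentedGroup R := PresentedGroup.of 1
      have r0 : A ^ 3 = 1 := by
        have := lift_of_rel (R := R) (r := a ^ 3) (by simp [hR])
        rwa [map_pow, FreeGroup.lift_apply_of] at this
      have r1 : S ^ 3 = 1 := by
        have := lift_of_rel (R := R) (r := s ^ 3) (by simp [hR])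
        rwa [map_pow, FreeGroup.lift_apply_of] at this
      have r2 : (A * (S * A * S⁻¹)) ^ 2 = 1 := by
        have := lift_of_rel (R := R) (r := (a * (s * a * s⁻¹)) ^ 2) (by simp [hR])
        simpa only [map_pow, map_mul, map_inv, a, s, FreeGroup.lift_apply_of] using this
      have r3 : FreeGroup.lift (fun i => (PresentedGroup.of i : PresentedGroup R)) v = S := by
        have := lift_of_rel (R := R) (r := s⁻¹ * v) (by simp [hR])
        rw [map_mul, map_inv, FreeGroup.lift_apply_of] at this
        exact (inv_mul_eq_one.1 this).symm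
      let xi : Fin 3 → PresentedGroup R := fun i => S ^ (i : ℕ) * A * (S ^ (i : ℕ))⁻¹
      have hcon : ∀ (n : ℕ), (S ^ n * (A * (S * A * S⁻¹)) * (S ^ n)⁻¹) ^ 2 = 1 := by
        intro n
        rw [conj_pow, r2]; group
      have h01 : (xi 0 * xi 1) ^ 2 = 1 := by
        have : xi 0 * xi 1 = A * (S * A * S⁻¹) := by
          change (S ^ 0 * A * (S ^ 0)⁻¹) * (S ^ 1 * A * (S ^ 1)⁻¹) = _
          group
        rw [this, r2]
      have h12 : (xi 1 * xi 2) ^ 2 = 1 := by
        have : xi 1 * xi 2 = S ^ 1 * (A * (S * A * S⁻¹)) * (S ^ 1)⁻¹ := by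
          change (S ^ 1 * A * (S ^ 1)⁻¹) * (S ^ 2 * A * (S ^ 2)⁻¹) = _
          group
        rw [this, hcon]
      have h20 : (xi 2 * xi 0) ^ 2 = 1 := by
        have : xi 2 * xi 0 = S ^ 2 * (A * (S * A * S⁻¹)) * (S ^ 2)⁻¹ := by
          change (S ^ 2 * A * (S ^ 2)⁻¹) * (S ^ 0 * A * (S ^ 0)⁻¹) = _
          have e : S ^ 2 * (A * (S * A * S⁻¹)) * (S ^ 2)⁻¹ = (S ^ 2 * A * (S ^ 2)⁻¹) * (S ^ 3 * A * (S ^ 3)⁻¹) := by
            group
          rw [e, r1, pow_zero]
        rw [this, hcon]
      obtain ⟨φ, hφ⟩ := exists_hom xi (by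
        intro i
        change (S ^ (i : ℕ) * A * (S ^ (i : ℕ))⁻¹) ^ 3 = 1
        rw [conj_pow, r0]; group) (by
        intro i j hij
        fin_cases i <;> fin_cases j <;> simp only [ne_eq, not_true_eq_false] at hij
        · exact h01
        · exact sq_one_swap h20
        · exact sq_one_swap h01
        · exact h12
        · exact h20
        · exact sq_one_swap h12)
      refine ⟨φ, ?_⟩
      intro i
      fin_cases i
      · change φ (XA 0) = A
        rw [hφ]
        change S ^ 0 * A * (S ^ 0)⁻¹ = A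
        group
      · change φ s5 = S
        rw [← r3, ← hw]
        have : φ.comp (FreeGroup.lift XA) = (FreeGroup.lift (fun i => (PresentedGroup.of i : PresentedGroup R))).comp
            (FreeGroup.lift (fun i : Fin 3 => s ^ (i : ℕ) * a * (s ^ (i : ℕ))⁻¹)) := by
          ext1 i
          rw [MonoidHom.comp_apply, FreeGroup.lift_apply_of, hφ, MonoidHom.comp_apply, FreeGroup.lift_apply_of, map_mul,
            map_mul, map_inv, map_pow, FreeGroup.lift_apply_of, FreeGroup.lift_apply_of]
        exact DFunLike.congr_fun this w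
  exact ⟨_, _, Finset.card_le_four, hP⟩

end Cfsg.Agent.GK
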