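import Cfsg.Agent.GK.SLnX
import Cfsg.Agent.GK.SLnA

/-!
The presentation of `SL_n(F)` glued from `SL₃(F)` and an alternating group.
-/

set_option autoImplicit false

namespace Cfsg.Agent.GK

open Subgroup Polynomial

universe v

section conc2

theorem hom_ext_tv {F : Type*} [Field F] {n : Type*} [DecidableEq n] [Fintype n] {H : Type*} [Group H]
    {f g : Matrix.SpecialLinearGroup n F →* H}
    (h : ∀ (i j : n) (hij : i ≠ j) (s : F), f (Matrix.SpecialLinearGroup.transvection hij s) =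
      g (Matrix.SpecialLinearGroup.transvection hij s)) : f = g := by
  have h1 : MonoidHom.eqLocus f g = ⊤ := H40.sl_eq_top_of_transvections _ h
  ext1 x
  have : x ∈ MonoidHom.eqLocus f g := by rw [h1]; trivial
  exact this

variable {F : Type v} [Field F] {m : ℕ}

/-- `A ↦ diag(A, 1)` -/
def E3 (m : ℕ) : Matrix.SpecialLinearGroup (Fin 3) F →* Matrix.SpecialLinearGroup (Fin 3 ⊕ Fin m) F where
  toFun A := ⟨Matrix.fromBlocks (A : Matrix (Fin 3) (Fin 3) F) 0 0 1, by
    rw [Matrix.det_fromBlocks_zero₂₁, A.2, Matrix.det_one, mul_one]⟩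
  map_one' := Subtype.ext Matrix.fromBlocks_one
  map_mul' A B := by
    apply Subtype.ext
    change Matrix.fromBlocks ((A : Matrix (Fin 3) (Fin 3) F) * (B : Matrix (Fin 3) (Fin 3) F)) 0 0 1 =
      Matrix.fromBlocks (A : Matrix (Fin 3) (Fin 3) F) 0 0 1 * Matrix.fromBlocks (B : Matrix (Fin 3) (Fin 3) F) 0 0 1
    rw [Matrix.fromBlocks_multiply]
    simp

theorem E3_coe (A : Matrix.SpecialLinearGroup (Fin 3) F) :
    ((E3 m A : Matrix.SpecialLinearGroup (Fin 3 ⊕ Fin m) F) : Matrix (Fin 3 ⊕ Fin m) (Fin 3 ⊕ Fin m) F) =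
    Matrix.fromBlocks (A : Matrix (Fin 3) (Fin 3) F) 0 0 1 := rfl

theorem E3_tv {i j : Fin 3} (hij : i ≠ j) (hij' : (Sum.inl i : Fin 3 ⊕ Fin m) ≠ Sum.inl j) (s : F) :
    E3 m (tv3 i j hij s) = Matrix.SpecialLinearGroup.transvection hij' s := by
  apply Subtype.ext
  rw [E3_coe]
  change Matrix.fromBlocks (Matrix.transvection i j s) 0 0 1 = Matrix.transvection (Sum.inl i) (Sum.inl j) s
  ext a b
  rcases a with a | a <;> rcases b with b | b <;>
    simp [Matrix.transvection, Matrix.single_apply, Matrix.one_apply]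

theorem gam_inr (l : Fin m) : ((gam (Sum.inl : Fin 3 → Fin 3 ⊕ Fin m) Sum.inl_injective :
    alternatingGroup (Fin 3 ⊕ Fin m)) : Equiv.Perm (Fin 3 ⊕ Fin m)) (Sum.inr l) = Sum.inr l :=
  gam_of _ _ (fun k => by simp)

theorem E3_cp : E3 m (cp : Matrix.SpecialLinearGroup (Fin 3) F) = PM (gam Sum.inl Sum.inl_injective) := by
  apply Subtype.ext
  rw [E3_coe, PM_coe, cp_coe]
  ext a b
  rw [pmat_apply]
  have g0 := gam_0 (Sum.inl : Fin 3 → Fin 3 ⊕ Fin m) Sum.inl_injective
  have g1 := gam_1 (Sum.inl : Fin 3 → Fin 3 ⊕ Fin m) Sum.inl_injective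
  have g2 := gam_2 (Sum.inl : Fin 3 → Fin 3 ⊕ Fin m) Sum.inl_injective
  rcases b with b | b
  · rcases a with a | a
    · fin_cases b
      · change _ = if Sum.inl a = ((gam (Sum.inl : Fin 3 → Fin 3 ⊕ Fin m) Sum.inl_injective : alternatingGroup (Fin 3 ⊕ Fin m)) : Equiv.Perm (Fin 3 ⊕ Fin m)) (Sum.inl 0) then 1 else 0
        rw [g0]
        fin_cases a <;> simp
      · change _ = if Sum.inl a = ((gam (Sum.inl : Fin 3 → Fin 3 ⊕ Fin m) Sum.inl_injective : alternatingGroup (Fin 3 ⊕ Fin m)) : Equiv.Perm (Fin 3 ⊕ Fin m)) (Sum.inl 1) then 1 else 0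
        rw [g1]
        fin_cases a <;> simp
      · change _ = if Sum.inl a = ((gam (Sum.inl : Fin 3 → Fin 3 ⊕ Fin m) Sum.inl_injective : alternatingGroup (Fin 3 ⊕ Fin m)) : Equiv.Perm (Fin 3 ⊕ Fin m)) (Sum.inl 2) then 1 else 0
        rw [g2]
        fin_cases a <;> simp
    · fin_cases b
      · change _ = if Sum.inr a = ((gam (Sum.inl : Fin 3 → Fin 3 ⊕ Fin m) Sum.inl_injective : alternatingGroup (Fin 3 ⊕ Fin m)) : Equiv.Perm (Fin 3 ⊕ Fin m)) (Sum.inl 0) then 1 else 0
        rw [g0]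
        simp
      · change _ = if Sum.inr a = ((gam (Sum.inl : Fin 3 → Fin 3 ⊕ Fin m) Sum.inl_injective : alternatingGroup (Fin 3 ⊕ Fin m)) : Equiv.Perm (Fin 3 ⊕ Fin m)) (Sum.inl 1) then 1 else 0
        rw [g1]
        simp
      · change _ = if Sum.inr a = ((gam (Sum.inl : Fin 3 → Fin 3 ⊕ Fin m) Sum.inl_injective : alternatingGroup (Fin 3 ⊕ Fin m)) : Equiv.Perm (Fin 3 ⊕ Fin m)) (Sum.inl 2) then 1 else 0
        rw [g2]
        simp
  · rw [gam_inr]
    rcases a with a | a
    · simp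
    · simp [Matrix.one_apply]

/-- conjugation by a permutation stabilizing the first three points -/
theorem PM_E3 (g : alternatingGroup (Fin 3 ⊕ Fin m)) (e : Equiv.Perm (Fin 3))
    (h : ∀ k, (g : Equiv.Perm (Fin 3 ⊕ Fin m)) (Sum.inl k) = Sum.inl (e k)) (A : Matrix.SpecialLinearGroup (Fin 3) F) :
    PM g * E3 m A * (PM g)⁻¹ = E3 m (reSL e A) := by
  have : (MulAut.conj (PM g)).toMonoidHom.comp (E3 (F := F) m) = (E3 m).comp (reSL e).toMonoidHom := by
    apply hom_ext_tv
    intro i j hij s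
    have hij' : (Sum.inl i : Fin 3 ⊕ Fin m) ≠ Sum.inl j := fun h => hij (Sum.inl_injective h)
    have hij2 : e i ≠ e j := fun h => hij (e.injective h)
    have hij3 : (Sum.inl (e i) : Fin 3 ⊕ Fin m) ≠ Sum.inl (e j) := fun h => hij2 (Sum.inl_injective h)
    have hij4 : (g : Equiv.Perm (Fin 3 ⊕ Fin m)) (Sum.inl i) ≠ (g : Equiv.Perm (Fin 3 ⊕ Fin m)) (Sum.inl j) := by
      rw [h, h]; exact hij3
    change PM g * E3 m (tv3 i j hij s) * (PM g)⁻¹ = E3 m (reSL e (tv3 i j hij s))
    rw [E3_tv hij hij', PM_tv g hij' hij4, reSL_tv e hij hij2, E3_tv hij2 hij3]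
    congr 1
    · exact h i
    · exact h j
  exact DFunLike.congr_fun this A

/-- conjugation by a permutation exchanging the first two points -/
theorem PM_E23 (g : alternatingGroup (Fin 3 ⊕ Fin m))
    (h0 : (g : Equiv.Perm (Fin 3 ⊕ Fin m)) (Sum.inl 0) = Sum.inl 1)
    (h1 : (g : Equiv.Perm (Fin 3 ⊕ Fin m)) (Sum.inl 1) = Sum.inl 0) (A : Matrix.SpecialLinearGroup (Fin 2) F) :
    PM g * E3 m (e23 A) * (PM g)⁻¹ = E3 m (e23 (reSL (Equiv.swap 0 1) A)) := by
  have : (MulAut.conj (PM g)).toMonoidHom.comp ((E3 (F := F) m).comp e23) =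
      ((E3 m).comp e23).comp (reSL (Equiv.swap 0 1)).toMonoidHom := by
    have e01 : ∀ s : F, e23 (Matrix.SpecialLinearGroup.transvection (show (0 : Fin 2) ≠ 1 by decide) s) =
        tv3 0 1 (by decide) s := by
      intro s
      apply slext3
      rw [tv_coe, tv01]
      change eM (Matrix.transvection (0 : Fin 2) 1 s) = _
      ext i j
      fin_cases i <;> fin_cases j <;> simp [eM, Matrix.transvection, Matrix.single]
    have e10 : ∀ s : F, e23 (Matrix.SpecialLinearGroup.transvection (show (1 : Fin 2) ≠ 0 by decide) s) =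
        tv3 1 0 (by decide) s := by
      intro s
      apply slext3
      rw [tv_coe, tv10]
      change eM (Matrix.transvection (1 : Fin 2) 0 s) = _
      ext i j
      fin_cases i <;> fin_cases j <;> simp [eM, Matrix.transvection, Matrix.single]
    have l01 : (Sum.inl 0 : Fin 3 ⊕ Fin m) ≠ Sum.inl 1 := by simp
    have l10 : (Sum.inl 1 : Fin 3 ⊕ Fin m) ≠ Sum.inl 0 := by simp
    apply hom_ext_tv
    intro i j hij s
    fin_cases i <;> fin_cases j <;> simp only [ne_eq, not_true_eq_false] at hij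
    · change PM g * E3 m (e23 (Matrix.SpecialLinearGroup.transvection (show (0 : Fin 2) ≠ 1 by decide) s)) * (PM g)⁻¹ =
        E3 m (e23 (reSL (Equiv.swap 0 1) (Matrix.SpecialLinearGroup.transvection (show (0 : Fin 2) ≠ 1 by decide) s)))
      rw [reSL_tv (Equiv.swap 0 1) (i := (0 : Fin 2)) (j := 1) (by decide) (by decide), e01, E3_tv _ l01,
        PM_tv g l01 (by rw [h0, h1]; exact l10)]
      have : Matrix.SpecialLinearGroup.transvection (show Equiv.swap (0 : Fin 2) 1 0 ≠ Equiv.swap 0 1 1 by decide) s =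
          Matrix.SpecialLinearGroup.transvection (show (1 : Fin 2) ≠ 0 by decide) s := rfl
      rw [this, e10, E3_tv _ l10]
      congr 1
    · change PM g * E3 m (e23 (Matrix.SpecialLinearGroup.transvection (show (1 : Fin 2) ≠ 0 by decide) s)) * (PM g)⁻¹ =
        E3 m (e23 (reSL (Equiv.swap 0 1) (Matrix.SpecialLinearGroup.transvection (show (1 : Fin 2) ≠ 0 by decide) s)))
      rw [reSL_tv (Equiv.swap 0 1) (i := (1 : Fin 2)) (j := 0) (by decide) (by decide), e10, E3_tv _ l10,
        PM_tv g l10 (by rw [h0, h1]; exact l01)]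
      have : Matrix.SpecialLinearGroup.transvection (show Equiv.swap (0 : Fin 2) 1 1 ≠ Equiv.swap 0 1 0 by decide) s =
          Matrix.SpecialLinearGroup.transvection (show (0 : Fin 2) ≠ 1 by decide) s := rfl
      rw [this, e01, E3_tv _ l01]
      congr 1
  exact DFunLike.congr_fun this A

theorem reSL_hm (a : Fˣ) : reSL (Equiv.swap 0 1) (hm a) = (hm a)⁻¹ := by
  rw [eq_inv_iff_mul_eq_one]
  apply slext
  rw [Matrix.SpecialLinearGroup.coe_mul, reSL_coe, hm_coe, Matrix.SpecialLinearGroup.coe_one]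
  ext i j
  fin_cases i <;> fin_cases j <;> simp [Matrix.mul_apply, Fin.sum_univ_two, Equiv.swap_apply_def]

theorem reSL_char2 [CharP F 2] (A : Matrix.SpecialLinearGroup (Fin 2) F) :
    reSL (Equiv.swap 0 1) A = tm * A * tm⁻¹ := by
  rw [eq_mul_inv_iff_mul_eq]
  apply slext
  rw [Matrix.SpecialLinearGroup.coe_mul, Matrix.SpecialLinearGroup.coe_mul, reSL_coe, tm_coe]
  ext i j
  have hneg : ∀ x : F, -x = x := CharTwo.neg_eq
  fin_cases i <;> fin_cases j <;>
    simp [Matrix.mul_apply, Fin.sum_univ_two, Equiv.swap_apply_def, hneg]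

theorem tv_comm {n : Type*} [DecidableEq n] [Fintype n] {i k l r : n} (hik : i ≠ k) (hlr : l ≠ r) (hkl : k ≠ l)
    (hir : i ≠ r) (a b : F) : Commute (Matrix.SpecialLinearGroup.transvection hik a)
      (Matrix.SpecialLinearGroup.transvection hlr b) := by
  apply Subtype.ext
  rw [Matrix.SpecialLinearGroup.coe_mul, Matrix.SpecialLinearGroup.coe_mul]
  change Matrix.transvection i k a * Matrix.transvection l r b = Matrix.transvection l r b * Matrix.transvection i k a
  have e1 : Matrix.single i k a * Matrix.single l r b = 0 := Matrix.single_mul_single_of_ne _ _ _ _ hkl _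
  have e2 : Matrix.single l r b * Matrix.single i k a = 0 := Matrix.single_mul_single_of_ne _ _ _ _ hir.symm _
  simp only [Matrix.transvection, mul_add, add_mul, one_mul, mul_one, e1, e2, add_zero]
  abel

end conc2

end Cfsg.Agent.GK
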