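import Cfsg.Agent.GK.Sp1

/-!
The rank two relations of type `C₂`: from parameters `1` to all parameters.
-/

set_option autoImplicit false

namespace Cfsg.Agent.GK

open Subgroup Polynomial
open scoped commutatorElement

universe v

section ind
variable {F : Type v} [Field F] [Fintype F] {ζ : Fˣ}

theorem sq_ind (hζ : IsGen ζ) {P : F → Prop} (h0 : P 0) (hadd : ∀ a b, P a → P b → P (a + b)) (h1 : P 1)
    (hs : ∀ a, P a → P ((ζ : F) ^ 2 * a)) (s : F) : P s := by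
  obtain ⟨p, hpc⟩ := CharP.exists F
  have hp : Fact p.Prime := ⟨CharP.char_is_prime F p⟩
  let _ : Algebra (ZMod p) F := ZMod.algebra F p
  obtain ⟨f, hf⟩ := gen_adjoin_sq (p := p) hζ s
  rw [← hf]
  apply span_ind (P := P) h0 hadd
  intro n
  rw [pow_one]
  induction n with
  | zero => rw [pow_zero]; exact h1
  | succ n ih => rw [pow_succ']; exact hs _ ih

omit [Fintype F] in
theorem gen_ind (hζ : IsGen ζ) {P : F → Prop} (h0 : P 0) (h1 : P 1) (hs : ∀ a, P a → P ((ζ : F) * a)) (s : F) : P s := by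
  by_cases h : s = 0
  · rw [h]; exact h0
  · obtain ⟨n, hn⟩ := hζ (Units.mk0 s h)
    have e : s = (ζ : F) ^ n := by
      rw [← Units.val_pow_eq_pow_val, hn]; rfl
    rw [e]
    clear hn e
    induction n with
    | zero => rw [pow_zero]; exact h1
    | succ n ih => rw [pow_succ']; exact hs _ ih

omit [Fintype F] in
theorem gen_ind_inv (hζ : IsGen ζ) {P : F → Prop} (h0 : P 0) (h1 : P 1) (hs : ∀ a, P a → P ((ζ : F)⁻¹ * a)) (s : F) :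
    P s := by
  have h2 : IsGen ζ⁻¹ := by
    intro a
    obtain ⟨n, hn⟩ := hζ a⁻¹
    exact ⟨n, by rw [inv_pow, hn, inv_inv]⟩
  refine gen_ind h2 h0 h1 ?_ s
  intro a ha
  rw [Units.val_inv_eq_inv_val]
  exact hs a ha

end ind

section s2
variable {F : Type v} [Field F] {Γ : Type*} [Group Γ]

/-- the relations of `Sp₄` between the root elements -/
structure S2 (ζ : Fˣ) (X Xm : F → Γ) (L0 L1 : Matrix.SpecialLinearGroup (Fin 2) F →* Γ) (s h : Γ) : Prop where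
  addX : ∀ a b, X (a + b) = X a * X b
  addXm : ∀ a b, Xm (a + b) = Xm a * Xm b
  sL : ∀ A, s * L1 A * s⁻¹ = L0 A
  sL' : ∀ A, s * L0 A * s⁻¹ = L1 A
  sX : ∀ a, s * X a * s⁻¹ = Xm (-a)
  sXm : ∀ a, s * Xm a * s⁻¹ = X (-a)
  hX : ∀ a, h * X a * h⁻¹ = X ((ζ : F) ^ 2 * a)
  hXm : ∀ a, h⁻¹ * Xm a * h = Xm ((ζ : F) ^ 2 * a)
  hL : Commute h (L1 (hm ζ))
  B : ∀ A A', Commute (L0 A) (L1 A')
  h1 : L1 (hm ζ) * X 1 * (L1 (hm ζ))⁻¹ = X ((ζ : F)⁻¹)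
  h1' : L1 (hm ζ) * Xm 1 * (L1 (hm ζ))⁻¹ = Xm (ζ : F)
  E : (L0 tm * L1 tm) * X 1 * (L0 tm * L1 tm)⁻¹ = Xm (-1)
  c2 : ⁅L1 tm * X (-1) * (L1 tm)⁻¹, X (-1)⁆ = L0 (xm 2)
  c3 : ⁅L1 (xm 1), X (-1)⁆ = L1 tm * X (-1) * (L1 tm)⁻¹ * L0 (xm (-1))
  c4 : Commute (X 1) (L0 (xm 1))

variable {ζ : Fˣ} {X Xm : F → Γ} {L0 L1 : Matrix.SpecialLinearGroup (Fin 2) F →* Γ} {s h : Γ}

theorem add_zero_of {f : F → Γ} (h : ∀ a b, f (a + b) = f a * f b) : f 0 = 1 := by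
  have := h 0 0
  rw [add_zero] at this
  exact mul_eq_left.1 this.symm

theorem add_neg_of {f : F → Γ} (h : ∀ a b, f (a + b) = f a * f b) (a : F) : f (-a) = (f a)⁻¹ := by
  rw [eq_inv_iff_mul_eq_one, ← h, neg_add_cancel, add_zero_of h]

theorem cj_mul (g x y : Γ) : g * (x * y) * g⁻¹ = (g * x * g⁻¹) * (g * y * g⁻¹) := by group
theorem cj_cj (g k x : Γ) : g * (k * x * k⁻¹) * g⁻¹ = (g * k) * x * (g * k)⁻¹ := by group

namespace S2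

variable [Fintype F]

omit [Fintype F] in
theorem zeroX (H : S2 ζ X Xm L0 L1 s h) : X 0 = 1 := add_zero_of H.addX
omit [Fintype F] in
theorem zeroXm (H : S2 ζ X Xm L0 L1 s h) : Xm 0 = 1 := add_zero_of H.addXm

theorem h1X (hζ : IsGen ζ) (H : S2 ζ X Xm L0 L1 s h) (a : F) :
    L1 (hm ζ) * X a * (L1 (hm ζ))⁻¹ = X ((ζ : F)⁻¹ * a) := by
  refine sq_ind hζ (P := fun a => L1 (hm ζ) * X a * (L1 (hm ζ))⁻¹ = X ((ζ : F)⁻¹ * a)) ?_ ?_ ?_ ?_ a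
  · rw [mul_zero, H.zeroX]; group
  · intro a b ha hb
    rw [H.addX, cj_mul, ha, hb, mul_add, H.addX]
  · rw [H.h1, mul_one]
  · intro a ha
    rw [← H.hX, cj_cj, ← H.hL.eq, ← cj_cj, ha, H.hX]
    congr 1; ring

theorem h1Xm (hζ : IsGen ζ) (H : S2 ζ X Xm L0 L1 s h) (a : F) :
    L1 (hm ζ) * Xm a * (L1 (hm ζ))⁻¹ = Xm ((ζ : F) * a) := by
  refine sq_ind hζ (P := fun a => L1 (hm ζ) * Xm a * (L1 (hm ζ))⁻¹ = Xm ((ζ : F) * a)) ?_ ?_ ?_ ?_ a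
  · rw [mul_zero, H.zeroXm]; group
  · intro a b ha hb
    rw [H.addXm, cj_mul, ha, hb, mul_add, H.addXm]
  · rw [H.h1', mul_one]
  · intro a ha
    have hc : L1 (hm ζ) * h⁻¹ = h⁻¹ * L1 (hm ζ) := (H.hL.inv_left.eq).symm
    have e1 : L1 (hm ζ) * (h⁻¹ * Xm a * h) * (L1 (hm ζ))⁻¹ =
        h⁻¹ * (L1 (hm ζ) * Xm a * (L1 (hm ζ))⁻¹) * h := by
      calc L1 (hm ζ) * (h⁻¹ * Xm a * h) * (L1 (hm ζ))⁻¹
          = (L1 (hm ζ) * h⁻¹) * Xm a * (L1 (hm ζ) * h⁻¹)⁻¹ := by group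
        _ = _ := by rw [hc]; group
    rw [← H.hXm, e1, ha, H.hXm]
    congr 1; ring

theorem h0X (hζ : IsGen ζ) (H : S2 ζ X Xm L0 L1 s h) (a : F) :
    L0 (hm ζ) * X a * (L0 (hm ζ))⁻¹ = X ((ζ : F) * a) := by
  have e : X a = s * Xm (-a) * s⁻¹ := by rw [H.sXm, neg_neg]
  rw [← H.sL, e]
  calc s * L1 (hm ζ) * s⁻¹ * (s * Xm (-a) * s⁻¹) * (s * L1 (hm ζ) * s⁻¹)⁻¹
      = s * (L1 (hm ζ) * Xm (-a) * (L1 (hm ζ))⁻¹) * s⁻¹ := by group
    _ = _ := by rw [H.h1Xm hζ, H.sXm]; congr 1; ring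

theorem h0Xm (hζ : IsGen ζ) (H : S2 ζ X Xm L0 L1 s h) (a : F) :
    L0 (hm ζ) * Xm a * (L0 (hm ζ))⁻¹ = Xm ((ζ : F)⁻¹ * a) := by
  have e : Xm a = s * X (-a) * s⁻¹ := by rw [H.sX, neg_neg]
  rw [← H.sL, e]
  calc s * L1 (hm ζ) * s⁻¹ * (s * X (-a) * s⁻¹) * (s * L1 (hm ζ) * s⁻¹)⁻¹
      = s * (L1 (hm ζ) * X (-a) * (L1 (hm ζ))⁻¹) * s⁻¹ := by group
    _ = _ := by rw [H.h1X hζ, H.sX]; congr 1; ring

omit [Fintype F] in
/-- powers -/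
theorem cj_pow {g : Γ} {f : F → Γ} {k : F} (hg : ∀ a, g * f a * g⁻¹ = f (k * a)) (n : ℕ) (a : F) :
    g ^ n * f a * (g ^ n)⁻¹ = f (k ^ n * a) := by
  induction n generalizing a with
  | zero => simp
  | succ n ih =>
    have : g ^ (n + 1) * f a * (g ^ (n + 1))⁻¹ = g ^ n * (g * f a * g⁻¹) * (g ^ n)⁻¹ := by
      rw [pow_succ]; group
    rw [this, hg, ih]
    congr 1; ring

theorem h1X' (hζ : IsGen ζ) (H : S2 ζ X Xm L0 L1 s h) (b : Fˣ) (a : F) :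
    L1 (hm b) * X a * (L1 (hm b))⁻¹ = X (((b⁻¹ : Fˣ) : F) * a) := by
  obtain ⟨n, rfl⟩ := hζ b
  have := cj_pow (H.h1X hζ) n a
  rw [← map_pow, hm_pow] at this
  rw [this]
  congr 2
  simp

theorem h1Xm' (hζ : IsGen ζ) (H : S2 ζ X Xm L0 L1 s h) (b : Fˣ) (a : F) :
    L1 (hm b) * Xm a * (L1 (hm b))⁻¹ = Xm ((b : F) * a) := by
  obtain ⟨n, rfl⟩ := hζ b
  have := cj_pow (H.h1Xm hζ) n a
  rw [← map_pow, hm_pow] at this
  rw [this]
  congr 2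

theorem z1 (hζ : IsGen ζ) (H : S2 ζ X Xm L0 L1 s h) (a : F) :
    (L1 tm * L1 tm) * X a * (L1 tm * L1 tm)⁻¹ = X (-a) := by
  rw [← map_mul, tm_sq, H.h1X' hζ]
  congr 1; simp

theorem z1' (hζ : IsGen ζ) (H : S2 ζ X Xm L0 L1 s h) (a : F) :
    (L1 tm * L1 tm) * Xm a * (L1 tm * L1 tm)⁻¹ = Xm (-a) := by
  rw [← map_mul, tm_sq, H.h1Xm' hζ]
  congr 1; simp

theorem z0 (hζ : IsGen ζ) (H : S2 ζ X Xm L0 L1 s h) (a : F) :
    (L0 tm * L0 tm) * X a * (L0 tm * L0 tm)⁻¹ = X (-a) := by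
  have e : X a = s * Xm (-a) * s⁻¹ := by rw [H.sXm, neg_neg]
  rw [← H.sL, e]
  calc (s * L1 tm * s⁻¹) * (s * L1 tm * s⁻¹) * (s * Xm (-a) * s⁻¹) * ((s * L1 tm * s⁻¹) * (s * L1 tm * s⁻¹))⁻¹
      = s * ((L1 tm * L1 tm) * Xm (-a) * (L1 tm * L1 tm)⁻¹) * s⁻¹ := by group
    _ = _ := by rw [H.z1' hζ, H.sXm]; congr 1; ring

theorem z0' (hζ : IsGen ζ) (H : S2 ζ X Xm L0 L1 s h) (a : F) :
    (L0 tm * L0 tm) * Xm a * (L0 tm * L0 tm)⁻¹ = Xm (-a) := by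
  have e : Xm a = s * X (-a) * s⁻¹ := by rw [H.sX, neg_neg]
  rw [← H.sL, e]
  calc (s * L1 tm * s⁻¹) * (s * L1 tm * s⁻¹) * (s * X (-a) * s⁻¹) * ((s * L1 tm * s⁻¹) * (s * L1 tm * s⁻¹))⁻¹
      = s * ((L1 tm * L1 tm) * X (-a) * (L1 tm * L1 tm)⁻¹) * s⁻¹ := by group
    _ = _ := by rw [H.z1 hζ, H.sX]; congr 1; ring

theorem E' (hζ : IsGen ζ) (H : S2 ζ X Xm L0 L1 s h) (a : F) :
    (L0 tm * L1 tm) * X a * (L0 tm * L1 tm)⁻¹ = Xm (-a) := by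
  refine gen_ind_inv hζ (P := fun a => (L0 tm * L1 tm) * X a * (L0 tm * L1 tm)⁻¹ = Xm (-a)) ?_ ?_ ?_ a
  · rw [neg_zero, H.zeroX, H.zeroXm]; group
  · exact H.E
  · intro a ha
    -- (t0 t1) h1 = h1⁻¹ (t0 t1)
    have e1 : L0 tm * L1 tm * L1 (hm ζ) = (L1 (hm ζ))⁻¹ * (L0 tm * L1 tm) := by
      have h2 : L1 tm * L1 (hm ζ) = (L1 (hm ζ))⁻¹ * L1 tm := by
        have := congrArg L1 (tm_hm ζ)
        rw [map_mul, map_mul, map_inv, map_inv, mul_inv_eq_iff_eq_mul] at this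
        exact this
      rw [mul_assoc, h2, ← mul_assoc, (H.B tm (hm ζ)).inv_right.eq, mul_assoc]
    rw [← H.h1X hζ, cj_cj, e1, ← cj_cj, ha]
    have e2 := H.h1Xm hζ (-((ζ : F)⁻¹ * a))
    have e3 : (ζ : F) * -((ζ : F)⁻¹ * a) = -a := by
      have := ζ.ne_zero
      field_simp
    rw [e3] at e2
    rw [← e2]; group

/-- `E` in the other direction -/
theorem Em (hζ : IsGen ζ) (H : S2 ζ X Xm L0 L1 s h) (a : F) :
    (L0 tm * L1 tm) * Xm a * (L0 tm * L1 tm)⁻¹ = X (-a) := by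
  have e : Xm a = (L0 tm * L1 tm) * X (-a) * (L0 tm * L1 tm)⁻¹ := by rw [H.E' hζ, neg_neg]
  have hc : L0 tm * L1 tm * (L0 tm * L1 tm) = (L0 tm * L0 tm) * (L1 tm * L1 tm) := by
    have := (H.B tm tm).eq
    calc L0 tm * L1 tm * (L0 tm * L1 tm) = L0 tm * (L1 tm * L0 tm) * L1 tm := by group
      _ = _ := by rw [← this]; group
  rw [e, cj_cj, hc, ← cj_cj, H.z1 hζ, neg_neg, H.z0 hζ]

omit [Fintype F] in
theorem P_L (_hζ : IsGen ζ) (H : S2 ζ X Xm L0 L1 s h) (hXL : ∀ a b, Commute (X a) (L0 (xm b))) (a b : F) :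
    Commute (L1 tm * X a * (L1 tm)⁻¹) (L0 (xm b)) :=
  (((H.B _ _).symm).mul_left (hXL _ _)).mul_left ((H.B _ _).symm).inv_left

omit [Fintype F] in
theorem xm_inv_cj (L : Matrix.SpecialLinearGroup (Fin 2) F →* Γ) (b : F) :
    L (hm ζ) * L (xm b) * (L (hm ζ))⁻¹ = L (xm ((ζ : F) ^ 2 * b)) := by
  rw [← map_inv, ← map_mul, ← map_mul, hm_xm]

theorem c4' (hζ : IsGen ζ) (H : S2 ζ X Xm L0 L1 s h) (a b : F) : Commute (X a) (L0 (xm b)) := by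
  -- first all `a` for `b = 1`
  have s1 : ∀ a, Commute (X a) (L0 (xm 1)) := by
    intro a
    refine gen_ind_inv hζ (P := fun a => Commute (X a) (L0 (xm 1))) ?_ H.c4 ?_ a
    · rw [H.zeroX]; exact Commute.one_left _
    · intro a ha
      have := ha.conj (L1 (hm ζ))
      rw [H.h1X hζ] at this
      have e : L1 (hm ζ) * L0 (xm 1) * (L1 (hm ζ))⁻¹ = L0 (xm 1) := by
        rw [mul_inv_eq_iff_eq_mul]; exact (H.B _ _).symm.eq
      rwa [e] at this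
  have s2 : ∀ b, ∀ a, Commute (X a) (L0 (xm b)) := by
    intro b
    refine sq_ind hζ (P := fun b => ∀ a, Commute (X a) (L0 (xm b))) ?_ ?_ s1 ?_ b
    · intro a
      rw [xm_zero, map_one]; exact Commute.one_right _
    · intro b b' hb hb' a
      rw [xm_add, map_mul]; exact (hb a).mul_right (hb' a)
    · intro b hb a
      have := (hb ((ζ : F)⁻¹ * a)).conj (L0 (hm ζ))
      rw [H.h0X hζ, xm_inv_cj] at this
      have e : (ζ : F) * ((ζ : F)⁻¹ * a) = a := by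
        have := ζ.ne_zero
        field_simp
      rwa [e] at this
  exact s2 b a

omit [Fintype F] in
theorem ht (ζ : Fˣ) (L : Matrix.SpecialLinearGroup (Fin 2) F →* Γ) : L (hm ζ) * L tm = L tm * (L (hm ζ))⁻¹ := by
  have := congrArg L (tm_hm ζ)
  rw [map_mul, map_mul, map_inv, map_inv, mul_inv_eq_iff_eq_mul] at this
  calc L (hm ζ) * L tm = L (hm ζ) * (L tm * L (hm ζ)) * (L (hm ζ))⁻¹ := by group
    _ = _ := by rw [this]; group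

/-- `P` under the tori -/
theorem h1P (hζ : IsGen ζ) (H : S2 ζ X Xm L0 L1 s h) (a : F) :
    L1 (hm ζ) * (L1 tm * X a * (L1 tm)⁻¹) * (L1 (hm ζ))⁻¹ = L1 tm * X ((ζ : F) * a) * (L1 tm)⁻¹ := by
  have e := H.h1X hζ ((ζ : F) * a)
  have e3 : (ζ : F)⁻¹ * ((ζ : F) * a) = a := by
    have := ζ.ne_zero
    field_simp
  rw [e3] at e
  rw [cj_cj, ht, ← e]; group

theorem h0P (hζ : IsGen ζ) (H : S2 ζ X Xm L0 L1 s h) (a : F) :
    L0 (hm ζ) * (L1 tm * X a * (L1 tm)⁻¹) * (L0 (hm ζ))⁻¹ = L1 tm * X ((ζ : F) * a) * (L1 tm)⁻¹ := by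
  rw [cj_cj, (H.B _ _).eq, ← cj_cj, H.h0X hζ]

omit [Fintype F] in
theorem h1L (H : S2 ζ X Xm L0 L1 s h) (A : Matrix.SpecialLinearGroup (Fin 2) F) :
    L1 (hm ζ) * L0 A * (L1 (hm ζ))⁻¹ = L0 A := by
  rw [mul_inv_eq_iff_eq_mul]; exact (H.B _ _).symm.eq

omit [Fintype F] in
theorem h0M (H : S2 ζ X Xm L0 L1 s h) (A : Matrix.SpecialLinearGroup (Fin 2) F) :
    L0 (hm ζ) * L1 A * (L0 (hm ζ))⁻¹ = L1 A := by
  rw [mul_inv_eq_iff_eq_mul]; exact (H.B _ _).eq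

theorem c2' (hζ : IsGen ζ) (H : S2 ζ X Xm L0 L1 s h) (a b : F) :
    ⁅L1 tm * X (-a) * (L1 tm)⁻¹, X (-b)⁆ = L0 (xm (2 * a * b)) := by
  have hPL := fun a b => P_L hζ H (H.c4' hζ) a b
  have s1 : ∀ a, ⁅L1 tm * X (-a) * (L1 tm)⁻¹, X (-1)⁆ = L0 (xm (2 * a)) := by
    intro a
    refine sq_ind hζ (P := fun a => ⁅L1 tm * X (-a) * (L1 tm)⁻¹, X (-1)⁆ = L0 (xm (2 * a))) ?_ ?_ ?_ ?_ a
    · rw [neg_zero, H.zeroX, mul_one, mul_inv_cancel, commutatorElement_one_left, mul_zero, xm_zero, map_one]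
    · intro a b ha hb
      have e : ∀ x y z : Γ, ⁅x * y, z⁆ = x * ⁅y, z⁆ * x⁻¹ * ⁅x, z⁆ := by
        intro x y z; rw [commutatorElement_def, commutatorElement_def, commutatorElement_def]; group
      rw [neg_add, H.addX, cj_mul, e, ha, hb]
      have hc := (hPL (-a) (2 * b)).eq
      rw [mul_inv_eq_iff_eq_mul.2 hc, ← map_mul, ← xm_add]
      congr 2; ring
    · rw [mul_one]; exact H.c2
    · intro a ha
      have h1 := congrArg (fun x => (L0 (hm ζ) * L1 (hm ζ)) * x * (L0 (hm ζ) * L1 (hm ζ))⁻¹) ha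
      simp only [← cj_cj] at h1
      have hcc : ∀ g x z : Γ, g * ⁅x, z⁆ * g⁻¹ = ⁅g * x * g⁻¹, g * z * g⁻¹⁆ := fun g x z =>
        map_commutatorElement (MulAut.conj g) x z
      rw [hcc, hcc, H.h1P hζ, H.h0P hζ, H.h1X hζ, H.h0X hζ, H.h1L, xm_inv_cj] at h1
      have e1 : (ζ : F) * ((ζ : F) * -a) = -((ζ : F) ^ 2 * a) := by ring
      have e2 : (ζ : F) * ((ζ : F)⁻¹ * -1) = -1 := by
        have := ζ.ne_zero
        field_simp
      have e3 : (ζ : F) ^ 2 * (2 * a) = 2 * ((ζ : F) ^ 2 * a) := by ring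
      rw [e1, e2, e3] at h1
      exact h1
  have s2 : ∀ b, ∀ a, ⁅L1 tm * X (-a) * (L1 tm)⁻¹, X (-b)⁆ = L0 (xm (2 * a * b)) := by
    intro b
    refine gen_ind_inv hζ (P := fun b => ∀ a, ⁅L1 tm * X (-a) * (L1 tm)⁻¹, X (-b)⁆ = L0 (xm (2 * a * b))) ?_ ?_ ?_ b
    · intro a
      rw [neg_zero, H.zeroX, commutatorElement_one_right, mul_zero, xm_zero, map_one]
    · intro a
      rw [mul_one]; exact s1 a
    · intro b hb a
      have h1 := congrArg (fun x => L1 (hm ζ) * x * (L1 (hm ζ))⁻¹) (hb ((ζ : F)⁻¹ * a))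
      have hcc : ∀ g x z : Γ, g * ⁅x, z⁆ * g⁻¹ = ⁅g * x * g⁻¹, g * z * g⁻¹⁆ := fun g x z =>
        map_commutatorElement (MulAut.conj g) x z
      rw [hcc, H.h1P hζ, H.h1X hζ, H.h1L] at h1
      have hz := ζ.ne_zero
      have e1 : (ζ : F) * -((ζ : F)⁻¹ * a) = -a := by field_simp
      have e2 : (ζ : F)⁻¹ * -b = -((ζ : F)⁻¹ * b) := by ring
      have e3 : 2 * ((ζ : F)⁻¹ * a) * b = 2 * a * ((ζ : F)⁻¹ * b) := by ring
      rw [e1, e2, e3] at h1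
      exact h1
  exact s2 b a

/-- `M` and `P` commute -/
theorem M_P (hζ : IsGen ζ) (H : S2 ζ X Xm L0 L1 s h) (a b : F) : Commute (L1 (xm a)) (L1 tm * X b * (L1 tm)⁻¹) := by
  -- from `X` and `L0`
  have h1 : ∀ a b, Commute (Xm a) (L1 (xm b)) := by
    intro a b
    have := (H.c4' hζ (-a) b).conj s
    rwa [H.sX, H.sL', neg_neg] at this
  have h2 : ∀ a b, Commute (X a) (L1 (ym b)) := by
    intro a b
    have := (h1 (-a) (-b)).conj (L0 tm * L1 tm)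
    have e : L0 tm * L1 tm * L1 (xm (-b)) * (L0 tm * L1 tm)⁻¹ = L1 (ym b) := by
      rw [← cj_cj, ← map_mul, ← map_inv, ← map_mul, tm_xm_ym, neg_neg, mul_inv_eq_iff_eq_mul]
      exact (H.B _ _).eq
    rwa [H.Em hζ, e, neg_neg] at this
  have h3 := (h2 b a).conj (L1 tm)
  have e : L1 tm * L1 (ym a) * (L1 tm)⁻¹ = L1 (xm (-a)) := by
    rw [← map_inv, ← map_mul, ← map_mul, tm_ym_xm]
  rw [e] at h3
  have h4 : ∀ a, Commute (L1 (xm (-a))) (L1 tm * X b * (L1 tm)⁻¹) := by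
    intro a
    have h3 := (h2 b a).conj (L1 tm)
    have e : L1 tm * L1 (ym a) * (L1 tm)⁻¹ = L1 (xm (-a)) := by
      rw [← map_inv, ← map_mul, ← map_mul, tm_ym_xm]
    rw [e] at h3
    exact h3.symm
  have := h4 (-a)
  rwa [neg_neg] at this

theorem c3' (hζ : IsGen ζ) (H : S2 ζ X Xm L0 L1 s h) (a b : F) :
    ⁅L1 (xm a), X (-b)⁆ = L1 tm * X (-(a * b)) * (L1 tm)⁻¹ * L0 (xm (-(a * b ^ 2))) := by
  have hcc : ∀ g x z : Γ, g * ⁅x, z⁆ * g⁻¹ = ⁅g * x * g⁻¹, g * z * g⁻¹⁆ := fun g x z =>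
    map_commutatorElement (MulAut.conj g) x z
  have hz := ζ.ne_zero
  have s1 : ∀ b, ⁅L1 (xm 1), X (-b)⁆ = L1 tm * X (-b) * (L1 tm)⁻¹ * L0 (xm (-(b ^ 2))) := by
    intro b
    refine gen_ind hζ (P := fun b => ⁅L1 (xm 1), X (-b)⁆ = L1 tm * X (-b) * (L1 tm)⁻¹ * L0 (xm (-(b ^ 2)))) ?_ ?_ ?_ b
    · rw [neg_zero, H.zeroX, commutatorElement_one_right, mul_one, mul_inv_cancel]
      have : -((0 : F) ^ 2) = 0 := by ring
      rw [this, xm_zero, map_one, one_mul]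
    · rw [one_pow]; exact H.c3
    · intro b hb
      have h1 := congrArg (fun x => L0 (hm ζ) * x * (L0 (hm ζ))⁻¹) hb
      rw [hcc, cj_mul, H.h0M, H.h0X hζ, H.h0P hζ, xm_inv_cj] at h1
      have e1 : (ζ : F) * -b = -((ζ : F) * b) := by ring
      have e2 : (ζ : F) ^ 2 * -(b ^ 2) = -(((ζ : F) * b) ^ 2) := by ring
      rw [e1, e2] at h1
      exact h1
  have s2 : ∀ a, ∀ b, ⁅L1 (xm a), X (-b)⁆ = L1 tm * X (-(a * b)) * (L1 tm)⁻¹ * L0 (xm (-(a * b ^ 2))) := by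
    intro a
    refine sq_ind hζ (P := fun a => ∀ b, ⁅L1 (xm a), X (-b)⁆ =
      L1 tm * X (-(a * b)) * (L1 tm)⁻¹ * L0 (xm (-(a * b ^ 2)))) ?_ ?_ ?_ ?_ a
    · intro b
      rw [xm_zero, map_one, commutatorElement_one_left, zero_mul, neg_zero, H.zeroX, mul_one, mul_inv_cancel,
        zero_mul, neg_zero, xm_zero, map_one, one_mul]
    · intro a a' ha ha' b
      have e : ∀ x y z : Γ, ⁅x * y, z⁆ = x * ⁅y, z⁆ * x⁻¹ * ⁅x, z⁆ := by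
        intro x y z; rw [commutatorElement_def, commutatorElement_def, commutatorElement_def]; group
      rw [xm_add, map_mul, e, ha, ha']
      have c1 : Commute (L1 (xm a)) (L1 tm * X (-(a' * b)) * (L1 tm)⁻¹ * L0 (xm (-(a' * b ^ 2)))) :=
        (H.M_P hζ a _).mul_right (H.B _ _).symm
      rw [mul_inv_eq_iff_eq_mul.2 c1.eq]
      have c2 := (P_L hζ H (H.c4' hζ) (-(a * b)) (-(a' * b ^ 2))).eq
      have e1 : -((a + a') * b) = -(a' * b) + -(a * b) := by ring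
      have e2 : -((a + a') * b ^ 2) = -(a' * b ^ 2) + -(a * b ^ 2) := by ring
      rw [e1, e2, H.addX, cj_mul, xm_add, map_mul]
      calc L1 tm * X (-(a' * b)) * (L1 tm)⁻¹ * L0 (xm (-(a' * b ^ 2))) *
            (L1 tm * X (-(a * b)) * (L1 tm)⁻¹ * L0 (xm (-(a * b ^ 2))))
          = L1 tm * X (-(a' * b)) * (L1 tm)⁻¹ * (L0 (xm (-(a' * b ^ 2))) *
            (L1 tm * X (-(a * b)) * (L1 tm)⁻¹)) * L0 (xm (-(a * b ^ 2))) := by group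
        _ = _ := by rw [← c2]; group
    · intro b
      rw [one_mul, one_mul]; exact s1 b
    · intro a ha b
      have h1 := congrArg (fun x => L1 (hm ζ) * x * (L1 (hm ζ))⁻¹) (ha ((ζ : F) * b))
      rw [hcc, cj_mul, xm_inv_cj, H.h1X hζ, H.h1P hζ, H.h1L] at h1
      have e1 : (ζ : F)⁻¹ * -((ζ : F) * b) = -b := by field_simp
      have e2 : (ζ : F) * -(a * ((ζ : F) * b)) = -((ζ : F) ^ 2 * a * b) := by ring
      have e3 : -(a * ((ζ : F) * b) ^ 2) = -((ζ : F) ^ 2 * a * b ^ 2) := by ring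
      rw [e1, e2, e3] at h1
      exact h1
  exact s2 a b

end S2

end s2

end Cfsg.Agent.GK
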