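import Cfsg.Agent.GK.Sp3
import Cfsg.Agent.GK.Sp4
import Cfsg.Agent.GK.Emb

/-!
From the relations at one pair of coordinates to all pairs.
-/

set_option autoImplicit false

namespace Cfsg.Agent.GK

open Subgroup Polynomial
open scoped commutatorElement

universe v

section sl2
variable {F : Type v} [Field F]

theorem xm_tvl (a : F) : xm a = tvl (show (0 : Fin 2) ≠ 1 by decide) a := by
  apply slext
  rw [xm_coe, tvl_coe]
  ext i j
  fin_cases i <;> fin_cases j <;> simp [Matrix.transvection, Matrix.single]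

theorem ym_tvl (a : F) : ym a = tvl (show (1 : Fin 2) ≠ 0 by decide) a := by
  apply slext
  rw [ym_coe, tvl_coe]
  ext i j
  fin_cases i <;> fin_cases j <;> simp [Matrix.transvection, Matrix.single]

theorem hm_ym (a : Fˣ) (s : F) : (hm a)⁻¹ * ym s * hm a = ym ((a : F) ^ 2 * s) := by
  rw [mul_assoc, inv_mul_eq_iff_eq_mul]
  apply slext
  rw [Matrix.SpecialLinearGroup.coe_mul, Matrix.SpecialLinearGroup.coe_mul, hm_coe, ym_coe, ym_coe]
  have ha := a.ne_zero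
  ext i j
  fin_cases i <;> fin_cases j <;> simp
  field_simp

theorem hm_central {c : Fˣ} (hc : c * c = 1) (A : Matrix.SpecialLinearGroup (Fin 2) F) : hm c * A * (hm c)⁻¹ = A := by
  have e : c⁻¹ = c := inv_eq_of_mul_eq_one_left hc
  rw [mul_inv_eq_iff_eq_mul]
  apply slext
  rw [Matrix.SpecialLinearGroup.coe_mul, Matrix.SpecialLinearGroup.coe_mul, hm_coe, e]
  ext i j
  fin_cases i <;> fin_cases j <;> simp [Matrix.mul_apply, Fin.sum_univ_two, mul_comm]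

theorem Mo_hm (c : Fˣ) : Mo (hm c) (1 : Fin 2) 1 c⁻¹ := by
  constructor
  · intro m
    rw [hm_coe]
    fin_cases m <;> simp
  · intro m
    rw [hm_coe]
    fin_cases m <;> simp

theorem Mo_tm : Mo (tm : Matrix.SpecialLinearGroup (Fin 2) F) 1 0 1 := by
  constructor
  · intro m
    rw [tm_coe]
    fin_cases m <;> simp
  · intro m
    rw [tm_coe]
    fin_cases m <;> simp

end sl2

section moemb
variable {F : Type v} [Field F] {κ l : Type*} [Fintype κ] [DecidableEq κ] [Fintype l] [DecidableEq l]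

theorem Mo.emb (e : κ → l) (he : Function.Injective e) {g : Matrix.SpecialLinearGroup κ F} {i j : κ} {c : Fˣ}
    (h : Mo g i j c) : Mo (GK.emb e he g) (e i) (e j) c := by
  constructor
  · intro m
    by_cases hm : m ∈ Set.range e
    · obtain ⟨m, rfl⟩ := hm
      rw [emb_apply, h.1]
      simp only [he.eq_iff]
    · rw [emb_apply_left e he g hm, if_neg (by rintro rfl; exact hm ⟨_, rfl⟩), if_neg (by rintro rfl; exact hm ⟨_, rfl⟩)]
  · intro m
    by_cases hm : m ∈ Set.range e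
    · obtain ⟨m, rfl⟩ := hm
      rw [emb_apply, h.2]
      simp only [he.eq_iff]
    · rw [emb_apply_right e he g hm, if_neg (by rintro rfl; exact hm ⟨_, rfl⟩), if_neg (by rintro rfl; exact hm ⟨_, rfl⟩)]

end moemb

section base
variable {F : Type v} [Field F] {l : Type*} [Fintype l] [DecidableEq l] {Γ : Type*} [Group Γ]

omit [Fintype l] [DecidableEq l] in
theorem inj2 {i j : l} (h : i ≠ j) : Function.Injective ![i, j] := by
  intro x y hxy
  fin_cases x <;> fin_cases y <;> simp_all [eq_comm]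

/-- `SL₂` at two coordinates -/
noncomputable def emb2 {j0 k0 : l} (h0 : j0 ≠ k0) : Matrix.SpecialLinearGroup (Fin 2) F →* Matrix.SpecialLinearGroup l F :=
  emb ![j0, k0] (inj2 h0)

theorem emb2_xm {j0 k0 : l} (h0 : j0 ≠ k0) (a : F) : emb2 h0 (xm a) = tvl h0 a := by
  rw [xm_tvl]
  exact emb_tv ![j0, k0] (inj2 h0) (i := 0) (j := 1) _ h0 a

theorem emb2_ym {j0 k0 : l} (h0 : j0 ≠ k0) (a : F) : emb2 h0 (ym a) = tvl h0.symm a := by
  rw [ym_tvl]
  exact emb_tv ![j0, k0] (inj2 h0) (i := 1) (j := 0) _ h0.symm a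

/-- the hypotheses at the base pair -/
structure HB (ζ : Fˣ) {j0 k0 : l} (h0 : j0 ≠ k0) (ρ : Matrix.SpecialLinearGroup l F →* Γ)
    (L : Matrix.SpecialLinearGroup (Fin 2) F →* Γ) : Prop where
  a : ∀ A, ρ (emb2 h0 (hm ζ)) * L A * (ρ (emb2 h0 (hm ζ)))⁻¹ = L ((hm ζ)⁻¹ * A * hm ζ)
  b : ∀ A A', Commute (ρ (emb2 h0 tm) * L A * (ρ (emb2 h0 tm))⁻¹) (L A')
  c : L (hm ζ) * ρ (tvl h0 1) * (L (hm ζ))⁻¹ = ρ (tvl h0 ((ζ : F)⁻¹))
  c' : L (hm ζ) * ρ (tvl h0.symm 1) * (L (hm ζ))⁻¹ = ρ (tvl h0.symm (ζ : F))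
  e : (ρ (emb2 h0 tm) * L tm * (ρ (emb2 h0 tm))⁻¹ * L tm) * ρ (tvl h0 1) *
    (ρ (emb2 h0 tm) * L tm * (ρ (emb2 h0 tm))⁻¹ * L tm)⁻¹ = ρ (tvl h0.symm (-1))
  c2 : ⁅L tm * ρ (tvl h0 (-1)) * (L tm)⁻¹, ρ (tvl h0 (-1))⁆ = ρ (emb2 h0 tm) * L (xm 2) * (ρ (emb2 h0 tm))⁻¹
  c3 : ⁅L (xm 1), ρ (tvl h0 (-1))⁆ = L tm * ρ (tvl h0 (-1)) * (L tm)⁻¹ *
    (ρ (emb2 h0 tm) * L (xm (-1)) * (ρ (emb2 h0 tm))⁻¹)
  c4 : Commute (ρ (tvl h0 1)) (ρ (emb2 h0 tm) * L (xm 1) * (ρ (emb2 h0 tm))⁻¹)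
  m : ∀ g, Mo g k0 k0 1 → ∀ A, Commute (ρ g) (L A)

variable {ζ : Fˣ} {j0 k0 : l} {h0 : j0 ≠ k0} {ρ : Matrix.SpecialLinearGroup l F →* Γ}
  {L : Matrix.SpecialLinearGroup (Fin 2) F →* Γ}

namespace HB

theorem a' (hζ : IsGen ζ) (H : HB ζ h0 ρ L) (c : Fˣ) (A : Matrix.SpecialLinearGroup (Fin 2) F) :
    ρ (emb2 h0 (hm c)) * L A * (ρ (emb2 h0 (hm c)))⁻¹ = L ((hm c)⁻¹ * A * hm c) := by
  obtain ⟨n, rfl⟩ := hζ c
  induction n generalizing A with
  | zero => rw [pow_zero, hm_one, map_one, map_one, inv_one, inv_one]; simp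
  | succ n ih =>
    rw [pow_succ, hm_mul, map_mul, map_mul, mul_inv_rev, mul_inv_rev]
    have e := ih ((hm ζ)⁻¹ * A * hm ζ)
    rw [← H.a] at e
    have e2 : ρ (emb2 h0 (hm (ζ ^ n))) * ρ (emb2 h0 (hm ζ)) * L A *
        ((ρ (emb2 h0 (hm ζ)))⁻¹ * (ρ (emb2 h0 (hm (ζ ^ n))))⁻¹) =
        ρ (emb2 h0 (hm (ζ ^ n))) * (ρ (emb2 h0 (hm ζ)) * L A * (ρ (emb2 h0 (hm ζ)))⁻¹) *
          (ρ (emb2 h0 (hm (ζ ^ n))))⁻¹ := by group
    rw [e2, e]
    congr 1
    have hc : hm (ζ ^ n) * hm ζ = hm ζ * hm (ζ ^ n) := by rw [← hm_mul, ← hm_mul, mul_comm]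
    calc (hm (ζ ^ n))⁻¹ * ((hm ζ)⁻¹ * A * hm ζ) * hm (ζ ^ n)
        = (hm ζ * hm (ζ ^ n))⁻¹ * A * (hm ζ * hm (ζ ^ n)) := by group
      _ = _ := by rw [← hc]; group

theorem a0 (hζ : IsGen ζ) (H : HB ζ h0 ρ L) {g : Matrix.SpecialLinearGroup l F} {c : Fˣ} (hg : Mo g k0 k0 c)
    (A : Matrix.SpecialLinearGroup (Fin 2) F) : ρ g * L A * (ρ g)⁻¹ = L (hm c * A * (hm c)⁻¹) := by
  have hD : Mo (emb2 h0 (hm c)) k0 k0 c⁻¹ := (Mo_hm c).emb _ (inj2 h0)
  have h1 : Mo (emb2 h0 (hm c) * g) k0 k0 1 := by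
    have := hD.mul hg
    rwa [inv_mul_cancel] at this
  have h2 := (H.m _ h1 A).eq
  have h3 := H.a' hζ c (hm c * A * (hm c)⁻¹)
  have e : (hm c)⁻¹ * (hm c * A * (hm c)⁻¹) * hm c = A := by group
  rw [e] at h3
  rw [map_mul] at h2
  have h4 : ρ g * L A * (ρ g)⁻¹ = (ρ (emb2 h0 (hm c)))⁻¹ * L A * ρ (emb2 h0 (hm c)) := by
    calc ρ g * L A * (ρ g)⁻¹ = (ρ (emb2 h0 (hm c)))⁻¹ * (ρ (emb2 h0 (hm c)) * ρ g * L A) * (ρ g)⁻¹ := by group
      _ = _ := by rw [h2]; group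
  rw [h4, ← h3]; group

theorem s2 (hζ : IsGen ζ) (H : HB ζ h0 ρ L) :
    S2 ζ (fun a => ρ (tvl h0 a)) (fun a => ρ (tvl h0.symm a))
      ((MulAut.conj (ρ (emb2 h0 tm))).toMonoidHom.comp L) L (ρ (emb2 h0 tm)) (ρ (emb2 h0 (hm ζ))) where
  addX a b := by rw [tvl_add, map_mul]
  addXm a b := by rw [tvl_add, map_mul]
  sL A := rfl
  sL' A := by
    change ρ (emb2 h0 tm) * (ρ (emb2 h0 tm) * L A * (ρ (emb2 h0 tm))⁻¹) * (ρ (emb2 h0 tm))⁻¹ = L A
    rw [cj_cj, ← map_mul, ← map_mul, tm_sq, H.a' hζ]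
    congr 1
    have h1 := hm_central (c := (-1 : Fˣ)) (by simp) A
    have : (hm (-1 : Fˣ) : Matrix.SpecialLinearGroup (Fin 2) F)⁻¹ = hm (-1) := by rw [hm_inv]; simp
    rw [this] at h1 ⊢
    exact h1
  sX a := by
    rw [← emb2_xm h0, ← emb2_ym h0, ← tm_xm_ym]
    simp only [map_mul, map_inv]
  sXm a := by
    rw [← emb2_xm h0, ← emb2_ym h0, ← tm_ym_xm]
    simp only [map_mul, map_inv]
  hX a := by
    rw [← emb2_xm h0, ← emb2_xm h0, ← hm_xm]
    simp only [map_mul, map_inv]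
  hXm a := by
    rw [← emb2_ym h0, ← emb2_ym h0, ← hm_ym]
    simp only [map_mul, map_inv]
  hL := by
    have h1 := H.a (hm ζ)
    have e : (hm ζ)⁻¹ * hm ζ * hm ζ = hm ζ := by group
    rw [e, mul_inv_eq_iff_eq_mul] at h1
    exact h1
  B A A' := H.b A A'
  h1 := H.c
  h1' := H.c'
  E := H.e
  c2 := H.c2
  c3 := H.c3
  c4 := H.c4

theorem exists_mo1 (h0 : j0 ≠ k0) (i : l) : ∃ g : Matrix.SpecialLinearGroup l F, Mo g k0 i 1 := by
  by_cases hi : i = k0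
  · subst hi; exact ⟨1, Mo.one _⟩
  · obtain ⟨g, c, _, _, hg⟩ := exists_mo (F := F) h0 (show k0 ≠ i from Ne.symm hi)
    exact ⟨g, hg⟩

/-- the long root `SL₂`'s -/
noncomputable def La (h0 : j0 ≠ k0) (ρ : Matrix.SpecialLinearGroup l F →* Γ)
    (L : Matrix.SpecialLinearGroup (Fin 2) F →* Γ) (i : l) : Matrix.SpecialLinearGroup (Fin 2) F →* Γ :=
  (MulAut.conj (ρ (exists_mo1 (F := F) h0 i).choose)).toMonoidHom.comp L

theorem equi (hζ : IsGen ζ) (H : HB ζ h0 ρ L) {g : Matrix.SpecialLinearGroup l F} {i j : l} {c : Fˣ} (hg : Mo g i j c)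
    (A : Matrix.SpecialLinearGroup (Fin 2) F) :
    ρ g * La h0 ρ L i A * (ρ g)⁻¹ = La h0 ρ L j (hm c * A * (hm c)⁻¹) := by
  have hi := (exists_mo1 (F := F) h0 i).choose_spec
  have hj := (exists_mo1 (F := F) h0 j).choose_spec
  change ρ g * (ρ (exists_mo1 (F := F) h0 i).choose * L A * (ρ (exists_mo1 (F := F) h0 i).choose)⁻¹) * (ρ g)⁻¹ =
    ρ (exists_mo1 (F := F) h0 j).choose * L (hm c * A * (hm c)⁻¹) * (ρ (exists_mo1 (F := F) h0 j).choose)⁻¹
  set u := (exists_mo1 (F := F) h0 i).choose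
  set w := (exists_mo1 (F := F) h0 j).choose
  have h1 : Mo (w⁻¹ * (g * u)) k0 k0 c := by
    have := hj.inv.mul (hg.mul hi)
    rwa [inv_one, one_mul, mul_one] at this
  rw [← H.a0 hζ h1, map_mul, map_mul, map_inv]; group

theorem La_k0 (hζ : IsGen ζ) (H : HB ζ h0 ρ L) (A : Matrix.SpecialLinearGroup (Fin 2) F) : La h0 ρ L k0 A = L A := by
  have hi := (exists_mo1 (F := F) h0 k0).choose_spec
  change ρ (exists_mo1 (F := F) h0 k0).choose * L A * (ρ (exists_mo1 (F := F) h0 k0).choose)⁻¹ = L A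
  rw [H.a0 hζ hi, hm_one]
  simp

theorem La_j0 (hζ : IsGen ζ) (H : HB ζ h0 ρ L) (A : Matrix.SpecialLinearGroup (Fin 2) F) :
    La h0 ρ L j0 A = ρ (emb2 h0 tm) * L A * (ρ (emb2 h0 tm))⁻¹ := by
  have h1 : Mo (emb2 h0 (tm : Matrix.SpecialLinearGroup (Fin 2) F)) k0 j0 1 := Mo_tm.emb _ (inj2 h0)
  have h2 := H.equi hζ h1 A
  rw [H.La_k0 hζ, hm_one] at h2
  rw [h2]; simp

variable [Fintype F]

theorem cg (hζ : IsGen ζ) (H : HB ζ h0 ρ L) : CG ρ (La h0 ρ L) := by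
  have S := H.s2 hζ
  -- transport data
  have tr : ∀ {i j : l} (h : i ≠ j), ∃ (φ : Γ ≃* Γ) (c : F), c * c = 1 ∧ (∀ a, φ (ρ (tvl h0 a)) = ρ (tvl h (c * a))) ∧
      (∀ a, φ (ρ (tvl h0.symm a)) = ρ (tvl h.symm (c * a))) ∧ (∀ A, φ (La h0 ρ L j0 A) = La h0 ρ L i A) ∧
      (∀ A, φ (La h0 ρ L k0 A) = La h0 ρ L j A) := by
    intro i j h
    obtain ⟨g, c, hc, hg, hg'⟩ := exists_mo (F := F) h0 h
    have hc' : c⁻¹ = c := inv_eq_of_mul_eq_one_left hc
    refine ⟨MulAut.conj (ρ g), c, ?_, ?_, ?_, ?_, ?_⟩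
    · rw [← Units.val_mul, hc, Units.val_one]
    · intro a
      change ρ g * ρ (tvl h0 a) * (ρ g)⁻¹ = _
      rw [← map_inv, ← map_mul, ← map_mul, hg.conj hg' h0 h]
      simp
    · intro a
      change ρ g * ρ (tvl h0.symm a) * (ρ g)⁻¹ = _
      rw [← map_inv, ← map_mul, ← map_mul, hg'.conj hg h0.symm h.symm, hc']
      congr 2
      simp [mul_comm]
    · intro A
      change ρ g * La h0 ρ L j0 A * (ρ g)⁻¹ = _
      rw [H.equi hζ hg, hm_central hc]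
    · intro A
      change ρ g * La h0 ρ L k0 A * (ρ g)⁻¹ = _
      rw [H.equi hζ hg', hm_one]
      simp
  have e0 : ∀ A, La h0 ρ L j0 A = ((MulAut.conj (ρ (emb2 h0 tm))).toMonoidHom.comp L) A := fun A => H.La_j0 hζ A
  have e1 : ∀ A, La h0 ρ L k0 A = L A := H.La_k0 hζ
  refine ⟨?_, ?_, ?_, ?_, ?_, ?_, ?_, ?_⟩
  · intro i j h A A'
    obtain ⟨φ, c, hc, f1, f2, f3, f4⟩ := tr h
    have := (S.B A A').map φ
    rwa [← e0, ← e1, f3, f4] at this
  · intro i j k h hij hik A a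
    have h1 : Mo (tvl h a) i i 1 := Mo.tv h hij hik a
    have h2 := H.equi hζ h1 A
    rw [hm_one, one_mul, inv_one, mul_one, mul_inv_eq_iff_eq_mul] at h2
    exact h2.symm
  · intro i j h a
    obtain ⟨φ, c, hc, f1, f2, f3, f4⟩ := tr h
    have := congrArg φ (S.z1 hζ (c * a))
    rw [← e1] at this
    simp only [map_mul, map_inv] at this
    rw [f1, f1, f4] at this
    have e : c * (c * a) = a := by rw [← mul_assoc, hc, one_mul]
    have e' : c * -(c * a) = -a := by rw [mul_neg, e]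
    rwa [e, e'] at this
  · intro i j h a
    obtain ⟨φ, c, hc, f1, f2, f3, f4⟩ := tr h.symm
    have := congrArg φ (S.z1' hζ (c * a))
    rw [← e1] at this
    simp only [map_mul, map_inv] at this
    rw [f2, f2, f4] at this
    have e : c * (c * a) = a := by rw [← mul_assoc, hc, one_mul]
    have e' : c * -(c * a) = -a := by rw [mul_neg, e]
    rwa [e, e'] at this
  · intro i j h a
    obtain ⟨φ, c, hc, f1, f2, f3, f4⟩ := tr h
    have := congrArg φ (S.E' hζ (c * a))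
    rw [← e1, ← e0] at this
    simp only [map_mul, map_inv] at this
    rw [f1, f2, f3, f4] at this
    have e : c * (c * a) = a := by rw [← mul_assoc, hc, one_mul]
    have e' : c * -(c * a) = -a := by rw [mul_neg, e]
    rwa [e, e'] at this
  · intro i j h a b
    obtain ⟨φ, c, hc, f1, f2, f3, f4⟩ := tr h
    have := congrArg φ (S.c2' hζ (c * a) (c * b))
    rw [← e1, ← e0] at this
    rw [map_commutatorElement] at this
    simp only [map_mul, map_inv] at this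
    rw [f1, f1, f3, f4] at this
    have e' : ∀ a, c * -(c * a) = -a := by intro a; rw [mul_neg, ← mul_assoc, hc, one_mul]
    have e'' : 2 * (c * a) * (c * b) = 2 * a * b := by linear_combination (2 * a * b) * hc
    rwa [e', e', e''] at this
  · intro i j h a b
    obtain ⟨φ, c, hc, f1, f2, f3, f4⟩ := tr h
    have := congrArg φ (S.c3' hζ a (c * b))
    rw [← e1, ← e1, ← e0] at this
    rw [map_commutatorElement] at this
    simp only [map_mul, map_inv] at this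
    rw [f1, f1, f3, f4, f4] at this
    have e' : c * -(c * b) = -b := by rw [mul_neg, ← mul_assoc, hc, one_mul]
    have e'' : c * -(a * (c * b)) = -(a * b) := by linear_combination (-(a * b)) * hc
    have e3 : -(a * (c * b) ^ 2) = -(a * b ^ 2) := by linear_combination (-(a * b ^ 2)) * hc
    rwa [e', e'', e3] at this
  · intro i j h a b
    obtain ⟨φ, c, hc, f1, f2, f3, f4⟩ := tr h
    have := (S.c4' hζ (c * a) b).map φ
    rw [← e0, f1, f3] at this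
    have e : c * (c * a) = a := by rw [← mul_assoc, hc, one_mul]
    rwa [e] at this

end HB

end base

end Cfsg.Agent.GK
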