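import Cfsg.Agent.GK.Om1
import Cfsg.Agent.GK.Sp5
import Cfsg.Agent.GK.SLnC

/-!
Relations of type `D_n`: from one sign change to all.
-/

set_option autoImplicit false
set_option linter.unusedSectionVars false
set_option linter.unusedVariables false

namespace Cfsg.Agent.GK.Om

open Subgroup Polynomial
open scoped commutatorElement

universe v

section prelim
variable {F : Type v} [Field F] {l : Type*} [Fintype l] [DecidableEq l]

theorem Mo_PM (g : alternatingGroup l) (i : l) : Mo (PM g : Matrix.SpecialLinearGroup l F) i ((g : Equiv.Perm l) i) 1 := by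
  constructor
  · intro m
    rw [PM_coe, pmat_apply]; rfl
  · intro m
    rw [PM_coe, pmat_apply]
    simp only [(g : Equiv.Perm l).injective.eq_iff, eq_comm, Units.val_one]

theorem PM_emb2 (g : alternatingGroup l) {i j : l} (h : i ≠ j) (h' : (g : Equiv.Perm l) i ≠ (g : Equiv.Perm l) j)
    (A : Matrix.SpecialLinearGroup (Fin 2) F) : PM g * emb2 h A * (PM g)⁻¹ = emb2 h' A := by
  have : (MulAut.conj (PM g)).toMonoidHom.comp (emb2 (F := F) h) = emb2 h' := by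
    apply hom_ext_tv
    intro a b hab s
    have key : ∀ s : F, PM g * tvl h s * (PM g)⁻¹ = tvl h' s := fun s => PM_tv g h h' s
    have key' : ∀ s : F, PM g * tvl h.symm s * (PM g)⁻¹ = tvl h'.symm s := fun s => PM_tv g h.symm h'.symm s
    fin_cases a <;> fin_cases b
    · exact absurd rfl hab
    · change PM g * emb2 h (tvl _ s) * (PM g)⁻¹ = emb2 h' (tvl _ s)
      rw [show (tvl hab s : Matrix.SpecialLinearGroup (Fin 2) F) = xm s from (xm_tvl s).symm, emb2_xm, emb2_xm]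
      exact key s
    · change PM g * emb2 h (tvl _ s) * (PM g)⁻¹ = emb2 h' (tvl _ s)
      rw [show (tvl hab s : Matrix.SpecialLinearGroup (Fin 2) F) = ym s from (ym_tvl s).symm, emb2_ym, emb2_ym]
      exact key' s
    · exact absurd rfl hab
  exact DFunLike.congr_fun this A

theorem Mo_hm0 (c : Fˣ) : Mo (hm c) (0 : Fin 2) 0 c := by
  constructor
  · intro m
    rw [hm_coe]
    fin_cases m <;> simp
  · intro m
    rw [hm_coe]
    fin_cases m <;> simp

theorem Mo_emb2_fst {i j : l} (h : i ≠ j) (c : Fˣ) : Mo (emb2 h (hm c)) i i c := (Mo_hm0 c).emb _ (inj2 h)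
theorem Mo_emb2_snd {i j : l} (h : i ≠ j) (c : Fˣ) : Mo (emb2 h (hm c)) j j c⁻¹ := (Mo_hm c).emb _ (inj2 h)

theorem Mo_emb2_out {i j k : l} (h : i ≠ j) (h1 : k ≠ i) (h2 : k ≠ j) (A : Matrix.SpecialLinearGroup (Fin 2) F) :
    Mo (emb2 h A) k k 1 := by
  have hx : k ∉ Set.range ![i, j] := by
    rintro ⟨x, hx⟩
    fin_cases x
    · exact h1 hx.symm
    · exact h2 hx.symm
  constructor
  · intro m
    exact (emb_apply_right ![i, j] (inj2 h) A hx m).trans (by simp)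
  · intro m
    refine (emb_apply_left ![i, j] (inj2 h) A hx m).trans ?_
    simp only [eq_comm, Units.val_one]

/-- triples -/
theorem exists_alt3 {a b c i j k : l} (hab : a ≠ b) (hac : a ≠ c) (hbc : b ≠ c) (hij : i ≠ j) (hik : i ≠ k) (hjk : j ≠ k) :
    ∃ g : alternatingGroup l, ((g : Equiv.Perm l) a = i ∧ (g : Equiv.Perm l) b = j ∧ (g : Equiv.Perm l) c = k) ∨
      ((g : Equiv.Perm l) a = k ∧ (g : Equiv.Perm l) b = j ∧ (g : Equiv.Perm l) c = i) := by
  obtain ⟨g, hg⟩ := exists_perm (inj3 hab hac hbc) (inj3 hij hik hjk)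
  have h0 : g a = i := hg 0
  have h1 : g b = j := hg 1
  have h2 : g c = k := hg 2
  rcases Int.units_eq_one_or (Equiv.Perm.sign g) with h | h
  · exact ⟨⟨g, h⟩, Or.inl ⟨h0, h1, h2⟩⟩
  · refine ⟨⟨g * Equiv.swap a c, ?_⟩, Or.inr ⟨?_, ?_, ?_⟩⟩
    · rw [Equiv.Perm.mem_alternatingGroup, map_mul, Equiv.Perm.sign_swap hac, h]; rfl
    · change g (Equiv.swap a c a) = k
      rw [Equiv.swap_apply_left, h2]
    · change g (Equiv.swap a c b) = j
      rw [Equiv.swap_apply_of_ne_of_ne hab.symm hbc, h1]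
    · change g (Equiv.swap a c c) = i
      rw [Equiv.swap_apply_right, h0]

/-- quadruples -/
theorem exists_alt4 {a b c d i j k m : l} (hab : a ≠ b) (hac : a ≠ c) (had : a ≠ d) (hbc : b ≠ c) (hbd : b ≠ d) (hcd : c ≠ d)
    (hij : i ≠ j) (hik : i ≠ k) (him : i ≠ m) (hjk : j ≠ k) (hjm : j ≠ m) (hkm : k ≠ m) :
    ∃ g : alternatingGroup l, (g : Equiv.Perm l) a = i ∧ (g : Equiv.Perm l) b = j ∧
      (((g : Equiv.Perm l) c = k ∧ (g : Equiv.Perm l) d = m) ∨ ((g : Equiv.Perm l) c = m ∧ (g : Equiv.Perm l) d = k)) := by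
  obtain ⟨g, hg⟩ := exists_perm (inj4 hab hac had hbc hbd hcd) (inj4 hij hik him hjk hjm hkm)
  have h0 : g a = i := hg 0
  have h1 : g b = j := hg 1
  have h2 : g c = k := hg 2
  have h3 : g d = m := hg 3
  rcases Int.units_eq_one_or (Equiv.Perm.sign g) with h | h
  · exact ⟨⟨g, h⟩, h0, h1, Or.inl ⟨h2, h3⟩⟩
  · refine ⟨⟨g * Equiv.swap c d, ?_⟩, ?_, ?_, Or.inr ⟨?_, ?_⟩⟩
    · rw [Equiv.Perm.mem_alternatingGroup, map_mul, Equiv.Perm.sign_swap hcd, h]; rfl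
    · change g (Equiv.swap c d a) = i
      rw [Equiv.swap_apply_of_ne_of_ne hac had, h0]
    · change g (Equiv.swap c d b) = j
      rw [Equiv.swap_apply_of_ne_of_ne hbc hbd, h1]
    · change g (Equiv.swap c d c) = m
      rw [Equiv.swap_apply_left, h3]
    · change g (Equiv.swap c d d) = k
      rw [Equiv.swap_apply_right, h2]

end prelim

section rd
variable {F : Type v} [Field F] {l : Type*} [Fintype l] [DecidableEq l] {Γ : Type*} [Group Γ]

/-- the first relations -/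
structure RD0 (ρ : Matrix.SpecialLinearGroup l F →* Γ) (s : Γ) {a b : l} (hab : a ≠ b) : Prop where
  ra : ∀ M : Matrix.SpecialLinearGroup l F, Mo M a a 1 → Mo M b b 1 → Commute s (ρ M)
  rb : ∀ A, s * ρ (emb2 hab A) * s⁻¹ = ρ (emb2 hab (tm * A * tm⁻¹))
  rc : ∀ g : alternatingGroup l, (g : Equiv.Perm l) a = b → (g : Equiv.Perm l) b = a → Commute s (ρ (PM g))

variable {ρ : Matrix.SpecialLinearGroup l F →* Γ} {s : Γ} {a b : l} {hab : a ≠ b}

open scoped Classical in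
/-- the sign changes -/
noncomputable def SS (ρ : Matrix.SpecialLinearGroup l F →* Γ) (s : Γ) (a b i j : l) : Γ :=
  if h : ∃ g : alternatingGroup l, (g : Equiv.Perm l) a = i ∧ (g : Equiv.Perm l) b = j then
    ρ (PM h.choose) * s * (ρ (PM h.choose))⁻¹ else 1

namespace RD0

theorem SS_eq (H : RD0 ρ s hab) (g : alternatingGroup l) {i j : l} (h1 : (g : Equiv.Perm l) a = i)
    (h2 : (g : Equiv.Perm l) b = j) : SS ρ s a b i j = ρ (PM g) * s * (ρ (PM g))⁻¹ := by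
  have h : ∃ g : alternatingGroup l, (g : Equiv.Perm l) a = i ∧ (g : Equiv.Perm l) b = j := ⟨g, h1, h2⟩
  unfold SS
  rw [dif_pos h]
  set g' := h.choose
  have h1' : (g' : Equiv.Perm l) a = i := h.choose_spec.1
  have h2' : (g' : Equiv.Perm l) b = j := h.choose_spec.2
  apply conj_eq_of_commute
  rw [← map_inv, ← map_mul, ← map_inv, ← map_mul]
  apply Commute.symm
  apply H.ra
  · have := Mo_PM (F := F) (g⁻¹ * g') a
    have e : ((g⁻¹ * g' : alternatingGroup l) : Equiv.Perm l) a = a := by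
      change (g : Equiv.Perm l)⁻¹ ((g' : Equiv.Perm l) a) = a
      rw [h1', ← h1]; simp
    rwa [e] at this
  · have := Mo_PM (F := F) (g⁻¹ * g') b
    have e : ((g⁻¹ * g' : alternatingGroup l) : Equiv.Perm l) b = b := by
      change (g : Equiv.Perm l)⁻¹ ((g' : Equiv.Perm l) b) = b
      rw [h2', ← h2]; simp
    rwa [e] at this

theorem SS_ab (H : RD0 ρ s hab) : SS ρ s a b a b = s := by
  rw [H.SS_eq 1 (i := a) (j := b) rfl rfl, map_one, map_one]; group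

variable (h4 : 4 ≤ Fintype.card l)

include h4

theorem SS_act (H : RD0 ρ s hab) (g : alternatingGroup l) {i j : l} (hij : i ≠ j) :
    ρ (PM g) * SS ρ s a b i j * (ρ (PM g))⁻¹ = SS ρ s a b ((g : Equiv.Perm l) i) ((g : Equiv.Perm l) j) := by
  obtain ⟨g', h1, h2⟩ := exists_alt2 h4 hab hij
  rw [H.SS_eq g' h1 h2, H.SS_eq (g * g') (i := (g : Equiv.Perm l) i) (j := (g : Equiv.Perm l) j)
    (by rw [← h1]; rfl) (by rw [← h2]; rfl), map_mul, map_mul]
  group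

theorem exists_sw {a b : l} (hab : a ≠ b) : ∃ g : alternatingGroup l, (g : Equiv.Perm l) a = b ∧ (g : Equiv.Perm l) b = a :=
  exists_alt2 h4 hab hab.symm

theorem SS_symm (H : RD0 ρ s hab) {i j : l} (hij : i ≠ j) : SS ρ s a b i j = SS ρ s a b j i := by
  obtain ⟨g, h1, h2⟩ := exists_alt2 h4 hab hij
  obtain ⟨t, t1, t2⟩ := exists_sw h4 hab
  rw [H.SS_eq g h1 h2, H.SS_eq (g * t) (i := j) (j := i) (by rw [← h2, ← t1]; rfl) (by rw [← h1, ← t2]; rfl), map_mul, map_mul]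
  have := (H.rc t t1 t2).eq
  have e : ρ (PM t) * s * (ρ (PM t))⁻¹ = s := by rw [← this]; group
  calc ρ (PM g) * s * (ρ (PM g))⁻¹ = ρ (PM g) * (ρ (PM t) * s * (ρ (PM t))⁻¹) * (ρ (PM g))⁻¹ := by rw [e]
    _ = _ := by group

/-- commuting with the other coordinates -/
theorem SS_M (H : RD0 ρ s hab) {i j : l} (hij : i ≠ j) {M : Matrix.SpecialLinearGroup l F} (hi : Mo M i i 1) (hj : Mo M j j 1) :
    Commute (SS ρ s a b i j) (ρ M) := by
  obtain ⟨g, g1, g2⟩ := exists_alt2 h4 hab hij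
  rw [H.SS_eq g g1 g2]
  have key : ∀ a' i' : l, (g : Equiv.Perm l) a' = i' → Mo M i' i' 1 → Mo ((PM g)⁻¹ * M * PM g) a' a' 1 := by
    rintro a' i' rfl h
    have h1 := Mo_PM (F := F) g a'
    have h2 := h1.inv
    have := (h2.mul h).mul h1
    simpa using this
  have hc : Commute s (ρ ((PM g)⁻¹ * M * PM g)) := H.ra _ (key a i g1 hi) (key b j g2 hj)
  have h2 := hc.conj (ρ (PM g))
  have e : ρ (PM g) * ρ ((PM g)⁻¹ * M * PM g) * (ρ (PM g))⁻¹ = ρ M := by
    simp only [map_mul, map_inv]; group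
  rwa [e] at h2

theorem SS_A (H : RD0 ρ s hab) {i j k m : l} (hij : i ≠ j) (h : k ≠ m) (h1 : i ≠ k) (h2 : i ≠ m) (h3 : j ≠ k) (h5 : j ≠ m)
    (x : F) : Commute (SS ρ s a b i j) (ρ (tvl h x)) :=
  H.SS_M h4 hij (Mo.tv h h1 h2 x) (Mo.tv h h3 h5 x)

/-- action on the rank one group -/
theorem SS_B (H : RD0 ρ s hab) {i j : l} (hij : i ≠ j) (A : Matrix.SpecialLinearGroup (Fin 2) F) :
    SS ρ s a b i j * ρ (emb2 hij A) * (SS ρ s a b i j)⁻¹ = ρ (emb2 hij (tm * A * tm⁻¹)) := by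
  obtain ⟨g, rfl, rfl⟩ := exists_alt2 h4 hab hij
  rw [H.SS_eq g rfl rfl, ← PM_emb2 g hab hij, ← PM_emb2 g hab hij, map_mul, map_mul, map_inv, map_mul ρ (PM g * _),
    map_mul ρ (PM g), map_inv, ← H.rb]
  group

end RD0

/-- the relations between the sign changes -/
structure RD1 (ρ : Matrix.SpecialLinearGroup l F →* Γ) (s : Γ) {a b : l} (hab : a ≠ b) (c : l) :
    Prop extends RD0 ρ s hab where
  rd : s * SS ρ s a b b c = SS ρ s a b c a
  r2 : s * s = 1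

/-- all the relations -/
structure RD (ρ : Matrix.SpecialLinearGroup l F →* Γ) (s : Γ) {a b : l} (hab : a ≠ b) {c d : l} (hcb : c ≠ b) (hcd : c ≠ d) :
    Prop extends RD1 ρ s hab c where
  re : Commute (ρ (tvl hcb 1)) (s * ρ (tvl hcb 1) * s⁻¹)
  rf : Commute (ρ (tvl hab 1)) (SS ρ s a b d a * ρ (tvl hcd 1) * (SS ρ s a b d a)⁻¹)

/-- transport of equations between sign changes -/
theorem act_mul {g x y z : Γ} (h : x * y = z) : (g * x * g⁻¹) * (g * y * g⁻¹) = g * z * g⁻¹ := by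
  rw [← h]; group

/-- triples, five points -/
theorem exists_alt3' (h5 : 5 ≤ Fintype.card l) {a b c i j k : l} (hab : a ≠ b) (hac : a ≠ c) (hbc : b ≠ c) (hij : i ≠ j)
    (hik : i ≠ k) (hjk : j ≠ k) :
    ∃ g : alternatingGroup l, (g : Equiv.Perm l) a = i ∧ (g : Equiv.Perm l) b = j ∧ (g : Equiv.Perm l) c = k := by
  obtain ⟨g, hg⟩ := exists_perm (inj3 hab hac hbc) (inj3 hij hik hjk)
  have h0 : g a = i := hg 0
  have h1 : g b = j := hg 1
  have h2 : g c = k := hg 2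
  rcases Int.units_eq_one_or (Equiv.Perm.sign g) with h | h
  · exact ⟨⟨g, h⟩, h0, h1, h2⟩
  · have hc : 1 < ((Finset.univ : Finset l) \ {a, b, c}).card := by
      rw [Finset.card_sdiff_of_subset (Finset.subset_univ _), Finset.card_univ]
      have := Finset.card_le_three (a := a) (b := b) (c := c)
      omega
    obtain ⟨x, hx, y, hy, hxy⟩ := Finset.one_lt_card.1 hc
    simp only [Finset.mem_sdiff, Finset.mem_univ, true_and, Finset.mem_insert, Finset.mem_singleton, not_or] at hx hy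
    refine ⟨⟨g * Equiv.swap x y, ?_⟩, ?_, ?_, ?_⟩
    · rw [Equiv.Perm.mem_alternatingGroup, map_mul, Equiv.Perm.sign_swap hxy, h]; rfl
    · change g (Equiv.swap x y a) = i
      rw [Equiv.swap_apply_of_ne_of_ne (Ne.symm hx.1) (Ne.symm hy.1), h0]
    · change g (Equiv.swap x y b) = j
      rw [Equiv.swap_apply_of_ne_of_ne (Ne.symm hx.2.1) (Ne.symm hy.2.1), h1]
    · change g (Equiv.swap x y c) = k
      rw [Equiv.swap_apply_of_ne_of_ne (Ne.symm hx.2.2) (Ne.symm hy.2.2), h2]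

/-- transport of the product relation -/
theorem t3_act (h4 : 4 ≤ Fintype.card l) (H : RD0 ρ s hab) {c : l} (hac : a ≠ c) (hbc : b ≠ c)
    (rd : s * SS ρ s a b b c = SS ρ s a b c a) (g : alternatingGroup l) :
    SS ρ s a b ((g : Equiv.Perm l) a) ((g : Equiv.Perm l) b) * SS ρ s a b ((g : Equiv.Perm l) b) ((g : Equiv.Perm l) c) =
      SS ρ s a b ((g : Equiv.Perm l) c) ((g : Equiv.Perm l) a) := by
  have h := act_mul (g := ρ (PM g)) rd
  rwa [H.SS_act h4 g hbc, H.SS_act h4 g hac.symm, show ρ (PM g) * s * (ρ (PM g))⁻¹ =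
    SS ρ s a b ((g : Equiv.Perm l) a) ((g : Equiv.Perm l) b) from (H.SS_eq g rfl rfl).symm] at h

/-- five points: the sign changes are involutions -/
theorem r2_of_five (h5 : 5 ≤ Fintype.card l) (H : RD0 ρ s hab) {c : l} (hac : a ≠ c) (hbc : b ≠ c)
    (rd : s * SS ρ s a b b c = SS ρ s a b c a) : s * s = 1 := by
  have h4 : 4 ≤ Fintype.card l := by omega
  -- `s_ca s_ab = s_bc`, `s_cb s_ba = s_ac`
  obtain ⟨g, g1, g2, g3⟩ := exists_alt3' h5 hab hac hbc (i := c) (j := a) (k := b) hac.symm hbc.symm hab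
  obtain ⟨f, f1, f2, f3⟩ := exists_alt3' h5 hab hac hbc (i := c) (j := b) (k := a) hbc.symm hac.symm hab.symm
  have e1 := t3_act h4 H hac hbc rd g
  have e2 := t3_act h4 H hac hbc rd f
  rw [g1, g2, g3] at e1
  rw [f1, f2, f3] at e2
  rw [H.SS_symm h4 hab.symm, H.SS_symm h4 hbc.symm, H.SS_symm h4 hac] at e2
  rw [H.SS_ab] at e1 e2
  rw [← e1, mul_assoc] at e2
  exact mul_eq_left.1 e2

namespace RD1

variable {c : l}

/-- the squares -/
theorem SS_sq (h4 : 4 ≤ Fintype.card l) (H : RD1 ρ s hab c) {i j : l} (hij : i ≠ j) :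
    SS ρ s a b i j * SS ρ s a b i j = 1 := by
  obtain ⟨g, h1, h2⟩ := exists_alt2 h4 hab hij
  rw [H.SS_eq g h1 h2]
  have := H.r2
  calc ρ (PM g) * s * (ρ (PM g))⁻¹ * (ρ (PM g) * s * (ρ (PM g))⁻¹) = ρ (PM g) * (s * s) * (ρ (PM g))⁻¹ := by group
    _ = 1 := by rw [this]; group

/-- the products -/
theorem SS_D (h4 : 4 ≤ Fintype.card l) (H : RD1 ρ s hab c) (hac : a ≠ c) (hcb : c ≠ b) {i j k : l} (hij : i ≠ j) (hik : i ≠ k)
    (hjk : j ≠ k) : SS ρ s a b i j * SS ρ s a b j k = SS ρ s a b i k := by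
  obtain ⟨g, ⟨g1, g2, g3⟩ | ⟨g1, g2, g3⟩⟩ := exists_alt3 hab hac hcb.symm hij hik hjk
  · have e1 := t3_act h4 H.toRD0 hac hcb.symm H.rd g
    rwa [g1, g2, g3, H.SS_symm h4 hik.symm] at e1
  · have e1 := t3_act h4 H.toRD0 hac hcb.symm H.rd g
    rw [g1, g2, g3] at e1
    have e2 := congrArg (fun x => x⁻¹) e1
    simp only [mul_inv_rev] at e2
    have inv : ∀ {i j : l}, i ≠ j → (SS ρ s a b i j)⁻¹ = SS ρ s a b i j := fun h => inv_eq_of_mul_eq_one_left (H.SS_sq h4 h)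
    rwa [inv hij.symm, inv hjk.symm, inv hik, H.SS_symm h4 hij.symm, H.SS_symm h4 hjk.symm] at e2

/-- moving the auxiliary index -/
theorem SS_X (h4 : 4 ≤ Fintype.card l) (H : RD1 ρ s hab c) (hac : a ≠ c) (hcb : c ≠ b) {i j k m : l} (h : i ≠ j) (hik : i ≠ k)
    (hjk : j ≠ k) (him : i ≠ m) (hjm : j ≠ m) (x : F) :
    SS ρ s a b j k * ρ (tvl h x) * (SS ρ s a b j k)⁻¹ = SS ρ s a b j m * ρ (tvl h x) * (SS ρ s a b j m)⁻¹ := by
  by_cases hkm : k = m
  · rw [hkm]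
  · apply conj_eq_of_commute
    have e : (SS ρ s a b j m)⁻¹ * SS ρ s a b j k = SS ρ s a b m k := by
      rw [inv_eq_of_mul_eq_one_left (H.SS_sq h4 hjm), H.SS_symm h4 hjm]
      exact H.SS_D h4 hac hcb (Ne.symm hjm) (Ne.symm hkm) hjk
    rw [e]
    exact H.SS_A h4 (Ne.symm hkm) h him.symm hjm.symm hik.symm hjk.symm x

/-- five points: disjoint indices -/
theorem rf_of_five (h5 : 5 ≤ Fintype.card l) (H : RD1 ρ s hab c) (hac : a ≠ c) (hcb : c ≠ b) {d : l} (hcd : c ≠ d)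
    (had : a ≠ d) (hbd : b ≠ d) :
    Commute (ρ (tvl hab 1)) (SS ρ s a b d a * ρ (tvl hcd 1) * (SS ρ s a b d a)⁻¹) := by
  have h4 : 4 ≤ Fintype.card l := by omega
  obtain ⟨e, he⟩ : ∃ e : l, e ≠ a ∧ e ≠ b ∧ e ≠ c ∧ e ≠ d := by
    have hc : 0 < ((Finset.univ : Finset l) \ {a, b, c, d}).card := by
      rw [Finset.card_sdiff_of_subset (Finset.subset_univ _), Finset.card_univ]
      have : ({a, b, c, d} : Finset l).card ≤ 4 := Finset.card_le_four
      omega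
    obtain ⟨x, hx⟩ := Finset.card_pos.1 hc
    simp only [Finset.mem_sdiff, Finset.mem_univ, true_and, Finset.mem_insert, Finset.mem_singleton, not_or] at hx
    exact ⟨x, hx⟩
  obtain ⟨h1, h2, h3, h6⟩ := he
  rw [H.SS_X h4 hac hcb hcd hac.symm had.symm h3.symm h6.symm]
  have c1 := H.SS_A h4 h6.symm hab had.symm hbd.symm h1 h2 (1 : F)
  have c2 : Commute (ρ (tvl hab (1 : F))) (ρ (tvl hcd 1)) := (tv_comm hab hcd hcb.symm had 1 1).map ρ
  exact (c1.symm.mul_right c2).mul_right c1.symm.inv_right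

end RD1

namespace RD

variable {c d : l} {hcb : c ≠ b} {hcd : c ≠ d}

/-- the elements `T i` -/
noncomputable def TT (ρ : Matrix.SpecialLinearGroup l F →* Γ) (s : Γ) (a b : l) (i : l) : Γ :=
  if i = a then 1 else SS ρ s a b a i

theorem TT_mul (h4 : 4 ≤ Fintype.card l) (H : RD ρ s hab hcb hcd) (hac : a ≠ c) {i j : l} (hij : i ≠ j) :
    TT ρ s a b i * TT ρ s a b j = SS ρ s a b i j := by
  unfold TT
  by_cases hi : i = a
  · subst hi
    rw [if_pos rfl, if_neg (Ne.symm hij), one_mul]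
  · rw [if_neg hi]
    by_cases hj : j = a
    · subst hj
      rw [if_pos rfl, mul_one, H.SS_symm h4 hij.symm]
    · rw [if_neg hj, H.SS_symm h4 (Ne.symm hi)]
      exact H.SS_D h4 hac hcb hi hij (Ne.symm hj)

/-- scaling -/
theorem scal {F : Type v} [Field F] [Fintype F] {P : F → F → Prop} (h11 : P 1 1) (h10 : ∀ a, P a 0) (h01 : ∀ b, P 0 b)
    (hadd : ∀ a b b', P a b → P a b' → P a (b + b'))
    (hs : ∀ (u v : Fˣ) (a b : F), P a b → P (u * ((v⁻¹ : Fˣ) : F) * a) (u * v * b)) (a b : F) : P a b := by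
  classical
  obtain ⟨ζ, hζ⟩ := exists_isGen F
  obtain ⟨p, hpc⟩ := CharP.exists F
  have hp : Fact p.Prime := ⟨CharP.char_is_prime F p⟩
  let _ : Algebra (ZMod p) F := ZMod.algebra F p
  have one_all : ∀ r : F, P 1 r := by
    intro r
    obtain ⟨f, hf⟩ := gen_adjoin_sq (p := p) hζ r
    rw [← hf]
    apply span_ind (P := fun r => P 1 r)
    · exact h10 1
    · intro a b ha hb
      exact hadd _ _ _ ha hb
    · intro n
      have h2 := hs (ζ ^ n) (ζ ^ n) 1 1 h11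
      rw [← Units.val_mul, mul_inv_cancel, Units.val_one, mul_one, mul_one, ← Units.val_mul] at h2
      have e : (((ζ ^ 1 : Fˣ) : F) ^ 2) ^ n = ((ζ ^ n * ζ ^ n : Fˣ) : F) := by
        push_cast; ring
      rw [e]
      exact h2
  by_cases ha : a = 0
  · rw [ha]; exact h01 b
  · have h2 := hs (Units.mk0 a ha) 1 1 (b / a) (one_all _)
    rw [inv_one, Units.val_mk0, Units.val_one, mul_one, mul_one, mul_div_cancel₀ b ha] at h2
    exact h2

/-- elements of the torus -/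
noncomputable def dd {i m j k : l} (him : i ≠ m) (hjk : j ≠ k) (u v : Fˣ) : Matrix.SpecialLinearGroup l F :=
  emb2 him (hm u) * emb2 hjk (hm v)

theorem dd_SS (h4 : 4 ≤ Fintype.card l) (H : RD ρ s hab hcb hcd) {i m j k : l} (him : i ≠ m) (hjk : j ≠ k) (h1 : j ≠ i)
    (h2 : j ≠ m) (h3 : k ≠ i) (h5 : k ≠ m) (u v : Fˣ) :
    ρ (dd him hjk u v) * SS ρ s a b j k = SS ρ s a b j k * ρ (dd him hjk u v⁻¹) := by
  unfold dd
  have hc := H.SS_M h4 hjk (Mo_emb2_out him h1 h2 (hm u)) (Mo_emb2_out him h3 h5 (hm u))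
  have hb := H.SS_B h4 hjk (hm v⁻¹)
  rw [tm_hm, hm_inv, inv_inv] at hb
  rw [map_mul, map_mul, ← hb]
  calc ρ (emb2 him (hm u)) * (SS ρ s a b j k * ρ (emb2 hjk (hm v⁻¹)) * (SS ρ s a b j k)⁻¹) * SS ρ s a b j k
      = (ρ (emb2 him (hm u)) * SS ρ s a b j k) * ρ (emb2 hjk (hm v⁻¹)) := by group
    _ = _ := by rw [← hc.eq]; group

theorem dd_SS_conj (h4 : 4 ≤ Fintype.card l) (H : RD ρ s hab hcb hcd) {i m j k : l} (him : i ≠ m) (hjk : j ≠ k) (h1 : j ≠ i)
    (h2 : j ≠ m) (h3 : k ≠ i) (h5 : k ≠ m) (u v : Fˣ) (M : Matrix.SpecialLinearGroup l F) :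
    ρ (dd him hjk u v) * (SS ρ s a b j k * ρ M * (SS ρ s a b j k)⁻¹) * (ρ (dd him hjk u v))⁻¹ =
      SS ρ s a b j k * ρ (dd him hjk u v⁻¹ * M * (dd him hjk u v⁻¹)⁻¹) * (SS ρ s a b j k)⁻¹ := by
  have e := H.dd_SS h4 him hjk h1 h2 h3 h5 u v
  rw [map_mul, map_mul, map_inv]
  have e2 : ρ (dd him hjk u v) * (SS ρ s a b j k * ρ M * (SS ρ s a b j k)⁻¹) * (ρ (dd him hjk u v))⁻¹ =
    (ρ (dd him hjk u v) * SS ρ s a b j k) * ρ M * (ρ (dd him hjk u v) * SS ρ s a b j k)⁻¹ := by group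
  rw [e2, e]; group

theorem Mo_dd1 {i m j k : l} (him : i ≠ m) (hjk : j ≠ k) (h1 : j ≠ i) (h3 : k ≠ i) (u v : Fˣ) :
    Mo (dd him hjk u v) i i u := by
  have := (Mo_emb2_fst him u).mul (Mo_emb2_out hjk h1.symm h3.symm (hm v))
  rwa [mul_one] at this

theorem Mo_dd2 {i m j k : l} (him : i ≠ m) (hjk : j ≠ k) (h2 : j ≠ m) (h5 : k ≠ m) (u v : Fˣ) :
    Mo (dd him hjk u v) m m u⁻¹ := by
  have := (Mo_emb2_snd him u).mul (Mo_emb2_out hjk h2.symm h5.symm (hm v))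
  rwa [mul_one] at this

theorem Mo_dd3 {i m j k : l} (him : i ≠ m) (hjk : j ≠ k) (h1 : j ≠ i) (h2 : j ≠ m) (u v : Fˣ) :
    Mo (dd him hjk u v) j j v := by
  have := (Mo_emb2_out him h1 h2 (hm u)).mul (Mo_emb2_fst hjk v)
  rwa [one_mul] at this

theorem Mo_dd4 {i m j k : l} (him : i ≠ m) (hjk : j ≠ k) (h3 : k ≠ i) (h5 : k ≠ m) (u v : Fˣ) :
    Mo (dd him hjk u v) k k v⁻¹ := by
  have := (Mo_emb2_out him h3 h5 (hm u)).mul (Mo_emb2_snd hjk v)
  rwa [one_mul] at this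

/-- the relation of commuting root elements -/
theorem SS_E [Fintype F] (h4 : 4 ≤ Fintype.card l) (H : RD ρ s hab hcb hcd) (hac : a ≠ c) (had : a ≠ d) (hbd : b ≠ d)
    {i j k : l} (h : i ≠ j)
    (hik : i ≠ k) (hjk : j ≠ k) (x y : F) :
    Commute (ρ (tvl h x)) (SS ρ s a b j k * ρ (tvl h y) * (SS ρ s a b j k)⁻¹) := by
  -- the base, for one auxiliary index
  obtain ⟨m, m1, m2, m3⟩ := exists_out3 h4 i j k
  have base : Commute (ρ (tvl h 1)) (SS ρ s a b j k * ρ (tvl h 1) * (SS ρ s a b j k)⁻¹) := by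
    have tr : ∀ g : alternatingGroup l, (g : Equiv.Perm l) c = i → (g : Equiv.Perm l) b = j → ∀ n,
        (g : Equiv.Perm l) a = n → Commute (ρ (tvl h 1)) (SS ρ s a b j n * ρ (tvl h 1) * (SS ρ s a b j n)⁻¹) := by
      rintro g rfl rfl n rfl
      have h1 := H.re.conj (ρ (PM g))
      have e1 : ρ (PM g) * ρ (tvl hcb 1) * (ρ (PM g))⁻¹ = ρ (tvl h 1) := by
        rw [← map_inv, ← map_mul, ← map_mul]
        congr 1
        exact PM_tv g hcb h 1
      have e2 : ρ (PM g) * s * (ρ (PM g))⁻¹ = SS ρ s a b ((g : Equiv.Perm l) b) ((g : Equiv.Perm l) a) := by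
        rw [H.SS_symm h4 (fun e => hab ((g : Equiv.Perm l).injective e).symm)]
        exact (H.SS_eq g rfl rfl).symm
      have e3 : ρ (PM g) * (s * ρ (tvl hcb 1) * s⁻¹) * (ρ (PM g))⁻¹ = (ρ (PM g) * s * (ρ (PM g))⁻¹) *
        (ρ (PM g) * ρ (tvl hcb 1) * (ρ (PM g))⁻¹) * (ρ (PM g) * s * (ρ (PM g))⁻¹)⁻¹ := by group
      rwa [e3, e1, e2] at h1
    obtain ⟨g, hg1, hg2, ⟨hg3, hg4⟩ | ⟨hg3, hg4⟩⟩ := exists_alt4 (a := c) (b := b) (c := a) (d := d) hcb hac.symm hcd hab.symm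
      hbd had h hik m1.symm hjk m2.symm m3.symm
    · exact tr g hg1 hg2 k hg3
    · have := tr g hg1 hg2 m hg3
      rwa [H.SS_X h4 hac hcb h m1.symm m2.symm hik hjk] at this
  refine scal (P := fun x y => Commute (ρ (tvl h x)) (SS ρ s a b j k * ρ (tvl h y) * (SS ρ s a b j k)⁻¹)) base ?_ ?_ ?_ ?_ x y
  · intro x
    rw [tvl_zero, map_one, mul_one, mul_inv_cancel]; exact Commute.one_right _
  · intro y
    rw [tvl_zero, map_one]; exact Commute.one_left _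
  · intro x y y' h1 h2
    rw [tvl_add, map_mul]
    have e : SS ρ s a b j k * (ρ (tvl h y) * ρ (tvl h y')) * (SS ρ s a b j k)⁻¹ =
      (SS ρ s a b j k * ρ (tvl h y) * (SS ρ s a b j k)⁻¹) * (SS ρ s a b j k * ρ (tvl h y') * (SS ρ s a b j k)⁻¹) := by group
    rw [e]
    exact h1.mul_right h2
  · intro u v x y h1
    have h2 := h1.conj (ρ (dd m1.symm hjk u v))
    rw [H.dd_SS_conj h4 m1.symm hjk h.symm m2.symm hik.symm m3.symm, ← map_inv, ← map_mul, ← map_mul,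
      (Mo_dd1 m1.symm hjk h.symm hik.symm u v).conj (Mo_dd3 m1.symm hjk h.symm m2.symm u v) h h,
      (Mo_dd1 m1.symm hjk h.symm hik.symm u v⁻¹).conj (Mo_dd3 m1.symm hjk h.symm m2.symm u v⁻¹) h h, inv_inv] at h2
    have e1 : (u : F) * x * ((v⁻¹ : Fˣ) : F) = u * ((v⁻¹ : Fˣ) : F) * x := by ring
    have e2 : (u : F) * y * (v : F) = u * v * y := by ring
    rwa [e1, e2] at h2

/-- the relation for disjoint indices -/
theorem SS_F [Fintype F] (h4 : 4 ≤ Fintype.card l) (H : RD ρ s hab hcb hcd) (hac : a ≠ c) (had : a ≠ d) (hbd : b ≠ d)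
    {i j k m : l} (h : i ≠ j) (h' : k ≠ m) (hik : i ≠ k) (him : i ≠ m) (hjk : j ≠ k) (hjm : j ≠ m) (x y : F) :
    Commute (ρ (tvl h x)) (SS ρ s a b m i * ρ (tvl h' y) * (SS ρ s a b m i)⁻¹) := by
  have base : Commute (ρ (tvl h 1)) (SS ρ s a b m i * ρ (tvl h' 1) * (SS ρ s a b m i)⁻¹) := by
    have tr : ∀ g : alternatingGroup l, (g : Equiv.Perm l) a = i → (g : Equiv.Perm l) b = j → ∀ {k m : l} (h' : k ≠ m),
        (g : Equiv.Perm l) c = k → (g : Equiv.Perm l) d = m →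
        Commute (ρ (tvl h 1)) (SS ρ s a b m i * ρ (tvl h' 1) * (SS ρ s a b m i)⁻¹) := by
      rintro g rfl rfl k m h' rfl rfl
      have h1 := H.rf.conj (ρ (PM g))
      have e1 : ρ (PM g) * ρ (tvl hcd 1) * (ρ (PM g))⁻¹ = ρ (tvl h' 1) := by
        rw [← map_inv, ← map_mul, ← map_mul]
        congr 1
        exact PM_tv g hcd h' 1
      have e0 : ρ (PM g) * ρ (tvl hab 1) * (ρ (PM g))⁻¹ = ρ (tvl h 1) := by
        rw [← map_inv, ← map_mul, ← map_mul]
        congr 1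
        exact PM_tv g hab h 1
      have e2 := H.SS_act h4 g had.symm
      have e3 : ρ (PM g) * (SS ρ s a b d a * ρ (tvl hcd 1) * (SS ρ s a b d a)⁻¹) * (ρ (PM g))⁻¹ =
        (ρ (PM g) * SS ρ s a b d a * (ρ (PM g))⁻¹) *
        (ρ (PM g) * ρ (tvl hcd 1) * (ρ (PM g))⁻¹) * (ρ (PM g) * SS ρ s a b d a * (ρ (PM g))⁻¹)⁻¹ := by group
      rwa [e3, e1, e2, e0] at h1
    obtain ⟨g, hg1, hg2, ⟨hg3, hg4⟩ | ⟨hg3, hg4⟩⟩ := exists_alt4 hab hac had hcb.symm hbd hcd h hik him hjk hjm h'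
    · exact tr g hg1 hg2 h' hg3 hg4
    · have h1 := tr g hg1 hg2 h'.symm hg3 hg4
      -- `X⁺_mk(1) = X⁺_km(-1)`
      have e : SS ρ s a b k i * ρ (tvl h'.symm 1) * (SS ρ s a b k i)⁻¹ = (SS ρ s a b m i * ρ (tvl h' 1) * (SS ρ s a b m i)⁻¹)⁻¹ := by
        have hB := H.SS_B h4 h' (xm (-1))
        rw [tm_xm_ym, neg_neg, emb2_xm, emb2_ym] at hB
        have hD : SS ρ s a b k i * SS ρ s a b k m = SS ρ s a b m i := by
          rw [H.SS_symm h4 hik.symm, H.SS_symm h4 him.symm]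
          exact H.SS_D h4 hac hcb hik him h'
        have hneg : ρ (tvl h' (-1)) = (ρ (tvl h' 1))⁻¹ := by rw [tvl_neg, map_inv]
        rw [← hB, hneg, ← hD]; group
      rw [e] at h1
      simpa using h1.inv_right
  -- use `S_jm`
  have eS : ∀ y, SS ρ s a b m i * ρ (tvl h' y) * (SS ρ s a b m i)⁻¹ = SS ρ s a b j m * ρ (tvl h' y) * (SS ρ s a b j m)⁻¹ := by
    intro y
    rw [H.SS_symm h4 hjm]
    exact H.SS_X h4 hac hcb h' hik.symm him.symm hjk.symm hjm.symm y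
  refine scal (P := fun x y => Commute (ρ (tvl h x)) (SS ρ s a b m i * ρ (tvl h' y) * (SS ρ s a b m i)⁻¹)) base ?_ ?_ ?_ ?_ x y
  · intro x
    rw [tvl_zero, map_one, mul_one, mul_inv_cancel]; exact Commute.one_right _
  · intro y
    rw [tvl_zero, map_one]; exact Commute.one_left _
  · intro x y y' h1 h2
    rw [tvl_add, map_mul]
    have e : SS ρ s a b m i * (ρ (tvl h' y) * ρ (tvl h' y')) * (SS ρ s a b m i)⁻¹ =
      (SS ρ s a b m i * ρ (tvl h' y) * (SS ρ s a b m i)⁻¹) * (SS ρ s a b m i * ρ (tvl h' y') * (SS ρ s a b m i)⁻¹) := by group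
    rw [e]
    exact h1.mul_right h2
  · intro u v x y h1
    rw [eS] at h1 ⊢
    have h2 := h1.conj (ρ (dd hik hjm v⁻¹ u⁻¹))
    rw [H.dd_SS_conj h4 hik hjm h.symm hjk him.symm h'.symm, ← map_inv, ← map_mul, ← map_mul,
      (Mo_dd1 hik hjm h.symm him.symm v⁻¹ u⁻¹).conj (Mo_dd3 hik hjm h.symm hjk v⁻¹ u⁻¹) h h,
      (Mo_dd2 hik hjm hjk h'.symm v⁻¹ u⁻¹⁻¹).conj (Mo_dd4 hik hjm him.symm h'.symm v⁻¹ u⁻¹⁻¹) h' h', inv_inv, inv_inv, inv_inv] at h2
    have e1 : ((v⁻¹ : Fˣ) : F) * x * (u : F) = u * ((v⁻¹ : Fˣ) : F) * x := by ring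
    have e2 : (v : F) * y * (u : F) = u * v * y := by ring
    rwa [e1, e2] at h2

/-- the conditions -/
theorem dg [Fintype F] (h4 : 4 ≤ Fintype.card l) (H : RD ρ s hab hcb hcd) (hac : a ≠ c) (had : a ≠ d) (hbd : b ≠ d) :
    DG ρ (TT ρ s a b) where
  tt i := by
    unfold TT
    by_cases hi : i = a
    · rw [if_pos hi, one_mul]
    · rw [if_neg hi]; exact H.SS_sq h4 (Ne.symm hi)
  tc i j := by
    by_cases hij : i = j
    · rw [hij]
    · have e1 := H.TT_mul h4 hac hij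
      have e2 := H.TT_mul h4 hac (Ne.symm hij)
      rw [H.SS_symm h4 (Ne.symm hij)] at e2
      exact e1.trans e2.symm
  A {i j k m} h h1 h2 h3 h5 x := by
    by_cases hij : i = j
    · subst hij
      have : TT ρ s a b i * TT ρ s a b i = 1 := by
        unfold TT
        by_cases hi : i = a
        · rw [if_pos hi, one_mul]
        · rw [if_neg hi]; exact H.SS_sq h4 (Ne.symm hi)
      rw [this]; exact Commute.one_left _
    · rw [H.TT_mul h4 hac hij]
      exact H.SS_A h4 hij h h1 h2 h3 h5 x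
  B {i j} h x := by
    rw [H.TT_mul h4 hac h]
    have hB := H.SS_B h4 h (xm x)
    rwa [tm_xm_ym, emb2_xm, emb2_ym] at hB
  E {i j k} h h1 h2 x y := by
    rw [H.TT_mul h4 hac h2]
    exact H.SS_E h4 hac had hbd h h1 h2 x y
  F' {i j k m} h h' h1 h2 h3 h5 x y := by
    rw [H.TT_mul h4 hac h2.symm]
    exact H.SS_F h4 hac had hbd h h' h1 h2 h3 h5 x y

end RD

end rd

end Cfsg.Agent.GK.Om
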