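import Cfsg.Agent.GK.Or1
import Cfsg.Agent.GK.Sp5
import Cfsg.Agent.Stb.SLn
import Cfsg.Agent.S2402
import Cfsg.Agent.S2403

/-!
The homomorphism from `SL_m` to the Levi subgroup; the first generators.
-/

set_option autoImplicit false
set_option linter.unusedSectionVars false
set_option linter.unusedVariables false
set_option linter.unusedSimpArgs false

namespace Cfsg.Agent.GK.Or

open Subgroup QuadraticMap Cfsg.Agent.Orth Cfsg.Agent.ClassO

universe v

section hom
variable {F : Type v} [Field F] {ι : Type} [Fintype ι] [DecidableEq ι]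

/-- a group with the Steinberg relations receives a homomorphism from `SL` -/
theorem exists_sl_hom [Finite F] (h3 : 3 ≤ Fintype.card ι) {Γ : Type*} [Group Γ] {y : ι → ι → F → Γ} (R : Mult.SR y) :
    ∃ ρ : Matrix.SpecialLinearGroup ι F →* Γ, ∀ (i j : ι) (h : i ≠ j) (a : F), ρ (tvl h a) = y i j a := by
  classical
  let P := Matrix.SpecialLinearGroup ι F × Γ
  let z : ι → ι → F → P := fun i j a => if h : i ≠ j then (tvl h a, y i j a) else 1
  have hz : ∀ {i j : ι} (h : i ≠ j) (a : F), z i j a = (tvl h a, y i j a) := fun h a => dif_pos h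
  have Rz : Mult.SR z := by
    refine ⟨?_, ?_, ?_⟩
    · intro i j hij a b
      rw [hz hij, hz hij, hz hij, Prod.mk_mul_mk, tvl_add, R.add hij]
    · intro i j k hij hjk hik a b
      rw [hz hij, hz hjk, hz hik, Prod.mk_mul_mk, Prod.mk_mul_mk, Prod.mk_mul_mk, R.com hij hjk hik]
      congr 1
      have := tvl_com hij hjk hik a b
      rw [commutatorElement_def, mul_inv_eq_iff_eq_mul, mul_inv_eq_iff_eq_mul] at this
      rw [this, mul_assoc]
    · intro i j k l hij hkl hjk hil a b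
      rw [hz hij, hz hkl, Prod.mk_mul_mk, Prod.mk_mul_mk, R.cm hij hkl hjk hil]
      congr 1
      exact (tv_comm hij hkl hjk hil a b).eq
  let S : Set P := {g | ∃ i j, i ≠ j ∧ ∃ b, z i j b = g}
  let Λ := closure S
  let y' : ι → ι → F → Λ := fun i j a => if h : i ≠ j then ⟨z i j a, Subgroup.subset_closure ⟨i, j, h, a, rfl⟩⟩ else 1
  have hy' : ∀ {i j : ι} (h : i ≠ j) (a : F), ((y' i j a : Λ) : P) = z i j a := by
    intro i j h a
    simp only [y', dif_pos h]
  have R' : Mult.SR y' := by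
    refine ⟨?_, ?_, ?_⟩
    · intro i j hij a b
      apply Subtype.ext
      rw [Subgroup.coe_mul, hy' hij, hy' hij, hy' hij, Rz.add hij]
    · intro i j k hij hjk hik a b
      apply Subtype.ext
      simp only [Subgroup.coe_mul, hy' hij, hy' hjk, hy' hik]
      exact Rz.com hij hjk hik a b
    · intro i j k l hij hkl hjk hil a b
      apply Subtype.ext
      simp only [Subgroup.coe_mul, hy' hij, hy' hkl]
      exact Rz.cm hij hkl hjk hil a b
  have hgen : closure {g : Λ | ∃ i j, i ≠ j ∧ ∃ b, y' i j b = g} = ⊤ := by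
    have e : {g : Λ | ∃ i j, i ≠ j ∧ ∃ b, y' i j b = g} = ((↑) : Λ → P) ⁻¹' S := by
      ext g
      constructor
      · rintro ⟨i, j, hij, b, rfl⟩
        exact ⟨i, j, hij, b, (hy' hij b).symm⟩
      · rintro ⟨i, j, hij, b, hb⟩
        exact ⟨i, j, hij, b, Subtype.ext (by rw [hy' hij, hb])⟩
    rw [e]
    exact closure_closure_coe_preimage
  let σ : Λ →* Matrix.SpecialLinearGroup ι F := (MonoidHom.fst _ _).comp Λ.subtype
  have hσ : Function.Bijective σ := Stb.sl_bijective' h3 R' hgen σ (by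
    intro i j h a
    change (((y' i j a : Λ) : P)).1 = _
    rw [hy' h, hz h])
  let E := MulEquiv.ofBijective σ hσ
  refine ⟨((MonoidHom.snd _ _).comp Λ.subtype).comp E.symm.toMonoidHom, ?_⟩
  intro i j h a
  have e1 : E.symm (tvl h a) = y' i j a := by
    rw [MulEquiv.symm_apply_eq]
    change _ = (((y' i j a : Λ) : P)).1
    rw [hy' h, hz h]
  change (((E.symm (tvl h a) : Λ) : P)).2 = _
  rw [e1, hy' h, hz h]

end hom

section levi
variable {F : Type v} {V : Type*} [Field F] [AddCommGroup V] [Module F V] {Q : QuadraticForm F V} {n : ℕ}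
  {e f : Fin (n + 3) → V}

open Classical in
/-- total version -/
noncomputable def yr {k : ℕ} {e f : Fin k → V} (h : Hyp Q e f) (i j : Fin k) (c : F) : OGrp Q :=
  if hij : i ≠ j then xr h hij c else 1

theorem yr_eq {k : ℕ} {e f : Fin k → V} (h : Hyp Q e f) {i j : Fin k} (hij : i ≠ j) (c : F) : yr h i j c = xr h hij c :=
  dif_pos hij

theorem sr_yr {k : ℕ} {e f : Fin k → V} (h : Hyp Q e f) : Mult.SR (yr h) where
  add := by
    intro i j hij a b
    rw [yr_eq h hij, yr_eq h hij, yr_eq h hij, xr, xr, xr, eich_mul]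
    exact eich_congr rfl (add_smul _ _ _)
  com := by
    intro i j k hij hjk hik a b
    rw [yr_eq h hij, yr_eq h hjk, yr_eq h hik]
    refine OGrp_ext fun x => ?_
    simp only [coe_mul_apply, xr_apply, pal, pdl, psl, h.ee, h.ff, h.ef, h.fe, if_neg hij, if_neg hij.symm, if_neg hjk,
      if_neg hjk.symm, if_neg hik, if_neg hik.symm, if_true]
    module
  cm := by
    intro i j k l hij hkl hjk hil a b
    rw [yr_eq h hij, yr_eq h hkl]
    refine OGrp_ext fun x => ?_
    simp only [coe_mul_apply, xr_apply, pal, pdl, psl, h.ee, h.ff, h.ef, h.fe, if_neg hij, if_neg hij.symm, if_neg hjk,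
      if_neg hjk.symm, if_neg hil, if_neg hil.symm, if_neg hkl, if_neg hkl.symm, if_true]
    module

theorem exists_rho [Finite F] (h : Hyp Q e f) : ∃ ρ : Matrix.SpecialLinearGroup (Fin (n + 3)) F →* OGrp Q,
    ∀ (i j : Fin (n + 3)) (hij : i ≠ j) (a : F), ρ (tvl hij a) = xr h hij a := by
  obtain ⟨ρ, hρ⟩ := exists_sl_hom (by rw [Fintype.card_fin]; omega) (sr_yr h)
  exact ⟨ρ, fun i j hij a => by rw [hρ, yr_eq h hij]⟩

theorem hm_word (a : Fˣ) : hm a = xm (a : F) * ym (-(a : F)⁻¹) * xm (a : F) *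
    (xm (-1) * ym (-(-1 : F)⁻¹) * xm (-1)) := by
  apply Subtype.ext
  simp only [Matrix.SpecialLinearGroup.coe_mul]
  change !![(a : F), 0; 0, ((a⁻¹ : Fˣ) : F)] = !![1, (a : F); 0, 1] * !![1, 0; -(a : F)⁻¹, 1] * !![1, (a : F); 0, 1] *
    (!![1, -1; 0, 1] * !![1, 0; -(-1 : F)⁻¹, 1] * !![1, -1; 0, 1])
  have ha : (a : F) ≠ 0 := a.ne_zero
  ext i j
  fin_cases i <;> fin_cases j <;> simp [Matrix.mul_apply, Fin.sum_univ_two, ha]

theorem rho_hm {ρ : Matrix.SpecialLinearGroup (Fin (n + 3)) F →* OGrp Q} {h : Hyp Q e f}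
    (hρ : ∀ (i j : Fin (n + 3)) (hij : i ≠ j) (a : F), ρ (tvl hij a) = xr h hij a) {i j : Fin (n + 3)} (hij : i ≠ j)
    (a : Fˣ) : ρ (emb2 hij (hm a)) = dr h hij a := by
  rw [hm_word]
  simp only [map_mul, emb2_xm, emb2_ym, hρ]
  rfl

end levi

end Cfsg.Agent.GK.Or
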