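import Cfsg.Agent.GK.Om2
import Cfsg.Agent.GK.Or2
import Cfsg.Agent.Stb.OUniv

/-!
The relations of type `D_n` hold in the orthogonal group.
-/

set_option autoImplicit false
set_option linter.unusedSectionVars false
set_option linter.unusedVariables false

namespace Cfsg.Agent.GK.Om

open Subgroup
open Cfsg.Agent.Stb (OR OA OF eh wh eh_fst eh_snd oy_ee hrho_mul nl hl cc nl_act vec_eq)
open scoped commutatorElement

attribute [local instance] Stb.sumNeg

section frame
variable {l : Type} {F W Γ : Type*} [Fintype l] [DecidableEq l] [Field F] [AddCommGroup W] [Module F W] [Group Γ] [Subsingleton W]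
variable {q0 : W → F} {B0 : W → W → F} {y : l ⊕ l → l ⊕ l → F → Γ} {z : l ⊕ l → W → Γ}
variable {ρ : Γ →* (((l ⊕ l → F) × W) ≃ₗ[F] ((l ⊕ l → F) × W))}

omit [Fintype l] in
theorem lin_ext [Fintype l] {f g : ((l ⊕ l → F) × W) ≃ₗ[F] ((l ⊕ l → F) × W)} (h : ∀ p, f (eh p) = g (eh p)) : f = g := by
  apply LinearEquiv.ext
  intro v
  have hv : v = ∑ p, v.1 p • (eh p : (l ⊕ l → F) × W) := by
    refine Prod.ext ?_ (Subsingleton.elim _ _)
    funext q
    rw [Prod.fst_sum, Finset.sum_apply, Finset.sum_eq_single q]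
    · rw [Prod.smul_fst, Pi.smul_apply, eh_fst, if_pos rfl, smul_eq_mul, mul_one]
    · intro p _ hp
      rw [Prod.smul_fst, Pi.smul_apply, eh_fst, if_neg (Ne.symm hp), smul_eq_mul, mul_zero]
    · intro h; exact absurd (Finset.mem_univ _) h
  rw [hv, map_sum, map_sum]
  refine Finset.sum_congr rfl fun p _ => ?_
  rw [map_smul, map_smul, h]

/-- the action on the frame -/
def Fr (ρ : Γ →* (((l ⊕ l → F) × W) ≃ₗ[F] ((l ⊕ l → F) × W))) (g : Γ) (π : l ⊕ l → l ⊕ l) : Prop :=
  ∀ p, ρ g (eh p) = eh (π p)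

theorem Fr.mul {g g' : Γ} {π π' : l ⊕ l → l ⊕ l} (h : Fr ρ g π) (h' : Fr ρ g' π') : Fr ρ (g * g') (π ∘ π') := by
  intro p
  rw [hrho_mul, h' p, h]; rfl

theorem Fr.uniq {g g' : Γ} {π π' : l ⊕ l → l ⊕ l} (h : Fr ρ g π) (h' : Fr ρ g' π') (e : ∀ p, π p = π' p) : ρ g = ρ g' :=
  lin_ext fun p => by rw [h p, h' p, e]

theorem Fr.inv {g : Γ} {π π' : l ⊕ l → l ⊕ l} (h : Fr ρ g π) (e : ∀ p, π (π' p) = p) : Fr ρ g⁻¹ π' := by
  intro p
  have h1 := h (π' p)
  rw [e] at h1
  rw [← h1, ← hrho_mul, inv_mul_cancel, map_one]; rfl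

theorem Fr.conj (R : OR q0 B0 y z) (A : OA q0 B0 y z ρ) {g : Γ} {π : l ⊕ l → l ⊕ l} (h : Fr ρ g π) (hn : ∀ p, π (-p) = -(π p))
    (hi : Function.Injective π) {p q : l ⊕ l} (h1 : p ≠ q) (h2 : p ≠ -q) (a : F) :
    ρ (g * y p q a * g⁻¹) = ρ (y (π p) (π q) a) := by
  have key : ρ (g * y p q a) = ρ (y (π p) (π q) a * g) := by
    apply lin_ext
    intro r
    have n1 : π p ≠ π q := fun e => h1 (hi e)
    have n2 : π p ≠ -(π q) := fun e => h2 (hi (by rw [e, hn]))
    rw [hrho_mul, hrho_mul, oy_ee R A h1 h2, h r, oy_ee R A n1 n2, map_sub, map_add, map_smul, map_smul, h r, h p, h q]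
    have e1 : (π r = -(π q)) ↔ (r = -q) := by rw [← hn]; exact hi.eq_iff
    have e2 : (π r = -(π p)) ↔ (r = -p) := by rw [← hn]; exact hi.eq_iff
    simp only [e1, e2]
  rw [map_mul, key, ← map_mul]
  congr 1
  group

/-- the frame map of a permutation -/
def pf (g : Equiv.Perm l) : l ⊕ l → l ⊕ l := Sum.map g g

/-- the frame map of a sign change -/
def ff (i j : l) (p : l ⊕ l) : l ⊕ l := sk i (sk j p)

omit [Fintype l] [DecidableEq l] in
theorem pf_neg (g : Equiv.Perm l) (p : l ⊕ l) : pf g (-p) = -(pf g p) := by rcases p with p | p <;> rfl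

omit [Fintype l] [DecidableEq l] in
theorem pf_inj (g : Equiv.Perm l) : Function.Injective (pf g) := Sum.map_injective.2 ⟨g.injective, g.injective⟩

omit [Fintype l] in
theorem ff_neg (i j : l) (p : l ⊕ l) : ff i j (-p) = -(ff i j p) := by rw [ff, sk_neg, sk_neg]; rfl

omit [Fintype l] in
theorem ff_inj (i j : l) : Function.Injective (ff i j) := (sk_inj i).comp (sk_inj j)

omit [Fintype l] in
theorem sk_comm (i j : l) (p : l ⊕ l) : sk i (sk j p) = sk j (sk i p) := by
  by_cases hij : i = j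
  · rw [hij]
  · by_cases h1 : i = ab p
    · have h2 : j ≠ ab p := fun e => hij (h1.trans e.symm)
      rw [sk_ne h2, sk_ne (i := j) (by rw [ab_sk]; exact h2)]
    · rw [sk_ne h1, sk_ne (i := i) (by rw [ab_sk]; exact h1)]

omit [Fintype l] in
theorem pf_sk (g : Equiv.Perm l) (i : l) (p : l ⊕ l) : pf g (sk i p) = sk (g i) (pf g p) := by
  have e : ab (pf g p) = g (ab p) := by rcases p with p | p <;> rfl
  unfold sk
  rw [e]
  by_cases h : ab p = i
  · rw [if_pos h, if_pos (by rw [h]), pf_neg]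
  · rw [if_neg h, if_neg (fun e => h (g.injective e))]

omit [Fintype l] in
theorem pf_ff (g : Equiv.Perm l) (i j : l) (p : l ⊕ l) : pf g (ff i j p) = ff (g i) (g j) (pf g p) := by
  unfold ff; rw [pf_sk, pf_sk]

/-- the element changing two signs -/
def sh (y : l ⊕ l → l ⊕ l → F → Γ) (a b : l) : Γ :=
  nl y (Sum.inl a) (Sum.inl b) 1 * nl y (Sum.inl a) (Sum.inr b) (-1)

theorem Fr_sh (O : OF q0 B0) (R : OR q0 B0 y z) (A : OA q0 B0 y z ρ) {a b : l} (hab : a ≠ b) : Fr ρ (sh y a b) (ff a b) := by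
  have n1 : (Sum.inl a : l ⊕ l) ≠ Sum.inl b := fun e => hab (Sum.inl_injective e)
  have n2 : (Sum.inl a : l ⊕ l) ≠ -(Sum.inl b) := Sum.inl_ne_inr
  have n3 : (Sum.inl a : l ⊕ l) ≠ Sum.inr b := Sum.inl_ne_inr
  have n4 : (Sum.inl a : l ⊕ l) ≠ -(Sum.inr b) := n1
  obtain ⟨a1, a2, a3, a4, a5, -⟩ := nl_act O R A n1 n2 (one_ne_zero (α := F))
  obtain ⟨b1, b2, b3, b4, b5, -⟩ := nl_act O R A n3 n4 (neg_ne_zero.2 (one_ne_zero (α := F)))
  have ea : -(Sum.inl a : l ⊕ l) = Sum.inr a := rfl
  have eb : -(Sum.inl b : l ⊕ l) = Sum.inr b := rfl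
  have eb' : -(Sum.inr b : l ⊕ l) = Sum.inl b := rfl
  rw [inv_one] at a1 a3
  rw [inv_neg, inv_one] at b1 b3
  rw [neg_neg, one_smul] at b1 b4
  rw [eb] at a1 a2
  rw [ea] at a3 a4 b3 b4
  rw [eb'] at b1 b2
  intro p
  unfold sh
  rw [hrho_mul]
  rcases p with i | i
  · by_cases h1 : i = a
    · subst h1
      have : ff i b (Sum.inl i) = Sum.inr i := by unfold ff; rw [sk_l' hab.symm, sk_l]
      rw [this, b1, a3, one_smul]
    · by_cases h2 : i = b
      · subst h2
        have : ff a i (Sum.inl i) = Sum.inr i := by unfold ff; rw [sk_l, sk_r' hab]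
        rw [this, b2, map_smul, a1, smul_smul]
        simp
      · have : ff a b (Sum.inl i) = Sum.inl i := by unfold ff; rw [sk_l' (Ne.symm h2), sk_l' (Ne.symm h1)]
        rw [this, b5 _ (fun e => h1 (Sum.inl_injective e)) Sum.inl_ne_inr Sum.inl_ne_inr (fun e => h2 (Sum.inl_injective e)),
          a5 _ (fun e => h1 (Sum.inl_injective e)) (fun e => h2 (Sum.inl_injective e)) Sum.inl_ne_inr Sum.inl_ne_inr]
  · by_cases h1 : i = a
    · subst h1
      have : ff i b (Sum.inr i) = Sum.inl i := by unfold ff; rw [sk_r' hab.symm, sk_r]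
      rw [this, b4, a2, one_smul]
    · by_cases h2 : i = b
      · subst h2
        have : ff a i (Sum.inr i) = Sum.inl i := by unfold ff; rw [sk_r, sk_l' hab]
        rw [this, b3, map_smul, a4, smul_smul]
        simp
      · have : ff a b (Sum.inr i) = Sum.inr i := by unfold ff; rw [sk_r' (Ne.symm h2), sk_r' (Ne.symm h1)]
        rw [this, b5 _ Sum.inr_ne_inl (fun e => h2 (Sum.inr_injective e)) (fun e => h1 (Sum.inr_injective e)) Sum.inr_ne_inl,
          a5 _ Sum.inr_ne_inl Sum.inr_ne_inl (fun e => h1 (Sum.inr_injective e)) (fun e => h2 (Sum.inr_injective e))]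

/-- a homomorphism from `SL_n` and its action -/
theorem Mon_act (R : OR q0 B0 y z) (A : OA q0 B0 y z ρ) {σ : Matrix.SpecialLinearGroup l F →* Γ}
    (hσ : ∀ (i j : l) (h : i ≠ j) (a : F), σ (tvl h a) = y (Sum.inl i) (Sum.inr j) a) (M : Matrix.SpecialLinearGroup l F) :
    (∀ j, ρ (σ M) (eh (Sum.inl j)) = ∑ i, (M : Matrix l l F) i j • (eh (Sum.inl i) : (l ⊕ l → F) × W)) ∧
    (∀ j, ρ (σ M) (eh (Sum.inr j)) = ∑ i, ((M⁻¹ : Matrix.SpecialLinearGroup l F) : Matrix l l F) j i •
      (eh (Sum.inr i) : (l ⊕ l → F) × W)) := by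
  -- the two linear maps
  let E : (l → F) → (l ⊕ l → F) × W := fun v => ∑ i, v i • (eh (Sum.inl i) : (l ⊕ l → F) × W)
  let E' : (l → F) → (l ⊕ l → F) × W := fun v => ∑ i, v i • (eh (Sum.inr i) : (l ⊕ l → F) × W)
  have Es : ∀ j, E (Pi.single j 1) = eh (Sum.inl j) := by
    intro j
    change ∑ i, (Pi.single j (1 : F) : l → F) i • (eh (Sum.inl i) : (l ⊕ l → F) × W) = _
    rw [Finset.sum_eq_single j]
    · rw [Pi.single_eq_same, one_smul]
    · intro i _ hi; rw [Pi.single_eq_of_ne hi, zero_smul]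
    · intro h; exact absurd (Finset.mem_univ _) h
  have Es' : ∀ j, E' (Pi.single j 1) = eh (Sum.inr j) := by
    intro j
    change ∑ i, (Pi.single j (1 : F) : l → F) i • (eh (Sum.inr i) : (l ⊕ l → F) × W) = _
    rw [Finset.sum_eq_single j]
    · rw [Pi.single_eq_same, one_smul]
    · intro i _ hi; rw [Pi.single_eq_of_ne hi, zero_smul]
    · intro h; exact absurd (Finset.mem_univ _) h
  let K : Subgroup (Matrix.SpecialLinearGroup l F) :=
    { carrier := {M | (∀ v, ρ (σ M) (E v) = E ((M : Matrix l l F).mulVec v)) ∧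
        ∀ v, ρ (σ M) (E' v) = E' (((M⁻¹ : Matrix.SpecialLinearGroup l F) : Matrix l l F).transpose.mulVec v)}
      one_mem' := by
        constructor
        · intro v; rw [map_one, map_one, Matrix.SpecialLinearGroup.coe_one, Matrix.one_mulVec]; rfl
        · intro v; rw [map_one, map_one, inv_one, Matrix.SpecialLinearGroup.coe_one, Matrix.transpose_one, Matrix.one_mulVec]; rfl
      mul_mem' := by
        rintro M N ⟨h1, h2⟩ ⟨h3, h4⟩
        constructor
        · intro v
          rw [map_mul, hrho_mul, h3, h1, Matrix.mulVec_mulVec, Matrix.SpecialLinearGroup.coe_mul]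
        · intro v
          rw [map_mul, hrho_mul, h4, h2, Matrix.mulVec_mulVec, mul_inv_rev, Matrix.SpecialLinearGroup.coe_mul, Matrix.transpose_mul]
      inv_mem' := by
        rintro M ⟨h1, h2⟩
        have hl : ∀ v, ρ (σ M⁻¹) (ρ (σ M) v) = v := by
          intro v; rw [← hrho_mul, ← map_mul, inv_mul_cancel, map_one, map_one]; rfl
        constructor
        · intro v
          have := h1 (((M⁻¹ : Matrix.SpecialLinearGroup l F) : Matrix l l F).mulVec v)
          rw [Matrix.mulVec_mulVec, ← Matrix.SpecialLinearGroup.coe_mul, mul_inv_cancel, Matrix.SpecialLinearGroup.coe_one,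
            Matrix.one_mulVec] at this
          rw [← this, hl]
        · intro v
          have := h2 ((M : Matrix l l F).transpose.mulVec v)
          rw [Matrix.mulVec_mulVec, ← Matrix.transpose_mul, ← Matrix.SpecialLinearGroup.coe_mul, mul_inv_cancel,
            Matrix.SpecialLinearGroup.coe_one, Matrix.transpose_one, Matrix.one_mulVec] at this
          rw [← this, hl, inv_inv] }
  have hK : K = ⊤ := by
    apply H40.sl_eq_top_of_transvections
    intro i j hij a
    have hi : (Sum.inl i : l ⊕ l) ≠ Sum.inr j := Sum.inl_ne_inr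
    have hj : (Sum.inl i : l ⊕ l) ≠ -(Sum.inr j) := fun e => hij (Sum.inl_injective e)
    have ei : -(Sum.inl i : l ⊕ l) = Sum.inr i := rfl
    have ej : -(Sum.inr j : l ⊕ l) = Sum.inl j := rfl
    change (∀ v, ρ (σ (tvl hij a)) (E v) = E ((Matrix.transvection i j a).mulVec v)) ∧
      ∀ v, ρ (σ (tvl hij a)) (E' v) = E' ((((tvl hij a)⁻¹ : Matrix.SpecialLinearGroup l F) : Matrix l l F).transpose.mulVec v)
    rw [← tvl_neg, tvl_coe, hσ]
    have m1 : ∀ v : l → F, (Matrix.transvection i j a).mulVec v = v + (a * v j) • Pi.single i 1 := by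
      intro v
      rw [Matrix.transvection, Matrix.add_mulVec, Matrix.one_mulVec, Matrix.single_mulVec]
      congr 1
      ext x
      by_cases hx : x = i
      · subst hx; simp
      · simp [hx]
    have m2 : ∀ v : l → F, (Matrix.transvection i j (-a)).transpose.mulVec v = v - (a * v i) • Pi.single j 1 := by
      intro v
      rw [Matrix.transvection, Matrix.transpose_add, Matrix.transpose_one, Matrix.transpose_single, Matrix.add_mulVec,
        Matrix.one_mulVec, Matrix.single_mulVec, sub_eq_add_neg]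
      congr 1
      ext x
      by_cases hx : x = j
      · subst hx; simp
      · simp [hx]
    have Eadd : ∀ v w : l → F, E (v + w) = E v + E w := by
      intro v w
      change ∑ i, (v + w) i • _ = _
      simp only [Pi.add_apply, add_smul, Finset.sum_add_distrib]; rfl
    have Esmul : ∀ (c : F) (v : l → F), E (c • v) = c • E v := by
      intro c v
      change ∑ i, (c • v) i • _ = c • ∑ i, _
      rw [Finset.smul_sum]
      simp only [Pi.smul_apply, smul_eq_mul, mul_smul]
    have Eadd' : ∀ v w : l → F, E' (v - w) = E' v - E' w := by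
      intro v w
      change ∑ i, (v - w) i • _ = _
      simp only [Pi.sub_apply, sub_smul, Finset.sum_sub_distrib]; rfl
    have Esmul' : ∀ (c : F) (v : l → F), E' (c • v) = c • E' v := by
      intro c v
      change ∑ i, (c • v) i • _ = c • ∑ i, _
      rw [Finset.smul_sum]
      simp only [Pi.smul_apply, smul_eq_mul, mul_smul]
    constructor
    · intro v
      rw [m1, Eadd, Esmul, Es]
      change ρ _ (∑ k, v k • (eh (Sum.inl k) : (l ⊕ l → F) × W)) = _
      rw [map_sum]
      have : ∀ k, ρ (y (Sum.inl i) (Sum.inr j) a) (v k • (eh (Sum.inl k) : (l ⊕ l → F) × W)) =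
          v k • (eh (Sum.inl k) : (l ⊕ l → F) × W) + (if k = j then a * v k else 0) • eh (Sum.inl i) := by
        intro k
        rw [map_smul, oy_ee R A hi hj, ei, ej, if_neg (Sum.inl_ne_inr (a := k) (b := i)), zero_smul, sub_zero]
        by_cases hk : k = j
        · subst hk; rw [if_pos rfl, if_pos rfl, smul_add, smul_smul, mul_comm]
        · rw [if_neg (fun e => hk (Sum.inl_injective e)), if_neg hk, zero_smul, add_zero, add_zero]
      rw [Finset.sum_congr rfl (fun k _ => this k), Finset.sum_add_distrib, ← Finset.sum_smul, Finset.sum_ite_eq' Finset.univ j,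
        if_pos (Finset.mem_univ _)]
    · intro v
      rw [m2, Eadd', Esmul', Es']
      change ρ _ (∑ k, v k • (eh (Sum.inr k) : (l ⊕ l → F) × W)) = _
      rw [map_sum]
      have : ∀ k, ρ (y (Sum.inl i) (Sum.inr j) a) (v k • (eh (Sum.inr k) : (l ⊕ l → F) × W)) =
          v k • (eh (Sum.inr k) : (l ⊕ l → F) × W) - (if k = i then a * v k else 0) • eh (Sum.inr j) := by
        intro k
        rw [map_smul, oy_ee R A hi hj, ei, ej, if_neg (Sum.inr_ne_inl (a := j) (b := k)), zero_smul, add_zero]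
        by_cases hk : k = i
        · subst hk; rw [if_pos rfl, if_pos rfl, smul_sub, smul_smul, mul_comm]
        · rw [if_neg (fun e => hk (Sum.inr_injective e)), if_neg hk, zero_smul, sub_zero, sub_zero]
      rw [Finset.sum_congr rfl (fun k _ => this k), Finset.sum_sub_distrib, ← Finset.sum_smul, Finset.sum_ite_eq' Finset.univ i,
        if_pos (Finset.mem_univ _)]
  have hM : M ∈ K := by rw [hK]; exact mem_top _
  constructor
  · intro j
    rw [← Es j, hM.1]
    change ∑ i, _ = ∑ i, _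
    refine Finset.sum_congr rfl fun i _ => ?_
    rw [Matrix.mulVec_single_one]; rfl
  · intro j
    rw [← Es' j, hM.2]
    change ∑ i, _ = ∑ i, _
    refine Finset.sum_congr rfl fun i _ => ?_
    rw [Matrix.mulVec_single_one]; rfl

/-- permutation matrices -/
theorem Fr_PM (R : OR q0 B0 y z) (A : OA q0 B0 y z ρ) {σ : Matrix.SpecialLinearGroup l F →* Γ}
    (hσ : ∀ (i j : l) (h : i ≠ j) (a : F), σ (tvl h a) = y (Sum.inl i) (Sum.inr j) a) (g : alternatingGroup l) :
    Fr ρ (σ (PM g)) (pf (g : Equiv.Perm l)) := by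
  obtain ⟨h1, h2⟩ := Mon_act R A hσ (PM g)
  intro p
  rcases p with j | j
  · rw [h1]
    change _ = eh (Sum.inl ((g : Equiv.Perm l) j))
    rw [Finset.sum_eq_single ((g : Equiv.Perm l) j)]
    · rw [PM_coe, pmat_apply, if_pos rfl, one_smul]
    · intro i _ hi
      rw [PM_coe, pmat_apply, if_neg hi, zero_smul]
    · intro h; exact absurd (Finset.mem_univ _) h
  · rw [h2]
    change _ = eh (Sum.inr ((g : Equiv.Perm l) j))
    rw [Finset.sum_eq_single ((g : Equiv.Perm l) j)]
    · rw [← map_inv, PM_coe, pmat_apply, alt_inv_apply, if_pos (by simp), one_smul]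
    · intro i _ hi
      rw [← map_inv, PM_coe, pmat_apply, alt_inv_apply, if_neg, zero_smul]
      intro e
      apply hi
      rw [e]; simp
    · intro h; exact absurd (Finset.mem_univ _) h

end frame

end Cfsg.Agent.GK.Om
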