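import Cfsg.Agent.GK.Om3

/-!
The relations of type `D_n` hold in the orthogonal group.
-/

set_option autoImplicit false
set_option linter.unusedSectionVars false
set_option linter.unusedVariables false

namespace Cfsg.Agent.GK.Om

open Subgroup
open Cfsg.Agent.Stb (OR OA OF eh wh eh_fst eh_snd oy_ee hrho_mul nl hl cc nl_act vec_eq)
open scoped commutatorElement

attribute [local instance] Stb.sumNeg

universe v

section emb
variable {F : Type v} [Field F] {κ l : Type*} [Fintype κ] [DecidableEq κ] [Fintype l] [DecidableEq l]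

/-- matrices fixing all coordinates outside the range -/
theorem exists_emb (e : κ → l) (he : Function.Injective e) {M : Matrix.SpecialLinearGroup l F}
    (h : ∀ x, x ∉ Set.range e → Mo M x x 1) : ∃ A, M = emb e he A := by
  classical
  let E := embE e he
  have hx : ∀ y : ↥(Set.range e)ᶜ, Mo M (E (Sum.inr y)) (E (Sum.inr y)) 1 := by
    intro y
    apply h
    have : E (Sum.inr y) = y.1 := rfl
    rw [this]
    exact y.2
  let A0 : Matrix κ κ F := (M : Matrix l l F).submatrix e e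
  have hB : (M : Matrix l l F).submatrix E E = Matrix.fromBlocks A0 0 0 1 := by
    ext i j
    rcases i with i | i <;> rcases j with j | j
    · rfl
    · rw [Matrix.submatrix_apply, (hx j).1, if_neg (fun e => Sum.inl_ne_inr (E.injective e))]; rfl
    · rw [Matrix.submatrix_apply, (hx i).2, if_neg (fun e => Sum.inl_ne_inr (E.injective e))]; rfl
    · rw [Matrix.submatrix_apply, (hx j).1, Matrix.fromBlocks_apply₂₂, Matrix.one_apply]
      simp only [E.injective.eq_iff, Sum.inr.injEq, Units.val_one]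
  have hdet : A0.det = 1 := by
    have h1 : ((M : Matrix l l F).submatrix E E).det = 1 := by rw [Matrix.det_submatrix_equiv_self]; exact M.2
    rw [hB, Matrix.det_fromBlocks_zero₂₁, Matrix.det_one, mul_one] at h1
    exact h1
  refine ⟨⟨A0, hdet⟩, ?_⟩
  apply Subtype.ext
  ext x y
  by_cases hx : x ∈ Set.range e
  · by_cases hy : y ∈ Set.range e
    · obtain ⟨i, rfl⟩ := hx
      obtain ⟨j, rfl⟩ := hy
      exact (emb_apply e he ⟨A0, hdet⟩ i j).symm
    · refine Eq.trans ?_ (emb_apply_right e he ⟨A0, hdet⟩ hy x).symm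
      have := (h y hy).1 x
      simpa using this
  · refine Eq.trans ?_ (emb_apply_left e he ⟨A0, hdet⟩ hx y).symm
    have := (h x hx).2 y
    rw [Units.val_one] at this
    simp only [eq_comm (a := x)]
    exact this

/-- commuting with the embedded group -/
theorem comm_emb {Γ : Type*} [Group Γ] {ρ : Matrix.SpecialLinearGroup l F →* Γ} {s : Γ} (e : κ → l) (he : Function.Injective e)
    {M : Matrix.SpecialLinearGroup l F} (h : ∀ x, x ∉ Set.range e → Mo M x x 1)
    {S : Set (Matrix.SpecialLinearGroup κ F)} (hS : closure S = ⊤) (hs : ∀ A ∈ S, Commute s (ρ (emb e he A))) : Commute s (ρ M) := by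
  obtain ⟨A, rfl⟩ := exists_emb e he h
  have h1 : (centralizer {s}).comap (ρ.comp (emb e he)) = ⊤ := by
    rw [eq_top_iff, ← hS, closure_le]
    intro A hA
    rw [SetLike.mem_coe, mem_comap, mem_centralizer_singleton_iff]
    exact (hs A hA).symm.eq
  have h2 : A ∈ (centralizer {s}).comap (ρ.comp (emb e he)) := by rw [h1]; exact mem_top _
  rw [mem_comap, mem_centralizer_singleton_iff] at h2
  exact h2.symm

theorem ra_of_tv {Γ : Type*} [Group Γ] {ρ : Matrix.SpecialLinearGroup l F →* Γ} {s : Γ} {a b : l}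
    (hs : ∀ {k m : l} (hkm : k ≠ m), a ≠ k → a ≠ m → b ≠ k → b ≠ m → ∀ x : F, Commute s (ρ (tvl hkm x)))
    (M : Matrix.SpecialLinearGroup l F) (ha : Mo M a a 1) (hb : Mo M b b 1) : Commute s (ρ M) := by
  let e : {x : l // x ≠ a ∧ x ≠ b} → l := Subtype.val
  have he : Function.Injective e := Subtype.val_injective
  have h : ∀ x, x ∉ Set.range e → Mo M x x 1 := by
    intro x hx
    by_cases h1 : x = a
    · rw [h1]; exact ha
    · by_cases h2 : x = b
      · rw [h2]; exact hb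
      · exact absurd ⟨⟨x, h1, h2⟩, rfl⟩ hx
  refine comm_emb e he h (S := Set.univ) ?_ ?_
  · rw [eq_top_iff]; intro g _; exact subset_closure (Set.mem_univ g)
  · intro A _
    have h1 : (centralizer {s}).comap (ρ.comp (emb e he)) = ⊤ := by
      apply H40.sl_eq_top_of_transvections
      intro i j hij x
      rw [mem_comap, mem_centralizer_singleton_iff]
      change ρ (emb e he (tvl hij x)) * s = s * ρ (emb e he (tvl hij x))
      rw [emb_tv e he hij (fun h => hij (he h))]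
      exact (hs _ i.2.1.symm j.2.1.symm i.2.2.symm j.2.2.symm x).symm.eq
    have h2 : A ∈ (centralizer {s}).comap (ρ.comp (emb e he)) := by rw [h1]; exact mem_top _
    rw [mem_comap, mem_centralizer_singleton_iff] at h2
    exact h2.symm

end emb

section conc
variable {l : Type} {F W Γ G : Type*} [Fintype l] [DecidableEq l] [Field F] [AddCommGroup W] [Module F W] [Group Γ] [Subsingleton W]
variable {q0 : W → F} {B0 : W → W → F} {y : l ⊕ l → l ⊕ l → F → Γ} {z : l ⊕ l → W → Γ}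
variable {ρ : Γ →* (((l ⊕ l → F) × W) ≃ₗ[F] ((l ⊕ l → F) × W))} [Group G] {f : Γ →* G}

theorem f_eq (hf : ∀ x, f x = 1 ↔ ρ x = 1) {x x' : Γ} (h : ρ x = ρ x') : f x = f x' := by
  rw [← mul_inv_eq_one, ← map_inv, ← map_mul, hf, map_mul, map_inv, h, mul_inv_cancel]

theorem f_conj (R : OR q0 B0 y z) (A : OA q0 B0 y z ρ) (hf : ∀ x, f x = 1 ↔ ρ x = 1) {g : Γ} {π : l ⊕ l → l ⊕ l} (h : Fr ρ g π)
    (hn : ∀ p, π (-p) = -(π p)) (hi : Function.Injective π) {p q : l ⊕ l} (h1 : p ≠ q) (h2 : p ≠ -q) (a : F) :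
    f g * f (y p q a) * (f g)⁻¹ = f (y (π p) (π q) a) := by
  rw [← map_inv, ← map_mul, ← map_mul]
  exact f_eq hf (h.conj R A hn hi h1 h2 a)

/-- all sign changes -/
theorem exists_SS (R : OR q0 B0 y z) (A : OA q0 B0 y z ρ) {σ : Matrix.SpecialLinearGroup l F →* Γ}
    (hσ : ∀ (i j : l) (h : i ≠ j) (a : F), σ (tvl h a) = y (Sum.inl i) (Sum.inr j) a)
    (h4 : 4 ≤ Fintype.card l) {a b : l} {hab : a ≠ b} (H0 : RD0 (f.comp σ) (f (sh y a b)) hab)
    (hs : Fr ρ (sh y a b) (ff a b)) {i j : l} (hij : i ≠ j) :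
    ∃ x, SS (f.comp σ) (f (sh y a b)) a b i j = f x ∧ Fr ρ x (ff i j) := by
  obtain ⟨g, g1, g2⟩ := exists_alt2 h4 hab hij
  refine ⟨σ (PM g) * sh y a b * (σ (PM g))⁻¹, ?_, ?_⟩
  · rw [H0.SS_eq g g1 g2, map_mul, map_mul, map_inv]; rfl
  · have h1 := Fr_PM R A hσ g
    have h2 : Fr ρ (σ (PM g))⁻¹ (pf (g : Equiv.Perm l)⁻¹) := h1.inv (fun p => by
      rcases p with p | p
      · change Sum.inl ((g : Equiv.Perm l) ((g : Equiv.Perm l)⁻¹ p)) = _
        simp
      · change Sum.inr ((g : Equiv.Perm l) ((g : Equiv.Perm l)⁻¹ p)) = _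
        simp)
    have h3 := (h1.mul hs).mul h2
    intro p
    rw [h3 p]
    congr 1
    change pf g (ff a b (pf (g : Equiv.Perm l)⁻¹ p)) = _
    rw [pf_ff, g1, g2]
    congr 1
    rcases p with p | p
    · change Sum.inl ((g : Equiv.Perm l) ((g : Equiv.Perm l)⁻¹ p)) = _
      simp
    · change Sum.inr ((g : Equiv.Perm l) ((g : Equiv.Perm l)⁻¹ p)) = _
      simp

/-- the relations hold -/
theorem rd_conc (O : OF q0 B0) (R : OR q0 B0 y z) (A : OA q0 B0 y z ρ) {σ : Matrix.SpecialLinearGroup l F →* Γ}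
    (hσ : ∀ (i j : l) (h : i ≠ j) (a : F), σ (tvl h a) = y (Sum.inl i) (Sum.inr j) a) (hf : ∀ x, f x = 1 ↔ ρ x = 1)
    (h4 : 4 ≤ Fintype.card l)
    {a b c d : l} (hab : a ≠ b) (hcb : c ≠ b) (hcd : c ≠ d) (hac : a ≠ c) (had : a ≠ d) (hbd : b ≠ d) :
    RD (f.comp σ) (f (sh y a b)) hab hcb hcd := by
  have hs := Fr_sh O R A hab
  have nl1 : ∀ {i j : l}, i ≠ j → (Sum.inl i : l ⊕ l) ≠ -(Sum.inr j) := fun h e => h (Sum.inl_injective e)
  have nl2 : ∀ {i j : l}, i ≠ j → (Sum.inl i : l ⊕ l) ≠ (Sum.inl j) := fun h e => h (Sum.inl_injective e)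
  have nr2 : ∀ {i j : l}, i ≠ j → (Sum.inr i : l ⊕ l) ≠ (Sum.inr j) := fun h e => h (Sum.inr_injective e)
  have H0 : RD0 (f.comp σ) (f (sh y a b)) hab := by
    refine ⟨?_, ?_, ?_⟩
    · apply ra_of_tv
      intro k m hkm h1 h2 h3 h5 x
      have := f_conj R A hf hs (ff_neg a b) (ff_inj a b) (p := Sum.inl k) (q := Sum.inr m) Sum.inl_ne_inr (nl1 hkm) x
      have e1 : ff a b (Sum.inl k) = Sum.inl k := by unfold ff; rw [sk_l' h3, sk_l' h1]
      have e2 : ff a b (Sum.inr m) = Sum.inr m := by unfold ff; rw [sk_r' h5, sk_r' h2]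
      rw [e1, e2, ← hσ _ _ hkm] at this
      exact mul_inv_eq_iff_eq_mul.1 this
    · intro M
      have : (MulAut.conj (f (sh y a b))).toMonoidHom.comp ((f.comp σ).comp (emb2 hab)) =
          ((f.comp σ).comp (emb2 hab)).comp (MulAut.conj tm).toMonoidHom := by
        apply hom_ext_tv
        intro i j hij x
        have key : ∀ x : F, f (sh y a b) * f (σ (emb2 hab (xm x))) * (f (sh y a b))⁻¹ = f (σ (emb2 hab (tm * xm x * tm⁻¹))) := by
          intro x
          rw [tm_xm_ym, emb2_xm, emb2_ym, hσ, hσ, f_conj R A hf hs (ff_neg a b) (ff_inj a b) Sum.inl_ne_inr (nl1 hab)]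
          have e1 : ff a b (Sum.inl a) = Sum.inr a := by unfold ff; rw [sk_l' hab.symm, sk_l]
          have e2 : ff a b (Sum.inr b) = Sum.inl b := by unfold ff; rw [sk_r, sk_l' hab]
          rw [e1, e2, R.symm Sum.inr_ne_inl (nr2 hab)]
        have key' : ∀ x : F, f (sh y a b) * f (σ (emb2 hab (ym x))) * (f (sh y a b))⁻¹ = f (σ (emb2 hab (tm * ym x * tm⁻¹))) := by
          intro x
          rw [tm_ym_xm, emb2_xm, emb2_ym, hσ, hσ, f_conj R A hf hs (ff_neg a b) (ff_inj a b) Sum.inl_ne_inr (nl1 hab.symm)]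
          have e1 : ff a b (Sum.inl b) = Sum.inr b := by unfold ff; rw [sk_l, sk_r' hab]
          have e2 : ff a b (Sum.inr a) = Sum.inl a := by unfold ff; rw [sk_r' hab.symm, sk_r]
          rw [e1, e2, R.symm Sum.inr_ne_inl (nr2 hab.symm)]
        fin_cases i <;> fin_cases j
        · exact absurd rfl hij
        · change f (sh y a b) * f (σ (emb2 hab (tvl _ x))) * (f (sh y a b))⁻¹ = f (σ (emb2 hab (tm * tvl _ x * tm⁻¹)))
          rw [show (tvl hij x : Matrix.SpecialLinearGroup (Fin 2) F) = xm x from (xm_tvl x).symm]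
          exact key x
        · change f (sh y a b) * f (σ (emb2 hab (tvl _ x))) * (f (sh y a b))⁻¹ = f (σ (emb2 hab (tm * tvl _ x * tm⁻¹)))
          rw [show (tvl hij x : Matrix.SpecialLinearGroup (Fin 2) F) = ym x from (ym_tvl x).symm]
          exact key' x
        · exact absurd rfl hij
      exact DFunLike.congr_fun this M
    · intro g g1 g2
      change f (sh y a b) * f (σ (PM g)) = f (σ (PM g)) * f (sh y a b)
      rw [← map_mul, ← map_mul]
      apply f_eq hf
      refine (hs.mul (Fr_PM R A hσ g)).uniq ((Fr_PM R A hσ g).mul hs) fun p => ?_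
      change ff a b (pf g p) = pf g (ff a b p)
      rw [pf_ff, g1, g2]
      exact sk_comm _ _ _
  have hSS : ∀ {i j : l}, i ≠ j → ∃ x, SS (f.comp σ) (f (sh y a b)) a b i j = f x ∧ Fr ρ x (ff i j) := fun hij =>
    exists_SS R A hσ h4 H0 hs hij
  refine ⟨⟨H0, ?_, ?_⟩, ?_, ?_⟩
  · obtain ⟨x, hx, fx⟩ := hSS hcb.symm
    obtain ⟨x', hx', fx'⟩ := hSS hac.symm
    rw [hx, hx', ← map_mul]
    apply f_eq hf
    refine (hs.mul fx).uniq fx' fun p => ?_
    change sk a (sk b (sk b (sk c p))) = sk c (sk a p)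
    rw [sk_sk, sk_comm]
  · rw [← map_mul, hf]
    apply lin_ext
    intro p
    rw [(hs.mul hs) p]
    change eh (sk a (sk b (sk a (sk b p)))) = eh p
    rw [sk_comm b a, sk_sk, sk_sk]
  · change Commute (f (σ (tvl hcb 1))) (f (sh y a b) * f (σ (tvl hcb 1)) * (f (sh y a b))⁻¹)
    rw [hσ, f_conj R A hf hs (ff_neg a b) (ff_inj a b) Sum.inl_ne_inr (nl1 hcb)]
    have e1 : ff a b (Sum.inl c) = Sum.inl c := by unfold ff; rw [sk_l' hcb.symm, sk_l' hac]
    have e2 : ff a b (Sum.inr b) = Sum.inl b := by unfold ff; rw [sk_r, sk_l' hab]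
    rw [e1, e2, R.symm (nl2 hcb) Sum.inl_ne_inr]
    have h1 := R.c2 (i := Sum.inl c) (j := Sum.inr b) Sum.inl_ne_inr (nl1 hcb) 1 (-1)
    have eb : -(Sum.inr b : l ⊕ l) = Sum.inl b := rfl
    rw [eb, commutatorElement_eq_one_iff_mul_comm] at h1
    exact (show Commute _ _ from h1).map f
  · obtain ⟨x, hx, fx⟩ := hSS had.symm
    change Commute (f (σ (tvl hab 1))) (SS (f.comp σ) (f (sh y a b)) a b d a * f (σ (tvl hcd 1)) * (SS (f.comp σ) (f (sh y a b)) a b d a)⁻¹)
    rw [hx, hσ, hσ, f_conj R A hf fx (ff_neg d a) (ff_inj d a) Sum.inl_ne_inr (nl1 hcd)]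
    have e1 : ff d a (Sum.inl c) = Sum.inl c := by unfold ff; rw [sk_l' hac, sk_l' hcd.symm]
    have e2 : ff d a (Sum.inr d) = Sum.inl d := by unfold ff; rw [sk_r' had, sk_r]
    rw [e1, e2]
    have h1 := R.c4 (i := Sum.inl a) (j := Sum.inr b) (k := Sum.inl c) (l := Sum.inl d) Sum.inl_ne_inr (nl1 hab)
      (nl2 hcd) Sum.inl_ne_inr Sum.inl_ne_inr (fun e => hcb (Sum.inl_injective e)) Sum.inl_ne_inr
      (fun e => hbd (Sum.inl_injective e).symm) 1 1
    rw [commutatorElement_eq_one_iff_mul_comm] at h1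
    exact (show Commute _ _ from h1).map f

end conc

end Cfsg.Agent.GK.Om
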