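import Cfsg.Agent.GK.Om4
import Cfsg.Agent.Stb.OTypeD

/-!
A group with the relations is the orthogonal group.
-/

set_option autoImplicit false
set_option linter.unusedSectionVars false
set_option linter.unusedVariables false

namespace Cfsg.Agent.GK.Om

open Subgroup
open Cfsg.Agent.Stb (OR OA OF OGen eh wh eh_fst eh_snd oy_ee hrho_mul nl hl cc nl_act vec_eq)
open scoped commutatorElement

attribute [local instance] Stb.sumNeg

universe v

section ss
variable {F : Type v} [Field F] {l : Type*} [Fintype l] [DecidableEq l] {Γ G : Type*} [Group Γ] [Group G]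

theorem map_SS (π : Γ →* G) (ρ : Matrix.SpecialLinearGroup l F →* Γ) (s : Γ) (a b i j : l) :
    π (SS ρ s a b i j) = SS (π.comp ρ) (π s) a b i j := by
  unfold SS
  split_ifs with h
  · rw [map_mul, map_mul, map_inv]; rfl
  · exact map_one π

end ss

section engine
variable {l : Type} {F W Γ Δ G : Type*} [Fintype l] [DecidableEq l] [Field F] [Fintype F] [AddCommGroup W] [Module F W] [Group Γ]
  [Subsingleton W]
variable {q0 : W → F} {B0 : W → W → F} {y : l ⊕ l → l ⊕ l → F → Γ} {z : l ⊕ l → W → Γ}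
variable {ρ : Γ →* (((l ⊕ l → F) × W) ≃ₗ[F] ((l ⊕ l → F) × W))} [Group G] {f : Γ →* G} [Group Δ]

theorem y_inv (R : OR q0 B0 y z) {i j : l ⊕ l} (h1 : i ≠ j) (h2 : i ≠ -j) (a : F) : (y i j a)⁻¹ = y i j (-a) := by
  rw [inv_eq_iff_mul_eq_one, ← R.add h1 h2, add_neg_cancel]
  have := R.add h1 h2 0 0
  rw [add_zero] at this
  exact mul_eq_left.1 this.symm

/-- the square of the element changing two signs -/
theorem sh_sq (O : OF q0 B0) (R : OR q0 B0 y z) (A : OA q0 B0 y z ρ) {a b : l} (hab : a ≠ b) :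
    sh y a b * sh y a b = cc y (Sum.inl a) (Sum.inl b) (-1) := by
  have nl1 : ∀ {i j : l}, i ≠ j → (Sum.inl i : l ⊕ l) ≠ -(Sum.inr j) := fun h e => h (Sum.inl_injective e)
  have nl2 : ∀ {i j : l}, i ≠ j → (Sum.inl i : l ⊕ l) ≠ (Sum.inl j) := fun h e => h (Sum.inl_injective e)
  have nr1 : ∀ {i j : l}, i ≠ j → (Sum.inr i : l ⊕ l) ≠ -(Sum.inl j) := fun h e => h (Sum.inr_injective e)
  have nr2 : ∀ {i j : l}, i ≠ j → (Sum.inr i : l ⊕ l) ≠ (Sum.inr j) := fun h e => h (Sum.inr_injective e)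
  have cm : ∀ {i j : l ⊕ l}, i ≠ j → i ≠ -j → ∀ x w, Commute (y i j x) (y (-j) i w) := by
    intro i j h1 h2 x w
    have := R.c2 h1 h2 x w
    rwa [commutatorElement_eq_one_iff_mul_comm] at this
  have ea : -(Sum.inl a : l ⊕ l) = Sum.inr a := rfl
  have eb : -(Sum.inl b : l ⊕ l) = Sum.inr b := rfl
  have ea' : -(Sum.inr a : l ⊕ l) = Sum.inl a := rfl
  have eb' : -(Sum.inr b : l ⊕ l) = Sum.inl b := rfl
  -- the four relations
  have c1 : ∀ x w, Commute (y (Sum.inl a) (Sum.inl b) x) (y (Sum.inl a) (Sum.inr b) w) := by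
    intro x w
    have := cm (i := Sum.inl a) (j := Sum.inl b) (nl2 hab) Sum.inl_ne_inr x (-w)
    rwa [eb, ← R.symm Sum.inl_ne_inr (nl1 hab)] at this
  have c2 : ∀ x w, Commute (y (Sum.inl a) (Sum.inl b) x) (y (Sum.inl b) (Sum.inr a) w) := by
    intro x w
    have := cm (i := Sum.inl b) (j := Sum.inl a) (nl2 hab.symm) Sum.inl_ne_inr (-x) (-w)
    rwa [ea, ← R.symm Sum.inl_ne_inr (nl1 hab.symm), ← R.symm (nl2 hab) Sum.inl_ne_inr] at this
  have c3 : ∀ x w, Commute (y (Sum.inr b) (Sum.inr a) x) (y (Sum.inl a) (Sum.inr b) w) := by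
    intro x w
    exact cm (i := Sum.inr b) (j := Sum.inr a) (nr2 hab.symm) Sum.inr_ne_inl x w
  have c4 : ∀ x w, Commute (y (Sum.inr b) (Sum.inr a) x) (y (Sum.inl b) (Sum.inr a) w) := by
    intro x w
    have := cm (i := Sum.inr a) (j := Sum.inr b) (nr2 hab) Sum.inr_ne_inl (-x) w
    rwa [eb', ← R.symm (nr2 hab.symm) Sum.inr_ne_inl] at this
  set P := nl y (Sum.inl a) (Sum.inl b) 1 with hP
  set N := nl y (Sum.inl a) (Sum.inr b) (-1) with hN
  have hPN : Commute P N := by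
    have k1 : ∀ x, Commute (y (Sum.inl a) (Sum.inl b) x) N := fun x => by
      rw [hN]; unfold nl
      rw [ea, eb']
      exact ((c1 _ _).mul_right (c2 _ _)).mul_right (c1 _ _)
    have k2 : ∀ x, Commute (y (Sum.inr b) (Sum.inr a) x) N := fun x => by
      rw [hN]; unfold nl
      rw [ea, eb']
      exact ((c3 _ _).mul_right (c4 _ _)).mul_right (c3 _ _)
    rw [hP]; unfold nl
    rw [ea, eb]
    exact ((k1 _).mul_left (k2 _)).mul_left (k1 _)
  have hm1 : (-1 : F) ≠ 0 := neg_ne_zero.2 one_ne_zero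
  have e1 : N * N = hl y (Sum.inl a) (-(Sum.inl b)) (-1) := rfl
  have e2 : P * P = hl y (-(Sum.inl a)) (-(Sum.inl b)) (-1) := by
    rw [Stb.hl_neg O R A (nl2 hab) Sum.inl_ne_inr hm1]
    have hinv : P⁻¹ = nl y (Sum.inl a) (Sum.inl b) (-1) := by
      rw [hP]; unfold nl
      rw [mul_inv_rev, mul_inv_rev, y_inv R (nl2 hab) Sum.inl_ne_inr, y_inv R (i := -(Sum.inl b)) (j := -(Sum.inl a)) (nr2 hab.symm) Sum.inr_ne_inl,
        inv_one, neg_neg, inv_neg, inv_one, neg_neg, mul_assoc]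
    have : hl y (Sum.inl a) (Sum.inl b) (-1) = P⁻¹ * P⁻¹ := by rw [hinv]; rfl
    rw [this]; simp
  change (P * N) * (P * N) = hl y (Sum.inl a) (-(Sum.inl b)) (-1) * hl y (-(Sum.inl a)) (-(Sum.inl b)) (-1)
  rw [← e1, ← e2]
  calc P * N * (P * N) = P * (N * P) * N := by group
    _ = P * (P * N) * N := by rw [hPN.eq]
    _ = (P * P) * (N * N) := by group
    _ = (N * N) * (P * P) := ((hPN.mul_left hPN).mul_right (hPN.mul_left hPN)).eq

/-- **A group with the relations is the orthogonal group.** -/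
theorem bij (O : OF q0 B0) (R : OR q0 B0 y z) (A : OA q0 B0 y z ρ) (hG : OGen q0 y z) {σ : Matrix.SpecialLinearGroup l F →* Γ}
    (hσ : ∀ (i j : l) (h : i ≠ j) (a : F), σ (tvl h a) = y (Sum.inl i) (Sum.inr j) a) (hf : ∀ x, f x = 1 ↔ ρ x = 1)
    (h4 : 4 ≤ Fintype.card l) {a b c d : l} {hab : a ≠ b} {hcb : c ≠ b} {hcd : c ≠ d} (hac : a ≠ c) (had : a ≠ d) (hbd : b ≠ d)
    (hk : ∀ g, ρ g = 1 → g = 1 ∨ g = cc y (Sum.inl a) (Sum.inl b) (-1)) (hfs : Function.Surjective f)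
    {μ : Matrix.SpecialLinearGroup l F →* Δ} {s : Δ} (H : RD μ s hab hcb hcd) (hgen : μ.range ⊔ zpowers s = ⊤)
    {π : Δ →* G} (hπ : ∀ M, π (μ M) = f (σ M)) (hπs : π s = f (sh y a b))
    (huniv : ∀ {y' : l ⊕ l → l ⊕ l → F → Δ} {z' : l ⊕ l → W → Δ}, OR q0 B0 y' z' →
      ∃ τ : Γ →* Δ, ∀ {i j}, i ≠ j → i ≠ -j → ∀ a, τ (y i j a) = y' i j a)
    (hq0 : q0 = fun _ => 0) (hB0 : B0 = fun _ _ => 0) : Function.Bijective π := by
  have hs := Fr_sh O R A hab
  have nl1 : ∀ {i j : l}, i ≠ j → (Sum.inl i : l ⊕ l) ≠ -(Sum.inr j) := fun h e => h (Sum.inl_injective e)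
  have ab_ne' : ∀ {p q : l ⊕ l}, ab p ≠ ab q → p ≠ q ∧ p ≠ -q := fun h => ⟨ne_of_ab h, ne_neg_of_ab h⟩
  obtain ⟨K, hK⟩ : ∃ K : l → l → l, ∀ i j, K i j ≠ i ∧ K i j ≠ j := by
    refine ⟨fun i j => (exists_out3 h4 i j i).choose, fun i j => ?_⟩
    have := (exists_out3 h4 i j i).choose_spec
    exact ⟨this.1, this.2.1⟩
  have D := H.dg h4 hac had hbd
  set T := RD.TT μ s a b with hT
  have TmulS : ∀ {i j : l}, i ≠ j → T i * T j = SS μ s a b i j := fun h => H.TT_mul h4 hac h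
  have OD : OR q0 B0 (yD μ T K) (fun _ _ => 1) := by
    rw [hq0, hB0]; exact D.orD hK h4 R.three
  obtain ⟨τ, hτ⟩ := huniv OD
  -- compatibility
  have H0 := (rd_conc O R A hσ hf h4 hab hcb hcd hac had hbd).toRD0
  have hπμ : π.comp μ = f.comp σ := MonoidHom.ext hπ
  have flip : ∀ {k m : l}, k ≠ m → ∀ {p q : l ⊕ l}, ab p ≠ ab q → (∀ x, π (yD μ T K p q x) = f (y p q x)) →
      ∀ x, π (yD μ T K (sk k (sk m p)) (sk k (sk m q)) x) = f (y (sk k (sk m p)) (sk k (sk m q)) x) := by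
    intro k m hkm p q hpq hyp x
    have h1 := D.act hK hkm hpq x
    have h2 := congrArg π h1
    rw [map_mul, map_mul, map_inv, TmulS hkm, hyp, map_SS, hπs, hπμ] at h2
    obtain ⟨w, hw, fw⟩ := exists_SS R A hσ h4 H0 hs hkm
    rw [hw, f_conj R A hf fw (ff_neg k m) (ff_inj k m) (ab_ne' hpq).1 (ab_ne' hpq).2] at h2
    exact h2.symm
  have comp : ∀ {p q : l ⊕ l}, ab p ≠ ab q → ∀ x, π (yD μ T K p q x) = f (y p q x) := by
    have base : ∀ {i j : l}, i ≠ j → ∀ x, π (yD μ T K (Sum.inl i) (Sum.inr j) x) = f (y (Sum.inl i) (Sum.inr j) x) := by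
      intro i j h x
      rw [D.y_lr h, hπ, hσ]
    intro p q hpq
    rcases p with i | i <;> rcases q with j | j
    · have h : i ≠ j := hpq
      obtain ⟨m, m1, m2, -⟩ := exists_out3 h4 i j i
      have := flip (k := j) (m := m) m2.symm (p := Sum.inl i) (q := Sum.inr j) h (base h)
      rwa [sk_l' m1, sk_l' h.symm, sk_r' m2, sk_r] at this
    · exact base hpq
    · have h : i ≠ j := hpq
      have := flip (k := i) (m := j) h (p := Sum.inl i) (q := Sum.inr j) h (base h)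
      rwa [sk_l' h.symm, sk_l, sk_r, sk_l' h] at this
    · have h : i ≠ j := hpq
      obtain ⟨m, m1, m2, -⟩ := exists_out3 h4 i j i
      have := flip (k := i) (m := m) m1.symm (p := Sum.inl i) (q := Sum.inr j) h (base h)
      rwa [sk_l' m1, sk_l, sk_r' m2, sk_r' h] at this
  have z_one : ∀ i w, z i w = 1 := by
    intro i w
    rw [Subsingleton.elim w 0]; exact R.z_zero i
  have gen_le : ∀ {L : Subgroup Γ}, (∀ {i j : l ⊕ l}, ab i ≠ ab j → ∀ x, y i j x ∈ L) → L = ⊤ := by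
    intro L hL
    unfold OGen at hG
    rw [eq_top_iff, ← hG]
    refine Stb.ogp_le R (fun i j h1 h2 x => hL (ab_ne h1 h2) x) (fun i w => ?_) O
    rw [z_one]; exact one_mem _
  have hcomp : ∀ t, π (τ t) = f t := by
    have : MonoidHom.eqLocus (π.comp τ) f = ⊤ := by
      apply gen_le
      intro i j hij x
      change π (τ (y i j x)) = f (y i j x)
      rw [hτ (ab_ne' hij).1 (ab_ne' hij).2, comp hij]
    intro t
    have ht : t ∈ MonoidHom.eqLocus (π.comp τ) f := by rw [this]; exact mem_top _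
    exact ht
  -- the image of `τ`
  have sS : s = SS μ s a b a b := H.SS_ab.symm
  have sT : s = T a * T b := by rw [TmulS hab]; exact sS
  have yN : ∀ {p q : l ⊕ l}, ab p ≠ ab q → ∀ x, yD μ T K p q x ∈ τ.range := fun h x =>
    ⟨y _ _ x, hτ (ab_ne' h).1 (ab_ne' h).2 x⟩
  have hs2 := H.r2
  have sinv : s⁻¹ = s := inv_eq_of_mul_eq_one_left hs2
  have normN : ∀ t, s * τ t * s⁻¹ ∈ τ.range := by
    have : (τ.range).comap ((MulAut.conj s).toMonoidHom.comp τ) = ⊤ := by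
      apply gen_le
      intro i j hij x
      change s * τ (y i j x) * s⁻¹ ∈ τ.range
      rw [hτ (ab_ne' hij).1 (ab_ne' hij).2, sT, D.act hK hab hij]
      exact yN (by rw [ab_sk, ab_sk, ab_sk, ab_sk]; exact hij) x
    intro t
    have ht : t ∈ (τ.range).comap ((MulAut.conj s).toMonoidHom.comp τ) := by rw [this]; exact mem_top _
    exact ht
  have μN : ∀ M, μ M ∈ τ.range := by
    have : (τ.range).comap μ = ⊤ := by
      apply H40.sl_eq_top_of_transvections
      intro i j hij x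
      change μ (tvl hij x) ∈ τ.range
      rw [← D.y_lr (K := K) hij]
      exact yN (p := Sum.inl i) (q := Sum.inr j) hij x
    intro M
    have hM : M ∈ (τ.range).comap μ := by rw [this]; exact mem_top _
    exact hM
  have sN : s ∈ τ.range := by
    obtain ⟨g, g1, g2⟩ := exists_alt2 h4 hab hcb.symm
    obtain ⟨g', g1', g2'⟩ := exists_alt2 h4 hab hac.symm
    have h1 := H.rd
    rw [H.SS_eq g g1 g2, H.SS_eq g' g1' g2'] at h1
    obtain ⟨u, hu⟩ := μN (PM g)
    obtain ⟨u', hu'⟩ := μN (PM g')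
    obtain ⟨w, hw⟩ := normN u
    obtain ⟨w', hw'⟩ := normN u'
    rw [hu, sinv] at hw
    rw [hu', sinv] at hw'
    -- `s * (U s U⁻¹) = U' s U'⁻¹`
    have e1 : s * (μ (PM g) * s * (μ (PM g))⁻¹) = τ w * τ u⁻¹ := by
      rw [hw, map_inv, hu]; group
    have e2 : μ (PM g') * s * (μ (PM g'))⁻¹ = s * (τ w' * τ u'⁻¹) := by
      rw [hw', map_inv, hu']
      calc μ (PM g') * s * (μ (PM g'))⁻¹ = (s * s) * (μ (PM g') * s * (μ (PM g'))⁻¹) := by rw [hs2, one_mul]
        _ = _ := by group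
    rw [e1, e2] at h1
    have : s = (τ w * τ u⁻¹) * (τ w' * τ u'⁻¹)⁻¹ := by rw [h1]; group
    rw [this]
    exact mul_mem (mul_mem ⟨w, rfl⟩ ⟨_, rfl⟩) (inv_mem (mul_mem ⟨w', rfl⟩ ⟨_, rfl⟩))
  have hτs : Function.Surjective τ := by
    rw [← MonoidHom.range_eq_top, eq_top_iff, ← hgen, sup_le_iff]
    refine ⟨?_, ?_⟩
    · rintro _ ⟨M, rfl⟩; exact μN M
    · rw [zpowers_le]; exact sN
  -- the central element
  set κ := cc y (Sum.inl a) (Sum.inl b) (-1) with hκ
  have n1 : (Sum.inl a : l ⊕ l) ≠ Sum.inl b := fun e => hab (Sum.inl_injective e)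
  have κρ : ρ κ = 1 := Stb.kap_rho O R A n1 Sum.inl_ne_inr
  have κsq : κ * κ = 1 := Stb.kap_sq O R A n1 Sum.inl_ne_inr
  have κc : κ ∈ center Γ := Stb.κ_central hk κρ
  have hκ1 : τ κ = 1 := by
    obtain ⟨t, ht⟩ := sN
    have h1 : f t = f (sh y a b) := by rw [← hcomp, ht, hπs]
    have h2 : f (t * (sh y a b)⁻¹) = 1 := by rw [map_mul, map_inv, h1, mul_inv_cancel]
    have h3 : t * t = κ := by
      rcases hk _ ((hf _).1 h2) with h | h
      · rw [mul_inv_eq_one.1 h, sh_sq O R A hab]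
      · rw [mul_inv_eq_iff_eq_mul] at h
        rw [h]
        have hc := mem_center_iff.1 κc (sh y a b)
        calc κ * sh y a b * (κ * sh y a b) = κ * (sh y a b * κ) * sh y a b := by group
          _ = κ * (κ * sh y a b) * sh y a b := by rw [hc]
          _ = (κ * κ) * (sh y a b * sh y a b) := by group
          _ = κ := by rw [κsq, one_mul, sh_sq O R A hab]
    rw [← h3, map_mul, ht, hs2]
  refine ⟨?_, ?_⟩
  · rw [injective_iff_map_eq_one]
    intro γ hγ
    obtain ⟨t, rfl⟩ := hτs γ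
    rw [hcomp] at hγ
    rcases hk _ ((hf _).1 hγ) with h | h
    · rw [h, map_one]
    · rw [h, hκ1]
  · intro g
    obtain ⟨t, rfl⟩ := hfs g
    exact ⟨τ t, hcomp t⟩

end engine

end Cfsg.Agent.GK.Om
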