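import Cfsg.Agent.ClassO.Main

/-!
Subgroups of orthogonal groups containing the Levi subgroup `SL_m`: filling up.
-/

set_option autoImplicit false
set_option linter.unusedSectionVars false
set_option linter.unusedVariables false
set_option linter.unusedSimpArgs false

namespace Cfsg.Agent.GK.Or

open Subgroup QuadraticMap Cfsg.Agent.Orth Cfsg.Agent.ClassO

section fill
variable {F V : Type*} [Field F] [AddCommGroup V] [Module F V] {Q : QuadraticForm F V}

theorem eich_flip {a b : V} (ha : Q a = 0) (hb : Q b = 0) (hab : polar Q a b = 0) :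
    eich Q a b ha hab = eich Q b (-a) hb (by rw [polar_neg_right, pc, hab, neg_zero]) := by
  refine OGrp_ext fun x => ?_
  rw [eich_apply, eich_apply]
  simp only [ha, hb, QuadraticMap.map_neg, polar_neg_right]
  module

/-- the additive group of all `w ⊥ a` with `eich a w ∈ H` -/
def Mg (H : Subgroup (OGrp Q)) {a : V} (ha : Q a = 0) : AddSubgroup V where
  carrier := {w | ∃ hw : polar Q a w = 0, eich Q a w ha hw ∈ H}
  zero_mem' := ⟨polar_zero_right Q a, by rw [eich_zero]; exact one_mem _⟩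
  add_mem' := by
    rintro x y ⟨hx, hx'⟩ ⟨hy, hy'⟩
    refine ⟨by rw [par, hx, hy, add_zero], ?_⟩
    rw [← eich_mul ha hx hy]
    exact mul_mem hx' hy'
  neg_mem' := by
    rintro x ⟨hx, hx'⟩
    refine ⟨by rw [polar_neg_right, hx, neg_zero], ?_⟩
    rw [← eich_inv ha hx]
    exact inv_mem hx'

theorem mem_Mg {H : Subgroup (OGrp Q)} {a : V} {ha : Q a = 0} {w : V} :
    w ∈ Mg H ha ↔ ∃ hw : polar Q a w = 0, eich Q a w ha hw ∈ H := Iff.rfl

theorem Mg_self (H : Subgroup (OGrp Q)) {a : V} (ha : Q a = 0) (c : F) : c • a ∈ Mg H ha := by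
  have h : polar Q a (c • a) = 0 := by rw [psr, pself, ha]; ring
  exact ⟨h, by rw [eich_self]; exact one_mem _⟩

theorem Mg_act {H : Subgroup (OGrp Q)} {a : V} {ha : Q a = 0} {w : V} (hw : w ∈ Mg H ha) {g : OGrp Q} (hg : g ∈ H)
    {c : F} (hga : (g : V ≃ₗ[F] V) a = c • a) : c • (g : V ≃ₗ[F] V) w ∈ Mg H ha := by
  obtain ⟨h1, h2⟩ := hw
  have h3 : g * eich Q a w ha h1 * g⁻¹ ∈ H := mul_mem (mul_mem hg h2) (inv_mem hg)
  have hca : Q (c • a) = 0 := by rw [qsmul, ha, mul_zero]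
  have h4 : polar Q (c • a) ((g : V ≃ₗ[F] V) w) = 0 := by rw [← hga, OGrp_polar, h1]
  have h5 : polar Q a (c • (g : V ≃ₗ[F] V) w) = 0 := by rw [psr, ← psl, h4]
  refine ⟨h5, ?_⟩
  rw [← eich_smul c ha hca h4 h5]
  rw [eich_conj] at h3
  rwa [eich_congr hga rfl] at h3

theorem Mg_act1 {H : Subgroup (OGrp Q)} {a : V} {ha : Q a = 0} {w : V} (hw : w ∈ Mg H ha) {g : OGrp Q} (hg : g ∈ H)
    (hga : (g : V ≃ₗ[F] V) a = a) : (g : V ≃ₗ[F] V) w ∈ Mg H ha := by
  have := Mg_act hw hg (c := 1) (by rw [hga, one_smul])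
  rwa [one_smul] at this

/-- once all root elements at one hyperbolic pair are in `H`, all are -/
theorem fill_final {H : Subgroup (OGrp Q)} (hQ : (polarBilin Q).Nondegenerate) {e0 f0 : V} (he : Q e0 = 0) (hf : Q f0 = 0)
    (hef : polar Q e0 f0 = 1) (h1 : ∀ w, polar Q e0 w = 0 → w ∈ Mg H he) (h2 : ∀ w, polar Q f0 w = 0 → w ∈ Mg H hf)
    {a : V} (ha : Q a = 0) : ∀ w, polar Q a w = 0 → w ∈ Mg H ha := by
  have hfe : polar Q f0 e0 = 1 := by rw [pc, hef]
  -- the first case, symmetric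
  have step : ∀ (e0 f0 : V) (he : Q e0 = 0) (hf : Q f0 = 0) (hef : polar Q e0 f0 = 1)
      (h1 : ∀ w, polar Q e0 w = 0 → w ∈ Mg H he) (h2 : ∀ w, polar Q f0 w = 0 → w ∈ Mg H hf)
      (a : V) (ha : Q a = 0) (h : polar Q a f0 ≠ 0), ∀ w, polar Q a w = 0 → w ∈ Mg H ha := by
    intro e0 f0 he hf hef h1 h2 a ha h w hw
    have hfe : polar Q f0 e0 = 1 := by rw [pc, hef]
    set α := polar Q a f0 with hα
    set β := polar Q a e0 with hβ
    set b := α⁻¹ • (a - α • e0 - β • f0) with hb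
    have hb0 : polar Q f0 b = 0 := by
      rw [hb, psr, pdr, pdr, psr, psr, pself, hf, hfe, pc Q f0 a, ← hα]; ring
    obtain ⟨hb1, hbH⟩ := h2 b hb0
    have hQa : Q a = 0 := ha
    -- image of a
    have hga : ∃ γ : F, (eich Q f0 b hf hb1 : V ≃ₗ[F] V) a = α • e0 + γ • f0 := by
      rw [eich_apply, ← hα]
      have e1 : α • b = a - α • e0 - β • f0 := by rw [hb, smul_smul, mul_inv_cancel₀ h, one_smul]
      refine ⟨polar Q a b + β - Q b * α, ?_⟩
      rw [e1]; module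
    obtain ⟨γ, hγ⟩ := hga
    have hγ0 : γ = 0 := by
      have h3 : Q ((eich Q f0 b hf hb1 : V ≃ₗ[F] V) a) = 0 := by rw [OGrp_q, ha]
      rw [hγ, qadd, qsmul, qsmul, psl, psr, he, hf, hef] at h3
      have h4 : α * γ = 0 := by linear_combination h3
      exact (mul_eq_zero.1 h4).resolve_left h
    rw [hγ0, zero_smul, add_zero] at hγ
    set g := eich Q f0 b hf hb1 with hg
    refine ⟨hw, ?_⟩
    have h5 : polar Q e0 (α • (g : V ≃ₗ[F] V) w) = 0 := by
      rw [psr, ← psl, ← hγ, OGrp_polar, hw]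
    obtain ⟨h6, h7⟩ := h1 _ h5
    have hca : Q (α • e0) = 0 := by rw [qsmul, he, mul_zero]
    have h8 : polar Q (α • e0) ((g : V ≃ₗ[F] V) w) = 0 := by rw [psl, ← psr, h5]
    rw [← eich_smul α he hca h8 h6] at h7
    have h9 : g * eich Q a w ha hw * g⁻¹ ∈ H := by
      rw [eich_conj, eich_congr hγ rfl]
      exact h7
    have h10 := mul_mem (mul_mem (inv_mem hbH) h9) hbH
    have e2 : g⁻¹ * (g * eich Q a w ha hw * g⁻¹) * g = eich Q a w ha hw := by group
    rwa [e2] at h10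
  by_cases h : polar Q a f0 = 0
  · by_cases h' : polar Q a e0 = 0
    · intro w hw
      by_cases ha0 : a = 0
      · subst ha0
        exact ⟨hw, by rw [eich_zero_left]; exact one_mem _⟩
      · obtain ⟨y, hy⟩ : ∃ y, polar Q a y ≠ 0 := by
          by_contra hcon
          push Not at hcon
          exact ha0 (hQ.1 a hcon)
        set b := y - polar Q y f0 • e0 - polar Q y e0 • f0 with hb
        have hb0 : polar Q e0 b = 0 := by
          rw [hb, pdr, pdr, psr, psr, pself, he, hef, pc Q e0 y]; ring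
        have hab : polar Q a b = polar Q a y := by
          rw [hb, pdr, pdr, psr, psr, h, h']; ring
        obtain ⟨hb1, hbH⟩ := h1 b hb0
        set g := eich Q e0 b he hb1 with hg
        have hga : Q ((g : V ≃ₗ[F] V) a) = 0 := by rw [OGrp_q, ha]
        have h3 : polar Q ((g : V ≃ₗ[F] V) a) f0 ≠ 0 := by
          rw [hg, eich_apply, h', hab]
          simp only [zero_smul, mul_zero, sub_zero, pal, psl, hef, h, mul_one, zero_add]
          exact hy
        have hgw : polar Q ((g : V ≃ₗ[F] V) a) ((g : V ≃ₗ[F] V) w) = 0 := by rw [OGrp_polar, hw]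
        obtain ⟨h4, h5⟩ := step e0 f0 he hf hef h1 h2 _ hga h3 _ hgw
        refine ⟨hw, ?_⟩
        have h9 : g * eich Q a w ha hw * g⁻¹ ∈ H := by
          rw [eich_conj]; exact h5
        have h10 := mul_mem (mul_mem (inv_mem hbH) h9) hbH
        have e2 : g⁻¹ * (g * eich Q a w ha hw * g⁻¹) * g = eich Q a w ha hw := by group
        rwa [e2] at h10
    · exact step f0 e0 hf he hfe h2 h1 a ha h'
  · exact step e0 f0 he hf hef h1 h2 a ha h

theorem EGrp_le_of_fill {H : Subgroup (OGrp Q)} (hQ : (polarBilin Q).Nondegenerate) {e0 f0 : V} (he : Q e0 = 0) (hf : Q f0 = 0)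
    (hef : polar Q e0 f0 = 1) (h1 : ∀ w, polar Q e0 w = 0 → w ∈ Mg H he) (h2 : ∀ w, polar Q f0 w = 0 → w ∈ Mg H hf) :
    EGrp Q ≤ H := by
  rw [EGrp, closure_le]
  rintro _ ⟨a, b, ha, hab, -, rfl⟩
  obtain ⟨_, h⟩ := fill_final hQ he hf hef h1 h2 ha b hab
  exact h

end fill

section levi
variable {F V : Type*} [Field F] [AddCommGroup V] [Module F V] {Q : QuadraticForm F V} {n : ℕ}
  {e f : Fin (n + 3) → V}

theorem _root_.Cfsg.Agent.ClassO.Hyp.symm' {k : ℕ} {e f : Fin k → V} (h : Hyp Q e f) : Hyp Q f e where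
  e0 := h.f0
  f0 := h.e0
  ee := h.ff
  ff := h.ee
  ef i j := h.fe i j

/-- `H` contains the root elements of the Levi subgroup -/
def Lv (H : Subgroup (OGrp Q)) {k : ℕ} {e f : Fin k → V} (h : Hyp Q e f) : Prop :=
  ∀ i j, i ≠ j → ∀ c : F, c • f j ∈ Mg H (h.e0 i)

theorem Lv.symm {H : Subgroup (OGrp Q)} {k : ℕ} {e f : Fin k → V} {h : Hyp Q e f} (L : Lv H h) : Lv H h.symm' := by
  intro i j hij c
  obtain ⟨h1, h2⟩ := L j i hij.symm (-c)
  have hc : Q (c • e j) = 0 := by rw [qsmul, h.e0, mul_zero]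
  have h3 : polar Q (f i) (c • e j) = 0 := by rw [psr, h.fe, if_neg hij, mul_zero]
  refine ⟨h3, ?_⟩
  rw [eich_flip (h.f0 i) hc h3]
  have h5 : polar Q (c • e j) (-f i) = 0 := by rw [polar_neg_right, pc, h3, neg_zero]
  have h6 : polar Q (e j) (c • -f i) = 0 := by rw [psr, ← psl, h5]
  rw [eich_smul c (h.e0 j) hc h5 h6]
  rwa [eich_congr rfl (by rw [neg_smul, ← smul_neg] : (-c) • f i = c • -f i)] at h2

/-- the Levi root elements -/
noncomputable def xr {k : ℕ} {e f : Fin k → V} (h : Hyp Q e f) {i j : Fin k} (hij : i ≠ j) (c : F) : OGrp Q :=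
  eich Q (e i) (c • f j) (h.e0 i) (by rw [psr, h.ef, if_neg hij, mul_zero])

theorem xr_apply {k : ℕ} {e f : Fin k → V} (h : Hyp Q e f) {i j : Fin k} (hij : i ≠ j) (c : F) (x : V) :
    (xr h hij c : V ≃ₗ[F] V) x = x + (c * polar Q x (f j)) • e i - (c * polar Q x (e i)) • f j := by
  rw [xr, eich_apply, qsmul, h.f0, psr]
  module

theorem Lv.mem {H : Subgroup (OGrp Q)} {k : ℕ} {e f : Fin k → V} {h : Hyp Q e f} (L : Lv H h) {i j : Fin k}
    (hij : i ≠ j) (c : F) : xr h hij c ∈ H := (L i j hij c).2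

/-- the monomial elements -/
noncomputable def wr {k : ℕ} {e f : Fin k → V} (h : Hyp Q e f) {i j : Fin k} (hij : i ≠ j) (c : F) : OGrp Q :=
  xr h hij c * xr h hij.symm (-c⁻¹) * xr h hij c

theorem wr_apply {k : ℕ} {e f : Fin k → V} (h : Hyp Q e f) {i j : Fin k} (hij : i ≠ j) {c : F} (hc : c ≠ 0) (x : V) :
    (wr h hij c : V ≃ₗ[F] V) x = x + (c * polar Q x (f j) - polar Q x (f i)) • e i -
      (c⁻¹ * polar Q x (f i) + polar Q x (f j)) • e j - (c * polar Q x (e i) + polar Q x (e j)) • f j +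
      (c⁻¹ * polar Q x (e j) - polar Q x (e i)) • f i := by
  rw [wr, coe_mul_apply, coe_mul_apply, xr_apply, xr_apply, xr_apply]
  simp only [pal, pdl, psl, h.ee, h.ff, h.ef, h.fe, if_neg hij, if_neg hij.symm, if_true]
  match_scalars <;> field_simp <;> ring

theorem Lv.wr_mem {H : Subgroup (OGrp Q)} {k : ℕ} {e f : Fin k → V} {h : Hyp Q e f} (L : Lv H h) {i j : Fin k}
    (hij : i ≠ j) (c : F) : wr h hij c ∈ H :=
  mul_mem (mul_mem (L.mem _ _) (L.mem _ _)) (L.mem _ _)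

/-- the torus elements -/
noncomputable def dr {k : ℕ} {e f : Fin k → V} (h : Hyp Q e f) {i j : Fin k} (hij : i ≠ j) (c : F) : OGrp Q :=
  wr h hij c * wr h hij (-1)

theorem dr_apply {k : ℕ} {e f : Fin k → V} (h : Hyp Q e f) {i j : Fin k} (hij : i ≠ j) {c : F} (hc : c ≠ 0) (x : V) :
    (dr h hij c : V ≃ₗ[F] V) x = x + ((c - 1) * polar Q x (f i)) • e i + ((c⁻¹ - 1) * polar Q x (f j)) • e j +
      ((c⁻¹ - 1) * polar Q x (e i)) • f i + ((c - 1) * polar Q x (e j)) • f j := by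
  rw [dr, coe_mul_apply, wr_apply h hij hc, wr_apply h hij (neg_ne_zero.2 one_ne_zero)]
  simp only [pal, pdl, psl, h.ee, h.ff, h.ef, h.fe, if_neg hij, if_neg hij.symm, if_true]
  match_scalars <;> field_simp <;> ring

theorem Lv.dr_mem {H : Subgroup (OGrp Q)} {k : ℕ} {e f : Fin k → V} {h : Hyp Q e f} (L : Lv H h) {i j : Fin k}
    (hij : i ≠ j) (c : F) : dr h hij c ∈ H :=
  mul_mem (L.wr_mem _ _) (L.wr_mem _ _)

variable {H : Subgroup (OGrp Q)} {h : Hyp Q e f}

/-- scalars on vectors orthogonal to the first two hyperbolic pairs -/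
theorem Lv.scal (L : Lv H h) {w : V} (hw : w ∈ Mg H (h.e0 0)) (h1 : polar Q w (e 0) = 0) (h2 : polar Q w (f 0) = 0)
    (h3 : polar Q w (e 1) = 0) (h4 : polar Q w (f 1) = 0) (c : F) : c • w ∈ Mg H (h.e0 0) := by
  by_cases hc : c = 0
  · rw [hc, zero_smul]; exact zero_mem _
  · have h01 : (0 : Fin (n + 3)) ≠ 1 := by simp
    have := Mg_act hw (L.dr_mem h01 c) (c := c) (by
      rw [dr_apply h h01 hc, h.ee, h.ee, h.ef, h.ef, if_pos rfl, if_neg h01]
      module)
    rw [dr_apply h h01 hc, h1, h2, h3, h4] at this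
    simpa only [mul_zero, zero_smul, add_zero] using this

theorem Lv.trans (L : Lv H h) {w : V} (hw : w ∈ Mg H (h.e0 0)) {j k : Fin (n + 3)} (hjk : j ≠ k) (hj : j ≠ 0)
    (hk : k ≠ 0) : polar Q w (f k) • e j ∈ Mg H (h.e0 0) := by
  have h1 := Mg_act1 hw (L.mem hjk 1) (by
    rw [xr_apply, h.ee, h.ef, if_neg hk.symm]
    module)
  rw [xr_apply, one_mul, one_mul] at h1
  have h2 := L 0 k hk.symm (polar Q w (e j))
  have h3 := add_mem (sub_mem h1 hw) h2
  have e1 : w + polar Q w (f k) • e j - polar Q w (e j) • f k - w + polar Q w (e j) • f k =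
      polar Q w (f k) • e j := by abel
  rwa [e1] at h3

/-- all root elements `eich e₀ (c e_j)` -/
theorem Lv.allE (L : Lv H h) {w : V} (hw : w ∈ Mg H (h.e0 0)) {k : Fin (n + 3)} (hk : k ≠ 0)
    (hwk : polar Q w (f k) ≠ 0) (j : Fin (n + 3)) (c : F) : c • e j ∈ Mg H (h.e0 0) := by
  by_cases hj : j = 0
  · subst hj; exact Mg_self H (h.e0 0) c
  set β := polar Q w (f k) with hβ
  let t : Fin (n + 3) := ⟨2, by omega⟩
  have ht0 : t ≠ 0 := by
    intro h1; have := congrArg Fin.val h1; simp [t] at this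
  have ht1 : t ≠ 1 := by
    intro h1; have := congrArg Fin.val h1; simp [t] at this
  have h10 : (1 : Fin (n + 3)) ≠ 0 := by simp
  -- some e_i
  obtain ⟨i, hi0, hi⟩ : ∃ i, i ≠ 0 ∧ β • e i ∈ Mg H (h.e0 0) := by
    by_cases hk1 : k = 1
    · exact ⟨t, ht0, L.trans hw (by rw [hk1]; exact ht1) ht0 hk⟩
    · exact ⟨1, h10, L.trans hw (Ne.symm hk1) h10 hk⟩
  have move : ∀ (i j : Fin (n + 3)), i ≠ 0 → j ≠ 0 → ∀ c : F, c • e i ∈ Mg H (h.e0 0) → c • e j ∈ Mg H (h.e0 0) := by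
    intro i j hi0 hj0 c hc
    by_cases hij : j = i
    · rw [hij]; exact hc
    · have := L.trans hc hij hj0 hi0
      rwa [psl, h.ef, if_pos rfl, mul_one] at this
  have h2 := move i t hi0 ht0 β hi
  have h3 := L.scal h2 (by rw [psl, h.ee, mul_zero]) (by rw [psl, h.ef, if_neg ht0, mul_zero])
    (by rw [psl, h.ee, mul_zero]) (by rw [psl, h.ef, if_neg ht1, mul_zero]) (c * β⁻¹)
  rw [smul_smul, mul_assoc, inv_mul_cancel₀ hwk, mul_one] at h3
  exact move t j ht0 hj c h3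

/-- the component orthogonal to all hyperbolic pairs -/
theorem Lv.comp (L : Lv H h) (hE : ∀ (j : Fin (n + 3)) (c : F), c • e j ∈ Mg H (h.e0 0)) {w : V}
    (hw : w ∈ Mg H (h.e0 0)) :
    w - ∑ j, polar Q w (f j) • e j - ∑ j, polar Q w (e j) • f j ∈ Mg H (h.e0 0) := by
  refine sub_mem (sub_mem hw (AddSubgroup.sum_mem _ fun j _ => hE j _)) (AddSubgroup.sum_mem _ fun j _ => ?_)
  by_cases hj : j = 0
  · subst hj
    obtain ⟨h1, -⟩ := hw
    rw [pc, h1, zero_smul]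
    exact zero_mem _
  · exact L 0 j (Ne.symm hj) _

theorem comp_orth {k : ℕ} {e f : Fin k → V} (h : Hyp Q e f) (w : V) (i : Fin k) :
    polar Q (w - ∑ j, polar Q w (f j) • e j - ∑ j, polar Q w (e j) • f j) (e i) = 0 ∧
    polar Q (w - ∑ j, polar Q w (f j) • e j - ∑ j, polar Q w (e j) • f j) (f i) = 0 := by
  have hsl : ∀ (g : Fin k → V) (y : V), polar Q (∑ j, g j) y = ∑ j, polar Q (g j) y := by
    intro g y
    have := map_sum (polarBilin Q) g Finset.univ
    rw [← pbil, this, LinearMap.sum_apply]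
    rfl
  constructor
  · rw [pdl, pdl, hsl, hsl]
    simp only [psl, h.ee, h.fe, mul_zero, Finset.sum_const_zero]
    simp
  · rw [pdl, pdl, hsl, hsl]
    simp only [psl, h.ef, h.ff, mul_zero, Finset.sum_const_zero]
    simp

/-- everything -/
theorem Lv.all (L : Lv H h) (hE : ∀ (j : Fin (n + 3)) (c : F), c • e j ∈ Mg H (h.e0 0))
    (hV : ∀ v, (∀ i, polar Q v (e i) = 0 ∧ polar Q v (f i) = 0) → v ∈ Mg H (h.e0 0)) (w : V)
    (hw : polar Q (e 0) w = 0) : w ∈ Mg H (h.e0 0) := by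
  have h1 := hV _ (comp_orth h w)
  have h2 : ∑ j, polar Q w (f j) • e j ∈ Mg H (h.e0 0) := AddSubgroup.sum_mem _ fun j _ => hE j _
  have h3 : ∑ j, polar Q w (e j) • f j ∈ Mg H (h.e0 0) := by
    refine AddSubgroup.sum_mem _ fun j _ => ?_
    by_cases hj : j = 0
    · subst hj
      rw [pc, hw, zero_smul]
      exact zero_mem _
    · exact L 0 j (Ne.symm hj) _
  have h4 := add_mem (add_mem h1 h3) h2
  rwa [sub_add_cancel, sub_add_cancel] at h4

/-- **Filling up.** -/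
theorem Lv.fill (L : Lv H h) (hQ : (polarBilin Q).Nondegenerate) {w w' : V} (hw : w ∈ Mg H (h.e0 0)) {k k' : Fin (n + 3)}
    (hk : k ≠ 0) (hwk : polar Q w (f k) ≠ 0) (hw' : w' ∈ Mg H (h.f0 0)) (hk' : k' ≠ 0)
    (hwk' : polar Q w' (e k') ≠ 0)
    (hV : (∀ (j : Fin (n + 3)) (c : F), c • e j ∈ Mg H (h.e0 0)) → ∀ v, (∀ i, polar Q v (e i) = 0 ∧ polar Q v (f i) = 0) → v ∈ Mg H (h.e0 0))
    (hV' : (∀ (j : Fin (n + 3)) (c : F), c • f j ∈ Mg H (h.f0 0)) → ∀ v, (∀ i, polar Q v (e i) = 0 ∧ polar Q v (f i) = 0) → v ∈ Mg H (h.f0 0)) :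
    EGrp Q ≤ H := by
  have hE := L.allE hw hk hwk
  have hF := L.symm.allE hw' hk' hwk'
  refine EGrp_le_of_fill hQ (h.e0 0) (h.f0 0) (by rw [h.ef, if_pos rfl]) (L.all hE (hV hE)) ?_
  exact L.symm.all hF (fun v hv => hV' hF v fun i => ⟨(hv i).2, (hv i).1⟩)

end levi

end Cfsg.Agent.GK.Or
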