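import Cfsg.Agent.GK.Types

/-!
The presentations of `A_n` and `S_n` with three generators and seven relators.
-/

set_option autoImplicit false

namespace Cfsg.Agent.GK

open Subgroup Equiv

section words

open scoped Classical in
/-- the seven relators -/
noncomputable def rels (p m N M : ℕ) (s : ℤ) (F B V Y0 : FreeGroup (Fin 3)) : Finset (FreeGroup (Fin 3)) :=
  let A := FreeGroup.of (0 : Fin 3)
  let Z := FreeGroup.of (1 : Fin 3)
  let C := FreeGroup.of (2 : Fin 3)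
  {A ^ p * (B ^ (p - 1))⁻¹, B * A ^ (m + 1) * B⁻¹ * (A ^ m)⁻¹, Z ^ 3 * ((Z * (A * Z * A⁻¹)) ^ 2)⁻¹,
    B * Z * B⁻¹ * (Z⁻¹)⁻¹, (F⁻¹ * C) * Z ^ 4 * (F⁻¹ * C)⁻¹ * (Z ^ s)⁻¹, (F⁻¹ * C) * V * (F⁻¹ * C)⁻¹ * V⁻¹,
    C ^ N * ((C * Y0) ^ M)⁻¹}

theorem rels_card (p m N M : ℕ) (s : ℤ) (F B V Y0 : FreeGroup (Fin 3)) : (rels p m N M s F B V Y0).card ≤ 7 := by
  classical
  unfold rels
  refine (Finset.card_insert_le _ _).trans (Nat.succ_le_succ ?_)
  refine (Finset.card_insert_le _ _).trans (Nat.succ_le_succ ?_)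
  refine (Finset.card_insert_le _ _).trans (Nat.succ_le_succ ?_)
  refine (Finset.card_insert_le _ _).trans (Nat.succ_le_succ ?_)
  refine (Finset.card_insert_le _ _).trans (Nat.succ_le_succ ?_)
  refine (Finset.card_insert_le _ _).trans (Nat.succ_le_succ ?_)
  exact (Finset.card_singleton _).le

variable {G : Type*} [Group G]

/-- the relations -/
structure Rels (p m N M : ℕ) (s : ℤ) (f b v y : G) (g : Fin 3 → G) : Prop where
  r1 : g 0 ^ p = b ^ (p - 1)
  r2 : b * g 0 ^ (m + 1) * b⁻¹ = g 0 ^ m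
  r3 : g 1 ^ 3 = (g 1 * (g 0 * g 1 * (g 0)⁻¹)) ^ 2
  r4 : b * g 1 * b⁻¹ = (g 1)⁻¹
  r5 : (f⁻¹ * g 2) * g 1 ^ 4 * (f⁻¹ * g 2)⁻¹ = g 1 ^ s
  r6 : (f⁻¹ * g 2) * v * (f⁻¹ * g 2)⁻¹ = v
  r7 : g 2 ^ N = (g 2 * y) ^ M

theorem rels_iff (p m N M : ℕ) (s : ℤ) (F B V Y0 : FreeGroup (Fin 3)) (g : Fin 3 → G) :
    (∀ w ∈ (rels p m N M s F B V Y0 : Set (FreeGroup (Fin 3))), FreeGroup.lift g w = 1) ↔
      Rels p m N M s (FreeGroup.lift g F) (FreeGroup.lift g B) (FreeGroup.lift g V) (FreeGroup.lift g Y0) g := by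
  classical
  simp only [rels, Finset.coe_insert, Finset.coe_singleton, Set.mem_insert_iff, Set.mem_singleton_iff,
    forall_eq_or_imp, forall_eq, map_mul, map_inv, map_pow, map_zpow, FreeGroup.lift_apply_of, mul_inv_eq_one]
  constructor
  · rintro ⟨h1, h2, h3, h4, h5, h6, h7⟩
    exact ⟨h1, h2, h3, h4, h5, h6, h7⟩
  · rintro ⟨h1, h2, h3, h4, h5, h6, h7⟩
    exact ⟨h1, h2, h3, h4, h5, h6, h7⟩

theorem exists_word (g : Fin 3 → G) {β : G} (h : β ∈ closure ({g 0, g 1} : Set G)) :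
    ∃ w ∈ closure ({FreeGroup.of 0, FreeGroup.of 1} : Set (FreeGroup (Fin 3))), FreeGroup.lift g w = β := by
  have : closure ({g 0, g 1} : Set G) =
      (closure ({FreeGroup.of 0, FreeGroup.of 1} : Set (FreeGroup (Fin 3)))).map (FreeGroup.lift g) := by
    rw [MonoidHom.map_closure, Set.image_pair, FreeGroup.lift_apply_of, FreeGroup.lift_apply_of]
  rw [this] at h
  obtain ⟨w, hw, he⟩ := mem_map.1 h
  exact ⟨w, hw, he⟩

theorem word_mem (g : Fin 3 → G) {w : FreeGroup (Fin 3)}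
    (h : w ∈ closure ({FreeGroup.of 0, FreeGroup.of 1} : Set (FreeGroup (Fin 3)))) :
    FreeGroup.lift g w ∈ closure ({g 0, g 1} : Set G) := by
  have : closure ({g 0, g 1} : Set G) =
      (closure ({FreeGroup.of 0, FreeGroup.of 1} : Set (FreeGroup (Fin 3)))).map (FreeGroup.lift g) := by
    rw [MonoidHom.map_closure, Set.image_pair, FreeGroup.lift_apply_of, FreeGroup.lift_apply_of]
  rw [this]
  exact mem_map_of_mem _ h

end words

section model
variable {p : ℕ} [hp : Fact p.Prime]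

/-- multiplication by `r` -/
def mu (r : ZMod p) (hr : r ≠ 0) : Perm (ZMod p) := Equiv.mulLeft₀ r hr

theorem mu_apply (r : ZMod p) (hr : r ≠ 0) (x : ZMod p) : mu r hr x = r * x := rfl

theorem mu_pow (r : ZMod p) (hr : r ≠ 0) (k : ℕ) (x : ZMod p) : (mu r hr ^ k) x = r ^ k * x := by
  induction k with
  | zero => simp
  | succ k ih => rw [pow_succ', Perm.mul_apply, ih, mu_apply, pow_succ']; ring

/-- a primitive root, packaged -/
structure PrimRoot (p : ℕ) [Fact p.Prime] (r : ZMod p) : Prop where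
  ne : r ≠ 0
  surj : ∀ x : ZMod p, x ≠ 0 → ∃ k, k + 2 ≤ p ∧ r ^ k = x
  inj : ∀ i j : ℕ, i + 2 ≤ p → j + 2 ≤ p → r ^ i = r ^ j → i = j

theorem exists_primRoot (p : ℕ) [hp : Fact p.Prime] : ∃ r : ZMod p, PrimRoot p r := by
  obtain ⟨g, hg⟩ := IsCyclic.exists_generator (α := (ZMod p)ˣ)
  have ho : orderOf g = p - 1 := by
    rw [orderOf_eq_card_of_forall_mem_zpowers hg, Nat.card_eq_fintype_card, ZMod.card_units]
  have hp2 := hp.out.two_le
  refine ⟨(g : ZMod p), g.ne_zero, ?_, ?_⟩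
  · intro x hx
    obtain ⟨u, rfl⟩ : ∃ u : (ZMod p)ˣ, (u : ZMod p) = x := ⟨Units.mk0 x hx, rfl⟩
    have hu : u ∈ Submonoid.powers g := mem_powers_iff_mem_zpowers.2 (hg u)
    obtain ⟨k, hk⟩ := hu
    have hk' : g ^ k = u := hk
    have hlt : k % (p - 1) < p - 1 := Nat.mod_lt _ (by omega)
    refine ⟨k % (p - 1), by omega, ?_⟩
    rw [← hk', ← pow_mod_orderOf g k, ho]
    simp
  · intro i j hi hj hij
    have h1 : g ^ i = g ^ j := by
      ext; simpa using hij
    exact pow_injOn_Iio_orderOf (by simp; omega) (by simp; omega) h1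

theorem PrimRoot.sign_mu {r : ZMod p} (h : PrimRoot p r) (hp3 : 3 ≤ p) : Perm.sign (mu r h.ne) = -1 := by
  have hr1 : r ≠ 1 := by
    intro h1
    have := h.inj 0 1 (by omega) (by omega) (by rw [h1]; simp)
    omega
  have hmove : ∀ x : ZMod p, mu r h.ne x ≠ x ↔ x ≠ 0 := by
    intro x
    rw [mu_apply]
    constructor
    · rintro h1 rfl
      exact h1 (mul_zero _)
    · intro hx h1
      exact hr1 (mul_right_cancel₀ hx (by rw [h1, one_mul]))
  have hcyc : (mu r h.ne).IsCycle := by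
    refine ⟨1, (hmove 1).2 one_ne_zero, ?_⟩
    intro y hy
    obtain ⟨k, -, rfl⟩ := h.surj y ((hmove y).1 hy)
    exact ⟨k, by rw [zpow_natCast, mu_pow, mul_one]⟩
  have hsupp : (mu r h.ne).support = Finset.univ.erase 0 := by
    ext x
    rw [Perm.mem_support, hmove]
    simp
  rw [hcyc.sign, hsupp, Finset.card_erase_of_mem (Finset.mem_univ _), Finset.card_univ, ZMod.card]
  have : Even (p - 1) := hp.out.even_sub_one (by omega)
  rw [this.neg_one_pow]

theorem PrimRoot.r_ne_one {r : ZMod p} (h : PrimRoot p r) (hp3 : 3 ≤ p) : r ≠ 1 := by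
  intro h1
  have := h.inj 0 1 (by omega) (by omega) (by rw [h1]; simp)
  omega

theorem PrimRoot.exists_m {r : ZMod p} (h : PrimRoot p r) (hp3 : 3 ≤ p) :
    ∃ m : ℕ, r * ((m : ZMod p) + 1) = m := by
  refine ⟨(r * (1 - r)⁻¹).val, ?_⟩
  rw [ZMod.natCast_zmod_val]
  have h1 : (1 - r) ≠ 0 := sub_ne_zero.2 (h.r_ne_one hp3).symm
  field_simp
  ring

/-- the base relations in the model -/
theorem PrimRoot.baseRel {r : ZMod p} (h : PrimRoot p r) (hp3 : 3 ≤ p) {m : ℕ}
    (hm : r * ((m : ZMod p) + 1) = m) :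
    BaseRel p r m (up (rot p)) (X 0) (up (mu r h.ne) * tau) := by
  have hev : Even (p - 1) := hp.out.even_sub_one (by omega)
  have htau : (tau : Perm (Option (Option (ZMod p)))) ^ (p - 1) = 1 := by
    obtain ⟨k, hk⟩ := hev
    rw [hk, ← two_mul, pow_mul, pow_two, tau_mul_tau, one_pow]
  have hmu : mu r h.ne ^ (p - 1) = 1 := by
    ext1 x
    rw [mu_pow, ZMod.pow_card_sub_one_eq_one h.ne, one_mul]; rfl
  have hcm : Commute (up (mu r h.ne)) tau := (tau_comm_up _).symm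
  refine ⟨?_, ?_, ?_, ?_, hm, fun j hj => ?_⟩
  · rw [← map_pow, rot_pow_self, map_one, hcm.mul_pow, htau, mul_one, ← map_pow, hmu, map_one]
  · have h1 : up (mu r h.ne) * tau * up (rot p) ^ (m + 1) * (up (mu r h.ne) * tau)⁻¹ =
        up (mu r h.ne * rot p ^ (m + 1) * (mu r h.ne)⁻¹) := by
      rw [map_mul, map_mul, map_inv, map_pow]
      have h2 : tau * up (rot p) ^ (m + 1) * tau⁻¹ = up (rot p) ^ (m + 1) := by
        rw [← map_pow, tau_comm_up]; group
      calc up (mu r h.ne) * tau * up (rot p) ^ (m + 1) * (up (mu r h.ne) * tau)⁻¹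
          = up (mu r h.ne) * (tau * up (rot p) ^ (m + 1) * tau⁻¹) * (up (mu r h.ne))⁻¹ := by group
        _ = _ := by rw [h2]
    rw [h1, ← map_pow]
    congr 1
    rw [mul_inv_eq_iff_eq_mul]
    ext1 x
    rw [Perm.mul_apply, Perm.mul_apply, mu_apply, rot_pow, rot_pow, mu_apply]
    push_cast
    rw [mul_add, hm]
  · rw [X_cube, up_conj_X, rot_apply, X_mul_sq]
    simp
  · have h1 : up (mu r h.ne) * tau * X 0 * (up (mu r h.ne) * tau)⁻¹ =
        up (mu r h.ne) * (tau * X 0 * tau⁻¹) * (up (mu r h.ne))⁻¹ := by group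
    rw [h1, tau_conj_X, ← conj_inv, up_conj_X, mu_apply, mul_zero]
  · obtain ⟨k, -, hk⟩ := h.surj j hj
    exact ⟨k, hk⟩

omit hp in
theorem BaseRel.map {G H : Type*} [Group G] [Group H] {r : ZMod p} {m : ℕ} {a z b : G}
    (h : BaseRel p r m a z b) (f : G →* H) : BaseRel p r m (f a) (f z) (f b) := by
  refine ⟨?_, ?_, ?_, ?_, h.hm, h.hr⟩
  · rw [← map_pow, ← map_pow, h.r1]
  · rw [← map_pow, ← map_pow, ← map_inv, ← map_mul, ← map_mul, h.r2]
  · rw [← map_pow, ← map_inv, ← map_mul, ← map_mul, ← map_mul, ← map_pow, h.r3]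
  · rw [← map_inv, ← map_inv, ← map_mul, ← map_mul, h.r4]

theorem sign_rot_prime (hp3 : 3 ≤ p) : Perm.sign (rot p) = 1 := by
  have hev : Even (p - 1) := hp.out.even_sub_one (by omega)
  rw [sign_rot, hev.neg_one_pow]

/-- even permutations of the base points are words in `a`, `z` -/
theorem io_mem {Λ : Type*} [DecidableEq Λ] (e : ZMod p ↪ Λ) {g : Perm (Option (Option (ZMod p)))}
    (hg : Perm.sign g = 1) :
    io e g ∈ closure ({io e (up (rot p)), io e (X 0)} : Set (Perm (Option (Option Λ)))) := by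
  have hg' : g ∈ closure (Set.range (X : ZMod p → Perm (Option (Option (ZMod p))))) := by
    rw [closure_X]; exact hg
  have h1 : (closure (Set.range (X : ZMod p → Perm (Option (Option (ZMod p)))))).map (io e) ≤
      closure ({io e (up (rot p)), io e (X 0)} : Set (Perm (Option (Option Λ)))) := by
    rw [MonoidHom.map_closure, closure_le]
    rintro _ ⟨_, ⟨i, rfl⟩, rfl⟩
    have h2 : X i = up (rot p) ^ i.val * X 0 * (up (rot p) ^ i.val)⁻¹ := by
      rw [← map_pow, up_conj_X, rot_pow]; simp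
    rw [h2, map_mul, map_mul, map_inv, map_pow]
    have h3 : io e (up (rot p)) ∈ closure ({io e (up (rot p)), io e (X 0)} : Set (Perm (Option (Option Λ)))) :=
      subset_closure (by simp)
    have h4 : io e (X 0) ∈ closure ({io e (up (rot p)), io e (X 0)} : Set (Perm (Option (Option Λ)))) :=
      subset_closure (by simp)
    exact mul_mem (mul_mem (pow_mem h3 _) h4) (inv_mem (pow_mem h3 _))
  exact h1 (mem_map_of_mem _ hg')

theorem disj_commute {Λ : Type*} [DecidableEq Λ] {J : Type*} [DecidableEq J] (e : J ↪ Λ) {f v0 : Perm J}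
    {t : Perm Λ} (top : J) (h1 : ∀ j, j ≠ top → t (e j) = e (f j)) (h2 : v0 top = top) :
    Commute ((EE e f)⁻¹ * t) (EE e v0) := by
  apply Perm.Disjoint.commute
  intro l
  by_cases hl : l ∈ Set.range e
  · obtain ⟨j, rfl⟩ := hl
    by_cases hj : j = top
    · right
      rw [EE_apply, hj, h2]
    · left
      rw [Perm.mul_apply, h1 j hj, ← EE_apply]; simp
  · right
    exact EE_apply_of e v0 l hl

end model

end Cfsg.Agent.GK
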