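import Cfsg.Agent.GK.Mod

/-!
The rank one part: `SL₂(F)` generated by `X s`, `h`, `t`.
-/

set_option autoImplicit false

namespace Cfsg.Agent.GK

open Subgroup

section concrete
variable {F : Type*} [Field F]

/-- `[1 s; 0 1]` -/
def xm (s : F) : Matrix.SpecialLinearGroup (Fin 2) F := ⟨!![1, s; 0, 1], by simp [Matrix.det_fin_two_of]⟩

/-- `diag(a, a⁻¹)` -/
def hm (a : Fˣ) : Matrix.SpecialLinearGroup (Fin 2) F := ⟨!![(a : F), 0; 0, ((a⁻¹ : Fˣ) : F)], by
  simp [Matrix.det_fin_two_of]⟩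

/-- `[0 1; -1 0]` -/
def tm : Matrix.SpecialLinearGroup (Fin 2) F := ⟨!![0, 1; -1, 0], by simp [Matrix.det_fin_two_of]⟩

theorem slext {A B : Matrix.SpecialLinearGroup (Fin 2) F}
    (h : (A : Matrix (Fin 2) (Fin 2) F) = (B : Matrix (Fin 2) (Fin 2) F)) : A = B := Subtype.ext h

theorem xm_coe (s : F) : ((xm s : Matrix.SpecialLinearGroup (Fin 2) F) : Matrix (Fin 2) (Fin 2) F) = !![1, s; 0, 1] := rfl
theorem hm_coe (a : Fˣ) : ((hm a : Matrix.SpecialLinearGroup (Fin 2) F) : Matrix (Fin 2) (Fin 2) F) =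
    !![(a : F), 0; 0, ((a⁻¹ : Fˣ) : F)] := rfl
theorem tm_coe : ((tm : Matrix.SpecialLinearGroup (Fin 2) F) : Matrix (Fin 2) (Fin 2) F) = !![0, 1; -1, 0] := rfl

theorem xm_add (s t : F) : xm (s + t) = xm s * xm t := by
  apply slext
  rw [Matrix.SpecialLinearGroup.coe_mul, xm_coe, xm_coe, xm_coe, Matrix.mul_fin_two]
  simp [add_comm]

theorem xm_zero : xm (0 : F) = 1 := by
  apply slext
  rw [Matrix.SpecialLinearGroup.coe_one, xm_coe, Matrix.one_fin_two]

theorem xm_neg (s : F) : (xm s)⁻¹ = xm (-s) := by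
  rw [inv_eq_iff_mul_eq_one, ← xm_add, add_neg_cancel, xm_zero]

theorem xm_pow (s : F) (n : ℕ) : xm s ^ n = xm (n * s) := by
  induction n with
  | zero => simp [xm_zero]
  | succ n ih => rw [pow_succ, ih, ← xm_add]; congr 1; push_cast; ring

theorem hm_mul (a b : Fˣ) : hm (a * b) = hm a * hm b := by
  apply slext
  rw [Matrix.SpecialLinearGroup.coe_mul, hm_coe, hm_coe, hm_coe, Matrix.mul_fin_two]
  simp [mul_comm]

/-- the torus homomorphism -/
def hmH : Fˣ →* Matrix.SpecialLinearGroup (Fin 2) F := MonoidHom.mk' hm hm_mul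

theorem hm_pow (a : Fˣ) (n : ℕ) : hm a ^ n = hm (a ^ n) := (map_pow hmH a n).symm

theorem hm_inv (a : Fˣ) : (hm a)⁻¹ = hm a⁻¹ := (map_inv hmH a).symm

theorem hm_one : hm (1 : Fˣ) = (1 : Matrix.SpecialLinearGroup (Fin 2) F) := map_one hmH

theorem hm_xm (a : Fˣ) (s : F) : hm a * xm s * (hm a)⁻¹ = xm (a ^ 2 * s) := by
  rw [mul_inv_eq_iff_eq_mul]
  apply slext
  rw [Matrix.SpecialLinearGroup.coe_mul, Matrix.SpecialLinearGroup.coe_mul, hm_coe, xm_coe, xm_coe, Matrix.mul_fin_two,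
    Matrix.mul_fin_two]
  simp
  field_simp

theorem tm_hm (a : Fˣ) : tm * hm a * (tm)⁻¹ = (hm a)⁻¹ := by
  rw [mul_inv_eq_iff_eq_mul, hm_inv]
  apply slext
  rw [Matrix.SpecialLinearGroup.coe_mul, Matrix.SpecialLinearGroup.coe_mul, hm_coe, tm_coe, hm_coe, Matrix.mul_fin_two,
    Matrix.mul_fin_two]
  simp

theorem tm_sq : (tm : Matrix.SpecialLinearGroup (Fin 2) F) * tm = hm (-1) := by
  apply slext
  rw [Matrix.SpecialLinearGroup.coe_mul, hm_coe, tm_coe, Matrix.mul_fin_two]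
  simp

theorem tm_xm (a : Fˣ) : tm * xm (a : F) * (tm)⁻¹ =
    xm (-((a⁻¹ : Fˣ) : F)) * hm a⁻¹ * tm * xm (-((a⁻¹ : Fˣ) : F)) := by
  rw [mul_inv_eq_iff_eq_mul]
  apply slext
  simp only [Matrix.SpecialLinearGroup.coe_mul]
  rw [hm_coe, tm_coe, xm_coe, xm_coe]
  simp only [Matrix.mul_fin_two]
  simp

end concrete

section abs
variable {G : Type*} [Group G] {F : Type*} [Field F]

/-- relations of the rank one group -/
structure SLRel (ζ : Fˣ) (X : F → G) (h t : G) : Prop where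
  add : ∀ s r, X (s + r) = X s * X r
  hx : ∀ s, h * X s * h⁻¹ = X (ζ ^ 2 * s)
  th : t * h * t⁻¹ = h⁻¹
  tx1 : t * X 1 * t⁻¹ = X (-1) * t * X (-1)
  gen : ∀ a : Fˣ, ∃ k : ℕ, ζ ^ k = a

variable {ζ : Fˣ} {X : F → G} {h t : G}

theorem SLRel.zero (H : SLRel ζ X h t) : X 0 = 1 := by
  have := H.add 0 0
  rw [add_zero] at this
  exact mul_eq_left.1 this.symm

theorem SLRel.neg (H : SLRel ζ X h t) (s : F) : X (-s) = (X s)⁻¹ := by
  rw [eq_comm, inv_eq_iff_mul_eq_one, ← H.add, add_neg_cancel, H.zero]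

theorem SLRel.hx' (H : SLRel ζ X h t) (k : ℕ) (s : F) : h ^ k * X s * (h ^ k)⁻¹ = X (((ζ ^ k : Fˣ) : F) ^ 2 * s) := by
  induction k with
  | zero => simp
  | succ k ih =>
    have : h ^ (k + 1) * X s * (h ^ (k + 1))⁻¹ = h * (h ^ k * X s * (h ^ k)⁻¹) * h⁻¹ := by
      rw [pow_succ']; group
    rw [this, ih, H.hx]
    congr 1
    push_cast
    ring

theorem SLRel.th' (H : SLRel ζ X h t) (k : ℕ) : t * h ^ k * t⁻¹ = (h ^ k)⁻¹ := by
  rw [← conj_pow, H.th, inv_pow]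

/-- `t²` commutes with `X 1` (braid relation) -/
theorem SLRel.t2x1 (H : SLRel ζ X h t) : Commute (t * t) (X 1) := by
  have h1 := H.tx1
  rw [H.neg] at h1
  set u := X 1
  have e0 : t * u = u⁻¹ * t * u⁻¹ * t := by
    calc t * u = (t * u * t⁻¹) * t := by group
      _ = _ := by rw [h1]
  have e1 : t * u⁻¹ * t = u * t * u := by
    calc t * u⁻¹ * t = u * (u⁻¹ * t * u⁻¹ * t) := by group
      _ = _ := by rw [← e0]; group
  calc t * t * u = t * (t * u) := by group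
    _ = (t * u⁻¹ * t) * u⁻¹ * t := by rw [e0]; group
    _ = _ := by rw [e1]; group

theorem SLRel.hz (H : SLRel ζ X h t) (k : ℤ) (s : F) :
    h ^ k * X s * (h ^ k)⁻¹ = X (((ζ ^ k : Fˣ) : F) ^ 2 * s) := by
  have h1 : ∀ s, h⁻¹ * X s * h = X (((ζ⁻¹ : Fˣ) : F) ^ 2 * s) := by
    intro s
    have := H.hx (((ζ⁻¹ : Fˣ) : F) ^ 2 * s)
    rw [← mul_assoc, ← mul_pow, Units.mul_inv, one_pow, one_mul] at this
    rw [← this]; group
  induction k with
  | zero => simp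
  | succ k ih =>
    have e : h ^ ((k : ℤ) + 1) * X s * (h ^ ((k : ℤ) + 1))⁻¹ = h * (h ^ (k : ℤ) * X s * (h ^ (k : ℤ))⁻¹) * h⁻¹ := by
      rw [add_comm, zpow_add, zpow_one]; group
    rw [e, ih, H.hx]
    congr 1
    rw [zpow_add, zpow_one]
    push_cast
    ring
  | pred k ih =>
    have e : h ^ (-(k : ℤ) - 1) * X s * (h ^ (-(k : ℤ) - 1))⁻¹ =
        h⁻¹ * (h ^ (-(k : ℤ)) * X s * (h ^ (-(k : ℤ)))⁻¹) * h := by
      rw [sub_eq_add_neg, add_comm, zpow_add, zpow_neg_one]; group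
    rw [e, ih, h1]
    congr 1
    rw [sub_eq_add_neg, zpow_add, zpow_neg_one, Units.val_mul]
    ring

theorem SLRel.tz (H : SLRel ζ X h t) (k : ℤ) : t * h ^ k * t⁻¹ = (h ^ k)⁻¹ := by
  rw [← conj_zpow, H.th, inv_zpow]

theorem SLRel.tz' (H : SLRel ζ X h t) (k : ℤ) : h ^ k * t = t * (h ^ k)⁻¹ := by
  have := H.tz (-k)
  rw [zpow_neg, inv_inv] at this
  exact (mul_inv_eq_iff_eq_mul.1 this).symm

/-- powers of `h` acting trivially are central of order at most two -/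
theorem SLRel.central (H : SLRel ζ X h t) (n : ℤ) (hn : ((ζ ^ n : Fˣ) : F) ^ 2 = 1) :
    Commute (h ^ n) t ∧ h ^ n * h ^ n = 1 := by
  have h1 : Commute (h ^ n) (X 1) := by
    have := H.hz n 1
    rw [hn, one_mul] at this
    exact mul_inv_eq_iff_eq_mul.1 this
  have h2 : Commute (h ^ n) (t * X 1 * t⁻¹) := by
    have e1 : h ^ n * t = t * (h ^ n)⁻¹ := H.tz' n
    have e2 : t⁻¹ * h ^ n = (h ^ n)⁻¹ * t⁻¹ := by
      have := congrArg (fun y => y⁻¹) (H.tz' (-n))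
      simp only [mul_inv_rev, zpow_neg, inv_inv] at this
      exact this
    calc h ^ n * (t * X 1 * t⁻¹) = (h ^ n * t) * X 1 * t⁻¹ := by group
      _ = t * ((h ^ n)⁻¹ * X 1) * t⁻¹ := by rw [e1]; group
      _ = t * (X 1 * (h ^ n)⁻¹) * t⁻¹ := by rw [h1.inv_left.eq]
      _ = t * X 1 * ((h ^ n)⁻¹ * t⁻¹) := by group
      _ = t * X 1 * t⁻¹ * h ^ n := by rw [← e2]; group
  have h3 : t = X 1 * (t * X 1 * t⁻¹) * X 1 := by
    rw [H.tx1, H.neg]; group
  have h4 : Commute (h ^ n) t := by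
    rw [h3]; exact (h1.mul_right h2).mul_right h1
  refine ⟨h4, ?_⟩
  have h5 := H.tz n
  have h6 : t * h ^ n * t⁻¹ = h ^ n := by rw [← h4.eq]; group
  rw [h6] at h5
  nth_rewrite 2 [h5]
  exact mul_inv_cancel _

/-- the basic relation at `r` with exponent `j` -/
def PP (X : F → G) (h t : G) (a : F) (j : ℤ) : Prop :=
  t * X a * t⁻¹ = X (-a⁻¹) * h ^ (-j) * t * X (-a⁻¹)

theorem SLRel.PP_one (H : SLRel ζ X h t) : PP X h t 1 0 := by
  rw [PP, inv_one, neg_zero, zpow_zero, mul_one]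
  exact H.tx1

theorem SLRel.PP_step (H : SLRel ζ X h t) {a : F} {j : ℤ} (hP : PP X h t a j) :
    PP X h t (ζ ^ 2 * a) (j + 2) := by
  rw [PP] at hP ⊢
  have e0 : t * X (ζ ^ 2 * a) * t⁻¹ = h⁻¹ * (t * X a * t⁻¹) * h := by
    rw [← H.hx]
    have e1 : t * h = h⁻¹ * t := by rw [← H.th]; group
    have e2 : h⁻¹ * t⁻¹ = t⁻¹ * h := by
      have := congrArg (fun y => y⁻¹) e1
      simpa [mul_inv_rev] using this
    calc t * (h * X a * h⁻¹) * t⁻¹ = (t * h) * X a * (h⁻¹ * t⁻¹) := by group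
      _ = _ := by rw [e1, e2]; group
  have e3 : (((ζ : F) ^ 2 * a)⁻¹) = ((ζ⁻¹ : Fˣ) : F) ^ 2 * a⁻¹ := by
    rw [mul_inv, ← inv_pow, Units.val_inv_eq_inv_val]
  have e4 : ∀ s, h⁻¹ * X s * h = X (((ζ⁻¹ : Fˣ) : F) ^ 2 * s) := by
    intro s
    have := H.hz (-1) s
    simpa using this
  have e5 : X (-((ζ : F) ^ 2 * a)⁻¹) = h⁻¹ * X (-a⁻¹) * h := by
    rw [e4, e3]; congr 1; ring
  rw [e0, hP, e5]
  have e6 : h * h ^ (-(j + 2)) * t * h⁻¹ = h ^ (-j) * t := by
    have := H.tz' 1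
    rw [zpow_one] at this
    -- t * h⁻¹ = h * t
    calc h * h ^ (-(j + 2)) * t * h⁻¹ = h * h ^ (-(j + 2)) * (t * h⁻¹) := by group
      _ = h * h ^ (-(j + 2)) * (h * t) := by rw [this]
      _ = h ^ (-j) * t := by group
  calc h⁻¹ * (X (-a⁻¹) * h ^ (-j) * t * X (-a⁻¹)) * h
      = h⁻¹ * X (-a⁻¹) * (h ^ (-j) * t) * X (-a⁻¹) * h := by group
    _ = h⁻¹ * X (-a⁻¹) * (h * h ^ (-(j + 2)) * t * h⁻¹) * X (-a⁻¹) * h := by rw [e6]
    _ = _ := by group

theorem SLRel.PP_pow (H : SLRel ζ X h t) {a : F} {j : ℤ} (hP : PP X h t a j) (k : ℕ) :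
    PP X h t (((ζ : F) ^ 2) ^ k * a) (j + 2 * k) := by
  induction k with
  | zero => simpa using hP
  | succ k ih =>
    have := H.PP_step ih
    rw [← mul_assoc, ← pow_succ'] at this
    convert this using 1
    push_cast; ring

/-- `t²` is a power of `h` -/
theorem SLRel.t_sq (H : SLRel ζ X h t) {j : ℤ} (hP : PP X h t (-1) j) : t * t = h ^ j := by
  rw [PP] at hP
  have h1 : (t * X 1 * t⁻¹)⁻¹ = (X (-1) * t * X (-1))⁻¹ := by rw [H.tx1]
  have h2 : t * X (-1) * t⁻¹ = X 1 * t⁻¹ * X 1 := by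
    rw [H.neg]
    have : (X (-1) * t * X (-1))⁻¹ = X 1 * t⁻¹ * X 1 := by
      rw [H.neg]; group
    rw [← this, ← h1]; group
  rw [h2] at hP
  have h3 : (-(-1 : F)⁻¹) = 1 := by rw [inv_neg, inv_one, neg_neg]
  rw [h3] at hP
  have h4 : t⁻¹ = h ^ (-j) * t := by
    have h5 : X 1 * t⁻¹ = X 1 * (h ^ (-j) * t) := by
      have := mul_right_cancel hP
      rw [this]; group
    exact mul_left_cancel h5
  have h6 : h ^ j = h ^ j * (t⁻¹ * t) := by group
  rw [h6, h4]; group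

/-- the Bruhat decomposition -/
theorem SLRel.bruhat (H : SLRel ζ X h t) (hall : ∀ a : Fˣ, ∃ j : ℤ, PP X h t a j)
    (g : G) (hg : g ∈ closure (insert h (insert t (Set.range X)))) :
    (∃ s, ∃ k : ℤ, g = X s * h ^ k) ∨ ∃ s, ∃ k : ℤ, ∃ r, g = X s * h ^ k * t * X r := by
  obtain ⟨j0, hj0⟩ := hall (-1)
  rw [Units.val_neg, Units.val_one] at hj0
  have ht2 := H.t_sq hj0
  let S : G → Prop := fun g => (∃ s, ∃ k : ℤ, g = X s * h ^ k) ∨ ∃ s, ∃ k : ℤ, ∃ r, g = X s * h ^ k * t * X r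
  have sX : ∀ g r', S g → S (g * X r') := by
    rintro g r' (⟨s, k, rfl⟩ | ⟨s, k, r, rfl⟩)
    · left
      refine ⟨s + ((ζ ^ k : Fˣ) : F) ^ 2 * r', k, ?_⟩
      rw [H.add, ← H.hz]; group
    · right
      exact ⟨s, k, r + r', by rw [H.add]; group⟩
  have sh : ∀ g (l : ℤ), S g → S (g * h ^ l) := by
    rintro g l (⟨s, k, rfl⟩ | ⟨s, k, r, rfl⟩)
    · left
      exact ⟨s, k + l, by rw [zpow_add, mul_assoc]⟩
    · right
      refine ⟨s, k - l, ((ζ ^ (-l) : Fˣ) : F) ^ 2 * r, ?_⟩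
      have e1 : t * h ^ l = h ^ (-l) * t := by
        rw [H.tz' (-l), zpow_neg, inv_inv]
      rw [← H.hz]
      calc X s * h ^ k * t * X r * h ^ l
          = X s * h ^ k * (t * h ^ l) * (h ^ (-l) * X r * (h ^ (-l))⁻¹) := by group
        _ = _ := by rw [e1]; group
  have st : ∀ g, S g → S (g * t) := by
    rintro g (⟨s, k, rfl⟩ | ⟨s, k, r, rfl⟩)
    · right
      exact ⟨s, k, 0, by rw [H.zero, mul_one]⟩
    · by_cases hr : r = 0
      · left
        refine ⟨s, k + j0, ?_⟩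
        rw [hr, H.zero, mul_one, mul_assoc, ht2, zpow_add]; group
      · obtain ⟨j, hj⟩ := hall (Units.mk0 r hr)
        rw [PP, Units.val_mk0] at hj
        have e1 : X s * h ^ k * t * X r * t =
            X s * h ^ k * X (-r⁻¹) * h ^ (-j) * t * X (-r⁻¹) * h ^ j0 := by
          calc X s * h ^ k * t * X r * t = X s * h ^ k * (t * X r * t⁻¹) * (t * t) := by group
            _ = _ := by rw [hj, ht2]; group
        rw [e1]
        apply sh
        apply sX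
        have h3 : S (X s * h ^ k * X (-r⁻¹)) := sX _ _ (Or.inl ⟨s, k, rfl⟩)
        -- it is of the first type
        right
        refine ⟨s + ((ζ ^ k : Fˣ) : F) ^ 2 * (-r⁻¹), k - j, 0, ?_⟩
        rw [H.add, ← H.hz, H.zero]
        group
  induction hg using Subgroup.closure_induction_right with
  | one => exact Or.inl ⟨0, 0, by rw [H.zero]; simp⟩
  | mul_right g _ y hy ih =>
    rcases hy with rfl | rfl | ⟨r, rfl⟩
    · have := sh g 1 ih
      rwa [zpow_one] at this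
    · exact st g ih
    · exact sX g r ih
  | mul_inv_cancel g _ y hy ih =>
    rcases hy with rfl | rfl | ⟨r, rfl⟩
    · have := sh g (-1) ih
      rwa [zpow_neg_one] at this
    · have h1 : y⁻¹ = h ^ (-j0) * y := by
        have : h ^ (-j0) * (y * y) = 1 := by rw [ht2]; group
        rw [inv_eq_iff_mul_eq_one]
        have h2 : y * (h ^ (-j0) * y) = y * (h ^ (-j0) * (y * y)) * y⁻¹ := by group
        rw [h2, this]; group
      rw [h1, ← mul_assoc]
      exact st _ (sh _ _ ih)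
    · rw [← H.neg]
      exact sX g _ ih

/-- injectivity of the map onto the matrices -/
theorem SLRel.inj (H : SLRel ζ X h t) (hall : ∀ a : Fˣ, ∃ j : ℤ, PP X h t a j)
    (hk : ∀ k : ℤ, ζ ^ k = 1 → h ^ k = 1)
    (hgen : closure (insert h (insert t (Set.range X))) = ⊤)
    (π : G →* Matrix.SpecialLinearGroup (Fin 2) F) (hX : ∀ s, π (X s) = xm s) (hh : π h = hm ζ) (ht : π t = tm) :
    Function.Injective π := by
  rw [injective_iff_map_eq_one]
  intro g hg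
  have hhk : ∀ k : ℤ, π (h ^ k) = hm (ζ ^ k) := by
    intro k
    rw [map_zpow, hh]
    exact (map_zpow hmH ζ k).symm
  rcases H.bruhat hall g (by rw [hgen]; trivial) with ⟨s, k, rfl⟩ | ⟨s, k, r, rfl⟩
  · rw [map_mul, hX, hhk] at hg
    have h1 := congrArg (fun A : Matrix.SpecialLinearGroup (Fin 2) F => (A : Matrix (Fin 2) (Fin 2) F)) hg
    simp only [Matrix.SpecialLinearGroup.coe_mul, xm_coe, hm_coe, Matrix.SpecialLinearGroup.coe_one,
      Matrix.mul_fin_two, Matrix.one_fin_two] at h1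
    have h00 := congrFun (congrFun h1 0) 0
    have h01 := congrFun (congrFun h1 0) 1
    simp at h00 h01
    have h2 : ζ ^ k = 1 := by
      ext; rw [Units.val_one, ← h00]; simp
    have h3 : s = 0 := h01.resolve_right (zpow_ne_zero k ζ.ne_zero)
    rw [h3, H.zero, hk k h2, one_mul]
  · exfalso
    rw [map_mul, map_mul, map_mul, hX, hX, hhk, ht] at hg
    have h1 := congrArg (fun A : Matrix.SpecialLinearGroup (Fin 2) F => (A : Matrix (Fin 2) (Fin 2) F)) hg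
    simp only [Matrix.SpecialLinearGroup.coe_mul, xm_coe, hm_coe, tm_coe, Matrix.SpecialLinearGroup.coe_one,
      Matrix.mul_fin_two, Matrix.one_fin_two] at h1
    have h10 := congrFun (congrFun h1 1) 0
    simp at h10
    exact zpow_ne_zero k ζ.ne_zero h10

end abs

end Cfsg.Agent.GK
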