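import Cfsg.Agent.GK.SL2

/-!
Presentations of `SL₂(F)`, from a presentation of the action of the torus on the root group.
-/

set_option autoImplicit false

namespace Cfsg.Agent.GK

open Subgroup Polynomial

universe v

section ud
variable {F : Type v} [Field F]

/-- the standard generators of `SL₂(F)` -/
def gSL (ζ : Fˣ) : Fin 3 → Matrix.SpecialLinearGroup (Fin 2) F := ![xm 1, hm ζ, tm]

theorem gSL_0 (ζ : Fˣ) : gSL ζ 0 = xm 1 := rfl
theorem gSL_1 (ζ : Fˣ) : gSL ζ 1 = hm ζ := rfl
theorem gSL_2 (ζ : Fˣ) : gSL ζ 2 = tm := rfl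

/-- presentation of the root group with the action of the torus; `W s` is a word for `x(s)` -/
structure UData (ζ : Fˣ) (n : ℕ) (R : Finset (FreeGroup (Fin 3))) (W : F → FreeGroup (Fin 3)) : Prop where
  card : R.card ≤ n
  conc : ∀ w ∈ R, FreeGroup.lift (gSL ζ) w = 1
  concW : ∀ s, FreeGroup.lift (gSL ζ) (W s) = xm s
  abs : ∀ (G : Type) [Group G] (g : Fin 3 → G), (∀ w ∈ R, FreeGroup.lift g w = 1) →
    (∀ s r, FreeGroup.lift g (W (s + r)) = FreeGroup.lift g (W s) * FreeGroup.lift g (W r)) ∧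
    FreeGroup.lift g (W 1) = g 0 ∧
    ∀ s, g 1 * FreeGroup.lift g (W s) * (g 1)⁻¹ = FreeGroup.lift g (W ((ζ : F) ^ 2 * s))

/-- `ζ` generates the multiplicative group -/
def IsGen (ζ : Fˣ) : Prop := ∀ a : Fˣ, ∃ k : ℕ, ζ ^ k = a

theorem exists_isGen (F : Type v) [Field F] [Finite F] : ∃ ζ : Fˣ, IsGen ζ := by
  obtain ⟨g, hg⟩ := IsCyclic.exists_generator (α := Fˣ)
  exact ⟨g, fun a => (mem_powers_iff_mem_zpowers.2 (hg a))⟩

theorem IsGen.orderOf {ζ : Fˣ} [Fintype F] (h : IsGen ζ) : orderOf ζ = Fintype.card F - 1 := by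
  classical
  have h1 : ∀ a : Fˣ, a ∈ zpowers ζ := fun a => by
    obtain ⟨k, hk⟩ := h a
    exact ⟨k, by simpa using hk⟩
  rw [orderOf_eq_card_of_forall_mem_zpowers h1, Nat.card_eq_fintype_card, Fintype.card_units]

/-- the generators generate -/
theorem closure_gSL (ζ : Fˣ) (hζ : IsGen ζ) (W : F → FreeGroup (Fin 3))
    (hW : ∀ s, FreeGroup.lift (gSL ζ) (W s) = xm s) : closure (Set.range (gSL ζ)) = ⊤ := by
  set K := closure (Set.range (gSL ζ)) with hK
  have hl : ∀ w, FreeGroup.lift (gSL ζ) w ∈ K := by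
    intro w
    have : FreeGroup.lift (gSL ζ) w ∈ (FreeGroup.lift (gSL ζ)).range := ⟨w, rfl⟩
    rwa [FreeGroup.range_lift_eq_closure] at this
  have hx : ∀ s, xm s ∈ K := fun s => by rw [← hW s]; exact hl _
  have ht : tm ∈ K := subset_closure ⟨2, rfl⟩
  have hh0 : hm ζ ∈ K := subset_closure ⟨1, rfl⟩
  have hh : ∀ a : Fˣ, hm a ∈ K := by
    intro a
    obtain ⟨k, rfl⟩ := hζ a
    rw [← hm_pow]
    exact pow_mem hh0 k
  rw [eq_top_iff]
  intro A _
  have hdet := A.2
  rw [Matrix.det_fin_two] at hdet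
  by_cases hc : (A : Matrix (Fin 2) (Fin 2) F) 1 0 = 0
  · -- upper triangular
    have had : (A : Matrix (Fin 2) (Fin 2) F) 0 0 * (A : Matrix (Fin 2) (Fin 2) F) 1 1 = 1 := by
      have : (A : Matrix (Fin 2) (Fin 2) F) 0 0 * (A : Matrix (Fin 2) (Fin 2) F) 1 1 -
        (A : Matrix (Fin 2) (Fin 2) F) 0 1 * (A : Matrix (Fin 2) (Fin 2) F) 1 0 = 1 := hdet
      rw [hc, mul_zero, sub_zero] at this
      exact this
    let a : Fˣ := ⟨(A : Matrix (Fin 2) (Fin 2) F) 0 0, (A : Matrix (Fin 2) (Fin 2) F) 1 1, had,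
      by rw [mul_comm]; exact had⟩
    have hA : A = hm a * xm ((A : Matrix (Fin 2) (Fin 2) F) 1 1 * (A : Matrix (Fin 2) (Fin 2) F) 0 1) := by
      apply slext
      rw [Matrix.SpecialLinearGroup.coe_mul, hm_coe, xm_coe, Matrix.mul_fin_two]
      ext i j
      fin_cases i <;> fin_cases j
      · simp [a]
      · simp [a, ← mul_assoc, had]
      · simp [hc]
      · simp [a]
    rw [hA]
    exact mul_mem (hh _) (hx _)
  · -- lower left entry nonzero
    let c : Fˣ := Units.mk0 _ hc
    have hA : A = xm ((A : Matrix (Fin 2) (Fin 2) F) 0 0 * (c⁻¹ : Fˣ)) * hm (-c⁻¹) * tm *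
        xm ((A : Matrix (Fin 2) (Fin 2) F) 1 1 * (c⁻¹ : Fˣ)) := by
      apply slext
      simp only [Matrix.SpecialLinearGroup.coe_mul]
      rw [hm_coe, xm_coe, xm_coe, tm_coe, Matrix.mul_fin_two, Matrix.mul_fin_two, Matrix.mul_fin_two]
      have hcc : (c : F) = (A : Matrix (Fin 2) (Fin 2) F) 1 0 := rfl
      have hdet' : (A : Matrix (Fin 2) (Fin 2) F) 0 0 * (A : Matrix (Fin 2) (Fin 2) F) 1 1 -
        (A : Matrix (Fin 2) (Fin 2) F) 0 1 * (A : Matrix (Fin 2) (Fin 2) F) 1 0 = 1 := hdet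
      have hk : ((c⁻¹ : Fˣ) : F) * (A : Matrix (Fin 2) (Fin 2) F) 1 0 = 1 := by
        rw [← hcc]; exact Units.inv_mul c
      have hci : (((-c⁻¹)⁻¹ : Fˣ) : F) = -(A : Matrix (Fin 2) (Fin 2) F) 1 0 := by
        rw [inv_neg, inv_inv, Units.val_neg, hcc]
      have hcn : ((-c⁻¹ : Fˣ) : F) = -((c⁻¹ : Fˣ) : F) := Units.val_neg _
      rw [hci, hcn]
      generalize ((c⁻¹ : Fˣ) : F) = k at hk
      ext i j
      fin_cases i <;> fin_cases j
      · simp
        linear_combination (-(A : Matrix (Fin 2) (Fin 2) F) 0 0) * hk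
      · simp
        linear_combination (-((A : Matrix (Fin 2) (Fin 2) F) 0 0 * (A : Matrix (Fin 2) (Fin 2) F) 1 1 * k) -
          (A : Matrix (Fin 2) (Fin 2) F) 0 1) * hk - k * hdet'
      · simp
      · simp
        linear_combination (-(A : Matrix (Fin 2) (Fin 2) F) 1 1) * hk
    rw [hA]
    exact mul_mem (mul_mem (mul_mem (hx _) (hh _)) ht) (hx _)

variable [Fintype F]

open scoped Classical in
/-- odd characteristic: three more relators -/
theorem UData.presOdd {ζ : Fˣ} {n : ℕ} {R : Finset (FreeGroup (Fin 3))} {W : F → FreeGroup (Fin 3)}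
    (U : UData ζ n R W) (hζ : IsGen ζ) (hq : Odd (Fintype.card F)) :
    ∃ R' : Finset (FreeGroup (Fin 3)), R'.card ≤ n + 3 ∧
      IsPres (R' : Set (FreeGroup (Fin 3))) (gSL ζ) := by
  let u := FreeGroup.of (0 : Fin 3)
  let h := FreeGroup.of (1 : Fin 3)
  let t := FreeGroup.of (2 : Fin 3)
  let r1 := t * h * t⁻¹ * (h⁻¹)⁻¹
  let r2 := t * u * t⁻¹ * (u⁻¹ * t * u⁻¹)⁻¹
  let r3 := t * W ζ * t⁻¹ * (W (-(ζ : F)⁻¹) * h⁻¹ * t * W (-(ζ : F)⁻¹))⁻¹
  refine ⟨insert r1 (insert r2 (insert r3 R)), ?_, ?_⟩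
  · refine (Finset.card_insert_le _ _).trans ?_
    have h2 := Finset.card_insert_le r2 (insert r3 R)
    have h3 := Finset.card_insert_le r3 R
    have := U.card
    omega
  · apply isPres_of_inj
    · intro w hw
      simp only [Finset.coe_insert, Set.mem_insert_iff, Finset.mem_coe] at hw
      rcases hw with rfl | rfl | rfl | hw
      · simp only [r1, h, t, map_mul, map_inv, FreeGroup.lift_apply_of, mul_inv_eq_one]
        rw [gSL_1, gSL_2, tm_hm]
      · simp only [r2, u, t, map_mul, map_inv, FreeGroup.lift_apply_of, mul_inv_eq_one]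
        rw [gSL_0, gSL_2]
        have := tm_xm (F := F) 1
        rw [inv_one, Units.val_one, hm_one, mul_one] at this
        rw [this, xm_neg]
      · simp only [r3, h, t, map_mul, map_inv, FreeGroup.lift_apply_of, mul_inv_eq_one, U.concW]
        rw [gSL_1, gSL_2]
        have := tm_xm ζ
        rw [Units.val_inv_eq_inv_val] at this
        rw [this, hm_inv]
      · exact U.conc w hw
    · exact closure_gSL ζ hζ W U.concW
    · intro π hπ
      set P := PresentedGroup ((insert r1 (insert r2 (insert r3 R)) : Finset (FreeGroup (Fin 3))) :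
        Set (FreeGroup (Fin 3))) with hP
      let g : Fin 3 → P := fun i => PresentedGroup.of i
      have hg : ∀ w ∈ ((insert r1 (insert r2 (insert r3 R)) : Finset (FreeGroup (Fin 3))) :
        Set (FreeGroup (Fin 3))), FreeGroup.lift g w = 1 := fun w hw => lift_of_rel hw
      have hlift : ∀ w, π (FreeGroup.lift g w) = FreeGroup.lift (gSL ζ) w := by
        intro w
        have : π.comp (FreeGroup.lift g) = FreeGroup.lift (gSL ζ) := by
          ext1 i
          rw [MonoidHom.comp_apply, FreeGroup.lift_apply_of, FreeGroup.lift_apply_of]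
          exact hπ i
        exact DFunLike.congr_fun this w
      have e1 := hg r1 (by simp)
      have e2 := hg r2 (by simp)
      have e3 := hg r3 (by simp)
      simp only [r1, h, t, map_mul, map_inv, FreeGroup.lift_apply_of, mul_inv_eq_one] at e1
      simp only [r2, u, t, map_mul, map_inv, FreeGroup.lift_apply_of, mul_inv_eq_one] at e2
      simp only [r3, h, t, map_mul, map_inv, FreeGroup.lift_apply_of, mul_inv_eq_one] at e3
      obtain ⟨a1, a2, a3⟩ := U.abs P g (fun w hw => hg w (by simp [hw]))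
      set X : F → P := fun s => FreeGroup.lift g (W s) with hX
      have hX1 : X 1 = g 0 := a2
      have hneg : X (-1) = (g 0)⁻¹ := by
        have h0 : X 0 = 1 := by
          have := a1 0 0
          rw [add_zero] at this
          exact mul_eq_left.1 this.symm
        rw [← hX1, eq_comm, inv_eq_iff_mul_eq_one]
        have := a1 1 (-1)
        rw [add_neg_cancel] at this
        exact this.symm.trans h0
      have H : SLRel ζ X (g 1) (g 2) := ⟨a1, a3, e1, by rw [hneg, hX1]; exact e2, hζ⟩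
      have hPz : PP X (g 1) (g 2) ζ 1 := by
        rw [PP, zpow_neg_one]
        exact e3
      have hq2 : 2 * ((Fintype.card F - 1) / 2) = Fintype.card F - 1 := by
        obtain ⟨k, hk⟩ := hq
        omega
      have hh1 : g 1 ^ ((Fintype.card F - 1 : ℕ) : ℤ) = 1 := by
        have h1 := (H.central (((Fintype.card F - 1) / 2 : ℕ) : ℤ) (by
          rw [← Units.val_pow_eq_pow_val, zpow_natCast, ← pow_mul, mul_comm, hq2, ← hζ.orderOf,
            pow_orderOf_eq_one]; rfl)).2
        rw [← zpow_add] at h1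
        rw [← hq2, two_mul]
        push_cast
        push_cast at h1
        exact h1
      refine H.inj ?_ ?_ ?_ π ?_ ?_ ?_
      · intro a
        obtain ⟨k, rfl⟩ := hζ a
        rcases Nat.even_or_odd' k with ⟨i, rfl | rfl⟩
        · refine ⟨0 + 2 * (i : ℤ), ?_⟩
          have := H.PP_pow H.PP_one i
          rw [mul_one, ← pow_mul] at this
          push_cast
          exact this
        · refine ⟨1 + 2 * (i : ℤ), ?_⟩
          have := H.PP_pow hPz i
          rw [← pow_mul, ← pow_succ] at this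
          push_cast
          exact this
      · intro k hk
        have h1 : (orderOf ζ : ℤ) ∣ k := orderOf_dvd_iff_zpow_eq_one.2 hk
        rw [hζ.orderOf] at h1
        obtain ⟨c, rfl⟩ := h1
        rw [zpow_mul, hh1, one_zpow]
      · rw [eq_top_iff, ← closure_of_eq_top, closure_le]
        rintro _ ⟨i, rfl⟩
        fin_cases i
        · exact subset_closure (Or.inr (Or.inr ⟨1, hX1⟩))
        · exact subset_closure (Or.inl rfl)
        · exact subset_closure (Or.inr (Or.inl rfl))
      · intro s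
        exact (hlift _).trans (U.concW s)
      · exact hπ 1
      · exact hπ 2

open scoped Classical in
/-- characteristic two: two more relators -/
theorem UData.presEven {ζ : Fˣ} {n : ℕ} {R : Finset (FreeGroup (Fin 3))} {W : F → FreeGroup (Fin 3)}
    (U : UData ζ n R W) (hζ : IsGen ζ) [CharP F 2] :
    ∃ R' : Finset (FreeGroup (Fin 3)), R'.card ≤ n + 2 ∧
      IsPres (R' : Set (FreeGroup (Fin 3))) (gSL ζ) := by
  have hq : ∃ k, Fintype.card F = 2 * k + 2 := by
    have h2 : Even (Fintype.card F) := by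
      obtain ⟨m, -, hm⟩ := FiniteField.card F 2
      rw [hm]
      exact (even_two).pow_of_ne_zero m.ne_zero
    have h1 : 1 < Fintype.card F := Fintype.one_lt_card
    obtain ⟨c, hc⟩ := h2
    exact ⟨c - 1, by omega⟩
  obtain ⟨k, hk⟩ := hq
  let u := FreeGroup.of (0 : Fin 3)
  let h := FreeGroup.of (1 : Fin 3)
  let t := FreeGroup.of (2 : Fin 3)
  let r1 := t * h ^ k * t⁻¹ * (h ^ (k + 1))⁻¹
  let r2 := t * u * t⁻¹ * (u⁻¹ * t * u⁻¹)⁻¹
  have hord : orderOf ζ = 2 * k + 1 := by rw [hζ.orderOf, hk]; omega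
  refine ⟨insert r1 (insert r2 R), ?_, ?_⟩
  · refine (Finset.card_insert_le _ _).trans ?_
    have h2 := Finset.card_insert_le r2 R
    have := U.card
    omega
  · apply isPres_of_inj
    · intro w hw
      simp only [Finset.coe_insert, Set.mem_insert_iff, Finset.mem_coe] at hw
      rcases hw with rfl | rfl | hw
      · simp only [r1, h, t, map_mul, map_inv, map_pow, FreeGroup.lift_apply_of, mul_inv_eq_one]
        rw [gSL_1, gSL_2, ← conj_pow, tm_hm, hm_inv, hm_pow, hm_pow]
        congr 1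
        rw [inv_pow, inv_eq_iff_mul_eq_one, ← pow_add, show k + (k + 1) = 2 * k + 1 by ring, ← hord,
          pow_orderOf_eq_one]
      · simp only [r2, u, t, map_mul, map_inv, FreeGroup.lift_apply_of, mul_inv_eq_one]
        rw [gSL_0, gSL_2]
        have := tm_xm (F := F) 1
        rw [inv_one, Units.val_one, hm_one, mul_one] at this
        rw [this, xm_neg]
      · exact U.conc w hw
    · exact closure_gSL ζ hζ W U.concW
    · intro π hπ
      set P := PresentedGroup ((insert r1 (insert r2 R) : Finset (FreeGroup (Fin 3))) :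
        Set (FreeGroup (Fin 3))) with hP
      let g : Fin 3 → P := fun i => PresentedGroup.of i
      have hg : ∀ w ∈ ((insert r1 (insert r2 R) : Finset (FreeGroup (Fin 3))) :
        Set (FreeGroup (Fin 3))), FreeGroup.lift g w = 1 := fun w hw => lift_of_rel hw
      have hlift : ∀ w, π (FreeGroup.lift g w) = FreeGroup.lift (gSL ζ) w := by
        intro w
        have : π.comp (FreeGroup.lift g) = FreeGroup.lift (gSL ζ) := by
          ext1 i
          rw [MonoidHom.comp_apply, FreeGroup.lift_apply_of, FreeGroup.lift_apply_of]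
          exact hπ i
        exact DFunLike.congr_fun this w
      have e1 := hg r1 (by simp)
      have e2 := hg r2 (by simp)
      simp only [r1, h, t, map_mul, map_inv, map_pow, FreeGroup.lift_apply_of, mul_inv_eq_one] at e1
      simp only [r2, u, t, map_mul, map_inv, FreeGroup.lift_apply_of, mul_inv_eq_one] at e2
      obtain ⟨a1, a2, a3⟩ := U.abs P g (fun w hw => hg w (by simp [hw]))
      set X : F → P := fun s => FreeGroup.lift g (W s) with hX
      have hX1 : X 1 = g 0 := a2
      have h0 : X 0 = 1 := by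
        have := a1 0 0
        rw [add_zero] at this
        exact mul_eq_left.1 this.symm
      have hneg : X (-1) = (g 0)⁻¹ := by
        rw [← hX1, eq_comm, inv_eq_iff_mul_eq_one]
        have := a1 1 (-1)
        rw [add_neg_cancel] at this
        exact this.symm.trans h0
      have hu2 : g 0 * g 0 = 1 := by
        have h1 := a1 1 1
        rw [CharTwo.add_self_eq_zero] at h1
        rw [← hX1]
        exact h1.symm.trans h0
      have hui : (g 0)⁻¹ = g 0 := inv_eq_of_mul_eq_one_right hu2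
      have ht2 : (g 2)⁻¹ = g 2 := by
        have h3 : (g 2 * g 0 * (g 2)⁻¹)⁻¹ = ((g 0)⁻¹ * g 2 * (g 0)⁻¹)⁻¹ := by rw [e2]
        have h4 : (g 2 * g 0 * (g 2)⁻¹)⁻¹ = g 2 * g 0 * (g 2)⁻¹ := by
          rw [mul_inv_rev, mul_inv_rev, inv_inv, hui, mul_assoc]
        rw [h4, e2, mul_inv_rev, mul_inv_rev, inv_inv, hui, ← mul_assoc] at h3
        exact (mul_left_cancel (mul_right_cancel h3)).symm
      have ht22 : g 2 * g 2 = 1 := by
        nth_rewrite 1 [← ht2]
        exact inv_mul_cancel _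
      have e1' : g 2 * g 1 ^ (k + 1) * (g 2)⁻¹ = g 1 ^ k := by
        rw [← e1]
        have : g 2 * (g 2 * g 1 ^ k * (g 2)⁻¹) * (g 2)⁻¹ = (g 2 * g 2) * g 1 ^ k * (g 2 * g 2)⁻¹ := by group
        rw [this, ht22]; group
      have e3 : g 2 * g 1 * (g 2)⁻¹ = (g 1)⁻¹ := by
        have : g 2 * g 1 * (g 2)⁻¹ = (g 2 * g 1 ^ (k + 1) * (g 2)⁻¹) * (g 2 * g 1 ^ k * (g 2)⁻¹)⁻¹ := by
          rw [pow_succ']; group
        rw [this, e1', e1, pow_succ']; group
      have hh1 : g 1 ^ (2 * k + 1) = 1 := by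
        rw [← conj_pow, e3] at e1
        have h5 : g 1 ^ k * ((g 1)⁻¹) ^ k = 1 := by rw [inv_pow, mul_inv_cancel]
        rw [e1] at h5
        rw [← h5, ← pow_add]; congr 1; ring
      have H : SLRel ζ X (g 1) (g 2) := ⟨a1, a3, e3, by rw [hneg, hX1]; exact e2, hζ⟩
      refine H.inj ?_ ?_ ?_ π ?_ ?_ ?_
      · have hev : ∀ i : ℕ, ∃ j : ℤ, PP X (g 1) (g 2) ((ζ ^ (2 * i) : Fˣ) : F) j := by
          intro i
          refine ⟨0 + 2 * (i : ℤ), ?_⟩
          have := H.PP_pow H.PP_one i
          rw [mul_one, ← pow_mul] at this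
          push_cast
          exact this
        intro a
        obtain ⟨l, rfl⟩ := hζ a
        rcases Nat.even_or_odd' l with ⟨i, rfl | rfl⟩
        · exact hev i
        · have : ζ ^ (2 * i + 1) = ζ ^ (2 * (i + k + 1)) := by
            have h6 : ζ ^ (2 * k + 1) = 1 := by rw [← hord]; exact pow_orderOf_eq_one ζ
            calc ζ ^ (2 * i + 1) = ζ ^ (2 * i + 1) * ζ ^ (2 * k + 1) := by rw [h6, mul_one]
              _ = _ := by rw [← pow_add]; congr 1; ring
          rw [this]
          exact hev _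
      · intro l hl
        have h1 : (orderOf ζ : ℤ) ∣ l := orderOf_dvd_iff_zpow_eq_one.2 hl
        rw [hord] at h1
        obtain ⟨c, rfl⟩ := h1
        rw [zpow_mul, zpow_natCast, hh1, one_zpow]
      · rw [eq_top_iff, ← closure_of_eq_top, closure_le]
        rintro _ ⟨i, rfl⟩
        fin_cases i
        · exact subset_closure (Or.inr (Or.inr ⟨1, hX1⟩))
        · exact subset_closure (Or.inl rfl)
        · exact subset_closure (Or.inr (Or.inl rfl))
      · intro s
        exact (hlift _).trans (U.concW s)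
      · exact hπ 1
      · exact hπ 2

end ud

section build
variable {F : Type v} [Field F] {p : ℕ} [hp : Fact p.Prime] [Algebra (ZMod p) F] [CharP F p]

theorem Psi_xm (a : Fˣ) (f : (ZMod p)[X]) : Psi (xm (1 : F)) (hm a) f = xm (aeval ((a : F) ^ 2) f) := by
  have h1 : ∀ (c : ℕ → ℕ) (n : ℕ), pw (xm (1 : F)) (hm a) c n =
      xm (∑ j ∈ Finset.range n, (c j : F) * ((a : F) ^ 2) ^ j) := by
    intro c n
    induction n with
    | zero => simp [pw, xm_zero]
    | succ n ih =>
      rw [pw, ih, xm_pow, mul_one, hm_pow, hm_xm, ← xm_add, Finset.sum_range_succ]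
      congr 2
      push_cast
      ring
  rw [Psi, h1, aeval_eq_sum_range]
  congr 1
  apply Finset.sum_congr rfl
  intro j _
  rw [Algebra.smul_def]
  congr 1
  rw [← map_natCast (algebraMap (ZMod p) F), ZMod.natCast_zmod_val]

/-- the word for `x(s)` -/
noncomputable def Wd (i : ℕ) (F0 : F → (ZMod p)[X]) (s : F) : FreeGroup (Fin 3) :=
  Psi (FreeGroup.of 0) (FreeGroup.of 1 ^ i) (F0 s)

omit [CharP F p] in
theorem lift_Wd {G : Type*} [Group G] (g : Fin 3 → G) (i : ℕ) (F0 : F → (ZMod p)[X]) (s : F) :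
    FreeGroup.lift g (Wd i F0 s) = XX (g 0) (g 1 ^ i) F0 s := by
  rw [Wd, map_Psi, map_pow, FreeGroup.lift_apply_of, FreeGroup.lift_apply_of]; rfl

open scoped Classical in
theorem udata_build {ζ : Fˣ} (i : ℕ) {F0 : F → (ZMod p)[X]}
    (hF : ∀ s, aeval (((ζ ^ i : Fˣ) : F) ^ 2) (F0 s) = s)
    {n : ℕ} (E : Finset (FreeGroup (Fin 3))) (hn : E.card ≤ n)
    (hE : ∀ w ∈ E, FreeGroup.lift (gSL ζ) w = 1)
    (hCC : ∀ (G : Type) [Group G] (g : Fin 3 → G), (∀ w ∈ E, FreeGroup.lift g w = 1) → g 0 ^ p = 1 →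
      Psi (g 0) (g 1 ^ i) (minpoly (ZMod p) (((ζ ^ i : Fˣ) : F) ^ 2)) = 1 → CC (g 0) (g 1 ^ i))
    (hh : i = 1 ∨ FreeGroup.of 1 * FreeGroup.of 0 * (FreeGroup.of 1)⁻¹ *
      (Wd i F0 ((ζ : F) ^ 2))⁻¹ ∈ E) :
    UData ζ (n + 2) (insert (FreeGroup.of 0 ^ p)
      (insert (Psi (FreeGroup.of 0) (FreeGroup.of 1 ^ i) (minpoly (ZMod p) (((ζ ^ i : Fˣ) : F) ^ 2))) E))
      (Wd i F0) := by
  have hW : ∀ s, FreeGroup.lift (gSL ζ) (Wd i F0 s) = xm s := by
    intro s
    rw [lift_Wd, XX, gSL_0, gSL_1, hm_pow, Psi_xm, hF]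
  refine ⟨?_, ?_, hW, ?_⟩
  · refine (Finset.card_insert_le _ _).trans ?_
    have := Finset.card_insert_le (Psi (FreeGroup.of 0) (FreeGroup.of 1 ^ i)
      (minpoly (ZMod p) (((ζ ^ i : Fˣ) : F) ^ 2)) : FreeGroup (Fin 3)) E
    omega
  · intro w hw
    rw [Finset.mem_insert, Finset.mem_insert] at hw
    rcases hw with rfl | rfl | hw
    · rw [map_pow, FreeGroup.lift_apply_of, gSL_0, xm_pow, CharP.cast_eq_zero, zero_mul, xm_zero]
    · rw [map_Psi, map_pow, FreeGroup.lift_apply_of, FreeGroup.lift_apply_of, gSL_0, gSL_1, hm_pow, Psi_xm,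
        minpoly.aeval, xm_zero]
    · exact hE w hw
  · intro G _ g hg
    have h1 := hg _ (Finset.mem_insert_self _ _)
    rw [map_pow, FreeGroup.lift_apply_of] at h1
    have h2 := hg _ (Finset.mem_insert_of_mem (Finset.mem_insert_self _ _))
    rw [map_Psi, map_pow, FreeGroup.lift_apply_of, FreeGroup.lift_apply_of] at h2
    have hEg : ∀ w ∈ E, FreeGroup.lift g w = 1 := fun w hw =>
      hg w (Finset.mem_insert_of_mem (Finset.mem_insert_of_mem hw))
    have hcc := hCC G g hEg h1 h2
    refine ⟨?_, ?_, ?_⟩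
    · intro s r
      rw [lift_Wd, lift_Wd, lift_Wd]
      exact XX_add h1 hcc h2 hF s r
    · rw [lift_Wd]
      exact XX_one h1 hcc h2 hF
    · intro s
      rw [lift_Wd, lift_Wd]
      rcases hh with rfl | hh
      · have := XX_conj h1 hcc h2 hF s
        rw [pow_one ζ, pow_one (g 1)] at this
        rw [pow_one]
        exact this
      · refine XX_conj' h1 hcc h2 hF ((Commute.refl _).pow_right i) ?_ s
        have h3 := hEg _ hh
        rw [map_mul, map_mul, map_mul, map_inv, map_inv, FreeGroup.lift_apply_of, FreeGroup.lift_apply_of,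
          mul_inv_eq_one, lift_Wd] at h3
        exact h3

end build

end Cfsg.Agent.GK
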