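import Cfsg.Agent.GK.Fld

/-!
Presentations of `SL₂(F)`: at most 8 relators in odd characteristic, at most 5 in characteristic two.
-/

set_option autoImplicit false

namespace Cfsg.Agent.GK

open Subgroup Polynomial

universe v

section
variable {F : Type v} [Field F] [Fintype F] {ζ : Fˣ}

theorem lift3 {G : Type*} [Group G] (g : Fin 3 → G) (i : Fin 3) : FreeGroup.lift g (FreeGroup.of i) = g i :=
  FreeGroup.lift_apply_of

/-- prime fields -/
theorem udata_prime {p : ℕ} [hp : Fact p.Prime] [Algebra (ZMod p) F] [CharP F p] (hζ : IsGen ζ)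
    (h1 : Module.finrank (ZMod p) F = 1) :
    ∃ R W, UData ζ 2 R W := by
  classical
  choose F0 hF using (gen_adjoin_sq (F := F) (p := p) hζ)
  refine ⟨_, _, udata_build (p := p) (n := 0) 1 hF ∅ (by simp) (by simp) ?_ (Or.inl rfl)⟩
  intro G _ g _ _ hm
  exact CC_of_deg_one (minpoly.monic (Algebra.IsIntegral.isIntegral _)) hm (h1 ▸ minpoly.natDegree_le _)

/-- fields of degree at most two -/
theorem udata_two {p : ℕ} [hp : Fact p.Prime] [Algebra (ZMod p) F] [CharP F p] (hζ : IsGen ζ)
    (h1 : Module.finrank (ZMod p) F ≤ 2) :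
    ∃ R W, UData ζ 3 R W := by
  classical
  choose F0 hF using (gen_adjoin_sq (F := F) (p := p) hζ)
  let u := FreeGroup.of (0 : Fin 3)
  let h := FreeGroup.of (1 : Fin 3)
  let e := (u * (h * u * h⁻¹)) * ((h * u * h⁻¹) * u)⁻¹
  refine ⟨_, _, udata_build (p := p) (n := 1) 1 hF {e} (by simp) ?_ ?_ (Or.inl rfl)⟩
  · intro w hw
    rw [Finset.mem_singleton] at hw
    subst hw
    simp only [e, u, h, map_mul, map_inv, lift3, mul_inv_eq_one]
    rw [gSL_0, gSL_1, hm_xm, ← xm_add, ← xm_add, add_comm]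
  · intro G _ g he _ hm
    have he := he e (by simp)
    simp only [e, u, h, map_mul, map_inv, lift3, mul_inv_eq_one] at he
    refine CC_of_deg_two (minpoly.monic (Algebra.IsIntegral.isIntegral _)) hm
      ((minpoly.natDegree_le _).trans h1) ?_
    rw [pow_one]
    exact he

/-- characteristic two -/
theorem udata_even [Algebra (ZMod 2) F] [CharP F 2] (hζ : IsGen ζ) (h1 : 2 < Fintype.card F) :
    ∃ R W, UData ζ 3 R W := by
  classical
  choose F0 hF using (gen_adjoin_sq (F := F) (p := 2) hζ)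
  have hζ1 : (ζ : F) + 1 ≠ 0 := by
    intro h
    have h2 : (ζ : F) = 1 := by
      have := eq_neg_of_add_eq_zero_left h
      rw [this, CharTwo.neg_eq]
    have h3 : orderOf ζ = 1 := by
      rw [orderOf_eq_one_iff]; ext; exact h2
    rw [hζ.orderOf] at h3
    omega
  obtain ⟨j, hj⟩ := hζ (Units.mk0 _ hζ1)
  have hj' : ((ζ ^ j : Fˣ) : F) = ζ + 1 := by rw [hj]; rfl
  let u := FreeGroup.of (0 : Fin 3)
  let h := FreeGroup.of (1 : Fin 3)
  let e := (h * u * h⁻¹) * (u * (h ^ j * u * (h ^ j)⁻¹))⁻¹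
  refine ⟨_, _, udata_build (p := 2) (n := 1) 1 hF {e} (by simp) ?_ ?_ (Or.inl rfl)⟩
  · intro w hw
    rw [Finset.mem_singleton] at hw
    subst hw
    simp only [e, u, h, map_mul, map_inv, map_pow, lift3, mul_inv_eq_one]
    rw [gSL_0, gSL_1, hm_pow, hm_xm, hm_xm, ← xm_add, hj']
    congr 1
    have h2 : (2 : F) = 0 := CharTwo.two_eq_zero
    linear_combination (-(ζ : F) - 1) * h2
  · intro G _ g he hu hm
    have he := he e (by simp)
    simp only [e, u, h, map_mul, map_inv, map_pow, lift3, mul_inv_eq_one] at he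
    have hu2 : ∀ x : G, (x * g 0 * x⁻¹) * (x * g 0 * x⁻¹) = 1 := by
      intro x
      have : (x * g 0 * x⁻¹) * (x * g 0 * x⁻¹) = x * (g 0 ^ 2) * x⁻¹ := by rw [pow_two]; group
      rw [this, hu]; group
    have hui : (g 0)⁻¹ = g 0 := inv_eq_of_mul_eq_one_right (by rw [← pow_two]; exact hu)
    set v := g 1 ^ j * g 0 * (g 1 ^ j)⁻¹ with hv
    have hvi : v⁻¹ = v := inv_eq_of_mul_eq_one_right (hu2 _)
    have huv : Commute (g 0) v := by
      have h3 := hu2 (g 1)
      rw [he] at h3
      have h4 : g 0 * v = (g 0 * v)⁻¹ := eq_inv_of_mul_eq_one_left h3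
      rw [mul_inv_rev, hui, hvi] at h4
      exact h4
    rw [pow_one]
    refine triangle (B := g 1 ^ j) ((Commute.refl _).pow_right j) he ?_
    rw [he]
    exact (Commute.refl _).mul_right huv

/-- odd characteristic, general case -/
theorem udata_odd {p : ℕ} [hp : Fact p.Prime] [Algebra (ZMod p) F] [CharP F p] (hζ : IsGen ζ)
    (hodd : Odd (Fintype.card F)) (h5 : 5 < Fintype.card F) (h9 : Fintype.card F ≠ 9) :
    ∃ R W, UData ζ 5 R W := by
  classical
  have h2 : (2 : F) ≠ 0 := by
    intro h2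
    have h3 : ((Fintype.card F : ℕ) : F) = 0 := FiniteField.cast_card_eq_zero F
    obtain ⟨c, hc⟩ := hodd
    rw [hc] at h3
    push_cast at h3
    rw [h2, zero_mul, zero_add] at h3
    exact one_ne_zero h3
  have hζ0 : (ζ : F) ≠ 0 := ζ.ne_zero
  have hord : ¬ (orderOf ζ ≤ 4) := by
    rw [hζ.orderOf]; omega
  have ha0 : ((ζ : F) + (ζ : F)⁻¹) / 2 ≠ 0 := by
    intro h
    rw [div_eq_zero_iff] at h
    have h3 := h.resolve_right h2
    have h4 : (ζ : F) ^ 2 = -1 := by
      have : (ζ : F) ^ 2 + 1 = ((ζ : F) + (ζ : F)⁻¹) * ζ := by field_simp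
      rw [h3, zero_mul] at this
      exact eq_neg_of_add_eq_zero_left this
    apply hord
    apply orderOf_le_of_pow_eq_one (by norm_num)
    ext
    push_cast
    calc (ζ : F) ^ 4 = ((ζ : F) ^ 2) ^ 2 := by ring
      _ = 1 := by rw [h4]; ring
  have hb0 : ((ζ : F) - (ζ : F)⁻¹) / 2 ≠ 0 := by
    intro h
    rw [div_eq_zero_iff] at h
    have h3 := h.resolve_right h2
    have h4 : (ζ : F) ^ 2 = 1 := by
      have : (ζ : F) ^ 2 - 1 = ((ζ : F) - (ζ : F)⁻¹) * ζ := by field_simp
      rw [h3, zero_mul] at this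
      exact sub_eq_zero.1 this
    apply hord
    refine (orderOf_le_of_pow_eq_one (n := 2) (by norm_num) ?_).trans (by norm_num)
    ext
    push_cast
    exact h4
  obtain ⟨i, hi⟩ := hζ (Units.mk0 _ ha0)
  obtain ⟨j, hj⟩ := hζ (Units.mk0 _ hb0)
  have hi' : ((ζ ^ i : Fˣ) : F) = (ζ + (ζ : F)⁻¹) / 2 := by rw [hi]; rfl
  have hj' : ((ζ ^ j : Fˣ) : F) = (ζ - (ζ : F)⁻¹) / 2 := by rw [hj]; rfl
  choose F0 hF using (gen_adjoin_trace (F := F) (p := p) hζ hodd h9 (a := ((ζ ^ i : Fˣ) : F))
    (by rw [hi']; field_simp))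
  let u := FreeGroup.of (0 : Fin 3)
  let h := FreeGroup.of (1 : Fin 3)
  let e1 := (h ^ i * u * (h ^ i)⁻¹) * (u * (h ^ j * u * (h ^ j)⁻¹))⁻¹
  let e2 := (u * (h ^ i * u * (h ^ i)⁻¹)) * ((h ^ i * u * (h ^ i)⁻¹) * u)⁻¹
  let e3 := FreeGroup.of 1 * FreeGroup.of 0 * (FreeGroup.of 1)⁻¹ * (Wd i F0 ((ζ : F) ^ 2))⁻¹
  refine ⟨_, _, udata_build (p := p) (n := 3) i hF {e1, e2, e3} Finset.card_le_three ?_ ?_
    (Or.inr (by simp [e3]))⟩
  · intro w hw
    simp only [Finset.mem_insert, Finset.mem_singleton] at hw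
    rcases hw with rfl | rfl | rfl
    · simp only [e1, u, h, map_mul, map_inv, map_pow, lift3, mul_inv_eq_one]
      rw [gSL_0, gSL_1, hm_pow, hm_pow, hm_xm, hm_xm, ← xm_add, hj', hi']
      congr 1
      field_simp
      ring
    · simp only [e2, u, h, map_mul, map_inv, map_pow, lift3, mul_inv_eq_one]
      rw [gSL_0, gSL_1, hm_pow, hm_xm, ← xm_add, ← xm_add, add_comm]
    · simp only [e3, map_mul, map_inv, lift3, mul_inv_eq_one]
      rw [lift_Wd, XX, gSL_0, gSL_1, hm_pow, Psi_xm, hF, hm_xm, mul_one]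
  · intro G _ g he hu hm
    have he1 := he e1 (by simp)
    simp only [e1, u, h, map_mul, map_inv, map_pow, lift3, mul_inv_eq_one] at he1
    have he2 := he e2 (by simp)
    simp only [e2, u, h, map_mul, map_inv, map_pow, lift3, mul_inv_eq_one] at he2
    exact triangle (B := g 1 ^ j) (((Commute.refl (g 1)).pow_left i).pow_right j) he1 he2

/-- odd characteristic -/
theorem exists_udata_odd (hζ : IsGen ζ) (hodd : Odd (Fintype.card F)) : ∃ R W, UData ζ 5 R W := by
  classical
  obtain ⟨p, hpc⟩ := CharP.exists F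
  have hp : Fact p.Prime := ⟨CharP.char_is_prime F p⟩
  let _ : Algebra (ZMod p) F := ZMod.algebra F p
  have hmono : ∀ {n : ℕ} {R W}, UData ζ n R W → n ≤ 5 → UData ζ 5 R W :=
    fun U h => ⟨U.card.trans h, U.conc, U.concW, U.abs⟩
  have hcard := Module.card_eq_pow_finrank (K := ZMod p) (V := F)
  rw [ZMod.card] at hcard
  have hp2 : 2 ≤ p := hp.out.two_le
  have hp3 : 3 ≤ p := by
    rcases Nat.lt_or_ge p 3 with h | h
    · exfalso
      have hp2' : Even p := by
        have : p = 2 := by omega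
        rw [this]; exact even_two
      have hf : 0 < Module.finrank (ZMod p) F := Module.finrank_pos
      rw [hcard] at hodd
      exact (Nat.not_odd_iff_even.2 (hp2'.pow_of_ne_zero (by omega))) hodd
    · exact h
  have hf : 0 < Module.finrank (ZMod p) F := Module.finrank_pos
  rcases Nat.lt_or_ge (Module.finrank (ZMod p) F) 2 with h1 | h1
  · obtain ⟨R, W, U⟩ := udata_prime (p := p) hζ (by omega)
    exact ⟨R, W, hmono U (by norm_num)⟩
  · rcases Nat.lt_or_ge (Module.finrank (ZMod p) F) 3 with h2 | h2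
    · obtain ⟨R, W, U⟩ := udata_two (p := p) hζ (by omega)
      exact ⟨R, W, hmono U (by norm_num)⟩
    · have h4 : 3 ^ 3 ≤ Fintype.card F := by
        rw [hcard]
        exact (Nat.pow_le_pow_left hp3 3).trans (Nat.pow_le_pow_right (by omega) h2)
      exact udata_odd (p := p) hζ hodd (by omega) (by omega)

/-- characteristic two -/
theorem exists_udata_even [CharP F 2] (hζ : IsGen ζ) : ∃ R W, UData ζ 3 R W := by
  classical
  let _ : Algebra (ZMod 2) F := ZMod.algebra F 2
  rcases Nat.lt_or_ge 2 (Fintype.card F) with h | h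
  · exact udata_even hζ h
  · have hcard := Module.card_eq_pow_finrank (K := ZMod 2) (V := F)
    rw [ZMod.card] at hcard
    have h1 : Module.finrank (ZMod 2) F = 1 := by
      have hf : 0 < Module.finrank (ZMod 2) F := Module.finrank_pos
      by_contra hcon
      have h2 : 2 ^ 2 ≤ Fintype.card F := by
        rw [hcard]
        exact Nat.pow_le_pow_right (by omega) (by omega)
      omega
    obtain ⟨R, W, U⟩ := udata_prime (p := 2) hζ h1
    exact ⟨R, W, U.card.trans (by norm_num), U.conc, U.concW, U.abs⟩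

/-- 8 relators in odd characteristic -/
theorem sl2_pres_odd (hζ : IsGen ζ) (hodd : Odd (Fintype.card F)) :
    ∃ R : Finset (FreeGroup (Fin 3)), R.card ≤ 8 ∧ IsPres (R : Set (FreeGroup (Fin 3))) (gSL ζ) := by
  obtain ⟨R, W, U⟩ := exists_udata_odd hζ hodd
  exact U.presOdd hζ hodd

/-- 5 relators in characteristic two -/
theorem sl2_pres_even (hζ : IsGen ζ) [CharP F 2] :
    ∃ R : Finset (FreeGroup (Fin 3)), R.card ≤ 5 ∧ IsPres (R : Set (FreeGroup (Fin 3))) (gSL ζ) := by
  obtain ⟨R, W, U⟩ := exists_udata_even hζ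
  exact U.presEven hζ

theorem even_or_odd_card (F : Type v) [Field F] [Fintype F] : CharP F 2 ∨ Odd (Fintype.card F) := by
  rcases Nat.even_or_odd (Fintype.card F) with h | h
  · left
    obtain ⟨p, hpc⟩ := CharP.exists F
    obtain ⟨n, hp, hn⟩ := FiniteField.card F p
    rw [hn, Nat.even_pow] at h
    have := (Nat.Prime.even_iff hp).1 h.1
    rw [← this]; exact hpc
  · exact Or.inr h

end

section quot
variable {ι : Type*} {G : Type*} [Group G]

/-- adding a relator -/
theorem IsPres.quot {R : Set (FreeGroup ι)} {x : ι → G} (h : IsPres R x) (w : FreeGroup ι) (N : Subgroup G)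
    [N.Normal] (hN : N = normalClosure {FreeGroup.lift x w}) :
    IsPres (insert w R) (fun i => (QuotientGroup.mk' N) (x i)) := by
  have h1 : FreeGroup.lift (fun i => (QuotientGroup.mk' N) (x i)) = (QuotientGroup.mk' N).comp (FreeGroup.lift x) := by
    ext i
    simp
  refine ⟨fun v => ?_, ?_⟩
  · rw [h1, MonoidHom.comp_apply, QuotientGroup.mk'_apply, QuotientGroup.eq_one_iff, hN]
    constructor
    · intro hv
      have h2 : Subgroup.map (FreeGroup.lift x) (normalClosure {w}) = normalClosure {FreeGroup.lift x w} := by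
        rw [map_normalClosure _ _ h.surj, Set.image_singleton]
      rw [← h2] at hv
      obtain ⟨v', hv', hvv⟩ := hv
      have h3 : v * v'⁻¹ ∈ normalClosure R := by
        rw [← h.ker, map_mul, map_inv, hvv, mul_inv_cancel]
      have h4 : v = (v * v'⁻¹) * v' := by group
      rw [h4]
      exact mul_mem (normalClosure_mono (Set.subset_insert _ _) h3)
        (normalClosure_mono (Set.singleton_subset_iff.2 (Set.mem_insert _ _)) hv')
    · intro hv
      have h2 : normalClosure (insert w R) ≤ (normalClosure {FreeGroup.lift x w}).comap (FreeGroup.lift x) := by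
        apply normalClosure_le_normal
        intro r hr
        rcases hr with rfl | hr
        · exact subset_normalClosure rfl
        · change FreeGroup.lift x r ∈ normalClosure {FreeGroup.lift x _}
          rw [(h.ker r).2 (subset_normalClosure hr)]
          exact one_mem _
      exact h2 hv
  · rw [h1]
    exact (QuotientGroup.mk'_surjective N).comp h.surj

end quot

section center
variable {F : Type v} [Field F]

theorem center_sl2 : center (Matrix.SpecialLinearGroup (Fin 2) F) = normalClosure {hm (-1)} := by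
  have h1 : ∀ A : Matrix.SpecialLinearGroup (Fin 2) F, hm (-1) * A = A * hm (-1) := by
    intro A
    apply slext
    rw [Matrix.SpecialLinearGroup.coe_mul, Matrix.SpecialLinearGroup.coe_mul, hm_coe]
    have : !![((-1 : Fˣ) : F), 0; 0, (((-1)⁻¹ : Fˣ) : F)] = -(1 : Matrix (Fin 2) (Fin 2) F) := by
      rw [Matrix.one_fin_two]
      simp
    rw [this]; simp
  apply le_antisymm
  · intro A hA
    rw [Matrix.SpecialLinearGroup.mem_center_iff] at hA
    obtain ⟨r, hr, hA⟩ := hA
    rw [Fintype.card_fin] at hr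
    have h2 : (r - 1) * (r + 1) = 0 := by linear_combination hr
    have h3 : A = 1 ∨ A = hm (-1) := by
      rcases mul_eq_zero.1 h2 with h2 | h2
      · left
        apply slext
        rw [← hA, sub_eq_zero.1 h2, map_one, Matrix.SpecialLinearGroup.coe_one]
      · right
        apply slext
        rw [← hA, eq_neg_of_add_eq_zero_left h2, map_neg, map_one, hm_coe, Matrix.one_fin_two]
        simp
    rcases h3 with rfl | rfl
    · exact one_mem _
    · exact subset_normalClosure rfl
  · apply normalClosure_le_normal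
    rw [Set.singleton_subset_iff]
    exact mem_center_iff.2 (fun A => (h1 A).symm)

end center

end Cfsg.Agent.GK
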