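import Cfsg.Agent.GK.SL2Q
import Cfsg.Agent.Stb.SLn

/-!
The rank two part: `SL₃(F)` generated by `X s`, `h`, `t`, `c`.
-/

set_option autoImplicit false

namespace Cfsg.Agent.GK

open Subgroup

section abs3
variable {G : Type*} [Group G] {F : Type*} [Field F]

/-- the root elements -/
def Yr (X : F → G) (t c : G) (i j : Fin 3) (r : F) : G :=
  match i, j with
  | 0, 1 => X r
  | 1, 2 => c * X (-r) * c⁻¹
  | 2, 0 => c⁻¹ * X r * c
  | 1, 0 => t * X (-r) * t⁻¹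
  | 2, 1 => c * t * X r * t⁻¹ * c⁻¹
  | 0, 2 => c⁻¹ * t * X (-r) * t⁻¹ * c
  | _, _ => 1

/-- relations of the monomial group -/
structure T3 (h t c : G) : Prop where
  c3 : c * c * c = 1
  tc : t * c * t * c = 1
  th : t * h * t⁻¹ = h⁻¹
  hhh : h * (c * h * c⁻¹) * (c⁻¹ * h * c) = 1

/-- with the root group -/
structure P3 (ζ : Fˣ) (X : F → G) (h t c : G) : Prop extends T3 h t c where
  add : ∀ s r, X (s + r) = X s * X r
  hX : ∀ s, h * X s * h⁻¹ = X (ζ ^ 2 * s)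
  kX : ∀ s, (c * h⁻¹ * c⁻¹) * X s * (c * h⁻¹ * c⁻¹)⁻¹ = X (ζ * s)

/-- rank two data -/
structure S3 (ζ : Fˣ) (X : F → G) (h t c : G) : Prop extends P3 ζ X h t c where
  tx : t * X 1 * t⁻¹ = (X 1)⁻¹ * t * (X 1)⁻¹
  gen : IsGen ζ
  A1 : ∀ r, Commute (X 1) (Yr X t c 0 2 r)
  A2 : ∀ r, Commute (X 1) (Yr X t c 2 1 r)
  A3 : ∀ r, X 1 * Yr X t c 1 2 r = Yr X t c 0 2 r * (Yr X t c 1 2 r * X 1)

variable {ζ : Fˣ} {X : F → G} {h t c : G}

theorem act_pow {f : F → G} {k : G} {a : F} (H : ∀ s, k * f s * k⁻¹ = f (a * s)) (n : ℕ) (s : F) :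
    k ^ n * f s * (k ^ n)⁻¹ = f (a ^ n * s) := by
  induction n with
  | zero => simp
  | succ n ih =>
    have : k ^ (n + 1) * f s * (k ^ (n + 1))⁻¹ = k * (k ^ n * f s * (k ^ n)⁻¹) * k⁻¹ := by
      rw [pow_succ']; group
    rw [this, ih, H, pow_succ', mul_assoc]

theorem act_inv {f : F → G} {k : G} {a : F} (ha : a ≠ 0) (H : ∀ s, k * f s * k⁻¹ = f (a * s)) (s : F) :
    k⁻¹ * f s * k⁻¹⁻¹ = f (a⁻¹ * s) := by
  have := H (a⁻¹ * s)
  rw [← mul_assoc, mul_inv_cancel₀ ha, one_mul] at this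
  rw [← this]; group

theorem act_mul {f : F → G} {k l : G} {a b : F} (H : ∀ s, k * f s * k⁻¹ = f (a * s))
    (H' : ∀ s, l * f s * l⁻¹ = f (b * s)) (s : F) :
    (k * l) * f s * (k * l)⁻¹ = f (a * b * s) := by
  have : (k * l) * f s * (k * l)⁻¹ = k * (l * f s * l⁻¹) * k⁻¹ := by group
  rw [this, H', H, mul_assoc]

theorem P3.zero (H : P3 ζ X h t c) : X 0 = 1 := by
  have := H.add 0 0
  rw [add_zero] at this
  exact mul_eq_left.1 this.symm

theorem P3.neg (H : P3 ζ X h t c) (s : F) : X (-s) = (X s)⁻¹ := by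
  rw [eq_comm, inv_eq_iff_mul_eq_one, ← H.add, add_neg_cancel, H.zero]

theorem T3.cc (H : T3 h t c) : c * c = c⁻¹ := eq_inv_of_mul_eq_one_left H.c3

theorem T3.cc' (H : T3 h t c) : c⁻¹ * c⁻¹ = c := by
  rw [← mul_inv_rev, H.cc, inv_inv]

theorem T3.tct (H : T3 h t c) : t * c = c⁻¹ * t⁻¹ := by
  rw [← mul_inv_rev, eq_inv_iff_mul_eq_one, ← mul_assoc]; exact H.tc

theorem T3.th' (H : T3 h t c) : t⁻¹ * h * t = h⁻¹ := by
  have := H.th
  have h2 : h = t⁻¹ * (t * h * t⁻¹) * t := by group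
  rw [this] at h2
  have h3 := congrArg (fun x => x⁻¹) h2
  rw [h3]; group

/-- conjugation of `h₁` by `t` -/
theorem T3.th1 (H : T3 h t c) : t * (c * h * c⁻¹) * t⁻¹ = (c⁻¹ * h * c)⁻¹ := by
  have e : (t * c)⁻¹ = t * c := by
    rw [inv_eq_iff_mul_eq_one, ← mul_assoc]; exact H.tc
  calc t * (c * h * c⁻¹) * t⁻¹ = (t * c) * h * (t * c)⁻¹ := by group
    _ = (c⁻¹ * t⁻¹) * h * (t * c) := by rw [e, ← H.tct]
    _ = c⁻¹ * (t⁻¹ * h * t) * c := by group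
    _ = _ := by rw [H.th']; group

theorem T3.hhh' (H : T3 h t c) : (c * h * c⁻¹) * (c⁻¹ * h * c) * h = 1 := by
  have h1 : c * (h * (c * h * c⁻¹) * (c⁻¹ * h * c)) * c⁻¹ = 1 := by rw [H.hhh]; group
  have h2 : c * (h * (c * h * c⁻¹) * (c⁻¹ * h * c)) * c⁻¹ =
      (c * h * c⁻¹) * ((c * c) * h * (c⁻¹ * c⁻¹)) * h := by group
  rw [h2, H.cc, H.cc'] at h1
  exact h1

theorem T3.th2 (H : T3 h t c) : t * (c⁻¹ * h * c) * t⁻¹ = (c * h * c⁻¹)⁻¹ := by
  have h1 : c⁻¹ * h * c = (h * (c * h * c⁻¹))⁻¹ := by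
    rw [eq_inv_iff_mul_eq_one]
    have := H.hhh
    rw [mul_eq_one_iff_inv_eq] at this
    rw [← this]; group
  have h2 : t * (h * (c * h * c⁻¹))⁻¹ * t⁻¹ = ((t * h * t⁻¹) * (t * (c * h * c⁻¹) * t⁻¹))⁻¹ := by group
  have h3 := H.hhh'
  rw [mul_assoc, mul_eq_one_iff_inv_eq] at h3
  rw [h1, h2, H.th, H.th1, h3]; group

/-- `t²` commutes with everything in the torus and with `X` -/
theorem T3.zh (H : T3 h t c) : Commute (t * t) h := by
  have : (t * t) * h * (t * t)⁻¹ = h := by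
    have h1 : (t * t) * h * (t * t)⁻¹ = t * (t * h * t⁻¹) * t⁻¹ := by group
    have h2 : t * h⁻¹ * t⁻¹ = (t * h * t⁻¹)⁻¹ := by group
    rw [h1, H.th, h2, H.th, inv_inv]
  exact mul_inv_eq_iff_eq_mul.1 this

theorem T3.zh1 (H : T3 h t c) : Commute (t * t) (c * h * c⁻¹) := by
  have : (t * t) * (c * h * c⁻¹) * (t * t)⁻¹ = c * h * c⁻¹ := by
    have h1 : (t * t) * (c * h * c⁻¹) * (t * t)⁻¹ = t * (t * (c * h * c⁻¹) * t⁻¹) * t⁻¹ := by group
    have h2 : t * (c⁻¹ * h * c)⁻¹ * t⁻¹ = (t * (c⁻¹ * h * c) * t⁻¹)⁻¹ := by group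
    rw [h1, H.th1, h2, H.th2, inv_inv]
  exact mul_inv_eq_iff_eq_mul.1 this

theorem T3.zk (H : T3 h t c) : Commute (t * t) (c * h⁻¹ * c⁻¹) := by
  have : c * h⁻¹ * c⁻¹ = (c * h * c⁻¹)⁻¹ := by group
  rw [this]
  exact H.zh1.inv_right

/-- action of `k` on the other root groups -/
theorem P3.k02 (H : P3 ζ X h t c) (s : F) :
    (c * h⁻¹ * c⁻¹) * Yr X t c 0 2 s * (c * h⁻¹ * c⁻¹)⁻¹ = Yr X t c 0 2 ((ζ : F)⁻¹ * s) := by
  have e : t⁻¹ * (c⁻¹ * h⁻¹ * c) * t = c * h * c⁻¹ := by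
    have := H.th1
    have h2 : c * h * c⁻¹ = t⁻¹ * (t * (c * h * c⁻¹) * t⁻¹) * t := by group
    rw [this] at h2
    rw [h2]; group
  have e2 : c * h * c⁻¹ = (c * h⁻¹ * c⁻¹)⁻¹ := by group
  have h1 := act_inv ζ.ne_zero H.kX (-s)
  rw [← e2] at h1
  change (c * h⁻¹ * c⁻¹) * (c⁻¹ * t * X (-s) * t⁻¹ * c) * (c * h⁻¹ * c⁻¹)⁻¹ = c⁻¹ * t * X (-((ζ : F)⁻¹ * s)) * t⁻¹ * c
  rw [← mul_neg, ← h1, ← e]
  have e3 : (c * h⁻¹ * c⁻¹) * (c⁻¹ * t * X (-s) * t⁻¹ * c) * (c * h⁻¹ * c⁻¹)⁻¹ =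
    c * h⁻¹ * (c⁻¹ * c⁻¹) * t * X (-s) * t⁻¹ * (c * c) * h * c⁻¹ := by group
  have e4 : c⁻¹ * t * (t⁻¹ * (c⁻¹ * h⁻¹ * c) * t * X (-s) * (t⁻¹ * (c⁻¹ * h⁻¹ * c) * t)⁻¹) * t⁻¹ * c =
    (c⁻¹ * c⁻¹) * h⁻¹ * c * t * X (-s) * t⁻¹ * c⁻¹ * h * (c * c) := by group
  rw [e3, e4, H.cc, H.cc']

theorem P3.k21 (H : P3 ζ X h t c) (s : F) :
    (c * h⁻¹ * c⁻¹) * Yr X t c 2 1 s * (c * h⁻¹ * c⁻¹)⁻¹ = Yr X t c 2 1 ((ζ : F) ^ 2 * s) := by
  change (c * h⁻¹ * c⁻¹) * (c * t * X s * t⁻¹ * c⁻¹) * (c * h⁻¹ * c⁻¹)⁻¹ = c * t * X ((ζ : F) ^ 2 * s) * t⁻¹ * c⁻¹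
  rw [← H.hX]
  have e : t⁻¹ * h⁻¹ * t = h := by
    have h1 : t⁻¹ * h⁻¹ * t = (t⁻¹ * h * t)⁻¹ := by group
    rw [h1, H.th', inv_inv]
  have e4 : (c * h⁻¹ * c⁻¹) * (c * t * X s * t⁻¹ * c⁻¹) * (c * h⁻¹ * c⁻¹)⁻¹ =
    c * t * ((t⁻¹ * h⁻¹ * t) * X s * (t⁻¹ * h⁻¹ * t)⁻¹) * t⁻¹ * c⁻¹ := by group
  rw [e4, e]

theorem P3.k12 (H : P3 ζ X h t c) (s : F) :
    (c * h⁻¹ * c⁻¹) * Yr X t c 1 2 s * (c * h⁻¹ * c⁻¹)⁻¹ = Yr X t c 1 2 (((ζ : F) ^ 2)⁻¹ * s) := by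
  change (c * h⁻¹ * c⁻¹) * (c * X (-s) * c⁻¹) * (c * h⁻¹ * c⁻¹)⁻¹ = c * X (-(((ζ : F) ^ 2)⁻¹ * s)) * c⁻¹
  have h1 := act_inv (pow_ne_zero 2 ζ.ne_zero) H.hX (-s)
  rw [← mul_neg, ← h1]
  group

/-- the conjugates of `h` -/
theorem T3.f1 (H : T3 h t c) : t⁻¹ * (c⁻¹ * h * c) * t = (c * h * c⁻¹)⁻¹ := by
  have h1 := H.th1
  have h2 : (c * h * c⁻¹)⁻¹ = t⁻¹ * (t * (c * h * c⁻¹) * t⁻¹)⁻¹ * t := by group
  rw [h2, h1]; group

theorem T3.f2 (H : T3 h t c) : t⁻¹ * (c * h * c⁻¹) * t = (c⁻¹ * h * c)⁻¹ := by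
  have h1 := H.th2
  have h2 : (c⁻¹ * h * c)⁻¹ = t⁻¹ * (t * (c⁻¹ * h * c) * t⁻¹)⁻¹ * t := by group
  rw [h2, h1]; group

theorem T3.h2_eq (H : T3 h t c) : c⁻¹ * h * c = (h * (c * h * c⁻¹))⁻¹ := by
  rw [eq_inv_iff_mul_eq_one]
  have := H.hhh
  rw [mul_eq_one_iff_inv_eq] at this
  rw [← this]; group

theorem P3.h1X (H : P3 ζ X h t c) (s : F) : (c * h * c⁻¹) * X s * (c * h * c⁻¹)⁻¹ = X ((ζ : F)⁻¹ * s) := by
  have e1 : (c * h⁻¹ * c⁻¹)⁻¹ = c * h * c⁻¹ := by group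
  have := act_inv ζ.ne_zero H.kX s
  rwa [e1] at this

theorem P3.h2X (H : P3 ζ X h t c) (s : F) :
    (c⁻¹ * h * c) * X s * (c⁻¹ * h * c)⁻¹ = X ((ζ : F)⁻¹ * s) := by
  have hζ := ζ.ne_zero
  rw [H.h2_eq, act_inv (mul_ne_zero (pow_ne_zero 2 hζ) (inv_ne_zero hζ)) (act_mul H.hX H.h1X)]
  congr 1
  field_simp

theorem conj_act (x d : G) (β : F) (hd : ∀ s, d * X s * d⁻¹ = X (β * s)) (l : G)
    (hl : l = x * d * x⁻¹) (s : F) : l * (x * X s * x⁻¹) * l⁻¹ = x * X (β * s) * x⁻¹ := by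
  rw [← hd, hl]; group

theorem P3.h12 (H : P3 ζ X h t c) (s : F) : h * Yr X t c 1 2 s * h⁻¹ = Yr X t c 1 2 ((ζ : F)⁻¹ * s) := by
  have := conj_act c (c⁻¹ * h * c) _ H.h2X h (by group) (-s)
  rw [mul_neg] at this
  exact this

theorem P3.h20 (H : P3 ζ X h t c) (s : F) : h * Yr X t c 2 0 s * h⁻¹ = Yr X t c 2 0 ((ζ : F)⁻¹ * s) := by
  have := conj_act c⁻¹ (c * h * c⁻¹) ((ζ : F)⁻¹) H.h1X h (by group) s
  rw [inv_inv] at this
  exact this

theorem P3.h10 (H : P3 ζ X h t c) (s : F) : h * Yr X t c 1 0 s * h⁻¹ = Yr X t c 1 0 (((ζ : F) ^ 2)⁻¹ * s) := by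
  have := conj_act t h⁻¹ (((ζ : F) ^ 2)⁻¹) (act_inv (pow_ne_zero 2 ζ.ne_zero) H.hX) h
    (by have := H.th'; rw [← this]; group) (-s)
  rw [mul_neg] at this
  exact this

theorem P3.h21 (H : P3 ζ X h t c) (s : F) : h * Yr X t c 2 1 s * h⁻¹ = Yr X t c 2 1 ((ζ : F) * s) := by
  have := conj_act (c * t) (c * h⁻¹ * c⁻¹) (ζ : F) H.kX h (by
    have h1 : c * h⁻¹ * c⁻¹ = (c * h * c⁻¹)⁻¹ := by group
    rw [h1, ← H.f1]; group) s
  have e : (c * t) * X s * (c * t)⁻¹ = Yr X t c 2 1 s := by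
    change _ = c * t * X s * t⁻¹ * c⁻¹; group
  have e' : (c * t) * X ((ζ : F) * s) * (c * t)⁻¹ = Yr X t c 2 1 ((ζ : F) * s) := by
    change _ = c * t * X ((ζ : F) * s) * t⁻¹ * c⁻¹; group
  rw [e, e'] at this
  exact this

theorem P3.h02 (H : P3 ζ X h t c) (s : F) : h * Yr X t c 0 2 s * h⁻¹ = Yr X t c 0 2 ((ζ : F) * s) := by
  have := conj_act (c⁻¹ * t) (c⁻¹ * h * c)⁻¹ (ζ : F) (by
      have := act_inv (inv_ne_zero ζ.ne_zero) H.h2X
      rwa [inv_inv (ζ : F)] at this) h (by rw [← H.f2]; group) (-s)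
  have e : (c⁻¹ * t) * X (-s) * (c⁻¹ * t)⁻¹ = Yr X t c 0 2 s := by
    change _ = c⁻¹ * t * X (-s) * t⁻¹ * c; group
  have e' : (c⁻¹ * t) * X ((ζ : F) * (-s)) * (c⁻¹ * t)⁻¹ = Yr X t c 0 2 ((ζ : F) * s) := by
    change _ = c⁻¹ * t * X (-((ζ : F) * s)) * t⁻¹ * c
    rw [mul_neg]; group
  rw [e, e'] at this
  exact this

theorem P3.Y_add (H : P3 ζ X h t c) {i j : Fin 3} (hij : i ≠ j) (a b : F) :
    Yr X t c i j (a + b) = Yr X t c i j a * Yr X t c i j b := by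
  fin_cases i <;> fin_cases j <;> simp only [ne_eq, not_true_eq_false] at hij
  · exact H.add a b
  · change c⁻¹ * t * X (-(a + b)) * t⁻¹ * c = (c⁻¹ * t * X (-a) * t⁻¹ * c) * (c⁻¹ * t * X (-b) * t⁻¹ * c)
    rw [neg_add, H.add]; group
  · change t * X (-(a + b)) * t⁻¹ = (t * X (-a) * t⁻¹) * (t * X (-b) * t⁻¹)
    rw [neg_add, H.add]; group
  · change c * X (-(a + b)) * c⁻¹ = (c * X (-a) * c⁻¹) * (c * X (-b) * c⁻¹)
    rw [neg_add, H.add]; group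
  · change c⁻¹ * X (a + b) * c = (c⁻¹ * X a * c) * (c⁻¹ * X b * c)
    rw [H.add]; group
  · change c * t * X (a + b) * t⁻¹ * c⁻¹ = (c * t * X a * t⁻¹ * c⁻¹) * (c * t * X b * t⁻¹ * c⁻¹)
    rw [H.add]; group

theorem braid_comm {u t : G} (h1 : t * u * t⁻¹ = u⁻¹ * t * u⁻¹) : Commute (t * t) u := by
  have e0 : t * u = u⁻¹ * t * u⁻¹ * t := by
    calc t * u = (t * u * t⁻¹) * t := by group
      _ = _ := by rw [h1]
  have e1 : t * u⁻¹ * t = u * t * u := by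
    calc t * u⁻¹ * t = u * (u⁻¹ * t * u⁻¹ * t) := by group
      _ = _ := by rw [← e0]; group
  calc t * t * u = t * (t * u) := by group
    _ = (t * u⁻¹ * t) * u⁻¹ * t := by rw [e0]; group
    _ = _ := by rw [e1]; group

namespace S3

theorem X_pow (H : S3 ζ X h t c) (n : ℕ) :
    X ((ζ : F) ^ n) = (c * h⁻¹ * c⁻¹) ^ n * X 1 * ((c * h⁻¹ * c⁻¹) ^ n)⁻¹ := by
  rw [act_pow H.kX, mul_one]

/-- every property of `X` stable under the torus -/
theorem ind (H : S3 ζ X h t c) {P : F → Prop} (h0 : P 0) (h1 : ∀ n : ℕ, P ((ζ : F) ^ n)) (s : F) : P s := by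
  by_cases hs : s = 0
  · rw [hs]; exact h0
  · obtain ⟨n, hn⟩ := H.gen (Units.mk0 s hs)
    have := h1 n
    rwa [← Units.val_pow_eq_pow_val, hn] at this

theorem zX (H : S3 ζ X h t c) (s : F) : Commute (t * t) (X s) := by
  refine H.ind (P := fun s => Commute (t * t) (X s)) ?_ (fun n => ?_) s
  · rw [H.zero]; exact Commute.one_right _
  · rw [H.X_pow]
    have h1 := H.zk.pow_right n
    exact (h1.mul_right (braid_comm H.tx)).mul_right h1.inv_right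

/-- all parameters -/
theorem C12 (H : S3 ζ X h t c) (s r : F) : Commute (Yr X t c 0 1 s) (Yr X t c 0 2 r) := by
  have hζ : (ζ : F) ≠ 0 := ζ.ne_zero
  refine H.ind (P := fun s => Commute (Yr X t c 0 1 s) (Yr X t c 0 2 r)) ?_ (fun n => ?_) s
  · change Commute (X 0) _
    rw [H.zero]; exact Commute.one_left _
  · change Commute (X _) _
    rw [H.X_pow]
    have h1 := (H.A1 ((ζ : F) ^ n * r)).conj ((c * h⁻¹ * c⁻¹) ^ n)
    rw [act_pow H.k02] at h1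
    have e : ((ζ : F)⁻¹) ^ n * ((ζ : F) ^ n * r) = r := by rw [inv_pow]; field_simp
    rw [e] at h1
    exact h1

theorem D12 (H : S3 ζ X h t c) (s r : F) : Commute (Yr X t c 0 1 s) (Yr X t c 2 1 r) := by
  have hζ : (ζ : F) ≠ 0 := ζ.ne_zero
  refine H.ind (P := fun s => Commute (Yr X t c 0 1 s) (Yr X t c 2 1 r)) ?_ (fun n => ?_) s
  · change Commute (X 0) _
    rw [H.zero]; exact Commute.one_left _
  · change Commute (X _) _
    rw [H.X_pow]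
    have h1 := (H.A2 ((((ζ : F) ^ 2) ^ n)⁻¹ * r)).conj ((c * h⁻¹ * c⁻¹) ^ n)
    rw [act_pow H.k21] at h1
    have e : (((ζ : F) ^ 2) ^ n * ((((ζ : F) ^ 2) ^ n)⁻¹ * r)) = r := by field_simp
    rw [e] at h1
    exact h1

theorem Y02_zero (H : S3 ζ X h t c) : Yr X t c 0 2 0 = 1 := by
  change c⁻¹ * t * X (-0) * t⁻¹ * c = 1
  rw [neg_zero, H.zero]; group

theorem E123 (H : S3 ζ X h t c) (s r : F) :
    Yr X t c 0 1 s * Yr X t c 1 2 r = Yr X t c 0 2 (s * r) * (Yr X t c 1 2 r * Yr X t c 0 1 s) := by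
  have hζ : (ζ : F) ≠ 0 := ζ.ne_zero
  refine H.ind (P := fun s => Yr X t c 0 1 s * Yr X t c 1 2 r = Yr X t c 0 2 (s * r) * (Yr X t c 1 2 r * Yr X t c 0 1 s))
    ?_ (fun n => ?_) s
  · change X 0 * _ = Yr X t c 0 2 _ * (_ * X 0)
    rw [zero_mul, H.Y02_zero, H.zero]; group
  · change X _ * _ = _ * (_ * X _)
    rw [H.X_pow]
    set k := (c * h⁻¹ * c⁻¹) with hk
    have h1 := congrArg (fun x => (k ^ n) * x * (k ^ n)⁻¹) (H.A3 (((ζ : F) ^ 2) ^ n * r))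
    have e1 : k ^ n * Yr X t c 1 2 (((ζ : F) ^ 2) ^ n * r) * (k ^ n)⁻¹ = Yr X t c 1 2 r := by
      rw [act_pow H.k12]; congr 1; rw [inv_pow]; field_simp
    have e2 : k ^ n * Yr X t c 0 2 (((ζ : F) ^ 2) ^ n * r) * (k ^ n)⁻¹ = Yr X t c 0 2 ((ζ : F) ^ n * r) := by
      rw [act_pow H.k02]; congr 1; rw [inv_pow]; field_simp; ring
    rw [← e1, ← e2]
    have e3 : ∀ a b : G, k ^ n * (a * b) * (k ^ n)⁻¹ = (k ^ n * a * (k ^ n)⁻¹) * (k ^ n * b * (k ^ n)⁻¹) := by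
      intro a b; group
    simp only [e3] at h1
    exact h1

/-- action of `c` -/
theorem c01 (_H : S3 ζ X h t c) (s : F) : c * Yr X t c 0 1 s * c⁻¹ = Yr X t c 1 2 (-s) := by
  change c * X s * c⁻¹ = c * X (-(-s)) * c⁻¹
  rw [neg_neg]

theorem c12 (H : S3 ζ X h t c) (s : F) : c * Yr X t c 1 2 s * c⁻¹ = Yr X t c 2 0 (-s) := by
  change c * (c * X (-s) * c⁻¹) * c⁻¹ = c⁻¹ * X (-s) * c
  have : c * (c * X (-s) * c⁻¹) * c⁻¹ = (c * c) * X (-s) * (c⁻¹ * c⁻¹) := by group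
  rw [this, H.cc, H.cc']

theorem c20 (_H : S3 ζ X h t c) (s : F) : c * Yr X t c 2 0 s * c⁻¹ = Yr X t c 0 1 s := by
  change c * (c⁻¹ * X s * c) * c⁻¹ = X s
  group

theorem c10 (_H : S3 ζ X h t c) (s : F) : c * Yr X t c 1 0 s * c⁻¹ = Yr X t c 2 1 (-s) := by
  change c * (t * X (-s) * t⁻¹) * c⁻¹ = c * t * X (-s) * t⁻¹ * c⁻¹
  group

theorem c21 (H : S3 ζ X h t c) (s : F) : c * Yr X t c 2 1 s * c⁻¹ = Yr X t c 0 2 (-s) := by
  change c * (c * t * X s * t⁻¹ * c⁻¹) * c⁻¹ = c⁻¹ * t * X (-(-s)) * t⁻¹ * c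
  have : c * (c * t * X s * t⁻¹ * c⁻¹) * c⁻¹ = (c * c) * t * X s * t⁻¹ * (c⁻¹ * c⁻¹) := by group
  rw [this, H.cc, H.cc', neg_neg]

theorem c02 (_H : S3 ζ X h t c) (s : F) : c * Yr X t c 0 2 s * c⁻¹ = Yr X t c 1 0 s := by
  change c * (c⁻¹ * t * X (-s) * t⁻¹ * c) * c⁻¹ = t * X (-s) * t⁻¹
  group

theorem conj_rel {a b d x : G} (hr : a * b = d * (b * a)) :
    (x * a * x⁻¹) * (x * b * x⁻¹) = (x * d * x⁻¹) * ((x * b * x⁻¹) * (x * a * x⁻¹)) := by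
  have h1 : (x * a * x⁻¹) * (x * b * x⁻¹) = x * (a * b) * x⁻¹ := by group
  rw [h1, hr]; group

theorem C23 (H : S3 ζ X h t c) (s r : F) : Commute (Yr X t c 1 2 s) (Yr X t c 1 0 r) := by
  have := (H.C12 (-s) r).conj c
  rwa [H.c01, H.c02, neg_neg] at this

theorem C31 (H : S3 ζ X h t c) (s r : F) : Commute (Yr X t c 2 0 s) (Yr X t c 2 1 r) := by
  have := (H.C23 (-s) (-r)).conj c
  rwa [H.c12, H.c10, neg_neg, neg_neg] at this

theorem D23 (H : S3 ζ X h t c) (s r : F) : Commute (Yr X t c 1 2 s) (Yr X t c 0 2 r) := by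
  have := (H.D12 (-s) (-r)).conj c
  rwa [H.c01, H.c21, neg_neg, neg_neg] at this

theorem D31 (H : S3 ζ X h t c) (s r : F) : Commute (Yr X t c 2 0 s) (Yr X t c 1 0 r) := by
  have := (H.D23 (-s) r).conj c
  rwa [H.c12, H.c02, neg_neg] at this

theorem E231 (H : S3 ζ X h t c) (s r : F) :
    Yr X t c 1 2 s * Yr X t c 2 0 r = Yr X t c 1 0 (s * r) * (Yr X t c 2 0 r * Yr X t c 1 2 s) := by
  have := conj_rel (x := c) (H.E123 (-s) (-r))
  rwa [H.c01, H.c12, H.c02, neg_neg, neg_neg, neg_mul_neg] at this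

theorem E312 (H : S3 ζ X h t c) (s r : F) :
    Yr X t c 2 0 s * Yr X t c 0 1 r = Yr X t c 2 1 (s * r) * (Yr X t c 0 1 r * Yr X t c 2 0 s) := by
  have := conj_rel (x := c) (H.E231 (-s) r)
  rwa [H.c12, H.c20, H.c10, neg_neg, neg_mul, neg_neg] at this

/-- action of `t` -/
theorem t01 (_H : S3 ζ X h t c) (s : F) : t * Yr X t c 0 1 s * t⁻¹ = Yr X t c 1 0 (-s) := by
  change t * X s * t⁻¹ = t * X (-(-s)) * t⁻¹
  rw [neg_neg]

theorem t12 (H : S3 ζ X h t c) (s : F) : t * Yr X t c 1 2 s * t⁻¹ = Yr X t c 0 2 s := by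
  change t * (c * X (-s) * c⁻¹) * t⁻¹ = c⁻¹ * t * X (-s) * t⁻¹ * c
  have h1 : t * (c * X (-s) * c⁻¹) * t⁻¹ = (t * c) * X (-s) * (t * c)⁻¹ := by group
  have h2 : t * X (-s) = t⁻¹ * X (-s) * (t * t) := by
    have := (H.zX (-s)).eq
    calc t * X (-s) = t⁻¹ * ((t * t) * X (-s)) := by group
      _ = _ := by rw [this]; group
  rw [h1, H.tct]
  have h3 : c⁻¹ * t * X (-s) * t⁻¹ * c = c⁻¹ * (t * X (-s)) * t⁻¹ * c := by group
  rw [h3, h2]; group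

theorem E213' (H : S3 ζ X h t c) (s r : F) :
    Yr X t c 1 0 s * Yr X t c 0 2 r =
      (t * Yr X t c 0 2 (-(s * r)) * t⁻¹) * (Yr X t c 0 2 r * Yr X t c 1 0 s) := by
  have := conj_rel (x := t) (H.E123 (-s) r)
  rwa [H.t01, H.t12, neg_neg, neg_mul] at this

theorem t_eq (H : S3 ζ X h t c) : t = X 1 * Yr X t c 1 0 (-1) * X 1 := by
  change t = X 1 * (t * X (-(-1)) * t⁻¹) * X 1
  rw [neg_neg, H.tx]; group

theorem Y_neg02 (H : S3 ζ X h t c) (s : F) : Yr X t c 0 2 (-s) = (Yr X t c 0 2 s)⁻¹ := by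
  change c⁻¹ * t * X (-(-s)) * t⁻¹ * c = (c⁻¹ * t * X (-s) * t⁻¹ * c)⁻¹
  rw [H.neg (-s)]; group

theorem Y_neg12 (H : S3 ζ X h t c) (s : F) : Yr X t c 1 2 (-s) = (Yr X t c 1 2 s)⁻¹ := by
  change c * X (-(-s)) * c⁻¹ = (c * X (-s) * c⁻¹)⁻¹
  rw [H.neg (-s)]; group

/-- `t²` inverts `y₂₃` -/
theorem z12 (H : S3 ζ X h t c) (s : F) :
    (t * t) * Yr X t c 1 2 s * (t * t)⁻¹ = (Yr X t c 1 2 s)⁻¹ := by
  set a := X 1 with ha
  set b := Yr X t c 1 0 (-1) with hb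
  set w := Yr X t c 1 2 s with hw
  set v := Yr X t c 0 2 s with hv
  have hta : t = a * b * a := H.t_eq
  have i1 : a * w = v * (w * a) := H.A3 s
  have i2 : Commute w b := H.C23 s (-1)
  have i4 : Commute a v := H.A1 s
  have i5 : Commute w v := H.D23 s s
  have i6 : t * w * t⁻¹ = v := H.t12 s
  have i3 : b * v = ((t * t) * w * (t * t)⁻¹) * (v * b) := by
    have := H.E213' (-1) s
    have h2 : t * Yr X t c 0 2 (-(-1 * s)) * t⁻¹ = (t * t) * w * (t * t)⁻¹ := by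
      rw [neg_mul, one_mul, neg_neg, ← hv, ← i6]; group
    rw [h2] at this
    exact this
  have i7 : Commute (t * t) a := H.zX 1
  set w' := (t * t) * w * (t * t)⁻¹ with hw'
  -- compute t w t⁻¹
  have e1 : v = (a * w' * a⁻¹) * v * v * w := by
    calc v = t * w * t⁻¹ := i6.symm
      _ = (a * b * a) * w * (a * b * a)⁻¹ := by rw [← hta]
      _ = a * (b * (a * w) * a⁻¹ * b⁻¹) * a⁻¹ := by group
      _ = a * (b * v * w * b⁻¹) * a⁻¹ := by rw [i1]; group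
      _ = a * (w' * v * b * w * b⁻¹) * a⁻¹ := by rw [i3]; group
      _ = a * (w' * v * (b * w) * b⁻¹) * a⁻¹ := by group
      _ = a * (w' * v * w) * a⁻¹ := by rw [← i2.eq]; group
      _ = (a * w' * a⁻¹) * (a * v) * a⁻¹ * (a * w) * a⁻¹ := by group
      _ = (a * w' * a⁻¹) * v * v * w := by rw [i4.eq, i1]; group
  have e2 : a * w' * a⁻¹ = (t * t) * (v * w) * (t * t)⁻¹ := by
    have h1 : v * w = a * w * a⁻¹ := by rw [i1]; group
    have h3 : a * (t * t) = (t * t) * a := i7.eq.symm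
    have h4 : (t * t)⁻¹ * a⁻¹ = a⁻¹ * (t * t)⁻¹ := by
      rw [← mul_inv_rev, ← mul_inv_rev, h3]
    rw [h1, hw']
    calc a * ((t * t) * w * (t * t)⁻¹) * a⁻¹ = (a * (t * t)) * w * ((t * t)⁻¹ * a⁻¹) := by group
      _ = _ := by rw [h3, h4]; group
  have e3 : a * w' * a⁻¹ = (v * w)⁻¹ := by
    have h1 : a * w' * a⁻¹ = v * (v * v * w)⁻¹ := by
      rw [eq_mul_inv_iff_mul_eq, ← mul_assoc, ← mul_assoc]
      exact e1.symm
    rw [h1]
    have h2 : v * w = w * v := i5.eq.symm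
    calc v * (v * v * w)⁻¹ = v * (v * (v * w))⁻¹ := by group
      _ = v * (v * (w * v))⁻¹ := by rw [h2]
      _ = (v * w)⁻¹ := by group
  have e4 : v * w = a * w * a⁻¹ := by rw [i1]; group
  rw [e4] at e3
  have e5 : w' = a⁻¹ * (a * w' * a⁻¹) * a := by group
  rw [e5, e3]; group

theorem t02 (H : S3 ζ X h t c) (s : F) : t * Yr X t c 0 2 s * t⁻¹ = Yr X t c 1 2 (-s) := by
  rw [← H.t12, H.Y_neg12, ← H.z12]; group

theorem E213 (H : S3 ζ X h t c) (s r : F) :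
    Yr X t c 1 0 s * Yr X t c 0 2 r = Yr X t c 1 2 (s * r) * (Yr X t c 0 2 r * Yr X t c 1 0 s) := by
  have := H.E213' s r
  rwa [H.t02, neg_neg] at this

theorem E321 (H : S3 ζ X h t c) (s r : F) :
    Yr X t c 2 1 s * Yr X t c 1 0 r = Yr X t c 2 0 (s * r) * (Yr X t c 1 0 r * Yr X t c 2 1 s) := by
  have := conj_rel (x := c) (H.E213 (-s) r)
  rwa [H.c10, H.c02, H.c12, neg_neg, neg_mul, neg_neg] at this

theorem E132 (H : S3 ζ X h t c) (s r : F) :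
    Yr X t c 0 2 s * Yr X t c 2 1 r = Yr X t c 0 1 (s * r) * (Yr X t c 2 1 r * Yr X t c 0 2 s) := by
  have := conj_rel (x := c) (H.E321 (-s) (-r))
  rwa [H.c21, H.c10, H.c20, neg_neg, neg_neg, neg_mul_neg] at this

theorem SR (H : S3 ζ X h t c) : Mult.SR (Yr X t c) := by
  have hadd := fun {i j : Fin 3} (hij : i ≠ j) (a b : F) => H.Y_add hij a b
  have hself : ∀ {i j : Fin 3}, i ≠ j → ∀ a b, Yr X t c i j a * Yr X t c i j b = Yr X t c i j b * Yr X t c i j a := by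
    intro i j hij a b
    rw [← hadd hij, ← hadd hij, add_comm]
  refine ⟨fun hij a b => hadd hij a b, ?_, ?_⟩
  · intro i j k hij hjk hik a b
    fin_cases i <;> fin_cases j <;> fin_cases k <;>
      simp only [ne_eq, not_true_eq_false] at hij hjk hik
    · exact H.E123 a b
    · exact H.E132 a b
    · exact H.E213 a b
    · exact H.E231 a b
    · exact H.E312 a b
    · exact H.E321 a b
  · intro i j k l hij hkl hjk hil a b
    fin_cases i <;> fin_cases j <;> simp only [ne_eq, not_true_eq_false] at hij <;>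
      fin_cases k <;> simp only [ne_eq, not_true_eq_false] at hjk <;>
      fin_cases l <;> simp only [ne_eq, not_true_eq_false] at hkl hil
    all_goals first
      | exact hself (by decide) a b
      | exact H.C12 a b
      | exact (H.C12 b a).symm
      | exact H.C23 a b
      | exact (H.C23 b a).symm
      | exact H.C31 a b
      | exact (H.C31 b a).symm
      | exact H.D12 a b
      | exact (H.D12 b a).symm
      | exact H.D23 a b
      | exact (H.D23 b a).symm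
      | exact H.D31 a b
      | exact (H.D31 b a).symm

/-- the subgroup generated by the root elements -/
def KK (X : F → G) (t c : G) : Subgroup G := closure {g | ∃ i j : Fin 3, i ≠ j ∧ ∃ b, Yr X t c i j b = g}

theorem mem_KK (X : F → G) (t c : G) {i j : Fin 3} (hij : i ≠ j) (b : F) : Yr X t c i j b ∈ KK X t c :=
  subset_closure ⟨i, j, hij, b, rfl⟩

theorem mem_normalizer_closure {S : Set G} {x : G} (h1 : ∀ s ∈ S, x * s * x⁻¹ ∈ closure S)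
    (h2 : ∀ s ∈ S, x⁻¹ * s * x ∈ closure S) : x ∈ normalizer (closure S : Set G) := by
  have key : ∀ y : G, (∀ s ∈ S, y * s * y⁻¹ ∈ closure S) → ∀ g ∈ closure S, y * g * y⁻¹ ∈ closure S := by
    intro y hy g hg
    have hle : closure S ≤ (closure S).comap (MulAut.conj y).toMonoidHom := by
      rw [closure_le]
      intro s hs
      exact hy s hs
    exact hle hg
  rw [mem_normalizer_iff]
  intro g
  refine ⟨fun hg => key x h1 g hg, fun hg => ?_⟩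
  have := key x⁻¹ (by intro s hs; rw [inv_inv]; exact h2 s hs) _ hg
  have e : x⁻¹ * (x * g * x⁻¹) * x⁻¹⁻¹ = g := by group
  rwa [e] at this

theorem top (H : S3 ζ X h t c) (hg : closure {X 1, h, t, c} = ⊤) : KK X t c = ⊤ := by
  set K := KK X t c with hK
  have m01 : ∀ b, Yr X t c 0 1 b ∈ K := mem_KK X t c (by decide)
  have m12 : ∀ b, Yr X t c 1 2 b ∈ K := mem_KK X t c (by decide)
  have m20 : ∀ b, Yr X t c 2 0 b ∈ K := mem_KK X t c (by decide)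
  have m10 : ∀ b, Yr X t c 1 0 b ∈ K := mem_KK X t c (by decide)
  have m21 : ∀ b, Yr X t c 2 1 b ∈ K := mem_KK X t c (by decide)
  have m02 : ∀ b, Yr X t c 0 2 b ∈ K := mem_KK X t c (by decide)
  have hu : X 1 ∈ K := m01 1
  have ht : t ∈ K := by
    rw [H.t_eq]
    exact mul_mem (mul_mem hu (m10 _)) hu
  have hc : c ∈ normalizer (K : Set G) := by
    apply mem_normalizer_closure
    · rintro _ ⟨i, j, hij, b, rfl⟩
      fin_cases i <;> fin_cases j <;> simp only [ne_eq, not_true_eq_false] at hij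
      · change c * Yr X t c 0 1 b * c⁻¹ ∈ K; rw [H.c01]; exact m12 _
      · change c * Yr X t c 0 2 b * c⁻¹ ∈ K; rw [H.c02]; exact m10 _
      · change c * Yr X t c 1 0 b * c⁻¹ ∈ K; rw [H.c10]; exact m21 _
      · change c * Yr X t c 1 2 b * c⁻¹ ∈ K; rw [H.c12]; exact m20 _
      · change c * Yr X t c 2 0 b * c⁻¹ ∈ K; rw [H.c20]; exact m01 _
      · change c * Yr X t c 2 1 b * c⁻¹ ∈ K; rw [H.c21]; exact m02 _
    · have key : ∀ {x y : G}, c * x * c⁻¹ = y → c⁻¹ * y * c = x := by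
        intro x y h; rw [← h]; group
      rintro _ ⟨i, j, hij, b, rfl⟩
      fin_cases i <;> fin_cases j <;> simp only [ne_eq, not_true_eq_false] at hij
      · change c⁻¹ * Yr X t c 0 1 b * c ∈ K; rw [key (H.c20 b)]; exact m20 _
      · change c⁻¹ * Yr X t c 0 2 b * c ∈ K
        have := key (H.c21 (-b))
        rw [neg_neg] at this
        rw [this]; exact m21 _
      · change c⁻¹ * Yr X t c 1 0 b * c ∈ K; rw [key (H.c02 b)]; exact m02 _
      · change c⁻¹ * Yr X t c 1 2 b * c ∈ K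
        have := key (H.c01 (-b))
        rw [neg_neg] at this
        rw [this]; exact m01 _
      · change c⁻¹ * Yr X t c 2 0 b * c ∈ K
        have := key (H.c12 (-b))
        rw [neg_neg] at this
        rw [this]; exact m12 _
      · change c⁻¹ * Yr X t c 2 1 b * c ∈ K
        have := key (H.c10 (-b))
        rw [neg_neg] at this
        rw [this]; exact m10 _
  -- the torus
  have hζ := ζ.ne_zero
  have hh : h ∈ normalizer (K : Set G) := by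
    have r01 : ∀ s, h * Yr X t c 0 1 s * h⁻¹ = Yr X t c 0 1 (((ζ : F) ^ 2) * s) := H.hX
    have r12 := H.h12
    have r20 := H.h20
    have r10 := H.h10
    have r21 := H.h21
    have r02 := H.h02
    apply mem_normalizer_closure
    · rintro _ ⟨i, j, hij, b, rfl⟩
      fin_cases i <;> fin_cases j <;> simp only [ne_eq, not_true_eq_false] at hij
      · change h * Yr X t c 0 1 b * h⁻¹ ∈ K; rw [r01]; exact m01 _
      · change h * Yr X t c 0 2 b * h⁻¹ ∈ K; rw [r02]; exact m02 _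
      · change h * Yr X t c 1 0 b * h⁻¹ ∈ K; rw [r10]; exact m10 _
      · change h * Yr X t c 1 2 b * h⁻¹ ∈ K; rw [r12]; exact m12 _
      · change h * Yr X t c 2 0 b * h⁻¹ ∈ K; rw [r20]; exact m20 _
      · change h * Yr X t c 2 1 b * h⁻¹ ∈ K; rw [r21]; exact m21 _
    · rintro _ ⟨i, j, hij, b, rfl⟩
      have key : ∀ {f : F → G} {β : F}, β ≠ 0 → (∀ s, h * f s * h⁻¹ = f (β * s)) → (∀ s, f s ∈ K) →
          h⁻¹ * f b * h ∈ K := by
        intro f β hβ hf hm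
        have := act_inv hβ hf b
        rw [inv_inv] at this
        rw [this]; exact hm _
      fin_cases i <;> fin_cases j <;> simp only [ne_eq, not_true_eq_false] at hij
      · exact key (pow_ne_zero 2 hζ) r01 m01
      · exact key hζ r02 m02
      · exact key (inv_ne_zero (pow_ne_zero 2 hζ)) r10 m10
      · exact key (inv_ne_zero hζ) r12 m12
      · exact key (inv_ne_zero hζ) r20 m20
      · exact key hζ r21 m21
  have hN : normalizer (K : Set G) = ⊤ := by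
    rw [eq_top_iff, ← hg, closure_le]
    rintro x (rfl | rfl | rfl | rfl)
    · exact le_normalizer hu
    · exact hh
    · exact le_normalizer ht
    · exact hc
  have hn : K.Normal := normalizer_eq_top_iff.1 hN
  have hc2 : c * c ∈ K := by
    have h1 : c * c = (c * t * c⁻¹)⁻¹ * t⁻¹ := by
      have h2 : (c * t * c⁻¹) * (c * c) = t⁻¹ := by
        rw [eq_inv_iff_mul_eq_one]
        have h3 := H.tc
        have h4 : (c * t * c⁻¹) * (c * c) * t = t⁻¹ * (t * c * t * c) * t := by group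
        rw [h4, h3]; group
      rw [← h2]; group
    rw [h1]
    exact mul_mem (inv_mem (hn.conj_mem _ ht _)) (inv_mem ht)
  have hcK : c ∈ K := by
    rw [H.cc] at hc2
    simpa using inv_mem hc2
  have hh2 : h * h ∈ K := by
    have h1 : h * h = (h * t * h⁻¹)⁻¹ * t := by
      have h3 := H.th
      have h4 : h * t * h⁻¹ * (h * h) * t⁻¹ = 1 := by
        have h5 : h * t * h⁻¹ * (h * h) * t⁻¹ = h * (t * h * t⁻¹) := by group
        rw [h5, h3]; group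
      rw [mul_eq_one_iff_eq_inv, inv_inv] at h4
      exact eq_inv_mul_iff_mul_eq.2 h4
    rw [h1]
    exact mul_mem (inv_mem (hn.conj_mem _ ht _)) ht
  have hhK : h ∈ K := by
    set κ1 := h⁻¹ * c * h * c⁻¹ with hκ1
    set κ2 := h⁻¹ * c⁻¹ * h * c with hκ2
    have k1 : κ1 ∈ K := by
      have := hn.conj_mem c hcK h⁻¹
      rw [inv_inv] at this
      exact mul_mem this (inv_mem hcK)
    have k2 : κ2 ∈ K := by
      have := hn.conj_mem c⁻¹ (inv_mem hcK) h⁻¹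
      rw [inv_inv] at this
      exact mul_mem this hcK
    have h1 := H.hhh
    have h2 : h * (c * h * c⁻¹) * (c⁻¹ * h * c) = (h * h) * κ1 * h * κ2 := by
      rw [hκ1, hκ2]; group
    rw [h2] at h1
    have h3 : h = ((h * h) * κ1)⁻¹ * κ2⁻¹ := by
      rw [mul_eq_one_iff_eq_inv] at h1
      rw [← h1]; group
    rw [h3]
    exact mul_mem (inv_mem (mul_mem hh2 k1)) (inv_mem k2)
  rw [eq_top_iff, ← hg, closure_le]
  rintro x (rfl | rfl | rfl | rfl)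
  · exact hu
  · exact hhK
  · exact ht
  · exact hcK

end S3
end abs3
end Cfsg.Agent.GK
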