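import Cfsg.Agent.GK.SL3P

/-!
The presentation of `SL₃(F)`.
-/

set_option autoImplicit false

namespace Cfsg.Agent.GK

open Subgroup Polynomial

universe v

section conc3
variable {F : Type v} [Field F]

/-- `x₁₂(s)` -/
def em (s : F) : Matrix.SpecialLinearGroup (Fin 3) F :=
  Matrix.SpecialLinearGroup.transvection (i := (0 : Fin 3)) (j := 1) (by decide) s

/-- `diag(a, a⁻¹, 1)` -/
def hm3 (a : Fˣ) : Matrix.SpecialLinearGroup (Fin 3) F :=
  ⟨!![(a : F), 0, 0; 0, ((a⁻¹ : Fˣ) : F), 0; 0, 0, 1], by simp [Matrix.det_fin_three]⟩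

/-- `t` -/
def tm3 : Matrix.SpecialLinearGroup (Fin 3) F :=
  ⟨!![0, 1, 0; -1, 0, 0; 0, 0, 1], by simp [Matrix.det_fin_three]⟩

/-- `c` -/
def cm3 : Matrix.SpecialLinearGroup (Fin 3) F :=
  ⟨!![0, 0, -1; -1, 0, 0; 0, 1, 0], by simp [Matrix.det_fin_three]⟩

theorem slext3 {A B : Matrix.SpecialLinearGroup (Fin 3) F}
    (h : (A : Matrix (Fin 3) (Fin 3) F) = (B : Matrix (Fin 3) (Fin 3) F)) : A = B := Subtype.ext h

theorem tv_coe {i j : Fin 3} (hij : i ≠ j) (s : F) :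
    ((Matrix.SpecialLinearGroup.transvection hij s : Matrix.SpecialLinearGroup (Fin 3) F) :
      Matrix (Fin 3) (Fin 3) F) = Matrix.transvection i j s := rfl

theorem em_coe (s : F) : ((em s : Matrix.SpecialLinearGroup (Fin 3) F) : Matrix (Fin 3) (Fin 3) F) =
    !![1, s, 0; 0, 1, 0; 0, 0, 1] := by
  change Matrix.transvection 0 1 s = _
  ext i j
  fin_cases i <;> fin_cases j <;> simp [Matrix.transvection, Matrix.single]

theorem hm3_coe (a : Fˣ) : ((hm3 a : Matrix.SpecialLinearGroup (Fin 3) F) : Matrix (Fin 3) (Fin 3) F) =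
    !![(a : F), 0, 0; 0, ((a⁻¹ : Fˣ) : F), 0; 0, 0, 1] := rfl
theorem tm3_coe : ((tm3 : Matrix.SpecialLinearGroup (Fin 3) F) : Matrix (Fin 3) (Fin 3) F) =
    !![0, 1, 0; -1, 0, 0; 0, 0, 1] := rfl
theorem cm3_coe : ((cm3 : Matrix.SpecialLinearGroup (Fin 3) F) : Matrix (Fin 3) (Fin 3) F) =
    !![0, 0, -1; -1, 0, 0; 0, 1, 0] := rfl

theorem tv12 (s : F) : Matrix.transvection (1 : Fin 3) 2 s = !![1, 0, 0; 0, 1, s; 0, 0, 1] := by
  ext i j
  fin_cases i <;> fin_cases j <;> simp [Matrix.transvection, Matrix.single]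
theorem tv20 (s : F) : Matrix.transvection (2 : Fin 3) 0 s = !![1, 0, 0; 0, 1, 0; s, 0, 1] := by
  ext i j
  fin_cases i <;> fin_cases j <;> simp [Matrix.transvection, Matrix.single]
theorem tv10 (s : F) : Matrix.transvection (1 : Fin 3) 0 s = !![1, 0, 0; s, 1, 0; 0, 0, 1] := by
  ext i j
  fin_cases i <;> fin_cases j <;> simp [Matrix.transvection, Matrix.single]
theorem tv21 (s : F) : Matrix.transvection (2 : Fin 3) 1 s = !![1, 0, 0; 0, 1, 0; 0, s, 1] := by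
  ext i j
  fin_cases i <;> fin_cases j <;> simp [Matrix.transvection, Matrix.single]
theorem tv02 (s : F) : Matrix.transvection (0 : Fin 3) 2 s = !![1, 0, s; 0, 1, 0; 0, 0, 1] := by
  ext i j
  fin_cases i <;> fin_cases j <;> simp [Matrix.transvection, Matrix.single]

theorem em_add (s r : F) : em (s + r) = em s * em r := by
  apply slext3
  rw [Matrix.SpecialLinearGroup.coe_mul]
  simp only [em_coe]
  ext i j
  fin_cases i <;> fin_cases j <;> simp [Matrix.mul_apply, Fin.sum_univ_three, add_comm]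

theorem em_zero : em (0 : F) = 1 := by
  have := em_add (0 : F) 0
  rw [add_zero] at this
  exact mul_eq_left.1 this.symm

theorem em_neg (s : F) : em (-s) = (em s)⁻¹ := by
  rw [eq_comm, inv_eq_iff_mul_eq_one, ← em_add, add_neg_cancel, em_zero]

macro "mat3" : tactic => `(tactic|
  (ext i j
   fin_cases i <;> fin_cases j <;> simp [Matrix.mul_apply, Fin.sum_univ_three]))

theorem Yem10 (s : F) : tm3 * em (-s) * tm3⁻¹ =
    Matrix.SpecialLinearGroup.transvection (i := (1 : Fin 3)) (j := 0) (by decide) s := by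
  rw [mul_inv_eq_iff_eq_mul]
  apply slext3
  simp only [Matrix.SpecialLinearGroup.coe_mul]
  rw [tv_coe, em_coe, tm3_coe, tv10]
  mat3

theorem Yem12 (s : F) : cm3 * em (-s) * cm3⁻¹ =
    Matrix.SpecialLinearGroup.transvection (i := (1 : Fin 3)) (j := 2) (by decide) s := by
  rw [mul_inv_eq_iff_eq_mul]
  apply slext3
  simp only [Matrix.SpecialLinearGroup.coe_mul]
  rw [tv_coe, em_coe, cm3_coe, tv12]
  mat3

theorem Yem20 (s : F) : cm3⁻¹ * em s * cm3 =
    Matrix.SpecialLinearGroup.transvection (i := (2 : Fin 3)) (j := 0) (by decide) s := by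
  rw [mul_assoc, inv_mul_eq_iff_eq_mul]
  apply slext3
  simp only [Matrix.SpecialLinearGroup.coe_mul]
  rw [tv_coe, em_coe, cm3_coe, tv20]
  mat3

theorem Yem21 (s : F) : cm3 * tm3 * em s * tm3⁻¹ * cm3⁻¹ =
    Matrix.SpecialLinearGroup.transvection (i := (2 : Fin 3)) (j := 1) (by decide) s := by
  have h1 := Yem10 (F := F) (-s)
  rw [neg_neg] at h1
  have h2 : cm3 * tm3 * em s * tm3⁻¹ * cm3⁻¹ = cm3 * (tm3 * em s * tm3⁻¹) * (cm3)⁻¹ := by group
  rw [h2, h1, mul_inv_eq_iff_eq_mul]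
  apply slext3
  simp only [Matrix.SpecialLinearGroup.coe_mul]
  rw [tv_coe, tv_coe, cm3_coe, tv10, tv21]
  mat3

theorem Yem02 (s : F) : cm3⁻¹ * tm3 * em (-s) * tm3⁻¹ * cm3 =
    Matrix.SpecialLinearGroup.transvection (i := (0 : Fin 3)) (j := 2) (by decide) s := by
  have h1 := Yem10 (F := F) s
  have h2 : cm3⁻¹ * tm3 * em (-s) * tm3⁻¹ * cm3 = (cm3)⁻¹ * ((tm3 * em (-s) * tm3⁻¹) * cm3) := by group
  rw [h2, h1, inv_mul_eq_iff_eq_mul]
  apply slext3
  simp only [Matrix.SpecialLinearGroup.coe_mul]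
  rw [tv_coe, tv_coe, cm3_coe, tv10, tv02]
  mat3

theorem Yem (i j : Fin 3) (hij : i ≠ j) (s : F) :
    Yr em tm3 cm3 i j s = Matrix.SpecialLinearGroup.transvection hij s := by
  fin_cases i <;> fin_cases j <;> simp only [ne_eq, not_true_eq_false] at hij
  · rfl
  · exact Yem02 s
  · exact Yem10 s
  · exact Yem12 s
  · exact Yem20 s
  · exact Yem21 s

theorem hm3_em (a : Fˣ) (s : F) : hm3 a * em s * (hm3 a)⁻¹ = em ((a : F) ^ 2 * s) := by
  rw [mul_inv_eq_iff_eq_mul]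
  apply slext3
  simp only [Matrix.SpecialLinearGroup.coe_mul]
  rw [hm3_coe, em_coe, em_coe]
  have ha := a.ne_zero
  mat3
  field_simp

/-- `diag(1, a⁻¹, a)` -/
def km3 (a : Fˣ) : Matrix.SpecialLinearGroup (Fin 3) F :=
  ⟨!![1, 0, 0; 0, ((a⁻¹ : Fˣ) : F), 0; 0, 0, (a : F)], by simp [Matrix.det_fin_three]⟩

theorem km3_coe (a : Fˣ) : ((km3 a : Matrix.SpecialLinearGroup (Fin 3) F) : Matrix (Fin 3) (Fin 3) F) =
    !![1, 0, 0; 0, ((a⁻¹ : Fˣ) : F), 0; 0, 0, (a : F)] := rfl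

theorem hm3_inv (a : Fˣ) : (hm3 a)⁻¹ = hm3 a⁻¹ := by
  rw [inv_eq_iff_mul_eq_one]
  apply slext3
  rw [Matrix.SpecialLinearGroup.coe_mul, hm3_coe, hm3_coe, Matrix.SpecialLinearGroup.coe_one]
  mat3

theorem km3_eq (a : Fˣ) : cm3 * (hm3 a)⁻¹ * cm3⁻¹ = km3 a := by
  rw [mul_inv_eq_iff_eq_mul, hm3_inv]
  apply slext3
  simp only [Matrix.SpecialLinearGroup.coe_mul]
  rw [hm3_coe, km3_coe, cm3_coe]
  mat3

theorem km3_em (a : Fˣ) (s : F) : km3 a * em s * (km3 a)⁻¹ = em ((a : F) * s) := by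
  rw [mul_inv_eq_iff_eq_mul]
  apply slext3
  simp only [Matrix.SpecialLinearGroup.coe_mul]
  rw [km3_coe, em_coe, em_coe]
  have ha := a.ne_zero
  mat3
  field_simp

/-- `diag(a⁻¹, 1, a)` -/
def lm3 (a : Fˣ) : Matrix.SpecialLinearGroup (Fin 3) F :=
  ⟨!![((a⁻¹ : Fˣ) : F), 0, 0; 0, 1, 0; 0, 0, (a : F)], by simp [Matrix.det_fin_three]⟩

theorem lm3_coe (a : Fˣ) : ((lm3 a : Matrix.SpecialLinearGroup (Fin 3) F) : Matrix (Fin 3) (Fin 3) F) =
    !![((a⁻¹ : Fˣ) : F), 0, 0; 0, 1, 0; 0, 0, (a : F)] := rfl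

theorem lm3_eq (a : Fˣ) : cm3⁻¹ * hm3 a * cm3 = lm3 a := by
  rw [mul_assoc, inv_mul_eq_iff_eq_mul]
  apply slext3
  simp only [Matrix.SpecialLinearGroup.coe_mul]
  rw [hm3_coe, cm3_coe, lm3_coe]
  mat3

theorem T3c (a : Fˣ) : T3 (hm3 a) (tm3 : Matrix.SpecialLinearGroup (Fin 3) F) cm3 := by
  refine ⟨?_, ?_, ?_, ?_⟩
  · apply slext3
    simp only [Matrix.SpecialLinearGroup.coe_mul, Matrix.SpecialLinearGroup.coe_one]
    rw [cm3_coe]
    mat3
  · apply slext3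
    simp only [Matrix.SpecialLinearGroup.coe_mul, Matrix.SpecialLinearGroup.coe_one]
    rw [cm3_coe, tm3_coe]
    mat3
  · rw [mul_inv_eq_iff_eq_mul, hm3_inv]
    apply slext3
    simp only [Matrix.SpecialLinearGroup.coe_mul]
    rw [hm3_coe, hm3_coe, tm3_coe]
    mat3
  · have h1 : cm3 * hm3 a * cm3⁻¹ = (km3 a)⁻¹ := by rw [← km3_eq]; group
    rw [h1, lm3_eq, mul_eq_one_iff_eq_inv, mul_inv_eq_iff_eq_mul, eq_inv_mul_iff_mul_eq]
    apply slext3
    simp only [Matrix.SpecialLinearGroup.coe_mul]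
    rw [hm3_coe, km3_coe, lm3_coe]
    mat3

theorem P3c (ζ : Fˣ) : P3 ζ em (hm3 ζ) (tm3 : Matrix.SpecialLinearGroup (Fin 3) F) cm3 := by
  refine ⟨T3c ζ, em_add, ?_, ?_⟩
  · exact hm3_em ζ
  · rw [km3_eq]; exact km3_em ζ

theorem S3c {ζ : Fˣ} (hζ : IsGen ζ) : S3 ζ em (hm3 ζ) (tm3 : Matrix.SpecialLinearGroup (Fin 3) F) cm3 := by
  refine ⟨P3c ζ, ?_, hζ, ?_, ?_, ?_⟩
  · rw [← em_neg, mul_inv_eq_iff_eq_mul]
    apply slext3
    simp only [Matrix.SpecialLinearGroup.coe_mul]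
    rw [em_coe, em_coe, tm3_coe]
    mat3
  · intro r
    rw [Yem 0 2 (by decide)]
    change em 1 * _ = _ * em 1
    apply slext3
    simp only [Matrix.SpecialLinearGroup.coe_mul]
    rw [em_coe, tv_coe, tv02]
    mat3
  · intro r
    rw [Yem 2 1 (by decide)]
    change em 1 * _ = _ * em 1
    apply slext3
    simp only [Matrix.SpecialLinearGroup.coe_mul]
    rw [em_coe, tv_coe, tv21]
    mat3
  · intro r
    rw [Yem 1 2 (by decide), Yem 0 2 (by decide)]
    apply slext3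
    simp only [Matrix.SpecialLinearGroup.coe_mul]
    rw [em_coe, tv_coe, tv_coe, tv02, tv12]
    mat3

theorem hm3_comm (a : Fˣ) : Commute (hm3 a) (cm3 * hm3 a * cm3⁻¹) := by
  have h1 : cm3 * hm3 a * cm3⁻¹ = (km3 a)⁻¹ := by rw [← km3_eq]; group
  rw [h1]
  apply Commute.inv_right
  change hm3 a * km3 a = km3 a * hm3 a
  apply slext3
  simp only [Matrix.SpecialLinearGroup.coe_mul]
  rw [hm3_coe, km3_coe]
  mat3

/-- the generators of `SL₃(F)` -/
def gSL3 (ζ : Fˣ) : Fin 4 → Matrix.SpecialLinearGroup (Fin 3) F := ![em 1, hm3 ζ, tm3, cm3]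

theorem lift_of4 {G : Type*} [Group G] (g : Fin 4 → G) (i : Fin 4) : FreeGroup.lift g (FreeGroup.of i) = g i :=
  FreeGroup.lift_apply_of

/-- a group with rank two data, mapping to the matrices, is `SL₃(F)` -/
theorem S3.bij [Finite F] {G : Type*} [Group G] {ζ : Fˣ} {X : F → G} {h t c : G} (H : S3 ζ X h t c)
    (hg : closure {X 1, h, t, c} = ⊤) (σ : G →* Matrix.SpecialLinearGroup (Fin 3) F)
    (hX : ∀ s, σ (X s) = em s) (ht : σ t = tm3) (hc : σ c = cm3) : Function.Bijective σ := by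
  refine Stb.sl_bijective' (by simp) H.SR (H.top hg) σ ?_
  intro i j hij a
  have h1 : σ (Yr X t c i j a) = Yr em tm3 cm3 i j a := by
    fin_cases i <;> fin_cases j <;> simp only [ne_eq, not_true_eq_false] at hij
    · exact hX a
    · change σ (c⁻¹ * t * X (-a) * t⁻¹ * c) = cm3⁻¹ * tm3 * em (-a) * tm3⁻¹ * cm3
      simp only [map_mul, map_inv, hX, ht, hc]
    · change σ (t * X (-a) * t⁻¹) = tm3 * em (-a) * tm3⁻¹
      simp only [map_mul, map_inv, hX, ht]
    · change σ (c * X (-a) * c⁻¹) = cm3 * em (-a) * cm3⁻¹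
      simp only [map_mul, map_inv, hX, hc]
    · change σ (c⁻¹ * X a * c) = cm3⁻¹ * em a * cm3
      simp only [map_mul, map_inv, hX, hc]
    · change σ (c * t * X a * t⁻¹ * c⁻¹) = cm3 * tm3 * em a * tm3⁻¹ * cm3⁻¹
      simp only [map_mul, map_inv, hX, ht, hc]
  rw [h1, Yem i j hij]

open scoped Classical in
theorem sl3_pres_ne4 [Fintype F] {ζ : Fˣ} (hζ : IsGen ζ) (h4 : Fintype.card F ≠ 4) :
    ∃ R : Finset (FreeGroup (Fin 4)), R.card ≤ 13 ∧ IsPres (R : Set (FreeGroup (Fin 4))) (gSL3 ζ) := by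
  obtain ⟨p, hpc⟩ := CharP.exists F
  have hp : Fact p.Prime := ⟨CharP.char_is_prime F p⟩
  let _ : Algebra (ZMod p) F := ZMod.algebra F p
  choose F0 hF using (gen_adjoin_cube (p := p) hζ h4)
  let u := FreeGroup.of (0 : Fin 4)
  let h := FreeGroup.of (1 : Fin 4)
  let t := FreeGroup.of (2 : Fin 4)
  let c := FreeGroup.of (3 : Fin 4)
  let R : Finset (FreeGroup (Fin 4)) :=
    Finset.univ.image (rels13 (minpoly (ZMod p) ((ζ : F) ^ 3)) (F0 (ζ : F)) u h t c)
  have hkX : ∀ s, (cm3 * (hm3 ζ)⁻¹ * cm3⁻¹) * em s * (cm3 * (hm3 ζ)⁻¹ * cm3⁻¹)⁻¹ = em ((ζ : F) * s) := by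
    rw [km3_eq]; exact km3_em ζ
  have hPsi : ∀ f : (ZMod p)[X], Psi (em (1 : F)) ((cm3 * (hm3 ζ)⁻¹ * cm3⁻¹) ^ 3) f =
      em (aeval ((ζ : F) ^ 3) f) := fun f => Psi_act em_add (act_pow hkX 3) f
  have hS := S3c hζ
  refine ⟨R, ?_, ?_⟩
  · refine (Finset.card_image_le).trans ?_
    rw [Finset.card_univ, Fintype.card_fin]
  · apply isPres_of_bij
    · intro w hw
      rw [Finset.mem_coe, Finset.mem_image] at hw
      obtain ⟨i, -, rfl⟩ := hw
      rw [map_rels13, lift_of4, lift_of4, lift_of4, lift_of4]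
      refine (r13_iff _ _ _ _ _ _).2 ?_ i
      change R13 _ _ (em 1) (hm3 ζ) tm3 cm3
      refine ⟨hS.c3, hS.tc, ?_, ?_, hS.th, ?_, ?_, ?_, hm3_comm ζ, hS.hhh, ?_, ?_, ?_⟩
      · have hpow : ∀ n : ℕ, em (1 : F) ^ n = em (n : F) := by
          intro n
          induction n with
          | zero => simp [em_zero]
          | succ n ih => rw [pow_succ, ih, ← em_add]; push_cast; rfl
        rw [hpow, CharP.cast_eq_zero, em_zero]
      · rw [hPsi, minpoly.aeval, em_zero]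
      · have := hS.tx
        exact this
      · rw [hkX, hPsi, hF, mul_one]
      · rw [hS.hX, act_pow hkX]
      · have := hS.A1 1
        rwa [Yem 0 2 (by decide), ← Yem02, em_neg] at this
      · have := hS.A2 1
        rwa [Yem 2 1 (by decide), ← Yem21] at this
      · have := hS.A3 1
        rwa [Yem 0 2 (by decide), ← Yem02, Yem 1 2 (by decide), ← Yem12, em_neg] at this
    · intro π hπ
      set P := PresentedGroup (R : Set (FreeGroup (Fin 4))) with hP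
      let g : Fin 4 → P := fun i => PresentedGroup.of i
      have hrel : ∀ i, rels13 (minpoly (ZMod p) ((ζ : F) ^ 3)) (F0 (ζ : F)) (g 0) (g 1) (g 2) (g 3) i = 1 := by
        intro i
        have h1 : FreeGroup.lift g (rels13 (minpoly (ZMod p) ((ζ : F) ^ 3)) (F0 (ζ : F)) u h t c i) = 1 :=
          lift_of_rel (Finset.mem_coe.2 (Finset.mem_image_of_mem _ (Finset.mem_univ i)))
        rw [map_rels13, lift_of4, lift_of4, lift_of4, lift_of4] at h1
        exact h1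
      obtain ⟨H, hX1⟩ := ((r13_iff _ _ _ _ _ _).1 hrel).s3 hF hζ h4
      refine H.bij ?_ π ?_ (hπ 2) (hπ 3)
      · rw [hX1, eq_top_iff, ← closure_of_eq_top, closure_le]
        rintro _ ⟨i, rfl⟩
        apply Subgroup.subset_closure
        fin_cases i
        · exact Or.inl rfl
        · exact Or.inr (Or.inl rfl)
        · exact Or.inr (Or.inr (Or.inl rfl))
        · exact Or.inr (Or.inr (Or.inr rfl))
      · intro s
        rw [XX, map_Psi]
        have e1 : π (g 0) = em 1 := hπ 0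
        have e2 : π ((g 3 * (g 1)⁻¹ * (g 3)⁻¹) ^ 3) = (cm3 * (hm3 ζ)⁻¹ * cm3⁻¹) ^ 3 := by
          have f1 : π (g 1) = hm3 ζ := hπ 1
          have f3 : π (g 3) = cm3 := hπ 3
          simp only [map_pow, map_mul, map_inv, f1, f3]
        rw [e1, e2, hPsi, hF]

end conc3

end Cfsg.Agent.GK
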