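import Cfsg.Agent.GK.SL3C

/-!
The field with four elements: `SL₂` with four relators, `SL₃` with fourteen.
-/

set_option autoImplicit false

namespace Cfsg.Agent.GK

open Subgroup Polynomial

universe v

theorem IsPres.lift_hom {ι : Type*} {G G' : Type*} [Group G] [Group G'] {R : Set (FreeGroup ι)} {x : ι → G}
    (h : IsPres R x) (y : ι → G') (hy : ∀ w ∈ R, FreeGroup.lift y w = 1) :
    ∃ ρ : G →* G', ∀ i, ρ (x i) = y i := by
  obtain ⟨e, he⟩ := h.exists_equiv
  refine ⟨(PresentedGroup.toGroup hy).comp e.symm.toMonoidHom, fun i => ?_⟩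
  change PresentedGroup.toGroup hy (e.symm (x i)) = y i
  rw [← he i, MulEquiv.symm_apply_apply]
  exact PresentedGroup.toGroup.of hy

theorem IsPres.lift_word {ι : Type*} {G G' : Type*} [Group G] [Group G'] {x : ι → G} {y : ι → G'}
    {ρ : G →* G'} (hρ : ∀ i, ρ (x i) = y i) (w : FreeGroup ι) : ρ (FreeGroup.lift x w) = FreeGroup.lift y w := by
  have : ρ.comp (FreeGroup.lift x) = FreeGroup.lift y := by
    ext1 i
    rw [MonoidHom.comp_apply, FreeGroup.lift_apply_of, FreeGroup.lift_apply_of]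
    exact hρ i
  exact DFunLike.congr_fun this w

section four
variable {F : Type v} [Field F] [Fintype F] {ζ : Fˣ}

theorem four_char (hq : Fintype.card F = 4) : CharP F 2 := by
  rcases even_or_odd_card F with h | h
  · exact h
  · rw [hq] at h
    exact absurd h (by decide)

theorem four_cube (hζ : IsGen ζ) (hq : Fintype.card F = 4) : ζ ^ 3 = 1 := by
  have h1 : orderOf ζ = 3 := by rw [hζ.orderOf, hq]
  rw [← h1]; exact pow_orderOf_eq_one ζ

theorem four_ne_one (hζ : IsGen ζ) (hq : Fintype.card F = 4) : (ζ : F) ≠ 1 := by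
  intro h
  have h1 := hζ.orderOf
  rw [hq] at h1
  have h2 : ζ = 1 := by ext; exact h
  rw [h2, orderOf_one] at h1
  omega

theorem four_eq (hζ : IsGen ζ) (hq : Fintype.card F = 4) : (ζ : F) ^ 2 + ζ + 1 = 0 := by
  have h1 : ((ζ : F) - 1) * ((ζ : F) ^ 2 + ζ + 1) = 0 := by
    have : ((ζ : F)) ^ 3 = 1 := by
      rw [← Units.val_pow_eq_pow_val, four_cube hζ hq, Units.val_one]
    linear_combination this
  exact (mul_eq_zero.1 h1).resolve_left (sub_ne_zero.2 (four_ne_one hζ hq))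

/-- additive subsets containing `1` and `ζ` -/
theorem four_ind (hζ : IsGen ζ) (hq : Fintype.card F = 4) {P : F → Prop} (h0 : P 0)
    (hadd : ∀ a b, P a → P b → P (a + b)) (h1 : P 1) (h2 : P ζ) (r : F) : P r := by
  have hc := four_char hq
  have he := four_eq hζ hq
  have h3 : P ((ζ : F) ^ 2) := by
    have : (ζ : F) ^ 2 = ζ + 1 := by
      have h2' : (2 : F) = 0 := CharTwo.two_eq_zero
      linear_combination he - (ζ + 1) * h2'
    rw [this]; exact hadd _ _ h2 h1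
  by_cases hr : r = 0
  · rw [hr]; exact h0
  · obtain ⟨n, hn⟩ := hζ (Units.mk0 r hr)
    have hr' : r = (ζ : F) ^ n := by rw [← Units.val_pow_eq_pow_val, hn]; rfl
    have h4 : (ζ : F) ^ 3 = 1 := by
      rw [← Units.val_pow_eq_pow_val, four_cube hζ hq, Units.val_one]
    rw [hr', ← Nat.div_add_mod n 3, pow_add, pow_mul, h4, one_pow, one_mul]
    have : n % 3 < 3 := Nat.mod_lt _ (by norm_num)
    interval_cases h5 : n % 3
    · rw [pow_zero]; exact h1
    · rw [pow_one]; exact h2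
    · exact h3

theorem CC_four {G : Type*} [Group G] {u k : G} {f : (ZMod 2)[X]} (hmon : f.Monic) (hd2 : f.natDegree = 2)
    (hc0 : f.coeff 0 = 1) (hc1 : f.coeff 1 = 1) (hcoef2 : f.coeff 2 = 1) (hu : u ^ 2 = 1) (hm : Psi u k f = 1) :
    CC u k := by
  apply CC_of_deg_two hmon hm hd2.le
  have hPsi : u * (k * u * k⁻¹) * cj u k 2 = 1 := by
    rw [Psi, hd2, pw_succ, pw_succ, pw_succ, hcoef2, hc0, hc1] at hm
    have hv : (1 : ZMod 2).val = 1 := rfl
    rw [hv, pow_one, pow_one, pow_one, cj_zero] at hm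
    have e1 : cj u k 1 = k * u * k⁻¹ := by rw [cj, pow_one]
    rw [e1] at hm
    simpa [pw] using hm
  have hsq : ∀ n, cj u k n * cj u k n = 1 := by
    intro n
    rw [← pow_two]; exact cj_p hu n
  have hu2 : u * u = 1 := by rw [← pow_two]; exact hu
  have hv2 : (k * u * k⁻¹) * (k * u * k⁻¹) = 1 := by
    have := hsq 1
    rwa [cj, pow_one] at this
  set v := k * u * k⁻¹ with hv
  have h5 : u * v = cj u k 2 := by
    rw [mul_eq_one_iff_eq_inv] at hPsi
    rw [hPsi, inv_eq_of_mul_eq_one_right (hsq 2)]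
  have h6 : (u * v) * (u * v) = 1 := by rw [h5]; exact hsq 2
  have h7 : u * v = (u * v)⁻¹ := eq_inv_of_mul_eq_one_left h6
  rw [mul_inv_rev, inv_eq_of_mul_eq_one_right hu2, inv_eq_of_mul_eq_one_right hv2] at h7
  exact h7

theorem udata_four (hζ : IsGen ζ) (hq : Fintype.card F = 4) : ∃ R W, UData ζ 2 R W := by
  classical
  have hc := four_char hq
  let _ : Algebra (ZMod 2) F := ZMod.algebra F 2
  choose F0 hF using (gen_adjoin_sq (F := F) (p := 2) hζ)
  refine ⟨_, _, udata_build (p := 2) (n := 0) 1 hF ∅ (by simp) (by simp) ?_ (Or.inl rfl)⟩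
  intro G _ g _ hu hm
  have hint : IsIntegral (ZMod 2) ((((ζ ^ 1 : Fˣ) : F)) ^ 2) := Algebra.IsIntegral.isIntegral _
  set κ : F := (((ζ ^ 1 : Fˣ) : F)) ^ 2 with hκ
  have hκ' : κ = (ζ : F) ^ 2 := by rw [hκ, pow_one]
  set f := minpoly (ZMod 2) κ with hf
  have hmon : f.Monic := minpoly.monic hint
  have hcard := Module.card_eq_pow_finrank (K := ZMod 2) (V := F)
  rw [ZMod.card, hq] at hcard
  have hfr : Module.finrank (ZMod 2) F = 2 := by
    have h1 : 2 ^ 2 = 2 ^ Module.finrank (ZMod 2) F := by rw [← hcard]; norm_num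
    exact (Nat.pow_right_injective le_rfl h1).symm
  have hdeg : f.natDegree ≤ 2 := (minpoly.natDegree_le κ).trans hfr.le
  rcases Nat.lt_or_ge f.natDegree 2 with hd | hd
  · exact CC_of_deg_one hmon hm (by omega)
  · have hd2 : f.natDegree = 2 := le_antisymm hdeg hd
    have hz2 : ∀ a : ZMod 2, a ≠ 0 → a = 1 := by decide
    have h2' : (2 : F) = 0 := CharTwo.two_eq_zero
    have he := four_eq hζ hq
    have hcoef2 : f.coeff 2 = 1 := by
      have := hmon.coeff_natDegree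
      rwa [hd2] at this
    have hζ0 := ζ.ne_zero
    have haev : aeval κ f = 0 := minpoly.aeval _ _
    have hsum : algebraMap (ZMod 2) F (f.coeff 0) + algebraMap (ZMod 2) F (f.coeff 1) * κ + κ ^ 2 = 0 := by
      rw [aeval_eq_sum_range, hd2] at haev
      simp only [Finset.sum_range_succ, Finset.sum_range_zero, zero_add, pow_zero, pow_one, hcoef2,
        Algebra.smul_def, mul_one, map_one, one_mul] at haev
      exact haev
    have hc0 : f.coeff 0 = 1 := by
      apply hz2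
      exact minpoly.coeff_zero_ne_zero hint (by rw [hκ']; exact pow_ne_zero 2 hζ0)
    have hc1 : f.coeff 1 = 1 := by
      apply hz2
      intro h1
      rw [hc0, h1, map_one, map_zero, zero_mul, add_zero, hκ'] at hsum
      have h3 : (ζ : F) + 1 = 0 := by
        have h4 : (ζ : F) ^ 4 = (ζ : F) := by
          have : ((ζ : F)) ^ 3 = 1 := by
            rw [← Units.val_pow_eq_pow_val, four_cube hζ hq, Units.val_one]
          linear_combination (ζ : F) * this
        linear_combination hsum - h4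
      apply four_ne_one hζ hq
      linear_combination h3 - h2'
    exact CC_four hmon hd2 hc0 hc1 hcoef2 hu hm

theorem sl2_pres_four (hζ : IsGen ζ) (hq : Fintype.card F = 4) :
    ∃ R : Finset (FreeGroup (Fin 3)), R.card ≤ 4 ∧ IsPres (R : Set (FreeGroup (Fin 3))) (gSL ζ) := by
  have hc := four_char hq
  obtain ⟨R, W, U⟩ := udata_four hζ hq
  exact U.presEven hζ

/-- an element of order three generating `SL₂(4)` with its conjugate -/
def g4 (ζ : Fˣ) [CharP F 2] : Matrix.SpecialLinearGroup (Fin 2) F :=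
  ⟨!![0, (ζ : F); ((ζ⁻¹ : Fˣ) : F), (ζ : F)], by
    rw [Matrix.det_fin_two_of, zero_mul, zero_sub, Units.mul_inv]
    exact CharTwo.neg_eq 1⟩

theorem g4_coe (ζ : Fˣ) [CharP F 2] : ((g4 ζ : Matrix.SpecialLinearGroup (Fin 2) F) : Matrix (Fin 2) (Fin 2) F) =
    !![0, (ζ : F); ((ζ⁻¹ : Fˣ) : F), (ζ : F)] := rfl

theorem closure_g4 [CharP F 2] (hζ : IsGen ζ) (hq : Fintype.card F = 4) :
    closure {g4 ζ, tm * g4 ζ * tm⁻¹} = ⊤ := by
  classical
  obtain ⟨R, -, P⟩ := sl2_pres_four hζ hq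
  have he := four_eq hζ hq
  have h2 : (2 : F) = 0 := CharTwo.two_eq_zero
  have hinv : ((ζ⁻¹ : Fˣ) : F) = ζ + 1 := by
    have h3 : (ζ : F) * (ζ + 1) = 1 := by linear_combination he - h2
    rw [Units.val_inv_eq_inv_val]
    exact inv_eq_of_mul_eq_one_right h3
  have htt : (tm : Matrix.SpecialLinearGroup (Fin 2) F) * tm = 1 := by
    rw [tm_sq]
    have : (-1 : Fˣ) = 1 := by
      ext
      rw [Units.val_neg, Units.val_one]
      exact CharTwo.neg_eq _
    rw [this, hm_one]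
  have hti : (tm : Matrix.SpecialLinearGroup (Fin 2) F)⁻¹ = tm := inv_eq_of_mul_eq_one_right htt
  have hneg : (-1 : F) = 1 := CharTwo.neg_eq 1
  set g := g4 ζ with hg
  set k : Matrix.SpecialLinearGroup (Fin 2) F := tm * g * tm⁻¹ with hk
  have hgm : (g : Matrix (Fin 2) (Fin 2) F) = !![0, (ζ : F); (ζ : F) + 1, (ζ : F)] := by
    rw [hg, g4_coe, hinv]
  have hkm : (k : Matrix (Fin 2) (Fin 2) F) = !![(ζ : F), (ζ : F) + 1; (ζ : F), 0] := by
    rw [hk, hti, Matrix.SpecialLinearGroup.coe_mul, Matrix.SpecialLinearGroup.coe_mul, tm_coe, hgm, hneg]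
    simp only [Matrix.mul_fin_two]
    ext i j
    fin_cases i <;> fin_cases j <;> simp
  have hg2 : ((g * g : Matrix.SpecialLinearGroup (Fin 2) F) : Matrix (Fin 2) (Fin 2) F) =
      !![1, (ζ : F) + 1; 1, (ζ : F)] := by
    rw [Matrix.SpecialLinearGroup.coe_mul, hgm]
    simp only [Matrix.mul_fin_two]
    ext i j
    fin_cases i <;> fin_cases j <;> simp <;> grind
  have hk2 : ((k * k : Matrix.SpecialLinearGroup (Fin 2) F) : Matrix (Fin 2) (Fin 2) F) =
      !![(ζ : F), 1; (ζ : F) + 1, 1] := by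
    rw [Matrix.SpecialLinearGroup.coe_mul, hkm]
    simp only [Matrix.mul_fin_two]
    ext i j
    fin_cases i <;> fin_cases j <;> simp <;> grind
  have e1 : tm = g * k * g := by
    apply slext
    rw [Matrix.SpecialLinearGroup.coe_mul, Matrix.SpecialLinearGroup.coe_mul, hkm, hgm, tm_coe, hneg]
    simp only [Matrix.mul_fin_two]
    ext i j
    fin_cases i <;> fin_cases j <;> simp <;> grind
  have e2 : hm ζ * (g * g) = k * k := by
    apply slext
    rw [Matrix.SpecialLinearGroup.coe_mul, hk2, hg2, hm_coe, hinv]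
    simp only [Matrix.mul_fin_two]
    ext i j
    fin_cases i <;> fin_cases j <;> simp <;> grind
  let q : Matrix.SpecialLinearGroup (Fin 2) F := ⟨!![(ζ : F), 1; 1, 0], by
    rw [Matrix.det_fin_two_of, mul_zero, one_mul, zero_sub, hneg]⟩
  have hqm : (q : Matrix (Fin 2) (Fin 2) F) = !![(ζ : F), 1; 1, 0] := rfl
  have e3 : k * q = g := by
    apply slext
    rw [Matrix.SpecialLinearGroup.coe_mul, hkm, hqm, hgm]
    simp only [Matrix.mul_fin_two]
    ext i j
    fin_cases i <;> fin_cases j <;> simp <;> grind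
  have e4 : xm 1 = (g * g) * q := by
    apply slext
    rw [Matrix.SpecialLinearGroup.coe_mul, hg2, hqm, xm_coe]
    simp only [Matrix.mul_fin_two]
    ext i j
    fin_cases i <;> fin_cases j <;> simp <;> grind
  have mg : g ∈ closure {g, k} := Subgroup.subset_closure (Or.inl rfl)
  have mk : k ∈ closure {g, k} := Subgroup.subset_closure (Or.inr rfl)
  have mq : q ∈ closure {g, k} := by
    have : q = k⁻¹ * g := by rw [← e3]; group
    rw [this]
    exact mul_mem (inv_mem mk) mg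
  rw [eq_top_iff, ← P.closure, closure_le]
  rintro _ ⟨i, rfl⟩
  fin_cases i
  · change xm 1 ∈ closure {g, k}
    rw [e4]
    exact mul_mem (mul_mem mg mg) mq
  · change hm ζ ∈ closure {g, k}
    have : hm ζ = (k * k) * (g * g)⁻¹ := by rw [← e2]; group
    rw [this]
    exact mul_mem (mul_mem mk mk) (inv_mem (mul_mem mg mg))
  · change tm ∈ closure {g, k}
    rw [e1]
    exact mul_mem (mul_mem mg mk) mg

end four

section rels
variable {G H : Type*} [Group G] [Group H]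

/-- the ten further relators for the field with four elements; `wg`, `wz` stand for `g4 ζ` and `x₁₂(ζ)` -/
def rels10 (u h t c wg wz : G) : Fin 10 → G :=
  ![c * c * c,
    t * c * t * c,
    (h⁻¹ * (c * h * c⁻¹)) * wg * (wg * (h⁻¹ * (c * h * c⁻¹)))⁻¹,
    h * (c * h * c⁻¹) * (c⁻¹ * h * c),
    u * (c⁻¹ * t * u⁻¹ * t⁻¹ * c) * ((c⁻¹ * t * u⁻¹ * t⁻¹ * c) * u)⁻¹,
    u * (c⁻¹ * t * wz⁻¹ * t⁻¹ * c) * ((c⁻¹ * t * wz⁻¹ * t⁻¹ * c) * u)⁻¹,
    u * (c * t * u * t⁻¹ * c⁻¹) * ((c * t * u * t⁻¹ * c⁻¹) * u)⁻¹,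
    u * (c * t * wz * t⁻¹ * c⁻¹) * ((c * t * wz * t⁻¹ * c⁻¹) * u)⁻¹,
    u * (c * u⁻¹ * c⁻¹) * ((c⁻¹ * t * u⁻¹ * t⁻¹ * c) * ((c * u⁻¹ * c⁻¹) * u))⁻¹,
    u * (c * wz⁻¹ * c⁻¹) * ((c⁻¹ * t * wz⁻¹ * t⁻¹ * c) * ((c * wz⁻¹ * c⁻¹) * u))⁻¹]

theorem map_rels10 (f : G →* H) (u h t c wg wz : G) (i : Fin 10) :
    f (rels10 u h t c wg wz i) = rels10 (f u) (f h) (f t) (f c) (f wg) (f wz) i := by
  fin_cases i <;> simp [rels10]

end rels

section four2
variable {F : Type v} [Field F] [Fintype F] {ζ : Fˣ}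

/-- the data for four elements -/
theorem s3_four {G : Type*} [Group G] {ζ : Fˣ} (hζ : IsGen ζ) (hq : Fintype.card F = 4) [CharP F 2]
    (ρ : Matrix.SpecialLinearGroup (Fin 2) F →* G) {u h t c wg wz : G} (hu : ρ (xm 1) = u) (hh : ρ (hm ζ) = h)
    (ht : ρ tm = t) (hwg : ρ (g4 ζ) = wg) (hwz : ρ (xm ζ) = wz)
    (H : ∀ i, rels10 u h t c wg wz i = 1) : S3 ζ (fun s => ρ (xm s)) h t c := by
  have h3 : h ^ 3 = 1 := by rw [← hh, ← map_pow, hm_pow, four_cube hζ hq, hm_one, map_one]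
  have hz3 : (ζ : F) ^ 3 = 1 := by
    rw [← Units.val_pow_eq_pow_val, four_cube hζ hq, Units.val_one]
  have T : T3 h t c := by
    refine ⟨H 0, H 1, ?_, H 3⟩
    rw [← hh, ← ht, ← map_inv, ← map_mul, ← map_mul, tm_hm, map_inv]
  have hadd : ∀ s r, ρ (xm (s + r)) = ρ (xm s) * ρ (xm r) := by
    intro s r; rw [xm_add, map_mul]
  have hX : ∀ s, h * ρ (xm s) * h⁻¹ = ρ (xm ((ζ : F) ^ 2 * s)) := by
    intro s
    rw [← hm_xm, map_mul, map_mul, map_inv, hh]
  set δ := h⁻¹ * (c * h * c⁻¹) with hδ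
  have hδt : Commute δ t := by
    have h1 : t * δ * t⁻¹ = δ := by
      have e1 : t * δ * t⁻¹ = (t * h * t⁻¹)⁻¹ * (t * (c * h * c⁻¹) * t⁻¹) := by rw [hδ]; group
      rw [e1, T.th, T.th1, T.h2_eq, inv_inv, inv_inv, hδ]
      have e2 : h * h = h⁻¹ := by
        rw [eq_inv_iff_mul_eq_one, ← h3]; simp only [pow_succ, pow_zero, one_mul]
      rw [← mul_assoc, e2]
    exact (mul_inv_eq_iff_eq_mul.1 h1).symm
  have hδg : Commute δ wg := mul_inv_eq_one.1 (H 2)
  have hδρ : ∀ A, Commute δ (ρ A) := by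
    intro A
    have hle : closure {g4 ζ, tm * g4 ζ * tm⁻¹} ≤ (centralizer {δ}).comap ρ := by
      rw [closure_le]
      rintro x (rfl | rfl)
      · change ρ (g4 ζ) ∈ centralizer {δ}
        rw [mem_centralizer_iff]
        rintro _ rfl
        rw [hwg]; exact hδg.eq
      · change ρ (tm * g4 ζ * tm⁻¹) ∈ centralizer {δ}
        rw [mem_centralizer_iff]
        rintro _ rfl
        rw [map_mul, map_mul, map_inv, hwg, ht]
        exact ((hδt.mul_right hδg).mul_right hδt.inv_right).eq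
    rw [closure_g4 hζ hq] at hle
    have := hle (mem_top A)
    have h4 : ρ A ∈ centralizer {δ} := this
    rw [mem_centralizer_iff] at h4
    exact h4 δ rfl
  have hkX : ∀ s, (c * h⁻¹ * c⁻¹) * ρ (xm s) * (c * h⁻¹ * c⁻¹)⁻¹ = ρ (xm ((ζ : F) * s)) := by
    intro s
    have e1 : c * h⁻¹ * c⁻¹ = δ⁻¹ * h⁻¹ := by rw [hδ]; group
    have e2 := act_inv (pow_ne_zero 2 ζ.ne_zero) hX s
    have e3 : ((ζ : F) ^ 2)⁻¹ = (ζ : F) := by
      apply inv_eq_of_mul_eq_one_right
      rw [← pow_succ]; exact hz3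
    rw [e3] at e2
    have e4 : (δ⁻¹ * h⁻¹) * ρ (xm s) * (δ⁻¹ * h⁻¹)⁻¹ = δ⁻¹ * (h⁻¹ * ρ (xm s) * h⁻¹⁻¹) * δ := by group
    rw [e1, e4, e2, mul_assoc, ← (hδρ _).eq, inv_mul_cancel_left]
  have P : P3 ζ (fun s => ρ (xm s)) h t c := ⟨T, hadd, hX, hkX⟩
  set X : F → G := fun s => ρ (xm s) with hXdef
  have hX1 : X 1 = u := hu
  have hXz : X ζ = wz := hwz
  have hn1 : X (-1) = u⁻¹ := by rw [P.neg, hX1]
  have hnz : X (-ζ) = wz⁻¹ := by rw [P.neg, hXz]
  have z02 : Yr X t c 0 2 0 = 1 := by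
    change c⁻¹ * t * X (-0) * t⁻¹ * c = 1
    rw [neg_zero, P.zero]; group
  have z21 : Yr X t c 2 1 0 = 1 := by
    change c * t * X 0 * t⁻¹ * c⁻¹ = 1
    rw [P.zero]; group
  have z12 : Yr X t c 1 2 0 = 1 := by
    change c * X (-0) * c⁻¹ = 1
    rw [neg_zero, P.zero]; group
  have A1 : ∀ r, Commute (X 1) (Yr X t c 0 2 r) := by
    intro r
    refine four_ind hζ hq (P := fun r => Commute (X 1) (Yr X t c 0 2 r)) ?_ ?_ ?_ ?_ r
    · rw [z02]; exact Commute.one_right _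
    · intro a b ha hb
      rw [P.Y_add (by decide)]
      exact ha.mul_right hb
    · change Commute (X 1) (c⁻¹ * t * X (-1) * t⁻¹ * c)
      rw [hX1, hn1]
      exact mul_inv_eq_one.1 (H 4)
    · change Commute (X 1) (c⁻¹ * t * X (-ζ) * t⁻¹ * c)
      rw [hX1, hnz]
      exact mul_inv_eq_one.1 (H 5)
  have A2 : ∀ r, Commute (X 1) (Yr X t c 2 1 r) := by
    intro r
    refine four_ind hζ hq (P := fun r => Commute (X 1) (Yr X t c 2 1 r)) ?_ ?_ ?_ ?_ r
    · rw [z21]; exact Commute.one_right _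
    · intro a b ha hb
      rw [P.Y_add (by decide)]
      exact ha.mul_right hb
    · change Commute (X 1) (c * t * X 1 * t⁻¹ * c⁻¹)
      rw [hX1]
      exact mul_inv_eq_one.1 (H 6)
    · change Commute (X 1) (c * t * X ζ * t⁻¹ * c⁻¹)
      rw [hX1, hXz]
      exact mul_inv_eq_one.1 (H 7)
  refine ⟨P, ?_, hζ, A1, A2, ?_⟩
  · rw [← ht]
    change ρ tm * ρ (xm 1) * (ρ tm)⁻¹ = (ρ (xm 1))⁻¹ * ρ tm * (ρ (xm 1))⁻¹
    rw [← map_inv, ← map_inv, ← map_mul, ← map_mul, ← map_mul, ← map_mul]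
    congr 1
    have := tm_xm (F := F) 1
    rw [inv_one, Units.val_one, hm_one, mul_one] at this
    rw [this, xm_neg]
  · intro r
    refine four_ind hζ hq (P := fun r => X 1 * Yr X t c 1 2 r = Yr X t c 0 2 r * (Yr X t c 1 2 r * X 1)) ?_ ?_ ?_ ?_ r
    · rw [z02, z12]; simp
    · intro a b ha hb
      rw [P.Y_add (by decide), P.Y_add (i := 0) (by decide)]
      have hcom : Commute (Yr X t c 1 2 a) (Yr X t c 0 2 b) := P.D23 hζ A2 a b
      calc X 1 * (Yr X t c 1 2 a * Yr X t c 1 2 b) = (X 1 * Yr X t c 1 2 a) * Yr X t c 1 2 b := by group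
        _ = Yr X t c 0 2 a * Yr X t c 1 2 a * (X 1 * Yr X t c 1 2 b) := by rw [ha]; group
        _ = Yr X t c 0 2 a * (Yr X t c 1 2 a * Yr X t c 0 2 b) * (Yr X t c 1 2 b * X 1) := by rw [hb]; group
        _ = _ := by rw [hcom.eq]; group
    · change X 1 * (c * X (-1) * c⁻¹) = (c⁻¹ * t * X (-1) * t⁻¹ * c) * ((c * X (-1) * c⁻¹) * X 1)
      rw [hX1, hn1]
      exact mul_inv_eq_one.1 (H 8)
    · change X 1 * (c * X (-ζ) * c⁻¹) = (c⁻¹ * t * X (-ζ) * t⁻¹ * c) * ((c * X (-ζ) * c⁻¹) * X 1)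
      rw [hX1, hnz]
      exact mul_inv_eq_one.1 (H 9)

end four2

end Cfsg.Agent.GK
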