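import Cfsg.Agent.GK.SL3D

/-!
`SL₃(4)` with fourteen relators, and the presentation of `SL₃(F)` in general.
-/

set_option autoImplicit false

namespace Cfsg.Agent.GK

open Subgroup

universe v

section emb
variable {F : Type v} [Field F]

/-- block matrices -/
def eM (A : Matrix (Fin 2) (Fin 2) F) : Matrix (Fin 3) (Fin 3) F :=
  !![A 0 0, A 0 1, 0; A 1 0, A 1 1, 0; 0, 0, 1]

theorem eM_mul (A B : Matrix (Fin 2) (Fin 2) F) : eM (A * B) = eM A * eM B := by
  ext i j
  fin_cases i <;> fin_cases j <;> simp [eM, Matrix.mul_apply, Fin.sum_univ_three, Fin.sum_univ_two]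

theorem eM_one : eM (1 : Matrix (Fin 2) (Fin 2) F) = 1 := by
  ext i j
  fin_cases i <;> fin_cases j <;> simp [eM]

theorem det_eM (A : Matrix (Fin 2) (Fin 2) F) : (eM A).det = A.det := by
  rw [Matrix.det_fin_two, Matrix.det_fin_three]
  simp [eM]

/-- the embedding of `SL₂` in the upper left corner of `SL₃` -/
def e23 : Matrix.SpecialLinearGroup (Fin 2) F →* Matrix.SpecialLinearGroup (Fin 3) F where
  toFun A := ⟨eM (A : Matrix (Fin 2) (Fin 2) F), by rw [det_eM]; exact A.2⟩
  map_one' := Subtype.ext eM_one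
  map_mul' A B := Subtype.ext (eM_mul _ _)

theorem e23_coe (A : Matrix.SpecialLinearGroup (Fin 2) F) :
    ((e23 A : Matrix.SpecialLinearGroup (Fin 3) F) : Matrix (Fin 3) (Fin 3) F) =
    !![(A : Matrix (Fin 2) (Fin 2) F) 0 0, (A : Matrix (Fin 2) (Fin 2) F) 0 1, 0;
    (A : Matrix (Fin 2) (Fin 2) F) 1 0, (A : Matrix (Fin 2) (Fin 2) F) 1 1, 0; 0, 0, 1] := rfl

theorem e23_xm (s : F) : e23 (xm s) = em s := by
  apply slext3
  rw [e23_coe, em_coe, xm_coe]
  ext i j
  fin_cases i <;> fin_cases j <;> simp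

theorem e23_hm (a : Fˣ) : e23 (hm a) = hm3 a := by
  apply slext3
  rw [e23_coe, hm3_coe, hm_coe]
  ext i j
  fin_cases i <;> fin_cases j <;> simp

theorem e23_tm : e23 (tm : Matrix.SpecialLinearGroup (Fin 2) F) = tm3 := by
  apply slext3
  rw [e23_coe, tm3_coe, tm_coe]
  ext i j
  fin_cases i <;> fin_cases j <;> simp

end emb

section four3
variable {F : Type v} [Field F] [Fintype F] {ζ : Fˣ}

open scoped Classical in
theorem sl3_pres_four (hζ : IsGen ζ) (hq : Fintype.card F = 4) :
    ∃ R : Finset (FreeGroup (Fin 4)), R.card ≤ 14 ∧ IsPres (R : Set (FreeGroup (Fin 4))) (gSL3 ζ) := by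
  have hc := four_char hq
  obtain ⟨R2, hR2, P2⟩ := sl2_pres_four hζ hq
  obtain ⟨wg, hwg⟩ := P2.surj (g4 ζ)
  obtain ⟨wz, hwz⟩ := P2.surj (xm ζ)
  let ι : FreeGroup (Fin 3) →* FreeGroup (Fin 4) := FreeGroup.map Fin.castSucc
  have hι : ∀ {G : Type v} [Group G] (g : Fin 4 → G) (w : FreeGroup (Fin 3)),
      FreeGroup.lift g (ι w) = FreeGroup.lift (fun i => g (Fin.castSucc i)) w := by
    intro G _ g w
    have : (FreeGroup.lift g).comp ι = FreeGroup.lift (fun i => g (Fin.castSucc i)) := by
      ext1 i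
      simp [ι]
    exact DFunLike.congr_fun this w
  have hι0 : ∀ {G : Type} [Group G] (g : Fin 4 → G) (w : FreeGroup (Fin 3)),
      FreeGroup.lift g (ι w) = FreeGroup.lift (fun i => g (Fin.castSucc i)) w := by
    intro G _ g w
    have : (FreeGroup.lift g).comp ι = FreeGroup.lift (fun i => g (Fin.castSucc i)) := by
      ext1 i
      simp [ι]
    exact DFunLike.congr_fun this w
  let E : Finset (FreeGroup (Fin 4)) := Finset.univ.image (rels10 (FreeGroup.of (0 : Fin 4)) (FreeGroup.of 1)
    (FreeGroup.of 2) (FreeGroup.of 3) (ι wg) (ι wz))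
  let R : Finset (FreeGroup (Fin 4)) := R2.image ι ∪ E
  have hgc : ∀ w, FreeGroup.lift (fun i => gSL3 ζ (Fin.castSucc i)) w = e23 (FreeGroup.lift (gSL ζ) w) := by
    intro w
    rw [IsPres.lift_word (x := gSL ζ) (y := fun i => gSL3 ζ (Fin.castSucc i)) (ρ := e23)]
    intro i
    fin_cases i
    · exact e23_xm 1
    · exact e23_hm ζ
    · exact e23_tm
  have hS := S3c hζ
  refine ⟨R, ?_, ?_⟩
  · refine (Finset.card_union_le _ _).trans ?_
    have h1 : (R2.image ι).card ≤ 4 := (Finset.card_image_le).trans hR2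
    have h2 : E.card ≤ 10 := by
      refine (Finset.card_image_le).trans ?_
      rw [Finset.card_univ, Fintype.card_fin]
    omega
  · apply isPres_of_bij
    · intro w hw
      rw [Finset.mem_coe, Finset.mem_union, Finset.mem_image, Finset.mem_image] at hw
      rcases hw with ⟨w, hw, rfl⟩ | ⟨i, -, rfl⟩
      · rw [hι, hgc, (P2.ker w).2 (subset_normalClosure hw), map_one]
      · rw [map_rels10, lift_of4, lift_of4, lift_of4, lift_of4, hι, hι, hgc, hgc, hwg, hwz, e23_xm]
        change rels10 (em 1) (hm3 ζ) tm3 cm3 (e23 (g4 ζ)) (em ζ) i = 1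
        have hz3 : (ζ : F) ^ 3 = 1 := by
          rw [← Units.val_pow_eq_pow_val, four_cube hζ hq, Units.val_one]
        have hdel : ∀ A : Matrix.SpecialLinearGroup (Fin 3) F,
            Commute ((hm3 ζ)⁻¹ * (cm3 * hm3 ζ * cm3⁻¹)) A := by
          intro A
          have e1 : cm3 * hm3 ζ * cm3⁻¹ = (km3 ζ)⁻¹ := by rw [← km3_eq]; group
          rw [e1, ← mul_inv_rev]
          apply Commute.inv_left
          change km3 ζ * hm3 ζ * A = A * (km3 ζ * hm3 ζ)
          apply slext3
          simp only [Matrix.SpecialLinearGroup.coe_mul]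
          have e2 : ((km3 ζ : Matrix.SpecialLinearGroup (Fin 3) F) : Matrix (Fin 3) (Fin 3) F) * (hm3 ζ : Matrix.SpecialLinearGroup (Fin 3) F) =
              (ζ : F) • (1 : Matrix (Fin 3) (Fin 3) F) := by
            rw [km3_coe, hm3_coe]
            have hζ0 := ζ.ne_zero
            ext i j
            fin_cases i <;> fin_cases j <;> simp [Matrix.mul_apply, Fin.sum_univ_three]
            rw [← mul_inv, inv_eq_iff_eq_inv, eq_comm]
            apply inv_eq_of_mul_eq_one_right
            linear_combination hz3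
          rw [e2]
          simp
        fin_cases i
        · exact hS.c3
        · exact hS.tc
        · exact mul_inv_eq_one.2 (hdel _).eq
        · exact hS.hhh
        · have := hS.A1 1
          rw [Yem 0 2 (by decide), ← Yem02, em_neg] at this
          exact mul_inv_eq_one.2 this
        · have := hS.A1 ζ
          rw [Yem 0 2 (by decide), ← Yem02, em_neg] at this
          exact mul_inv_eq_one.2 this
        · have := hS.A2 1
          rw [Yem 2 1 (by decide), ← Yem21] at this
          exact mul_inv_eq_one.2 this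
        · have := hS.A2 ζ
          rw [Yem 2 1 (by decide), ← Yem21] at this
          exact mul_inv_eq_one.2 this
        · have := hS.A3 1
          rw [Yem 0 2 (by decide), ← Yem02, Yem 1 2 (by decide), ← Yem12, em_neg] at this
          exact mul_inv_eq_one.2 this
        · have := hS.A3 ζ
          rw [Yem 0 2 (by decide), ← Yem02, Yem 1 2 (by decide), ← Yem12, em_neg] at this
          exact mul_inv_eq_one.2 this
    · intro π hπ
      set P := PresentedGroup (R : Set (FreeGroup (Fin 4))) with hP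
      let g : Fin 4 → P := fun i => PresentedGroup.of i
      obtain ⟨ρ, hρ⟩ := P2.lift_hom (fun i => g (Fin.castSucc i)) (by
        intro w hw
        rw [← hι0]
        exact lift_of_rel (Finset.mem_coe.2 (Finset.mem_union_left _ (Finset.mem_image_of_mem _ hw))))
      have hρw := IsPres.lift_word hρ
      have hrel : ∀ i, rels10 (g 0) (g 1) (g 2) (g 3) (ρ (g4 ζ)) (ρ (xm ζ)) i = 1 := by
        intro i
        have h1 : FreeGroup.lift g (rels10 (FreeGroup.of (0 : Fin 4)) (FreeGroup.of 1)
            (FreeGroup.of 2) (FreeGroup.of 3) (ι wg) (ι wz) i) = 1 :=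
          lift_of_rel (Finset.mem_coe.2 (Finset.mem_union_right _ (Finset.mem_image_of_mem _ (Finset.mem_univ i))))
        rw [map_rels10, lift_of4, lift_of4, lift_of4, lift_of4, hι0, hι0, ← hρw, ← hρw, hwg, hwz] at h1
        exact h1
      have H := s3_four hζ hq ρ (hρ 0) (hρ 1) (hρ 2) rfl rfl hrel
      have hπρ : ∀ A, π (ρ A) = e23 A := by
        intro A
        obtain ⟨w, rfl⟩ := P2.surj A
        rw [hρw, ← hgc, IsPres.lift_word (x := fun i => g (Fin.castSucc i)) (ρ := π)]
        intro i
        exact hπ _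
      refine H.bij ?_ π ?_ (hπ 2) (hπ 3)
      · have hX1 : ρ (xm 1) = g 0 := hρ 0
        rw [hX1, eq_top_iff, ← closure_of_eq_top, closure_le]
        rintro _ ⟨i, rfl⟩
        apply Subgroup.subset_closure
        fin_cases i
        · exact Or.inl rfl
        · exact Or.inr (Or.inl rfl)
        · exact Or.inr (Or.inr (Or.inl rfl))
        · exact Or.inr (Or.inr (Or.inr rfl))
      · intro s
        rw [hπρ, e23_xm]

theorem sl3_pres (hζ : IsGen ζ) :
    ∃ R : Finset (FreeGroup (Fin 4)), R.card ≤ 14 ∧ IsPres (R : Set (FreeGroup (Fin 4))) (gSL3 ζ) := by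
  by_cases hq : Fintype.card F = 4
  · exact sl3_pres_four hζ hq
  · obtain ⟨R, hR, P⟩ := sl3_pres_ne4 hζ hq
    exact ⟨R, hR.trans (by norm_num), P⟩

end four3

end Cfsg.Agent.GK
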