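import Cfsg.Agent.GK.SL3

/-!
Thirteen relators for `SL₃(F)` (`|F| ≠ 4`).
-/

set_option autoImplicit false

namespace Cfsg.Agent.GK

open Subgroup Polynomial

universe v

theorem isPres_of_bij {ι : Type*} {G : Type*} [Group G] {R : Set (FreeGroup ι)} {x : ι → G}
    (h1 : ∀ r ∈ R, FreeGroup.lift x r = 1)
    (h3 : ∀ π : PresentedGroup R →* G, (∀ i, π (PresentedGroup.of i) = x i) → Function.Bijective π) :
    IsPres R x := by
  refine isPres_of_inj h1 ?_ (fun π hπ => (h3 π hπ).1)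
  let π : PresentedGroup R →* G := PresentedGroup.toGroup h1
  have hπ : ∀ i, π (PresentedGroup.of i) = x i := fun i => PresentedGroup.toGroup.of h1
  have hs := (h3 π hπ).2
  have h4 : Subgroup.map π (closure (Set.range (fun i => (PresentedGroup.of i : PresentedGroup R)))) = ⊤ := by
    rw [closure_of_eq_top, ← MonoidHom.range_eq_map]
    exact MonoidHom.range_eq_top.2 hs
  rw [MonoidHom.map_closure, ← Set.range_comp] at h4
  rw [← h4]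
  congr 1
  ext y
  simp [hπ]

section span
variable {F : Type*} [Field F] {p : ℕ} [hp : Fact p.Prime] [Algebra (ZMod p) F]

theorem span_ind {P : F → Prop} (h0 : P 0) (hadd : ∀ a b, P a → P b → P (a + b)) {κ : F} (hpow : ∀ n : ℕ, P (κ ^ n))
    (f : (ZMod p)[X]) : P (aeval κ f) := by
  induction f using Polynomial.induction_on' with
  | add f g h1 h2 => rw [map_add]; exact hadd _ _ h1 h2
  | monomial n a =>
    have h1 : ∀ m : ℕ, P ((m : F) * κ ^ n) := by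
      intro m
      induction m with
      | zero => simpa using h0
      | succ m ih =>
        have : ((m + 1 : ℕ) : F) * κ ^ n = (m : F) * κ ^ n + κ ^ n := by push_cast; ring
        rw [this]
        exact hadd _ _ ih (hpow n)
    have h2 : aeval κ (monomial n a) = ((a.val : ℕ) : F) * κ ^ n := by
      rw [aeval_monomial]
      congr 1
      rw [← map_natCast (algebraMap (ZMod p) F), ZMod.natCast_zmod_val]
    rw [h2]
    exact h1 _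

theorem Psi_act {G : Type*} [Group G] {Xf : F → G} {k : G} {κ : F} (hadd : ∀ s r, Xf (s + r) = Xf s * Xf r)
    (hk : ∀ s, k * Xf s * k⁻¹ = Xf (κ * s)) (f : (ZMod p)[X]) : Psi (Xf 1) k f = Xf (aeval κ f) := by
  have h0 : Xf 0 = 1 := by
    have := hadd 0 0
    rw [add_zero] at this
    exact mul_eq_left.1 this.symm
  have hpow : ∀ (n : ℕ) (s : F), Xf s ^ n = Xf (n * s) := by
    intro n s
    induction n with
    | zero => simp [h0]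
    | succ n ih => rw [pow_succ, ih, ← hadd]; congr 1; push_cast; ring
  have h1 : ∀ (c : ℕ → ℕ) (n : ℕ), pw (Xf 1) k c n = Xf (∑ j ∈ Finset.range n, (c j : F) * κ ^ j) := by
    intro c n
    induction n with
    | zero => simp [pw, h0]
    | succ n ih =>
      rw [pw, ih, hpow, mul_one, act_pow hk, ← hadd, Finset.sum_range_succ]
      congr 2
      ring
  rw [Psi, h1, aeval_eq_sum_range]
  congr 1
  apply Finset.sum_congr rfl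
  intro j _
  rw [Algebra.smul_def]
  congr 1
  rw [← map_natCast (algebraMap (ZMod p) F), ZMod.natCast_zmod_val]

theorem gen_adjoin_cube [Fintype F] {ζ : Fˣ} (hζ : IsGen ζ) (h4 : Fintype.card F ≠ 4) (s : F) :
    ∃ f : (ZMod p)[X], aeval ((ζ : F) ^ 3) f = s := by
  classical
  rcases adjoin_cases (p := p) ((ζ : F) ^ 3) with h | ⟨Q, m, n, hQ, hn, hQ2, hc, hκ⟩
  · exact h s
  · exfalso
    have h1 : (ζ ^ 3) ^ (Q - 1) = 1 := by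
      have : (ζ ^ 3) ^ Q = ζ ^ 3 := by
        ext
        push_cast
        exact hκ
      have h2 : (ζ ^ 3) ^ (Q - 1) * ζ ^ 3 = ζ ^ 3 := by
        rw [← pow_succ, Nat.sub_add_cancel (by omega)]
        exact this
      exact mul_eq_right.1 h2
    rw [← pow_mul] at h1
    have h2 := Nat.le_of_dvd (by omega) (orderOf_dvd_of_pow_eq_one h1)
    rw [hζ.orderOf, hc] at h2
    have h5 : Q ^ n ≤ 3 * (Q - 1) + 1 := by omega
    have h6 : Q ^ 2 ≤ Q ^ n := Nat.pow_le_pow_right (by omega) hn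
    obtain ⟨r, rfl⟩ := Nat.exists_eq_add_of_le hQ2
    have h7 : 2 + r - 1 = r + 1 := by omega
    rw [h7] at h5
    have h8 : (2 + r) ^ 2 ≤ 3 * (r + 1) + 1 := h6.trans h5
    have hr : r = 0 := by nlinarith
    subst hr
    norm_num at h5
    have hn2 : n = 2 := by
      by_contra hcon
      have : 2 ^ 3 ≤ 2 ^ n := Nat.pow_le_pow_right (by omega) (by omega)
      omega
    apply h4
    rw [hc, hn2]
    norm_num

end span

theorem CC_of_zero {G : Type*} [Group G] {u k : G} (h : ∀ n, Commute u (cj u k n)) : CC u k := by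
  have hall : ∀ i d : ℕ, Commute (cj u k i) (cj u k (i + d)) := by
    intro i d
    have := (h d).conj (k ^ i)
    rwa [cj_shift, show k ^ i * u * (k ^ i)⁻¹ = cj u k i from rfl] at this
  intro i j
  rcases le_total i j with h | h
  · obtain ⟨d, rfl⟩ := Nat.exists_eq_add_of_le h
    exact hall i d
  · obtain ⟨d, rfl⟩ := Nat.exists_eq_add_of_le h
    exact (hall j d).symm

section p3
variable {G : Type*} [Group G] {F : Type*} [Field F] {ζ : Fˣ} {X : F → G} {h t c : G}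

theorem P3.X_pow (H : P3 ζ X h t c) (n : ℕ) :
    X ((ζ : F) ^ n) = (c * h⁻¹ * c⁻¹) ^ n * X 1 * ((c * h⁻¹ * c⁻¹) ^ n)⁻¹ := by
  rw [act_pow H.kX, mul_one]

theorem P3.D12 (H : P3 ζ X h t c) (hg : IsGen ζ) (A2 : ∀ r, Commute (X 1) (Yr X t c 2 1 r)) (s r : F) :
    Commute (Yr X t c 0 1 s) (Yr X t c 2 1 r) := by
  have hζ : (ζ : F) ≠ 0 := ζ.ne_zero
  by_cases hs : s = 0
  · rw [hs]
    change Commute (X 0) _
    rw [H.zero]; exact Commute.one_left _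
  · obtain ⟨n, hn⟩ := hg (Units.mk0 s hs)
    have hs' : s = (ζ : F) ^ n := by rw [← Units.val_pow_eq_pow_val, hn]; rfl
    rw [hs']
    change Commute (X _) _
    rw [H.X_pow]
    have h1 := (A2 ((((ζ : F) ^ 2) ^ n)⁻¹ * r)).conj ((c * h⁻¹ * c⁻¹) ^ n)
    rw [act_pow H.k21] at h1
    have e : (((ζ : F) ^ 2) ^ n * ((((ζ : F) ^ 2) ^ n)⁻¹ * r)) = r := by field_simp
    rw [e] at h1
    exact h1

theorem P3.D23 (H : P3 ζ X h t c) (hg : IsGen ζ) (A2 : ∀ r, Commute (X 1) (Yr X t c 2 1 r)) (s r : F) :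
    Commute (Yr X t c 1 2 s) (Yr X t c 0 2 r) := by
  have := (H.D12 hg A2 (-s) (-r)).conj c
  have e1 : c * Yr X t c 0 1 (-s) * c⁻¹ = Yr X t c 1 2 s := rfl
  have e2 : c * Yr X t c 2 1 (-r) * c⁻¹ = Yr X t c 0 2 r := by
    change c * (c * t * X (-r) * t⁻¹ * c⁻¹) * c⁻¹ = c⁻¹ * t * X (-r) * t⁻¹ * c
    have : c * (c * t * X (-r) * t⁻¹ * c⁻¹) * c⁻¹ = (c * c) * t * X (-r) * t⁻¹ * (c⁻¹ * c⁻¹) := by group
    rw [this, H.cc, H.cc']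
  rwa [e1, e2] at this

end p3

section r13
variable {G H : Type*} [Group G] [Group H]

/-- the thirteen relators -/
noncomputable def rels13 {p : ℕ} [Fact p.Prime] (m wz : (ZMod p)[X]) (u h t c : G) : Fin 13 → G :=
  ![c * c * c,
    t * c * t * c,
    u ^ p,
    Psi u ((c * h⁻¹ * c⁻¹) ^ 3) m,
    t * h * t⁻¹ * (h⁻¹)⁻¹,
    t * u * t⁻¹ * (u⁻¹ * t * u⁻¹)⁻¹,
    (c * h⁻¹ * c⁻¹) * u * (c * h⁻¹ * c⁻¹)⁻¹ * (Psi u ((c * h⁻¹ * c⁻¹) ^ 3) wz)⁻¹,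
    h * u * h⁻¹ * ((c * h⁻¹ * c⁻¹) ^ 2 * u * ((c * h⁻¹ * c⁻¹) ^ 2)⁻¹)⁻¹,
    h * (c * h * c⁻¹) * ((c * h * c⁻¹) * h)⁻¹,
    h * (c * h * c⁻¹) * (c⁻¹ * h * c),
    u * (c⁻¹ * t * u⁻¹ * t⁻¹ * c) * ((c⁻¹ * t * u⁻¹ * t⁻¹ * c) * u)⁻¹,
    u * (c * t * u * t⁻¹ * c⁻¹) * ((c * t * u * t⁻¹ * c⁻¹) * u)⁻¹,
    u * (c * u⁻¹ * c⁻¹) * ((c⁻¹ * t * u⁻¹ * t⁻¹ * c) * ((c * u⁻¹ * c⁻¹) * u))⁻¹]

theorem map_rels13 {p : ℕ} [Fact p.Prime] (f : G →* H) (m wz : (ZMod p)[X]) (u h t c : G) (i : Fin 13) :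
    f (rels13 m wz u h t c i) = rels13 m wz (f u) (f h) (f t) (f c) i := by
  fin_cases i <;> simp [rels13, map_Psi]

/-- the thirteen relations -/
structure R13 {p : ℕ} [Fact p.Prime] (m wz : (ZMod p)[X]) (u h t c : G) : Prop where
  r1 : c * c * c = 1
  r2 : t * c * t * c = 1
  r3 : u ^ p = 1
  r4 : Psi u ((c * h⁻¹ * c⁻¹) ^ 3) m = 1
  r5 : t * h * t⁻¹ = h⁻¹
  r6 : t * u * t⁻¹ = u⁻¹ * t * u⁻¹
  r7 : (c * h⁻¹ * c⁻¹) * u * (c * h⁻¹ * c⁻¹)⁻¹ = Psi u ((c * h⁻¹ * c⁻¹) ^ 3) wz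
  r8 : h * u * h⁻¹ = (c * h⁻¹ * c⁻¹) ^ 2 * u * ((c * h⁻¹ * c⁻¹) ^ 2)⁻¹
  r9 : Commute h (c * h * c⁻¹)
  r10 : h * (c * h * c⁻¹) * (c⁻¹ * h * c) = 1
  r11 : Commute u (c⁻¹ * t * u⁻¹ * t⁻¹ * c)
  r12 : Commute u (c * t * u * t⁻¹ * c⁻¹)
  r13 : u * (c * u⁻¹ * c⁻¹) = (c⁻¹ * t * u⁻¹ * t⁻¹ * c) * ((c * u⁻¹ * c⁻¹) * u)

theorem r13_iff {p : ℕ} [Fact p.Prime] (m wz : (ZMod p)[X]) (u h t c : G) :
    (∀ i, rels13 m wz u h t c i = 1) ↔ R13 m wz u h t c := by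
  constructor
  · intro H
    refine ⟨H 0, H 1, H 2, H 3, mul_inv_eq_one.1 (H 4), mul_inv_eq_one.1 (H 5), mul_inv_eq_one.1 (H 6),
      mul_inv_eq_one.1 (H 7), mul_inv_eq_one.1 (H 8), H 9, mul_inv_eq_one.1 (H 10), mul_inv_eq_one.1 (H 11),
      mul_inv_eq_one.1 (H 12)⟩
  · intro H i
    fin_cases i
    · exact H.r1
    · exact H.r2
    · exact H.r3
    · exact H.r4
    · exact mul_inv_eq_one.2 H.r5
    · exact mul_inv_eq_one.2 H.r6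
    · exact mul_inv_eq_one.2 H.r7
    · exact mul_inv_eq_one.2 H.r8
    · exact mul_inv_eq_one.2 H.r9
    · exact H.r10
    · exact mul_inv_eq_one.2 H.r11
    · exact mul_inv_eq_one.2 H.r12
    · exact mul_inv_eq_one.2 H.r13

end r13

section r13b
variable {G : Type*} [Group G] {p : ℕ} [hp : Fact p.Prime] {m wz : (ZMod p)[X]} {u h t c : G}

theorem R13.t3 (H : R13 m wz u h t c) : T3 h t c := ⟨H.r1, H.r2, H.r5, H.r10⟩

theorem R13.du (H : R13 m wz u h t c) : Commute ((c * h * c⁻¹) * (c * h * c⁻¹) * h) u := by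
  have h1 := H.r8
  have h2 : ((c * h * c⁻¹) * (c * h * c⁻¹) * h) * u * ((c * h * c⁻¹) * (c * h * c⁻¹) * h)⁻¹ = u := by
    have : ((c * h * c⁻¹) * (c * h * c⁻¹) * h) * u * ((c * h * c⁻¹) * (c * h * c⁻¹) * h)⁻¹ =
      ((c * h * c⁻¹) * (c * h * c⁻¹)) * (h * u * h⁻¹) * ((c * h * c⁻¹) * (c * h * c⁻¹))⁻¹ := by group
    rw [this, h1, pow_two]; group
  exact mul_inv_eq_iff_eq_mul.1 h2

theorem R13.tdt (H : R13 m wz u h t c) :
    t * ((c * h * c⁻¹) * (c * h * c⁻¹) * h) * t⁻¹ = (c⁻¹ * h * c)⁻¹ * (c⁻¹ * h * c)⁻¹ * h⁻¹ := by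
  have : t * ((c * h * c⁻¹) * (c * h * c⁻¹) * h) * t⁻¹ =
    (t * (c * h * c⁻¹) * t⁻¹) * (t * (c * h * c⁻¹) * t⁻¹) * (t * h * t⁻¹) := by group
  rw [this, H.t3.th1, H.t3.th]

theorem R13.dv (H : R13 m wz u h t c) : Commute (h * (c * h * c⁻¹)⁻¹) (c⁻¹ * t * u⁻¹ * t⁻¹ * c) := by
  have h1 := (H.du.inv_right).conj (c⁻¹ * t)
  have e1 : (c⁻¹ * t) * u⁻¹ * (c⁻¹ * t)⁻¹ = c⁻¹ * t * u⁻¹ * t⁻¹ * c := by group
  have e2 : (c⁻¹ * t) * ((c * h * c⁻¹) * (c * h * c⁻¹) * h) * (c⁻¹ * t)⁻¹ = h * (c * h * c⁻¹)⁻¹ := by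
    have a1 : (c⁻¹ * t) * ((c * h * c⁻¹) * (c * h * c⁻¹) * h) * (c⁻¹ * t)⁻¹ =
      c⁻¹ * (t * ((c * h * c⁻¹) * (c * h * c⁻¹) * h) * t⁻¹) * c := by group
    have a2 : c⁻¹ * ((c⁻¹ * h * c)⁻¹ * (c⁻¹ * h * c)⁻¹ * h⁻¹) * c =
      ((c⁻¹ * c⁻¹) * h * (c * c))⁻¹ * ((c⁻¹ * c⁻¹) * h * (c * c))⁻¹ * (c⁻¹ * h * c)⁻¹ := by group
    rw [a1, H.tdt, a2, H.t3.cc, H.t3.cc', H.t3.h2_eq, inv_inv]
    have a3 : Commute h (c * h * c⁻¹) := H.r9
    generalize c * h * c⁻¹ = x at a3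
    have a4 := a3.inv_right
    calc x⁻¹ * x⁻¹ * (h * x) = x⁻¹ * (x⁻¹ * h) * x := by group
      _ = x⁻¹ * (h * x⁻¹) * x := by rw [a4.eq]
      _ = x⁻¹ * h := by group
      _ = _ := a4.eq.symm
  rw [e1, e2] at h1
  exact h1

theorem R13.dw (H : R13 m wz u h t c) : Commute (h⁻¹ * h⁻¹ * (c * h * c⁻¹)⁻¹) (c * t * u * t⁻¹ * c⁻¹) := by
  have h1 := H.du.conj (c * t)
  have e1 : (c * t) * u * (c * t)⁻¹ = c * t * u * t⁻¹ * c⁻¹ := by group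
  have e2 : (c * t) * ((c * h * c⁻¹) * (c * h * c⁻¹) * h) * (c * t)⁻¹ = h⁻¹ * h⁻¹ * (c * h * c⁻¹)⁻¹ := by
    have a1 : (c * t) * ((c * h * c⁻¹) * (c * h * c⁻¹) * h) * (c * t)⁻¹ =
      c * (t * ((c * h * c⁻¹) * (c * h * c⁻¹) * h) * t⁻¹) * c⁻¹ := by group
    rw [a1, H.tdt]; group
  rw [e1, e2] at h1
  exact h1

/-- `k³` conjugates of `v` commute with `u` -/
theorem R13.uv (H : R13 m wz u h t c) (n : ℕ) :
    Commute u ((((c * h⁻¹ * c⁻¹) ^ 3) ^ n) * (c⁻¹ * t * u⁻¹ * t⁻¹ * c) * (((c * h⁻¹ * c⁻¹) ^ 3) ^ n)⁻¹) := by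
  set h1 := c * h * c⁻¹ with hh1
  set v := c⁻¹ * t * u⁻¹ * t⁻¹ * c with hv
  have hk : c * h⁻¹ * c⁻¹ = h1⁻¹ := by rw [hh1]; group
  have hc : Commute h h1 := H.r9
  have e1 : (h1⁻¹) ^ 3 = (h1 * h1 * h)⁻¹ * (h * h1⁻¹) := by
    calc (h1⁻¹) ^ 3 = (h⁻¹ * h) * (h1⁻¹) ^ 3 := by group
      _ = h⁻¹ * (h * (h1⁻¹) ^ 3) := by group
      _ = h⁻¹ * ((h1⁻¹) ^ 3 * h) := by rw [((hc.inv_right).pow_right 3).eq]
      _ = (h1 * h1 * h)⁻¹ * (h1⁻¹ * h) := by group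
      _ = _ := by rw [(hc.inv_right).eq]
  have e2 : Commute (h1 * h1 * h)⁻¹ (h * h1⁻¹) := by
    apply Commute.inv_left
    have a1 : Commute h1 (h * h1⁻¹) := hc.symm.mul_right (Commute.refl _).inv_right
    have a2 : Commute h (h * h1⁻¹) := (Commute.refl _).mul_right hc.inv_right
    exact (a1.mul_left a1).mul_left a2
  rw [hk, e1, e2.mul_pow]
  have a3 : (h * h1⁻¹) ^ n * v * ((h * h1⁻¹) ^ n)⁻¹ = v :=
    mul_inv_eq_iff_eq_mul.2 (H.dv.pow_left n).eq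
  have a4 : ((h1 * h1 * h)⁻¹) ^ n * u * (((h1 * h1 * h)⁻¹) ^ n)⁻¹ = u :=
    mul_inv_eq_iff_eq_mul.2 ((H.du.inv_left).pow_left n).eq
  have a5 := H.r11.conj (((h1 * h1 * h)⁻¹) ^ n)
  rw [a4] at a5
  have a6 : ((h1 * h1 * h)⁻¹) ^ n * (h * h1⁻¹) ^ n * v * (((h1 * h1 * h)⁻¹) ^ n * (h * h1⁻¹) ^ n)⁻¹ =
    ((h1 * h1 * h)⁻¹) ^ n * ((h * h1⁻¹) ^ n * v * ((h * h1⁻¹) ^ n)⁻¹) * (((h1 * h1 * h)⁻¹) ^ n)⁻¹ := by group
  rw [a6, a3]
  exact a5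

/-- `k³` conjugates of `w` commute with `u` -/
theorem R13.uw (H : R13 m wz u h t c) (n : ℕ) :
    Commute u ((((c * h⁻¹ * c⁻¹) ^ 3) ^ n) * (c * t * u * t⁻¹ * c⁻¹) * (((c * h⁻¹ * c⁻¹) ^ 3) ^ n)⁻¹) := by
  set h1 := c * h * c⁻¹ with hh1
  set w := c * t * u * t⁻¹ * c⁻¹ with hw
  have hk : c * h⁻¹ * c⁻¹ = h1⁻¹ := by rw [hh1]; group
  have hc : Commute h h1 := H.r9
  set d := h1 * h1 * h with hd
  set d' := h⁻¹ * h⁻¹ * h1⁻¹ with hd'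
  have cd1 : Commute d h1 := ((Commute.refl h1).mul_left (Commute.refl h1)).mul_left hc
  have cd2 : Commute d h := (hc.symm.mul_left hc.symm).mul_left (Commute.refl h)
  have cdd : Commute d d' := (cd2.inv_right.mul_right cd2.inv_right).mul_right cd1.inv_right
  have e1 : (h1⁻¹) ^ 3 = (d * d)⁻¹ * d'⁻¹ := by
    have h2 : d' * (d * d) = h1 ^ 3 := by
      have b1 : d * d = h1 ^ 4 * h * h := by
        rw [hd]
        calc h1 * h1 * h * (h1 * h1 * h) = h1 * h1 * (h * (h1 * h1)) * h := by group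
          _ = h1 * h1 * ((h1 * h1) * h) * h := by rw [(hc.mul_right hc).eq]
          _ = _ := by simp only [pow_succ, pow_zero, one_mul, mul_assoc]
      have b2 : Commute (h⁻¹ * h⁻¹ * h1⁻¹) (h1 ^ 4) := by
        have c1 : Commute h⁻¹ (h1 ^ 4) := (hc.inv_left).pow_right 4
        exact (c1.mul_left c1).mul_left ((Commute.refl h1).inv_left.pow_right 4)
      rw [b1, hd']
      calc h⁻¹ * h⁻¹ * h1⁻¹ * (h1 ^ 4 * h * h) = (h⁻¹ * h⁻¹ * h1⁻¹) * h1 ^ 4 * h * h := by group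
        _ = h1 ^ 4 * (h⁻¹ * h⁻¹) * (h1⁻¹ * (h * h)) := by rw [b2.eq]; group
        _ = h1 ^ 4 * (h⁻¹ * h⁻¹) * ((h * h) * h1⁻¹) := by rw [((hc.mul_left hc).inv_right).eq]
        _ = _ := by group
    rw [← mul_inv_rev, h2, inv_pow]
  have e2 : Commute (d * d)⁻¹ d'⁻¹ := ((cdd.mul_left cdd).inv_left).inv_right
  rw [hk, e1, e2.mul_pow]
  have a3 : (d'⁻¹) ^ n * w * ((d'⁻¹) ^ n)⁻¹ = w :=
    mul_inv_eq_iff_eq_mul.2 ((H.dw.inv_left).pow_left n).eq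
  have hdu : Commute (d * d) u := H.du.mul_left H.du
  have a4 : ((d * d)⁻¹) ^ n * u * (((d * d)⁻¹) ^ n)⁻¹ = u :=
    mul_inv_eq_iff_eq_mul.2 ((hdu.inv_left).pow_left n).eq
  have a5 := H.r12.conj (((d * d)⁻¹) ^ n)
  rw [a4] at a5
  have a6 : ((d * d)⁻¹) ^ n * (d'⁻¹) ^ n * w * (((d * d)⁻¹) ^ n * (d'⁻¹) ^ n)⁻¹ =
    ((d * d)⁻¹) ^ n * ((d'⁻¹) ^ n * w * ((d'⁻¹) ^ n)⁻¹) * (((d * d)⁻¹) ^ n)⁻¹ := by group
  rw [a6, a3]
  exact a5

theorem R13.comm_eq (H : R13 m wz u h t c) :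
    (c⁻¹ * t * u⁻¹ * t⁻¹ * c) * ((t * t) * (c * t * u * t⁻¹ * c⁻¹) * (t * t)⁻¹) =
      u⁻¹ * (((t * t) * (c * t * u * t⁻¹ * c⁻¹) * (t * t)⁻¹) * (c⁻¹ * t * u⁻¹ * t⁻¹ * c)) := by
  set v := c⁻¹ * t * u⁻¹ * t⁻¹ * c with hv
  set w := c * t * u * t⁻¹ * c⁻¹ with hw
  set y := c * u⁻¹ * c⁻¹ with hy
  have hz : Commute (t * t) u := braid_comm H.r6
  have hyv : Commute y v := by
    have h1 := H.r12.conj c
    have e1 : c * u * c⁻¹ = y⁻¹ := by rw [hy]; group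
    have e2 : c * (c * t * u * t⁻¹ * c⁻¹) * c⁻¹ = v⁻¹ := by
      have : c * (c * t * u * t⁻¹ * c⁻¹) * c⁻¹ = (c * c) * t * u * t⁻¹ * (c⁻¹ * c⁻¹) := by group
      rw [this, H.t3.cc, H.t3.cc', hv]; group
    rw [e1, e2] at h1
    exact Commute.inv_inv_iff.1 h1
  have hr : u * y = v * (y * u) := H.r13
  have e2 : u⁻¹ * y⁻¹ = v * (y⁻¹ * u⁻¹) := by
    have h1 : y⁻¹ * u⁻¹ = u⁻¹ * y⁻¹ * v⁻¹ := by
      rw [← mul_inv_rev, hr]; group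
    have h2 : Commute v (y⁻¹ * u⁻¹) := (hyv.symm.inv_right).mul_right (H.r11.symm.inv_right)
    rw [h2.eq, h1]; group
  have e3 := S3.conj_rel (x := t) (S3.conj_rel (x := c) e2)
  have f1 : t * (c * u⁻¹ * c⁻¹) * t⁻¹ = v := by
    have a1 : t * (c * u⁻¹ * c⁻¹) * t⁻¹ = (t * c) * u⁻¹ * (t * c)⁻¹ := by group
    have a2 : t⁻¹ * u⁻¹ * t = t * u⁻¹ * t⁻¹ := by
      have := hz.inv_right.eq
      calc t⁻¹ * u⁻¹ * t = t⁻¹ * (u⁻¹ * (t * t)) * t⁻¹ := by group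
        _ = _ := by rw [← this]; group
    rw [a1, H.t3.tct, hv]
    calc c⁻¹ * t⁻¹ * u⁻¹ * (c⁻¹ * t⁻¹)⁻¹ = c⁻¹ * (t⁻¹ * u⁻¹ * t) * c := by group
      _ = _ := by rw [a2]; group
  have f2 : t * (c * y⁻¹ * c⁻¹) * t⁻¹ = (t * t) * w * (t * t)⁻¹ := by
    have a1 : c * y⁻¹ * c⁻¹ = (c * c) * u * (c⁻¹ * c⁻¹) := by rw [hy]; group
    have a2 : t * c⁻¹ = (t * t) * (c * t) := by
      have h2 := H.r2
      have : c⁻¹ = t * c * t := by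
        rw [inv_eq_iff_mul_eq_one]
        calc c * (t * c * t) = t⁻¹ * (t * c * t * c) * t := by group
          _ = 1 := by rw [h2]; group
      rw [this]; group
    rw [a1, H.t3.cc, H.t3.cc']
    calc t * (c⁻¹ * u * c) * t⁻¹ = (t * c⁻¹) * u * (t * c⁻¹)⁻¹ := by group
      _ = _ := by rw [a2, hw]; group
  have f3 : t * (c * v * c⁻¹) * t⁻¹ = u⁻¹ := by
    have a1 : t * (c * v * c⁻¹) * t⁻¹ = (t * t) * u⁻¹ * (t * t)⁻¹ := by rw [hv]; group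
    rw [a1]
    exact mul_inv_eq_iff_eq_mul.2 hz.inv_right.eq
  rw [f1, f2, f3] at e3
  exact e3

theorem R13.cc (H : R13 m wz u h t c) : CC u ((c * h⁻¹ * c⁻¹) ^ 3) := by
  apply CC_of_zero
  intro n
  have hz : Commute (t * t) u := braid_comm H.r6
  have e := H.comm_eq
  set v := c⁻¹ * t * u⁻¹ * t⁻¹ * c with hv
  set w := c * t * u * t⁻¹ * c⁻¹ with hw
  have hzk : Commute (t * t) (((c * h⁻¹ * c⁻¹) ^ 3) ^ n) := (H.t3.zk.pow_right 3).pow_right n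
  set τ := ((c * h⁻¹ * c⁻¹) ^ 3) ^ n with hτ
  have c1 : Commute u (τ * v * τ⁻¹) := H.uv n
  have c2 : Commute u (τ * w * τ⁻¹) := H.uw n
  have c3 : Commute u (τ * ((t * t) * w * (t * t)⁻¹) * τ⁻¹) := by
    have h1 := c2.conj (t * t)
    rw [mul_inv_eq_iff_eq_mul.2 hz.eq] at h1
    have h2 : (t * t) * (τ * w * τ⁻¹) * (t * t)⁻¹ = τ * ((t * t) * w * (t * t)⁻¹) * τ⁻¹ := by
      have h3 : τ⁻¹ * (t * t)⁻¹ = (t * t)⁻¹ * τ⁻¹ := by
        rw [← mul_inv_rev, ← mul_inv_rev, hzk.eq]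
      calc (t * t) * (τ * w * τ⁻¹) * (t * t)⁻¹ = ((t * t) * τ) * w * (τ⁻¹ * (t * t)⁻¹) := by group
        _ = _ := by rw [hzk.eq, h3]; group
    rwa [h2] at h1
  set W := (t * t) * w * (t * t)⁻¹ with hW
  have hu : u = W * v * W⁻¹ * v⁻¹ := by
    have h1 : u * (v * W) = W * v := by rw [e]; group
    calc u = (u * (v * W)) * W⁻¹ * v⁻¹ := by group
      _ = _ := by rw [h1]
  have h4 : cj u ((c * h⁻¹ * c⁻¹) ^ 3) n =
      (τ * W * τ⁻¹) * (τ * v * τ⁻¹) * (τ * W * τ⁻¹)⁻¹ * (τ * v * τ⁻¹)⁻¹ := by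
    change τ * u * τ⁻¹ = _
    nth_rewrite 1 [hu]
    group
  rw [h4]
  exact ((c3.mul_right c1).mul_right c3.inv_right).mul_right c1.inv_right

end r13b

section r13c
variable {G : Type*} [Group G] {F : Type*} [Field F] [Fintype F] {p : ℕ} [hp : Fact p.Prime] [Algebra (ZMod p) F]
variable {ζ : Fˣ} {F0 : F → (ZMod p)[X]} {u h t c : G}

theorem R13.s3 (H : R13 (minpoly (ZMod p) ((ζ : F) ^ 3)) (F0 (ζ : F)) u h t c)
    (hF : ∀ s, aeval ((ζ : F) ^ 3) (F0 s) = s) (hζ : IsGen ζ) (h4 : Fintype.card F ≠ 4) :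
    S3 ζ (XX u ((c * h⁻¹ * c⁻¹) ^ 3) F0) h t c ∧ XX u ((c * h⁻¹ * c⁻¹) ^ 3) F0 1 = u := by
  have hζ0 : (ζ : F) ≠ 0 := ζ.ne_zero
  have hcc := H.cc
  have hkk : Commute h (c * h⁻¹ * c⁻¹) := by
    have h1 := H.r9.inv_right
    have h2 : (c * h * c⁻¹)⁻¹ = c * h⁻¹ * c⁻¹ := by group
    rwa [h2] at h1
  have hX1 : XX u ((c * h⁻¹ * c⁻¹) ^ 3) F0 1 = u := XX_one H.r3 hcc H.r4 hF
  have hkX : ∀ s, (c * h⁻¹ * c⁻¹) * XX u ((c * h⁻¹ * c⁻¹) ^ 3) F0 s * (c * h⁻¹ * c⁻¹)⁻¹ =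
      XX u ((c * h⁻¹ * c⁻¹) ^ 3) F0 ((ζ : F) * s) :=
    fun s => XX_conj' H.r3 hcc H.r4 hF ((Commute.refl _).pow_right 3) H.r7 s
  have hhX : ∀ s, h * XX u ((c * h⁻¹ * c⁻¹) ^ 3) F0 s * h⁻¹ =
      XX u ((c * h⁻¹ * c⁻¹) ^ 3) F0 ((ζ : F) ^ 2 * s) := by
    intro s
    refine XX_conj' H.r3 hcc H.r4 hF (hkk.pow_right 3) ?_ s
    rw [H.r8]
    have h1 := act_pow hkX 2 1
    rw [hX1, mul_one] at h1
    exact h1
  set X := XX u ((c * h⁻¹ * c⁻¹) ^ 3) F0 with hX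
  have P : P3 ζ X h t c := ⟨H.t3, XX_add H.r3 hcc H.r4 hF, hhX, hkX⟩
  have hneg1 : X (-1) = u⁻¹ := by rw [P.neg, hX1]
  -- the element d
  set d := (c * h * c⁻¹) * (c * h * c⁻¹) * h with hd
  have hdu : Commute d u := H.du
  have hk2 : ∀ {f : F → G} {a : F}, a ≠ 0 → (∀ s, (c * h⁻¹ * c⁻¹) * f s * (c * h⁻¹ * c⁻¹)⁻¹ = f (a * s)) →
      ∀ {b : F}, (∀ s, h * f s * h⁻¹ = f (b * s)) → ∀ s, d * f s * d⁻¹ = f (a⁻¹ * a⁻¹ * b * s) := by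
    intro f a ha hk b hb s
    have h1 := act_inv ha hk
    have e : (c * h⁻¹ * c⁻¹)⁻¹ = c * h * c⁻¹ := by group
    rw [e] at h1
    exact act_mul (act_mul h1 h1) hb s
  have d02 : ∀ s, d * Yr X t c 0 2 s * d⁻¹ = Yr X t c 0 2 ((ζ : F) ^ 3 * s) := by
    intro s
    rw [hk2 (inv_ne_zero hζ0) P.k02 P.h02]
    congr 1
    rw [inv_inv]; ring
  have d21 : ∀ s, d * Yr X t c 2 1 s * d⁻¹ = Yr X t c 2 1 (((ζ⁻¹ : Fˣ) : F) ^ 3 * s) := by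
    intro s
    rw [hk2 (pow_ne_zero 2 hζ0) P.k21 P.h21]
    congr 1
    rw [Units.val_inv_eq_inv_val]
    field_simp
  have d12 : ∀ s, d * Yr X t c 1 2 s * d⁻¹ = Yr X t c 1 2 ((ζ : F) ^ 3 * s) := by
    intro s
    rw [hk2 (inv_ne_zero (pow_ne_zero 2 hζ0)) P.k12 P.h12]
    congr 1
    rw [inv_inv]; field_simp
  have hdn : ∀ n : ℕ, d ^ n * u * (d ^ n)⁻¹ = u := fun n =>
    mul_inv_eq_iff_eq_mul.2 (hdu.pow_left n).eq
  -- values at 1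
  have v1 : Yr X t c 0 2 1 = c⁻¹ * t * u⁻¹ * t⁻¹ * c := by
    change c⁻¹ * t * X (-1) * t⁻¹ * c = _
    rw [hneg1]
  have w1 : Yr X t c 2 1 1 = c * t * u * t⁻¹ * c⁻¹ := by
    change c * t * X 1 * t⁻¹ * c⁻¹ = _
    rw [hX1]
  have y1 : Yr X t c 1 2 1 = c * u⁻¹ * c⁻¹ := by
    change c * X (-1) * c⁻¹ = _
    rw [hneg1]
  have z02 : Yr X t c 0 2 0 = 1 := by
    change c⁻¹ * t * X (-0) * t⁻¹ * c = 1
    rw [neg_zero, P.zero]; group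
  have z21 : Yr X t c 2 1 0 = 1 := by
    change c * t * X 0 * t⁻¹ * c⁻¹ = 1
    rw [P.zero]; group
  have z12 : Yr X t c 1 2 0 = 1 := by
    change c * X (-0) * c⁻¹ = 1
    rw [neg_zero, P.zero]; group
  have A1 : ∀ r, Commute (X 1) (Yr X t c 0 2 r) := by
    intro r
    obtain ⟨f, hf⟩ := gen_adjoin_cube (p := p) hζ h4 r
    rw [hX1, ← hf]
    apply span_ind (P := fun r => Commute u (Yr X t c 0 2 r))
    · rw [z02]; exact Commute.one_right _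
    · intro a b ha hb
      rw [P.Y_add (by decide)]
      exact ha.mul_right hb
    · intro n
      have h1 := (H.r11).conj (d ^ n)
      rw [hdn, ← v1, act_pow d02, mul_one] at h1
      exact h1
  have A2 : ∀ r, Commute (X 1) (Yr X t c 2 1 r) := by
    intro r
    have hζi : IsGen ζ⁻¹ := by
      intro a
      obtain ⟨k, hk⟩ := hζ a⁻¹
      exact ⟨k, by rw [inv_pow, hk, inv_inv]⟩
    obtain ⟨f, hf⟩ := gen_adjoin_cube (p := p) hζi h4 r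
    rw [hX1, ← hf]
    apply span_ind (P := fun r => Commute u (Yr X t c 2 1 r))
    · rw [z21]; exact Commute.one_right _
    · intro a b ha hb
      rw [P.Y_add (by decide)]
      exact ha.mul_right hb
    · intro n
      have h1 := (H.r12).conj (d ^ n)
      rw [hdn, ← w1, act_pow d21, mul_one] at h1
      exact h1
  refine ⟨⟨P, ?_, hζ, A1, A2, ?_⟩, hX1⟩
  · rw [hX1]; exact H.r6
  · intro r
    obtain ⟨f, hf⟩ := gen_adjoin_cube (p := p) hζ h4 r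
    rw [hX1, ← hf]
    apply span_ind (P := fun r => u * Yr X t c 1 2 r = Yr X t c 0 2 r * (Yr X t c 1 2 r * u))
    · rw [z02, z12]; simp
    · intro a b ha hb
      rw [P.Y_add (by decide), P.Y_add (i := 0) (by decide)]
      have hcom : Commute (Yr X t c 1 2 a) (Yr X t c 0 2 b) := P.D23 hζ A2 a b
      calc u * (Yr X t c 1 2 a * Yr X t c 1 2 b) = (u * Yr X t c 1 2 a) * Yr X t c 1 2 b := by group
        _ = Yr X t c 0 2 a * Yr X t c 1 2 a * (u * Yr X t c 1 2 b) := by rw [ha]; group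
        _ = Yr X t c 0 2 a * (Yr X t c 1 2 a * Yr X t c 0 2 b) * (Yr X t c 1 2 b * u) := by rw [hb]; group
        _ = _ := by rw [hcom.eq]; group
    · intro n
      have h1 := S3.conj_rel (x := d ^ n) (H.r13)
      rw [hdn, ← v1, ← y1, act_pow d02, act_pow d12, mul_one] at h1
      exact h1

end r13c

end Cfsg.Agent.GK
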