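import Cfsg.Agent.GK.SL3E

/-!
Gluing `SL₃(F)` and an alternating group to `SL_n(F)`: abstract part.
-/

set_option autoImplicit false

namespace Cfsg.Agent.GK

open Subgroup Polynomial

universe v

section reindex
variable {m n F : Type*} [DecidableEq m] [Fintype m] [DecidableEq n] [Fintype n] [Field F]

/-- reindexing -/
def reSL (e : m ≃ n) : Matrix.SpecialLinearGroup m F ≃* Matrix.SpecialLinearGroup n F where
  toFun A := ⟨Matrix.reindex e e (A : Matrix m m F), by rw [Matrix.det_reindex_self]; exact A.2⟩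
  invFun A := ⟨Matrix.reindex e.symm e.symm (A : Matrix n n F), by rw [Matrix.det_reindex_self]; exact A.2⟩
  left_inv A := by
    apply Subtype.ext
    ext i j
    simp
  right_inv A := by
    apply Subtype.ext
    ext i j
    simp
  map_mul' A B := Subtype.ext ((Matrix.reindexAlgEquiv F F e).map_mul (A : Matrix m m F) (B : Matrix m m F))

theorem reSL_coe (e : m ≃ n) (A : Matrix.SpecialLinearGroup m F) :
    ((reSL e A : Matrix.SpecialLinearGroup n F) : Matrix n n F) = Matrix.reindex e e (A : Matrix m m F) := rfl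

theorem reSL_tv (e : m ≃ n) {i j : m} (hij : i ≠ j) (hij' : e i ≠ e j) (s : F) :
    reSL e (Matrix.SpecialLinearGroup.transvection hij s) = Matrix.SpecialLinearGroup.transvection hij' s := by
  apply Subtype.ext
  rw [reSL_coe]
  change Matrix.reindex e e (Matrix.transvection i j s) = Matrix.transvection (e i) (e j) s
  ext a b
  simp only [Matrix.reindex_apply, Matrix.submatrix_apply, Matrix.transvection, Matrix.add_apply,
    Matrix.one_apply, Matrix.single_apply, e.symm.injective.eq_iff]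
  congr 1
  simp only [eq_comm, Equiv.eq_symm_apply]

end reindex

section perm
variable {ι : Type*} [DecidableEq ι] [Fintype ι]

theorem exists_perm {n : ℕ} {v w : Fin n → ι} (hv : Function.Injective v) (hw : Function.Injective w) :
    ∃ g : Equiv.Perm ι, ∀ k, g (v k) = w k := by
  obtain ⟨h⟩ := Equiv.Perm.isMultiplyPretransitive ι n
  obtain ⟨g, hg⟩ := h ⟨v, hv⟩ ⟨w, hw⟩
  exact ⟨g, fun k => DFunLike.congr_fun hg k⟩

theorem alt_inv_apply (g : alternatingGroup ι) (x : ι) :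
    ((g⁻¹ : alternatingGroup ι) : Equiv.Perm ι) x = (g : Equiv.Perm ι)⁻¹ x := rfl

/-- pairs -/
theorem exists_alt2 (h4 : 4 ≤ Fintype.card ι) {a b i k : ι} (hab : a ≠ b) (hik : i ≠ k) :
    ∃ g : alternatingGroup ι, (g : Equiv.Perm ι) a = i ∧ (g : Equiv.Perm ι) b = k := by
  obtain ⟨g, hg⟩ := exists_perm (v := ![a, b]) (w := ![i, k])
    (by intro x y hxy; fin_cases x <;> fin_cases y <;> simp_all [eq_comm])
    (by intro x y hxy; fin_cases x <;> fin_cases y <;> simp_all [eq_comm])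
  have h0 : g a = i := hg 0
  have h1 : g b = k := hg 1
  by_cases hs : Equiv.Perm.sign g = 1
  · exact ⟨⟨g, hs⟩, h0, h1⟩
  · -- two other points
    have hc : 1 < ((Finset.univ : Finset ι) \ {a, b}).card := by
      rw [Finset.card_sdiff_of_subset (Finset.subset_univ _), Finset.card_univ]
      have := Finset.card_le_two (a := a) (b := b)
      omega
    obtain ⟨x, hx, y, hy, hxy⟩ := Finset.one_lt_card.1 hc
    simp only [Finset.mem_sdiff, Finset.mem_univ, true_and, Finset.mem_insert, Finset.mem_singleton, not_or] at hx hy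
    refine ⟨⟨g * Equiv.swap x y, ?_⟩, ?_, ?_⟩
    · rw [Equiv.Perm.mem_alternatingGroup, map_mul, Equiv.Perm.sign_swap hxy]
      rcases Int.units_eq_one_or (Equiv.Perm.sign g) with h | h
      · exact absurd h hs
      · rw [h]; rfl
    · change g (Equiv.swap x y a) = i
      rw [Equiv.swap_apply_of_ne_of_ne (Ne.symm hx.1) (Ne.symm hy.1), h0]
    · change g (Equiv.swap x y b) = k
      rw [Equiv.swap_apply_of_ne_of_ne (Ne.symm hx.2) (Ne.symm hy.2), h1]

end perm

section cyc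
variable {ι : Type*} [DecidableEq ι] [Fintype ι]

/-- the three-cycle -/
def gam (j : Fin 3 → ι) (hj : Function.Injective j) : alternatingGroup ι :=
  ⟨Equiv.swap (j 0) (j 1) * Equiv.swap (j 1) (j 2), by
    have h01 : j 0 ≠ j 1 := fun h => absurd (hj h) (by decide)
    have h12 : j 1 ≠ j 2 := fun h => absurd (hj h) (by decide)
    rw [Equiv.Perm.mem_alternatingGroup, map_mul, Equiv.Perm.sign_swap h01, Equiv.Perm.sign_swap h12]; rfl⟩

theorem gam_0 (j : Fin 3 → ι) (hj : Function.Injective j) : (gam j hj : Equiv.Perm ι) (j 0) = j 1 := by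
  have h01 : j 0 ≠ j 1 := fun h => absurd (hj h) (by decide)
  have h02 : j 0 ≠ j 2 := fun h => absurd (hj h) (by decide)
  change Equiv.swap (j 0) (j 1) (Equiv.swap (j 1) (j 2) (j 0)) = j 1
  rw [Equiv.swap_apply_of_ne_of_ne h01 h02, Equiv.swap_apply_left]

theorem gam_1 (j : Fin 3 → ι) (hj : Function.Injective j) : (gam j hj : Equiv.Perm ι) (j 1) = j 2 := by
  have h21 : j 2 ≠ j 1 := fun h => absurd (hj h) (by decide)
  have h20 : j 2 ≠ j 0 := fun h => absurd (hj h) (by decide)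
  change Equiv.swap (j 0) (j 1) (Equiv.swap (j 1) (j 2) (j 1)) = j 2
  rw [Equiv.swap_apply_left, Equiv.swap_apply_of_ne_of_ne h20 h21]

theorem gam_2 (j : Fin 3 → ι) (hj : Function.Injective j) : (gam j hj : Equiv.Perm ι) (j 2) = j 0 := by
  change Equiv.swap (j 0) (j 1) (Equiv.swap (j 1) (j 2) (j 2)) = j 0
  rw [Equiv.swap_apply_right, Equiv.swap_apply_right]

theorem gam_of (j : Fin 3 → ι) (hj : Function.Injective j) {x : ι} (hx : ∀ k, x ≠ j k) :
    (gam j hj : Equiv.Perm ι) x = x := by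
  change Equiv.swap (j 0) (j 1) (Equiv.swap (j 1) (j 2) x) = x
  rw [Equiv.swap_apply_of_ne_of_ne (hx 1) (hx 2), Equiv.swap_apply_of_ne_of_ne (hx 0) (hx 1)]

end cyc

section abs
variable {F : Type v} [Field F]

/-- the positive cyclic permutation matrix `0 → 1 → 2 → 0` -/
def cp : Matrix.SpecialLinearGroup (Fin 3) F :=
  ⟨!![0, 0, 1; 1, 0, 0; 0, 1, 0], by simp [Matrix.det_fin_three]⟩

theorem cp_coe : ((cp : Matrix.SpecialLinearGroup (Fin 3) F) : Matrix (Fin 3) (Fin 3) F) =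
    !![0, 0, 1; 1, 0, 0; 0, 1, 0] := rfl

/-- transvections of `SL₃` -/
abbrev tv3 (i j : Fin 3) (hij : i ≠ j) (s : F) : Matrix.SpecialLinearGroup (Fin 3) F :=
  Matrix.SpecialLinearGroup.transvection hij s

theorem tv01 (s : F) : Matrix.transvection (0 : Fin 3) 1 s = !![1, s, 0; 0, 1, 0; 0, 0, 1] := by
  ext i j
  fin_cases i <;> fin_cases j <;> simp [Matrix.transvection, Matrix.single]

theorem cp01 (s : F) : cp * tv3 0 1 (by decide) s * cp⁻¹ = tv3 1 2 (by decide) s := by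
  rw [mul_inv_eq_iff_eq_mul]
  apply slext3
  simp only [Matrix.SpecialLinearGroup.coe_mul]
  rw [tv_coe, tv_coe, cp_coe, tv01, tv12]
  mat3

theorem cp12 (s : F) : cp * tv3 1 2 (by decide) s * cp⁻¹ = tv3 2 0 (by decide) s := by
  rw [mul_inv_eq_iff_eq_mul]
  apply slext3
  simp only [Matrix.SpecialLinearGroup.coe_mul]
  rw [tv_coe, tv_coe, cp_coe, tv12, tv20]
  mat3

theorem cp10 (s : F) : cp * tv3 1 0 (by decide) s * cp⁻¹ = tv3 2 1 (by decide) s := by
  rw [mul_inv_eq_iff_eq_mul]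
  apply slext3
  simp only [Matrix.SpecialLinearGroup.coe_mul]
  rw [tv_coe, tv_coe, cp_coe, tv10, tv21]
  mat3

theorem cp21 (s : F) : cp * tv3 2 1 (by decide) s * cp⁻¹ = tv3 0 2 (by decide) s := by
  rw [mul_inv_eq_iff_eq_mul]
  apply slext3
  simp only [Matrix.SpecialLinearGroup.coe_mul]
  rw [tv_coe, tv_coe, cp_coe, tv21, tv02]
  mat3

variable {ι : Type*} [DecidableEq ι] [Fintype ι] {Γ : Type*} [Group Γ]

/-- the gluing conditions -/
structure GL3 (ρ : Matrix.SpecialLinearGroup (Fin 3) F →* Γ) (θ : alternatingGroup ι →* Γ) (j : Fin 3 → ι)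
    (hj : Function.Injective j) : Prop where
  card : 4 ≤ Fintype.card ι
  cyc : ρ cp = θ (gam j hj)
  fix : ∀ g : alternatingGroup ι, (g : Equiv.Perm ι) (j 0) = j 0 → (g : Equiv.Perm ι) (j 1) = j 1 →
    ∀ s, Commute (θ g) (ρ (tv3 0 1 (by decide) s))
  swp : ∃ τ : alternatingGroup ι, (τ : Equiv.Perm ι) (j 0) = j 1 ∧ (τ : Equiv.Perm ι) (j 1) = j 0 ∧
    ∀ s, θ τ * ρ (tv3 0 1 (by decide) s) * (θ τ)⁻¹ = ρ (tv3 1 0 (by decide) s)

variable {ρ : Matrix.SpecialLinearGroup (Fin 3) F →* Γ} {θ : alternatingGroup ι →* Γ} {j : Fin 3 → ι}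
  {hj : Function.Injective j}

open scoped Classical in
/-- the root elements -/
noncomputable def yy (ρ : Matrix.SpecialLinearGroup (Fin 3) F →* Γ) (θ : alternatingGroup ι →* Γ) (j : Fin 3 → ι)
    (i k : ι) (s : F) : Γ :=
  if h : ∃ g : alternatingGroup ι, (g : Equiv.Perm ι) (j 0) = i ∧ (g : Equiv.Perm ι) (j 1) = k then
    θ h.choose * ρ (tv3 0 1 (by decide) s) * (θ h.choose)⁻¹ else 1

theorem GL3.yy_eq (H : GL3 ρ θ j hj) (g : alternatingGroup ι) (s : F) :
    yy ρ θ j ((g : Equiv.Perm ι) (j 0)) ((g : Equiv.Perm ι) (j 1)) s =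
      θ g * ρ (tv3 0 1 (by decide) s) * (θ g)⁻¹ := by
  have h : ∃ g' : alternatingGroup ι, (g' : Equiv.Perm ι) (j 0) = (g : Equiv.Perm ι) (j 0) ∧
      (g' : Equiv.Perm ι) (j 1) = (g : Equiv.Perm ι) (j 1) := ⟨g, rfl, rfl⟩
  rw [yy, dif_pos h]
  obtain ⟨h0, h1⟩ := h.choose_spec
  set g' := h.choose with hg'
  have hc := H.fix (g⁻¹ * g') (by
    change (g : Equiv.Perm ι)⁻¹ ((g' : Equiv.Perm ι) (j 0)) = j 0
    rw [h0]; simp) (by
    change (g : Equiv.Perm ι)⁻¹ ((g' : Equiv.Perm ι) (j 1)) = j 1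
    rw [h1]; simp) s
  have h2 : θ g' = θ g * θ (g⁻¹ * g') := by rw [← map_mul]; congr 1; group
  rw [h2]
  calc θ g * θ (g⁻¹ * g') * ρ (tv3 0 1 (by decide) s) * (θ g * θ (g⁻¹ * g'))⁻¹
      = θ g * (θ (g⁻¹ * g') * ρ (tv3 0 1 (by decide) s)) * (θ (g⁻¹ * g'))⁻¹ * (θ g)⁻¹ := by group
    _ = _ := by rw [hc.eq]; group

theorem GL3.j01 (_H : GL3 ρ θ j hj) : j 0 ≠ j 1 := fun h => absurd (hj h) (by decide)

theorem GL3.yy_conj (H : GL3 ρ θ j hj) (g : alternatingGroup ι) {i k : ι} (hik : i ≠ k) (s : F) :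
    θ g * yy ρ θ j i k s * (θ g)⁻¹ = yy ρ θ j ((g : Equiv.Perm ι) i) ((g : Equiv.Perm ι) k) s := by
  obtain ⟨g', rfl, rfl⟩ := exists_alt2 H.card H.j01 hik
  have h1 := H.yy_eq (g * g') s
  change yy ρ θ j ((g : Equiv.Perm ι) ((g' : Equiv.Perm ι) (j 0))) ((g : Equiv.Perm ι) ((g' : Equiv.Perm ι) (j 1))) s =
    _ at h1
  rw [h1, H.yy_eq g' s, map_mul]; group

theorem GL3.y01 (H : GL3 ρ θ j hj) (s : F) : yy ρ θ j (j 0) (j 1) s = ρ (tv3 0 1 (by decide) s) := by
  have := H.yy_eq 1 s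
  change yy ρ θ j (j 0) (j 1) s = _ at this
  rw [this, map_one]; group

theorem GL3.y10 (H : GL3 ρ θ j hj) (s : F) : yy ρ θ j (j 1) (j 0) s = ρ (tv3 1 0 (by decide) s) := by
  obtain ⟨τ, h0, h1, hτ⟩ := H.swp
  rw [← hτ, ← H.y01, H.yy_conj τ H.j01, h0, h1]

theorem GL3.cyc_conj (H : GL3 ρ θ j hj) {i k : ι} (hik : i ≠ k) (s : F) :
    ρ cp * yy ρ θ j i k s * (ρ cp)⁻¹ = yy ρ θ j ((gam j hj : Equiv.Perm ι) i) ((gam j hj : Equiv.Perm ι) k) s := by
  rw [H.cyc]; exact H.yy_conj _ hik s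

theorem GL3.base (H : GL3 ρ θ j hj) (a b : Fin 3) (hab : a ≠ b) (s : F) :
    yy ρ θ j (j a) (j b) s = ρ (tv3 a b hab s) := by
  have hjj : ∀ {a b : Fin 3}, a ≠ b → j a ≠ j b := fun h h' => h (hj h')
  have h12 : yy ρ θ j (j 1) (j 2) s = ρ (tv3 1 2 (by decide) s) := by
    have := H.cyc_conj (hjj (show (0 : Fin 3) ≠ 1 by decide)) s
    rw [gam_0, gam_1] at this
    rw [← this, H.y01, ← map_inv, ← map_mul, ← map_mul, cp01]
  have h20 : yy ρ θ j (j 2) (j 0) s = ρ (tv3 2 0 (by decide) s) := by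
    have := H.cyc_conj (hjj (show (1 : Fin 3) ≠ 2 by decide)) s
    rw [gam_1, gam_2] at this
    rw [← this, h12, ← map_inv, ← map_mul, ← map_mul, cp12]
  have h21 : yy ρ θ j (j 2) (j 1) s = ρ (tv3 2 1 (by decide) s) := by
    have := H.cyc_conj (hjj (show (1 : Fin 3) ≠ 0 by decide)) s
    rw [gam_0, gam_1] at this
    rw [← this, H.y10, ← map_inv, ← map_mul, ← map_mul, cp10]
  have h02 : yy ρ θ j (j 0) (j 2) s = ρ (tv3 0 2 (by decide) s) := by
    have := H.cyc_conj (hjj (show (2 : Fin 3) ≠ 1 by decide)) s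
    rw [gam_1, gam_2] at this
    rw [← this, h21, ← map_inv, ← map_mul, ← map_mul, cp21]
  fin_cases a <;> fin_cases b <;> simp only [ne_eq, not_true_eq_false] at hab
  · exact H.y01 s
  · exact h02
  · exact H.y10 s
  · exact h12
  · exact h20
  · exact h21

/-- every triple gives a copy of `SL₃` -/
theorem GL3.triple (H : GL3 ρ θ j hj) (v : Fin 3 → ι) (hv : Function.Injective v) :
    ∃ ρv : Matrix.SpecialLinearGroup (Fin 3) F →* Γ, ∀ (a b : Fin 3) (hab : a ≠ b) (s : F),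
      ρv (tv3 a b hab s) = yy ρ θ j (v a) (v b) s := by
  have key : ∃ (e : Fin 3 ≃ Fin 3) (g : alternatingGroup ι), ∀ k, (g : Equiv.Perm ι) (j (e k)) = v k := by
    obtain ⟨g, hg⟩ := exists_perm hj hv
    by_cases hs : Equiv.Perm.sign g = 1
    · exact ⟨Equiv.refl _, ⟨g, hs⟩, hg⟩
    · refine ⟨Equiv.swap 0 1, ⟨g * Equiv.swap (j 0) (j 1), ?_⟩, ?_⟩
      · rw [Equiv.Perm.mem_alternatingGroup, map_mul, Equiv.Perm.sign_swap H.j01]
        rcases Int.units_eq_one_or (Equiv.Perm.sign g) with h | h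
        · exact absurd h hs
        · rw [h]; rfl
      · intro k
        change g (Equiv.swap (j 0) (j 1) (j (Equiv.swap 0 1 k))) = v k
        rw [← hg]
        congr 1
        fin_cases k
        · change Equiv.swap (j 0) (j 1) (j (Equiv.swap 0 1 0)) = j 0
          rw [Equiv.swap_apply_left, Equiv.swap_apply_right]
        · change Equiv.swap (j 0) (j 1) (j (Equiv.swap 0 1 1)) = j 1
          rw [Equiv.swap_apply_right, Equiv.swap_apply_left]
        · change Equiv.swap (j 0) (j 1) (j (Equiv.swap 0 1 2)) = j 2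
          have e2 : Equiv.swap (0 : Fin 3) 1 2 = 2 := by decide
          rw [e2, Equiv.swap_apply_of_ne_of_ne]
          · exact fun h => absurd (hj h) (by decide)
          · exact fun h => absurd (hj h) (by decide)
  obtain ⟨e, g, hg⟩ := key
  refine ⟨(MulAut.conj (θ g)).toMonoidHom.comp (ρ.comp (reSL e).toMonoidHom), ?_⟩
  intro a b hab s
  have hab' : e a ≠ e b := fun h => hab (e.injective h)
  change θ g * ρ (reSL e (tv3 a b hab s)) * (θ g)⁻¹ = _
  rw [reSL_tv e hab hab', ← H.base (e a) (e b) hab', H.yy_conj g (fun h => hab' (hj h)), hg, hg]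

theorem inj3 {i k l : ι} (h1 : i ≠ k) (h2 : i ≠ l) (h3 : k ≠ l) : Function.Injective ![i, k, l] := by
  intro x y hxy
  fin_cases x <;> fin_cases y <;> simp_all [eq_comm]

theorem GL3.yadd (H : GL3 ρ θ j hj) {i k : ι} (hik : i ≠ k) (a b : F) :
    yy ρ θ j i k (a + b) = yy ρ θ j i k a * yy ρ θ j i k b := by
  obtain ⟨g, rfl, rfl⟩ := exists_alt2 H.card H.j01 hik
  rw [H.yy_eq, H.yy_eq, H.yy_eq]
  have : tv3 0 1 (by decide) (a + b) = tv3 0 1 (by decide) a * tv3 0 1 (by decide) b := em_add a b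
  rw [this, map_mul]; group

theorem GL3.ycom (H : GL3 ρ θ j hj) {i k l : ι} (h1 : i ≠ k) (h3 : k ≠ l) (h2 : i ≠ l) (a b : F) :
    yy ρ θ j i k a * yy ρ θ j k l b = yy ρ θ j i l (a * b) * (yy ρ θ j k l b * yy ρ θ j i k a) := by
  obtain ⟨ρv, hv⟩ := H.triple _ (inj3 h1 h2 h3)
  have e : tv3 0 1 (by decide) a * tv3 1 2 (by decide) b =
      tv3 0 2 (by decide) (a * b) * (tv3 1 2 (by decide) b * tv3 0 1 (by decide) a) := by
    apply slext3
    simp only [Matrix.SpecialLinearGroup.coe_mul]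
    rw [tv_coe, tv_coe, tv_coe, tv01, tv12, tv02]
    mat3
  have h4 := congrArg ρv e
  rw [map_mul, map_mul, map_mul, hv, hv, hv] at h4
  exact h4

theorem GL3.yrow (H : GL3 ρ θ j hj) {i k l : ι} (h1 : i ≠ k) (h2 : i ≠ l) (h3 : k ≠ l) (a b : F) :
    Commute (yy ρ θ j i k a) (yy ρ θ j i l b) := by
  obtain ⟨ρv, hv⟩ := H.triple _ (inj3 h1 h2 h3)
  have e : tv3 0 1 (by decide) a * tv3 0 2 (by decide) b = tv3 0 2 (by decide) b * tv3 0 1 (by decide) a := by
    apply slext3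
    simp only [Matrix.SpecialLinearGroup.coe_mul]
    rw [tv_coe, tv_coe, tv01, tv02]
    mat3
  have h4 := congrArg ρv e
  rw [map_mul, map_mul, hv, hv] at h4
  exact h4

theorem GL3.ycol (H : GL3 ρ θ j hj) {i k l : ι} (h1 : i ≠ k) (h2 : i ≠ l) (h3 : k ≠ l) (a b : F) :
    Commute (yy ρ θ j i k a) (yy ρ θ j l k b) := by
  obtain ⟨ρv, hv⟩ := H.triple _ (inj3 h1 h2 h3)
  have e : tv3 0 1 (by decide) a * tv3 2 1 (by decide) b = tv3 2 1 (by decide) b * tv3 0 1 (by decide) a := by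
    apply slext3
    simp only [Matrix.SpecialLinearGroup.coe_mul]
    rw [tv_coe, tv_coe, tv01, tv21]
    mat3
  have h4 := congrArg ρv e
  rw [map_mul, map_mul, hv, hv] at h4
  exact h4

/-- torus element as a word -/
def hw (x y : F → Γ) (s : Fˣ) : Γ := x s * y (-((s⁻¹ : Fˣ) : F)) * x s * (x 1 * y (-1) * x 1)⁻¹

theorem hw_conc (a : Fˣ) : hw (tv3 0 1 (by decide)) (tv3 1 0 (by decide)) a = hm3 a := by
  rw [hw, mul_inv_eq_iff_eq_mul]
  apply slext3
  simp only [Matrix.SpecialLinearGroup.coe_mul]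
  rw [tv_coe, tv_coe, tv_coe, tv_coe, hm3_coe, tv01, tv10, tv01, tv10]
  mat3

theorem GL3.hw_act (H : GL3 ρ θ j hj) {i k l : ι} (h1 : i ≠ k) (h2 : i ≠ l) (h3 : k ≠ l) (a : Fˣ) (s : F) :
    (hw (yy ρ θ j i k) (yy ρ θ j k i) a * yy ρ θ j i l s * (hw (yy ρ θ j i k) (yy ρ θ j k i) a)⁻¹ =
      yy ρ θ j i l (a * s)) ∧
    (hw (yy ρ θ j i k) (yy ρ θ j k i) a * yy ρ θ j k l s * (hw (yy ρ θ j i k) (yy ρ θ j k i) a)⁻¹ =
      yy ρ θ j k l ((a⁻¹ : Fˣ) * s)) ∧
    (hw (yy ρ θ j i k) (yy ρ θ j k i) a * yy ρ θ j l k s * (hw (yy ρ θ j i k) (yy ρ θ j k i) a)⁻¹ =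
      yy ρ θ j l k (a * s)) := by
  obtain ⟨ρv, hv⟩ := H.triple _ (inj3 h1 h2 h3)
  have hh : ρv (hm3 a) = hw (yy ρ θ j i k) (yy ρ θ j k i) a := by
    rw [← hw_conc, hw, hw]
    simp only [map_mul, map_inv]
    rw [hv, hv, hv, hv]
    rfl
  have e1 : hm3 a * tv3 0 2 (by decide) s * (hm3 a)⁻¹ = tv3 0 2 (by decide) (a * s) := by
    rw [mul_inv_eq_iff_eq_mul]
    apply slext3
    simp only [Matrix.SpecialLinearGroup.coe_mul]
    rw [tv_coe, tv_coe, hm3_coe, tv02, tv02]
    mat3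
  have e2 : hm3 a * tv3 1 2 (by decide) s * (hm3 a)⁻¹ = tv3 1 2 (by decide) ((a⁻¹ : Fˣ) * s) := by
    rw [mul_inv_eq_iff_eq_mul]
    apply slext3
    simp only [Matrix.SpecialLinearGroup.coe_mul]
    rw [tv_coe, tv_coe, hm3_coe, tv12, tv12]
    mat3
  have e3 : hm3 a * tv3 2 1 (by decide) s * (hm3 a)⁻¹ = tv3 2 1 (by decide) (a * s) := by
    rw [mul_inv_eq_iff_eq_mul]
    apply slext3
    simp only [Matrix.SpecialLinearGroup.coe_mul]
    rw [tv_coe, tv_coe, hm3_coe, tv21, tv21]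
    have ha := a.ne_zero
    mat3
    field_simp
  have f1 := congrArg ρv e1
  have f2 := congrArg ρv e2
  have f3 := congrArg ρv e3
  rw [map_mul, map_mul, map_inv, hh, hv, hv] at f1 f2 f3
  exact ⟨f1, f2, f3⟩

/-- disjoint pairs, first orbit -/
theorem GL3.disA [Fintype F] (H : GL3 ρ θ j hj) {i k l m : ι} (hik : i ≠ k) (hil : i ≠ l) (him : i ≠ m)
    (hkl : k ≠ l) (hkm : k ≠ m) (hlm : l ≠ m) (h1 : Commute (yy ρ θ j i k (1 : F)) (yy ρ θ j l m 1)) (s r : F) :
    Commute (yy ρ θ j i k s) (yy ρ θ j l m r) := by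
  classical
  obtain ⟨ζ, hζ⟩ := exists_isGen F
  obtain ⟨p, hpc⟩ := CharP.exists F
  have hp : Fact p.Prime := ⟨CharP.char_is_prime F p⟩
  let _ : Algebra (ZMod p) F := ZMod.algebra F p
  have st1 : ∀ (a : Fˣ) (s r : F), Commute (yy ρ θ j i k s) (yy ρ θ j l m r) →
      Commute (yy ρ θ j i k (a * s)) (yy ρ θ j l m ((a⁻¹ : Fˣ) * r)) := by
    intro a s r h
    have e1 := (H.hw_act hil hik hkl.symm a s).1
    have e2 := (H.hw_act hil him hlm a r).2.1
    have := h.conj (hw (yy ρ θ j i l) (yy ρ θ j l i) a)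
    rwa [e1, e2] at this
  have st2 : ∀ (a : Fˣ) (s r : F), Commute (yy ρ θ j i k s) (yy ρ θ j l m r) →
      Commute (yy ρ θ j i k (a * s)) (yy ρ θ j l m (a * r)) := by
    intro a s r h
    have e1 := (H.hw_act him hik hkm.symm a s).1
    have e2 := (H.hw_act him hil hlm.symm a r).2.2
    have := h.conj (hw (yy ρ θ j i m) (yy ρ θ j m i) a)
    rwa [e1, e2] at this
  have zero : ∀ {i k : ι}, i ≠ k → yy ρ θ j i k (0 : F) = 1 := by
    intro i k hik
    have := H.yadd hik (0 : F) 0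
    rw [add_zero] at this
    exact mul_eq_left.1 this.symm
  have one_all : ∀ r : F, Commute (yy ρ θ j i k (1 : F)) (yy ρ θ j l m r) := by
    intro r
    obtain ⟨f, hf⟩ := gen_adjoin_sq (p := p) hζ r
    rw [← hf]
    apply span_ind (P := fun r => Commute (yy ρ θ j i k (1 : F)) (yy ρ θ j l m r))
    · rw [zero hlm]; exact Commute.one_right _
    · intro a b ha hb
      rw [H.yadd hlm]
      exact ha.mul_right hb
    · intro n
      have h2 := st1 ((ζ ^ n)⁻¹) _ _ (st2 (ζ ^ n) _ _ h1)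
      rw [inv_inv, mul_one, ← Units.val_mul, inv_mul_cancel, Units.val_one, ← Units.val_mul] at h2
      have e : (((ζ ^ 1 : Fˣ) : F) ^ 2) ^ n = ((ζ ^ n * ζ ^ n : Fˣ) : F) := by
        push_cast; ring
      rw [e]
      exact h2
  by_cases hs : s = 0
  · rw [hs, zero hik]; exact Commute.one_left _
  · have h2 := st1 (Units.mk0 s hs) 1 (s * r) (one_all _)
    rw [Units.val_mk0, mul_one, Units.val_inv_eq_inv_val, Units.val_mk0, inv_mul_cancel_left₀ hs] at h2
    exact h2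

/-- disjoint pairs, second orbit -/
theorem GL3.disB (H : GL3 ρ θ j hj) {i k l m : ι} (hik : i ≠ k) (hil : i ≠ l) (him : i ≠ m)
    (hkl : k ≠ l) (hkm : k ≠ m) (hlm : l ≠ m)
    (h1 : ∀ s r : F, Commute (yy ρ θ j i k s) (yy ρ θ j l m r)) (a b : F) :
    Commute (yy ρ θ j i k a) (yy ρ θ j m l b) := by
  -- the three-cycle i → m → l → i
  let g : alternatingGroup ι := gam ![i, m, l] (inj3 him hil hlm.symm)
  have g0 : (g : Equiv.Perm ι) i = m := gam_0 ![i, m, l] (inj3 him hil hlm.symm)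
  have g1 : (g : Equiv.Perm ι) m = l := gam_1 ![i, m, l] (inj3 him hil hlm.symm)
  have g2 : (g : Equiv.Perm ι) l = i := gam_2 ![i, m, l] (inj3 him hil hlm.symm)
  have g3 : (g : Equiv.Perm ι) k = k := gam_of ![i, m, l] (inj3 him hil hlm.symm) (by
    intro x
    fin_cases x
    · exact hik.symm
    · exact hkm
    · exact hkl)
  have h2 : Commute (yy ρ θ j m k b) (yy ρ θ j i l a) := by
    have := (h1 b a).conj (θ g)
    rwa [H.yy_conj g hik, H.yy_conj g hlm, g0, g1, g2, g3] at this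
  set x := yy ρ θ j i k a with hx
  set p := yy ρ θ j m k b with hp
  set q := yy ρ θ j k l (1 : F) with hq
  set r := yy ρ θ j i l a with hr
  set w := yy ρ θ j m l b with hw
  have c1 : Commute x p := H.ycol hik him hkm a b
  have c2 : x * q = r * (q * x) := by
    have := H.ycom hik hkl hil a (1 : F)
    rwa [mul_one] at this
  have c3 : p * q = w * (q * p) := by
    have := H.ycom (hkm.symm) hkl hlm.symm b (1 : F)
    rwa [mul_one] at this
  have c4 : Commute r w := H.ycol hil him hlm a b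
  have e1 : w = p * q * p⁻¹ * q⁻¹ := by rw [c3]; group
  have e2 : x * q * x⁻¹ = r * q := by rw [c2]; group
  have e3 : x * p * x⁻¹ = p := mul_inv_eq_iff_eq_mul.2 c1.eq
  have e4 : x * w * x⁻¹ = w := by
    calc x * w * x⁻¹ = (x * p * x⁻¹) * (x * q * x⁻¹) * (x * p * x⁻¹)⁻¹ * (x * q * x⁻¹)⁻¹ := by rw [e1]; group
      _ = (p * r) * q * p⁻¹ * q⁻¹ * r⁻¹ := by rw [e2, e3]; group
      _ = r * (p * q * p⁻¹ * q⁻¹) * r⁻¹ := by rw [h2.eq]; group
      _ = w := by rw [← e1]; exact mul_inv_eq_iff_eq_mul.2 c4.eq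
  exact mul_inv_eq_iff_eq_mul.1 e4

theorem inj4 {i k l m : ι} (hik : i ≠ k) (hil : i ≠ l) (him : i ≠ m) (hkl : k ≠ l) (hkm : k ≠ m) (hlm : l ≠ m) :
    Function.Injective ![i, k, l, m] := by
  intro x y hxy
  fin_cases x <;> fin_cases y <;> simp_all [eq_comm]

/-- all disjoint pairs -/
theorem GL3.dis [Fintype F] (H : GL3 ρ θ j hj) {i k l m : ι} (hik : i ≠ k) (hil : i ≠ l) (him : i ≠ m)
    (hkl : k ≠ l) (hkm : k ≠ m) (hlm : l ≠ m) (h1 : Commute (yy ρ θ j i k (1 : F)) (yy ρ θ j l m 1))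
    {i' k' l' m' : ι} (hik' : i' ≠ k') (hil' : i' ≠ l') (him' : i' ≠ m')
    (hkl' : k' ≠ l') (hkm' : k' ≠ m') (hlm' : l' ≠ m') (s r : F) :
    Commute (yy ρ θ j i' k' s) (yy ρ θ j l' m' r) := by
  have hA := H.disA hik hil him hkl hkm hlm h1
  have hB := H.disB hik hil him hkl hkm hlm hA
  obtain ⟨g, hg⟩ := exists_perm (inj4 hik hil him hkl hkm hlm) (inj4 hik' hil' him' hkl' hkm' hlm')
  have g0 : g i = i' := hg 0
  have g1 : g k = k' := hg 1
  have g2 : g l = l' := hg 2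
  have g3 : g m = m' := hg 3
  by_cases hs : Equiv.Perm.sign g = 1
  · have := (hA s r).conj (θ ⟨g, hs⟩)
    rw [H.yy_conj _ hik, H.yy_conj _ hlm] at this
    change Commute (yy ρ θ j (g i) (g k) s) (yy ρ θ j (g l) (g m) r) at this
    rwa [g0, g1, g2, g3] at this
  · have hs' : g * Equiv.swap l m ∈ alternatingGroup ι := by
      rw [Equiv.Perm.mem_alternatingGroup, map_mul, Equiv.Perm.sign_swap hlm]
      rcases Int.units_eq_one_or (Equiv.Perm.sign g) with h | h
      · exact absurd h hs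
      · rw [h]; rfl
    have := (hB s r).conj (θ ⟨g * Equiv.swap l m, hs'⟩)
    rw [H.yy_conj _ hik, H.yy_conj _ hlm.symm] at this
    change Commute (yy ρ θ j (g (Equiv.swap l m i)) (g (Equiv.swap l m k)) s)
      (yy ρ θ j (g (Equiv.swap l m m)) (g (Equiv.swap l m l)) r) at this
    rwa [Equiv.swap_apply_of_ne_of_ne hil him, Equiv.swap_apply_of_ne_of_ne hkl hkm, Equiv.swap_apply_right,
      Equiv.swap_apply_left, g0, g1, g2, g3] at this

theorem GL3.SR [Fintype F] (H : GL3 ρ θ j hj) {i k l m : ι} (hik : i ≠ k) (hil : i ≠ l) (him : i ≠ m)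
    (hkl : k ≠ l) (hkm : k ≠ m) (hlm : l ≠ m) (h1 : Commute (yy ρ θ j i k (1 : F)) (yy ρ θ j l m 1)) :
    Mult.SR (yy (F := F) ρ θ j) := by
  refine ⟨fun h => H.yadd h, fun h h' h'' => H.ycom h h' h'', ?_⟩
  intro a b c d hab hcd hbc had s r
  by_cases hac : a = c
  · subst hac
    by_cases hbd : b = d
    · subst hbd
      rw [← H.yadd hab, ← H.yadd hab, add_comm]
    · exact (H.yrow hab hcd hbd s r).eq
  · by_cases hbd : b = d
    · subst hbd
      exact (H.ycol hab hac hbc s r).eq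
    · exact (H.dis hik hil him hkl hkm hlm h1 hab hac had hbc hbd hcd s r).eq

theorem GL3.hgen (H : GL3 ρ θ j hj) (hg : ρ.range ⊔ θ.range = ⊤) :
    closure {g | ∃ i k, i ≠ k ∧ ∃ b, yy (F := F) ρ θ j i k b = g} = ⊤ := by
  set K := closure {g | ∃ i k, i ≠ k ∧ ∃ b, yy (F := F) ρ θ j i k b = g} with hK
  have mK : ∀ {i k : ι}, i ≠ k → ∀ b, yy ρ θ j i k b ∈ K := fun {i k} h b =>
    Subgroup.subset_closure ⟨i, k, h, b, rfl⟩
  have hρ : ρ.range ≤ K := by
    have h1 : K.comap ρ = ⊤ := by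
      apply H40.sl_eq_top_of_transvections
      intro a b hab t
      change ρ (tv3 a b hab t) ∈ K
      rw [← H.base a b hab]
      exact mK (fun h => hab (hj h)) _
    rw [MonoidHom.range_eq_map, ← h1]
    exact map_comap_le _ _
  have hN : ∀ g : alternatingGroup ι, ∀ x ∈ K, θ g * x * (θ g)⁻¹ ∈ K := by
    intro g x hx
    have hle : K ≤ K.comap (MulAut.conj (θ g)).toMonoidHom := by
      rw [hK, closure_le]
      rintro _ ⟨i, k, hik, b, rfl⟩
      change θ g * yy ρ θ j i k b * (θ g)⁻¹ ∈ K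
      rw [H.yy_conj g hik]
      exact mK (fun h => hik ((g : Equiv.Perm ι).injective h)) _
    exact hle hx
  have hγ : θ (gam j hj) ∈ K := by
    rw [← H.cyc]; exact hρ ⟨_, rfl⟩
  -- all three-cycles
  have h3 : ∀ (v : Fin 3 → ι) (hv : Function.Injective v), θ (gam v hv) ∈ K := by
    intro v hv
    have conj_gam : ∀ (g : alternatingGroup ι) (w : Fin 3 → ι) (hw : Function.Injective w),
        (∀ k, (g : Equiv.Perm ι) (j k) = w k) → g * gam j hj * g⁻¹ = gam w hw := by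
      intro g w hw hgw
      apply Subtype.ext
      change (g : Equiv.Perm ι) * (Equiv.swap (j 0) (j 1) * Equiv.swap (j 1) (j 2)) * (g : Equiv.Perm ι)⁻¹ =
        Equiv.swap (w 0) (w 1) * Equiv.swap (w 1) (w 2)
      rw [← hgw 0, ← hgw 1, ← hgw 2, Equiv.swap_apply_apply, Equiv.swap_apply_apply]
      group
    obtain ⟨g, hg⟩ := exists_perm hj hv
    by_cases hs : Equiv.Perm.sign g = 1
    · have h1 := conj_gam ⟨g, hs⟩ v hv hg
      rw [← h1, map_mul, map_mul, map_inv]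
      exact hN _ _ hγ
    · have hs' : g * Equiv.swap (j 0) (j 1) ∈ alternatingGroup ι := by
        rw [Equiv.Perm.mem_alternatingGroup, map_mul, Equiv.Perm.sign_swap H.j01]
        rcases Int.units_eq_one_or (Equiv.Perm.sign g) with h | h
        · exact absurd h hs
        · rw [h]; rfl
      have hv0 : v 0 ≠ v 1 := fun h => absurd (hv h) (by decide)
      have hv1 : v 0 ≠ v 2 := fun h => absurd (hv h) (by decide)
      have hv2 : v 1 ≠ v 2 := fun h => absurd (hv h) (by decide)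
      have h1 := conj_gam ⟨g * Equiv.swap (j 0) (j 1), hs'⟩ ![v 1, v 0, v 2] (inj3 hv0.symm hv2 hv1) (by
        intro k
        change g (Equiv.swap (j 0) (j 1) (j k)) = _
        fin_cases k
        · change g (Equiv.swap (j 0) (j 1) (j 0)) = v 1
          rw [Equiv.swap_apply_left, hg]
        · change g (Equiv.swap (j 0) (j 1) (j 1)) = v 0
          rw [Equiv.swap_apply_right, hg]
        · change g (Equiv.swap (j 0) (j 1) (j 2)) = v 2
          rw [Equiv.swap_apply_of_ne_of_ne, hg]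
          · exact fun h => absurd (hj h) (by decide)
          · exact fun h => absurd (hj h) (by decide))
      have h2 : gam v hv = (gam ![v 1, v 0, v 2] (inj3 hv0.symm hv2 hv1))⁻¹ := by
        apply Subtype.ext
        change Equiv.swap (v 0) (v 1) * Equiv.swap (v 1) (v 2) =
          (Equiv.swap (v 1) (v 0) * Equiv.swap (v 0) (v 2))⁻¹
        rw [mul_inv_rev, Equiv.swap_inv, Equiv.swap_inv]
        ext x
        simp only [Equiv.Perm.mul_apply]
        by_cases hx0 : x = v 0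
        · subst hx0
          rw [Equiv.swap_apply_of_ne_of_ne hv0 hv1, Equiv.swap_apply_left, Equiv.swap_apply_right,
            Equiv.swap_apply_of_ne_of_ne hv0.symm hv2]
        · by_cases hx1 : x = v 1
          · subst hx1
            rw [Equiv.swap_apply_left, Equiv.swap_apply_of_ne_of_ne hv1.symm hv2.symm, Equiv.swap_apply_left,
              Equiv.swap_apply_left]
          · by_cases hx2 : x = v 2
            · subst hx2
              rw [Equiv.swap_apply_right, Equiv.swap_apply_right, Equiv.swap_apply_of_ne_of_ne hv2.symm hv1.symm,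
                Equiv.swap_apply_right]
            · rw [Equiv.swap_apply_of_ne_of_ne hx1 hx2, Equiv.swap_apply_of_ne_of_ne hx0 hx1,
                Equiv.swap_apply_of_ne_of_ne hx1 hx0, Equiv.swap_apply_of_ne_of_ne hx0 hx2]
      rw [h2, ← h1, map_inv, map_mul, map_mul, map_inv]
      exact inv_mem (hN _ _ hγ)
  have hθ : θ.range ≤ K := by
    rintro _ ⟨g, rfl⟩
    have hg' : (g : Equiv.Perm ι) ∈ closure {σ : Equiv.Perm ι | σ.IsThreeCycle} := by
      rw [Equiv.Perm.closure_three_cycles_eq_alternating]; exact g.2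
    have key : ∀ x ∈ closure {σ : Equiv.Perm ι | σ.IsThreeCycle}, ∃ hx : x ∈ alternatingGroup ι, θ ⟨x, hx⟩ ∈ K := by
      intro x hx
      induction hx using Subgroup.closure_induction with
      | mem x hx =>
        obtain ⟨a, b, c, hab, hac, hbc, rfl⟩ : ∃ a b c : ι, a ≠ b ∧ a ≠ c ∧ b ≠ c ∧
            x = Equiv.swap a b * Equiv.swap b c := by
          have hx' : x.IsThreeCycle := hx
          have hne : x.support.Nonempty := by
            rw [← Finset.card_pos, hx'.card_support]; norm_num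
          obtain ⟨a, ha⟩ := hne
          have h1 := hx'.eq_swap_mul_swap_iff_mem_support.2 ha
          have h2 := hx'.nodup_iff_mem_support.2 ha
          simp only [List.nodup_cons, List.mem_cons, List.not_mem_nil, or_false, not_or, List.nodup_nil,
            not_false_eq_true, and_true] at h2
          exact ⟨a, x a, x (x a), h2.1.1, h2.1.2, h2.2, h1⟩
        exact ⟨(gam ![a, b, c] (inj3 hab hac hbc)).2, h3 _ (inj3 hab hac hbc)⟩
      | one => exact ⟨one_mem _, by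
          have : θ ⟨1, one_mem _⟩ = 1 := map_one θ
          rw [this]; exact one_mem _⟩
      | mul x y _ _ h1 h2 =>
        obtain ⟨hx, h1⟩ := h1
        obtain ⟨hy, h2⟩ := h2
        refine ⟨mul_mem hx hy, ?_⟩
        have : θ ⟨x * y, mul_mem hx hy⟩ = θ ⟨x, hx⟩ * θ ⟨y, hy⟩ := map_mul θ ⟨x, hx⟩ ⟨y, hy⟩
        rw [this]; exact mul_mem h1 h2
      | inv x _ h1 =>
        obtain ⟨hx, h1⟩ := h1
        refine ⟨inv_mem hx, ?_⟩
        have : θ ⟨x⁻¹, inv_mem hx⟩ = (θ ⟨x, hx⟩)⁻¹ := map_inv θ ⟨x, hx⟩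
        rw [this]; exact inv_mem h1
    obtain ⟨_, h⟩ := key _ hg'
    exact h
  rw [eq_top_iff, ← hg]
  exact sup_le hρ hθ

end abs

section conc
variable {F : Type v} [Field F] {ι : Type*} [DecidableEq ι] [Fintype ι]

/-- permutation matrices -/
def pmat (σ : Equiv.Perm ι) : Matrix ι ι F := Matrix.of fun i j => if i = σ j then 1 else 0

theorem pmat_apply (σ : Equiv.Perm ι) (i j : ι) : (pmat σ : Matrix ι ι F) i j = if i = σ j then 1 else 0 := rfl

theorem pmat_one : (pmat (1 : Equiv.Perm ι) : Matrix ι ι F) = 1 := by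
  ext i j
  rw [pmat_apply, Matrix.one_apply]; rfl

theorem pmat_mul_apply (σ : Equiv.Perm ι) (A : Matrix ι ι F) (i j : ι) :
    ((pmat σ : Matrix ι ι F) * A) i j = A (σ⁻¹ i) j := by
  rw [Matrix.mul_apply, Finset.sum_eq_single (σ⁻¹ i)]
  · rw [pmat_apply, if_pos (by simp), one_mul]
  · intro k _ hk
    rw [pmat_apply, if_neg, zero_mul]
    rintro rfl
    apply hk
    simp
  · intro h; exact absurd (Finset.mem_univ _) h

theorem mul_pmat_apply (σ : Equiv.Perm ι) (A : Matrix ι ι F) (i j : ι) :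
    (A * (pmat σ : Matrix ι ι F)) i j = A i (σ j) := by
  rw [Matrix.mul_apply, Finset.sum_eq_single (σ j)]
  · rw [pmat_apply, if_pos rfl, mul_one]
  · intro k _ hk
    rw [pmat_apply, if_neg hk, mul_zero]
  · intro h; exact absurd (Finset.mem_univ _) h

theorem pmat_mul (σ τ : Equiv.Perm ι) : (pmat (σ * τ) : Matrix ι ι F) = pmat σ * pmat τ := by
  ext i j
  rw [mul_pmat_apply, pmat_apply, pmat_apply]; rfl

theorem det_pmat (σ : Equiv.Perm ι) : (pmat σ : Matrix ι ι F).det = ((Equiv.Perm.sign σ : ℤ) : F) := by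
  have h : (pmat σ : Matrix ι ι F) = (Equiv.Perm.permMatrix F σ⁻¹) := by
    ext i j
    rw [pmat_apply, Equiv.Perm.permMatrix]
    simp only [PEquiv.toMatrix_apply, Equiv.toPEquiv_apply, Option.mem_def, Option.some.injEq]
    congr 1
    rw [eq_iff_iff]
    constructor
    · rintro rfl; simp
    · rintro rfl; simp
  rw [h, Matrix.det_permutation, Equiv.Perm.sign_inv]

/-- even permutations as matrices of determinant one -/
def PM : alternatingGroup ι →* Matrix.SpecialLinearGroup ι F where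
  toFun σ := ⟨pmat (σ : Equiv.Perm ι), by rw [det_pmat, Equiv.Perm.mem_alternatingGroup.1 σ.2]; simp⟩
  map_one' := Subtype.ext pmat_one
  map_mul' σ τ := Subtype.ext (pmat_mul _ _)

theorem PM_coe (σ : alternatingGroup ι) : ((PM σ : Matrix.SpecialLinearGroup ι F) : Matrix ι ι F) =
    pmat (σ : Equiv.Perm ι) := rfl

theorem PM_tv (g : alternatingGroup ι) {i k : ι} (hik : i ≠ k) (hik' : (g : Equiv.Perm ι) i ≠ (g : Equiv.Perm ι) k)
    (s : F) : PM g * Matrix.SpecialLinearGroup.transvection hik s * (PM g)⁻¹ =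
      Matrix.SpecialLinearGroup.transvection hik' s := by
  rw [mul_inv_eq_iff_eq_mul]
  apply Subtype.ext
  rw [Matrix.SpecialLinearGroup.coe_mul, Matrix.SpecialLinearGroup.coe_mul, PM_coe]
  change (pmat (g : Equiv.Perm ι) : Matrix ι ι F) * Matrix.transvection i k s =
    Matrix.transvection ((g : Equiv.Perm ι) i) ((g : Equiv.Perm ι) k) s * (pmat (g : Equiv.Perm ι) : Matrix ι ι F)
  ext a b
  rw [pmat_mul_apply, mul_pmat_apply]
  simp only [Matrix.transvection, Matrix.add_apply, Matrix.one_apply, Matrix.single_apply]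
  have e1 : ((g : Equiv.Perm ι)⁻¹ a = b) ↔ (a = (g : Equiv.Perm ι) b) := by
    rw [Equiv.Perm.inv_eq_iff_eq]
  have e2 : (i = (g : Equiv.Perm ι)⁻¹ a) ↔ ((g : Equiv.Perm ι) i = a) := by
    rw [eq_comm, Equiv.Perm.inv_eq_iff_eq, eq_comm]
  have e3 : (k = b) ↔ ((g : Equiv.Perm ι) k = (g : Equiv.Perm ι) b) := (g : Equiv.Perm ι).injective.eq_iff.symm
  simp only [e1, e2, e3]

/-- the glued group is `SL` -/
theorem GL3.bij [Fintype F] {Γ : Type*} [Group Γ] {ρ : Matrix.SpecialLinearGroup (Fin 3) F →* Γ}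
    {θ : alternatingGroup ι →* Γ} {j : Fin 3 → ι} {hj : Function.Injective j}
    (H : GL3 ρ θ j hj) {i k l m : ι} (hik : i ≠ k) (hil : i ≠ l) (him : i ≠ m)
    (hkl : k ≠ l) (hkm : k ≠ m) (hlm : l ≠ m) (h1 : Commute (yy ρ θ j i k (1 : F)) (yy ρ θ j l m 1))
    (hg : ρ.range ⊔ θ.range = ⊤) (π : Γ →* Matrix.SpecialLinearGroup ι F)
    (hρ : ∀ s, π (ρ (tv3 0 1 (by decide) s)) = Matrix.SpecialLinearGroup.transvection
      (show j 0 ≠ j 1 from fun h => absurd (hj h) (by decide)) s)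
    (hθ : ∀ g, π (θ g) = PM g) : Function.Bijective π := by
  refine Stb.sl_bijective' (by have := H.card; omega) (H.SR hik hil him hkl hkm hlm h1) (H.hgen hg) π ?_
  intro a b hab s
  obtain ⟨g, rfl, rfl⟩ := exists_alt2 H.card H.j01 hab
  rw [H.yy_eq, map_mul, map_mul, map_inv, hρ, hθ, PM_tv g]

end conc

end Cfsg.Agent.GK
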