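import Cfsg.Agent.GK.SLnG
import Cfsg.Agent.GK.SL2Q

/-!
The presentations of `SL_n(F)` and `PSL_n(F)`, `n ≥ 4`.
-/

set_option autoImplicit false

namespace Cfsg.Agent.GK

open Subgroup Polynomial

universe v

section fin
variable (F : Type v) [Field F] [Fintype F]

/-- the centre of `SL_n(F)` is the normal closure of one element -/
theorem center_gen (n : ℕ) : ∃ z : Matrix.SpecialLinearGroup (Fin n) F,
    center (Matrix.SpecialLinearGroup (Fin n) F) = normalClosure {z} := by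
  classical
  have hc : IsCyclic (center (Matrix.SpecialLinearGroup (Fin n) F)) :=
    isCyclic_of_surjective _ (Matrix.SpecialLinearGroup.center_equiv_rootsOfUnity (n := Fin n) (R := F)).symm.surjective
  obtain ⟨z, hz⟩ := hc.exists_generator
  refine ⟨z, le_antisymm ?_ ?_⟩
  · intro x hx
    obtain ⟨k, hk⟩ := hz ⟨x, hx⟩
    have : x = (z : Matrix.SpecialLinearGroup (Fin n) F) ^ k := (congrArg Subtype.val hk).symm
    rw [this]
    exact zpow_mem (subset_normalClosure (Set.mem_singleton _)) k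
  · apply normalClosure_le_normal
    rw [Set.singleton_subset_iff]
    exact z.2

/-- adding a superfluous generator -/
theorem IsPres.add_gen {G : Type*} [Group G] {k : ℕ} {R : Finset (FreeGroup (Fin k))} {x : Fin k → G}
    (h : IsPres (R : Set (FreeGroup (Fin k))) x) (hk : 0 < k) :
    ∃ (R' : Finset (FreeGroup (Fin (k + 1)))) (y : Fin (k + 1) → G), R'.card ≤ R.card + 1 ∧
      IsPres (R' : Set (FreeGroup (Fin (k + 1)))) y := by
  classical
  let y : Fin (k + 1) → G := fun j => if h : j.1 < k then x ⟨j, h⟩ else 1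
  let s : Fin (k + 1) → Fin k := fun j => if h : j.1 < k then ⟨j, h⟩ else ⟨0, hk⟩
  obtain ⟨R', hR', P⟩ := h.regen y (by
    rw [eq_top_iff, ← h.closure, closure_le]
    rintro _ ⟨i, rfl⟩
    refine Subgroup.subset_closure ⟨Fin.castSucc i, ?_⟩
    simp [y]) (Finset.univ.image Fin.castSucc) s (by
    intro j hj
    obtain ⟨i, -, rfl⟩ := Finset.mem_image.1 hj
    simp [y, s]) (by
    intro a ha b hb hab
    obtain ⟨i, -, rfl⟩ := Finset.mem_image.1 (Finset.mem_coe.1 ha)
    obtain ⟨j, -, rfl⟩ := Finset.mem_image.1 (Finset.mem_coe.1 hb)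
    simp only [s] at hab
    simpa using hab)
  refine ⟨R', y, ?_, P⟩
  rw [Finset.card_image_of_injective _ (Fin.castSucc_injective k), Finset.card_univ, Fintype.card_fin,
    Fintype.card_fin] at hR'
  omega

/-- the projective group -/
theorem psl_of_sl {n k : ℕ} {R : Finset (FreeGroup (Fin k))} {x : Fin k → Matrix.SpecialLinearGroup (Fin n) F}
    (h : IsPres (R : Set (FreeGroup (Fin k))) x) :
    ∃ (R' : Finset (FreeGroup (Fin k))) (y : Fin k → Matrix.ProjectiveSpecialLinearGroup (Fin n) F),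
      R'.card ≤ R.card + 1 ∧ IsPres (R' : Set (FreeGroup (Fin k))) y := by
  classical
  obtain ⟨z, hz⟩ := center_gen F n
  obtain ⟨w, hw⟩ := h.surj z
  have P' := h.quot w (center (Matrix.SpecialLinearGroup (Fin n) F)) (by rw [hw, hz])
  rw [← Finset.coe_insert] at P'
  exact ⟨insert w R, _, Finset.card_insert_le _ _, P'⟩

theorem sl4_six : ∃ (R : Finset (FreeGroup (Fin 6))) (x : Fin 6 → Matrix.SpecialLinearGroup (Fin 4) F),
    R.card ≤ 20 ∧ IsPres (R : Set (FreeGroup (Fin 6))) x := by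
  obtain ⟨RB, xB, hRB, PB⟩ := alt4_three
  obtain ⟨e⟩ : Nonempty (Option (Option (Fin 2)) ≃ ix 0) := Fintype.card_eq.1 (by simp [Fintype.card_sum])
  obtain ⟨R, x, hR, P⟩ := exists_sl F (PB.map (altCongr e)) (m := 0)
  obtain ⟨e'⟩ : Nonempty (ix 0 ≃ Fin 4) := Fintype.card_eq.1 (by simp [Fintype.card_sum])
  refine ⟨R, _, ?_, P.map (reSL e')⟩
  rw [if_pos rfl] at hR
  omega

theorem sl5_six : ∃ (R : Finset (FreeGroup (Fin 6))) (x : Fin 6 → Matrix.SpecialLinearGroup (Fin 5) F),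
    R.card ≤ 22 ∧ IsPres (R : Set (FreeGroup (Fin 6))) x := by
  obtain ⟨RB, xB, hRB, PB⟩ := alt5_four
  obtain ⟨e⟩ : Nonempty (Option (Option (Fin 3)) ≃ ix 1) := Fintype.card_eq.1 (by simp [Fintype.card_sum])
  obtain ⟨R, x, hR, P⟩ := exists_sl F (PB.map (altCongr e)) (m := 1)
  obtain ⟨e'⟩ : Nonempty (ix 1 ≃ Fin 5) := Fintype.card_eq.1 (by simp [Fintype.card_sum])
  refine ⟨R, _, ?_, P.map (reSL e')⟩
  rw [if_neg (by norm_num)] at hR
  omega

theorem sln_seven (n : ℕ) (hn : 4 ≤ n) :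
    ∃ (R : Finset (FreeGroup (Fin 7))) (x : Fin 7 → Matrix.SpecialLinearGroup (Fin n) F),
    R.card ≤ 25 ∧ IsPres (R : Set (FreeGroup (Fin 7))) x := by
  by_cases h4 : n = 4
  · subst h4
    obtain ⟨R, x, hR, P⟩ := sl4_six F
    obtain ⟨R', x', hR', P'⟩ := P.add_gen (by norm_num)
    exact ⟨R', x', by omega, P'⟩
  · obtain ⟨m, rfl⟩ : ∃ m, n = m + 4 := ⟨n - 4, by omega⟩
    obtain ⟨RB, xB, hRB, PB⟩ := pres_alt (m + 4) (by omega)
    obtain ⟨e⟩ : Nonempty (Fin (m + 4) ≃ ix m) := Fintype.card_eq.1 (by simp [Fintype.card_sum]; omega)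
    obtain ⟨R, x, hR, P⟩ := exists_sl F (PB.map (altCongr e)) (m := m)
    refine ⟨R, _, ?_, P.map (reSL e.symm)⟩
    rw [if_neg (by omega)] at hR
    omega

end fin

end Cfsg.Agent.GK
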