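import Cfsg.Agent.GK.SLnC

/-!
The presentation of `SL_n(F)` glued from `SL₃(F)` and an alternating group.
-/

set_option autoImplicit false

namespace Cfsg.Agent.GK

open Subgroup Polynomial

universe v

theorem forall_append {α : Type*} {P : α → Prop} {a b : ℕ} (x : Fin a → α) (y : Fin b → α) :
    (∀ i, P (Fin.append x y i)) ↔ (∀ i, P (x i)) ∧ (∀ i, P (y i)) := by
  constructor
  · intro h
    refine ⟨fun i => ?_, fun i => ?_⟩
    · have := h (Fin.castAdd b i)
      rwa [Fin.append_left] at this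
    · have := h (Fin.natAdd a i)
      rwa [Fin.append_right] at this
  · rintro ⟨h1, h2⟩ i
    refine Fin.addCases (fun i => ?_) (fun i => ?_) i
    · rw [Fin.append_left]; exact h1 i
    · rw [Fin.append_right]; exact h2 i

theorem forall_append_hom {M N : Type*} [Group M] [Group N] (φ : M →* N) {a b : ℕ} (x : Fin a → M) (y : Fin b → M) :
    (∀ i, φ (Fin.append x y i) = 1) ↔ (∀ i, φ (x i) = 1) ∧ (∀ i, φ (y i) = 1) :=
  forall_append (P := fun z => φ z = 1) x y

section glue2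
variable {F : Type v} [Field F] {m : ℕ}

abbrev ix (m : ℕ) := Fin 3 ⊕ Fin (m + 1)

theorem l01 : (Sum.inl 0 : ix m) ≠ Sum.inl 1 := by simp

/-- the point `2` -/
def p2 : Kp (Sum.inl 0 : ix m) (Sum.inl 1) := ⟨Sum.inl 2, by simp, by simp⟩

/-- the other points -/
def pr (l : Fin (m + 1)) : Kp (Sum.inl 0 : ix m) (Sum.inl 1) := ⟨Sum.inr l, by simp, by simp⟩

theorem p2_ne_pr (l : Fin (m + 1)) : (p2 : Kp (Sum.inl 0 : ix m) (Sum.inl 1)) ≠ pr l := by
  intro h
  have := congrArg Subtype.val h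
  simp [p2, pr] at this

/-- the permutation extending one of the last points -/
def pp (t : Equiv.Perm (Fin (m + 1))) : Equiv.Perm (Kp (Sum.inl 0 : ix m) (Sum.inl 1)) :=
  Equiv.Perm.subtypePerm (p := fun x : ix m => x ≠ Sum.inl 0 ∧ x ≠ Sum.inl 1) (Equiv.sumCongr 1 t) (by
    intro x
    rcases x with x | x <;> simp)

theorem pp_pr (t : Equiv.Perm (Fin (m + 1))) (l : Fin (m + 1)) : pp t (pr l) = pr (t l) := rfl

theorem pp_p2 (t : Equiv.Perm (Fin (m + 1))) : pp t p2 = (p2 : Kp (Sum.inl 0 : ix m) (Sum.inl 1)) := rfl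

theorem pp_pow (t : Equiv.Perm (Fin (m + 1))) (n : ℕ) (l : Fin (m + 1)) : (pp t ^ n) (pr l) = pr ((t ^ n) l) := by
  induction n with
  | zero => rfl
  | succ n ih => rw [pow_succ', pow_succ', Equiv.Perm.mul_apply, Equiv.Perm.mul_apply, ih, pp_pr]

/-- `(0 1)(2 3)` -/
def ta : alternatingGroup (ix m) := FF (Sum.inl 0) (Sum.inl 1) l01 (Equiv.swap p2 (pr 0))

theorem sign_sw : Equiv.Perm.sign (Equiv.swap (p2 : Kp (Sum.inl 0 : ix m) (Sum.inl 1)) (pr 0)) = -1 :=
  Equiv.Perm.sign_swap (p2_ne_pr 0)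

theorem ta_0 : ((ta : alternatingGroup (ix m)) : Equiv.Perm (ix m)) (Sum.inl 0) = Sum.inl 1 :=
  (FF_neg _ _ l01 _ sign_sw).1

theorem ta_1 : ((ta : alternatingGroup (ix m)) : Equiv.Perm (ix m)) (Sum.inl 1) = Sum.inl 0 :=
  (FF_neg _ _ l01 _ sign_sw).2

theorem ta_ta : (ta : alternatingGroup (ix m)) * ta = 1 := by
  rw [ta, ← map_mul, Equiv.swap_mul_self, map_one]

/-- the involution `(0 2)(1 3)` -/
def ka : alternatingGroup (ix m) :=
  ⟨Equiv.swap (Sum.inl 0) (Sum.inl 2) * Equiv.swap (Sum.inl 1) (Sum.inr 0), by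
    rw [Equiv.Perm.mem_alternatingGroup, map_mul, Equiv.Perm.sign_swap (by simp), Equiv.Perm.sign_swap (by simp)]
    rfl⟩

theorem ka_0 : ((ka : alternatingGroup (ix m)) : Equiv.Perm (ix m)) (Sum.inl 0) = Sum.inl 2 := by
  change Equiv.swap (Sum.inl 0) (Sum.inl 2) (Equiv.swap (Sum.inl 1) (Sum.inr 0) (Sum.inl 0 : ix m)) = Sum.inl 2
  have h : Equiv.swap (Sum.inl 1) (Sum.inr 0) (Sum.inl 0 : ix m) = Sum.inl 0 :=
    Equiv.swap_apply_of_ne_of_ne (by simp) (by simp)
  rw [h, Equiv.swap_apply_left]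

theorem ka_1 : ((ka : alternatingGroup (ix m)) : Equiv.Perm (ix m)) (Sum.inl 1) = Sum.inr 0 := by
  change Equiv.swap (Sum.inl 0) (Sum.inl 2) (Equiv.swap (Sum.inl 1) (Sum.inr 0) (Sum.inl 1 : ix m)) = Sum.inr 0
  rw [Equiv.swap_apply_left, Equiv.swap_apply_of_ne_of_ne (by simp) (by simp)]

theorem exists_x [Fintype F] {ζ : Fˣ} (hζ : IsGen ζ) :
    ∃ x : Matrix.SpecialLinearGroup (Fin 3) F, closure {x, cp} = ⊤ := by
  by_cases h4 : Fintype.card F = 4
  · exact exists_x_four hζ h4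
  · exact ⟨_, exists_x_ne4 hζ h4⟩

/-- the gluing theorem -/
theorem glue_sl [Fintype F] {a b ke kb : ℕ} {RA : Finset (FreeGroup (Fin a))} {RB : Finset (FreeGroup (Fin b))}
    {xA : Fin a → Matrix.SpecialLinearGroup (Fin 3) F} {xB : Fin b → alternatingGroup (ix m)}
    (PA : IsPres (RA : Set (FreeGroup (Fin a))) xA) (PB : IsPres (RB : Set (FreeGroup (Fin b))) xB)
    (Ee : Fin ke → Monoid.Coprod (Matrix.SpecialLinearGroup (Fin 3) F) (alternatingGroup (ix m)))
    (Eb : Fin kb → Monoid.Coprod (Matrix.SpecialLinearGroup (Fin 3) F) (alternatingGroup (ix m)))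
    (hEe : ∀ i, Monoid.Coprod.lift (E3 (m + 1)) PM (Ee i) = 1) (hEb : ∀ i, Monoid.Coprod.lift (E3 (m + 1)) PM (Eb i) = 1)
    (hUe : ∀ (Γ : Type) [Group Γ] (ρ : Matrix.SpecialLinearGroup (Fin 3) F →* Γ) (θ : alternatingGroup (ix m) →* Γ),
      (∀ i, Monoid.Coprod.lift ρ θ (Ee i) = 1) → ta ∈ NN ρ θ (Sum.inl 0) (Sum.inl 1))
    (t : Equiv.Perm (Fin (m + 1))) (ht : ∀ l, ∃ n : ℕ, (t ^ n) 0 = l)
    (hUb : ∀ (Γ : Type) [Group Γ] (ρ : Matrix.SpecialLinearGroup (Fin 3) F →* Γ) (θ : alternatingGroup (ix m) →* Γ),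
      ρ cp = θ (gam Sum.inl Sum.inl_injective) →
      (∀ i, Monoid.Coprod.lift ρ θ (Eb i) = 1) → FF _ _ l01 (pp t) ∈ NN ρ θ (Sum.inl 0) (Sum.inl 1)) :
    ∃ (R : Finset (FreeGroup (Fin (a + b)))) (x : Fin (a + b) → Matrix.SpecialLinearGroup (ix m) F),
      R.card ≤ RA.card + RB.card + (2 + ke + kb) ∧ IsPres (R : Set (FreeGroup (Fin (a + b)))) x := by
  let u : Monoid.Coprod (Matrix.SpecialLinearGroup (Fin 3) F) (alternatingGroup (ix m)) :=
    Monoid.Coprod.inl (tv3 0 1 (by decide) 1)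
  let w : Monoid.Coprod (Matrix.SpecialLinearGroup (Fin 3) F) (alternatingGroup (ix m)) := Monoid.Coprod.inr ka
  let Ea : Fin 2 → Monoid.Coprod (Matrix.SpecialLinearGroup (Fin 3) F) (alternatingGroup (ix m)) :=
    ![Monoid.Coprod.inl cp * (Monoid.Coprod.inr (gam Sum.inl Sum.inl_injective))⁻¹,
      u * (w * u * w⁻¹) * ((w * u * w⁻¹) * u)⁻¹]
  have l01' : (Sum.inl 0 : ix m) ≠ Sum.inl 1 := l01
  have l23 : (Sum.inl 2 : ix m) ≠ Sum.inr 0 := by simp
  refine glue_pres PA PB (E3 (m + 1)) PM (Fin.append (Fin.append Ea Ee) Eb) ?_ ?_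
  · rw [forall_append_hom, forall_append_hom]
    refine ⟨⟨?_, hEe⟩, hEb⟩
    intro i
    fin_cases i
    · change Monoid.Coprod.lift (E3 (m + 1)) PM (Monoid.Coprod.inl cp *
        (Monoid.Coprod.inr (gam Sum.inl Sum.inl_injective))⁻¹) = 1
      rw [map_mul, map_inv, Monoid.Coprod.lift_apply_inl, Monoid.Coprod.lift_apply_inr, E3_cp, mul_inv_cancel]
    · change Monoid.Coprod.lift (E3 (m + 1)) PM (u * (w * u * w⁻¹) * ((w * u * w⁻¹) * u)⁻¹) = 1
      simp only [map_mul, map_inv, u, w, Monoid.Coprod.lift_apply_inl, Monoid.Coprod.lift_apply_inr]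
      rw [mul_inv_eq_one, E3_tv _ l01', PM_tv ka l01' (by rw [ka_0, ka_1]; exact l23)]
      apply tv_comm
      · rw [ka_0]; simp
      · rw [ka_1]; simp
  · intro Γ _ ρ θ hE hg π hπρ hπθ
    rw [forall_append_hom, forall_append_hom] at hE
    obtain ⟨⟨hEa, hEe⟩, hEb⟩ := hE
    have hcyc : ρ cp = θ (gam Sum.inl Sum.inl_injective) := by
      have := hEa 0
      change Monoid.Coprod.lift ρ θ (Monoid.Coprod.inl cp *
        (Monoid.Coprod.inr (gam Sum.inl Sum.inl_injective))⁻¹) = 1 at this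
      rw [map_mul, map_inv, Monoid.Coprod.lift_apply_inl, Monoid.Coprod.lift_apply_inr, mul_inv_eq_one] at this
      exact this
    have hta := hUe Γ ρ θ hEe
    have hsi := hUb Γ ρ θ hcyc hEb
    have htop : (NN ρ θ (Sum.inl 0) (Sum.inl 1)).comap (FF (Sum.inl 0) (Sum.inl 1) l01) = ⊤ := by
      apply perm_top_of_cycle p2 (pr 0) (p2_ne_pr 0).symm _ hta (pp t) hsi (pp_p2 t)
      rintro ⟨x, hx0, hx1⟩ hx2
      rcases x with x | x
      · exfalso
        fin_cases x
        · exact hx0 rfl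
        · exact hx1 rfl
        · exact hx2 rfl
      · obtain ⟨n, hn⟩ := ht x
        refine ⟨n, ?_⟩
        rw [pp_pow, hn]; rfl
    have H : GL3 ρ θ (Sum.inl : Fin 3 → ix m) Sum.inl_injective :=
      GL3_of_NN Sum.inl_injective (by simp [Fintype.card_sum]; omega) hcyc l01' htop ta hta ta_0
    have hd : Commute (yy ρ θ (Sum.inl : Fin 3 → ix m) (Sum.inl 0) (Sum.inl 1) (1 : F))
        (yy ρ θ (Sum.inl : Fin 3 → ix m) (Sum.inl 2) (Sum.inr 0) 1) := by
      have := hEa 1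
      change Monoid.Coprod.lift ρ θ (u * (w * u * w⁻¹) * ((w * u * w⁻¹) * u)⁻¹) = 1 at this
      simp only [map_mul, map_inv, u, w, Monoid.Coprod.lift_apply_inl, Monoid.Coprod.lift_apply_inr] at this
      rw [mul_inv_eq_one] at this
      have e := H.yy_eq ka 1
      rw [ka_0, ka_1] at e
      rw [e, H.y01]
      exact this
    refine H.bij (i := Sum.inl 0) (k := Sum.inl 1) (l := Sum.inl 2) (m := Sum.inr 0) (by simp) (by simp) (by simp)
      (by simp) (by simp) (by simp) hd hg π ?_ hπθ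
    intro s
    rw [hπρ, E3_tv]

variable (F) in
/-- `SL₃` with four generators and a total of eighteen relators for the gluing -/
theorem exists_sl [Fintype F] {b : ℕ} {RB : Finset (FreeGroup (Fin b))} {xB : Fin b → alternatingGroup (ix m)}
    (PB : IsPres (RB : Set (FreeGroup (Fin b))) xB) :
    ∃ (R : Finset (FreeGroup (Fin (4 + b)))) (x : Fin (4 + b) → Matrix.SpecialLinearGroup (ix m) F),
      R.card ≤ RB.card + (if m = 0 then 17 else 18) ∧ IsPres (R : Set (FreeGroup (Fin (4 + b)))) x := by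
  obtain ⟨ζ, hζ⟩ := exists_isGen F
  -- the data for the long cycle
  obtain ⟨kb, hkb, Eb, hEb, t, ht, hUb⟩ : ∃ kb : ℕ, kb = (if m = 0 then 0 else 1) ∧
      ∃ Eb : Fin kb → Monoid.Coprod (Matrix.SpecialLinearGroup (Fin 3) F) (alternatingGroup (ix m)),
      (∀ i, Monoid.Coprod.lift (E3 (m + 1)) PM (Eb i) = 1) ∧ ∃ t : Equiv.Perm (Fin (m + 1)),
      (∀ l, ∃ n : ℕ, (t ^ n) 0 = l) ∧
      (∀ (Γ : Type) [Group Γ] (ρ : Matrix.SpecialLinearGroup (Fin 3) F →* Γ) (θ : alternatingGroup (ix m) →* Γ),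
      ρ cp = θ (gam Sum.inl Sum.inl_injective) →
      (∀ i, Monoid.Coprod.lift ρ θ (Eb i) = 1) → FF _ _ l01 (pp t) ∈ NN ρ θ (Sum.inl 0) (Sum.inl 1)) := by
    by_cases hm : m = 0
    · subst hm
      refine ⟨0, by simp, fun i => i.elim0, fun i => i.elim0, 1, ?_, ?_⟩
      · intro l
        exact ⟨0, (show Subsingleton (Fin 1) from inferInstance).elim _ _⟩
      · intro Γ _ ρ θ _ _
        have : pp (1 : Equiv.Perm (Fin (0 + 1))) = 1 := by
          ext x
          obtain ⟨x, h1, h2⟩ := x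
          rcases x with x | x <;> rfl
        rw [this, map_one]
        exact one_mem _
    · obtain ⟨t, ht⟩ := exists_cyc (Fin (m + 1))
      obtain ⟨x, hx⟩ := exists_x (F := F) hζ
      let si : alternatingGroup (ix m) := FF _ _ l01 (pp t)
      refine ⟨1, by rw [if_neg hm], fun _ => Monoid.Coprod.inr si * Monoid.Coprod.inl x * (Monoid.Coprod.inr si)⁻¹ *
        (Monoid.Coprod.inl (phi (Equiv.Perm.sign (pp t)) x))⁻¹, ?_, t, ht 0, ?_⟩
      · intro _
        simp only [map_mul, map_inv, Monoid.Coprod.lift_apply_inl, Monoid.Coprod.lift_apply_inr]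
        rw [mul_inv_eq_one]
        have h2 : (si : Equiv.Perm (ix m)) (Sum.inl 2) = Sum.inl 2 :=
          FF_apply _ _ l01 (pp t) (x := Sum.inl 2) (by simp) (by simp)
        rcases Int.units_eq_one_or (Equiv.Perm.sign (pp t)) with h | h
        · obtain ⟨f1, f2⟩ := FF_pos _ _ l01 (pp t) h
          rw [h, phi_one, PM_E3 si 1]
          · congr 1
          · intro k
            fin_cases k
            · exact f1
            · exact f2
            · exact h2
        · obtain ⟨f1, f2⟩ := FF_neg _ _ l01 (pp t) h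
          rw [h, phi_neg, PM_E3 si (Equiv.swap 0 1)]
          intro k
          fin_cases k
          · exact f1
          · exact f2
          · exact h2
      · intro Γ _ ρ θ hcyc hE
        apply sigma_mem Sum.inl_injective hcyc l01 (pp t) _ x hx
        · have := hE 0
          simp only [map_mul, map_inv, Monoid.Coprod.lift_apply_inl, Monoid.Coprod.lift_apply_inr] at this
          rw [mul_inv_eq_one] at this
          exact this
        · exact FF_apply _ _ l01 (pp t) (x := Sum.inl 2) (by simp) (by simp)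
  by_cases hq : Fintype.card F = 4
  · have hc := four_char hq
    obtain ⟨RA, hRA, PA⟩ := sl3_pres hζ
    obtain ⟨R, x, hR, P⟩ := glue_sl PA PB (m := m) (ke := 1)
      (fun _ => Monoid.Coprod.inr ta * Monoid.Coprod.inl (e23 (g4 ζ)) * (Monoid.Coprod.inr ta)⁻¹ *
        (Monoid.Coprod.inl (e23 (tm * g4 ζ * tm⁻¹)))⁻¹) Eb (by
        intro _
        simp only [map_mul, map_inv, Monoid.Coprod.lift_apply_inl, Monoid.Coprod.lift_apply_inr]
        rw [mul_inv_eq_one, PM_E23 ta ta_0 ta_1, reSL_char2]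
        simp only [map_mul, map_inv]) hEb (by
        intro Γ _ ρ θ hE
        have := hE 0
        rw [map_mul, map_mul, map_mul, map_inv, map_inv, Monoid.Coprod.lift_apply_inl, Monoid.Coprod.lift_apply_inr,
          Monoid.Coprod.lift_apply_inl, mul_inv_eq_one] at this
        exact tau_mem_four hζ hq ta_0 ta_1 ta_ta this) t ht hUb
    refine ⟨R, x, ?_, P⟩
    refine hR.trans ?_
    split_ifs at hkb ⊢ <;> omega
  · obtain ⟨RA, hRA, PA⟩ := sl3_pres_ne4 hζ hq
    obtain ⟨R, x, hR, P⟩ := glue_sl PA PB (m := m) (ke := 2)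
      ![Monoid.Coprod.inr ta * Monoid.Coprod.inl (tv3 0 1 (by decide) 1) * (Monoid.Coprod.inr ta)⁻¹ *
        (Monoid.Coprod.inl (tv3 1 0 (by decide) 1))⁻¹,
        Monoid.Coprod.inr ta * Monoid.Coprod.inl (hm3 ζ) * (Monoid.Coprod.inr ta)⁻¹ *
        (Monoid.Coprod.inl (hm3 ζ)⁻¹)⁻¹] Eb (by
        intro i
        have l01' : (Sum.inl 0 : ix m) ≠ Sum.inl 1 := l01
        have l10' : (Sum.inl 1 : ix m) ≠ Sum.inl 0 := l01.symm
        fin_cases i
        · change Monoid.Coprod.lift (E3 (m + 1)) PM (Monoid.Coprod.inr ta * Monoid.Coprod.inl (tv3 0 1 (by decide) 1) *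
            (Monoid.Coprod.inr ta)⁻¹ * (Monoid.Coprod.inl (tv3 1 0 (by decide) 1))⁻¹) = 1
          simp only [map_mul, map_inv, Monoid.Coprod.lift_apply_inl, Monoid.Coprod.lift_apply_inr]
          rw [mul_inv_eq_one, E3_tv _ l01', PM_tv ta l01' (by rw [ta_0, ta_1]; exact l10'), E3_tv _ l10']
          congr 1
          · exact ta_0
          · exact ta_1
        · change Monoid.Coprod.lift (E3 (m + 1)) PM (Monoid.Coprod.inr ta * Monoid.Coprod.inl (hm3 ζ) *
            (Monoid.Coprod.inr ta)⁻¹ * (Monoid.Coprod.inl (hm3 ζ)⁻¹)⁻¹) = 1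
          simp only [map_mul, map_inv, Monoid.Coprod.lift_apply_inl, Monoid.Coprod.lift_apply_inr]
          rw [mul_inv_eq_one, ← e23_hm, PM_E23 ta ta_0 ta_1, reSL_hm]
          simp only [map_inv]) hEb (by
        intro Γ _ ρ θ hE
        have h0 := hE 0
        have h1 := hE 1
        change Monoid.Coprod.lift ρ θ (Monoid.Coprod.inr ta * Monoid.Coprod.inl (tv3 0 1 (by decide) 1) *
            (Monoid.Coprod.inr ta)⁻¹ * (Monoid.Coprod.inl (tv3 1 0 (by decide) 1))⁻¹) = 1 at h0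
        change Monoid.Coprod.lift ρ θ (Monoid.Coprod.inr ta * Monoid.Coprod.inl (hm3 ζ) *
            (Monoid.Coprod.inr ta)⁻¹ * (Monoid.Coprod.inl (hm3 ζ)⁻¹)⁻¹) = 1 at h1
        rw [map_mul, map_mul, map_mul, map_inv, map_inv, Monoid.Coprod.lift_apply_inl, Monoid.Coprod.lift_apply_inr,
          Monoid.Coprod.lift_apply_inl, mul_inv_eq_one] at h0 h1
        exact tau_mem hζ ta_0 ta_1 ta_ta h0 h1) t ht hUb
    refine ⟨R, x, ?_, P⟩
    refine hR.trans ?_
    split_ifs at hkb ⊢ <;> omega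

end glue2

end Cfsg.Agent.GK
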