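import Cfsg.Agent.GK.SLn
import Cfsg.Agent.GK.Amal

/-!
The relators gluing `SL₃(F)` and an alternating group.
-/

set_option autoImplicit false

namespace Cfsg.Agent.GK

open Subgroup Polynomial

universe v

section gens
variable {κ : Type*} [DecidableEq κ] [Fintype κ]

theorem perm_top_of_star (a : κ) (B : Subgroup (Equiv.Perm κ)) (h : ∀ x, x ≠ a → Equiv.swap a x ∈ B) : B = ⊤ := by
  rw [eq_top_iff, ← Equiv.Perm.closure_isSwap, closure_le]
  rintro _ ⟨x, y, hxy, rfl⟩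
  by_cases hx : x = a
  · rw [hx]; exact h y (fun h' => hxy (by rw [hx, h']))
  · by_cases hy : y = a
    · rw [hy, Equiv.swap_comm]; exact h x hx
    · have e : Equiv.swap x y = Equiv.swap a x * Equiv.swap a y * (Equiv.swap a x)⁻¹ := by
        have := Equiv.swap_apply_apply (Equiv.swap a x) a y
        rw [Equiv.swap_apply_left, Equiv.swap_apply_of_ne_of_ne hy (Ne.symm hxy)] at this
        exact this
      rw [e]
      exact mul_mem (mul_mem (h x hx) (h y hy)) (inv_mem (h x hx))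

theorem perm_top_of_cycle (a b : κ) (hab : b ≠ a) (B : Subgroup (Equiv.Perm κ)) (h1 : Equiv.swap a b ∈ B)
    (p : Equiv.Perm κ) (hp : p ∈ B) (hpa : p a = a) (htr : ∀ x, x ≠ a → ∃ n : ℕ, (p ^ n) b = x) : B = ⊤ := by
  apply perm_top_of_star a
  intro x hx
  obtain ⟨n, rfl⟩ := htr x hx
  have hna : ∀ n : ℕ, (p ^ n) a = a := by
    intro n
    induction n with
    | zero => rfl
    | succ n ih => rw [pow_succ, Equiv.Perm.mul_apply, hpa, ih]
  have e := Equiv.swap_apply_apply (p ^ n) a b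
  rw [hna] at e
  rw [e]
  exact mul_mem (mul_mem (pow_mem hp n) h1) (inv_mem (pow_mem hp n))

end gens

section gam
variable {ι : Type*} [DecidableEq ι] [Fintype ι]

theorem conj_gam (g : alternatingGroup ι) {j : Fin 3 → ι} (hj : Function.Injective j) (w : Fin 3 → ι)
    (hw : Function.Injective w) (hgw : ∀ k, (g : Equiv.Perm ι) (j k) = w k) : g * gam j hj * g⁻¹ = gam w hw := by
  apply Subtype.ext
  change (g : Equiv.Perm ι) * (Equiv.swap (j 0) (j 1) * Equiv.swap (j 1) (j 2)) * (g : Equiv.Perm ι)⁻¹ =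
    Equiv.swap (w 0) (w 1) * Equiv.swap (w 1) (w 2)
  rw [← hgw 0, ← hgw 1, ← hgw 2, Equiv.swap_apply_apply, Equiv.swap_apply_apply]
  group

theorem gam_swap (v : Fin 3 → ι) (hv : Function.Injective v) (hv' : Function.Injective ![v 1, v 0, v 2]) :
    gam ![v 1, v 0, v 2] hv' = (gam v hv)⁻¹ := by
  have hv0 : v 0 ≠ v 1 := fun h => absurd (hv h) (by decide)
  have hv1 : v 0 ≠ v 2 := fun h => absurd (hv h) (by decide)
  have hv2 : v 1 ≠ v 2 := fun h => absurd (hv h) (by decide)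
  rw [eq_inv_iff_mul_eq_one]
  apply Subtype.ext
  change (Equiv.swap (v 1) (v 0) * Equiv.swap (v 0) (v 2)) * (Equiv.swap (v 0) (v 1) * Equiv.swap (v 1) (v 2)) = 1
  ext x
  simp only [Equiv.Perm.mul_apply, Equiv.Perm.one_apply]
  by_cases hx0 : x = v 0
  · subst hx0
    rw [Equiv.swap_apply_of_ne_of_ne (show v 0 ≠ v 1 from hv0) hv1, Equiv.swap_apply_left,
      Equiv.swap_apply_of_ne_of_ne hv0.symm hv2, Equiv.swap_apply_left]
  · by_cases hx1 : x = v 1
    · subst hx1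
      rw [Equiv.swap_apply_left, Equiv.swap_apply_of_ne_of_ne hv1.symm hv2.symm, Equiv.swap_apply_right,
        Equiv.swap_apply_right]
    · by_cases hx2 : x = v 2
      · subst hx2
        rw [Equiv.swap_apply_right, Equiv.swap_apply_right, Equiv.swap_apply_left,
          Equiv.swap_apply_of_ne_of_ne hv2.symm hv1.symm]
      · rw [Equiv.swap_apply_of_ne_of_ne hx1 hx2, Equiv.swap_apply_of_ne_of_ne hx0 hx1,
          Equiv.swap_apply_of_ne_of_ne hx0 hx2, Equiv.swap_apply_of_ne_of_ne hx1 hx0]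

end gam

section stab
variable {ι : Type*} [DecidableEq ι] [Fintype ι]

/-- the other points -/
abbrev Kp (a b : ι) := {x : ι // x ≠ a ∧ x ≠ b}

/-- `-1 ↦ (a b)` -/
def esw (a b : ι) (hab : a ≠ b) : ℤˣ →* Equiv.Perm ι where
  toFun u := if u = 1 then 1 else Equiv.swap a b
  map_one' := by simp
  map_mul' u v := by
    rcases Int.units_eq_one_or u with rfl | rfl <;> rcases Int.units_eq_one_or v with rfl | rfl <;> simp

theorem esw_one (a b : ι) (hab : a ≠ b) : esw a b hab 1 = 1 := map_one _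

theorem esw_neg (a b : ι) (hab : a ≠ b) : esw a b hab (-1) = Equiv.swap a b := by
  change (if (-1 : ℤˣ) = 1 then 1 else Equiv.swap a b) = _
  rw [if_neg (by decide)]

theorem sign_esw (a b : ι) (hab : a ≠ b) (u : ℤˣ) : Equiv.Perm.sign (esw a b hab u) = u := by
  rcases Int.units_eq_one_or u with rfl | rfl
  · rw [esw_one, map_one]
  · rw [esw_neg, Equiv.Perm.sign_swap hab]

theorem esw_comm (a b : ι) (hab : a ≠ b) (u : ℤˣ) (p : Equiv.Perm (Kp a b)) :
    Commute (esw a b hab u) (Equiv.Perm.ofSubtype p) := by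
  rcases Int.units_eq_one_or u with rfl | rfl
  · rw [esw_one]; exact Commute.one_left _
  · rw [esw_neg]
    have ha : Equiv.Perm.ofSubtype p a = a := Equiv.Perm.ofSubtype_apply_of_not_mem p (by simp)
    have hb : Equiv.Perm.ofSubtype p b = b := Equiv.Perm.ofSubtype_apply_of_not_mem p (by simp)
    have e := Equiv.swap_apply_apply (Equiv.Perm.ofSubtype p) a b
    rw [ha, hb] at e
    change _ * _ = _ * _
    nth_rewrite 1 [e]
    group

/-- even permutations stabilizing `{a, b}` -/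
def FF (a b : ι) (hab : a ≠ b) : Equiv.Perm (Kp a b) →* alternatingGroup ι where
  toFun p := ⟨esw a b hab (Equiv.Perm.sign p) * Equiv.Perm.ofSubtype p, by
    rw [Equiv.Perm.mem_alternatingGroup, map_mul, sign_esw, Equiv.Perm.sign_ofSubtype]
    rcases Int.units_eq_one_or (Equiv.Perm.sign p) with h | h <;> rw [h] <;> rfl⟩
  map_one' := by
    apply Subtype.ext
    change esw a b hab (Equiv.Perm.sign 1) * Equiv.Perm.ofSubtype 1 = 1
    rw [map_one, map_one, map_one, mul_one]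
  map_mul' p q := by
    apply Subtype.ext
    change esw a b hab (Equiv.Perm.sign (p * q)) * Equiv.Perm.ofSubtype (p * q) =
      (esw a b hab (Equiv.Perm.sign p) * Equiv.Perm.ofSubtype p) *
      (esw a b hab (Equiv.Perm.sign q) * Equiv.Perm.ofSubtype q)
    rw [map_mul, map_mul, map_mul]
    have := (esw_comm a b hab (Equiv.Perm.sign q) p).eq
    calc esw a b hab (Equiv.Perm.sign p) * esw a b hab (Equiv.Perm.sign q) *
        (Equiv.Perm.ofSubtype p * Equiv.Perm.ofSubtype q)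
        = esw a b hab (Equiv.Perm.sign p) * (esw a b hab (Equiv.Perm.sign q) * Equiv.Perm.ofSubtype p) *
          Equiv.Perm.ofSubtype q := by group
      _ = _ := by rw [this]; group

theorem FF_coe (a b : ι) (hab : a ≠ b) (p : Equiv.Perm (Kp a b)) :
    ((FF a b hab p : alternatingGroup ι) : Equiv.Perm ι) =
      esw a b hab (Equiv.Perm.sign p) * Equiv.Perm.ofSubtype p := rfl

theorem FF_apply (a b : ι) (hab : a ≠ b) (p : Equiv.Perm (Kp a b)) {x : ι} (ha : x ≠ a) (hb : x ≠ b) :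
    ((FF a b hab p : alternatingGroup ι) : Equiv.Perm ι) x = p ⟨x, ha, hb⟩ := by
  rw [FF_coe, Equiv.Perm.mul_apply]
  have h1 : Equiv.Perm.ofSubtype p x = p ⟨x, ha, hb⟩ :=
    Equiv.Perm.ofSubtype_apply_of_mem p (show x ≠ a ∧ x ≠ b from ⟨ha, hb⟩)
  rw [h1]
  rcases Int.units_eq_one_or (Equiv.Perm.sign p) with h | h
  · rw [h, esw_one]; rfl
  · rw [h, esw_neg, Equiv.swap_apply_of_ne_of_ne (p ⟨x, ha, hb⟩).2.1 (p ⟨x, ha, hb⟩).2.2]

theorem FF_pos (a b : ι) (hab : a ≠ b) (p : Equiv.Perm (Kp a b)) (h : Equiv.Perm.sign p = 1) :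
    ((FF a b hab p : alternatingGroup ι) : Equiv.Perm ι) a = a ∧
    ((FF a b hab p : alternatingGroup ι) : Equiv.Perm ι) b = b := by
  rw [FF_coe, h, esw_one, one_mul]
  exact ⟨Equiv.Perm.ofSubtype_apply_of_not_mem p (by simp), Equiv.Perm.ofSubtype_apply_of_not_mem p (by simp)⟩

theorem FF_neg (a b : ι) (hab : a ≠ b) (p : Equiv.Perm (Kp a b)) (h : Equiv.Perm.sign p = -1) :
    ((FF a b hab p : alternatingGroup ι) : Equiv.Perm ι) a = b ∧
    ((FF a b hab p : alternatingGroup ι) : Equiv.Perm ι) b = a := by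
  rw [FF_coe, h, esw_neg, Equiv.Perm.mul_apply, Equiv.Perm.mul_apply,
    Equiv.Perm.ofSubtype_apply_of_not_mem p (by simp : ¬ (a ≠ a ∧ a ≠ b)),
    Equiv.Perm.ofSubtype_apply_of_not_mem p (by simp : ¬ (b ≠ a ∧ b ≠ b)), Equiv.swap_apply_left,
    Equiv.swap_apply_right]
  exact ⟨rfl, rfl⟩

theorem exists_FF (a b : ι) (hab : a ≠ b) (g : alternatingGroup ι) (ha : (g : Equiv.Perm ι) a = a)
    (hb : (g : Equiv.Perm ι) b = b) : ∃ p, FF a b hab p = g := by
  have h1 : ∀ x : ι, ((g : Equiv.Perm ι) x ≠ a ∧ (g : Equiv.Perm ι) x ≠ b) ↔ (x ≠ a ∧ x ≠ b) := by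
    intro x
    have e1 : (g : Equiv.Perm ι) x = a ↔ x = a := by
      nth_rewrite 1 [← ha]; exact (g : Equiv.Perm ι).injective.eq_iff
    have e2 : (g : Equiv.Perm ι) x = b ↔ x = b := by
      nth_rewrite 1 [← hb]; exact (g : Equiv.Perm ι).injective.eq_iff
    rw [ne_eq, ne_eq, ne_eq, ne_eq, e1, e2]
  let p : Equiv.Perm (Kp a b) := Equiv.Perm.subtypePerm (p := fun x => x ≠ a ∧ x ≠ b) (g : Equiv.Perm ι) h1
  have h2 : Equiv.Perm.ofSubtype p = (g : Equiv.Perm ι) := by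
    apply Equiv.Perm.ofSubtype_subtypePerm
    intro x hx
    refine ⟨?_, ?_⟩
    · rintro rfl; exact hx ha
    · rintro rfl; exact hx hb
  refine ⟨p, ?_⟩
  apply Subtype.ext
  have h3 : Equiv.Perm.sign p = 1 := by
    rw [← Equiv.Perm.sign_ofSubtype, h2]; exact g.2
  rw [FF_coe, h3, esw_one, one_mul, h2]

end stab

section glue
variable {F : Type v} [Field F] {ι : Type*} [DecidableEq ι] [Fintype ι] {Γ : Type*} [Group Γ]

/-- elements of the alternating group acting correctly on the two root groups -/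
def NN (ρ : Matrix.SpecialLinearGroup (Fin 3) F →* Γ) (θ : alternatingGroup ι →* Γ) (a b : ι) :
    Subgroup (alternatingGroup ι) where
  carrier := {g | ((g : Equiv.Perm ι) a = a ∧ (g : Equiv.Perm ι) b = b ∧ ∀ s,
      θ g * ρ (tv3 0 1 (by decide) s) * (θ g)⁻¹ = ρ (tv3 0 1 (by decide) s) ∧
      θ g * ρ (tv3 1 0 (by decide) s) * (θ g)⁻¹ = ρ (tv3 1 0 (by decide) s)) ∨
    ((g : Equiv.Perm ι) a = b ∧ (g : Equiv.Perm ι) b = a ∧ ∀ s,
      θ g * ρ (tv3 0 1 (by decide) s) * (θ g)⁻¹ = ρ (tv3 1 0 (by decide) s) ∧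
      θ g * ρ (tv3 1 0 (by decide) s) * (θ g)⁻¹ = ρ (tv3 0 1 (by decide) s))}
  one_mem' := by
    left
    refine ⟨rfl, rfl, fun s => ?_⟩
    rw [map_one]
    simp
  mul_mem' := by
    intro g h hg hh
    have e : ∀ x : Γ, θ (g * h) * x * (θ (g * h))⁻¹ = θ g * (θ h * x * (θ h)⁻¹) * (θ g)⁻¹ := by
      intro x; rw [map_mul]; group
    rcases hg with ⟨g1, g2, g3⟩ | ⟨g1, g2, g3⟩ <;> rcases hh with ⟨h1, h2, h3⟩ | ⟨h1, h2, h3⟩
    · left
      refine ⟨?_, ?_, fun s => ⟨?_, ?_⟩⟩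
      · change (g : Equiv.Perm ι) ((h : Equiv.Perm ι) a) = a; rw [h1, g1]
      · change (g : Equiv.Perm ι) ((h : Equiv.Perm ι) b) = b; rw [h2, g2]
      · rw [e, (h3 s).1, (g3 s).1]
      · rw [e, (h3 s).2, (g3 s).2]
    · right
      refine ⟨?_, ?_, fun s => ⟨?_, ?_⟩⟩
      · change (g : Equiv.Perm ι) ((h : Equiv.Perm ι) a) = b; rw [h1, g2]
      · change (g : Equiv.Perm ι) ((h : Equiv.Perm ι) b) = a; rw [h2, g1]
      · rw [e, (h3 s).1, (g3 s).2]
      · rw [e, (h3 s).2, (g3 s).1]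
    · right
      refine ⟨?_, ?_, fun s => ⟨?_, ?_⟩⟩
      · change (g : Equiv.Perm ι) ((h : Equiv.Perm ι) a) = b; rw [h1, g1]
      · change (g : Equiv.Perm ι) ((h : Equiv.Perm ι) b) = a; rw [h2, g2]
      · rw [e, (h3 s).1, (g3 s).1]
      · rw [e, (h3 s).2, (g3 s).2]
    · left
      refine ⟨?_, ?_, fun s => ⟨?_, ?_⟩⟩
      · change (g : Equiv.Perm ι) ((h : Equiv.Perm ι) a) = a; rw [h1, g2]
      · change (g : Equiv.Perm ι) ((h : Equiv.Perm ι) b) = b; rw [h2, g1]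
      · rw [e, (h3 s).1, (g3 s).2]
      · rw [e, (h3 s).2, (g3 s).1]
  inv_mem' := by
    intro g hg
    have e : ∀ x y : Γ, θ g * x * (θ g)⁻¹ = y → θ (g⁻¹) * y * (θ (g⁻¹))⁻¹ = x := by
      intro x y h; rw [← h, map_inv]; group
    rcases hg with ⟨g1, g2, g3⟩ | ⟨g1, g2, g3⟩
    · left
      refine ⟨?_, ?_, fun s => ⟨e _ _ (g3 s).1, e _ _ (g3 s).2⟩⟩
      · change (g : Equiv.Perm ι)⁻¹ a = a
        rw [Equiv.Perm.inv_eq_iff_eq, g1]
      · change (g : Equiv.Perm ι)⁻¹ b = b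
        rw [Equiv.Perm.inv_eq_iff_eq, g2]
    · right
      refine ⟨?_, ?_, fun s => ⟨e _ _ (g3 s).2, e _ _ (g3 s).1⟩⟩
      · change (g : Equiv.Perm ι)⁻¹ a = b
        rw [Equiv.Perm.inv_eq_iff_eq, g2]
      · change (g : Equiv.Perm ι)⁻¹ b = a
        rw [Equiv.Perm.inv_eq_iff_eq, g1]

/-- the gluing conditions from generators of the stabilizer -/
theorem GL3_of_NN {ρ : Matrix.SpecialLinearGroup (Fin 3) F →* Γ} {θ : alternatingGroup ι →* Γ} {j : Fin 3 → ι}
    (hj : Function.Injective j) (hcard : 4 ≤ Fintype.card ι) (hcyc : ρ cp = θ (gam j hj)) (hab : j 0 ≠ j 1)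
    (htop : (NN ρ θ (j 0) (j 1)).comap (FF (j 0) (j 1) hab) = ⊤)
    (τ : alternatingGroup ι) (hτ : τ ∈ NN ρ θ (j 0) (j 1)) (hτ0 : (τ : Equiv.Perm ι) (j 0) = j 1) :
    GL3 ρ θ j hj := by
  refine ⟨hcard, hcyc, ?_, ?_⟩
  · intro g h0 h1 s
    obtain ⟨p, rfl⟩ := exists_FF _ _ hab g h0 h1
    have hp : p ∈ (NN ρ θ (j 0) (j 1)).comap (FF (j 0) (j 1) hab) := by rw [htop]; trivial
    rcases hp with ⟨_, _, h3⟩ | ⟨h2, _, _⟩
    · exact mul_inv_eq_iff_eq_mul.1 (h3 s).1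
    · rw [h0] at h2; exact absurd h2 hab
  · rcases hτ with ⟨h2, _, _⟩ | ⟨h2, h3, h4⟩
    · rw [hτ0] at h2; exact absurd h2.symm hab
    · exact ⟨τ, h2, h3, fun s => (h4 s).1⟩

/-- `τ` of order two acting on the root groups through `u` and `h` -/
theorem tau_mem [Fintype F] {ζ : Fˣ} (hζ : IsGen ζ) {ρ : Matrix.SpecialLinearGroup (Fin 3) F →* Γ}
    {θ : alternatingGroup ι →* Γ} {a b : ι} {τ : alternatingGroup ι} (ha : (τ : Equiv.Perm ι) a = b)
    (hb : (τ : Equiv.Perm ι) b = a) (hτ2 : τ * τ = 1)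
    (h1 : θ τ * ρ (tv3 0 1 (by decide) 1) * (θ τ)⁻¹ = ρ (tv3 1 0 (by decide) 1))
    (h2 : θ τ * ρ (hm3 ζ) * (θ τ)⁻¹ = ρ (hm3 ζ)⁻¹) : τ ∈ NN ρ θ a b := by
  right
  have hx : ∀ s : F, θ τ * ρ (tv3 0 1 (by decide) s) * (θ τ)⁻¹ = ρ (tv3 1 0 (by decide) s) := by
    classical
    intro s
    obtain ⟨p, hpc⟩ := CharP.exists F
    have hp : Fact p.Prime := ⟨CharP.char_is_prime F p⟩
    let _ : Algebra (ZMod p) F := ZMod.algebra F p
    have e01 : ∀ a b : F, tv3 0 1 (by decide) (a + b) = tv3 0 1 (by decide) a * tv3 0 1 (by decide) b := em_add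
    have e10 : ∀ a b : F, tv3 1 0 (by decide) (a + b) = tv3 1 0 (by decide) a * tv3 1 0 (by decide) b := by
      intro a b
      apply slext3
      rw [Matrix.SpecialLinearGroup.coe_mul, tv_coe, tv_coe, tv_coe, tv10, tv10, tv10]
      mat3
    have z01 : tv3 0 1 (by decide) (0 : F) = 1 := em_zero
    have z10 : tv3 1 0 (by decide) (0 : F) = 1 := by
      have := e10 0 0
      rw [add_zero] at this
      exact mul_eq_left.1 this.symm
    have c01 : ∀ s : F, hm3 ζ * tv3 0 1 (by decide) s * (hm3 ζ)⁻¹ = tv3 0 1 (by decide) ((ζ : F) ^ 2 * s) :=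
      hm3_em ζ
    have c10 : ∀ s : F, (hm3 ζ)⁻¹ * tv3 1 0 (by decide) s * hm3 ζ = tv3 1 0 (by decide) ((ζ : F) ^ 2 * s) := by
      intro s
      rw [mul_assoc, inv_mul_eq_iff_eq_mul]
      apply slext3
      simp only [Matrix.SpecialLinearGroup.coe_mul]
      rw [tv_coe, tv_coe, hm3_coe, tv10, tv10]
      have hζ0 := ζ.ne_zero
      mat3
      field_simp
    obtain ⟨f, hf⟩ := gen_adjoin_sq (p := p) hζ s
    rw [← hf]
    apply span_ind (P := fun s => θ τ * ρ (tv3 0 1 (by decide) s) * (θ τ)⁻¹ = ρ (tv3 1 0 (by decide) s))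
    · rw [z01, z10, map_one]; simp
    · intro x y hx hy
      rw [e01, e10, map_mul, map_mul, ← hx, ← hy]; group
    · intro n
      rw [pow_one]
      induction n with
      | zero => rw [pow_zero]; exact h1
      | succ n ih =>
        rw [pow_succ', ← c01, ← c10]
        simp only [map_mul, map_inv]
        rw [map_inv] at h2
        have e3 : θ τ * (ρ (hm3 ζ))⁻¹ * (θ τ)⁻¹ = ρ (hm3 ζ) := by
          have : θ τ * (ρ (hm3 ζ))⁻¹ * (θ τ)⁻¹ = (θ τ * ρ (hm3 ζ) * (θ τ)⁻¹)⁻¹ := by group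
          rw [this, h2, inv_inv]
        calc θ τ * (ρ (hm3 ζ) * ρ (tv3 0 1 (by decide) (((ζ : F) ^ 2) ^ n)) * (ρ (hm3 ζ))⁻¹) * (θ τ)⁻¹
            = (θ τ * ρ (hm3 ζ) * (θ τ)⁻¹) * (θ τ * ρ (tv3 0 1 (by decide) (((ζ : F) ^ 2) ^ n)) * (θ τ)⁻¹) *
              (θ τ * (ρ (hm3 ζ))⁻¹ * (θ τ)⁻¹) := by group
          _ = _ := by rw [h2, ih, e3]
  refine ⟨ha, hb, fun s => ⟨hx s, ?_⟩⟩
  rw [← hx s]
  have e : θ τ * θ τ = 1 := by rw [← map_mul, hτ2, map_one]
  calc θ τ * (θ τ * ρ (tv3 0 1 (by decide) s) * (θ τ)⁻¹) * (θ τ)⁻¹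
      = (θ τ * θ τ) * ρ (tv3 0 1 (by decide) s) * (θ τ * θ τ)⁻¹ := by group
    _ = _ := by rw [e]; group

/-- the same for four elements -/
theorem tau_mem_four [Fintype F] [CharP F 2] {ζ : Fˣ} (hζ : IsGen ζ) (hq : Fintype.card F = 4)
    {ρ : Matrix.SpecialLinearGroup (Fin 3) F →* Γ}
    {θ : alternatingGroup ι →* Γ} {a b : ι} {τ : alternatingGroup ι} (ha : (τ : Equiv.Perm ι) a = b)
    (hb : (τ : Equiv.Perm ι) b = a) (hτ2 : τ * τ = 1)
    (h1 : θ τ * ρ (e23 (g4 ζ)) * (θ τ)⁻¹ = ρ (e23 (tm * g4 ζ * tm⁻¹))) : τ ∈ NN ρ θ a b := by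
  right
  have e : θ τ * θ τ = 1 := by rw [← map_mul, hτ2, map_one]
  have htt : (tm : Matrix.SpecialLinearGroup (Fin 2) F) * tm = 1 := by
    rw [tm_sq]
    have : (-1 : Fˣ) = 1 := by
      ext
      rw [Units.val_neg, Units.val_one]
      exact CharTwo.neg_eq _
    rw [this, hm_one]
  have hsq : ∀ x y : Γ, θ τ * x * (θ τ)⁻¹ = y → θ τ * y * (θ τ)⁻¹ = x := by
    intro x y h
    rw [← h]
    calc θ τ * (θ τ * x * (θ τ)⁻¹) * (θ τ)⁻¹ = (θ τ * θ τ) * x * (θ τ * θ τ)⁻¹ := by group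
      _ = _ := by rw [e]; group
  have hcon : ∀ A : Matrix.SpecialLinearGroup (Fin 2) F, tm * (tm * A * tm⁻¹) * tm⁻¹ = A := by
    intro A
    calc tm * (tm * A * tm⁻¹) * tm⁻¹ = (tm * tm) * A * (tm * tm)⁻¹ := by group
      _ = A := by rw [htt]; group
  let S : Subgroup (Matrix.SpecialLinearGroup (Fin 2) F) :=
    MonoidHom.eqLocus ((MulAut.conj (θ τ)).toMonoidHom.comp (ρ.comp e23))
      ((ρ.comp e23).comp (MulAut.conj tm).toMonoidHom)
  have hS : S = ⊤ := by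
    rw [eq_top_iff, ← closure_g4 hζ hq, closure_le]
    rintro _ (rfl | rfl)
    · exact h1
    · change θ τ * ρ (e23 (tm * g4 ζ * tm⁻¹)) * (θ τ)⁻¹ = ρ (e23 (tm * (tm * g4 ζ * tm⁻¹) * tm⁻¹))
      rw [hcon]
      exact hsq _ _ h1
  have hall : ∀ A, θ τ * ρ (e23 A) * (θ τ)⁻¹ = ρ (e23 (tm * A * tm⁻¹)) := by
    intro A
    have : A ∈ S := by rw [hS]; trivial
    exact this
  have hx : ∀ s : F, θ τ * ρ (tv3 0 1 (by decide) s) * (θ τ)⁻¹ = ρ (tv3 1 0 (by decide) s) := by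
    intro s
    have h3 := hall (xm s)
    have e1 : e23 (xm s) = tv3 0 1 (by decide) s := e23_xm s
    have e2 : e23 (tm * xm s * tm⁻¹) = tv3 1 0 (by decide) s := by
      rw [map_mul, map_mul, map_inv, e23_tm, e23_xm]
      have := Yem10 (F := F) s
      rw [CharTwo.neg_eq] at this
      exact this
    rw [e1, e2] at h3
    exact h3
  exact ⟨ha, hb, fun s => ⟨hx s, hsq _ _ (hx s)⟩⟩

/-- conjugation by the transposition matrix -/
def phi (u : ℤˣ) : Matrix.SpecialLinearGroup (Fin 3) F ≃* Matrix.SpecialLinearGroup (Fin 3) F :=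
  if u = 1 then MulEquiv.refl _ else reSL (Equiv.swap 0 1)

theorem phi_one : phi (F := F) 1 = MulEquiv.refl _ := if_pos rfl
theorem phi_neg : phi (F := F) (-1) = reSL (Equiv.swap 0 1) := if_neg (by decide)

theorem reSL_cp : reSL (Equiv.swap 0 1) (cp : Matrix.SpecialLinearGroup (Fin 3) F) = cp⁻¹ := by
  rw [eq_inv_iff_mul_eq_one]
  apply slext3
  rw [Matrix.SpecialLinearGroup.coe_mul, reSL_coe, cp_coe, Matrix.SpecialLinearGroup.coe_one]
  ext i j
  fin_cases i <;> fin_cases j <;> simp [Matrix.mul_apply, Fin.sum_univ_three, Equiv.swap_apply_def]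

/-- the element `σ` -/
theorem sigma_mem {ρ : Matrix.SpecialLinearGroup (Fin 3) F →* Γ} {θ : alternatingGroup ι →* Γ} {j : Fin 3 → ι}
    (hj : Function.Injective j) (hcyc : ρ cp = θ (gam j hj)) (hab : j 0 ≠ j 1) (p : Equiv.Perm (Kp (j 0) (j 1)))
    (hp2 : ((FF (j 0) (j 1) hab p : alternatingGroup ι) : Equiv.Perm ι) (j 2) = j 2)
    (x : Matrix.SpecialLinearGroup (Fin 3) F) (hx : closure {x, cp} = ⊤)
    (h1 : θ (FF (j 0) (j 1) hab p) * ρ x * (θ (FF (j 0) (j 1) hab p))⁻¹ = ρ (phi (Equiv.Perm.sign p) x)) :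
    FF (j 0) (j 1) hab p ∈ NN ρ θ (j 0) (j 1) := by
  set σ := FF (j 0) (j 1) hab p with hσ
  let S : Subgroup (Matrix.SpecialLinearGroup (Fin 3) F) :=
    MonoidHom.eqLocus ((MulAut.conj (θ σ)).toMonoidHom.comp ρ) (ρ.comp (phi (Equiv.Perm.sign p)).toMonoidHom)
  have hcp : cp ∈ S := by
    change θ σ * ρ cp * (θ σ)⁻¹ = ρ (phi (Equiv.Perm.sign p) cp)
    rcases Int.units_eq_one_or (Equiv.Perm.sign p) with h | h
    · obtain ⟨f1, f2⟩ := FF_pos _ _ hab p h
      rw [h, phi_one, hcyc, ← map_inv, ← map_mul, ← map_mul, conj_gam σ hj j hj (by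
        intro k
        fin_cases k
        · exact f1
        · exact f2
        · exact hp2), ← hcyc]
      rfl
    · obtain ⟨f1, f2⟩ := FF_neg _ _ hab p h
      have hv : Function.Injective ![j 1, j 0, j 2] :=
        inj3 hab.symm (fun h => absurd (hj h) (by decide)) (fun h => absurd (hj h) (by decide))
      rw [h, phi_neg, reSL_cp, map_inv, hcyc, ← map_inv, ← map_mul, ← map_mul, conj_gam σ hj _ hv (by
        intro k
        fin_cases k
        · exact f1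
        · exact f2
        · exact hp2), gam_swap j hj, map_inv]
  have hS : S = ⊤ := by
    rw [eq_top_iff, ← hx, closure_le]
    rintro _ (rfl | rfl)
    · exact h1
    · exact hcp
  have hall : ∀ A, θ σ * ρ A * (θ σ)⁻¹ = ρ (phi (Equiv.Perm.sign p) A) := by
    intro A
    have : A ∈ S := by rw [hS]; trivial
    exact this
  rcases Int.units_eq_one_or (Equiv.Perm.sign p) with h | h
  · obtain ⟨f1, f2⟩ := FF_pos _ _ hab p h
    left
    refine ⟨f1, f2, fun s => ⟨?_, ?_⟩⟩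
    · rw [hall, h, phi_one]; rfl
    · rw [hall, h, phi_one]; rfl
  · obtain ⟨f1, f2⟩ := FF_neg _ _ hab p h
    right
    refine ⟨f1, f2, fun s => ⟨?_, ?_⟩⟩
    · rw [hall, h, phi_neg, reSL_tv (Equiv.swap 0 1) (i := (0 : Fin 3)) (j := 1) (by decide) (by decide)]
      rfl
    · rw [hall, h, phi_neg, reSL_tv (Equiv.swap 0 1) (i := (1 : Fin 3)) (j := 0) (by decide) (by decide)]
      rfl

end glue

end Cfsg.Agent.GK
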