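import Cfsg.Agent.GK.SLnP

/-!
`SL₃(F)` is generated by the cyclic permutation matrix and one more element.
-/

set_option autoImplicit false

namespace Cfsg.Agent.GK

open Subgroup Polynomial

universe v

section top
variable {F : Type v} [Field F]

theorem cp20 (s : F) : cp * tv3 2 0 (by decide) s * cp⁻¹ = tv3 0 1 (by decide) s := by
  rw [mul_inv_eq_iff_eq_mul]
  apply slext3
  simp only [Matrix.SpecialLinearGroup.coe_mul]
  rw [tv_coe, tv_coe, cp_coe, tv20, tv01]
  mat3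

theorem cp02 (s : F) : cp * tv3 0 2 (by decide) s * cp⁻¹ = tv3 1 0 (by decide) s := by
  rw [mul_inv_eq_iff_eq_mul]
  apply slext3
  simp only [Matrix.SpecialLinearGroup.coe_mul]
  rw [tv_coe, tv_coe, cp_coe, tv02, tv10]
  mat3

theorem comm3 {i k l : Fin 3} (hik : i ≠ k) (hkl : k ≠ l) (hil : i ≠ l) (s r : F) :
    tv3 i l hil (s * r) = tv3 i k hik s * tv3 k l hkl r * (tv3 i k hik s)⁻¹ * (tv3 k l hkl r)⁻¹ := by
  rw [eq_mul_inv_iff_mul_eq, eq_mul_inv_iff_mul_eq]
  apply slext3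
  simp only [Matrix.SpecialLinearGroup.coe_mul]
  rw [tv_coe, tv_coe, tv_coe]
  fin_cases i <;> fin_cases k <;> fin_cases l <;>
    simp only [ne_eq, not_true_eq_false] at hik hkl hil
  all_goals
    ext a b
    fin_cases a <;> fin_cases b <;> simp [Matrix.mul_apply, Fin.sum_univ_three, Matrix.transvection,
      Matrix.single_apply, Matrix.one_apply]

theorem top_of_tv01 (K : Subgroup (Matrix.SpecialLinearGroup (Fin 3) F)) (hc : cp ∈ K)
    (h : ∀ s, tv3 0 1 (by decide) s ∈ K) : K = ⊤ := by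
  have h12 : ∀ s : F, tv3 1 2 (by decide) s ∈ K := fun s => by
    rw [← cp01]; exact mul_mem (mul_mem hc (h s)) (inv_mem hc)
  have h20 : ∀ s : F, tv3 2 0 (by decide) s ∈ K := fun s => by
    rw [← cp12]; exact mul_mem (mul_mem hc (h12 s)) (inv_mem hc)
  have h02 : ∀ s : F, tv3 0 2 (by decide) s ∈ K := fun s => by
    rw [← mul_one s, comm3 (show (0 : Fin 3) ≠ 1 by decide) (show (1 : Fin 3) ≠ 2 by decide)]
    exact mul_mem (mul_mem (mul_mem (h _) (h12 _)) (inv_mem (h _))) (inv_mem (h12 _))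
  have h10 : ∀ s : F, tv3 1 0 (by decide) s ∈ K := fun s => by
    rw [← cp02]; exact mul_mem (mul_mem hc (h02 s)) (inv_mem hc)
  have h21 : ∀ s : F, tv3 2 1 (by decide) s ∈ K := fun s => by
    rw [← cp10]; exact mul_mem (mul_mem hc (h10 s)) (inv_mem hc)
  apply H40.sl_eq_top_of_transvections
  intro a b hab t
  fin_cases a <;> fin_cases b <;> simp only [ne_eq, not_true_eq_false] at hab
  · exact h t
  · exact h02 t
  · exact h10 t
  · exact h12 t
  · exact h20 t
  · exact h21 t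

theorem top_of_tv02 (K : Subgroup (Matrix.SpecialLinearGroup (Fin 3) F)) (hc : cp ∈ K)
    (h : ∀ s, tv3 0 2 (by decide) s ∈ K) : K = ⊤ := by
  apply top_of_tv01 K hc
  intro s
  have h10 : ∀ s : F, tv3 1 0 (by decide) s ∈ K := fun s => by
    rw [← cp02]; exact mul_mem (mul_mem hc (h s)) (inv_mem hc)
  have h21 : ∀ s : F, tv3 2 1 (by decide) s ∈ K := fun s => by
    rw [← cp10]; exact mul_mem (mul_mem hc (h10 s)) (inv_mem hc)
  rw [← mul_one s, comm3 (show (0 : Fin 3) ≠ 2 by decide) (show (2 : Fin 3) ≠ 1 by decide)]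
  exact mul_mem (mul_mem (mul_mem (h _) (h21 _)) (inv_mem (h _))) (inv_mem (h21 _))

/-- `diag(a, a, a⁻²)` -/
def dm3 (a : Fˣ) : Matrix.SpecialLinearGroup (Fin 3) F :=
  ⟨!![(a : F), 0, 0; 0, (a : F), 0; 0, 0, ((a⁻¹ : Fˣ) : F) ^ 2], by
    rw [Matrix.det_fin_three]
    have ha := a.ne_zero
    simp
    field_simp⟩

theorem dm3_coe (a : Fˣ) : ((dm3 a : Matrix.SpecialLinearGroup (Fin 3) F) : Matrix (Fin 3) (Fin 3) F) =
    !![(a : F), 0, 0; 0, (a : F), 0; 0, 0, ((a⁻¹ : Fˣ) : F) ^ 2] := rfl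

theorem dm3_mul (a b : Fˣ) : dm3 (a * b) = dm3 a * dm3 b := by
  apply slext3
  rw [Matrix.SpecialLinearGroup.coe_mul, dm3_coe, dm3_coe, dm3_coe]
  mat3
  ring

theorem dm3_pow (a : Fˣ) (n : ℕ) : dm3 a ^ n = dm3 (a ^ n) :=
  (map_pow (MonoidHom.mk' dm3 dm3_mul) a n).symm

theorem dm3_one : dm3 (1 : Fˣ) = (1 : Matrix.SpecialLinearGroup (Fin 3) F) := map_one (MonoidHom.mk' dm3 dm3_mul)

theorem dm3_comm (a : Fˣ) (s : F) : Commute (em s) (dm3 a) := by
  change em s * dm3 a = dm3 a * em s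
  apply slext3
  rw [Matrix.SpecialLinearGroup.coe_mul, Matrix.SpecialLinearGroup.coe_mul, em_coe, dm3_coe]
  mat3
  exact mul_comm _ _

theorem dm3_act (a : Fˣ) (s : F) : (cp * dm3 a * cp⁻¹)⁻¹ * em s * (cp * dm3 a * cp⁻¹) = em ((a : F) ^ 3 * s) := by
  have ha := a.ne_zero
  let E : Matrix.SpecialLinearGroup (Fin 3) F := ⟨!![((a⁻¹ : Fˣ) : F) ^ 2, 0, 0; 0, (a : F), 0; 0, 0, (a : F)], by
    rw [Matrix.det_fin_three]
    simp
    field_simp⟩
  have hE : (E : Matrix (Fin 3) (Fin 3) F) = !![((a⁻¹ : Fˣ) : F) ^ 2, 0, 0; 0, (a : F), 0; 0, 0, (a : F)] := rfl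
  have h1 : cp * dm3 a * cp⁻¹ = E := by
    rw [mul_inv_eq_iff_eq_mul]
    apply slext3
    rw [Matrix.SpecialLinearGroup.coe_mul, Matrix.SpecialLinearGroup.coe_mul, cp_coe, dm3_coe, hE]
    mat3
  rw [h1, mul_assoc, inv_mul_eq_iff_eq_mul]
  apply slext3
  rw [Matrix.SpecialLinearGroup.coe_mul, Matrix.SpecialLinearGroup.coe_mul, em_coe, em_coe, hE]
  mat3
  field_simp

variable [Fintype F]

theorem exists_x_ne4 {ζ : Fˣ} (hζ : IsGen ζ) (h4 : Fintype.card F ≠ 4) :
    Subgroup.closure {em 1 * dm3 ζ, cp} = (⊤ : Subgroup (Matrix.SpecialLinearGroup (Fin 3) F)) := by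
  classical
  set x : Matrix.SpecialLinearGroup (Fin 3) F := em 1 * dm3 ζ with hx
  set K := closure {x, cp} with hK
  have mx : x ∈ K := Subgroup.subset_closure (Or.inl rfl)
  have mc : cp ∈ K := Subgroup.subset_closure (Or.inr rfl)
  have hord : ζ ^ (Fintype.card F - 1) = 1 := by rw [← hζ.orderOf]; exact pow_orderOf_eq_one ζ
  have hempow : ∀ n : ℕ, em (1 : F) ^ n = em (n : F) := by
    intro n
    induction n with
    | zero => simp [em_zero]
    | succ n ih => rw [pow_succ, ih, ← em_add]; push_cast; rfl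
  have h1 : x ^ (Fintype.card F - 1) = em (-1) := by
    rw [hx, (dm3_comm ζ 1).mul_pow, dm3_pow, hord, dm3_one, mul_one, hempow]
    congr 1
    have h2 : ((Fintype.card F - 1 : ℕ) : F) + 1 = 0 := by
      have h3 : ((Fintype.card F : ℕ) : F) = 0 := FiniteField.cast_card_eq_zero F
      rw [← h3]
      have : Fintype.card F = (Fintype.card F - 1) + 1 := by
        have := Fintype.card_pos (α := F)
        omega
      rw [this]; push_cast; simp
    exact eq_neg_of_add_eq_zero_left h2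
  have me : em 1 ∈ K := by
    have h2 : em (1 : F) = (em (-1))⁻¹ := by rw [em_neg, inv_inv]
    rw [h2, ← h1]
    exact inv_mem (pow_mem mx _)
  have md : dm3 ζ ∈ K := by
    have h2 : dm3 ζ = (em 1)⁻¹ * x := by rw [hx]; group
    rw [h2]
    exact mul_mem (inv_mem me) mx
  have mE : cp * dm3 ζ * cp⁻¹ ∈ K := mul_mem (mul_mem mc md) (inv_mem mc)
  apply top_of_tv01 K mc
  intro s
  obtain ⟨p, hpc⟩ := CharP.exists F
  have hp : Fact p.Prime := ⟨CharP.char_is_prime F p⟩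
  let _ : Algebra (ZMod p) F := ZMod.algebra F p
  obtain ⟨f, hf⟩ := gen_adjoin_cube (p := p) hζ h4 s
  rw [← hf]
  apply span_ind (P := fun s => em s ∈ K)
  · rw [em_zero]; exact one_mem _
  · intro a b ha hb
    rw [em_add]; exact mul_mem ha hb
  · intro n
    induction n with
    | zero => rw [pow_zero]; exact me
    | succ n ih =>
      rw [pow_succ', ← dm3_act]
      exact mul_mem (mul_mem (inv_mem mE) ih) mE

theorem exists_x_four {ζ : Fˣ} (hζ : IsGen ζ) (hq : Fintype.card F = 4) :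
    ∃ x : Matrix.SpecialLinearGroup (Fin 3) F, closure {x, cp} = ⊤ := by
  have hc := four_char hq
  have he := four_eq hζ hq
  have h2 : (2 : F) = 0 := CharTwo.two_eq_zero
  have hneg : (-1 : F) = 1 := CharTwo.neg_eq 1
  let x : Matrix.SpecialLinearGroup (Fin 3) F := ⟨!![(ζ : F), 1, 0; 1, 0, 0; 0, 0, 1], by
    rw [Matrix.det_fin_three]
    simp
    exact hneg⟩
  have hx : (x : Matrix (Fin 3) (Fin 3) F) = !![(ζ : F), 1, 0; 1, 0, 0; 0, 0, 1] := rfl
  refine ⟨x, ?_⟩
  set K := closure {x, cp} with hK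
  have mx : x ∈ K := Subgroup.subset_closure (Or.inl rfl)
  have mc : cp ∈ K := Subgroup.subset_closure (Or.inr rfl)
  -- C x
  let B : Matrix.SpecialLinearGroup (Fin 3) F := cp⁻¹ * x
  have mB : B ∈ K := mul_mem (inv_mem mc) mx
  have hB : (B : Matrix (Fin 3) (Fin 3) F) = !![1, 0, 0; 0, 0, 1; (ζ : F), 1, 0] := by
    let B' : Matrix.SpecialLinearGroup (Fin 3) F := ⟨!![1, 0, 0; 0, 0, 1; (ζ : F), 1, 0], by
      rw [Matrix.det_fin_three]
      simp
      exact hneg⟩
    have hB' : (B' : Matrix (Fin 3) (Fin 3) F) = !![1, 0, 0; 0, 0, 1; (ζ : F), 1, 0] := rfl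
    have : cp * B' = x := by
      apply slext3
      rw [Matrix.SpecialLinearGroup.coe_mul, cp_coe, hB', hx]
      mat3
    have e : B = B' := by
      change cp⁻¹ * x = B'
      rw [← this]; group
    rw [e]
  let A : Matrix.SpecialLinearGroup (Fin 3) F := cp * x
  have mA : A ∈ K := mul_mem mc mx
  have hA : (A : Matrix (Fin 3) (Fin 3) F) = !![0, 0, 1; (ζ : F), 1, 0; 1, 0, 0] := by
    change ((cp * x : Matrix.SpecialLinearGroup (Fin 3) F) : Matrix (Fin 3) (Fin 3) F) = _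
    rw [Matrix.SpecialLinearGroup.coe_mul, cp_coe, hx]
    mat3
  have hAB : ((A * B : Matrix.SpecialLinearGroup (Fin 3) F) : Matrix (Fin 3) (Fin 3) F) =
      !![(ζ : F), 1, 0; (ζ : F), 0, 1; 1, 0, 0] := by
    rw [Matrix.SpecialLinearGroup.coe_mul, hA, hB]
    mat3
  have hAx : ((A * x : Matrix.SpecialLinearGroup (Fin 3) F) : Matrix (Fin 3) (Fin 3) F) =
      !![0, 0, 1; (ζ : F), (ζ : F), 0; (ζ : F), 1, 0] := by
    rw [Matrix.SpecialLinearGroup.coe_mul, hA, hx]
    mat3 <;> grind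
  have hxx : ((x * x : Matrix.SpecialLinearGroup (Fin 3) F) : Matrix (Fin 3) (Fin 3) F) =
      !![(ζ : F), (ζ : F), 0; (ζ : F), 1, 0; 0, 0, 1] := by
    rw [Matrix.SpecialLinearGroup.coe_mul, hx]
    mat3 <;> grind
  have e1 : (A * B) * (A * x) = (x * x) * tv3 0 2 (by decide) 1 := by
    apply slext3
    rw [Matrix.SpecialLinearGroup.coe_mul (A * B) (A * x), Matrix.SpecialLinearGroup.coe_mul (x * x), hAB, hAx, hxx,
      tv_coe, tv02]
    mat3 <;> grind
  have m1 : tv3 0 2 (by decide) (1 : F) ∈ K := by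
    have : tv3 0 2 (by decide) (1 : F) = (x * x)⁻¹ * ((A * B) * (A * x)) := by rw [e1]; group
    rw [this]
    exact mul_mem (inv_mem (mul_mem mx mx)) (mul_mem (mul_mem mA mB) (mul_mem mA mx))
  -- the second word
  let D : Matrix.SpecialLinearGroup (Fin 3) F := x * cp⁻¹
  have mD : D ∈ K := mul_mem mx (inv_mem mc)
  let M : Matrix.SpecialLinearGroup (Fin 3) F := ⟨!![1, (ζ : F), (ζ : F) + 1; 0, 1, (ζ : F); 0, 0, 1], by
      rw [Matrix.det_fin_three]
      simp⟩
  have hM : (M : Matrix (Fin 3) (Fin 3) F) = !![1, (ζ : F), (ζ : F) + 1; 0, 1, (ζ : F); 0, 0, 1] := rfl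
  have e2 : M * A * cp = x := by
    apply slext3
    rw [Matrix.SpecialLinearGroup.coe_mul, Matrix.SpecialLinearGroup.coe_mul, hM, hA, cp_coe, hx]
    mat3 <;> grind
  have mM : M ∈ K := by
    have : M = x * cp⁻¹ * A⁻¹ := by rw [← e2]; group
    rw [this]
    exact mul_mem (mul_mem mx (inv_mem mc)) (inv_mem mA)
  have e3 : tv3 0 2 (by decide) ((ζ : F) + 1) = M * M := by
    apply slext3
    rw [Matrix.SpecialLinearGroup.coe_mul, hM, tv_coe, tv02]
    mat3 <;> grind
  have tadd : ∀ a b : F, tv3 0 2 (by decide) (a + b) = tv3 0 2 (by decide) a * tv3 0 2 (by decide) b := by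
    intro a b
    apply slext3
    rw [Matrix.SpecialLinearGroup.coe_mul, tv_coe, tv_coe, tv_coe, tv02, tv02, tv02]
    mat3
    exact add_comm _ _
  apply top_of_tv02 K mc
  intro s
  refine four_ind hζ hq (P := fun s => tv3 0 2 (by decide) s ∈ K) ?_ ?_ m1 ?_ s
  · have : tv3 0 2 (by decide) (0 : F) = 1 := by
      have := tadd 0 0
      rw [add_zero] at this
      exact mul_eq_left.1 this.symm
    rw [this]; exact one_mem _
  · intro a b ha hb
    rw [tadd]; exact mul_mem ha hb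
  · have : (ζ : F) = (ζ + 1) + 1 := by grind
    rw [this, tadd, e3]
    exact mul_mem (mul_mem mM mM) m1

end top

end Cfsg.Agent.GK
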