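import Cfsg.Agent.GK.Sym

/-!
The small cases of the two-generator presentations of `S_n` and `A_n`.
-/

set_option autoImplicit false

namespace Cfsg.Agent.GK

open Subgroup Equiv ThreeTransp

/-- Coxeter relators of `S_{n+1}` for `n ≤ 3`, as a finset -/
theorem cox_pres (n : ℕ) (hn : 1 ≤ n) (hn3 : n ≤ 3) : ∃ R : Finset (FreeGroup (Fin n)), R.card ≤ 6 ∧
    IsPres (R : Set (FreeGroup (Fin n))) (fun i : Fin n => adj n i) := by
  classical
  let sq : Finset (FreeGroup (Fin n)) := Finset.univ.image fun i : Fin n => FreeGroup.of i * FreeGroup.of i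
  let cm : Finset (FreeGroup (Fin n)) := ((Finset.univ : Finset (Fin n × Fin n)).filter
    fun q => (q.1 : ℕ) + 2 ≤ q.2).image fun q => FreeGroup.of q.1 * FreeGroup.of q.2 *
      (FreeGroup.of q.2 * FreeGroup.of q.1)⁻¹
  let br : Finset (FreeGroup (Fin n)) := ((Finset.univ : Finset (Fin n × Fin n)).filter
    fun q => (q.1 : ℕ) + 1 = q.2).image fun q => FreeGroup.of q.1 * FreeGroup.of q.2 * FreeGroup.of q.1 *
      (FreeGroup.of q.2 * FreeGroup.of q.1 * FreeGroup.of q.2)⁻¹
  refine ⟨sq ∪ cm ∪ br, ?_, ?_⟩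
  · refine (Finset.card_union_le _ _).trans ?_
    have h1 := Finset.card_union_le sq cm
    have h2 : sq.card ≤ n := by
      refine Finset.card_image_le.trans ?_
      simp
    have h3 : cm.card ≤ ((Finset.univ : Finset (Fin n × Fin n)).filter
      fun q => (q.1 : ℕ) + 2 ≤ q.2).card := Finset.card_image_le
    have h4 : br.card ≤ ((Finset.univ : Finset (Fin n × Fin n)).filter
      fun q => (q.1 : ℕ) + 1 = q.2).card := Finset.card_image_le
    have h5 : ((Finset.univ : Finset (Fin n × Fin n)).filter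
        fun q => (q.1 : ℕ) + 2 ≤ q.2).card + ((Finset.univ : Finset (Fin n × Fin n)).filter
        fun q => (q.1 : ℕ) + 1 = q.2).card + n ≤ 6 := by
      interval_cases n <;> decide
    omega
  · have hA := adj_braidRel n
    apply isPres_of_hom
    · intro r hr
      rw [Finset.mem_coe, Finset.mem_union, Finset.mem_union] at hr
      rcases hr with (hr | hr) | hr
      · obtain ⟨i, -, rfl⟩ := Finset.mem_image.1 hr
        rw [map_mul, FreeGroup.lift_apply_of]
        exact hA.sq i i.2
      · obtain ⟨⟨i, j⟩, hij, rfl⟩ := Finset.mem_image.1 hr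
        simp only [map_mul, map_inv, FreeGroup.lift_apply_of]
        rw [mul_inv_eq_one]
        exact hA.comm i j (Finset.mem_filter.1 hij).2 j.2
      · obtain ⟨⟨i, j⟩, hij, rfl⟩ := Finset.mem_image.1 hr
        simp only [map_mul, map_inv, FreeGroup.lift_apply_of]
        rw [mul_inv_eq_one]
        have h1 : (i : ℕ) + 1 = j := (Finset.mem_filter.1 hij).2
        have := hA.braid i (by rw [h1]; exact j.2)
        rw [h1] at this
        exact this
    · rw [← genSub_adj n]
      unfold genSub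
      congr 1
      ext g
      constructor
      · rintro ⟨i, rfl⟩
        exact ⟨i, i.2, rfl⟩
      · rintro ⟨i, hi, rfl⟩
        exact ⟨⟨i, hi⟩, rfl⟩
    · let P := PresentedGroup ((sq ∪ cm ∪ br : Finset (FreeGroup (Fin n))) : Set (FreeGroup (Fin n)))
      let s : ℕ → P := fun i => if h : i < n then PresentedGroup.of ⟨i, h⟩ else 1
      have hs : ∀ i : Fin n, s i = PresentedGroup.of i := fun i => by
        simp only [s, dif_pos i.2]
      have hrel : ∀ w ∈ ((sq ∪ cm ∪ br : Finset (FreeGroup (Fin n))) : Set (FreeGroup (Fin n))),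
          FreeGroup.lift (fun i => (PresentedGroup.of i : P)) w = 1 := fun w hw => lift_of_rel hw
      have hb : BraidRel n s := by
        refine ⟨?_, ?_, ?_⟩
        · intro i hi
          have := hrel (FreeGroup.of ⟨i, hi⟩ * FreeGroup.of ⟨i, hi⟩) (by
            rw [Finset.mem_coe, Finset.mem_union, Finset.mem_union]
            exact Or.inl (Or.inl (Finset.mem_image.2 ⟨⟨i, hi⟩, Finset.mem_univ _, rfl⟩)))
          rw [map_mul, FreeGroup.lift_apply_of] at this
          rw [hs ⟨i, hi⟩]
          exact this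
        · intro i j hij hj
          have hi : i < n := by omega
          have := hrel (FreeGroup.of ⟨i, hi⟩ * FreeGroup.of ⟨j, hj⟩ *
              (FreeGroup.of ⟨j, hj⟩ * FreeGroup.of ⟨i, hi⟩)⁻¹) (by
            rw [Finset.mem_coe, Finset.mem_union, Finset.mem_union]
            exact Or.inl (Or.inr (Finset.mem_image.2 ⟨(⟨i, hi⟩, ⟨j, hj⟩), by simpa using hij, rfl⟩)))
          simp only [map_mul, map_inv, FreeGroup.lift_apply_of] at this
          rw [mul_inv_eq_one] at this
          rw [hs ⟨i, hi⟩, hs ⟨j, hj⟩]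
          exact this
        · intro i hi1
          have hi : i < n := by omega
          have := hrel (FreeGroup.of ⟨i, hi⟩ * FreeGroup.of ⟨i + 1, hi1⟩ * FreeGroup.of ⟨i, hi⟩ *
              (FreeGroup.of ⟨i + 1, hi1⟩ * FreeGroup.of ⟨i, hi⟩ * FreeGroup.of ⟨i + 1, hi1⟩)⁻¹) (by
            rw [Finset.mem_coe, Finset.mem_union, Finset.mem_union]
            exact Or.inr (Finset.mem_image.2 ⟨(⟨i, hi⟩, ⟨i + 1, hi1⟩), by simp, rfl⟩))
          simp only [map_mul, map_inv, FreeGroup.lift_apply_of] at this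
          rw [mul_inv_eq_one] at this
          rw [hs ⟨i, hi⟩, hs ⟨i + 1, hi1⟩]
          exact this
      obtain ⟨φ, hφ⟩ := hb.exists_hom
      exact ⟨φ, fun i => (hφ i i.2).trans (hs i)⟩

theorem small_sym (n : ℕ) (hn : 1 ≤ n) (hn3 : n ≤ 3) :
    ∃ (R : Finset (FreeGroup (Fin 2))) (x : Fin 2 → Perm (Fin (n + 1))),
    R.card ≤ 8 ∧ IsPres (R : Set (FreeGroup (Fin 2))) x := by
  obtain ⟨R, hR, hP⟩ := cox_pres n hn hn3
  obtain ⟨k, rfl⟩ : ∃ k, n = k + 1 := ⟨n - 1, by omega⟩
  have hgen : closure (Set.range (![finRotate (k + 2), swap 0 (finRotate (k + 2) 0)] :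
      Fin 2 → Perm (Fin (k + 2)))) = ⊤ := by
    rw [range2]
    exact Perm.closure_cycle_adjacent_swap isCycle_finRotate support_finRotate 0
  obtain ⟨R', hR', hP'⟩ := hP.regen (κ := Fin 2) _ hgen ∅ (fun _ => 0) (by simp) (by simp)
  refine ⟨R', _, ?_, hP'⟩
  simp at hR'
  omega

theorem carm_pres {Λ : Type*} [DecidableEq Λ] [Fintype Λ] {R : Set (FreeGroup Λ)}
    (h3 : ∀ i, FreeGroup.of i ^ 3 ∈ R) (h2 : ∀ i j, i ≠ j → (FreeGroup.of i * FreeGroup.of j) ^ 2 ∈ R)
    (hR : ∀ r ∈ R, (∃ i, r = FreeGroup.of i ^ 3) ∨ ∃ i j, i ≠ j ∧ r = (FreeGroup.of i * FreeGroup.of j) ^ 2) :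
    IsPres R (XA : Λ → alternatingGroup (Option (Option Λ))) := by
  apply isPres_of_hom
  · intro r hr
    rcases hR r hr with ⟨i, rfl⟩ | ⟨i, j, hij, rfl⟩
    · rw [map_pow, FreeGroup.lift_apply_of]
      exact Subtype.ext (X_cube i)
    · rw [map_pow, map_mul, FreeGroup.lift_apply_of, FreeGroup.lift_apply_of]
      exact Subtype.ext (X_mul_sq hij)
  · exact closure_XA
  · apply exists_hom
    · intro i
      have := lift_of_rel (h3 i)
      rwa [map_pow, FreeGroup.lift_apply_of] at this
    · intro i j hij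
      have := lift_of_rel (h2 i j hij)
      rwa [map_pow, map_mul, FreeGroup.lift_apply_of, FreeGroup.lift_apply_of] at this

theorem small_alt3 : ∃ (R : Finset (FreeGroup (Fin 2))) (x : Fin 2 → alternatingGroup (Fin 3)),
    R.card ≤ 8 ∧ IsPres (R : Set (FreeGroup (Fin 2))) x := by
  classical
  have hP : IsPres (({FreeGroup.of 0 ^ 3} : Finset (FreeGroup (Fin 1))) : Set (FreeGroup (Fin 1)))
      (XA : Fin 1 → alternatingGroup (Option (Option (Fin 1)))) := by
    apply carm_pres
    · intro i
      rw [Subsingleton.elim i 0]; simp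
    · intro i j hij
      exact absurd (Subsingleton.elim i j) hij
    · intro r hr
      left
      exact ⟨0, by simpa using hr⟩
  have hgen : closure (Set.range (![XA 0, 1] : Fin 2 → alternatingGroup (Option (Option (Fin 1))))) = ⊤ := by
    rw [eq_top_iff, ← closure_XA]
    apply Subgroup.closure_mono
    rintro _ ⟨i, rfl⟩
    exact ⟨0, by rw [Subsingleton.elim i 0]; rfl⟩
  obtain ⟨R', hR', hP'⟩ := hP.regen (κ := Fin 2) _ hgen ∅ (fun _ => 0) (by simp) (by simp)
  obtain ⟨e⟩ := exists_equiv_fin (Λ := Fin 1) (n := 3) (by simp)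
  refine ⟨R', _, ?_, hP'.map (altCongr e)⟩
  simp at hR'
  omega

theorem small_alt4 : ∃ (R : Finset (FreeGroup (Fin 2))) (x : Fin 2 → alternatingGroup (Fin 4)),
    R.card ≤ 8 ∧ IsPres (R : Set (FreeGroup (Fin 2))) x := by
  classical
  have hP : IsPres (({FreeGroup.of 0 ^ 3, FreeGroup.of 1 ^ 3, (FreeGroup.of 0 * FreeGroup.of 1) ^ 2,
      (FreeGroup.of 1 * FreeGroup.of 0) ^ 2} : Finset (FreeGroup (Fin 2))) : Set (FreeGroup (Fin 2)))
      (XA : Fin 2 → alternatingGroup (Option (Option (Fin 2)))) := by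
    apply carm_pres
    · intro i
      fin_cases i <;> simp
    · intro i j hij
      fin_cases i <;> fin_cases j <;> simp_all
    · intro r hr
      simp only [Finset.coe_insert, Finset.coe_singleton, Set.mem_insert_iff, Set.mem_singleton_iff] at hr
      rcases hr with rfl | rfl | rfl | rfl
      · exact Or.inl ⟨0, rfl⟩
      · exact Or.inl ⟨1, rfl⟩
      · exact Or.inr ⟨0, 1, by decide, rfl⟩
      · exact Or.inr ⟨1, 0, by decide, rfl⟩
  obtain ⟨e⟩ := exists_equiv_fin (Λ := Fin 2) (n := 4) (by simp)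
  refine ⟨_, _, ?_, hP.map (altCongr e)⟩
  refine (Finset.card_le_four).trans (by norm_num)

/-- two generators and eight relators for all `n` -/
theorem pres2_sym_all (n : ℕ) : ∃ (R : Finset (FreeGroup (Fin 2))) (x : Fin 2 → Perm (Fin n)),
    R.card ≤ 8 ∧ IsPres (R : Set (FreeGroup (Fin 2))) x := by
  by_cases hn : 5 ≤ n
  · exact pres2_sym n hn
  · push Not at hn
    interval_cases n
    · exact pres_trivial
    · exact pres_trivial
    · exact small_sym 1 (by norm_num) (by norm_num)
    · exact small_sym 2 (by norm_num) (by norm_num)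
    · exact small_sym 3 (by norm_num) (by norm_num)

theorem pres2_alt_all (n : ℕ) : ∃ (R : Finset (FreeGroup (Fin 2))) (x : Fin 2 → alternatingGroup (Fin n)),
    R.card ≤ 8 ∧ IsPres (R : Set (FreeGroup (Fin 2))) x := by
  by_cases hn : 5 ≤ n
  · exact pres2_alt n hn
  · push Not at hn
    interval_cases n
    · exact pres_trivial
    · exact pres_trivial
    · have : Subsingleton (alternatingGroup (Fin 2)) := by
        have h1 := two_mul_nat_card_alternatingGroup (α := Fin 2)
        rw [Nat.card_perm, Nat.card_eq_fintype_card (α := Fin 2), Fintype.card_fin] at h1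
        exact (Nat.card_eq_one_iff_unique.1 (by simpa using h1)).1
      exact pres_trivial
    · exact small_alt3
    · exact small_alt4

end Cfsg.Agent.GK
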