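import Cfsg.Agent.Stb.SpMat
import Cfsg.Agent.GK.SLnC

/-!
Relations of type `C_n` from `SL_n` and the long root `SL₂`'s: sign changes.
-/

set_option autoImplicit false

namespace Cfsg.Agent.GK

open Subgroup
open scoped commutatorElement

attribute [local instance] Stb.sumNeg

universe v

section sltv
variable {F : Type v} [Field F] {l : Type*} [Fintype l] [DecidableEq l]

/-- transvections -/
abbrev tvl {i j : l} (h : i ≠ j) (a : F) : Matrix.SpecialLinearGroup l F := Matrix.SpecialLinearGroup.transvection h a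

theorem tvl_coe {i j : l} (h : i ≠ j) (a : F) :
    ((tvl h a : Matrix.SpecialLinearGroup l F) : Matrix l l F) = Matrix.transvection i j a := rfl

theorem tvl_add {i j : l} (h : i ≠ j) (a b : F) : tvl h (a + b) = tvl h a * tvl h b := by
  apply Subtype.ext
  rw [Matrix.SpecialLinearGroup.coe_mul, tvl_coe, tvl_coe, tvl_coe, Matrix.transvection_mul_transvection_same _ _ h]

theorem tvl_zero {i j : l} (h : i ≠ j) : tvl h (0 : F) = 1 := by
  have := tvl_add h (0 : F) 0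
  rw [add_zero] at this
  exact mul_eq_left.1 this.symm

theorem tvl_neg {i j : l} (h : i ≠ j) (a : F) : tvl h (-a) = (tvl h a)⁻¹ := by
  rw [eq_inv_iff_mul_eq_one, ← tvl_add, neg_add_cancel, tvl_zero]

theorem tvl_com {i j k : l} (h : i ≠ j) (h' : j ≠ k) (h'' : i ≠ k) (a b : F) :
    ⁅tvl h a, tvl h' b⁆ = tvl h'' (a * b) := by
  apply Stb.comm_of_mul
  apply Subtype.ext
  simp only [Matrix.SpecialLinearGroup.coe_mul, tvl_coe]
  have e1 : Matrix.single i j a * Matrix.single j k b = Matrix.single i k (a * b) := Matrix.single_mul_single_same _ _ _ _ _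
  have e2 : Matrix.single j k b * Matrix.single i j a = 0 := Matrix.single_mul_single_of_ne _ _ _ _ h''.symm _
  have e3 : Matrix.single i k (a * b) * Matrix.single j k b = 0 := Matrix.single_mul_single_of_ne _ _ _ _ h'.symm _
  have e4 : Matrix.single i k (a * b) * Matrix.single i j a = 0 := Matrix.single_mul_single_of_ne _ _ _ _ h''.symm _
  simp only [Matrix.transvection, mul_add, add_mul, one_mul, mul_one, e1, e2, e3, e4, add_zero]
  abel

end sltv

section gen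
variable {F : Type v} [Field F]

/-- lower unitriangular matrices -/
def ym (s : F) : Matrix.SpecialLinearGroup (Fin 2) F := ⟨!![1, 0; s, 1], by simp [Matrix.det_fin_two_of]⟩

theorem ym_coe (s : F) : ((ym s : Matrix.SpecialLinearGroup (Fin 2) F) : Matrix (Fin 2) (Fin 2) F) = !![1, 0; s, 1] := rfl

theorem ym_add (s t : F) : ym (s + t) = ym s * ym t := by
  apply slext
  rw [Matrix.SpecialLinearGroup.coe_mul, ym_coe, ym_coe, ym_coe]
  ext i j
  fin_cases i <;> fin_cases j <;> simp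

theorem tm_xm_ym (s : F) : tm * xm s * tm⁻¹ = ym (-s) := by
  rw [mul_inv_eq_iff_eq_mul]
  apply slext
  rw [Matrix.SpecialLinearGroup.coe_mul, Matrix.SpecialLinearGroup.coe_mul, ym_coe, xm_coe, tm_coe]
  ext i j
  fin_cases i <;> fin_cases j <;> simp

theorem tm_ym_xm (s : F) : tm * ym s * tm⁻¹ = xm (-s) := by
  rw [mul_inv_eq_iff_eq_mul]
  apply slext
  rw [Matrix.SpecialLinearGroup.coe_mul, Matrix.SpecialLinearGroup.coe_mul, ym_coe, xm_coe, tm_coe]
  ext i j
  fin_cases i <;> fin_cases j <;> simp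

end gen

section sp
variable {F : Type v} [Field F] {l : Type*} [Fintype l] [DecidableEq l] {Γ : Type*} [Group Γ]

/-- absolute value of an index -/
def ab : l ⊕ l → l := Sum.elim id id

omit [Fintype l] [DecidableEq l] in
theorem ab_neg (p : l ⊕ l) : ab (-p) = ab p := by rcases p with p | p <;> rfl

omit [Fintype l] [DecidableEq l] in
theorem eq_or_neg {p q : l ⊕ l} (h : ab p = ab q) : p = q ∨ p = -q := by
  rcases p with p | p <;> rcases q with q | q
  · left; exact congrArg Sum.inl h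
  · right; exact congrArg Sum.inl h
  · right; exact congrArg Sum.inr h
  · left; exact congrArg Sum.inr h

omit [Fintype l] [DecidableEq l] in
theorem ab_ne {p q : l ⊕ l} (h1 : p ≠ q) (h2 : p ≠ -q) : ab p ≠ ab q := fun h => (eq_or_neg h).elim h1 h2

/-- root elements -/
def yg (ρ : Matrix.SpecialLinearGroup l F →* Γ) (Λ : l → Matrix.SpecialLinearGroup (Fin 2) F →* Γ) :
    l ⊕ l → l ⊕ l → F → Γ
  | .inl i, .inl j, a => if h : i = j then Λ i (xm a) else Λ j tm * ρ (tvl h (-a)) * (Λ j tm)⁻¹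
  | .inr i, .inr j, a => if h : i = j then Λ i (ym (-a)) else Λ i tm * ρ (tvl h a) * (Λ i tm)⁻¹
  | .inl i, .inr j, a => if h : i = j then 1 else ρ (tvl h (-a))
  | .inr j, .inl i, a => if h : i = j then 1 else ρ (tvl h (-a))

/-- the conditions -/
structure CG (ρ : Matrix.SpecialLinearGroup l F →* Γ) (Λ : l → Matrix.SpecialLinearGroup (Fin 2) F →* Γ) : Prop where
  B : ∀ {i j : l}, i ≠ j → ∀ A A', Commute (Λ i A) (Λ j A')
  C : ∀ {i j k : l} (h : j ≠ k), i ≠ j → i ≠ k → ∀ A a, Commute (Λ i A) (ρ (tvl h a))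
  z1 : ∀ {i j : l} (h : i ≠ j) (a : F), (Λ j tm * Λ j tm) * ρ (tvl h a) * (Λ j tm * Λ j tm)⁻¹ = ρ (tvl h (-a))
  z2 : ∀ {i j : l} (h : i ≠ j) (a : F), (Λ i tm * Λ i tm) * ρ (tvl h a) * (Λ i tm * Λ i tm)⁻¹ = ρ (tvl h (-a))
  E : ∀ {i j : l} (h : i ≠ j) (a : F), (Λ i tm * Λ j tm) * ρ (tvl h a) * (Λ i tm * Λ j tm)⁻¹ = ρ (tvl h.symm (-a))
  c2 : ∀ {i j : l} (h : i ≠ j) (a b : F), ⁅Λ j tm * ρ (tvl h (-a)) * (Λ j tm)⁻¹, ρ (tvl h (-b))⁆ = Λ i (xm (2 * a * b))
  c3 : ∀ {i j : l} (h : i ≠ j) (a b : F), ⁅Λ j (xm a), ρ (tvl h (-b))⁆ =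
    Λ j tm * ρ (tvl h (-(a * b))) * (Λ j tm)⁻¹ * Λ i (xm (-(a * b ^ 2)))
  c4 : ∀ {i j : l} (h : i ≠ j) (a b : F), Commute (ρ (tvl h a)) (Λ i (xm b))

variable {ρ : Matrix.SpecialLinearGroup l F →* Γ} {Λ : l → Matrix.SpecialLinearGroup (Fin 2) F →* Γ}

theorem yg_ll_ne {i j : l} (h : i ≠ j) (a : F) :
    yg ρ Λ (.inl i) (.inl j) a = Λ j tm * ρ (tvl h (-a)) * (Λ j tm)⁻¹ := dif_neg h

theorem yg_ll_eq (i : l) (a : F) : yg ρ Λ (.inl i) (.inl i) a = Λ i (xm a) := dif_pos rfl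

theorem yg_rr_ne {i j : l} (h : i ≠ j) (a : F) :
    yg ρ Λ (.inr i) (.inr j) a = Λ i tm * ρ (tvl h a) * (Λ i tm)⁻¹ := dif_neg h

theorem yg_rr_eq (i : l) (a : F) : yg ρ Λ (.inr i) (.inr i) a = Λ i (ym (-a)) := dif_pos rfl

theorem yg_lr {i j : l} (h : i ≠ j) (a : F) : yg ρ Λ (.inl i) (.inr j) a = ρ (tvl h (-a)) := dif_neg h

theorem yg_rl {i j : l} (h : i ≠ j) (a : F) : yg ρ Λ (.inr j) (.inl i) a = ρ (tvl h (-a)) := dif_neg h

namespace CG

/-- moving an involution-like element to the other side -/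
theorem conj_of {t x y : Γ} (h : t * x * t⁻¹ = y) : t⁻¹ * y * t = x := by rw [← h]; group

/-- `P_ij` in two ways -/
theorem P_eq (H : CG ρ Λ) {i j : l} (h : i ≠ j) (a : F) :
    Λ j tm * ρ (tvl h a) * (Λ j tm)⁻¹ = Λ i tm * ρ (tvl h.symm a) * (Λ i tm)⁻¹ := by
  have e := H.E h (-a)
  rw [neg_neg] at e
  have hc : Λ i tm * Λ j tm = Λ j tm * Λ i tm := (H.B h tm tm).eq
  have z := H.z2 h (-a)
  rw [neg_neg] at z
  rw [← e]
  have : Λ i tm * (Λ i tm * Λ j tm * ρ (tvl h (-a)) * (Λ i tm * Λ j tm)⁻¹) * (Λ i tm)⁻¹ =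
      Λ j tm * ((Λ i tm * Λ i tm) * ρ (tvl h (-a)) * (Λ i tm * Λ i tm)⁻¹) * (Λ j tm)⁻¹ := by
    have h1 : Λ i tm * (Λ i tm * Λ j tm) = Λ j tm * (Λ i tm * Λ i tm) := by
      rw [hc, ← mul_assoc, hc, mul_assoc]
    calc Λ i tm * (Λ i tm * Λ j tm * ρ (tvl h (-a)) * (Λ i tm * Λ j tm)⁻¹) * (Λ i tm)⁻¹
        = (Λ i tm * (Λ i tm * Λ j tm)) * ρ (tvl h (-a)) * (Λ i tm * (Λ i tm * Λ j tm))⁻¹ := by group
      _ = _ := by rw [h1]; group
  rw [this, z]

/-- `N_ij` in two ways -/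
theorem N_eq (H : CG ρ Λ) {i j : l} (h : i ≠ j) (a : F) :
    Λ i tm * ρ (tvl h a) * (Λ i tm)⁻¹ = Λ j tm * ρ (tvl h.symm a) * (Λ j tm)⁻¹ := by
  have e := H.E h (-a)
  rw [neg_neg] at e
  have hc : Λ i tm * Λ j tm = Λ j tm * Λ i tm := (H.B h tm tm).eq
  have z := H.z1 h (-a)
  rw [neg_neg] at z
  rw [← e]
  have : Λ j tm * (Λ i tm * Λ j tm * ρ (tvl h (-a)) * (Λ i tm * Λ j tm)⁻¹) * (Λ j tm)⁻¹ =
      Λ i tm * ((Λ j tm * Λ j tm) * ρ (tvl h (-a)) * (Λ j tm * Λ j tm)⁻¹) * (Λ i tm)⁻¹ := by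
    have h1 : Λ j tm * (Λ i tm * Λ j tm) = Λ i tm * (Λ j tm * Λ j tm) := by
      rw [← mul_assoc, ← hc, mul_assoc]
    calc Λ j tm * (Λ i tm * Λ j tm * ρ (tvl h (-a)) * (Λ i tm * Λ j tm)⁻¹) * (Λ j tm)⁻¹
        = (Λ j tm * (Λ i tm * Λ j tm)) * ρ (tvl h (-a)) * (Λ j tm * (Λ i tm * Λ j tm))⁻¹ := by group
      _ = _ := by rw [h1]; group
  rw [this, z]

theorem symm (H : CG ρ Λ) (p q : l ⊕ l) (a : F) : yg ρ Λ p q a = yg ρ Λ q p a := by
  rcases p with i | i <;> rcases q with j | j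
  · by_cases h : i = j
    · subst h; rfl
    · rw [yg_ll_ne h, yg_ll_ne (Ne.symm h), H.P_eq h]
  · rfl
  · rfl
  · by_cases h : i = j
    · subst h; rfl
    · rw [yg_rr_ne h, yg_rr_ne (Ne.symm h), H.N_eq h]

theorem add (_H : CG ρ Λ) {p q : l ⊕ l} (hpq : p ≠ -q) (a b : F) :
    yg ρ Λ p q (a + b) = yg ρ Λ p q a * yg ρ Λ p q b := by
  rcases p with i | i <;> rcases q with j | j
  · by_cases h : i = j
    · subst h; rw [yg_ll_eq, yg_ll_eq, yg_ll_eq, xm_add, map_mul]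
    · rw [yg_ll_ne h, yg_ll_ne h, yg_ll_ne h, neg_add, tvl_add, map_mul]; group
  · have h : i ≠ j := fun h => hpq (by rw [h]; rfl)
    rw [yg_lr h, yg_lr h, yg_lr h, neg_add, tvl_add, map_mul]
  · have h : j ≠ i := fun h => hpq (by rw [h]; rfl)
    rw [yg_rl h, yg_rl h, yg_rl h, neg_add, tvl_add, map_mul]
  · by_cases h : i = j
    · subst h; rw [yg_rr_eq, yg_rr_eq, yg_rr_eq, neg_add, ym_add, map_mul]
    · rw [yg_rr_ne h, yg_rr_ne h, yg_rr_ne h, tvl_add, map_mul]; group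

/-- long root groups commute with disjoint root elements -/
theorem comm_y (H : CG ρ Λ) {i : l} {p q : l ⊕ l} (hpq : p ≠ -q) (hp : i ≠ ab p) (hq : i ≠ ab q) (A) (a : F) :
    Commute (Λ i A) (yg ρ Λ p q a) := by
  rcases p with j | j <;> rcases q with k | k
  · by_cases h : j = k
    · subst h; rw [yg_ll_eq]; exact H.B hp _ _
    · rw [yg_ll_ne h]
      exact ((H.B hq _ _).mul_right (H.C h hp hq _ _)).mul_right (H.B hq _ _).inv_right
  · have h : j ≠ k := fun h => hpq (by rw [h]; rfl)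
    rw [yg_lr h]; exact H.C h hp hq _ _
  · have h : k ≠ j := fun h => hpq (by rw [h]; rfl)
    rw [yg_rl h]; exact H.C h hq hp _ _
  · by_cases h : j = k
    · subst h; rw [yg_rr_eq]; exact H.B hp _ _
    · rw [yg_rr_ne h]
      exact ((H.B hp _ _).mul_right (H.C h hp hq _ _)).mul_right (H.B hp _ _).inv_right

end CG

/-- sign change of the coordinate `k` -/
def sk (k : l) (p : l ⊕ l) : l ⊕ l := if ab p = k then -p else p

/-- its coefficients -/
def ck (F : Type*) [Field F] (k : l) (p : l ⊕ l) : F := if p = Sum.inl k then -1 else 1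

omit [Fintype l] in
theorem sk_neg (k : l) (p : l ⊕ l) : sk k (-p) = -(sk k p) := by
  unfold sk; rw [ab_neg]; split_ifs <;> rfl

omit [Fintype l] in
theorem ab_sk (k : l) (p : l ⊕ l) : ab (sk k p) = ab p := by
  unfold sk; split_ifs
  · exact ab_neg p
  · rfl

omit [Fintype l] in
theorem sk_sk (k : l) (p : l ⊕ l) : sk k (sk k p) = p := by
  unfold sk
  by_cases h : ab p = k
  · rw [if_pos h, ab_neg, if_pos h, neg_neg]
  · rw [if_neg h, if_neg h]

omit [Fintype l] in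
theorem ck_sq (k : l) (p : l ⊕ l) : ck F k p * ck F k p = 1 := by
  unfold ck; split_ifs <;> ring

omit [Fintype l] in
theorem sk_inj (k : l) : Function.Injective (sk k) := fun p q h => by rw [← sk_sk k p, h, sk_sk]

omit [Fintype l] in
theorem ck_eps (k : l) (p : l ⊕ l) : Stb.eps F (sk k p) * ck F k p * ck F k (-p) = Stb.eps F p := by
  rcases p with i | i
  · by_cases h : i = k
    · subst h
      have h1 : sk i (Sum.inl i) = Sum.inr i := if_pos rfl
      have h2 : ck F i (-(Sum.inl i)) = 1 := by unfold ck; exact if_neg (by change Sum.inr i ≠ _; simp)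
      have h3 : ck F i (Sum.inl i) = -1 := by unfold ck; exact if_pos rfl
      rw [h1, h2, h3]; simp [Stb.eps]
    · have h1 : sk k (Sum.inl i) = Sum.inl i := by unfold sk; exact if_neg h
      have h2 : ck F k (-(Sum.inl i)) = 1 := by unfold ck; exact if_neg (by change Sum.inr i ≠ _; simp)
      have h3 : ck F k (Sum.inl i) = 1 := by unfold ck; exact if_neg (by simpa using h)
      rw [h1, h2, h3]; ring
  · by_cases h : i = k
    · subst h
      have h1 : sk i (Sum.inr i) = Sum.inl i := if_pos rfl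
      have h2 : ck F i (-(Sum.inr i)) = -1 := by unfold ck; exact if_pos rfl
      have h3 : ck F i (Sum.inr i) = 1 := by unfold ck; exact if_neg (by simp)
      rw [h1, h2, h3]; simp [Stb.eps]
    · have h1 : sk k (Sum.inr i) = Sum.inr i := by unfold sk; exact if_neg h
      have h2 : ck F k (-(Sum.inr i)) = 1 := by unfold ck; exact if_neg (by change Sum.inl i ≠ _; simpa using h)
      have h3 : ck F k (Sum.inr i) = 1 := by unfold ck; exact if_neg (by simp)
      rw [h1, h2, h3]; ring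

end sp

end Cfsg.Agent.GK
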