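import Cfsg.Agent.GK.Sp1

/-!
Relations of type `C_n` from `SL_n` and the long root `SL₂`'s: transport and the Steinberg relations.
-/

set_option autoImplicit false

namespace Cfsg.Agent.GK

open Subgroup
open scoped commutatorElement

attribute [local instance] Stb.sumNeg

universe v

section mon
variable {F : Type v} [Field F] {l : Type*} {Γ : Type*} [Group Γ]

/-- a monomial symmetry -/
structure Mon (y : l ⊕ l → l ⊕ l → F → Γ) (g : Γ) (π : l ⊕ l → l ⊕ l) (c : l ⊕ l → F) : Prop where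
  neg : ∀ p, π (-p) = -(π p)
  act : ∀ p q, p ≠ -q → ∀ a, g * y p q a * g⁻¹ = y (π p) (π q) (c p * c q * a)
  sq : ∀ p, c p * c p = 1
  eps : ∀ p, Stb.eps F (π p) * c p * c (-p) = Stb.eps F p

def R1 (y : l ⊕ l → l ⊕ l → F → Γ) (p q r : l ⊕ l) : Prop := ∀ a b, ⁅y p q a, y (-q) r b⁆ = y p r (Stb.eps F q * a * b)
def R2 (y : l ⊕ l → l ⊕ l → F → Γ) (p q : l ⊕ l) : Prop := ∀ a b, ⁅y p q a, y (-q) p b⁆ = y p p (2 * Stb.eps F q * a * b)
def R3 (y : l ⊕ l → l ⊕ l → F → Γ) (p q : l ⊕ l) : Prop :=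
  ∀ a b, ⁅y p p a, y (-p) q b⁆ = y p q (Stb.eps F p * a * b) * y q q (-(a * b ^ 2))
def R4 (y : l ⊕ l → l ⊕ l → F → Γ) (p q r s : l ⊕ l) : Prop := ∀ a b, ⁅y p q a, y r s b⁆ = 1

theorem conj_com (g x z : Γ) : g * ⁅x, z⁆ * g⁻¹ = ⁅g * x * g⁻¹, g * z * g⁻¹⁆ :=
  map_commutatorElement (MulAut.conj g) x z

variable {y : l ⊕ l → l ⊕ l → F → Γ} {g : Γ} {π : l ⊕ l → l ⊕ l} {c : l ⊕ l → F}

theorem R1.tr (M : Mon y g π c) {p q r : l ⊕ l} (hpq : p ≠ -q) (hqr : q ≠ r) (hpr : p ≠ -r) (h : R1 y p q r) :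
    R1 y (π p) (π q) (π r) := by
  intro a b
  have h1 := congrArg (fun x => g * x * g⁻¹) (h (c p * c q * a) (c (-q) * c r * b))
  rw [conj_com, M.act p q hpq, M.act (-q) r (fun e => hqr (neg_inj.1 e)), M.act p r hpr, M.neg] at h1
  have e1 : c p * c q * (c p * c q * a) = a := by
    have := M.sq p; have := M.sq q
    linear_combination (c p * c p * a) * M.sq q + a * M.sq p
  have e2 : c (-q) * c r * (c (-q) * c r * b) = b := by
    linear_combination (c (-q) * c (-q) * b) * M.sq r + b * M.sq (-q)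
  have e3 : c p * c r * (Stb.eps F q * (c p * c q * a) * (c (-q) * c r * b)) = Stb.eps F (π q) * a * b := by
    have h2 := M.eps q
    rw [← h2]
    linear_combination (Stb.eps F (π q) * a * b * c (-q) * c (-q) * c q * c q * c r * c r) * M.sq p +
      (Stb.eps F (π q) * a * b * c (-q) * c (-q) * c q * c q) * M.sq r +
      (Stb.eps F (π q) * a * b * c q * c q) * M.sq (-q) + (Stb.eps F (π q) * a * b) * M.sq q
  rw [e1, e2, e3] at h1
  exact h1

theorem R2.tr (M : Mon y g π c) (hne : ∀ p : l ⊕ l, -p ≠ p) {p q : l ⊕ l} (hpq : p ≠ -q) (hqp : p ≠ q) (h : R2 y p q) :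
    R2 y (π p) (π q) := by
  intro a b
  have h1 := congrArg (fun x => g * x * g⁻¹) (h (c p * c q * a) (c (-q) * c p * b))
  rw [conj_com, M.act p q hpq, M.act (-q) p (fun e => hqp (neg_inj.1 e).symm), M.act p p (hne p).symm, M.neg] at h1
  have e1 : c p * c q * (c p * c q * a) = a := by
    linear_combination (c p * c p * a) * M.sq q + a * M.sq p
  have e2 : c (-q) * c p * (c (-q) * c p * b) = b := by
    linear_combination (c (-q) * c (-q) * b) * M.sq p + b * M.sq (-q)
  have e3 : c p * c p * (2 * Stb.eps F q * (c p * c q * a) * (c (-q) * c p * b)) = 2 * Stb.eps F (π q) * a * b := by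
    have h2 := M.eps q
    rw [← h2]
    linear_combination (2 * Stb.eps F (π q) * a * b * c (-q) * c (-q) * c q * c q * c p * c p) * M.sq p +
      (2 * Stb.eps F (π q) * a * b * c (-q) * c (-q) * c q * c q) * M.sq p +
      (2 * Stb.eps F (π q) * a * b * c q * c q) * M.sq (-q) + (2 * Stb.eps F (π q) * a * b) * M.sq q
  rw [e1, e2, e3] at h1
  exact h1

theorem R3.tr (M : Mon y g π c) (hne : ∀ p : l ⊕ l, -p ≠ p) {p q : l ⊕ l} (hpq : p ≠ -q) (hqp : p ≠ q) (h : R3 y p q) :
    R3 y (π p) (π q) := by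
  intro a b
  have h1 := congrArg (fun x => g * x * g⁻¹) (h (c p * c p * a) (c (-p) * c q * b))
  have hm : ∀ x z : Γ, g * (x * z) * g⁻¹ = (g * x * g⁻¹) * (g * z * g⁻¹) := by intro x z; group
  rw [conj_com, hm, M.act p p (hne p).symm, M.act (-p) q (fun e => hqp (neg_inj.1 e)), M.act p q hpq,
    M.act q q (hne q).symm, M.neg] at h1
  have e1 : c p * c p * (c p * c p * a) = a := by
    linear_combination (c p * c p * a) * M.sq p + a * M.sq p
  have e2 : c (-p) * c q * (c (-p) * c q * b) = b := by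
    linear_combination (c (-p) * c (-p) * b) * M.sq q + b * M.sq (-p)
  have e3 : c p * c q * (Stb.eps F p * (c p * c p * a) * (c (-p) * c q * b)) = Stb.eps F (π p) * a * b := by
    have h2 := M.eps p
    rw [← h2]
    linear_combination (Stb.eps F (π p) * a * b * c (-p) * c (-p) * c p * c p * c q * c q) * M.sq p +
      (Stb.eps F (π p) * a * b * c (-p) * c (-p) * c p * c p) * M.sq q +
      (Stb.eps F (π p) * a * b * c p * c p) * M.sq (-p) + (Stb.eps F (π p) * a * b) * M.sq p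
  have e4 : c q * c q * (-(c p * c p * a * (c (-p) * c q * b) ^ 2)) = -(a * b ^ 2) := by
    linear_combination (-(a * b ^ 2) * c p * c p * c (-p) * c (-p) * c q * c q) * M.sq q +
      (-(a * b ^ 2) * c p * c p * c (-p) * c (-p)) * M.sq q + (-(a * b ^ 2) * c p * c p) * M.sq (-p) +
      (-(a * b ^ 2)) * M.sq p
  rw [e1, e2, e3, e4] at h1
  exact h1

theorem R4.tr (M : Mon y g π c) {p q r s : l ⊕ l} (hpq : p ≠ -q) (hrs : r ≠ -s) (h : R4 y p q r s) :
    R4 y (π p) (π q) (π r) (π s) := by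
  intro a b
  have h1 := congrArg (fun x => g * x * g⁻¹) (h (c p * c q * a) (c r * c s * b))
  rw [conj_com, M.act p q hpq, M.act r s hrs, mul_one, mul_inv_cancel] at h1
  have e1 : c p * c q * (c p * c q * a) = a := by
    linear_combination (c p * c p * a) * M.sq q + a * M.sq p
  have e2 : c r * c s * (c r * c s * b) = b := by
    linear_combination (c r * c r * b) * M.sq s + b * M.sq r
  rw [e1, e2] at h1
  exact h1

end mon

section sp
variable {F : Type v} [Field F] {l : Type*} [Fintype l] [DecidableEq l] {Γ : Type*} [Group Γ]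
variable {ρ : Matrix.SpecialLinearGroup l F →* Γ} {Λ : l → Matrix.SpecialLinearGroup (Fin 2) F →* Γ}

omit [Fintype l] in
theorem sk_l (i : l) : sk i (Sum.inl i) = Sum.inr i := if_pos rfl
omit [Fintype l] in
theorem sk_r (i : l) : sk i (Sum.inr i) = Sum.inl i := if_pos rfl
omit [Fintype l] in
theorem sk_ne {i : l} {p : l ⊕ l} (h : i ≠ ab p) : sk i p = p := if_neg (Ne.symm h)
omit [Fintype l] in
theorem sk_l' {i j : l} (h : i ≠ j) : sk i (Sum.inl j) = Sum.inl j := sk_ne h
omit [Fintype l] in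
theorem sk_r' {i j : l} (h : i ≠ j) : sk i (Sum.inr j) = Sum.inr j := sk_ne h
omit [Fintype l] in
theorem ck_l (i : l) : ck F i (Sum.inl i) = -1 := if_pos rfl
omit [Fintype l] in
theorem ck_r (i j : l) : ck F i (Sum.inr j) = 1 := if_neg (by simp)
omit [Fintype l] in
theorem ck_ne {i : l} {p : l ⊕ l} (h : i ≠ ab p) : ck F i p = 1 := by
  unfold ck; exact if_neg (by rintro rfl; exact h rfl)

namespace CG

theorem flip (H : CG ρ Λ) (k : l) {p q : l ⊕ l} (hpq : p ≠ -q) (a : F) :
    Λ k tm * yg ρ Λ p q a * (Λ k tm)⁻¹ = yg ρ Λ (sk k p) (sk k q) (ck F k p * ck F k q * a) := by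
  by_cases hkp : k = ab p
  · subst hkp
    by_cases hq : ab p = ab q
    · -- long root
      have hpq' : p = q := (eq_or_neg hq).resolve_right hpq
      subst hpq'
      rcases p with i | i
      · change Λ i tm * yg ρ Λ (Sum.inl i) (Sum.inl i) a * (Λ i tm)⁻¹ = yg ρ Λ (sk i (Sum.inl i)) (sk i (Sum.inl i)) (ck F i (Sum.inl i) * ck F i (Sum.inl i) * a)
        rw [sk_l, ck_l, yg_ll_eq, yg_rr_eq, ← map_mul, ← map_inv, ← map_mul, tm_xm_ym]
        congr 2; ring
      · change Λ i tm * yg ρ Λ (Sum.inr i) (Sum.inr i) a * (Λ i tm)⁻¹ = yg ρ Λ (sk i (Sum.inr i)) (sk i (Sum.inr i)) (ck F i (Sum.inr i) * ck F i (Sum.inr i) * a)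
        rw [sk_r, ck_r, yg_ll_eq, yg_rr_eq, ← map_mul, ← map_inv, ← map_mul, tm_ym_xm]
        congr 2; ring
    · -- short root, first index
      rw [sk_ne hq, ck_ne (F := F) hq]
      rcases p with i | i <;> rcases q with j | j <;> simp only [ab, Sum.elim_inl, Sum.elim_inr, id] at hq ⊢
      · rw [sk_l, ck_l, yg_ll_ne hq, yg_rl (Ne.symm hq)]
        have := H.E hq (-a)
        rw [neg_neg] at this
        have e : -(-1 * 1 * a) = a := by ring
        rw [e, ← this]; group
      · rw [sk_l, ck_l, yg_lr hq, yg_rr_ne hq]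
        have e : -1 * 1 * a = -a := by ring
        rw [e]
      · rw [sk_r, ck_r, yg_rl (Ne.symm hq), yg_ll_ne hq]
        have e : -(1 * 1 * a) = -a := by ring
        rw [e]
        exact (H.P_eq hq (-a)).symm
      · rw [sk_r, ck_r, yg_rr_ne hq, yg_lr hq]
        have e : -(1 * 1 * a) = -a := by ring
        have z := H.z2 hq a
        rw [e, ← z]; group
  · by_cases hkq : k = ab q
    · subst hkq
      have hq : ab q ≠ ab p := hkp
      rw [sk_ne hkp, ck_ne (F := F) hkp]
      rcases p with i | i <;> rcases q with j | j <;> simp only [ab, Sum.elim_inl, Sum.elim_inr, id] at hq ⊢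
      · rw [sk_l, ck_l, yg_ll_ne (Ne.symm hq), yg_lr (Ne.symm hq)]
        have e : -(1 * -1 * a) = - (-a) := by ring
        have z := H.z1 (Ne.symm hq) (-a)
        rw [e, ← z]; group
      · rw [sk_r, ck_r, yg_lr (Ne.symm hq), yg_ll_ne (Ne.symm hq)]
        have e : -(1 * 1 * a) = -a := by ring
        rw [e]
      · rw [sk_l, ck_l, yg_rl hq, yg_rr_ne (Ne.symm hq)]
        have e : 1 * -1 * a = -a := by ring
        rw [e]
        exact (H.N_eq (Ne.symm hq) (-a)).symm
      · rw [sk_r, ck_r, yg_rr_ne (Ne.symm hq), yg_rl hq]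
        have e : -(1 * 1 * a) = -a := by ring
        have hc : Λ j tm * Λ i tm = Λ i tm * Λ j tm := (H.B hq tm tm).eq
        rw [e, ← H.E (Ne.symm hq) a, ← hc]; group
    · rw [sk_ne hkp, sk_ne hkq, ck_ne hkp, ck_ne hkq, (H.comm_y hpq hkp hkq tm a).eq]
      rw [one_mul, one_mul]; group

theorem mon (H : CG ρ Λ) (k : l) : Mon (yg ρ Λ) (Λ k tm) (sk k) (ck F k) where
  neg := sk_neg k
  act _ _ hpq a := H.flip k hpq a
  sq := ck_sq k
  eps := ck_eps k

end CG

end sp

end Cfsg.Agent.GK
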