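import Cfsg.Agent.GK.Sp2

/-!
Relations of type `C_n` from `SL_n` and the long root `SL₂`'s: the Steinberg relations.
-/

set_option autoImplicit false

namespace Cfsg.Agent.GK

open Subgroup
open scoped commutatorElement

attribute [local instance] Stb.sumNeg

universe v

section sp
variable {F : Type v} [Field F] {l : Type*} [Fintype l] [DecidableEq l] {Γ : Type*} [Group Γ]
variable {ρ : Matrix.SpecialLinearGroup l F →* Γ} {Λ : l → Matrix.SpecialLinearGroup (Fin 2) F →* Γ}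

omit [Fintype l] [DecidableEq l] in
theorem ne_neg_of_ab {p q : l ⊕ l} (h : ab p ≠ ab q) : p ≠ -q := by
  rintro rfl
  exact h (ab_neg q)

omit [Fintype l] [DecidableEq l] in
theorem ne_of_ab {p q : l ⊕ l} (h : ab p ≠ ab q) : p ≠ q := by
  rintro rfl
  exact h rfl

omit [Fintype l] [DecidableEq l] in
theorem neg_ne_self (p : l ⊕ l) : -p ≠ p := Stb.swap_ne' p

omit [Field F] [Fintype l] [DecidableEq l] in
theorem R4.swap {y : l ⊕ l → l ⊕ l → F → Γ} {p q r s : l ⊕ l} (h : R4 y p q r s) : R4 y r s p q := by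
  intro a b
  have := h b a
  rw [commutatorElement_eq_one_iff_mul_comm] at this ⊢
  exact this.symm

namespace CG

theorem r1 (H : CG ρ Λ) {p q r : l ⊕ l} (hpq : ab p ≠ ab q) (hqr : ab q ≠ ab r) (hpr : ab p ≠ ab r) :
    R1 (yg ρ Λ) p q r := by
  have s1 : ∀ i j k : l, i ≠ j → j ≠ k → i ≠ k → R1 (yg ρ Λ) (Sum.inl i) (Sum.inr j) (Sum.inr k) := by
    intro i j k h h' h'' a b
    change ⁅yg ρ Λ (Sum.inl i) (Sum.inr j) a, yg ρ Λ (Sum.inl j) (Sum.inr k) b⁆ = _
    rw [yg_lr h, yg_lr h', yg_lr h'', ← map_commutatorElement, tvl_com h h' h'']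
    congr 2
    simp [Stb.eps]
  have s2 : ∀ (p : l ⊕ l) (j k : l), ab p ≠ j → j ≠ k → ab p ≠ k → R1 (yg ρ Λ) p (Sum.inr j) (Sum.inr k) := by
    intro p j k h h' h''
    rcases p with i | i
    · exact s1 i j k h h' h''
    · have h1 : i ≠ j := h
      have h2 : i ≠ k := h''
      have := (s1 i j k h1 h' h2).tr (H.mon i) (by exact ne_neg_of_ab h1) (by exact ne_of_ab h') (by exact ne_neg_of_ab h2)
      rwa [sk_l, sk_r' h1, sk_r' h2] at this
  have s3 : ∀ (p q : l ⊕ l) (k : l), ab p ≠ ab q → ab q ≠ k → ab p ≠ k → R1 (yg ρ Λ) p q (Sum.inr k) := by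
    intro p q k h h' h''
    rcases q with j | j
    · have h1 : j ≠ k := h'
      have h2 : j ≠ ab p := h.symm
      have := (s2 p j k h h1 h'').tr (H.mon j) (by exact ne_neg_of_ab h) (by exact ne_of_ab h1) (by exact ne_neg_of_ab h'')
      rwa [sk_r, sk_r' h1, sk_ne h2] at this
    · exact s2 p j k h h' h''
  rcases r with k | k
  · have h1 : k ≠ ab p := hpr.symm
    have h2 : k ≠ ab q := hqr.symm
    have := (s3 p q k hpq hqr hpr).tr (H.mon k) (by exact ne_neg_of_ab hpq) (ne_of_ab (p := q) (q := Sum.inr k) hqr)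
      (by exact ne_neg_of_ab hpr)
    rwa [sk_r, sk_ne h1, sk_ne h2] at this
  · exact s3 p q k hpq hqr hpr

theorem r2 (H : CG ρ Λ) {p q : l ⊕ l} (hpq : ab p ≠ ab q) : R2 (yg ρ Λ) p q := by
  have s1 : ∀ i j : l, i ≠ j → R2 (yg ρ Λ) (Sum.inl i) (Sum.inl j) := by
    intro i j h a b
    change ⁅yg ρ Λ (Sum.inl i) (Sum.inl j) a, yg ρ Λ (Sum.inr j) (Sum.inl i) b⁆ = _
    rw [yg_ll_ne h, yg_rl h, yg_ll_eq, H.c2 h]
    congr 2
    simp [Stb.eps]
  have s2 : ∀ (p : l ⊕ l) (j : l), ab p ≠ j → R2 (yg ρ Λ) p (Sum.inl j) := by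
    intro p j h
    rcases p with i | i
    · exact s1 i j h
    · have h1 : i ≠ j := h
      have := (s1 i j h1).tr (H.mon i) neg_ne_self (by exact ne_neg_of_ab h1) (by exact ne_of_ab h1)
      rwa [sk_l, sk_l' h1] at this
  rcases q with j | j
  · exact s2 p j hpq
  · have h1 : j ≠ ab p := hpq.symm
    have := (s2 p j hpq).tr (H.mon j) neg_ne_self (by exact ne_neg_of_ab hpq)
      (by exact ne_of_ab hpq)
    rwa [sk_l, sk_ne h1] at this

theorem r3 (H : CG ρ Λ) {p q : l ⊕ l} (hpq : ab p ≠ ab q) : R3 (yg ρ Λ) p q := by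
  have s1 : ∀ i j : l, i ≠ j → R3 (yg ρ Λ) (Sum.inl j) (Sum.inl i) := by
    intro i j h a b
    change ⁅yg ρ Λ (Sum.inl j) (Sum.inl j) a, yg ρ Λ (Sum.inr j) (Sum.inl i) b⁆ = _
    rw [yg_ll_eq, yg_rl h, yg_ll_eq, H.symm (Sum.inl j) (Sum.inl i), yg_ll_ne h, H.c3 h]
    simp [Stb.eps]
  have s2 : ∀ (p : l ⊕ l) (j : l), ab p ≠ j → R3 (yg ρ Λ) p (Sum.inl j) := by
    intro p j h
    rcases p with i | i
    · exact s1 j i (Ne.symm h)
    · have h1 : i ≠ j := h
      have := (s1 j i (Ne.symm h1)).tr (H.mon i) neg_ne_self (by exact ne_neg_of_ab h1) (by exact ne_of_ab h1)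
      rwa [sk_l, sk_l' h1] at this
  rcases q with j | j
  · exact s2 p j hpq
  · have h1 : j ≠ ab p := hpq.symm
    have := (s2 p j hpq).tr (H.mon j) neg_ne_self (by exact ne_neg_of_ab hpq)
      (by exact ne_of_ab hpq)
    rwa [sk_l, sk_ne h1] at this

theorem long_mem (_H : CG ρ Λ) (p : l ⊕ l) (a : F) : ∃ A, yg ρ Λ p p a = Λ (ab p) A := by
  rcases p with i | i
  · exact ⟨_, yg_ll_eq i a⟩
  · exact ⟨_, yg_rr_eq i a⟩

theorem r4a (H : CG ρ Λ) {p r s : l ⊕ l} (hr : ab p ≠ ab r) (hs : ab p ≠ ab s) (hrs : r ≠ -s) :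
    R4 (yg ρ Λ) p p r s := by
  intro a b
  obtain ⟨A, hA⟩ := H.long_mem p a
  rw [hA, commutatorElement_eq_one_iff_mul_comm]
  exact H.comm_y hrs hr hs A b

theorem r4b (H : CG ρ Λ) {p s : l ⊕ l} (hs : ab p ≠ ab s) : R4 (yg ρ Λ) p p p s := by
  have s1 : ∀ i j : l, i ≠ j → R4 (yg ρ Λ) (Sum.inl i) (Sum.inl i) (Sum.inl i) (Sum.inr j) := by
    intro i j h a b
    rw [yg_ll_eq, yg_lr h, commutatorElement_eq_one_iff_mul_comm]
    exact (H.c4 h _ _).symm.eq
  have s2 : ∀ (p : l ⊕ l) (j : l), ab p ≠ j → R4 (yg ρ Λ) p p p (Sum.inr j) := by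
    intro p j h
    rcases p with i | i
    · exact s1 i j h
    · have h1 : i ≠ j := h
      have := (s1 i j h1).tr (H.mon i) (neg_ne_self _).symm (by exact ne_neg_of_ab h1)
      rwa [sk_l, sk_r' h1] at this
  rcases s with j | j
  · have h1 : j ≠ ab p := hs.symm
    have := (s2 p j hs).tr (H.mon j) (neg_ne_self _).symm (by exact ne_neg_of_ab hs)
    rwa [sk_r, sk_ne h1] at this
  · exact s2 p j hs

theorem r4c (H : CG ρ Λ) {p q : l ⊕ l} (hpq : p ≠ -q) : R4 (yg ρ Λ) p q p q := by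
  intro a b
  rw [commutatorElement_eq_one_iff_mul_comm, ← H.add hpq, ← H.add hpq, add_comm]

theorem r4d (H : CG ρ Λ) {p q r : l ⊕ l} (hpq : ab p ≠ ab q) (hqr : ab q ≠ ab r) (hpr : ab p ≠ ab r) :
    R4 (yg ρ Λ) p q p r := by
  have s1 : ∀ i j k : l, i ≠ j → j ≠ k → i ≠ k → R4 (yg ρ Λ) (Sum.inl i) (Sum.inr j) (Sum.inl i) (Sum.inr k) := by
    intro i j k h h' h'' a b
    rw [yg_lr h, yg_lr h'', ← map_commutatorElement]
    have : ⁅tvl h (-a), tvl h'' (-b)⁆ = 1 := by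
      rw [commutatorElement_eq_one_iff_mul_comm]
      exact tv_comm h h'' h.symm h'' _ _
    rw [this, map_one]
  have s2 : ∀ (p : l ⊕ l) (j k : l), ab p ≠ j → j ≠ k → ab p ≠ k → R4 (yg ρ Λ) p (Sum.inr j) p (Sum.inr k) := by
    intro p j k h h' h''
    rcases p with i | i
    · exact s1 i j k h h' h''
    · have h1 : i ≠ j := h
      have h2 : i ≠ k := h''
      have := (s1 i j k h1 h' h2).tr (H.mon i) (by exact ne_neg_of_ab h1) (by exact ne_neg_of_ab h2)
      rwa [sk_l, sk_r' h1, sk_r' h2] at this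
  have s3 : ∀ (p q : l ⊕ l) (k : l), ab p ≠ ab q → ab q ≠ k → ab p ≠ k → R4 (yg ρ Λ) p q p (Sum.inr k) := by
    intro p q k h h' h''
    rcases q with j | j
    · have h1 : j ≠ k := h'
      have h2 : j ≠ ab p := h.symm
      have := (s2 p j k h h1 h'').tr (H.mon j) (by exact ne_neg_of_ab h) (by exact ne_neg_of_ab h'')
      rwa [sk_r, sk_r' h1, sk_ne h2] at this
    · exact s2 p j k h h' h''
  rcases r with k | k
  · have h1 : k ≠ ab p := hpr.symm
    have h2 : k ≠ ab q := hqr.symm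
    have := (s3 p q k hpq hqr hpr).tr (H.mon k) (by exact ne_neg_of_ab hpq) (by exact ne_neg_of_ab hpr)
    rwa [sk_r, sk_ne h1, sk_ne h2] at this
  · exact s3 p q k hpq hqr hpr

theorem comm_tv (H : CG ρ Λ) {i j : l} (h : i ≠ j) {p q : l ⊕ l} (hpq : ab p ≠ ab q) (h1 : i ≠ ab p) (h2 : i ≠ ab q)
    (h3 : j ≠ ab p) (h4 : j ≠ ab q) (a b : F) : Commute (ρ (tvl h a)) (yg ρ Λ p q b) := by
  have hcomm : ∀ {m n : l} (hmn : m ≠ n), i ≠ m → i ≠ n → j ≠ m → j ≠ n → ∀ c, Commute (ρ (tvl h a)) (ρ (tvl hmn c)) := by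
    intro m n hmn e1 e2 e3 e4 c
    exact (tv_comm h hmn e3 e2 a c).map ρ
  rcases p with m | m <;> rcases q with n | n
  · replace hpq : m ≠ n := hpq
    rw [yg_ll_ne hpq]
    have hc : Commute (ρ (tvl h a)) (Λ n tm) := (H.C h h2.symm h4.symm _ _).symm
    exact (hc.mul_right (hcomm hpq h1 h2 h3 h4 _)).mul_right hc.inv_right
  · replace hpq : m ≠ n := hpq
    rw [yg_lr hpq]
    exact hcomm hpq h1 h2 h3 h4 _
  · replace hpq : m ≠ n := hpq
    rw [yg_rl (Ne.symm hpq)]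
    exact hcomm (Ne.symm hpq) h2 h1 h4 h3 _
  · replace hpq : m ≠ n := hpq
    rw [yg_rr_ne hpq]
    have hc : Commute (ρ (tvl h a)) (Λ m tm) := (H.C h h1.symm h3.symm _ _).symm
    exact (hc.mul_right (hcomm hpq h1 h2 h3 h4 _)).mul_right hc.inv_right

theorem r4e (H : CG ρ Λ) {p q r s : l ⊕ l} (hpq : ab p ≠ ab q) (hrs : ab r ≠ ab s) (h1 : ab p ≠ ab r) (h2 : ab p ≠ ab s)
    (h3 : ab q ≠ ab r) (h4 : ab q ≠ ab s) : R4 (yg ρ Λ) p q r s := by
  intro a b
  rw [commutatorElement_eq_one_iff_mul_comm]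
  rcases p with m | m <;> rcases q with n | n
  · replace hpq : m ≠ n := hpq
    rw [yg_ll_ne hpq]
    have hc : Commute (Λ n tm) (yg ρ Λ r s b) := H.comm_y (by exact ne_neg_of_ab hrs) h3 h4 _ _
    exact (hc.mul_left (H.comm_tv hpq hrs h1 h2 h3 h4 _ _)).mul_left hc.inv_left
  · replace hpq : m ≠ n := hpq
    rw [yg_lr hpq]
    exact H.comm_tv hpq hrs h1 h2 h3 h4 _ _
  · replace hpq : m ≠ n := hpq
    rw [yg_rl (Ne.symm hpq)]
    exact H.comm_tv (Ne.symm hpq) hrs h3 h4 h1 h2 _ _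
  · replace hpq : m ≠ n := hpq
    rw [yg_rr_ne hpq]
    have hc : Commute (Λ m tm) (yg ρ Λ r s b) := H.comm_y (by exact ne_neg_of_ab hrs) h1 h2 _ _
    exact (hc.mul_left (H.comm_tv hpq hrs h1 h2 h3 h4 _ _)).mul_left hc.inv_left

theorem R4.symm_left (H : CG ρ Λ) {p q r s : l ⊕ l} (h : R4 (yg ρ Λ) p q r s) : R4 (yg ρ Λ) q p r s := by
  intro a b
  rw [H.symm q p]; exact h a b

theorem R4.symm_right (H : CG ρ Λ) {p q r s : l ⊕ l} (h : R4 (yg ρ Λ) p q r s) : R4 (yg ρ Λ) p q s r := by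
  intro a b
  rw [H.symm s r]; exact h a b

theorem r4 (H : CG ρ Λ) {i j k m : l ⊕ l} (hij : i ≠ -j) (hkm : k ≠ -m) (hki : k ≠ -i) (hkj : k ≠ -j) (hmi : m ≠ -i)
    (hmj : m ≠ -j) : R4 (yg ρ Λ) i j k m := by
  have key : ∀ {p q : l ⊕ l}, p ≠ -q → ab p = ab q → p = q := fun h e => (eq_or_neg e).resolve_right h
  by_cases h1 : ab i = ab j
  · obtain rfl := key hij h1
    by_cases h2 : ab k = ab i
    · obtain rfl := key hki h2
      by_cases h3 : ab m = ab k
      · obtain rfl := key hmi h3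
        exact H.r4c hij
      · exact H.r4b (Ne.symm h3)
    · by_cases h3 : ab m = ab i
      · obtain rfl := key hmi h3
        exact R4.symm_right H (H.r4b (Ne.symm h2))
      · exact H.r4a (Ne.symm h2) (Ne.symm h3) hkm
  · by_cases h2 : ab k = ab m
    · obtain rfl := key hkm h2
      apply GK.R4.swap
      by_cases h3 : ab k = ab i
      · obtain rfl := key hki h3
        exact H.r4b h1
      · by_cases h4 : ab k = ab j
        · obtain rfl := key hkj h4
          exact R4.symm_right H (H.r4b h3)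
        · exact H.r4a h3 h4 hij
    · by_cases h3 : ab k = ab i
      · obtain rfl := key hki h3
        by_cases h4 : ab m = ab j
        · obtain rfl := key hmj h4
          exact H.r4c hij
        · exact H.r4d h1 (Ne.symm h4) h2
      · by_cases h4 : ab k = ab j
        · obtain rfl := key hkj h4
          by_cases h5 : ab m = ab i
          · obtain rfl := key hmi h5
            exact R4.symm_right H (H.r4c hij)
          · exact R4.symm_left H (H.r4d (Ne.symm h1) (Ne.symm h5) h2)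
        · by_cases h5 : ab m = ab i
          · obtain rfl := key hmi h5
            exact R4.symm_right H (H.r4d h1 (Ne.symm h4) (Ne.symm h2))
          · by_cases h6 : ab m = ab j
            · obtain rfl := key hmj h6
              exact R4.symm_left H (R4.symm_right H (H.r4d (Ne.symm h1) (Ne.symm h3) (Ne.symm h2)))
            · exact H.r4e h1 h2 (Ne.symm h3) (Ne.symm h5) (Ne.symm h4) (Ne.symm h6)

/-- the Steinberg relations of type `C` -/
theorem spR (H : CG ρ Λ) (h2 : 2 ≤ Fintype.card l) : Stb.SpR (Stb.eps F) (yg ρ Λ) where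
  ne := Stb.swap_ne'
  two := (Stb.spr (l := l) (F := F) h2).two
  eps := Stb.eps_sq
  eps_neg := Stb.eps_neg'
  symm := H.symm
  add h a b := H.add h a b
  c1 h1 h2 h3 h4 h5 h6 a b := H.r1 (ab_ne h1 h2) (ab_ne h3 h4) (ab_ne h5 h6) a b
  c2 h1 h2 a b := H.r2 (ab_ne h1 h2) a b
  c3 h1 h2 a b := H.r3 (ab_ne h1 h2) a b
  c4 h1 h2 h3 h4 h5 h6 a b := H.r4 h1 h2 h3 h4 h5 h6 a b

end CG

end sp

end Cfsg.Agent.GK
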