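import Cfsg.Agent.GK.Sp5

/-!
The concrete embeddings of `SL_n` and of `SL₂` (long root) in the symplectic group.
-/

set_option autoImplicit false
set_option linter.unusedSectionVars false

namespace Cfsg.Agent.GK

open Subgroup
open Cfsg.Agent.ClassSp (sf ext_vec mul_mulVec one_mulVec' mulVec_inv_mulVec inv_mulVec_mulVec ofLin ofLin_mulVec sf_mulVec)
open Cfsg.Agent.Stb (ee ye)
open scoped commutatorElement

attribute [local instance] Stb.sumNeg

universe v

section conc
variable {F : Type v} [Field F] {l : Type*} [Fintype l] [DecidableEq l]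

/-- `SL₂` acting on the hyperbolic pair `i`, as a linear map -/
noncomputable def iLlin (i : l) (A : Matrix (Fin 2) (Fin 2) F) : (l ⊕ l → F) →ₗ[F] (l ⊕ l → F) where
  toFun v := fun p => if p = Sum.inl i then A 0 0 * v (Sum.inl i) + A 0 1 * v (Sum.inr i) else
    if p = Sum.inr i then A 1 0 * v (Sum.inl i) + A 1 1 * v (Sum.inr i) else v p
  map_add' x y := by
    ext p
    simp only [Pi.add_apply]
    split_ifs <;> ring
  map_smul' c x := by
    ext p
    simp only [Pi.smul_apply, smul_eq_mul, RingHom.id_apply]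
    split_ifs <;> ring

theorem iLlin_apply (i : l) (A : Matrix (Fin 2) (Fin 2) F) (v : l ⊕ l → F) (p : l ⊕ l) :
    iLlin i A v p = if p = Sum.inl i then A 0 0 * v (Sum.inl i) + A 0 1 * v (Sum.inr i) else
    if p = Sum.inr i then A 1 0 * v (Sum.inl i) + A 1 1 * v (Sum.inr i) else v p := rfl

theorem iLlin_inl (i : l) (A : Matrix (Fin 2) (Fin 2) F) (v : l ⊕ l → F) :
    iLlin i A v (Sum.inl i) = A 0 0 * v (Sum.inl i) + A 0 1 * v (Sum.inr i) := if_pos rfl

theorem iLlin_inr (i : l) (A : Matrix (Fin 2) (Fin 2) F) (v : l ⊕ l → F) :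
    iLlin i A v (Sum.inr i) = A 1 0 * v (Sum.inl i) + A 1 1 * v (Sum.inr i) := by
  rw [iLlin_apply, if_neg (by simp), if_pos rfl]

theorem iLlin_of (i : l) (A : Matrix (Fin 2) (Fin 2) F) (v : l ⊕ l → F) {p : l ⊕ l} (hp : i ≠ ab p) :
    iLlin i A v p = v p := by
  rw [iLlin_apply, if_neg (by rintro rfl; exact hp rfl), if_neg (by rintro rfl; exact hp rfl)]

theorem sf_iLlin (i : l) (A : Matrix.SpecialLinearGroup (Fin 2) F) (u v : l ⊕ l → F) :
    sf (iLlin i (A : Matrix (Fin 2) (Fin 2) F) u) (iLlin i (A : Matrix (Fin 2) (Fin 2) F) v) = sf u v := by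
  unfold sf
  apply Finset.sum_congr rfl
  intro k _
  by_cases hk : k = i
  · subst hk
    rw [iLlin_inl, iLlin_inl, iLlin_inr, iLlin_inr]
    have h : (A : Matrix (Fin 2) (Fin 2) F) 0 0 * (A : Matrix (Fin 2) (Fin 2) F) 1 1 -
        (A : Matrix (Fin 2) (Fin 2) F) 0 1 * (A : Matrix (Fin 2) (Fin 2) F) 1 0 = 1 := by
      rw [← Matrix.det_fin_two, A.2]
    linear_combination (u (Sum.inl k) * v (Sum.inr k) - u (Sum.inr k) * v (Sum.inl k)) * h
  · have h1 : i ≠ ab (Sum.inl k) := fun h => hk h.symm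
    have h2 : i ≠ ab (Sum.inr k) := fun h => hk h.symm
    rw [iLlin_of i _ _ h1, iLlin_of i _ _ h1, iLlin_of i _ _ h2, iLlin_of i _ _ h2]

/-- `SL₂` on the hyperbolic pair `i` -/
noncomputable def iL (i : l) : Matrix.SpecialLinearGroup (Fin 2) F →* Matrix.symplecticGroup l F where
  toFun A := ofLin (iLlin i (A : Matrix (Fin 2) (Fin 2) F)) (sf_iLlin i A)
  map_one' := by
    apply ext_vec; intro v
    rw [ofLin_mulVec, one_mulVec']
    ext p
    rw [iLlin_apply, Matrix.SpecialLinearGroup.coe_one]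
    split_ifs with h1 h2
    · subst h1; simp
    · subst h2; simp
    · rfl
  map_mul' A B := by
    apply ext_vec; intro v
    rw [mul_mulVec, ofLin_mulVec, ofLin_mulVec, ofLin_mulVec]
    ext p
    by_cases h1 : i = ab p
    · subst h1
      rcases p with k | k
      · change iLlin k _ v (Sum.inl k) = iLlin k _ (iLlin k _ v) (Sum.inl k)
        rw [iLlin_inl, iLlin_inl, iLlin_inl, iLlin_inr, Matrix.SpecialLinearGroup.coe_mul]
        simp only [Matrix.mul_apply, Fin.sum_univ_two]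
        ring
      · change iLlin k _ v (Sum.inr k) = iLlin k _ (iLlin k _ v) (Sum.inr k)
        rw [iLlin_inr, iLlin_inr, iLlin_inl, iLlin_inr, Matrix.SpecialLinearGroup.coe_mul]
        simp only [Matrix.mul_apply, Fin.sum_univ_two]
        ring
    · rw [iLlin_of i _ _ h1, iLlin_of i _ _ h1, iLlin_of i _ _ h1]

theorem iL_mulVec (i : l) (A : Matrix.SpecialLinearGroup (Fin 2) F) (v : l ⊕ l → F) :
    (iL i A : Matrix (l ⊕ l) (l ⊕ l) F).mulVec v = iLlin i (A : Matrix (Fin 2) (Fin 2) F) v :=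
  ofLin_mulVec _ (sf_iLlin i A) v

/-- `SL_l` on the Levi subgroup, as a linear map -/
noncomputable def iSlin (A B : Matrix l l F) : (l ⊕ l → F) →ₗ[F] (l ⊕ l → F) where
  toFun v := Sum.elim (A.mulVec (fun i => v (Sum.inl i))) (B.transpose.mulVec (fun i => v (Sum.inr i)))
  map_add' x y := by
    ext p
    have e1 : (fun i => (x + y) (Sum.inl i)) = (fun i => x (Sum.inl i)) + fun i => y (Sum.inl i) := rfl
    have e2 : (fun i => (x + y) (Sum.inr i)) = (fun i => x (Sum.inr i)) + fun i => y (Sum.inr i) := rfl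
    rw [e1, e2, Matrix.mulVec_add, Matrix.mulVec_add]
    rcases p with p | p <;> rfl
  map_smul' c x := by
    ext p
    have e1 : (fun i => (c • x) (Sum.inl i)) = c • (fun i => x (Sum.inl i)) := rfl
    have e2 : (fun i => (c • x) (Sum.inr i)) = c • (fun i => x (Sum.inr i)) := rfl
    rw [e1, e2, Matrix.mulVec_smul, Matrix.mulVec_smul]
    rcases p with p | p <;> rfl

theorem iSlin_apply (A B : Matrix l l F) (v : l ⊕ l → F) :
    iSlin A B v = Sum.elim (A.mulVec (fun i => v (Sum.inl i))) (B.transpose.mulVec (fun i => v (Sum.inr i))) := rfl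

theorem sf_dot (u v : l ⊕ l → F) : sf u v = (fun i => u (Sum.inl i)) ⬝ᵥ (fun i => v (Sum.inr i)) -
    (fun i => u (Sum.inr i)) ⬝ᵥ (fun i => v (Sum.inl i)) := by
  unfold sf dotProduct
  rw [Finset.sum_sub_distrib]

theorem sf_iSlin {A B : Matrix l l F} (h : B * A = 1) (u v : l ⊕ l → F) :
    sf (iSlin A B u) (iSlin A B v) = sf u v := by
  rw [sf_dot, sf_dot, iSlin_apply, iSlin_apply]
  simp only [Sum.elim_inl, Sum.elim_inr]
  have key : ∀ x y : l → F, A.mulVec x ⬝ᵥ B.transpose.mulVec y = x ⬝ᵥ y := by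
    intro x y
    rw [Matrix.mulVec_transpose, dotProduct_comm, ← Matrix.dotProduct_mulVec, Matrix.mulVec_mulVec, h,
      Matrix.one_mulVec, dotProduct_comm]
  have e1 : (fun i => A.mulVec (fun i => u (Sum.inl i)) i) = A.mulVec (fun i => u (Sum.inl i)) := rfl
  have k1 := key (fun i => u (Sum.inl i)) (fun i => v (Sum.inr i))
  have k2 := key (fun i => v (Sum.inl i)) (fun i => u (Sum.inr i))
  rw [dotProduct_comm, dotProduct_comm (fun i => v (Sum.inl i))] at k2
  change A.mulVec (fun i => u (Sum.inl i)) ⬝ᵥ B.transpose.mulVec (fun i => v (Sum.inr i)) -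
    B.transpose.mulVec (fun i => u (Sum.inr i)) ⬝ᵥ A.mulVec (fun i => v (Sum.inl i)) = _
  rw [k1, k2]

theorem inv_mul_coe (A : Matrix.SpecialLinearGroup l F) :
    ((A⁻¹ : Matrix.SpecialLinearGroup l F) : Matrix l l F) * (A : Matrix l l F) = 1 := by
  rw [← Matrix.SpecialLinearGroup.coe_mul, inv_mul_cancel, Matrix.SpecialLinearGroup.coe_one]

/-- `SL_l` on the Levi subgroup -/
noncomputable def iS : Matrix.SpecialLinearGroup l F →* Matrix.symplecticGroup l F where
  toFun A := ofLin (iSlin (A : Matrix l l F) ((A⁻¹ : Matrix.SpecialLinearGroup l F) : Matrix l l F))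
    (sf_iSlin (inv_mul_coe A))
  map_one' := by
    apply ext_vec; intro v
    rw [ofLin_mulVec, one_mulVec', iSlin_apply, inv_one, Matrix.SpecialLinearGroup.coe_one, Matrix.transpose_one,
      Matrix.one_mulVec, Matrix.one_mulVec]
    ext p
    rcases p with p | p <;> rfl
  map_mul' A B := by
    apply ext_vec; intro v
    rw [mul_mulVec, ofLin_mulVec, ofLin_mulVec, ofLin_mulVec, iSlin_apply, iSlin_apply, iSlin_apply]
    simp only [Sum.elim_inl, Sum.elim_inr]
    rw [Matrix.SpecialLinearGroup.coe_mul, mul_inv_rev, Matrix.SpecialLinearGroup.coe_mul, Matrix.transpose_mul,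
      ← Matrix.mulVec_mulVec, ← Matrix.mulVec_mulVec]

theorem iS_mulVec (A : Matrix.SpecialLinearGroup l F) (v : l ⊕ l → F) :
    (iS A : Matrix (l ⊕ l) (l ⊕ l) F).mulVec v =
      iSlin (A : Matrix l l F) ((A⁻¹ : Matrix.SpecialLinearGroup l F) : Matrix l l F) v :=
  ofLin_mulVec _ (sf_iSlin (inv_mul_coe A)) v

theorem ee_apply' (p q : l ⊕ l) : ee (F := F) p q = if q = p then 1 else 0 := Stb.ee_apply p q

theorem iS_ee_inl {g : Matrix.SpecialLinearGroup l F} {i j : l} {c : Fˣ} (h : Mo g i j c) :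
    (iS g : Matrix (l ⊕ l) (l ⊕ l) F).mulVec (ee (Sum.inl i)) = (c : F) • ee (Sum.inl j) := by
  rw [iS_mulVec, iSlin_apply]
  ext p
  rcases p with p | p
  · have e : (fun k : l => ee (F := F) (Sum.inl i : l ⊕ l) (Sum.inl k)) = Pi.single i 1 := by
      ext k
      rw [ee_apply', Pi.single_apply]
      simp only [Sum.inl.injEq]
    simp only [Sum.elim_inl, e]
    rw [Matrix.mulVec_single_one, Matrix.col_apply, h.1, Pi.smul_apply, ee_apply']
    simp
  · have e : (fun k : l => ee (F := F) (Sum.inl i : l ⊕ l) (Sum.inr k)) = 0 := by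
      ext k
      rw [ee_apply', if_neg (by simp)]; rfl
    simp only [Sum.elim_inr, e]
    rw [Matrix.mulVec_zero, Pi.smul_apply, ee_apply', if_neg (by simp)]
    simp

theorem iS_ee_inr {g : Matrix.SpecialLinearGroup l F} {i j : l} {c : Fˣ} (h : Mo g i j c) :
    (iS g : Matrix (l ⊕ l) (l ⊕ l) F).mulVec (ee (Sum.inr i)) = ((c⁻¹ : Fˣ) : F) • ee (Sum.inr j) := by
  rw [iS_mulVec, iSlin_apply]
  ext p
  rcases p with p | p
  · have e : (fun k : l => ee (F := F) (Sum.inr i : l ⊕ l) (Sum.inl k)) = 0 := by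
      ext k
      rw [ee_apply', if_neg (by simp)]; rfl
    simp only [Sum.elim_inl, e]
    rw [Matrix.mulVec_zero, Pi.smul_apply, ee_apply', if_neg (by simp)]
    simp
  · have e : (fun k : l => ee (F := F) (Sum.inr i : l ⊕ l) (Sum.inr k)) = Pi.single i 1 := by
      ext k
      rw [ee_apply', Pi.single_apply]
      simp only [Sum.inr.injEq]
    simp only [Sum.elim_inr, e]
    rw [Matrix.mulVec_single_one, Matrix.col_apply, Matrix.transpose_apply, h.inv.2, Pi.smul_apply, ee_apply']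
    simp

theorem iL_ee_of (i : l) (A : Matrix.SpecialLinearGroup (Fin 2) F) {p : l ⊕ l} (hp : i ≠ ab p) :
    (iL i A : Matrix (l ⊕ l) (l ⊕ l) F).mulVec (ee p) = ee p := by
  rw [iL_mulVec]
  ext q
  have h1 : ee (F := F) p (Sum.inl i) = 0 := by rw [ee_apply', if_neg (by rintro rfl; exact hp rfl)]
  have h2 : ee (F := F) p (Sum.inr i) = 0 := by rw [ee_apply', if_neg (by rintro rfl; exact hp rfl)]
  by_cases hq : i = ab q
  · subst hq
    rcases q with k | k
    · change iLlin k _ (ee p) (Sum.inl k) = _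
      rw [iLlin_inl]
      rw [show ee (F := F) p (Sum.inl k) = 0 from h1, show ee (F := F) p (Sum.inr k) = 0 from h2]; simp
    · change iLlin k _ (ee p) (Sum.inr k) = _
      rw [iLlin_inr]
      rw [show ee (F := F) p (Sum.inl k) = 0 from h1, show ee (F := F) p (Sum.inr k) = 0 from h2]; simp
  · rw [iLlin_of i _ _ hq]

theorem iL_ee_inl (i : l) (A : Matrix.SpecialLinearGroup (Fin 2) F) :
    (iL i A : Matrix (l ⊕ l) (l ⊕ l) F).mulVec (ee (Sum.inl i)) =
      (A : Matrix (Fin 2) (Fin 2) F) 0 0 • ee (Sum.inl i) + (A : Matrix (Fin 2) (Fin 2) F) 1 0 • ee (Sum.inr i) := by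
  rw [iL_mulVec]
  ext q
  rw [iLlin_apply]
  simp only [Pi.add_apply, Pi.smul_apply, smul_eq_mul, ee_apply']
  split_ifs <;> simp_all

theorem iL_ee_inr (i : l) (A : Matrix.SpecialLinearGroup (Fin 2) F) :
    (iL i A : Matrix (l ⊕ l) (l ⊕ l) F).mulVec (ee (Sum.inr i)) =
      (A : Matrix (Fin 2) (Fin 2) F) 0 1 • ee (Sum.inl i) + (A : Matrix (Fin 2) (Fin 2) F) 1 1 • ee (Sum.inr i) := by
  rw [iL_mulVec]
  ext q
  rw [iLlin_apply]
  simp only [Pi.add_apply, Pi.smul_apply, smul_eq_mul, ee_apply']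
  split_ifs <;> simp_all

/-- conjugation of root elements -/
theorem ye_conj (g : Matrix.symplecticGroup l F) {p q p' q' : l ⊕ l} {c d : F}
    (hp : (g : Matrix (l ⊕ l) (l ⊕ l) F).mulVec (ee p) = c • ee p')
    (hq : (g : Matrix (l ⊕ l) (l ⊕ l) F).mulVec (ee q) = d • ee q') (hpq : p ≠ -q) (hpq' : p' ≠ -q')
    (heq : p = q ↔ p' = q') (a : F) : g * ye p q a * g⁻¹ = ye p' q' (c * d * a) := by
  have key : ∀ (u : l ⊕ l → F) (v : l ⊕ l → F),
      sf u (((g⁻¹ : Matrix.symplecticGroup l F) : Matrix (l ⊕ l) (l ⊕ l) F).mulVec v) =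
      sf ((g : Matrix (l ⊕ l) (l ⊕ l) F).mulVec u) v := by
    intro u v
    rw [← sf_mulVec g, mulVec_inv_mulVec]
  apply ext_vec; intro v
  rw [mul_mulVec, mul_mulVec, Stb.ye_mulVec hpq, Stb.ye_mulVec hpq', Matrix.mulVec_add, Matrix.mulVec_smul,
    Matrix.mulVec_add, Matrix.mulVec_smul, Matrix.mulVec_smul, mulVec_inv_mulVec, key, key, hp, hq,
    ClassSp.sf_smul_left, ClassSp.sf_smul_left]
  by_cases h : p = q
  · rw [if_pos h, if_pos (heq.1 h)]
    module
  · rw [if_neg h, if_neg (fun h' => h (heq.2 h'))]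
    module

end conc

end Cfsg.Agent.GK
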