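import Cfsg.Agent.GK.SpC

/-!
The concrete relations in the symplectic group and the bijectivity theorem.
-/

set_option autoImplicit false
set_option linter.unusedSectionVars false

namespace Cfsg.Agent.GK

open Subgroup
open Cfsg.Agent.ClassSp (sf ext_vec mul_mulVec one_mulVec' mulVec_inv_mulVec inv_mulVec_mulVec ofLin ofLin_mulVec sf_mulVec)
open Cfsg.Agent.Stb (ee ye)
open scoped commutatorElement

attribute [local instance] Stb.sumNeg

universe v

section conc
variable {F : Type v} [Field F] {l : Type*} [Fintype l] [DecidableEq l]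

theorem lr_ne {i j : l} (h : i ≠ j) : (Sum.inl i : l ⊕ l) ≠ -(Sum.inr j) := by
  change Sum.inl i ≠ Sum.inl j
  simpa using h

theorem ll_ne (i j : l) : (Sum.inl i : l ⊕ l) ≠ -(Sum.inl j) := by
  change Sum.inl i ≠ Sum.inr j
  simp

theorem rr_ne (i j : l) : (Sum.inr i : l ⊕ l) ≠ -(Sum.inr j) := by
  change Sum.inr i ≠ Sum.inl j
  simp

theorem rl_ne {i j : l} (h : i ≠ j) : (Sum.inr i : l ⊕ l) ≠ -(Sum.inl j) := by
  change Sum.inr i ≠ Sum.inr j
  simpa using h

theorem ye_symm (i j : l ⊕ l) (h : i ≠ -j) (a : F) : ye i j a = ye j i a := by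
  have h' : j ≠ -i := fun e => h (by rw [e, neg_neg])
  apply ext_vec; intro v
  rw [Stb.ye_mulVec h, Stb.ye_mulVec h']
  by_cases hij : i = j
  · subst hij; rfl
  · rw [if_neg hij, if_neg (Ne.symm hij)]
    module

theorem iS_tv {i j : l} (h : i ≠ j) (a : F) : iS (tvl h a) = ye (Sum.inl i) (Sum.inr j) (-a) := by
  apply ext_vec; intro v
  rw [iS_mulVec, iSlin_apply, Stb.ye_short (lr_ne h) (by simp), Stb.sf_ee, Stb.sf_ee, ← tvl_neg, tvl_coe, tvl_coe]
  ext p
  have e1 : v (-(Sum.inl i)) = v (Sum.inr i) := rfl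
  have e2 : v (-(Sum.inr j)) = v (Sum.inl j) := rfl
  rw [e1, e2]
  rcases p with p | p
  · simp only [Sum.elim_inl, Pi.add_apply, Pi.smul_apply, smul_eq_mul, ee_apply', Stb.eps, Sum.elim_inr]
    rw [Matrix.transvection, Matrix.add_mulVec, Matrix.one_mulVec, Pi.add_apply, Matrix.single_mulVec]
    by_cases hp : p = i
    · subst hp; simp
    · simp [hp]
  · simp only [Sum.elim_inl, Pi.add_apply, Pi.smul_apply, smul_eq_mul, ee_apply', Stb.eps, Sum.elim_inr]
    rw [Matrix.transvection, Matrix.transpose_add, Matrix.transpose_one, Matrix.transpose_single, Matrix.add_mulVec,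
      Matrix.one_mulVec, Pi.add_apply, Matrix.single_mulVec]
    by_cases hp : p = j
    · subst hp; simp
    · simp [hp]

theorem iL_xm (i : l) (a : F) : iL i (xm a) = ye (Sum.inl i) (Sum.inl i) a := by
  apply ext_vec; intro v
  rw [iL_mulVec, Stb.ye_long, Stb.sf_ee, xm_coe]
  ext p
  have e1 : v (-(Sum.inl i)) = v (Sum.inr i) := rfl
  rw [e1, iLlin_apply]
  simp only [Pi.add_apply, Pi.smul_apply, smul_eq_mul, ee_apply', Stb.eps, Sum.elim_inl]
  split_ifs <;> simp_all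

theorem iL_ym (i : l) (a : F) : iL i (ym a) = ye (Sum.inr i) (Sum.inr i) (-a) := by
  apply ext_vec; intro v
  rw [iL_mulVec, Stb.ye_long, Stb.sf_ee, ym_coe]
  ext p
  have e1 : v (-(Sum.inr i)) = v (Sum.inl i) := rfl
  rw [e1, iLlin_apply]
  simp only [Pi.add_apply, Pi.smul_apply, smul_eq_mul, ee_apply', Stb.eps, Sum.elim_inr]
  split_ifs <;> simp_all [add_comm]

/-- homomorphisms from `SL₂` agreeing on root elements -/
theorem hom2_ext {H : Type*} [Group H] {f g : Matrix.SpecialLinearGroup (Fin 2) F →* H}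
    (h1 : ∀ a, f (xm a) = g (xm a)) (h2 : ∀ a, f (ym a) = g (ym a)) : f = g := by
  apply hom_ext_tv
  intro i j hij s
  fin_cases i <;> fin_cases j <;> simp only [ne_eq, not_true_eq_false] at hij
  · have := h1 s
    rwa [xm_tvl] at this
  · have := h2 s
    rwa [ym_tvl] at this

theorem hm_ym' (a : Fˣ) (s : F) : hm a * ym s * (hm a)⁻¹ = ym (((a⁻¹ : Fˣ) : F) ^ 2 * s) := by
  have := hm_ym a⁻¹ s
  rwa [← hm_inv, inv_inv] at this

theorem iS_iL {g : Matrix.SpecialLinearGroup l F} {i j : l} {c : Fˣ} (h : Mo g i j c)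
    (A : Matrix.SpecialLinearGroup (Fin 2) F) : iS g * iL i A * (iS g)⁻¹ = iL j (hm c * A * (hm c)⁻¹) := by
  have : (MulAut.conj (iS g)).toMonoidHom.comp (iL i) = (iL j).comp (MulAut.conj (hm c)).toMonoidHom := by
    apply hom2_ext
    · intro a
      change iS g * iL i (xm a) * (iS g)⁻¹ = iL j (hm c * xm a * (hm c)⁻¹)
      rw [hm_xm, iL_xm, iL_xm, ye_conj (iS g) (iS_ee_inl h) (iS_ee_inl h) (ll_ne i i) (ll_ne j j) (by simp)]
      congr 1; ring
    · intro a
      change iS g * iL i (ym a) * (iS g)⁻¹ = iL j (hm c * ym a * (hm c)⁻¹)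
      rw [hm_ym', iL_ym, iL_ym, ye_conj (iS g) (iS_ee_inr h) (iS_ee_inr h) (rr_ne i i) (rr_ne j j) (by simp)]
      congr 1; ring
  exact DFunLike.congr_fun this A

/-- commuting homomorphisms -/
theorem comm_hom2 {H : Type*} [Group H] {f g : Matrix.SpecialLinearGroup (Fin 2) F →* H}
    (h : ∀ a b, Commute (f (xm a)) (g (xm b)) ∧ Commute (f (xm a)) (g (ym b)) ∧ Commute (f (ym a)) (g (xm b)) ∧
      Commute (f (ym a)) (g (ym b))) (A B : Matrix.SpecialLinearGroup (Fin 2) F) : Commute (f A) (g B) := by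
  have key : ∀ (f : Matrix.SpecialLinearGroup (Fin 2) F →* H) (x : H), (∀ a, Commute (f (xm a)) x) →
      (∀ a, Commute (f (ym a)) x) → ∀ A, Commute (f A) x := by
    intro f x h1 h2 A
    have h3 : (Subgroup.centralizer {x}).comap f = ⊤ := by
      apply H40.sl_eq_top_of_transvections
      intro i j hij s
      rw [Subgroup.mem_comap, Subgroup.mem_centralizer_singleton_iff]
      fin_cases i <;> fin_cases j <;> simp only [ne_eq, not_true_eq_false] at hij
      · have := h1 s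
        rw [xm_tvl] at this
        exact this.eq
      · have := h2 s
        rw [ym_tvl] at this
        exact this.eq
    have h4 : A ∈ (Subgroup.centralizer {x}).comap f := by rw [h3]; trivial
    rw [Subgroup.mem_comap, Subgroup.mem_centralizer_singleton_iff] at h4
    exact h4
  apply key f
  · intro a
    exact (key g _ (fun b => (h a b).1.symm) (fun b => (h a b).2.1.symm) B).symm
  · intro a
    exact (key g _ (fun b => (h a b).2.2.1.symm) (fun b => (h a b).2.2.2.symm) B).symm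

theorem iL_comm (h2 : 2 ≤ Fintype.card l) {i j : l} (h : i ≠ j) (A B : Matrix.SpecialLinearGroup (Fin 2) F) :
    Commute (iL i A) (iL j B) := by
  have R := Stb.spr (l := l) (F := F) h2
  have key : ∀ p q : l ⊕ l, ab p ≠ ab q → ∀ a b : F, Commute (ye p p a) (ye q q b) := by
    intro p q hpq a b
    have h1 : q ≠ -p := (ne_neg_of_ab (Ne.symm hpq))
    exact commutatorElement_eq_one_iff_mul_comm.1 (R.c4 (neg_ne_self p).symm (neg_ne_self q).symm h1 h1 h1 h1 a b)
  apply comm_hom2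
  intro a b
  rw [iL_xm, iL_xm, iL_ym, iL_ym]
  exact ⟨key (Sum.inl i) (Sum.inl j) h _ _, key (Sum.inl i) (Sum.inr j) h _ _, key (Sum.inr i) (Sum.inl j) h _ _,
    key (Sum.inr i) (Sum.inr j) h _ _⟩

theorem iL_tm_inl (i : l) : (iL i (tm : Matrix.SpecialLinearGroup (Fin 2) F) : Matrix (l ⊕ l) (l ⊕ l) F).mulVec
    (ee (Sum.inl i)) = (-1 : F) • ee (Sum.inr i) := by
  rw [iL_ee_inl, tm_coe]; simp

theorem iL_tm_inr (i : l) : (iL i (tm : Matrix.SpecialLinearGroup (Fin 2) F) : Matrix (l ⊕ l) (l ⊕ l) F).mulVec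
    (ee (Sum.inr i)) = (1 : F) • ee (Sum.inl i) := by
  rw [iL_ee_inr, tm_coe]; simp

theorem iL_hm_inl (i : l) (c : Fˣ) : (iL i (hm c) : Matrix (l ⊕ l) (l ⊕ l) F).mulVec
    (ee (Sum.inl i)) = (c : F) • ee (Sum.inl i) := by
  rw [iL_ee_inl, hm_coe]; simp

theorem iL_hm_inr (i : l) (c : Fˣ) : (iL i (hm c) : Matrix (l ⊕ l) (l ⊕ l) F).mulVec
    (ee (Sum.inr i)) = ((c⁻¹ : Fˣ) : F) • ee (Sum.inr i) := by
  rw [iL_ee_inr, hm_coe]; simp

theorem iL_of (i : l) (A : Matrix.SpecialLinearGroup (Fin 2) F) {p : l ⊕ l} (hp : i ≠ ab p) :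
    (iL i A : Matrix (l ⊕ l) (l ⊕ l) F).mulVec (ee p) = (1 : F) • ee p := by
  rw [iL_ee_of i A hp, one_smul]

theorem P_conc {i j : l} (h : i ≠ j) (a : F) :
    iL j tm * iS (tvl h a) * (iL j tm)⁻¹ = ye (Sum.inl i) (Sum.inl j) (-a) := by
  rw [iS_tv, ye_conj (iL j tm) (iL_of j tm (p := Sum.inl i) (Ne.symm h)) (iL_tm_inr j) (lr_ne h) (ll_ne i j)
    (by simp [h])]
  congr 1; ring

theorem N_conc {i j : l} (h : i ≠ j) (a : F) :
    iL i tm * iS (tvl h a) * (iL i tm)⁻¹ = ye (Sum.inr i) (Sum.inr j) a := by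
  rw [iS_tv, ye_conj (iL i tm) (iL_tm_inl i) (iL_of i tm (p := Sum.inr j) h) (lr_ne h) (rr_ne i j) (by simp [h])]
  congr 1; ring

/-- the root elements built from `iS` and `iL` are the standard ones -/
theorem yg_conc {p q : l ⊕ l} (hpq : p ≠ -q) (a : F) : yg (iS (F := F)) (fun i => iL i) p q a = ye p q a := by
  rcases p with i | i <;> rcases q with j | j
  · by_cases h : i = j
    · subst h
      rw [yg_ll_eq, iL_xm]
    · rw [yg_ll_ne h, P_conc h, neg_neg]
  · have h : i ≠ j := fun h => hpq (by rw [h]; rfl)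
    rw [yg_lr h, iS_tv, neg_neg]
  · have h : j ≠ i := fun h => hpq (by rw [h]; rfl)
    rw [yg_rl h, iS_tv, neg_neg, ye_symm _ _ (lr_ne h)]
  · by_cases h : i = j
    · subst h
      rw [yg_rr_eq, iL_ym, neg_neg]
    · rw [yg_rr_ne h, N_conc h]

variable {ζ : Fˣ} {j0 k0 : l}

/-- the concrete relations -/
theorem hb_conc (h2 : 2 ≤ Fintype.card l) (h0 : j0 ≠ k0) (ζ : Fˣ) : HB ζ h0 (iS (F := F) (l := l)) (iL k0) := by
  have R := Stb.spr (l := l) (F := F) h2
  have hs : ∀ A : Matrix.SpecialLinearGroup (Fin 2) F, iS (emb2 h0 tm) * iL k0 A * (iS (emb2 h0 tm))⁻¹ = iL j0 A := by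
    intro A
    have h1 : Mo (emb2 h0 (tm : Matrix.SpecialLinearGroup (Fin 2) F)) k0 j0 1 := Mo_tm.emb _ (inj2 h0)
    rw [iS_iL h1, hm_one]; simp
  refine ⟨?_, ?_, ?_, ?_, ?_, ?_, ?_, ?_, ?_⟩
  · intro A
    have h1 : Mo (emb2 h0 (hm ζ)) k0 k0 ζ⁻¹ := (Mo_hm ζ).emb _ (inj2 h0)
    rw [iS_iL h1, ← hm_inv, inv_inv]
  · intro A A'
    rw [hs]
    exact iL_comm h2 h0 A A'
  · rw [iS_tv, iS_tv, ye_conj (iL k0 (hm ζ)) (iL_of k0 (hm ζ) (p := Sum.inl j0) (Ne.symm h0)) (iL_hm_inr k0 ζ)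
      (lr_ne h0) (lr_ne h0) (by simp)]
    congr 1
    simp
  · rw [iS_tv, iS_tv, ye_conj (iL k0 (hm ζ)) (iL_hm_inl k0 ζ) (iL_of k0 (hm ζ) (p := Sum.inr j0) (Ne.symm h0))
      (lr_ne h0.symm) (lr_ne h0.symm) (by simp)]
    congr 1
    simp
  · rw [hs, ← cj_cj, P_conc h0, ye_conj (iL j0 tm) (iL_tm_inl j0) (iL_of j0 tm (p := Sum.inl k0) h0) (ll_ne _ _)
      (rl_ne h0) (by simp [h0]), iS_tv, ye_symm _ _ (rl_ne h0)]
    congr 1
    simp
  · rw [hs, P_conc h0, iS_tv, iL_xm]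
    have := R.c2 (i := Sum.inl j0) (j := Sum.inl k0) (by simpa using h0) (ll_ne _ _) 1 1
    have e : (-(Sum.inl k0) : l ⊕ l) = Sum.inr k0 := rfl
    rw [e, ye_symm _ _ (rl_ne h0.symm)] at this
    rw [neg_neg, this]
    congr 1
    simp [Stb.eps]
  · rw [hs, P_conc h0, iS_tv, iL_xm, iL_xm]
    have := R.c3 (i := Sum.inl k0) (j := Sum.inl j0) (by simpa using h0.symm) (ll_ne _ _) 1 1
    have e : (-(Sum.inl k0) : l ⊕ l) = Sum.inr k0 := rfl
    rw [e, ye_symm _ _ (rl_ne h0.symm), ye_symm _ _ (ll_ne k0 j0)] at this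
    rw [neg_neg, this]
    simp [Stb.eps]
  · rw [hs, iS_tv, iL_xm]
    have := R.c4 (i := Sum.inl j0) (j := Sum.inr k0) (k := Sum.inl j0) (l := Sum.inl j0) (lr_ne h0) (ll_ne _ _)
      (ll_ne _ _) (lr_ne h0) (ll_ne _ _) (lr_ne h0) (-1) 1
    exact commutatorElement_eq_one_iff_mul_comm.1 this
  · intro g hg A
    have := iS_iL hg A
    rw [hm_one, one_mul, inv_one, mul_one, mul_inv_eq_iff_eq_mul] at this
    exact this

variable {Γ : Type*} [Group Γ] {ρ : Matrix.SpecialLinearGroup l F →* Γ} {L : Matrix.SpecialLinearGroup (Fin 2) F →* Γ}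
  {h0 : j0 ≠ k0}

/-- the glued group is the symplectic group -/
theorem HB.bij [Fintype F] (h2 : 2 ≤ Fintype.card l) (hζ : IsGen ζ) (H : HB ζ h0 ρ L) (hg : ρ.range ⊔ L.range = ⊤)
    (σ : Γ →* Matrix.symplecticGroup l F) (h1 : ∀ g, σ (ρ g) = iS g) (h3 : ∀ A, σ (L A) = iL k0 A) :
    Function.Bijective σ := by
  have C := H.cg hζ
  have hLa : ∀ i A, σ (La h0 ρ L i A) = iL i A := by
    intro i A
    have hi := (HB.exists_mo1 (F := F) h0 i).choose_spec
    change σ (ρ (HB.exists_mo1 (F := F) h0 i).choose * L A * (ρ (HB.exists_mo1 (F := F) h0 i).choose)⁻¹) = _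
    rw [map_mul, map_mul, map_inv, h1, h3, iS_iL hi, hm_one]
    simp
  have hσ : ∀ p q : l ⊕ l, p ≠ -q → ∀ a, σ (yg ρ (La h0 ρ L) p q a) = ye p q a := by
    intro p q hpq a
    rw [← yg_conc hpq]
    rcases p with i | i <;> rcases q with j | j
    · by_cases h : i = j
      · subst h
        rw [yg_ll_eq, yg_ll_eq, hLa]
      · rw [yg_ll_ne h, yg_ll_ne h, map_mul, map_mul, map_inv, hLa, h1]
    · have h : i ≠ j := fun h => hpq (by rw [h]; rfl)
      rw [yg_lr h, yg_lr h, h1]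
    · have h : j ≠ i := fun h => hpq (by rw [h]; rfl)
      rw [yg_rl h, yg_rl h, h1]
    · by_cases h : i = j
      · subst h
        rw [yg_rr_eq, yg_rr_eq, hLa]
      · rw [yg_rr_ne h, yg_rr_ne h, map_mul, map_mul, map_inv, hLa, h1]
  refine Stb.sp_bijective h2 (C.spR h2) ?_ σ hσ
  set K := closure {g | ∃ i j : l ⊕ l, i ≠ -j ∧ ∃ a, yg ρ (La h0 ρ L) i j a = g} with hK
  rw [eq_top_iff, ← hg]
  apply sup_le
  · have h4 : K.comap ρ = ⊤ := by
      apply H40.sl_eq_top_of_transvections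
      intro i j hij s
      have e : yg ρ (La h0 ρ L) (Sum.inl i) (Sum.inr j) (-s) = ρ (tvl hij s) := by rw [yg_lr hij, neg_neg]
      change ρ (tvl hij s) ∈ K
      rw [← e]
      exact subset_closure ⟨_, _, lr_ne hij, _, rfl⟩
    rw [MonoidHom.range_eq_map, ← h4]
    exact map_comap_le _ _
  · have h4 : K.comap L = ⊤ := by
      apply H40.sl_eq_top_of_transvections
      intro i j hij s
      rw [mem_comap]
      fin_cases i <;> fin_cases j <;> simp only [ne_eq, not_true_eq_false] at hij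
      · have e : yg ρ (La h0 ρ L) (Sum.inl k0) (Sum.inl k0) s =
            L (Matrix.SpecialLinearGroup.transvection (show (0 : Fin 2) ≠ 1 by decide) s) := by
          rw [yg_ll_eq, H.La_k0 hζ, xm_tvl]
        change L (Matrix.SpecialLinearGroup.transvection (show (0 : Fin 2) ≠ 1 by decide) s) ∈ K
        rw [← e]
        exact subset_closure ⟨_, _, ll_ne _ _, _, rfl⟩
      · have e : yg ρ (La h0 ρ L) (Sum.inr k0) (Sum.inr k0) (-s) =
            L (Matrix.SpecialLinearGroup.transvection (show (1 : Fin 2) ≠ 0 by decide) s) := by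
          rw [yg_rr_eq, H.La_k0 hζ, ym_tvl, neg_neg]
        change L (Matrix.SpecialLinearGroup.transvection (show (1 : Fin 2) ≠ 0 by decide) s) ∈ K
        rw [← e]
        exact subset_closure ⟨_, _, rr_ne _ _, _, rfl⟩
    rw [MonoidHom.range_eq_map, ← h4]
    exact map_comap_le _ _

end conc

end Cfsg.Agent.GK
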