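import Cfsg.Agent.GK.SpD
import Cfsg.Agent.GK.Amal
import Cfsg.Agent.GK.SLnF

/-!
Presentations of symplectic groups.
-/

set_option autoImplicit false
set_option linter.unusedSectionVars false
set_option linter.unusedVariables false

namespace Cfsg.Agent.GK

open Subgroup
open scoped commutatorElement

universe v

theorem glue_pres' {a b : ℕ} {GA GB G : Type*} [Group GA] [Group GB] [Group G] {κ : Type*} [Fintype κ]
    {RA : Finset (FreeGroup (Fin a))} {RB : Finset (FreeGroup (Fin b))} {xA : Fin a → GA}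
    {xB : Fin b → GB} (PA : IsPres (RA : Set (FreeGroup (Fin a))) xA) (PB : IsPres (RB : Set (FreeGroup (Fin b))) xB)
    (iA : GA →* G) (iB : GB →* G) (E : κ → Monoid.Coprod GA GB) (hE : ∀ i, Monoid.Coprod.lift iA iB (E i) = 1)
    (hU : ∀ (Γ : Type) [Group Γ] (ρ : GA →* Γ) (θ : GB →* Γ), (∀ i, Monoid.Coprod.lift ρ θ (E i) = 1) →
      ρ.range ⊔ θ.range = ⊤ → ∀ π : Γ →* G, (∀ g, π (ρ g) = iA g) → (∀ g, π (θ g) = iB g) →
      Function.Bijective π) :
    ∃ (R : Finset (FreeGroup (Fin (a + b)))) (x : Fin (a + b) → G), R.card ≤ RA.card + RB.card + Fintype.card κ ∧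
      IsPres (R : Set (FreeGroup (Fin (a + b)))) x := by
  let e := Fintype.equivFin κ
  refine glue_pres PA PB iA iB (fun i => E (e.symm i)) (fun i => hE _) ?_
  intro Γ _ ρ θ h
  refine hU Γ ρ θ (fun i => ?_)
  have := h (e i)
  rwa [Equiv.symm_apply_apply] at this

section rel
variable {F : Type v} [Field F] {n : ℕ} {r : ℕ}

theorem l0n (hn : 1 ≤ n) : (0 : Fin (n + 1)) ≠ Fin.last n := by
  intro h
  have := congrArg Fin.val h
  simp at this
  omega

/-- `SL_n` in `SL_{n+1}` -/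
noncomputable def EL : Matrix.SpecialLinearGroup (Fin n) F →* Matrix.SpecialLinearGroup (Fin (n + 1)) F :=
  emb Fin.castSucc (Fin.castSucc_injective n)

theorem last_not_range : Fin.last n ∉ Set.range (Fin.castSucc : Fin n → Fin (n + 1)) := by
  rintro ⟨i, hi⟩
  exact (Fin.castSucc_lt_last i).ne hi

theorem Mo_EL (A : Matrix.SpecialLinearGroup (Fin n) F) : Mo (EL A) (Fin.last n) (Fin.last n) 1 := by
  constructor
  · intro m
    exact (emb_apply_right (F := F) Fin.castSucc (Fin.castSucc_injective n) A last_not_range m).trans (by simp)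
  · intro m
    refine (emb_apply_left (F := F) Fin.castSucc (Fin.castSucc_injective n) A last_not_range m).trans ?_
    simp only [eq_comm, Units.val_one]

theorem exists_EL {g : Matrix.SpecialLinearGroup (Fin (n + 1)) F} (hg : Mo g (Fin.last n) (Fin.last n) 1) :
    ∃ A, g = EL A := by
  have hdet : ((g : Matrix (Fin (n + 1)) (Fin (n + 1)) F).submatrix Fin.castSucc Fin.castSucc).det = 1 := by
    have h1 := g.2
    rw [Matrix.det_succ_row _ (Fin.last n), Finset.sum_eq_single (Fin.last n)] at h1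
    · have e : (-1 : F) ^ ((Fin.last n : ℕ) + (Fin.last n : ℕ)) = 1 := by
        rw [← two_mul, pow_mul]; simp
      rw [e, one_mul] at h1
      have h2 : (g : Matrix (Fin (n + 1)) (Fin (n + 1)) F) (Fin.last n) (Fin.last n) = 1 := by
        rw [hg.1, if_pos rfl, Units.val_one]
      have h3 : (g.1) (Fin.last n) (Fin.last n) = 1 := h2
      rw [h3, one_mul, Fin.succAbove_last] at h1
      exact h1
    · intro j _ hj
      have h2 : (g : Matrix (Fin (n + 1)) (Fin (n + 1)) F) (Fin.last n) j = 0 := by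
        rw [hg.2, if_neg hj]
      have h3 : (g.1) (Fin.last n) j = 0 := h2
      rw [h3]; simp
    · intro h; exact absurd (Finset.mem_univ _) h
  refine ⟨⟨(g : Matrix (Fin (n + 1)) (Fin (n + 1)) F).submatrix Fin.castSucc Fin.castSucc, hdet⟩, ?_⟩
  apply Subtype.ext
  ext i j
  refine Fin.lastCases ?_ (fun i => ?_) i
  · rw [show g.1 (Fin.last n) j = _ from hg.2 j]
    refine Eq.symm ((emb_apply_left (F := F) Fin.castSucc (Fin.castSucc_injective n) _ last_not_range j).trans ?_)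
    simp only [eq_comm, Units.val_one]
  · refine Fin.lastCases ?_ (fun j => ?_) j
    · rw [show g.1 (Fin.castSucc i) (Fin.last n) = _ from hg.1 _]
      refine Eq.symm ((emb_apply_right (F := F) Fin.castSucc (Fin.castSucc_injective n) _ last_not_range _).trans ?_)
      simp
    · exact (emb_apply (F := F) Fin.castSucc (Fin.castSucc_injective n)
        ⟨(g : Matrix (Fin (n + 1)) (Fin (n + 1)) F).submatrix Fin.castSucc Fin.castSucc, hdet⟩ i j).symm

/-- the finitely many relations -/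
structure FR (ζ : Fˣ) (hn : 1 ≤ n) (G : Fin r → Matrix.SpecialLinearGroup (Fin n) F) {H : Type*} [Group H]
    (ρ : Matrix.SpecialLinearGroup (Fin (n + 1)) F →* H) (L : Matrix.SpecialLinearGroup (Fin 2) F →* H) : Prop where
  a : ∀ (i : Fin 3), ρ (emb2 (l0n hn) (hm ζ)) * L (gSL ζ i) * (ρ (emb2 (l0n hn) (hm ζ)))⁻¹ =
    L ((hm ζ)⁻¹ * gSL ζ i * hm ζ)
  b : ∀ i : Fin 3 × Fin 3, ρ (emb2 (l0n hn) tm) * L (gSL ζ i.1) * (ρ (emb2 (l0n hn) tm))⁻¹ * L (gSL ζ i.2) =
    L (gSL ζ i.2) * (ρ (emb2 (l0n hn) tm) * L (gSL ζ i.1) * (ρ (emb2 (l0n hn) tm))⁻¹)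
  m : ∀ i : Fin r × Fin 3, ρ (EL (G i.1)) * L (gSL ζ i.2) = L (gSL ζ i.2) * ρ (EL (G i.1))
  c : L (hm ζ) * ρ (tvl (l0n hn) 1) * (L (hm ζ))⁻¹ = ρ (tvl (l0n hn) ((ζ : F)⁻¹))
  c' : L (hm ζ) * ρ (tvl (l0n hn).symm 1) * (L (hm ζ))⁻¹ = ρ (tvl (l0n hn).symm (ζ : F))
  e : (ρ (emb2 (l0n hn) tm) * L tm * (ρ (emb2 (l0n hn) tm))⁻¹ * L tm) * ρ (tvl (l0n hn) 1) *
    (ρ (emb2 (l0n hn) tm) * L tm * (ρ (emb2 (l0n hn) tm))⁻¹ * L tm)⁻¹ = ρ (tvl (l0n hn).symm (-1))
  c2 : ⁅L tm * ρ (tvl (l0n hn) (-1)) * (L tm)⁻¹, ρ (tvl (l0n hn) (-1))⁆ =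
    ρ (emb2 (l0n hn) tm) * L (xm 2) * (ρ (emb2 (l0n hn) tm))⁻¹
  c3 : ⁅L (xm 1), ρ (tvl (l0n hn) (-1))⁆ = L tm * ρ (tvl (l0n hn) (-1)) * (L tm)⁻¹ *
    (ρ (emb2 (l0n hn) tm) * L (xm (-1)) * (ρ (emb2 (l0n hn) tm))⁻¹)
  c4 : ρ (tvl (l0n hn) 1) * (ρ (emb2 (l0n hn) tm) * L (xm 1) * (ρ (emb2 (l0n hn) tm))⁻¹) =
    ρ (emb2 (l0n hn) tm) * L (xm 1) * (ρ (emb2 (l0n hn) tm))⁻¹ * ρ (tvl (l0n hn) 1)

variable {ζ : Fˣ} {hn : 1 ≤ n} {G : Fin r → Matrix.SpecialLinearGroup (Fin n) F} {H : Type*} [Group H]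
    {ρ : Matrix.SpecialLinearGroup (Fin (n + 1)) F →* H} {L : Matrix.SpecialLinearGroup (Fin 2) F →* H}

theorem FR_of_HB (h : HB ζ (l0n hn) ρ L) : FR ζ hn G ρ L where
  a i := h.a _
  b i := (h.b _ _).eq
  m i := (h.m _ (Mo_EL _) _).eq
  c := h.c
  c' := h.c'
  e := h.e
  c2 := h.c2
  c3 := h.c3
  c4 := h.c4.eq

theorem comm_top {A : Type*} [Group A] {S : Set A} (hS : closure S = ⊤) (f : A →* H) (x : H)
    (h : ∀ s ∈ S, Commute (f s) x) (g : A) : Commute (f g) x := by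
  have h1 : (centralizer {x}).comap f = ⊤ := by
    rw [eq_top_iff, ← hS, closure_le]
    intro s hs
    rw [SetLike.mem_coe, mem_comap, mem_centralizer_singleton_iff]
    exact (h s hs).eq
  have h2 : g ∈ (centralizer {x}).comap f := by rw [h1]; trivial
  rw [mem_comap, mem_centralizer_singleton_iff] at h2
  exact h2

theorem FR.hb (hζ : closure (Set.range (gSL ζ)) = ⊤) (hG : closure (Set.range G) = ⊤) (h : FR ζ hn G ρ L) :
    HB ζ (l0n hn) ρ L where
  a := by
    have h1 : MonoidHom.eqLocus ((MulAut.conj (ρ (emb2 (l0n hn) (hm ζ)))).toMonoidHom.comp L)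
        (L.comp (MulAut.conj (hm ζ)⁻¹).toMonoidHom) = ⊤ := by
      rw [eq_top_iff, ← hζ, closure_le]
      rintro _ ⟨i, rfl⟩
      change ρ (emb2 (l0n hn) (hm ζ)) * L (gSL ζ i) * (ρ (emb2 (l0n hn) (hm ζ)))⁻¹ =
        L ((hm ζ)⁻¹ * gSL ζ i * (hm ζ)⁻¹⁻¹)
      rw [inv_inv]
      exact h.a i
    intro A
    have h2 : A ∈ MonoidHom.eqLocus ((MulAut.conj (ρ (emb2 (l0n hn) (hm ζ)))).toMonoidHom.comp L)
        (L.comp (MulAut.conj (hm ζ)⁻¹).toMonoidHom) := by rw [h1]; trivial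
    have h3 : ρ (emb2 (l0n hn) (hm ζ)) * L A * (ρ (emb2 (l0n hn) (hm ζ)))⁻¹ = L ((hm ζ)⁻¹ * A * (hm ζ)⁻¹⁻¹) := h2
    rwa [inv_inv] at h3
  b := by
    intro A A'
    apply comm_top hζ ((MulAut.conj (ρ (emb2 (l0n hn) tm))).toMonoidHom.comp L)
    rintro _ ⟨i, rfl⟩
    apply Commute.symm
    apply comm_top hζ L
    rintro _ ⟨j, rfl⟩
    exact (h.b (i, j)).symm
  m := by
    intro g hg A
    obtain ⟨B, rfl⟩ := exists_EL hg
    apply comm_top hG (ρ.comp EL)
    rintro _ ⟨i, rfl⟩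
    apply Commute.symm
    apply comm_top hζ L
    rintro _ ⟨j, rfl⟩
    exact (h.m (i, j)).symm
  c := h.c
  c' := h.c'
  e := h.e
  c2 := h.c2
  c3 := h.c3
  c4 := h.c4

/-- index type of the gluing relators -/
abbrev KK (r : ℕ) := (Fin 3 ⊕ (Fin 3 × Fin 3)) ⊕ ((Fin r × Fin 3) ⊕ Fin 6)

/-- the gluing relators -/
noncomputable def EE' (ζ : Fˣ) (hn : 1 ≤ n) (G : Fin r → Matrix.SpecialLinearGroup (Fin n) F) :
    KK r → Monoid.Coprod (Matrix.SpecialLinearGroup (Fin (n + 1)) F) (Matrix.SpecialLinearGroup (Fin 2) F) :=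
  let P := Monoid.Coprod (Matrix.SpecialLinearGroup (Fin (n + 1)) F) (Matrix.SpecialLinearGroup (Fin 2) F)
  let il : Matrix.SpecialLinearGroup (Fin (n + 1)) F →* P := Monoid.Coprod.inl
  let ir : Matrix.SpecialLinearGroup (Fin 2) F →* P := Monoid.Coprod.inr
  let D := il (emb2 (l0n hn) (hm ζ))
  let s := il (emb2 (l0n hn) tm)
  let X : F → P := fun a => il (tvl (l0n hn) a)
  let Y : F → P := fun a => il (tvl (l0n hn).symm a)
  Sum.elim
    (Sum.elim (fun i => D * ir (gSL ζ i) * D⁻¹ * (ir ((hm ζ)⁻¹ * gSL ζ i * hm ζ))⁻¹)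
      (fun i => s * ir (gSL ζ i.1) * s⁻¹ * ir (gSL ζ i.2) * (ir (gSL ζ i.2) * (s * ir (gSL ζ i.1) * s⁻¹))⁻¹))
    (Sum.elim (fun i => il (EL (G i.1)) * ir (gSL ζ i.2) * (ir (gSL ζ i.2) * il (EL (G i.1)))⁻¹)
      ![ir (hm ζ) * X 1 * (ir (hm ζ))⁻¹ * (X ((ζ : F)⁻¹))⁻¹,
        ir (hm ζ) * Y 1 * (ir (hm ζ))⁻¹ * (Y (ζ : F))⁻¹,
        (s * ir tm * s⁻¹ * ir tm) * X 1 * (s * ir tm * s⁻¹ * ir tm)⁻¹ * (Y (-1))⁻¹,
        ⁅ir tm * X (-1) * (ir tm)⁻¹, X (-1)⁆ * (s * ir (xm 2) * s⁻¹)⁻¹,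
        ⁅ir (xm 1), X (-1)⁆ * (ir tm * X (-1) * (ir tm)⁻¹ * (s * ir (xm (-1)) * s⁻¹))⁻¹,
        X 1 * (s * ir (xm 1) * s⁻¹) * (s * ir (xm 1) * s⁻¹ * X 1)⁻¹])

theorem EE_iff : (∀ k, Monoid.Coprod.lift ρ L (EE' ζ hn G k) = 1) ↔ FR ζ hn G ρ L := by
  constructor
  · intro h
    have c := h (Sum.inr (Sum.inr 0))
    have c' := h (Sum.inr (Sum.inr 1))
    have e := h (Sum.inr (Sum.inr 2))
    have c2 := h (Sum.inr (Sum.inr 3))
    have c3 := h (Sum.inr (Sum.inr 4))
    have c4 := h (Sum.inr (Sum.inr 5))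
    refine ⟨?_, ?_, ?_, ?_, ?_, ?_, ?_, ?_, ?_⟩
    · intro i
      have := h (Sum.inl (Sum.inl i))
      simp only [EE', Sum.elim_inl, map_mul, map_inv, Monoid.Coprod.lift_apply_inl,
        Monoid.Coprod.lift_apply_inr, mul_inv_eq_one] at this
      simpa only [map_mul, map_inv] using this
    · intro i
      have := h (Sum.inl (Sum.inr i))
      simp only [EE', Sum.elim_inl, Sum.elim_inr, map_mul, map_inv, Monoid.Coprod.lift_apply_inl,
        Monoid.Coprod.lift_apply_inr, mul_inv_eq_one] at this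
      simpa only [map_mul, map_inv] using this
    · intro i
      have := h (Sum.inr (Sum.inl i))
      simp only [EE', Sum.elim_inl, Sum.elim_inr, map_mul, map_inv, Monoid.Coprod.lift_apply_inl,
        Monoid.Coprod.lift_apply_inr, mul_inv_eq_one] at this
      exact this
    · simp only [EE', Sum.elim_inr, Matrix.cons_val_zero, map_mul, map_inv, Monoid.Coprod.lift_apply_inl,
        Monoid.Coprod.lift_apply_inr, mul_inv_eq_one] at c
      exact c
    · simp only [EE', Sum.elim_inr, Matrix.cons_val, map_mul, map_inv, Monoid.Coprod.lift_apply_inl,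
        Monoid.Coprod.lift_apply_inr, mul_inv_eq_one] at c'
      exact c'
    · simp only [EE', Sum.elim_inr, Matrix.cons_val, map_mul, map_inv, Monoid.Coprod.lift_apply_inl,
        Monoid.Coprod.lift_apply_inr, mul_inv_eq_one] at e
      exact e
    · simp only [EE', Sum.elim_inr, Matrix.cons_val, map_mul, map_inv, map_commutatorElement,
        Monoid.Coprod.lift_apply_inl, Monoid.Coprod.lift_apply_inr, mul_inv_eq_one] at c2
      exact c2
    · simp only [EE', Sum.elim_inr, Matrix.cons_val, map_mul, map_inv, map_commutatorElement,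
        Monoid.Coprod.lift_apply_inl, Monoid.Coprod.lift_apply_inr, mul_inv_eq_one] at c3
      exact c3
    · simp only [EE', Sum.elim_inr, Matrix.cons_val, map_mul, map_inv, Monoid.Coprod.lift_apply_inl,
        Monoid.Coprod.lift_apply_inr, mul_inv_eq_one] at c4
      exact c4
  · intro h k
    rcases k with (k | k) | (k | k)
    · simp only [EE', Sum.elim_inl, map_mul, map_inv, Monoid.Coprod.lift_apply_inl,
        Monoid.Coprod.lift_apply_inr, mul_inv_eq_one]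
      simpa only [map_mul, map_inv] using h.a k
    · simp only [EE', Sum.elim_inl, Sum.elim_inr, map_mul, map_inv, Monoid.Coprod.lift_apply_inl,
        Monoid.Coprod.lift_apply_inr, mul_inv_eq_one]
      exact h.b k
    · simp only [EE', Sum.elim_inl, Sum.elim_inr, map_mul, map_inv, Monoid.Coprod.lift_apply_inl,
        Monoid.Coprod.lift_apply_inr, mul_inv_eq_one]
      exact h.m k
    · fin_cases k
      · simp only [EE', Sum.elim_inr, Fin.zero_eta, Matrix.cons_val_zero, map_mul, map_inv, Monoid.Coprod.lift_apply_inl,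
          Monoid.Coprod.lift_apply_inr, mul_inv_eq_one]
        exact h.c
      · simp only [EE', Sum.elim_inr, Fin.mk_one, Matrix.cons_val, map_mul, map_inv, Monoid.Coprod.lift_apply_inl,
          Monoid.Coprod.lift_apply_inr, mul_inv_eq_one]
        exact h.c'
      · simp only [EE', Sum.elim_inr, Fin.reduceFinMk, Matrix.cons_val, map_mul, map_inv, Monoid.Coprod.lift_apply_inl,
          Monoid.Coprod.lift_apply_inr, mul_inv_eq_one]
        exact h.e
      · simp only [EE', Sum.elim_inr, Fin.reduceFinMk, Matrix.cons_val, map_mul, map_inv, map_commutatorElement,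
          Monoid.Coprod.lift_apply_inl, Monoid.Coprod.lift_apply_inr, mul_inv_eq_one]
        exact h.c2
      · simp only [EE', Sum.elim_inr, Fin.reduceFinMk, Matrix.cons_val, map_mul, map_inv, map_commutatorElement,
          Monoid.Coprod.lift_apply_inl, Monoid.Coprod.lift_apply_inr, mul_inv_eq_one]
        exact h.c3
      · simp only [EE', Sum.elim_inr, Fin.reduceFinMk, Matrix.cons_val, map_mul, map_inv, Monoid.Coprod.lift_apply_inl,
          Monoid.Coprod.lift_apply_inr, mul_inv_eq_one]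
        exact h.c4

end rel

section final
variable {F : Type v} [Field F] [Fintype F] {n r : ℕ}

theorem card_KK (r : ℕ) : Fintype.card (KK r) = 18 + 3 * r := by
  simp [Fintype.card_sum, Fintype.card_prod]
  ring

variable (F) in
theorem exists_sl2 {ζ : Fˣ} (hζ : IsGen ζ) :
    ∃ R : Finset (FreeGroup (Fin 3)), R.card ≤ 8 ∧ IsPres (R : Set (FreeGroup (Fin 3))) (gSL ζ) := by
  rcases even_or_odd_card F with h | h
  · obtain ⟨R, hR, P⟩ := sl2_pres_even hζ
    exact ⟨R, hR.trans (by norm_num), P⟩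
  · exact sl2_pres_odd hζ h

/-- gluing `SL_{n+1}` and `SL₂` to the symplectic group -/
theorem sp_glue (hn : 1 ≤ n) {a : ℕ} {RA : Finset (FreeGroup (Fin a))}
    {xA : Fin a → Matrix.SpecialLinearGroup (Fin (n + 1)) F} (PA : IsPres (RA : Set (FreeGroup (Fin a))) xA)
    (G : Fin r → Matrix.SpecialLinearGroup (Fin n) F) (hG : closure (Set.range G) = ⊤) :
    ∃ (R : Finset (FreeGroup (Fin (a + 3)))) (x : Fin (a + 3) → Matrix.symplecticGroup (Fin (n + 1)) F),
      R.card ≤ RA.card + 26 + 3 * r ∧ IsPres (R : Set (FreeGroup (Fin (a + 3)))) x := by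
  obtain ⟨ζ, hζ⟩ := exists_isGen F
  obtain ⟨RB, hRB, PB⟩ := exists_sl2 F hζ
  have hc : 2 ≤ Fintype.card (Fin (n + 1)) := by rw [Fintype.card_fin]; omega
  obtain ⟨R, x, hR, P⟩ := glue_pres' PA PB (iS (F := F)) (iL (Fin.last n)) (EE' ζ hn G)
    (EE_iff.2 (FR_of_HB (hb_conc hc (l0n hn) ζ))) (by
      intro Γ _ ρ θ h hg π h1 h2
      exact ((EE_iff.1 h).hb PB.closure hG).bij hc hζ hg π h1 h2)
  rw [card_KK] at hR
  exact ⟨R, x, by omega, P⟩

end final

end Cfsg.Agent.GK
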