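import Cfsg.Agent.GK.FinB
import Cfsg.Agent.ThreeTransp.SymPres

/-!
Short presentations of `S_n` and `A_n` on `Fin n`.
-/

set_option autoImplicit false

namespace Cfsg.Agent.GK

open Subgroup Equiv

/-- alternating groups of equivalent types -/
def altCongr {α β : Type*} [Fintype α] [DecidableEq α] [Fintype β] [DecidableEq β] (e : α ≃ β) :
    alternatingGroup α ≃* alternatingGroup β where
  toFun g := ⟨e.permCongrHom g, by
    have h : Perm.sign (e.permCongr (g : Perm α)) = Perm.sign (g : Perm α) := Perm.sign_permCongr e _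
    exact h.trans g.2⟩
  invFun g := ⟨e.symm.permCongrHom g, by
    have h : Perm.sign (e.symm.permCongr (g : Perm β)) = Perm.sign (g : Perm β) := Perm.sign_permCongr e.symm _
    exact h.trans g.2⟩
  left_inv g := by ext x; simp
  right_inv g := by ext x; simp
  map_mul' g h := by
    apply Subtype.ext
    exact map_mul e.permCongrHom (g : Perm α) (h : Perm α)

theorem Seven.sym {Λ : Type*} [DecidableEq Λ] [Fintype Λ] {R : Finset (FreeGroup (Fin 3))}
    {x : Fin 3 → Perm (Option (Option Λ))} (h : Seven Λ 1 R x) : IsPres (R : Set (FreeGroup (Fin 3))) x :=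
  isPres_sym x _ h.gen 2 h.s2 h.rel h.inj

theorem Seven.signs {Λ : Type*} [DecidableEq Λ] [Fintype Λ] {R : Finset (FreeGroup (Fin 3))}
    {x : Fin 3 → Perm (Option (Option Λ))} (h : Seven Λ (-1) R x) (i : Fin 3) : Perm.sign (x i) = 1 := by
  fin_cases i
  · exact h.s0
  · exact h.s1
  · have := h.s2
    rw [neg_neg] at this
    exact this

theorem Seven.alt {Λ : Type*} [DecidableEq Λ] [Fintype Λ] {R : Finset (FreeGroup (Fin 3))}
    {x : Fin 3 → Perm (Option (Option Λ))} (h : Seven Λ (-1) R x) :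
    IsPres (R : Set (FreeGroup (Fin 3))) (fun i => (⟨x i, h.signs i⟩ : alternatingGroup (Option (Option Λ)))) :=
  isPres_alt x _ h.gen h.signs h.rel h.inj

theorem exists_equiv_fin {Λ : Type*} [Fintype Λ] {n : ℕ} (h : Fintype.card Λ + 2 = n) :
    Nonempty (Option (Option Λ) ≃ Fin n) := by
  apply Fintype.card_eq.1
  rw [Fintype.card_option, Fintype.card_option, Fintype.card_fin]
  omega

/-- presentations with three generators and seven relators -/
theorem pres_sym (n : ℕ) (hn : 5 ≤ n) : ∃ (R : Finset (FreeGroup (Fin 3))) (x : Fin 3 → Perm (Fin n)),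
    R.card ≤ 7 ∧ IsPres (R : Set (FreeGroup (Fin 3))) x := by
  obtain ⟨Λ, i1, i2, hc, h⟩ := exists_seven n hn
  obtain ⟨R, x, h7⟩ := h 1
  obtain ⟨e⟩ := exists_equiv_fin hc
  exact ⟨R, _, h7.card, h7.sym.map e.permCongrHom⟩

theorem pres_alt (n : ℕ) (hn : 5 ≤ n) : ∃ (R : Finset (FreeGroup (Fin 3))) (x : Fin 3 → alternatingGroup (Fin n)),
    R.card ≤ 7 ∧ IsPres (R : Set (FreeGroup (Fin 3))) x := by
  obtain ⟨Λ, i1, i2, hc, h⟩ := exists_seven n hn
  obtain ⟨R, x, h7⟩ := h (-1)
  obtain ⟨e⟩ := exists_equiv_fin hc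
  exact ⟨R, _, h7.card, h7.alt.map (altCongr e)⟩

/-! ### generation by a 3-cycle and a long cycle -/

section twogen
variable {Λ : Type*} [DecidableEq Λ] [Fintype Λ] [Nonempty Λ]

theorem exists_cyc (Λ : Type*) [DecidableEq Λ] [Fintype Λ] [Nonempty Λ] :
    ∃ τ : Perm Λ, ∀ l l' : Λ, ∃ k : ℕ, (τ ^ k) l = l' := by
  have hk : Fintype.card Λ ≠ 0 := Fintype.card_ne_zero
  have : NeZero (Fintype.card Λ) := ⟨hk⟩
  obtain ⟨e⟩ : Nonempty (Λ ≃ ZMod (Fintype.card Λ)) := Fintype.card_eq.1 (by rw [ZMod.card])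
  refine ⟨e.symm.permCongr (rot _), ?_⟩
  have hp : ∀ (k : ℕ) (l : Λ), ((e.symm.permCongr (rot (Fintype.card Λ))) ^ k) l = e.symm (k + e l) := by
    intro k
    induction k with
    | zero => intro l; simp
    | succ k ih =>
      intro l
      rw [pow_succ', Perm.mul_apply, ih]
      simp only [permCongr_apply, symm_symm, apply_symm_apply, rot_apply]
      congr 1
      push_cast; ring
  intro l l'
  refine ⟨(e l' - e l).val, ?_⟩
  rw [hp, ZMod.natCast_zmod_val]
  simp

theorem exists_second (l0 : Λ) (ε : ℤˣ) : ∃ t : Perm (Option (Option Λ)), Perm.sign t = ε ∧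
    ∀ l, X l ∈ closure ({X l0, t} : Set (Perm (Option (Option Λ)))) := by
  obtain ⟨τ, hτ⟩ := exists_cyc Λ
  obtain ⟨T, σ, hT, hs⟩ : ∃ (T : Perm (Option (Option Λ))) (σ : ℤˣ), IsT T σ ∧ Perm.sign (up τ * T) = ε := by
    by_cases h : Perm.sign τ = ε
    · exact ⟨1, 1, Or.inl ⟨rfl, rfl⟩, by rw [mul_one, sign_up, h]⟩
    · refine ⟨tau, -1, Or.inr ⟨rfl, rfl⟩, ?_⟩
      rw [map_mul, sign_up, sign_tau]
      rcases Int.units_eq_one_or (Perm.sign τ) with h1 | h1 <;>
        rcases Int.units_eq_one_or ε with h2 | h2 <;> simp_all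
  refine ⟨up τ * T, hs, ?_⟩
  intro l
  set K := closure ({X l0, up τ * T} : Set (Perm (Option (Option Λ))))
  have hc : up τ * T ∈ K := subset_closure (by simp)
  have h0 : X l0 ∈ K := subset_closure (by simp)
  obtain ⟨k, rfl⟩ := hτ l0 l
  induction k with
  | zero => simpa using h0
  | succ k ih =>
    rw [pow_succ', Perm.mul_apply]
    have h1 : X (τ ((τ ^ k) l0)) = ((up τ * T) * X ((τ ^ k) l0) * (up τ * T)⁻¹) ^ (σ : ℤ) := by
      rw [hT.conj, upow_upow]
    rw [h1]
    exact zpow_mem (mul_mem (mul_mem hc ih) (inv_mem hc)) _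

end twogen

theorem range2 {α : Type*} (x : Fin 2 → α) : Set.range x = {x 0, x 1} := by
  ext y
  simp only [Set.mem_range, Set.mem_insert_iff, Set.mem_singleton_iff]
  constructor
  · rintro ⟨i, rfl⟩
    fin_cases i <;> simp
  · rintro (rfl | rfl)
    exacts [⟨0, rfl⟩, ⟨1, rfl⟩]

/-- two generators and eight relators, `n ≥ 5` -/
theorem pres2_sym (n : ℕ) (hn : 5 ≤ n) : ∃ (R : Finset (FreeGroup (Fin 2))) (x : Fin 2 → Perm (Fin n)),
    R.card ≤ 8 ∧ IsPres (R : Set (FreeGroup (Fin 2))) x := by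
  obtain ⟨Λ, i1, i2, hc, h⟩ := exists_seven n hn
  obtain ⟨R, x, h7⟩ := h 1
  obtain ⟨l0, hl0⟩ := h7.x1
  have : Nonempty Λ := ⟨l0⟩
  obtain ⟨t, ht, htX⟩ := exists_second l0 (-1)
  obtain ⟨R', hR', hP⟩ := h7.sym.regen (κ := Fin 2) ![X l0, t] (by
      apply close_sym _ _ 1 ht
      rw [range2]; exact htX) {0} (fun _ => 1) (by
      intro j hj
      rw [Finset.mem_singleton] at hj
      rw [hj]; exact hl0.symm) (by simp)
  obtain ⟨e⟩ := exists_equiv_fin hc
  refine ⟨R', _, ?_, hP.map e.permCongrHom⟩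
  have := h7.card
  simp at hR'
  omega

theorem pres2_alt (n : ℕ) (hn : 5 ≤ n) : ∃ (R : Finset (FreeGroup (Fin 2))) (x : Fin 2 → alternatingGroup (Fin n)),
    R.card ≤ 8 ∧ IsPres (R : Set (FreeGroup (Fin 2))) x := by
  obtain ⟨Λ, i1, i2, hc, h⟩ := exists_seven n hn
  obtain ⟨R, x, h7⟩ := h (-1)
  obtain ⟨l0, hl0⟩ := h7.x1
  have : Nonempty Λ := ⟨l0⟩
  obtain ⟨t, ht, htX⟩ := exists_second l0 1
  have hd : closure (Set.range (![XA l0, ⟨t, ht⟩] : Fin 2 → alternatingGroup (Option (Option Λ)))) = ⊤ := by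
    have h1 : (closure (Set.range (![XA l0, ⟨t, ht⟩] : Fin 2 → alternatingGroup (Option (Option Λ))))).map
        (alternatingGroup (Option (Option Λ))).subtype = alternatingGroup (Option (Option Λ)) := by
      rw [MonoidHom.map_closure, ← Set.range_comp]
      apply close_alt
      · intro l
        rw [range2]
        exact htX l
      · intro i
        fin_cases i
        · exact sign_X l0
        · exact ht
    rw [eq_top_iff]
    intro g _
    have h2 : (g : Perm (Option (Option Λ))) ∈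
        (closure (Set.range (![XA l0, ⟨t, ht⟩] : Fin 2 → alternatingGroup (Option (Option Λ))))).map
        (alternatingGroup (Option (Option Λ))).subtype := by rw [h1]; exact g.2
    obtain ⟨g', hg', he⟩ := mem_map.1 h2
    have : g' = g := Subtype.ext he
    rwa [← this]
  obtain ⟨R', hR', hP⟩ := h7.alt.regen (κ := Fin 2) ![XA l0, ⟨t, ht⟩] hd {0} (fun _ => 1) (by
      intro j hj
      rw [Finset.mem_singleton] at hj
      rw [hj]; exact Subtype.ext hl0.symm) (by simp)
  obtain ⟨e⟩ := exists_equiv_fin hc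
  refine ⟨R', _, ?_, hP.map (altCongr e)⟩
  have := h7.card
  simp at hR'
  omega

/-- criterion: a homomorphism back to the presented group -/
theorem isPres_of_hom {ι : Type*} {G : Type*} [Group G] {R : Set (FreeGroup ι)} {x : ι → G}
    (h1 : ∀ r ∈ R, FreeGroup.lift x r = 1) (h2 : Subgroup.closure (Set.range x) = ⊤)
    (h3 : ∃ φ : G →* PresentedGroup R, ∀ i, φ (x i) = PresentedGroup.of i) : IsPres R x := by
  refine isPres_of_inj h1 h2 ?_
  intro π hπ
  obtain ⟨φ, hφ⟩ := h3
  have : φ.comp π = MonoidHom.id _ := by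
    refine MonoidHom.eq_of_eqOn_dense (closure_of_eq_top R) ?_
    rintro _ ⟨i, rfl⟩
    change φ (π (PresentedGroup.of i)) = PresentedGroup.of i
    rw [hπ, hφ]
  intro a b hab
  have h4 := DFunLike.congr_fun this a
  have h5 := DFunLike.congr_fun this b
  simp only [MonoidHom.comp_apply, MonoidHom.id_apply] at h4 h5
  rw [← h4, ← h5, hab]

theorem pres_trivial {G : Type*} [Group G] [Subsingleton G] : ∃ (R : Finset (FreeGroup (Fin 2))) (x : Fin 2 → G),
    R.card ≤ 8 ∧ IsPres (R : Set (FreeGroup (Fin 2))) x := by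
  classical
  refine ⟨{FreeGroup.of 0, FreeGroup.of 1}, fun _ => 1, ?_, ?_⟩
  · exact (Finset.card_le_two).trans (by norm_num)
  · refine isPres_of_hom (fun r _ => Subsingleton.elim _ _) (Subsingleton.elim _ _ ) ?_
    refine ⟨1, fun i => ?_⟩
    rw [MonoidHom.one_apply, eq_comm]
    have h0 : ∀ w ∈ (({FreeGroup.of 0, FreeGroup.of 1} : Finset (FreeGroup (Fin 2))) : Set (FreeGroup (Fin 2))),
        FreeGroup.lift (fun i => (PresentedGroup.of i :
          PresentedGroup (({FreeGroup.of 0, FreeGroup.of 1} : Finset (FreeGroup (Fin 2))) : Set _))) w = 1 :=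
      fun w hw => lift_of_rel hw
    fin_cases i
    · have := h0 (FreeGroup.of 0) (by simp)
      rwa [FreeGroup.lift_apply_of] at this
    · have := h0 (FreeGroup.of 1) (by simp)
      rwa [FreeGroup.lift_apply_of] at this

end Cfsg.Agent.GK
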