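import Cfsg.Agent.GK.Un27

/-!
The three-dimensional unitary group as a group of matrices: the Borel subgroup and the reflection.
-/

set_option autoImplicit false
set_option linter.unusedSectionVars false
set_option linter.unusedVariables false
set_option linter.unusedSimpArgs false

namespace Cfsg.Agent.GK.T3

open Subgroup Cfsg.Agent.ClBN Cfsg.Agent.Uni

universe v

section mat
variable {F : Type v} [Field F] (τ : F →+* F)

local notation "SL3" => Matrix.SpecialLinearGroup (Fin 3) F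

/-- the condition for unipotent elements -/
def Pc (x y : F) : Prop := y + τ y + x * τ x = 0

/-- unipotent elements -/
def uM (x y : F) : SL3 := ⟨!![1, x, y; 0, 1, -τ x; 0, 0, 1], by rw [Matrix.det_fin_three]; simp⟩

/-- diagonal elements -/
def hM (a : Fˣ) : SL3 := ⟨!![(a : F), 0, 0; 0, τ (a : F) * (a : F)⁻¹, 0; 0, 0, (τ (a : F))⁻¹], by
  have h1 : (a : F) ≠ 0 := a.ne_zero
  have h2 : τ (a : F) ≠ 0 := (map_ne_zero τ).2 h1
  rw [Matrix.det_fin_three]; simp; field_simp⟩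

/-- the reflection -/
def sM : SL3 := ⟨!![0, 0, 1; 0, -1, 0; 1, 0, 0], by rw [Matrix.det_fin_three]; simp⟩

theorem uM_coe (x y : F) : ((uM τ x y : SL3) : Matrix (Fin 3) (Fin 3) F) = !![1, x, y; 0, 1, -τ x; 0, 0, 1] := rfl
theorem hM_coe (a : Fˣ) : ((hM τ a : SL3) : Matrix (Fin 3) (Fin 3) F) = !![(a : F), 0, 0; 0, τ (a : F) * (a : F)⁻¹, 0; 0, 0, (τ (a : F))⁻¹] := rfl
theorem sM_coe : ((sM : SL3) : Matrix (Fin 3) (Fin 3) F) = !![0, 0, 1; 0, -1, 0; 1, 0, 0] := rfl

theorem ext3 {A B : SL3} (h : (A : Matrix (Fin 3) (Fin 3) F) = B) : A = B := Subtype.ext h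

theorem uM_mul (x y x' y' : F) : uM τ x y * uM τ x' y' = uM τ (x + x') (y + y' - x * τ x') := by
  apply ext3
  rw [Matrix.SpecialLinearGroup.coe_mul, uM_coe, uM_coe, uM_coe, map_add]
  ext i j; fin_cases i <;> fin_cases j <;> simp [Matrix.mul_apply, Fin.sum_univ_three] <;> ring

theorem uM_zero : uM τ 0 0 = (1 : SL3) := by
  apply ext3
  rw [uM_coe, Matrix.SpecialLinearGroup.coe_one]
  ext i j; fin_cases i <;> fin_cases j <;> simp

theorem Pc.mul {x y x' y' : F} (hτ : ∀ x, τ (τ x) = x) (h : Pc τ x y) (h' : Pc τ x' y') : Pc τ (x + x') (y + y' - x * τ x') := by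
  unfold Pc at *
  simp only [map_add, map_sub, map_mul, hτ]
  linear_combination h + h'

theorem Pc.inv {x y : F} (hτ : ∀ x, τ (τ x) = x) (h : Pc τ x y) : Pc τ (-x) (τ y) := by
  unfold Pc at *
  simp only [map_neg, hτ]
  linear_combination h

theorem Pc.zero : Pc τ 0 0 := by unfold Pc; simp

theorem uM_inv {x y : F} (h : Pc τ x y) : (uM τ x y)⁻¹ = uM τ (-x) (τ y) := by
  rw [inv_eq_iff_mul_eq_one, uM_mul]
  unfold Pc at h
  have e1 : x + -x = 0 := by ring
  have e2 : y + τ y - x * τ (-x) = 0 := by rw [map_neg]; linear_combination h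
  rw [e1, e2, uM_zero]

theorem hM_mul (a b : Fˣ) : hM τ (a * b) = hM τ a * hM τ b := by
  apply ext3
  rw [Matrix.SpecialLinearGroup.coe_mul, hM_coe, hM_coe, hM_coe]
  ext i j; fin_cases i <;> fin_cases j <;> simp [Matrix.mul_apply, Fin.sum_univ_three, mul_inv] <;> ring

/-- the torus -/
def hH : Fˣ →* SL3 := MonoidHom.mk' (hM τ) (hM_mul τ)

theorem hM_one : hM τ 1 = (1 : SL3) := map_one (hH τ)
theorem hM_inv (a : Fˣ) : (hM τ a)⁻¹ = hM τ a⁻¹ := (map_inv (hH τ) a).symm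
theorem hM_pow (a : Fˣ) (n : ℕ) : (hM τ a) ^ n = hM τ (a ^ n) := (map_pow (hH τ) a n).symm

theorem hM_uM (a : Fˣ) (x y : F) (hτ : ∀ x, τ (τ x) = x) :
    hM τ a * uM τ x y = uM τ ((a : F) ^ 2 * (τ (a : F))⁻¹ * x) ((a : F) * τ (a : F) * y) * hM τ a := by
  have h1 : (a : F) ≠ 0 := a.ne_zero
  have h2 : τ (a : F) ≠ 0 := (map_ne_zero τ).2 h1
  apply ext3
  rw [Matrix.SpecialLinearGroup.coe_mul, Matrix.SpecialLinearGroup.coe_mul, hM_coe, uM_coe, uM_coe]
  ext i j; fin_cases i <;> fin_cases j <;> simp [Matrix.mul_apply, Fin.sum_univ_three, hτ] <;> field_simp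

theorem hM_conj (a : Fˣ) (x y : F) (hτ : ∀ x, τ (τ x) = x) :
    hM τ a * uM τ x y * (hM τ a)⁻¹ = uM τ ((a : F) ^ 2 * (τ (a : F))⁻¹ * x) ((a : F) * τ (a : F) * y) := by
  rw [hM_uM τ a x y hτ]; group

theorem Pc.conj {x y : F} (hτ : ∀ x, τ (τ x) = x) (h : Pc τ x y) (a : Fˣ) : Pc τ ((a : F) ^ 2 * (τ (a : F))⁻¹ * x) ((a : F) * τ (a : F) * y) := by
  have h1 : (a : F) ≠ 0 := a.ne_zero
  have h2 : τ (a : F) ≠ 0 := (map_ne_zero τ).2 h1
  unfold Pc at *
  simp only [map_mul, map_pow, map_inv₀, hτ]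
  field_simp
  linear_combination ((a : F) * τ (a : F)) * h

theorem sM_sq : (sM : SL3) * sM = 1 := by
  apply ext3
  rw [Matrix.SpecialLinearGroup.coe_mul, sM_coe, Matrix.SpecialLinearGroup.coe_one]
  ext i j; fin_cases i <;> fin_cases j <;> simp [Matrix.mul_apply, Fin.sum_univ_three]

theorem sM_hM (a : Fˣ) (hτ : ∀ x, τ (τ x) = x) : sM * hM τ a * sM = hM τ (Units.map (τ : F →* F) a)⁻¹ := by
  have h1 : (a : F) ≠ 0 := a.ne_zero
  have h2 : τ (a : F) ≠ 0 := (map_ne_zero τ).2 h1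
  apply ext3
  rw [Matrix.SpecialLinearGroup.coe_mul, Matrix.SpecialLinearGroup.coe_mul, hM_coe, hM_coe, sM_coe, Units.val_inv_eq_inv_val]
  have e : ((Units.map (τ : F →* F) a : Fˣ) : F) = τ (a : F) := rfl
  rw [e, map_inv₀, hτ]
  ext i j; fin_cases i <;> fin_cases j <;> simp [Matrix.mul_apply, Fin.sum_univ_three]
  field_simp

/-- the fundamental relation -/
theorem sM_uM {x : F} (y : Fˣ) (hτ : ∀ x, τ (τ x) = x) (h : Pc τ x y) :
    sM * uM τ x y * sM = uM τ (-x / τ (y : F)) (y : F)⁻¹ * hM τ (Units.map (τ : F →* F) y)⁻¹ * sM * uM τ (-x / y) (y : F)⁻¹ := by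
  have h1 : (y : F) ≠ 0 := y.ne_zero
  have h2 : τ (y : F) ≠ 0 := (map_ne_zero τ).2 h1
  unfold Pc at h
  apply ext3
  simp only [Matrix.SpecialLinearGroup.coe_mul, hM_coe, uM_coe, sM_coe, Units.val_inv_eq_inv_val]
  have e : ((Units.map (τ : F →* F) y : Fˣ) : F) = τ (y : F) := rfl
  rw [e]
  simp only [map_inv₀, map_div₀, map_neg, hτ]
  have e2 : x * τ x = -(y + τ (y : F)) := by linear_combination h
  ext i j; fin_cases i <;> fin_cases j <;> simp [Matrix.mul_apply, Fin.sum_univ_three] <;> field_simp <;>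
    first
    | ring1
    | linear_combination h
    | linear_combination -h

end mat

section grp
variable {F : Type v} [Field F] [Fintype F] {q : ℕ} (hF : Fintype.card F = q ^ 2)

local notation "SL3" => Matrix.SpecialLinearGroup (Fin 3) F

/-- the hermitian form -/
def Jf (τ : F →+* F) (u v : Fin 3 → F) : F := u 0 * τ (v 2) + u 1 * τ (v 1) + u 2 * τ (v 0)

/-- the unitary group -/
def U3 : Subgroup SL3 where
  carrier := {g | ∀ u v, Jf (conjHom hF) ((g : Matrix (Fin 3) (Fin 3) F).mulVec u) ((g : Matrix (Fin 3) (Fin 3) F).mulVec v) = Jf (conjHom hF) u v}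
  one_mem' := fun u v => by simp
  mul_mem' {a b} ha hb := fun u v => by
    rw [Matrix.SpecialLinearGroup.coe_mul, ← Matrix.mulVec_mulVec, ← Matrix.mulVec_mulVec, ha, hb]
  inv_mem' {a} ha := fun u v => by
    have e : ∀ u, (a : Matrix (Fin 3) (Fin 3) F).mulVec (((a⁻¹ : SL3) : Matrix (Fin 3) (Fin 3) F).mulVec u) = u := by
      intro u
      rw [Matrix.mulVec_mulVec, ← Matrix.SpecialLinearGroup.coe_mul, mul_inv_cancel, Matrix.SpecialLinearGroup.coe_one, Matrix.one_mulVec]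
    have h := ha (((a⁻¹ : SL3) : Matrix (Fin 3) (Fin 3) F).mulVec u) (((a⁻¹ : SL3) : Matrix (Fin 3) (Fin 3) F).mulVec v)
    rw [e, e] at h
    exact h.symm

theorem mem_U3 {g : SL3} : g ∈ U3 hF ↔ ∀ u v, Jf (conjHom hF) ((g : Matrix (Fin 3) (Fin 3) F).mulVec u) ((g : Matrix (Fin 3) (Fin 3) F).mulVec v) =
    Jf (conjHom hF) u v := Iff.rfl

theorem mv3 (A : Matrix (Fin 3) (Fin 3) F) (u : Fin 3 → F) (i : Fin 3) : A.mulVec u i = A i 0 * u 0 + A i 1 * u 1 + A i 2 * u 2 := by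
  rw [Matrix.mulVec, dotProduct, Fin.sum_univ_three]

theorem tt (x : F) : conjHom hF (conjHom hF x) = x := conjHom_involutive hF x

theorem uM_mem {x y : F} (h : Pc (conjHom hF) x y) : uM (conjHom hF) x y ∈ U3 hF := by
  rw [mem_U3]
  intro u v
  unfold Pc at h
  unfold Jf
  simp only [mv3, uM_coe]
  simp only [Matrix.of_apply, Matrix.cons_val', Matrix.cons_val_zero, Matrix.cons_val_one, Matrix.cons_val, Matrix.cons_val_fin_one, map_add, map_mul,
    map_neg, map_one, map_zero, tt hF]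
  linear_combination (u 2 * conjHom hF (v 2)) * h

theorem hM_mem (a : Fˣ) : hM (conjHom hF) a ∈ U3 hF := by
  rw [mem_U3]
  intro u v
  have h1 : (a : F) ≠ 0 := a.ne_zero
  have h2 : conjHom hF (a : F) ≠ 0 := (map_ne_zero (conjHom hF)).2 h1
  unfold Jf
  simp only [mv3, hM_coe]
  simp only [Matrix.of_apply, Matrix.cons_val', Matrix.cons_val_zero, Matrix.cons_val_one, Matrix.cons_val, Matrix.cons_val_fin_one, map_add, map_mul,
    map_neg, map_one, map_zero, map_inv₀, tt hF]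
  field_simp
  ring

theorem sM_mem : (sM : SL3) ∈ U3 hF := by
  rw [mem_U3]
  intro u v
  unfold Jf
  simp only [mv3, sM_coe]
  simp only [Matrix.of_apply, Matrix.cons_val', Matrix.cons_val_zero, Matrix.cons_val_one, Matrix.cons_val, Matrix.cons_val_fin_one, map_add, map_mul,
    map_neg, map_one, map_zero, tt hF]
  ring

/-- isomorphism with the standard special unitary group -/
theorem exists_u3_equiv : Nonempty (U3 hF ≃* SU 3 F q) := by
  obtain ⟨e0⟩ := exists_suEquiv (m := 1) (κ := Unit) hF (n := 3) (by simp)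
  let ι : Fin 3 ≃ Ix 1 Unit :=
    { toFun := ![Sum.inl (Sum.inl 0), Sum.inr (), Sum.inl (Sum.inr 0)]
      invFun := fun i => Sum.elim (Sum.elim (fun _ => 0) (fun _ => 2)) (fun _ => 1) i
      left_inv := fun i => by fin_cases i <;> rfl
      right_inv := fun i => by
        rcases i with (i | i) | i
        · have : i = 0 := Subsingleton.elim _ _
          subst this; rfl
        · have : i = 0 := Subsingleton.elim _ _
          subst this; rfl
        · rfl }
  have hB : ∀ u w : Ix 1 Unit → F, (polU Unit hF).B u w = Jf (conjHom hF) (u ∘ ι) (w ∘ ι) := by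
    intro u w
    unfold PolD.B
    rw [Fintype.sum_sum_type, Fin.sum_univ_one, Fin.sum_univ_one]
    have hb : ∀ p : Fin 1 ⊕ Fin 1, (polU Unit hF).b p = 1 := fun p => by rcases p with p | p <;> rfl
    have h0 : (polU Unit hF).B0 (PolD.r0 u) (PolD.r0 w) = u (Sum.inr ()) * conjHom hF (w (Sum.inr ())) := by
      change ∑ z : Unit, u (Sum.inr z) * conjHom hF (w (Sum.inr z)) = _
      rw [Fintype.sum_unique]
    have hσ : ∀ x, (polU Unit hF).σ x = conjHom hF x := fun _ => rfl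
    rw [h0, hb, hb, hσ, hσ]
    have a1 : (u ∘ ι) 0 = u (Sum.inl (Sum.inl 0)) := rfl
    have a2 : (u ∘ ι) 1 = u (Sum.inr ()) := rfl
    have a3 : (u ∘ ι) 2 = u (Sum.inl (Sum.inr 0)) := rfl
    have b1 : (w ∘ ι) 0 = w (Sum.inl (Sum.inl 0)) := rfl
    have b2 : (w ∘ ι) 1 = w (Sum.inr ()) := rfl
    have b3 : (w ∘ ι) 2 = w (Sum.inl (Sum.inr 0)) := rfl
    have o1 : opp (Sum.inl 0 : Fin 1 ⊕ Fin 1) = Sum.inr 0 := rfl
    have o2 : opp (Sum.inr 0 : Fin 1 ⊕ Fin 1) = Sum.inl 0 := rfl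
    unfold Jf
    rw [a1, a2, a3, b1, b2, b3, o1, o2]
    ring
  let f : U3 hF →* GL (Ix 1 Unit) F := (rex ι : GL (Fin 3) F ≃* GL (Ix 1 Unit) F).toMonoidHom.comp
    (Matrix.SpecialLinearGroup.toGL.comp (U3 hF).subtype)
  have hf : Function.Injective f := by
    intro x y hxy
    have h3 := (rex ι : GL (Fin 3) F ≃* GL (Ix 1 Unit) F).injective hxy
    apply Subtype.ext
    apply Subtype.ext
    exact congrArg Units.val h3
  have hact : ∀ (g : GL (Fin 3) F) (u : Ix 1 Unit → F), ((rex ι g : GL (Ix 1 Unit) F) : Matrix (Ix 1 Unit) (Ix 1 Unit) F).mulVec u =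
      ((g : Matrix (Fin 3) (Fin 3) F).mulVec (u ∘ ι)) ∘ ι.symm := fun g u => rex_mulVec ι g u
  have hc : ∀ w : Fin 3 → F, (w ∘ ι.symm) ∘ ι = w := fun w => by funext i; simp
  have hdet : ∀ g : GL (Fin 3) F, ((rex ι g : GL (Ix 1 Unit) F) : Matrix (Ix 1 Unit) (Ix 1 Unit) F).det = (g : Matrix (Fin 3) (Fin 3) F).det := by
    intro g
    change ((g : Matrix (Fin 3) (Fin 3) F).submatrix ι.symm ι.symm).det = _
    rw [Matrix.det_submatrix_equiv_self]
  have hr : f.range = G0U Unit 1 hF := by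
    ext g
    constructor
    · rintro ⟨x, rfl⟩
      have hx : ∀ u w, (polU Unit hF).B (PolD.ac (f x) u) (PolD.ac (f x) w) = (polU Unit hF).B u w := by
        intro u w
        have e1 : ∀ u, PolD.ac (f x) u = (((x : SL3) : Matrix (Fin 3) (Fin 3) F).mulVec (u ∘ ι)) ∘ ι.symm := fun u => hact _ u
        rw [e1, e1, hB, hB, hc, hc]
        exact x.2 _ _
      refine Subgroup.mem_inf.2 ⟨⟨hx, fun u => ?_⟩, ?_⟩
      · rw [q_polU, q_polU]; exact hx u u
      · rw [MonoidHom.mem_ker]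
        apply Units.ext
        rw [Matrix.GeneralLinearGroup.val_det_apply, Units.val_one]
        have := hdet (Matrix.SpecialLinearGroup.toGL (x : SL3))
        exact this.trans (x : SL3).2
    · intro hg
      obtain ⟨hg1, hg2⟩ := Subgroup.mem_inf.1 hg
      obtain ⟨x, rfl⟩ := (rex ι : GL (Fin 3) F ≃* GL (Ix 1 Unit) F).surjective g
      rw [MonoidHom.mem_ker] at hg2
      have hd : (x : Matrix (Fin 3) (Fin 3) F).det = 1 := by
        rw [← hdet, ← Matrix.GeneralLinearGroup.val_det_apply, hg2, Units.val_one]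
      refine ⟨⟨⟨(x : Matrix (Fin 3) (Fin 3) F), hd⟩, ?_⟩, ?_⟩
      · intro u v
        have h1 := hg1.1 (u ∘ ι.symm) (v ∘ ι.symm)
        rw [hact, hact, hB, hB, hc, hc, hc, hc] at h1
        exact h1
      · change (rex ι : GL (Fin 3) F ≃* GL (Ix 1 Unit) F) _ = _
        congr 1
        exact Units.ext rfl
  exact ⟨((MonoidHom.ofInjective hf).trans (MulEquiv.subgroupCongr hr)).trans e0⟩

end grp

end Cfsg.Agent.GK.T3
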