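import Cfsg.Agent.GK.T3a

/-!
The Borel subgroup of the three-dimensional unitary group and the Bruhat decomposition.
-/

set_option autoImplicit false
set_option linter.unusedSectionVars false
set_option linter.unusedVariables false
set_option linter.unusedSimpArgs false

namespace Cfsg.Agent.GK.T3

open Subgroup Cfsg.Agent.ClBN Cfsg.Agent.Uni

universe v

section grp
variable {F : Type v} [Field F] [Fintype F] {q : ℕ} (hF : Fintype.card F = q ^ 2)

local notation "SL3" => Matrix.SpecialLinearGroup (Fin 3) F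
local notation "σ" => conjHom hF

/-- the Borel subgroup -/
def Bor : Subgroup SL3 where
  carrier := {g | ∃ x y a, Pc σ x y ∧ g = uM σ x y * hM σ a}
  one_mem' := ⟨0, 0, 1, Pc.zero _, by rw [uM_zero, hM_one, one_mul]⟩
  mul_mem' {g g'} h h' := by
    obtain ⟨x, y, a, hP, rfl⟩ := h
    obtain ⟨x', y', a', hP', rfl⟩ := h'
    have h1 := Pc.conj σ (tt hF) hP' a
    have h2 := Pc.mul σ (tt hF) hP h1
    refine ⟨_, _, a * a', h2, ?_⟩
    rw [← uM_mul, ← hM_conj _ _ _ _ (tt hF), hM_mul]; group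
  inv_mem' {g} h := by
    obtain ⟨x, y, a, hP, rfl⟩ := h
    have h1 := Pc.conj σ (tt hF) (Pc.inv σ (tt hF) hP) a⁻¹
    refine ⟨_, _, a⁻¹, h1, ?_⟩
    rw [← hM_conj _ _ _ _ (tt hF), ← uM_inv σ hP, ← hM_inv]; group

theorem mem_Bor {g : SL3} : g ∈ Bor hF ↔ ∃ x y a, Pc σ x y ∧ g = uM σ x y * hM σ a := Iff.rfl

theorem uM_memB {x y : F} (h : Pc σ x y) : uM σ x y ∈ Bor hF := ⟨x, y, 1, h, by rw [hM_one, mul_one]⟩
theorem hM_memB (a : Fˣ) : hM σ a ∈ Bor hF := ⟨0, 0, a, Pc.zero _, by rw [uM_zero, one_mul]⟩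

/-- unipotent elements of the Borel subgroup -/
def bu {x y : F} (h : Pc σ x y) : Bor hF := ⟨uM σ x y, uM_memB hF h⟩
/-- torus elements of the Borel subgroup -/
def bh (a : Fˣ) : Bor hF := ⟨hM σ a, hM_memB hF a⟩

theorem Bor_le : Bor hF ≤ U3 hF := by
  rintro g ⟨x, y, a, hP, rfl⟩
  exact mul_mem (uM_mem hF hP) (hM_mem hF a)

theorem Bor_entries {g : SL3} (hg : g ∈ Bor hF) : ∃ x y a, Pc σ x y ∧ g = uM σ x y * hM σ a ∧
    (g : Matrix (Fin 3) (Fin 3) F) = !![(a : F), x * (σ (a : F) * (a : F)⁻¹), y * (σ (a : F))⁻¹; 0, σ (a : F) * (a : F)⁻¹, -σ x * (σ (a : F))⁻¹; 0, 0, (σ (a : F))⁻¹] := by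
  obtain ⟨x, y, a, hP, rfl⟩ := hg
  refine ⟨x, y, a, hP, rfl, ?_⟩
  rw [Matrix.SpecialLinearGroup.coe_mul, uM_coe, hM_coe]
  ext i j; fin_cases i <;> fin_cases j <;> simp [Matrix.mul_apply, Fin.sum_univ_three]

theorem sBs_entries {g : SL3} (hg : sM * g * sM ∈ Bor hF) : (g : Matrix (Fin 3) (Fin 3) F) 0 1 = 0 ∧ (g : Matrix (Fin 3) (Fin 3) F) 0 2 = 0 := by
  obtain ⟨x, y, a, hP, e1, e2⟩ := Bor_entries hF hg
  have h1 : (g : Matrix (Fin 3) (Fin 3) F) 0 1 = -(((sM * g * sM : SL3) : Matrix (Fin 3) (Fin 3) F) 2 1) := by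
    rw [Matrix.SpecialLinearGroup.coe_mul, Matrix.SpecialLinearGroup.coe_mul, sM_coe]
    simp [Matrix.mul_apply, Fin.sum_univ_three, Matrix.vecMul, dotProduct]
  have h2 : (g : Matrix (Fin 3) (Fin 3) F) 0 2 = ((sM * g * sM : SL3) : Matrix (Fin 3) (Fin 3) F) 2 0 := by
    rw [Matrix.SpecialLinearGroup.coe_mul, Matrix.SpecialLinearGroup.coe_mul, sM_coe]
    simp [Matrix.mul_apply, Fin.sum_univ_three, Matrix.vecMul, dotProduct]
  rw [h1, h2, e2]
  simp

/-- the intersection of opposite Borel subgroups -/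
theorem inter {g : SL3} (hg : g ∈ Bor hF) (hg' : sM * g * sM ∈ Bor hF) : ∃ a, g = hM σ a := by
  obtain ⟨x, y, a, hP, e1, e2⟩ := Bor_entries hF hg
  obtain ⟨h1, h2⟩ := sBs_entries hF hg'
  have ha : (a : F) ≠ 0 := a.ne_zero
  have ha' : σ (a : F) ≠ 0 := (map_ne_zero (conjHom hF)).2 ha
  rw [e2] at h1 h2
  have h3 : x * (σ (a : F) * (a : F)⁻¹) = 0 := h1
  have h4 : y * (σ (a : F))⁻¹ = 0 := h2
  have hx : x = 0 := (mul_eq_zero.1 h3).resolve_right (mul_ne_zero ha' (inv_ne_zero ha))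
  have hy : y = 0 := (mul_eq_zero.1 h4).resolve_right (inv_ne_zero ha')
  exact ⟨a, by rw [e1, hx, hy, uM_zero, one_mul]⟩

theorem sM_not : (sM : SL3) ∉ Bor hF := by
  intro h
  obtain ⟨x, y, a, hP, e1, e2⟩ := Bor_entries hF h
  have h1 := congrFun (congrFun e2 2) 0
  rw [sM_coe] at h1
  simp at h1

theorem sM_inv : (sM : SL3)⁻¹ = sM := inv_eq_of_mul_eq_one_right sM_sq

/-- uniqueness in the Bruhat decomposition -/
theorem uniq {b1 b2 b1' b2' : SL3} (h1 : b1 ∈ Bor hF) (h2 : b2 ∈ Bor hF) (h1' : b1' ∈ Bor hF) (h2' : b2' ∈ Bor hF)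
    (h : b1 * sM * b2 = b1' * sM * b2') : ∃ a, b1 = b1' * hM σ a ∧ b2' = hM σ (Units.map ((conjHom hF : F →+* F) : F →* F) a)⁻¹ * b2 := by
  have e1 : sM * (b1'⁻¹ * b1) * sM = b2' * b2⁻¹ := by
    have : b1'⁻¹ * b1 = sM * b2' * b2⁻¹ * sM := by
      calc b1'⁻¹ * b1 = b1'⁻¹ * (b1 * sM * b2) * b2⁻¹ * (sM)⁻¹ := by group
        _ = _ := by rw [h, sM_inv]; group
    rw [this]
    calc sM * (sM * b2' * b2⁻¹ * sM) * sM = (sM * sM) * (b2' * b2⁻¹) * (sM * sM) := by group
      _ = _ := by rw [sM_sq]; group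
  obtain ⟨a, ha⟩ := inter hF (mul_mem (inv_mem h1') h1) (by rw [e1]; exact mul_mem h2' (inv_mem h2))
  refine ⟨a, by rw [← ha]; group, ?_⟩
  rw [ha, sM_hM _ _ (tt hF)] at e1
  rw [e1]; group

/-- elements fixing the isotropic line are in the Borel subgroup -/
theorem mem_Bor_of {g : SL3} (hg : g ∈ U3 hF) (h1 : (g : Matrix (Fin 3) (Fin 3) F) 1 0 = 0) (h2 : (g : Matrix (Fin 3) (Fin 3) F) 2 0 = 0) : g ∈ Bor hF := by
  set M := (g : Matrix (Fin 3) (Fin 3) F) with hM'
  have key : ∀ j k : Fin 3, M 0 j * σ (M 2 k) + M 1 j * σ (M 1 k) + M 2 j * σ (M 0 k) = Jf σ (Pi.single j 1) (Pi.single k 1) := by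
    intro j k
    have := hg (Pi.single j 1) (Pi.single k 1)
    rw [← this]
    unfold Jf
    simp only [Matrix.mulVec_single_one, Matrix.col_apply, hM']
  have k01 := key 0 1
  have k02 := key 0 2
  have k11 := key 1 1
  have k12 := key 1 2
  have k22 := key 2 2
  rw [h1, h2] at k01 k02
  simp [Jf, -conjHom_apply] at k01 k02 k11 k12 k22
  have hdet : M.det = 1 := g.2
  rw [Matrix.det_fin_three, h1, h2] at hdet
  have c0 : M 0 0 ≠ 0 := by
    intro h; rw [h] at hdet; simp at hdet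
  have m21 : M 2 1 = 0 := k01.resolve_left c0
  have m22 : σ (M 2 2) = (M 0 0)⁻¹ := (eq_inv_of_mul_eq_one_right k02)
  have m22' : M 2 2 = (σ (M 0 0))⁻¹ := by
    have := congrArg σ m22
    rwa [tt, map_inv₀] at this
  rw [m21] at k11 k12 hdet
  rw [m22] at k12 k22
  rw [m22'] at hdet k22
  have cs0 : σ (M 0 0) ≠ 0 := (map_ne_zero (conjHom hF)).2 c0
  simp only [map_zero, mul_zero, zero_mul, zero_add, add_zero, sub_zero] at k11 k12 hdet
  have m11 : M 1 1 = σ (M 0 0) * (M 0 0)⁻¹ := by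
    field_simp at hdet
    field_simp
    linear_combination hdet
  refine ⟨M 0 1 * (M 0 0 * (σ (M 0 0))⁻¹), M 0 2 * σ (M 0 0), Units.mk0 _ c0, ?_, ?_⟩
  · unfold Pc
    have e12 : M 1 2 = -(M 0 0)⁻¹ * (M 0 0) * σ (M 0 1) * (σ (M 1 1))⁻¹ * (M 0 0)⁻¹ * 1 ∨ True := Or.inr trivial
    have k12' : σ (M 0 1) * (σ (M 0 0))⁻¹ + M 1 1 * σ (M 1 2) = 0 ∨ True := Or.inr trivial
    rw [m11] at k12
    have m12 : σ (M 1 2) = -M 0 1 * (M 0 0)⁻¹ * (M 0 0) * (σ (M 0 0))⁻¹ := by
      field_simp at k12 ⊢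
      linear_combination k12
    have m12' : M 1 2 = -σ (M 0 1) * (M 0 0)⁻¹ := by
      have := congrArg σ m12
      rw [tt] at this
      rw [this]
      simp only [map_mul, map_neg, map_inv₀, tt hF]
      field_simp
    rw [m12, m12'] at k22
    simp only [map_mul, map_inv₀, tt hF]
    field_simp at k22 ⊢
    linear_combination k22
  · apply ext3
    have m12 : M 1 2 = -σ (M 0 1) * (M 0 0)⁻¹ := by
      rw [m11] at k12
      have m12 : σ (M 1 2) = -M 0 1 * (M 0 0)⁻¹ * (M 0 0) * (σ (M 0 0))⁻¹ := by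
        field_simp at k12 ⊢
        linear_combination k12
      have := congrArg σ m12
      rw [tt] at this
      rw [this]
      simp only [map_mul, map_neg, map_inv₀, tt hF]
      field_simp
    rw [Matrix.SpecialLinearGroup.coe_mul, uM_coe, hM_coe, Units.val_mk0]
    simp only [map_mul, map_inv₀, tt hF]
    ext i j
    fin_cases i <;> fin_cases j <;> simp only [Fin.zero_eta, Fin.mk_one, Fin.reduceFinMk, Matrix.mul_apply, Fin.sum_univ_three, Matrix.of_apply, Matrix.cons_val', Matrix.cons_val_zero, Matrix.cons_val_one,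
      Matrix.cons_val, Matrix.cons_val_fin_one, zero_mul, mul_zero, one_mul, mul_one, add_zero, zero_add]
    · rfl
    · change M 0 1 = _; field_simp
    · change M 0 2 = _; field_simp
    · exact h1
    · exact m11
    · change M 1 2 = _; rw [m12]; field_simp
    · exact h2
    · exact m21
    · exact m22'

/-- the Bruhat decomposition -/
theorem bruhat {g : SL3} (hg : g ∈ U3 hF) : g ∈ Bor hF ∨ ∃ b1 ∈ Bor hF, ∃ b2 ∈ Bor hF, g = b1 * sM * b2 := by
  by_cases h2 : (g : Matrix (Fin 3) (Fin 3) F) 2 0 = 0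
  · left
    have h := hg (Pi.single 0 1) (Pi.single 0 1)
    unfold Jf at h
    simp only [Matrix.mulVec_single_one, Matrix.col_apply] at h
    rw [h2] at h
    simp [-conjHom_apply] at h
    exact mem_Bor_of hF hg h h2
  · right
    set M := (g : Matrix (Fin 3) (Fin 3) F) with hM'
    have h := hg (Pi.single 0 1) (Pi.single 0 1)
    unfold Jf at h
    simp only [Matrix.mulVec_single_one, Matrix.col_apply] at h
    simp [-conjHom_apply] at h
    rw [← hM'] at h
    have hs : σ (M 2 0) ≠ 0 := (map_ne_zero (conjHom hF)).2 h2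
    have hP : Pc σ (-σ (M 1 0 / M 2 0)) (M 0 0 / M 2 0) := by
      unfold Pc
      simp only [map_neg, map_div₀, tt hF]
      field_simp
      linear_combination h
    refine ⟨_, uM_memB hF hP, sM * (uM σ (-σ (M 1 0 / M 2 0)) (M 0 0 / M 2 0))⁻¹ * g, ?_, ?_⟩
    · apply mem_Bor_of hF
      · exact mul_mem (mul_mem (sM_mem hF) (inv_mem (uM_mem hF hP))) hg
      · rw [uM_inv _ hP, Matrix.SpecialLinearGroup.coe_mul, Matrix.SpecialLinearGroup.coe_mul, sM_coe, uM_coe, ← hM']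
        simp only [Matrix.mul_apply, Fin.sum_univ_three, Matrix.of_apply, Matrix.cons_val', Matrix.cons_val_zero, Matrix.cons_val_one,
          Matrix.cons_val, Matrix.cons_val_fin_one, zero_mul, mul_zero, one_mul, mul_one, add_zero, zero_add, map_neg, neg_neg, map_div₀, tt hF]
        field_simp
        ring
      · rw [uM_inv _ hP, Matrix.SpecialLinearGroup.coe_mul, Matrix.SpecialLinearGroup.coe_mul, sM_coe, uM_coe, ← hM']
        simp only [Matrix.mul_apply, Fin.sum_univ_three, Matrix.of_apply, Matrix.cons_val', Matrix.cons_val_zero, Matrix.cons_val_one,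
          Matrix.cons_val, Matrix.cons_val_fin_one, zero_mul, mul_zero, one_mul, mul_one, add_zero, zero_add, map_neg, neg_neg, map_div₀, tt hF]
        field_simp
        linear_combination h
    · calc g = uM σ (-σ (M 1 0 / M 2 0)) (M 0 0 / M 2 0) * ((sM * sM) * ((uM σ (-σ (M 1 0 / M 2 0)) (M 0 0 / M 2 0))⁻¹ * g)) := by
            rw [sM_sq]; group
        _ = _ := by group

end grp

end Cfsg.Agent.GK.T3
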