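import Cfsg.Agent.GK.T3b

/-!
Finitely many relations involving the reflection imply all of them.
-/

set_option autoImplicit false
set_option linter.unusedSectionVars false
set_option linter.unusedVariables false
set_option linter.unusedSimpArgs false

namespace Cfsg.Agent.GK.T3

open Subgroup Cfsg.Agent.ClBN Cfsg.Agent.Uni

universe v

section main
variable {F : Type v} [Field F] [Fintype F] {q : ℕ} (hF : Fintype.card F = q ^ 2) {Γ : Type*} [Group Γ]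

local notation "SL3" => Matrix.SpecialLinearGroup (Fin 3) F
local notation "σ" => conjHom hF

/-- the conjugate of a unit -/
def cu (a : Fˣ) : Fˣ := Units.map ((conjHom hF : F →+* F) : F →* F) a

theorem cu_coe (a : Fˣ) : ((cu hF a : Fˣ) : F) = σ (a : F) := rfl

/-- the torus as a homomorphism -/
def bhH : Fˣ →* Bor hF := MonoidHom.mk' (bh hF) fun a b => Subtype.ext (hM_mul _ a b)

theorem bh_mul (a b : Fˣ) : bh hF (a * b) = bh hF a * bh hF b := map_mul (bhH hF) a b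
theorem bh_inv (a : Fˣ) : bh hF a⁻¹ = (bh hF a)⁻¹ := map_inv (bhH hF) a
theorem bh_pow (a : Fˣ) (n : ℕ) : bh hF (a ^ n) = bh hF a ^ n := map_pow (bhH hF) a n
theorem bh_one : bh hF 1 = 1 := map_one (bhH hF)

theorem bu_congr {x y x' y' : F} (h : Pc σ x y) (h' : Pc σ x' y') (e1 : x = x') (e2 : y = y') : bu hF h = bu hF h' := by
  subst e1 e2; rfl

theorem bu_mul {x y x' y' : F} (h : Pc σ x y) (h' : Pc σ x' y') : bu hF h * bu hF h' = bu hF (Pc.mul σ (tt hF) h h') :=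
  Subtype.ext (uM_mul _ _ _ _ _)

theorem bh_conj {x y : F} (h : Pc σ x y) (a : Fˣ) : bh hF a * bu hF h * (bh hF a)⁻¹ = bu hF (Pc.conj σ (tt hF) h a) :=
  Subtype.ext (hM_conj _ a x y (tt hF))

/-- the parameters of the first factor -/
theorem Pc_a {x : F} {y : Fˣ} (h : Pc σ x y) : Pc σ (-x / σ (y : F)) (y : F)⁻¹ := by
  have h1 : (y : F) ≠ 0 := y.ne_zero
  have h2 : σ (y : F) ≠ 0 := (map_ne_zero (conjHom hF)).2 h1
  unfold Pc at *
  simp only [map_div₀, map_neg, map_inv₀, tt hF]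
  field_simp
  linear_combination h

/-- the parameters of the second factor -/
theorem Pc_c {x : F} {y : Fˣ} (h : Pc σ x y) : Pc σ (-x / (y : F)) (y : F)⁻¹ := by
  have h1 : (y : F) ≠ 0 := y.ne_zero
  have h2 : σ (y : F) ≠ 0 := (map_ne_zero (conjHom hF)).2 h1
  unfold Pc at *
  simp only [map_div₀, map_neg, map_inv₀, tt hF]
  field_simp
  linear_combination h

/-- the canonical relation -/
def CR (ρ : Bor hF →* Γ) (s : Γ) {x : F} {y : Fˣ} (h : Pc σ x y) : Prop :=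
  s * ρ (bu hF h) * s = ρ (bu hF (Pc_a hF h) * bh hF (cu hF y)⁻¹) * s * ρ (bu hF (Pc_c hF h))

/-- the data -/
structure SR (ρ : Bor hF →* Γ) (s : Γ) (π : Γ →* U3 hF) : Prop where
  ss : s * s = 1
  sh : ∀ a, s * ρ (bh hF a) * s = ρ (bh hF (cu hF a)⁻¹)
  hπ : ∀ b, ((π (ρ b) : U3 hF) : SL3) = b
  hs : ((π s : U3 hF) : SL3) = sM

/-- the big cell -/
def DD (ρ : Bor hF →* Γ) (s : Γ) : Set Γ := {g | ∃ b1 b2, g = ρ b1 * s * ρ b2}

/-- the relation holds in some form -/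
def QQ (ρ : Bor hF →* Γ) (s : Γ) (b : Bor hF) : Prop := s * ρ b * s ∈ DD hF ρ s

variable {hF} {ρ : Bor hF →* Γ} {s : Γ} {π : Γ →* U3 hF} (R : SR hF ρ s π)
include R

theorem DD_mul {g : Γ} (hg : g ∈ DD hF ρ s) (b b' : Bor hF) : ρ b * g * ρ b' ∈ DD hF ρ s := by
  obtain ⟨b1, b2, rfl⟩ := hg
  exact ⟨b * b1, b2 * b', by rw [map_mul, map_mul]; group⟩

theorem sinv : s⁻¹ = s := inv_eq_of_mul_eq_one_right R.ss

theorem sp (a b : Γ) : s * (a * b) * s = (s * a * s) * (s * b * s) := by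
  have e : (s * a * s) * (s * b * s) = s * a * (s * s) * b * s := by group
  rw [e, R.ss]; group

theorem QQ_hb {b : Bor hF} (h : QQ hF ρ s b) (a : Fˣ) : QQ hF ρ s (bh hF a * b) := by
  unfold QQ at *
  have e : s * ρ (bh hF a * b) * s = ρ (bh hF (cu hF a)⁻¹) * (s * ρ b * s) * ρ 1 := by
    rw [← R.sh, map_mul, map_one, sp R, mul_one]
  rw [e]; exact DD_mul R h _ _

theorem QQ_bh {b : Bor hF} (h : QQ hF ρ s b) (a : Fˣ) : QQ hF ρ s (b * bh hF a) := by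
  unfold QQ at *
  have e : s * ρ (b * bh hF a) * s = ρ 1 * (s * ρ b * s) * ρ (bh hF (cu hF a)⁻¹) := by
    rw [← R.sh, map_mul, map_one, sp R, one_mul]
  rw [e]; exact DD_mul R h _ _

theorem QQ_conj {x y : F} {h : Pc σ x y} (hQ : QQ hF ρ s (bu hF h)) (a : Fˣ) : QQ hF ρ s (bu hF (Pc.conj σ (tt hF) h a)) := by
  rw [← bh_conj, ← bh_inv]
  exact QQ_bh R (QQ_hb R hQ a) _

theorem QQ_prod {b1 b2 a1 c1 a2 c2 : Bor hF} (h1 : s * ρ b1 * s = ρ a1 * s * ρ c1) (h2 : s * ρ b2 * s = ρ a2 * s * ρ c2) (h : QQ hF ρ s (c1 * a2)) :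
    QQ hF ρ s (b1 * b2) := by
  unfold QQ at *
  have e : s * ρ (b1 * b2) * s = ρ a1 * (s * ρ (c1 * a2) * s) * ρ c2 := by
    rw [map_mul, sp R, h1, h2, map_mul]; group
  rw [e]; exact DD_mul R h _ _

/-- the canonical form -/
theorem canon {x : F} {y : Fˣ} {h : Pc σ x y} (hQ : QQ hF ρ s (bu hF h)) : CR hF ρ s h := by
  obtain ⟨b1, b2, e⟩ := hQ
  unfold CR
  have e1 : (b1 : SL3) * sM * (b2 : SL3) = (uM σ (-x / σ (y : F)) (y : F)⁻¹ * hM σ (cu hF y)⁻¹) * sM * uM σ (-x / (y : F)) (y : F)⁻¹ := by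
    have h1 := congrArg (fun g => ((π g : U3 hF) : SL3)) e
    simp only [map_mul, Subgroup.coe_mul, R.hπ, R.hs] at h1
    rw [← h1]
    exact sM_uM σ y (tt hF) h
  obtain ⟨a, e2, e3⟩ := uniq hF b1.2 b2.2 (mul_mem (uM_memB hF (Pc_a hF h)) (hM_memB hF _)) (uM_memB hF (Pc_c hF h)) e1
  have f1 : b1 = (bu hF (Pc_a hF h) * bh hF (cu hF y)⁻¹) * bh hF a := Subtype.ext e2
  have f2 : bu hF (Pc_c hF h) = bh hF (cu hF a)⁻¹ * b2 := Subtype.ext e3
  rw [e, f2, f1, map_mul ρ _ (bh hF a), map_mul ρ (bh hF (cu hF a)⁻¹), ← R.sh]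
  have e4 : ρ (bu hF (Pc_a hF h) * bh hF (cu hF y)⁻¹) * s * (s * ρ (bh hF a) * s * ρ b2) =
      ρ (bu hF (Pc_a hF h) * bh hF (cu hF y)⁻¹) * (s * s) * ρ (bh hF a) * s * ρ b2 := by group
  rw [e4, R.ss, mul_one]

omit R in
theorem CR.qq {x : F} {y : Fˣ} {h : Pc σ x y} (hc : CR hF ρ s h) : QQ hF ρ s (bu hF h) := ⟨_, _, hc⟩

/-- all elements with the second coordinate in a class are good -/
def GC (ρ : Bor hF →* Γ) (s : Γ) (c : F) : Prop := ∀ {x y : F} (h : Pc σ x y), (∃ r : F, σ r = r ∧ r ≠ 0 ∧ y = r * c) → QQ hF ρ s (bu hF h)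

omit R in
theorem Pc_z {z : F} (hz : σ z = -z) : Pc σ 0 z := by unfold Pc; rw [hz, map_zero]; ring

/-- the propagation -/
theorem prop {β c : F} (hβ : GC (hF := hF) ρ s β) (hβ0 : β ≠ 0) (hβt : β + σ β ≠ 0) (hZ : ∀ {z : F} (hz : σ z = -z), z ≠ 0 → QQ hF ρ s (bu hF (Pc_z hz)))
    (hc0 : c ≠ 0) (hct : c + σ c ≠ 0) (hcβ : ∀ r : F, σ r = r → c ≠ r * β) {d : F}
    (hd : ∀ z : F, σ z = -z → z ≠ 0 → ∃ r : F, σ r = r ∧ r ≠ 0 ∧ c / (z * β) = r * d) (hGd : GC (hF := hF) ρ s d) : GC (hF := hF) ρ s c := by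
  intro x y' h' hy'
  obtain ⟨r, hr, hr0, rfl⟩ := hy'
  have htr : σ (c + σ c) = c + σ c := by rw [map_add, tt]; ring
  have htβ : σ (β + σ β) = β + σ β := by rw [map_add, tt]; ring
  set k := r * (c + σ c) / (β + σ β) with hk
  have hkσ : σ k = k := by rw [hk, map_div₀, map_mul, hr, htr, htβ]
  have hk0 : k ≠ 0 := div_ne_zero (mul_ne_zero hr0 hct) hβt
  have hy0 : k * β ≠ 0 := mul_ne_zero hk0 hβ0
  set z := r * c - k * β with hz
  have hkt : k * (β + σ β) = r * (c + σ c) := by rw [hk, div_mul_cancel₀ _ hβt]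
  have hzσ : σ z = -z := by
    rw [hz, map_sub, map_mul, map_mul, hr, hkσ]
    linear_combination -hkt
  have hz0 : z ≠ 0 := by
    intro e
    apply hcβ (k / r) (by rw [map_div₀, hkσ, hr])
    have e1 : r * c = k * β := sub_eq_zero.1 e
    field_simp
    rw [mul_comm c]; exact e1
  have hP : Pc σ x (k * β) := by
    unfold Pc at *
    rw [map_mul, hkσ]
    rw [map_mul, hr] at h'
    linear_combination h' + hkt
  have q1 := hZ hzσ hz0
  have q2 : QQ hF ρ s (bu hF hP) := hβ hP ⟨k, hkσ, hk0, rfl⟩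
  have c1 := canon R (x := 0) (y := Units.mk0 z hz0) (h := Pc_z hzσ) q1
  have c2 := canon R (x := x) (y := Units.mk0 (k * β) hy0) (h := hP) q2
  have e0 : bu hF h' = bu hF (Pc_z hzσ) * bu hF hP := by
    rw [bu_mul]
    apply bu_congr
    · ring
    · rw [hz]; ring
  rw [e0]
  refine QQ_prod R c1 c2 ?_
  have e3 : bu hF (Pc_c hF (x := 0) (y := Units.mk0 z hz0) (Pc_z hzσ)) *
      (bu hF (Pc_a hF (x := x) (y := Units.mk0 (k * β) hy0) hP) * bh hF (cu hF (Units.mk0 (k * β) hy0))⁻¹) =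
      (bu hF (Pc_c hF (x := 0) (y := Units.mk0 z hz0) (Pc_z hzσ)) *
      bu hF (Pc_a hF (x := x) (y := Units.mk0 (k * β) hy0) hP)) * bh hF (cu hF (Units.mk0 (k * β) hy0))⁻¹ := by group
  rw [e3, bu_mul]
  refine QQ_bh R (hGd _ ?_) _
  obtain ⟨t, ht, ht0, hte⟩ := hd z hzσ hz0
  refine ⟨r / k * t, by rw [map_mul, map_div₀, hr, hkσ, ht], mul_ne_zero (div_ne_zero hr0 hk0) ht0, ?_⟩
  rw [mul_assoc, ← hte, Units.val_mk0, Units.val_mk0]
  have hz0' : z ≠ 0 := hz0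
  rw [neg_zero, zero_div, zero_mul, sub_zero]
  have e5 : z⁻¹ + (k * β)⁻¹ = (z + k * β) / (z * (k * β)) := by field_simp; ring
  have e6 : z + k * β = r * c := by rw [hz]; ring
  rw [e5, e6]
  field_simp

end main

section chain
variable {F : Type v} [Field F] [Fintype F] {q : ℕ} {hF : Fintype.card F = q ^ 2} {Γ : Type*} [Group Γ]

local notation "SL3" => Matrix.SpecialLinearGroup (Fin 3) F
local notation "σ" => conjHom hF

theorem q2 (hF : Fintype.card F = q ^ 2) : 2 ≤ q := two_le_q hF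

theorem zeta_fix {ζ : Fˣ} (hζ : IsGen ζ) (j : ℕ) : σ ((ζ ^ j : Fˣ) : F) = ((ζ ^ j : Fˣ) : F) ↔ q + 1 ∣ j := by
  have h2 := q2 hF
  have ho : orderOf ζ = q ^ 2 - 1 := by rw [hζ.orderOf, hF]
  have e1 : q ^ 2 - 1 = (q + 1) * (q - 1) := by
    obtain ⟨r, rfl⟩ := Nat.exists_eq_add_of_le h2
    have : 2 + r - 1 = r + 1 := by omega
    rw [this]
    have : (2 + r) ^ 2 = (2 + r + 1) * (r + 1) + 1 := by ring
    omega
  have e2 : σ ((ζ ^ j : Fˣ) : F) = ((ζ ^ j : Fˣ) : F) ↔ (ζ ^ j) ^ (q - 1) = 1 := by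
    rw [conjHom_apply, ← Units.val_pow_eq_pow_val, Units.val_inj]
    have : (ζ ^ j) ^ q = (ζ ^ j) ^ (q - 1) * ζ ^ j := by rw [← pow_succ, Nat.sub_add_cancel (by omega)]
    rw [this, mul_eq_right]
  rw [e2, ← pow_mul, ← orderOf_dvd_iff_pow_eq_one, ho, e1]
  exact Nat.mul_dvd_mul_iff_right (by omega)

/-- the finitely many relations -/
structure BS (ρ : Bor hF →* Γ) (s : Γ) (ν : F) (ζ : Fˣ) (x0 : F) (hν : σ ν = -ν) (h0 : ∀ i : ℕ, Pc σ (x0 * ((ζ ^ ((q - 1) * i) : Fˣ) : F)) (ν * ((ζ ^ q : Fˣ) : F))) : Prop where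
  z : QQ hF ρ s (bu hF (Pc_z hν))
  b : ∀ i < 3, QQ hF ρ s (bu hF (h0 i))

variable {ρ : Bor hF →* Γ} {s : Γ} {π : Γ →* U3 hF} (R : SR hF ρ s π) {ν : F} {ζ : Fˣ} {x0 : F} {hν : conjHom hF ν = -ν}
  {h0 : ∀ i : ℕ, Pc (conjHom hF) (x0 * ((ζ ^ ((q - 1) * i) : Fˣ) : F)) (ν * ((ζ ^ q : Fˣ) : F))}
  (B : BS ρ s ν ζ x0 hν h0) (hζ : IsGen ζ) (ν0 : ν ≠ 0)

include R B ν0 in
theorem zall {z : F} (hz : σ z = -z) (hz0 : z ≠ 0) : QQ hF ρ s (bu hF (Pc_z hz)) := by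
  obtain ⟨d, hd⟩ := Un.normU hF (z / ν) (by rw [map_div₀, hz, hν, neg_div_neg_eq]) (div_ne_zero hz0 ν0)
  have h1 := QQ_conj R B.z d
  rw [Un.nn_coe] at hd
  have e : bu hF (Pc_z hz) = bu hF (Pc.conj σ (tt hF) (Pc_z hν) d) := by
    apply bu_congr
    · rw [mul_zero]
    · have : (d : F) * σ (d : F) = z / ν := by rw [← hd]
      rw [this, div_mul_cancel₀ _ ν0]
  rw [e]; exact h1

include hν hζ ν0 in
theorem tr_ne {k : ℕ} (hk : ¬ q + 1 ∣ k) : ν * ((ζ ^ k : Fˣ) : F) + σ (ν * ((ζ ^ k : Fˣ) : F)) ≠ 0 := by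
  rw [map_mul, hν]
  intro e
  apply hk
  rw [← zeta_fix (hF := hF) hζ]
  have e1 : ν * (((ζ ^ k : Fˣ) : F) - σ ((ζ ^ k : Fˣ) : F)) = 0 := by linear_combination e
  exact (sub_eq_zero.1 ((mul_eq_zero.1 e1).resolve_left ν0)).symm

include R B hζ ν0 in
theorem gc_base : GC (hF := hF) ρ s (ν * ((ζ ^ q : Fˣ) : F)) := by
  intro x y h hy
  obtain ⟨r, hr, hr0, rfl⟩ := hy
  have h2 := q2 hF
  obtain ⟨d, hd⟩ := Un.normU hF r hr hr0
  rw [Un.nn_coe] at hd
  have hd' : (d : F) * σ (d : F) = r := by rw [← hd]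
  have hdc := d.ne_zero
  have hdc' : σ (d : F) ≠ 0 := (map_ne_zero (conjHom hF)).2 hdc
  -- reduce to the base point
  have hx0 : x0 * σ x0 = -(ν * ((ζ ^ q : Fˣ) : F) + σ (ν * ((ζ ^ q : Fˣ) : F))) := by
    have := h0 0
    unfold Pc at this
    rw [mul_zero, pow_zero, Units.val_one, mul_one] at this
    linear_combination this
  have hy0 : ν * ((ζ ^ q : Fˣ) : F) ≠ 0 := mul_ne_zero ν0 (ζ ^ q).ne_zero
  have htr := tr_ne (hF := hF) (hν := hν) hζ ν0 (k := q) (fun hdv => by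
    have := Nat.le_of_dvd (by omega) hdv
    omega)
  have hx00 : x0 ≠ 0 := by
    rintro rfl
    rw [zero_mul] at hx0
    exact htr (neg_eq_zero.1 hx0.symm)
  have hx0s : σ x0 ≠ 0 := (map_ne_zero (conjHom hF)).2 hx00
  set x' := x * σ (d : F) * ((d : F) ^ 2)⁻¹ with hx'
  have hxx : x' * σ x' = x0 * σ x0 := by
    rw [hx0]
    unfold Pc at h
    rw [map_mul, hr, ← hd'] at h
    rw [hx']
    simp only [map_mul, map_inv₀, map_pow, tt hF]
    field_simp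
    simp only [map_mul] at h ⊢
    have e1 : x * σ x = -((d : F) * σ (d : F) * (ν * ((ζ ^ q : Fˣ) : F)) + (d : F) * σ (d : F) * (σ ν * σ ((ζ ^ q : Fˣ) : F))) := by
      linear_combination h
    have e2 : x * σ x * 1 = x * σ x := mul_one _
    linear_combination e1
  have hμ0 : x' ≠ 0 := by
    intro e
    rw [e, zero_mul] at hxx
    exact mul_ne_zero hx00 hx0s hxx.symm
  obtain ⟨n, hn⟩ := hζ (Units.mk0 (x' / x0) (div_ne_zero hμ0 hx00))
  have hn' : ((ζ ^ n : Fˣ) : F) = x' / x0 := by rw [hn]; rfl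
  have hn1 : ζ ^ (n * (q + 1)) = 1 := by
    apply Units.ext
    rw [pow_mul, pow_succ, Units.val_mul, Units.val_pow_eq_pow_val, Units.val_one]
    have : ((ζ ^ n : Fˣ) : F) ^ q = σ ((ζ ^ n : Fˣ) : F) := rfl
    rw [this, hn', map_div₀]
    have hxs : σ x' ≠ 0 := (map_ne_zero (conjHom hF)).2 hμ0
    field_simp
    linear_combination hxx
  have ho : orderOf ζ = q ^ 2 - 1 := by rw [hζ.orderOf, hF]
  have e1 : q ^ 2 - 1 = (q - 1) * (q + 1) := by
    obtain ⟨r, rfl⟩ := Nat.exists_eq_add_of_le h2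
    have : 2 + r - 1 = r + 1 := by omega
    rw [this]
    have : (2 + r) ^ 2 = (r + 1) * (2 + r + 1) + 1 := by ring
    omega
  have hdv := orderOf_dvd_of_pow_eq_one hn1
  rw [ho, e1] at hdv
  obtain ⟨m, hm⟩ := (Nat.mul_dvd_mul_iff_right (by omega : 0 < q + 1)).1 hdv
  set ω : Fˣ := ζ ^ (q - 1) with hω
  have hωn : (ω : F) * σ (ω : F) = 1 := by
    have : (ω : F) * σ (ω : F) = ((ω ^ (q + 1) : Fˣ) : F) := by
      rw [Units.val_pow_eq_pow_val, pow_succ, mul_comm]; rfl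
    rw [this, hω, ← pow_mul, ← e1, ← ho, pow_orderOf_eq_one, Units.val_one]
  have hωk : ∀ k : ℕ, ((ω ^ k : Fˣ) : F) * σ ((ω ^ k : Fˣ) : F) = 1 := by
    intro k
    rw [Units.val_pow_eq_pow_val, map_pow, ← mul_pow, hωn, one_pow]
  have hωi : ∀ i, ((ζ ^ ((q - 1) * i) : Fˣ) : F) = ((ω ^ i : Fˣ) : F) := by
    intro i; rw [pow_mul]
  -- the base relation
  have hi : m % 3 < 3 := Nat.mod_lt _ (by norm_num)
  have q1 := QQ_conj R (QQ_conj R (B.b (m % 3) hi) (ω ^ (m / 3))) d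
  have e3 : bu hF h = bu hF (Pc.conj σ (tt hF) (Pc.conj σ (tt hF) (h0 (m % 3)) (ω ^ (m / 3))) d) := by
    have a1 := hωk (m / 3)
    have a2 : ((ω ^ (m / 3) : Fˣ) : F) ≠ 0 := (ω ^ (m / 3)).ne_zero
    have a3 : σ ((ω ^ (m / 3) : Fˣ) : F) = (((ω ^ (m / 3) : Fˣ) : F))⁻¹ := by
      exact eq_inv_of_mul_eq_one_right a1
    apply bu_congr
    · have a4 : x' = x0 * ((ω ^ m : Fˣ) : F) := by
        rw [← hωi, ← hm, hn', mul_div_cancel₀ _ hx00]
      have a5 : ω ^ m = (ω ^ (m / 3)) ^ 3 * ω ^ (m % 3) := by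
        clear_value ω
        rw [← pow_mul, ← pow_add]
        congr 1
        omega
      have a6 : x = (d : F) ^ 2 * (σ (d : F))⁻¹ * x' := by rw [hx']; field_simp
      rw [a6, a4, a3, hωi, a5, Units.val_mul, Units.val_pow_eq_pow_val (ω ^ (m / 3)) 3, inv_inv]
      ring
    · rw [a1, one_mul, hd']
  rw [e3]; exact q1

include R B hζ ν0 in
/-- all classes -/
theorem gc_all : ∀ j k : ℕ, k + j = q → 1 ≤ k → GC (hF := hF) ρ s (ν * ((ζ ^ k : Fˣ) : F)) := by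
  intro j
  induction j with
  | zero =>
    intro k hk _
    rw [add_zero] at hk
    rw [hk]; exact gc_base R B hζ ν0
  | succ j ih =>
    intro k hk hk1
    have h2 := q2 hF
    have n1 : ¬ q + 1 ∣ q := fun hdv => by
      have := Nat.le_of_dvd (by omega) hdv
      omega
    have n2 : ¬ q + 1 ∣ k := fun hdv => by
      have := Nat.le_of_dvd (by omega) hdv
      omega
    intro x y
    refine prop R (β := ν * ((ζ ^ q : Fˣ) : F)) (gc_base R B hζ ν0) (mul_ne_zero ν0 (ζ ^ q).ne_zero) (tr_ne (hν := hν) hζ ν0 n1)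
      (fun hz hz0 => zall R B ν0 hz hz0) (mul_ne_zero ν0 (ζ ^ k).ne_zero) (tr_ne (hν := hν) hζ ν0 n2) ?_
      (d := ν * ((ζ ^ (k + 1) : Fˣ) : F)) ?_ (ih (k + 1) (by omega) (by omega))
    · intro r hr e
      have e1 : ((ζ ^ k : Fˣ) : F) = r * ((ζ ^ q : Fˣ) : F) := by
        have : ν * ((ζ ^ k : Fˣ) : F) = ν * (r * ((ζ ^ q : Fˣ) : F)) := by rw [e]; ring
        exact mul_left_cancel₀ ν0 this
      have hr0 : r ≠ 0 := by rintro rfl; rw [zero_mul] at e1; exact (ζ ^ k).ne_zero e1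
      have e2 : ((ζ ^ (q - k) : Fˣ) : F) = r⁻¹ := by
        have : ζ ^ q = ζ ^ k * ζ ^ (q - k) := by rw [← pow_add]; congr 1; omega
        rw [this, Units.val_mul] at e1
        have h3 : ((ζ ^ k : Fˣ) : F) ≠ 0 := (ζ ^ k).ne_zero
        have h4 : r * ((ζ ^ (q - k) : Fˣ) : F) = 1 := by
          apply mul_left_cancel₀ h3
          rw [mul_one]
          linear_combination -e1
        exact eq_inv_of_mul_eq_one_right h4
      have e3 : q + 1 ∣ q - k := by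
        rw [← zeta_fix (hF := hF) hζ, e2, map_inv₀, hr]
      have := Nat.le_of_dvd (by omega) e3
      omega
    · intro z hz hz0
      have e1 : σ ((ζ ^ (q + 1) : Fˣ) : F) = ((ζ ^ (q + 1) : Fˣ) : F) := (zeta_fix hζ _).2 dvd_rfl
      refine ⟨(z * ν * ((ζ ^ (q + 1) : Fˣ) : F))⁻¹, ?_, inv_ne_zero (mul_ne_zero (mul_ne_zero hz0 ν0) (ζ ^ (q + 1)).ne_zero), ?_⟩
      · rw [map_inv₀, map_mul, map_mul, hz, hν, e1]; ring_nf
      · have h3 : ((ζ ^ k : Fˣ) : F) ≠ 0 := (ζ ^ k).ne_zero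
        have h4 : ((ζ ^ q : Fˣ) : F) ≠ 0 := (ζ ^ q).ne_zero
        have h5 : (ζ : F) ≠ 0 := ζ.ne_zero
        rw [pow_succ, pow_succ, Units.val_mul, Units.val_mul]
        field_simp

include R B hζ ν0 in
/-- all relations -/
theorem qq_all {x y : F} (h : Pc σ x y) (hy : y ≠ 0) : QQ hF ρ s (bu hF h) := by
  have h2 := q2 hF
  by_cases ht : y + σ y = 0
  · have hx : x = 0 := by
      unfold Pc at h
      rw [ht, zero_add] at h
      rcases mul_eq_zero.1 h with h1 | h1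
      · exact h1
      · exact (map_eq_zero (conjHom hF)).1 h1
    subst hx
    exact zall R B ν0 (eq_neg_of_add_eq_zero_right ht) hy
  · obtain ⟨n, hn⟩ := hζ (Units.mk0 (y / ν) (div_ne_zero hy ν0))
    have hn' : ((ζ ^ n : Fˣ) : F) = y / ν := by rw [hn]; rfl
    have hyn : y = ν * ((ζ ^ n : Fˣ) : F) := by rw [hn', mul_div_cancel₀ _ ν0]
    have hk : n % (q + 1) ≠ 0 := by
      intro e
      apply ht
      have := (zeta_fix (hF := hF) hζ n).2 (Nat.dvd_of_mod_eq_zero e)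
      rw [hyn, map_mul, this, hν]; ring
    have hlt := Nat.mod_lt n (by omega : q + 1 > 0)
    refine gc_all R B hζ ν0 (q - n % (q + 1)) (n % (q + 1)) (by omega) (by omega) h ⟨((ζ ^ ((q + 1) * (n / (q + 1))) : Fˣ) : F), ?_, (ζ ^ _).ne_zero, ?_⟩
    · exact (zeta_fix hζ _).2 (dvd_mul_right _ _)
    · rw [hyn]
      have : ζ ^ n = ζ ^ ((q + 1) * (n / (q + 1))) * ζ ^ (n % (q + 1)) := by
        rw [← pow_add, Nat.div_add_mod]
      rw [this, Units.val_mul]; ring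

include R B hζ ν0 in
/-- injectivity -/
theorem inj (hgen : ρ.range ⊔ zpowers s = ⊤) : Function.Injective π := by
  have hb : ∀ b : Bor hF, (s * ρ b * s) ∈ ρ.range ∨ (s * ρ b * s) ∈ DD hF ρ s := by
    intro b
    obtain ⟨x, y, a, hP, hbe⟩ := b.2
    have e1 : b = bu hF hP * bh hF a := Subtype.ext hbe
    by_cases hy : y = 0
    · left
      subst hy
      have hx : x = 0 := by
        unfold Pc at hP
        rw [map_zero, zero_add, zero_add] at hP
        rcases mul_eq_zero.1 hP with h1 | h1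
        · exact h1
        · exact (map_eq_zero (conjHom hF)).1 h1
      have e2 : b = bh hF a := by
        apply Subtype.ext
        rw [hbe, hx, uM_zero, one_mul]; rfl
      rw [e2, R.sh]
      exact ⟨_, rfl⟩
    · right
      rw [e1]
      exact QQ_bh R (qq_all R B hζ ν0 hP hy) a
  let H : Subgroup Γ :=
    { carrier := {g | g ∈ ρ.range ∨ g ∈ DD hF ρ s}
      one_mem' := Or.inl (one_mem _)
      mul_mem' := by
        rintro g g' (⟨b, rfl⟩ | ⟨b1, b2, rfl⟩) (⟨b', rfl⟩ | ⟨b1', b2', rfl⟩)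
        · exact Or.inl ⟨b * b', map_mul _ _ _⟩
        · exact Or.inr ⟨b * b1', b2', by rw [map_mul]; group⟩
        · exact Or.inr ⟨b1, b2 * b', by rw [map_mul]; group⟩
        · have e : ρ b1 * s * ρ b2 * (ρ b1' * s * ρ b2') = ρ b1 * (s * ρ (b2 * b1') * s) * ρ b2' := by rw [map_mul]; group
          rw [Set.mem_ofPred_eq, e]
          rcases hb (b2 * b1') with ⟨c, hc⟩ | hc
          · left
            rw [← hc]
            exact ⟨b1 * c * b2', by rw [map_mul, map_mul]⟩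
          · right
            exact DD_mul R hc _ _
      inv_mem' := by
        rintro g (⟨b, rfl⟩ | ⟨b1, b2, rfl⟩)
        · exact Or.inl ⟨b⁻¹, map_inv _ _⟩
        · exact Or.inr ⟨b2⁻¹, b1⁻¹, by rw [map_inv, map_inv, mul_inv_rev, mul_inv_rev, sinv R]; group⟩ }
  have hH : H = ⊤ := by
    rw [eq_top_iff, ← hgen]
    refine sup_le ?_ ?_
    · rintro _ ⟨b, rfl⟩; exact Or.inl ⟨b, rfl⟩
    · rw [zpowers_le]
      exact Or.inr ⟨1, 1, by rw [map_one]; group⟩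
  rw [injective_iff_map_eq_one]
  intro g hg
  have hgH : g ∈ H := by rw [hH]; exact mem_top _
  rcases hgH with ⟨b, rfl⟩ | ⟨b1, b2, rfl⟩
  · have h1 := R.hπ b
    rw [hg] at h1
    have : b = 1 := Subtype.ext h1.symm
    rw [this, map_one]
  · exfalso
    have h1 := congrArg (fun g => ((g : U3 hF) : SL3)) hg
    simp only [map_mul, Subgroup.coe_mul, R.hπ, R.hs, OneMemClass.coe_one] at h1
    apply sM_not hF
    have : (sM : SL3) = (b1 : SL3)⁻¹ * (b2 : SL3)⁻¹ := by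
      calc (sM : SL3) = (b1 : SL3)⁻¹ * ((b1 : SL3) * sM * (b2 : SL3)) * (b2 : SL3)⁻¹ := by group
        _ = _ := by rw [h1]; group
    rw [this]
    exact mul_mem (inv_mem b1.2) (inv_mem b2.2)

end chain

end Cfsg.Agent.GK.T3
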