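import Cfsg.Agent.GK.T3c

/-!
Presentations of the Borel subgroup: injectivity.
-/

set_option autoImplicit false
set_option linter.unusedSectionVars false
set_option linter.unusedVariables false
set_option linter.unusedSimpArgs false

namespace Cfsg.Agent.GK.T3

open Subgroup Polynomial Cfsg.Agent.ClBN Cfsg.Agent.Uni
open Cfsg.Agent.GK (Psi XX pw CC cj_shift cj_zero pw_succ Psi_add Psi_zero Psi_one Psi_X_mul Psi_X_pow_mul Psi_C_mul Psi_mul Psi_congr XX_add XX_one map_Psi map_pw cj_pow)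

universe v

section psi
variable {G : Type*} [Group G] {p : ℕ} [hp : Fact p.Prime] {u k : G}

theorem pw_comm {y : G} (h : ∀ i, Commute y (GK.cj u k i)) (c : ℕ → ℕ) (n : ℕ) : Commute y (pw u k c n) := by
  induction n with
  | zero => exact Commute.one_right _
  | succ n ih => rw [pw_succ]; exact ih.mul_right ((h n).pow_right _)

theorem Psi_comm {y : G} (h : ∀ i, Commute y (GK.cj u k i)) (f : (ZMod p)[X]) : Commute y (Psi u k f) := pw_comm h _ _

/-- conjugation by an element commuting with `k` -/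
theorem Psi_conj (hu : u ^ p = 1) (h : CC u k) {y : G} (hy : Commute y k) {g : (ZMod p)[X]} (hyu : y * u * y⁻¹ = Psi u k g) (f : (ZMod p)[X]) :
    y * Psi u k f * y⁻¹ = Psi u k (f * g) := by
  induction f using Polynomial.induction_on' with
  | add f f' h1 h2 => rw [Psi_add hu h, add_mul, Psi_add hu h, ← h1, ← h2]; group
  | monomial n a =>
    have h1 : Psi u k (monomial n a) = (k ^ n * u * (k ^ n)⁻¹) ^ a.val := by
      rw [← C_mul_X_pow_eq_monomial, Psi_C_mul hu h]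
      congr 1
      rw [← mul_one (Polynomial.X ^ n), Psi_X_pow_mul, Psi_one]
    have h2 : y * (k ^ n * u * (k ^ n)⁻¹) * y⁻¹ = k ^ n * (y * u * y⁻¹) * (k ^ n)⁻¹ := by
      have hyn := (hy.pow_right n).eq
      have hyn' : (k ^ n)⁻¹ * y⁻¹ = y⁻¹ * (k ^ n)⁻¹ := by
        rw [← mul_inv_rev, ← mul_inv_rev, hyn]
      calc y * (k ^ n * u * (k ^ n)⁻¹) * y⁻¹ = (y * k ^ n) * u * ((k ^ n)⁻¹ * y⁻¹) := by group
        _ = _ := by rw [hyn, hyn']; group
    rw [h1, ← conj_pow, h2, hyu, ← Psi_X_pow_mul, ← Psi_C_mul hu h, ← C_mul_X_pow_eq_monomial, mul_assoc]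

end psi

section img
variable {F : Type v} [Field F] [Fintype F] {q : ℕ} (hF : Fintype.card F = q ^ 2)
variable {p : ℕ} [hp : Fact p.Prime] [Algebra (ZMod p) F] [CharP F p]

local notation "SL3" => Matrix.SpecialLinearGroup (Fin 3) F
local notation "σ" => conjHom hF

/-- the factor for the first coordinate -/
def thU (a : Fˣ) : Fˣ := a ^ 2 * (cu hF a)⁻¹
/-- the factor for the second coordinate -/
def nm (a : Fˣ) : Fˣ := a * cu hF a

theorem thU_coe (a : Fˣ) : ((thU hF a : Fˣ) : F) = (a : F) ^ 2 * (σ (a : F))⁻¹ := by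
  unfold thU; rw [Units.val_mul, Units.val_pow_eq_pow_val, Units.val_inv_eq_inv_val, cu_coe]

theorem nm_coe (a : Fˣ) : ((nm hF a : Fˣ) : F) = (a : F) * σ (a : F) := by
  unfold nm; rw [Units.val_mul, cu_coe]

theorem bu_pow {x y : F} (h : Pc σ x y) (m : ℕ) : ∃ (y' : F) (h' : Pc σ (m * x) y'), bu hF h ^ m = bu hF h' := by
  induction m with
  | zero => exact ⟨0, by rw [Nat.cast_zero, zero_mul]; exact Pc.zero _, by
      rw [pow_zero]; symm
      apply Subtype.ext
      change uM σ _ _ = 1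
      rw [Nat.cast_zero, zero_mul, uM_zero]⟩
  | succ m ih =>
    obtain ⟨y', h', e⟩ := ih
    refine ⟨y' + y - (m * x) * σ x, ?_, ?_⟩
    · have := Pc.mul σ (tt hF) h' h
      have e2 : ((m + 1 : ℕ) : F) * x = m * x + x := by push_cast; ring
      rw [e2]; exact this
    · rw [pow_succ, e, bu_mul]
      apply bu_congr
      · push_cast; ring
      · rfl

theorem pw_img {x y : F} (h : Pc σ x y) (a : Fˣ) (c : ℕ → ℕ) (n : ℕ) : ∃ (y' : F) (h' : Pc σ ((∑ i ∈ Finset.range n, (c i : F) * (thU hF a : F) ^ i) * x) y'),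
    pw (bu hF h) (bh hF a) c n = bu hF h' := by
  induction n with
  | zero =>
    refine ⟨0, by rw [Finset.sum_range_zero, zero_mul]; exact Pc.zero _, ?_⟩
    symm
    apply Subtype.ext
    change uM σ _ _ = 1
    rw [Finset.sum_range_zero, zero_mul, uM_zero]
  | succ n ih =>
    obtain ⟨y', h', e⟩ := ih
    obtain ⟨y'', h'', e'⟩ := bu_pow hF h (c n)
    have e3 : bh hF a ^ n * (bu hF h ^ c n) * (bh hF a ^ n)⁻¹ = bu hF (Pc.conj σ (tt hF) h'' (a ^ n)) := by
      rw [e', ← bh_pow, bh_conj]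
    have hx : ((a ^ n : Fˣ) : F) ^ 2 * (σ ((a ^ n : Fˣ) : F))⁻¹ = (thU hF a : F) ^ n := by
      rw [thU_coe, Units.val_pow_eq_pow_val, map_pow, mul_pow, inv_pow, ← pow_mul, ← pow_mul, mul_comm n 2]
    refine ⟨y' + ((a ^ n : Fˣ) : F) * σ ((a ^ n : Fˣ) : F) * y'' -
        ((∑ i ∈ Finset.range n, (c i : F) * (thU hF a : F) ^ i) * x) * σ (((a ^ n : Fˣ) : F) ^ 2 * (σ ((a ^ n : Fˣ) : F))⁻¹ * (c n * x)), ?_, ?_⟩
    · have := Pc.mul σ (tt hF) h' (Pc.conj σ (tt hF) h'' (a ^ n))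
      rw [Finset.sum_range_succ]
      have e2 : (∑ i ∈ Finset.range n, (c i : F) * (thU hF a : F) ^ i + (c n : F) * (thU hF a : F) ^ n) * x =
        (∑ i ∈ Finset.range n, (c i : F) * (thU hF a : F) ^ i) * x + ((a ^ n : Fˣ) : F) ^ 2 * (σ ((a ^ n : Fˣ) : F))⁻¹ * (c n * x) := by
        rw [hx]; ring
      rw [e2]; exact this
    · change pw (bu hF h) (bh hF a) c n * (bh hF a ^ n * (bu hF h ^ c n) * (bh hF a ^ n)⁻¹) = _
      rw [e, e3, bu_mul]
      apply bu_congr
      · rw [Finset.sum_range_succ, hx]; ring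
      · rfl

theorem sum_aeval (κ : F) (f : (ZMod p)[X]) : (∑ i ∈ Finset.range (f.natDegree + 1), (((f.coeff i).val : ℕ) : F) * κ ^ i) = aeval κ f := by
  rw [aeval_eq_sum_range]
  refine Finset.sum_congr rfl fun i _ => ?_
  rw [Algebra.smul_def]
  congr 1
  rw [← map_natCast (algebraMap (ZMod p) F), ZMod.natCast_zmod_val]

theorem Psi_img {x y : F} (h : Pc σ x y) (a : Fˣ) (f : (ZMod p)[X]) : ∃ (y' : F) (h' : Pc σ (aeval (thU hF a : F) f * x) y'),
    Psi (bu hF h) (bh hF a) f = bu hF h' := by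
  obtain ⟨y', h', e⟩ := pw_img hF h a (fun n => (f.coeff n).val) (f.natDegree + 1)
  refine ⟨y', ?_, ?_⟩
  · rw [← sum_aeval]; exact h'
  · rw [Psi, e]
    apply bu_congr
    · rw [← sum_aeval]
    · rfl

theorem pw_imgz {z : F} (hz : σ z = -z) (a : Fˣ) (c : ℕ → ℕ) (n : ℕ) : ∃ (h' : σ ((∑ i ∈ Finset.range n, (c i : F) * (nm hF a : F) ^ i) * z) =
    -((∑ i ∈ Finset.range n, (c i : F) * (nm hF a : F) ^ i) * z)), pw (bu hF (Pc_z hz)) (bh hF a) c n = bu hF (Pc_z h') := by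
  have hpw : ∀ m : ℕ, ∃ h' : σ (m * z) = -(m * z), bu hF (Pc_z hz) ^ m = bu hF (Pc_z h') := by
    intro m
    induction m with
    | zero =>
      refine ⟨by rw [Nat.cast_zero, zero_mul, map_zero, neg_zero], ?_⟩
      rw [pow_zero]; symm
      apply Subtype.ext
      change uM σ _ _ = 1
      rw [Nat.cast_zero, zero_mul, uM_zero]
    | succ m ih =>
      obtain ⟨h', e⟩ := ih
      refine ⟨by rw [map_mul, map_natCast, hz]; ring, ?_⟩
      rw [pow_succ, e, bu_mul]
      apply bu_congr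
      · ring
      · push_cast; ring
  have hnσ : ∀ i : ℕ, σ ((nm hF a : F) ^ i) = (nm hF a : F) ^ i := by
    intro i; rw [map_pow, nm_coe, map_mul, tt, mul_comm]
  induction n with
  | zero =>
    refine ⟨by rw [Finset.sum_range_zero, zero_mul, map_zero, neg_zero], ?_⟩
    symm
    apply Subtype.ext
    change uM σ _ _ = 1
    rw [Finset.sum_range_zero, zero_mul, uM_zero]
  | succ n ih =>
    obtain ⟨h', e⟩ := ih
    obtain ⟨h'', e'⟩ := hpw (c n)
    have e3 : bh hF a ^ n * (bu hF (Pc_z hz) ^ c n) * (bh hF a ^ n)⁻¹ = bu hF (Pc.conj σ (tt hF) (Pc_z h'') (a ^ n)) := by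
      rw [e', ← bh_pow, bh_conj]
    have hx : ((a ^ n : Fˣ) : F) * σ ((a ^ n : Fˣ) : F) = (nm hF a : F) ^ n := by
      rw [nm_coe, Units.val_pow_eq_pow_val, map_pow, mul_pow]
    refine ⟨?_, ?_⟩
    · rw [map_mul, hz, map_sum]
      have : ∀ i ∈ Finset.range (n + 1), σ ((c i : F) * (nm hF a : F) ^ i) = (c i : F) * (nm hF a : F) ^ i := by
        intro i _; rw [map_mul, map_natCast, hnσ]
      rw [Finset.sum_congr rfl this]; ring
    · change pw (bu hF (Pc_z hz)) (bh hF a) c n * (bh hF a ^ n * (bu hF (Pc_z hz) ^ c n) * (bh hF a ^ n)⁻¹) = _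
      rw [e, e3, bu_mul]
      apply bu_congr
      · ring
      · rw [Finset.sum_range_succ, hx, zero_mul, sub_zero]; ring

theorem Psi_imgz {z : F} (hz : σ z = -z) (a : Fˣ) (f : (ZMod p)[X]) : ∃ (h' : σ (aeval (nm hF a : F) f * z) = -(aeval (nm hF a : F) f * z)),
    Psi (bu hF (Pc_z hz)) (bh hF a) f = bu hF (Pc_z h') := by
  obtain ⟨h', e⟩ := pw_imgz hF hz a (fun n => (f.coeff n).val) (f.natDegree + 1)
  refine ⟨?_, ?_⟩
  · rw [← sum_aeval]; exact h'
  · rw [Psi, e]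
    apply bu_congr
    · rfl
    · rw [← sum_aeval]

end img

end Cfsg.Agent.GK.T3
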