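import Cfsg.Agent.GK.T3d

/-!
The general injectivity criterion for the Borel subgroup.
-/

set_option autoImplicit false
set_option linter.unusedSectionVars false
set_option linter.unusedVariables false
set_option linter.unusedSimpArgs false

namespace Cfsg.Agent.GK.T3

open Subgroup Polynomial Cfsg.Agent.ClBN Cfsg.Agent.Uni
open Cfsg.Agent.GK (Psi XX pw CC cj cj_shift cj_zero pw_succ Psi_add Psi_zero Psi_one Psi_X_mul Psi_X_pow_mul Psi_C_mul Psi_mul Psi_congr XX_add XX_one map_Psi map_pw cj_pow)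

universe v

section ctr
variable {Γ : Type*} [Group Γ] {p : ℕ} [hp : Fact p.Prime] {z k : Γ}

theorem Psi_neg (hu : z ^ p = 1) (h : CC z k) (f : (ZMod p)[X]) : Psi z k (-f) = (Psi z k f)⁻¹ := by
  have : Psi z k (-f + f) = 1 := by rw [neg_add_cancel, Psi_zero]
  rw [Psi_add hu h] at this
  exact eq_inv_of_mul_eq_one_left this

/-- the subgroup generated by the conjugates -/
def Zs (hu : z ^ p = 1) (h : CC z k) : Subgroup Γ where
  carrier := {x | ∃ f : (ZMod p)[X], x = Psi z k f}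
  one_mem' := ⟨0, Psi_zero.symm⟩
  mul_mem' := by rintro _ _ ⟨f, rfl⟩ ⟨g, rfl⟩; exact ⟨f + g, (Psi_add hu h f g).symm⟩
  inv_mem' := by rintro _ ⟨f, rfl⟩; exact ⟨-f, (Psi_neg hu h f).symm⟩

theorem Zs_normal (hu : z ^ p = 1) (h : CC z k) {u t : Γ} (hgen : closure {u, t} = ⊤) (hun : ∀ i, Commute u (cj z k i)) (htk : Commute t k)
    {g : (ZMod p)[X]} (htz : t * z * t⁻¹ = Psi z k g) {N : ℕ} (hN : 0 < N) (ht : t ^ N = 1) : (Zs hu h).Normal := by
  have tstep : ∀ x ∈ Zs hu h, t * x * t⁻¹ ∈ Zs hu h := by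
    rintro _ ⟨f, rfl⟩
    exact ⟨f * g, Psi_conj hu h htk htz f⟩
  have tn : ∀ n : ℕ, ∀ x ∈ Zs hu h, t ^ n * x * (t ^ n)⁻¹ ∈ Zs hu h := by
    intro n
    induction n with
    | zero => intro x hx; simpa using hx
    | succ n ih =>
      intro x hx
      have := tstep _ (ih x hx)
      have e : t ^ (n + 1) * x * (t ^ (n + 1))⁻¹ = t * (t ^ n * x * (t ^ n)⁻¹) * t⁻¹ := by rw [pow_succ']; group
      rw [e]; exact this
  have tinv : t⁻¹ = t ^ (N - 1) := by
    rw [inv_eq_iff_mul_eq_one, ← pow_succ', Nat.sub_add_cancel hN, ht]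
  have uc : ∀ x ∈ Zs hu h, Commute u x := by
    rintro _ ⟨f, rfl⟩
    exact Psi_comm hun f
  refine ⟨fun x hx y => ?_⟩
  have hy : y ∈ closure {u, t} := by rw [hgen]; trivial
  revert x
  refine Subgroup.closure_induction_right (p := fun y _ => ∀ x ∈ Zs hu h, y * x * y⁻¹ ∈ Zs hu h) ?_ ?_ ?_ hy
  · intro x hx; simpa using hx
  · intro y _ w hw ih x hx
    rcases hw with rfl | hw
    · have e : y * w * x * (y * w)⁻¹ = y * x * y⁻¹ := by
        have := (uc x hx).eq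
        calc y * w * x * (y * w)⁻¹ = y * (w * x) * w⁻¹ * y⁻¹ := by group
          _ = _ := by rw [this]; group
      rw [e]; exact ih x hx
    · rw [Set.mem_singleton_iff] at hw
      subst hw
      have e : y * w * x * (y * w)⁻¹ = y * (w * x * w⁻¹) * y⁻¹ := by group
      rw [e]; exact ih _ (tstep x hx)
  · intro y _ w hw ih x hx
    rcases hw with rfl | hw
    · have e : y * w⁻¹ * x * (y * w⁻¹)⁻¹ = y * x * y⁻¹ := by
        have := (uc x hx).eq
        calc y * w⁻¹ * x * (y * w⁻¹)⁻¹ = y * w⁻¹ * (x * w) * y⁻¹ := by group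
          _ = _ := by rw [← this]; group
      rw [e]; exact ih x hx
    · rw [Set.mem_singleton_iff] at hw
      subst hw
      have e : y * w⁻¹ * x * (y * w⁻¹)⁻¹ = y * (w ^ (N - 1) * x * (w ^ (N - 1))⁻¹) * y⁻¹ := by rw [tinv]; group
      rw [e]; exact ih _ (tn _ x hx)

end ctr

section main
variable {F : Type v} [Field F] [Fintype F] {q : ℕ} (hF : Fintype.card F = q ^ 2)
variable {p : ℕ} [hp : Fact p.Prime] [Algebra (ZMod p) F] [CharP F p]

local notation "SL3" => Matrix.SpecialLinearGroup (Fin 3) F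
local notation "σ" => conjHom hF

theorem bu_one_iff {x y : F} (h : Pc σ x y) : bu hF h = 1 ↔ x = 0 ∧ y = 0 := by
  constructor
  · intro H
    have H' : uM σ x y = 1 := congrArg Subtype.val H
    have e1 := congrArg (fun M : SL3 => (M : Matrix (Fin 3) (Fin 3) F) 0 1) H'
    have e2 := congrArg (fun M : SL3 => (M : Matrix (Fin 3) (Fin 3) F) 0 2) H'
    simp only [uM_coe] at e1 e2
    exact ⟨by simpa using e1, by simpa using e2⟩
  · rintro ⟨rfl, rfl⟩
    apply Subtype.ext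
    exact uM_zero σ

theorem prod_one {x y x' y' : F} (h : Pc σ x y) (h' : Pc σ x' y') {c : Fˣ} (H : bu hF h * bh hF c * bu hF h' = 1) : c = 1 := by
  have H' : uM σ x y * hM σ c * uM σ x' y' = 1 := congrArg Subtype.val H
  have e1 := congrArg (fun M : SL3 => (M : Matrix (Fin 3) (Fin 3) F) 0 0) H'
  simp only [Matrix.SpecialLinearGroup.coe_mul, uM_coe, hM_coe] at e1
  apply Units.ext
  simpa [Matrix.mul_apply, Fin.sum_univ_three] using e1

theorem inj_gen {Γ : Type*} [Group Γ] {u t z : Γ} {a : ℕ} (hgen : closure {u, t} = ⊤) (W : Subgroup Γ) [W.Normal]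
    (hW : ∀ x ∈ W, ∃ f : (ZMod p)[X], x = Psi z (t ^ a) f)
    (π : Γ →* Bor hF) {x0 y0 : F} {h0 : Pc σ x0 y0} (hpu : π u = bu hF h0) (hx0 : x0 ≠ 0) {ζ : Fˣ} (hpt : π t = bh hF ζ)
    {z0 : F} {hz : σ z0 = -z0} (hpz : π z = bu hF (Pc_z hz)) (hz0 : z0 ≠ 0) (hN : 0 < orderOf ζ) (ht : t ^ orderOf ζ = 1)
    (q1 : (QuotientGroup.mk' W u) ^ p = 1) (q2 : CC (QuotientGroup.mk' W u) (QuotientGroup.mk' W (t ^ a)))
    (q3 : Psi (QuotientGroup.mk' W u) (QuotientGroup.mk' W (t ^ a)) (minpoly (ZMod p) (thU hF (ζ ^ a) : F)) = 1)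
    {g : (ZMod p)[X]} (q4 : QuotientGroup.mk' W t * QuotientGroup.mk' W u * (QuotientGroup.mk' W t)⁻¹ = Psi (QuotientGroup.mk' W u) (QuotientGroup.mk' W (t ^ a)) g)
    (c1 : z ^ p = 1) (c2 : CC z (t ^ a)) (c3 : Psi z (t ^ a) (minpoly (ZMod p) (nm hF (ζ ^ a) : F)) = 1) : Function.Injective π := by
  rw [injective_iff_map_eq_one]
  set P := QuotientGroup.mk' W with hP
  have tinv : t⁻¹ = t ^ (orderOf ζ - 1) := by
    rw [inv_eq_iff_mul_eq_one, ← pow_succ', Nat.sub_add_cancel hN, ht]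
  have hk : Commute (P t) (P (t ^ a)) := by
    rw [map_pow]; exact (Commute.refl _).pow_right a
  have tstep : ∀ (n : ℕ) (f : (ZMod p)[X]), P t ^ n * Psi (P u) (P (t ^ a)) f * (P t ^ n)⁻¹ = Psi (P u) (P (t ^ a)) (f * g ^ n) := by
    intro n
    induction n with
    | zero => intro f; simp
    | succ n ih =>
      intro f
      have e : P t ^ (n + 1) * Psi (P u) (P (t ^ a)) f * (P t ^ (n + 1))⁻¹ = P t * (P t ^ n * Psi (P u) (P (t ^ a)) f * (P t ^ n)⁻¹) * (P t)⁻¹ := by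
        rw [pow_succ']; group
      rw [e, ih, Psi_conj q1 q2 hk q4, mul_assoc, pow_succ]
  have norm : ∀ x : Γ, ∃ (f : (ZMod p)[X]) (n : ℕ), P x = Psi (P u) (P (t ^ a)) f * P t ^ n := by
    intro x
    have hx : x ∈ closure {u, t} := by rw [hgen]; trivial
    refine Subgroup.closure_induction_right (p := fun x _ => ∃ (f : (ZMod p)[X]) (n : ℕ), P x = Psi (P u) (P (t ^ a)) f * P t ^ n) ?_ ?_ ?_ hx
    · exact ⟨0, 0, by rw [Psi_zero]; simp⟩
    · rintro x _ w hw ⟨f, n, e⟩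
      rcases hw with rfl | hw
      · refine ⟨f + g ^ n, n, ?_⟩
        have h1 := tstep n 1
        rw [Psi_one, one_mul] at h1
        rw [map_mul, e, Psi_add q1 q2, ← h1]; group
      · rw [Set.mem_singleton_iff] at hw
        subst hw
        exact ⟨f, n + 1, by rw [map_mul, e, pow_succ, mul_assoc]⟩
    · rintro x _ w hw ⟨f, n, e⟩
      rcases hw with rfl | hw
      · refine ⟨f + -g ^ n, n, ?_⟩
        have h1 := tstep n 1
        rw [Psi_one, one_mul] at h1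
        rw [map_mul, e, Psi_add q1 q2, Psi_neg q1 q2, ← h1, map_inv]; group
      · rw [Set.mem_singleton_iff] at hw
        subst hw
        exact ⟨f, n + (orderOf ζ - 1), by rw [map_mul, e, pow_add, mul_assoc, tinv, map_pow P w (orderOf ζ - 1)]⟩
  have hpk : π (t ^ a) = bh hF (ζ ^ a) := by rw [map_pow, hpt, bh_pow]
  have imgW : ∀ x ∈ W, ∃ (f : (ZMod p)[X]) (h' : σ (aeval (nm hF (ζ ^ a) : F) f * z0) = -(aeval (nm hF (ζ ^ a) : F) f * z0)),
      x = Psi z (t ^ a) f ∧ π x = bu hF (Pc_z h') := by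
    intro x hx
    obtain ⟨f, rfl⟩ := hW x hx
    obtain ⟨h', e⟩ := Psi_imgz hF hz (ζ ^ a) f
    exact ⟨f, h', rfl, by rw [map_Psi, hpz, hpk, e]⟩
  intro x hx
  obtain ⟨f, n, e⟩ := norm x
  have hw : (Psi u (t ^ a) f * t ^ n)⁻¹ * x ∈ W := by
    rw [← QuotientGroup.eq_one_iff, ← QuotientGroup.mk'_apply, ← hP, map_mul, map_inv, map_mul, map_Psi, map_pow P t n, e, inv_mul_cancel]
  obtain ⟨f', h', -, e'⟩ := imgW _ hw
  obtain ⟨y1, h1, e1⟩ := Psi_img hF h0 (ζ ^ a) f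
  have e2 : bu hF h1 * bh hF (ζ ^ n) * bu hF (Pc_z h') = 1 := by
    rw [← e', ← e1, ← hpu, ← hpk, ← map_Psi, bh_pow, ← hpt, ← map_pow, ← map_mul, ← map_mul]
    rw [mul_inv_cancel_left, hx]
  have hζn := prod_one hF h1 (Pc_z h') e2
  rw [hζn, bh_one, mul_one, bu_mul, bu_one_iff] at e2
  have hf0 : aeval (thU hF (ζ ^ a) : F) f = 0 := by
    have := e2.1
    rw [add_zero] at this
    exact (mul_eq_zero.1 this).resolve_right hx0
  have htn : t ^ n = 1 := by
    obtain ⟨m, rfl⟩ := orderOf_dvd_of_pow_eq_one hζn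
    rw [pow_mul, ht, one_pow]
  have hPx : P x = 1 := by
    rw [e, Psi_congr q1 q2 q3 (g := 0) (by rw [hf0, map_zero]), Psi_zero, one_mul, ← map_pow, htn, map_one]
  have hxW : x ∈ W := by rwa [hP, QuotientGroup.mk'_apply, QuotientGroup.eq_one_iff] at hPx
  obtain ⟨f'', h'', e3, e4⟩ := imgW x hxW
  rw [hx] at e4
  have e5 := ((bu_one_iff hF _).1 e4.symm).2
  rw [e3, Psi_congr c1 c2 c3 (g := 0) (by rw [(mul_eq_zero.1 e5).resolve_right hz0, map_zero]), Psi_zero]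

end main

end Cfsg.Agent.GK.T3
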