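import Cfsg.Agent.GK.T3e

/-!
The two schemes of relations for the Borel subgroup.
-/

set_option autoImplicit false
set_option linter.unusedSectionVars false
set_option linter.unusedVariables false
set_option linter.unusedSimpArgs false

namespace Cfsg.Agent.GK.T3

open Subgroup Polynomial Cfsg.Agent.ClBN Cfsg.Agent.Uni
open Cfsg.Agent.GK (Psi XX pw CC cj cj_shift cj_zero pw_succ Psi_add Psi_zero Psi_one Psi_X_mul Psi_X_pow_mul Psi_C_mul Psi_mul Psi_congr XX_add XX_one map_Psi map_pw cj_pow triangle CC_of_deg)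
open scoped commutatorElement

universe v w

section grp
variable {Γ : Type*} [Group Γ] {p : ℕ} [hp : Fact p.Prime] {u v z t k : Γ}

theorem cj_cj (i : ℕ) : k * cj z k i * k⁻¹ = cj z k (i + 1) := by
  have := cj_shift z k 1 i
  rwa [pow_one, add_comm 1 i] at this

theorem CC_of (h : ∀ i, Commute (cj z k i) z) : CC z k := by
  have hall : ∀ i d : ℕ, Commute (cj z k i) (cj z k (i + d)) := by
    intro i d
    have := ((h d).symm).conj (k ^ i)
    rwa [cj_shift, show k ^ i * z * (k ^ i)⁻¹ = cj z k i from rfl] at this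
  intro i j
  rcases le_total i j with h | h
  · obtain ⟨d, rfl⟩ := Nat.exists_eq_add_of_le h
    exact hall i d
  · obtain ⟨d, rfl⟩ := Nat.exists_eq_add_of_le h
    exact (hall j d).symm

theorem comm_z (hz : z = ⁅u, v⁆) (h1 : ∀ i, Commute (cj z k i) u) (h2 : ∀ i, Commute (cj z k i) v) : CC z k := by
  apply CC_of
  intro i
  have a := h1 i
  have b := h2 i
  have : Commute (cj z k i) ⁅u, v⁆ := by
    rw [commutatorElement_def]
    exact ((a.mul_right b).mul_right a.inv_right).mul_right b.inv_right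
  rwa [← hz] at this

theorem z_pow (hz : z = ⁅u, v⁆) (h1 : ∀ i, Commute (cj z k i) u) (h2 : ∀ i, Commute (cj z k i) v) {f : (ZMod p)[X]} (h : u ^ p = Psi z k f) : z ^ p = 1 := by
  have hzu : Commute z u := by have := h1 0; rwa [cj_zero] at this
  have e : v * u * v⁻¹ = z⁻¹ * u := by rw [hz, commutatorElement_def]; group
  have e1 : (v * u * v⁻¹) ^ p = v * u ^ p * v⁻¹ := conj_pow
  have e2 : v * u ^ p * v⁻¹ = u ^ p := by
    rw [h]
    have := Psi_comm (p := p) (u := z) (k := k) (y := v) (fun i => (h2 i).symm) f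
    rw [this.eq]; group
  rw [e2, e, (hzu.inv_left).mul_pow, inv_pow] at e1
  exact inv_eq_one.1 (mul_eq_right.1 e1)

theorem period {a N : ℕ} (ht : t ^ N = 1) (i : ℕ) : cj z (t ^ a) (i + N) = cj z (t ^ a) i := by
  have : (t ^ a) ^ (i + N) = (t ^ a) ^ i := by
    rw [pow_add, ← pow_mul, ← pow_mul, mul_comm a N, pow_mul t N a, ht, one_pow, mul_one]
  rw [cj, cj, this]

/-- the conjugates lie in the subgroup generated by the first ones -/
theorem cj_memc {f : (ZMod p)[X]} (hf : f.Monic) (h1 : Psi u k f = 1) (j : ℕ) :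
    cj u k j ∈ closure {x | ∃ i, i < f.natDegree ∧ x = cj u k i} := by
  have : Fact (1 < p) := ⟨hp.out.one_lt⟩
  set n := f.natDegree with hn
  set S : Set Γ := {x | ∃ i, i < n ∧ x = cj u k i} with hS
  set A := closure S with hA
  have hmem : ∀ i, i < n → cj u k i ∈ A := fun i hi => subset_closure ⟨i, hi, rfl⟩
  have hpw : ∀ (c : ℕ → ℕ) (m : ℕ), m ≤ n → pw u k c m ∈ A := by
    intro c m
    induction m with
    | zero => intro _; exact one_mem _
    | succ m ih =>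
      intro hm
      rw [pw_succ]
      exact mul_mem (ih (by omega)) (pow_mem (hmem m (by omega)) _)
  have hcn : cj u k n ∈ A := by
    rw [Psi, ← hn, pw_succ] at h1
    have hc1 : (f.coeff n).val = 1 := by
      rw [hn, hf.coeff_natDegree, ZMod.val_one]
    simp only [hc1, pow_one] at h1
    rw [mul_eq_one_iff_inv_eq] at h1
    rw [← h1]
    exact inv_mem (hpw _ n le_rfl)
  have hcl : ∀ x ∈ A, k * x * k⁻¹ ∈ A := by
    intro x hx
    have hle : A ≤ A.comap (MulAut.conj k).toMonoidHom := by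
      rw [hA, closure_le]
      rintro _ ⟨i, hi, rfl⟩
      change k * cj u k i * k⁻¹ ∈ A
      rw [cj_cj]
      rcases Nat.lt_or_ge (i + 1) n with h | h
      · exact hmem _ h
      · rw [show i + 1 = n by omega]; exact hcn
    exact hle hx
  induction j with
  | zero =>
    rcases Nat.eq_zero_or_pos n with h | h
    · rw [h] at hcn; exact hcn
    · exact hmem 0 h
  | succ j ih =>
    rw [← cj_cj]
    exact hcl _ ih

end grp

section main
variable {F : Type v} [Field F] [Fintype F] {q : ℕ} (hF : Fintype.card F = q ^ 2)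
variable {p : ℕ} [hp : Fact p.Prime] [Algebra (ZMod p) F] [CharP F p]

local notation "SL3" => Matrix.SpecialLinearGroup (Fin 3) F
local notation "σ" => conjHom hF

theorem fin_inj {Γ : Type w} [Group Γ] {u v t z : Γ} {a : ℕ} (hgen : closure {u, t} = ⊤)
    (π : Γ →* Bor hF) {x0 y0 : F} {h0 : Pc σ x0 y0} (hpu : π u = bu hF h0) (hx0 : x0 ≠ 0) {ζ : Fˣ} (hpt : π t = bh hF ζ)
    {z0 : F} {hz : σ z0 = -z0} (hpz : π z = bu hF (Pc_z hz)) (hz0 : z0 ≠ 0) (hN : 0 < orderOf ζ) (ht : t ^ orderOf ζ = 1)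
    (hzz : z = ⁅u, v⁆) (h1 : ∀ i, Commute (cj z (t ^ a) i) u) (h2 : ∀ i, Commute (cj z (t ^ a) i) v) {f5 f6 f8 g gz : (ZMod p)[X]}
    (r5 : u ^ p = Psi z (t ^ a) f5) (r6 : Psi u (t ^ a) (minpoly (ZMod p) (thU hF (ζ ^ a) : F)) = Psi z (t ^ a) f6)
    (r7 : Psi z (t ^ a) (minpoly (ZMod p) (nm hF (ζ ^ a) : F)) = 1)
    (r8 : t * u * t⁻¹ = Psi u (t ^ a) g * Psi z (t ^ a) f8)
    (r9 : t * z * t⁻¹ = Psi z (t ^ a) gz)
    (hcc : ∀ (Q : Type w) [Group Q] (P : Γ →* Q), (∀ f : (ZMod p)[X], P (Psi z (t ^ a) f) = 1) → CC (P u) (P (t ^ a))) : Function.Injective π := by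
  have c2 := comm_z hzz h1 h2
  have c1 := z_pow hzz h1 h2 r5
  have htk : Commute t (t ^ a) := (Commute.refl _).pow_right a
  have hnor : (Zs c1 c2).Normal := Zs_normal c1 c2 hgen (fun i => (h1 i).symm) htk r9 hN ht
  have hP : ∀ f : (ZMod p)[X], QuotientGroup.mk' (Zs c1 c2) (Psi z (t ^ a) f) = 1 := by
    intro f
    rw [QuotientGroup.mk'_apply, QuotientGroup.eq_one_iff]
    exact ⟨f, rfl⟩
  refine inj_gen (hz := hz) hF (g := g) hgen (Zs c1 c2) (fun x hx => hx) π hpu hx0 hpt hpz hz0 hN ht ?_ (hcc _ _ hP) ?_ ?_ c1 c2 r7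
  · rw [← map_pow, r5, hP]
  · rw [← map_Psi, r6, hP]
  · rw [← map_inv, ← map_mul, ← map_mul, r8, map_mul, hP, mul_one, map_Psi]

end main

section g9
variable {Γ G : Type*} [Group Γ] [Group G] {p : ℕ} [hp : Fact p.Prime]

/-- the word for the central element -/
def zz (b : ℕ) (u t : Γ) : Γ := ⁅u, t ^ b * u * (t ^ b)⁻¹⁆

/-- the nine relators -/
noncomputable def g9 (N a b : ℕ) (m1 m2 f5 f6 f8 g gz : (ZMod p)[X]) (u t : Γ) : Fin 9 → Γ :=
  ![t ^ N, ⁅zz b u t, u⁆, t ^ a * zz b u t * (t ^ a)⁻¹ * (t ^ b * zz b u t * (t ^ b)⁻¹)⁻¹,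
    t ^ a * u * (t ^ a)⁻¹ * (u * (t ^ b * u * (t ^ b)⁻¹))⁻¹,
    u ^ p * (Psi (zz b u t) (t ^ a) f5)⁻¹,
    Psi u (t ^ a) m1 * (Psi (zz b u t) (t ^ a) f6)⁻¹,
    Psi (zz b u t) (t ^ a) m2,
    t * u * t⁻¹ * (Psi u (t ^ a) g * Psi (zz b u t) (t ^ a) f8)⁻¹,
    t * zz b u t * t⁻¹ * (Psi (zz b u t) (t ^ a) gz)⁻¹]

/-- the nine relations -/
structure G9 (N a b : ℕ) (m1 m2 f5 f6 f8 g gz : (ZMod p)[X]) (u t : Γ) : Prop where
  r1 : t ^ N = 1
  r2 : Commute (zz b u t) u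
  r3 : t ^ a * zz b u t * (t ^ a)⁻¹ = t ^ b * zz b u t * (t ^ b)⁻¹
  r4 : t ^ a * u * (t ^ a)⁻¹ = u * (t ^ b * u * (t ^ b)⁻¹)
  r5 : u ^ p = Psi (zz b u t) (t ^ a) f5
  r6 : Psi u (t ^ a) m1 = Psi (zz b u t) (t ^ a) f6
  r7 : Psi (zz b u t) (t ^ a) m2 = 1
  r8 : t * u * t⁻¹ = Psi u (t ^ a) g * Psi (zz b u t) (t ^ a) f8
  r9 : t * zz b u t * t⁻¹ = Psi (zz b u t) (t ^ a) gz

variable {N a b : ℕ} {m1 m2 f5 f6 f8 g gz : (ZMod p)[X]} {u t : Γ}

theorem map_zz (π : Γ →* G) : π (zz b u t) = zz b (π u) (π t) := by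
  unfold zz; simp [map_commutatorElement]

theorem map_g9 (π : Γ →* G) (i : Fin 9) : π (g9 N a b m1 m2 f5 f6 f8 g gz u t i) = g9 N a b m1 m2 f5 f6 f8 g gz (π u) (π t) i := by
  fin_cases i <;> simp only [g9, Fin.zero_eta, Fin.mk_one, Fin.reduceFinMk, Matrix.cons_val_zero, Matrix.cons_val, Matrix.cons_val_one, map_mul, map_inv, map_pow,
      map_commutatorElement, map_Psi, map_zz]

theorem g9_iff : (∀ i, g9 N a b m1 m2 f5 f6 f8 g gz u t i = 1) ↔ G9 N a b m1 m2 f5 f6 f8 g gz u t := by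
  constructor
  · intro H
    have a0 := H 0
    have a1 := H 1
    have a2 := H 2
    have a3 := H 3
    have a4 := H 4
    have a5 := H 5
    have a6 := H 6
    have a7 := H 7
    have a8 := H 8
    simp only [g9, Matrix.cons_val_zero, Matrix.cons_val, Matrix.cons_val_one, mul_inv_eq_one, commutatorElement_eq_one_iff_commute] at a0 a1 a2 a3 a4 a5 a6 a7 a8
    exact ⟨a0, a1, a2, a3, a4, a5, a6, a7, a8⟩
  · rintro ⟨a0, a1, a2, a3, a4, a5, a6, a7, a8⟩ i
    fin_cases i <;> simp only [g9, Fin.zero_eta, Fin.mk_one, Fin.reduceFinMk, Matrix.cons_val_zero, Matrix.cons_val, Matrix.cons_val_one, mul_inv_eq_one,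
        commutatorElement_eq_one_iff_commute]
    · exact a0
    · exact a1
    · exact a2
    · exact a3
    · exact a4
    · exact a5
    · exact a6
    · exact a7
    · exact a8

end g9

section sch
variable {F : Type v} [Field F] [Fintype F] {q : ℕ} (hF : Fintype.card F = q ^ 2)
variable {p : ℕ} [hp : Fact p.Prime] [Algebra (ZMod p) F] [CharP F p]

local notation "SL3" => Matrix.SpecialLinearGroup (Fin 3) F
local notation "σ" => conjHom hF

theorem G9.inj {Γ : Type w} [Group Γ] {u t : Γ} {a b : ℕ} (hgen : closure {u, t} = ⊤) {ζ : Fˣ} {f5 f6 f8 g gz : (ZMod p)[X]}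
    (H : G9 (orderOf ζ) a b (minpoly (ZMod p) (thU hF (ζ ^ a) : F)) (minpoly (ZMod p) (nm hF (ζ ^ a) : F)) f5 f6 f8 g gz u t)
    (π : Γ →* Bor hF) {x0 y0 : F} {h0 : Pc σ x0 y0} (hpu : π u = bu hF h0) (hx0 : x0 ≠ 0) (hpt : π t = bh hF ζ)
    {z0 : F} {hz : σ z0 = -z0} (hpz : zz b (bu hF h0) (bh hF ζ) = bu hF (Pc_z hz)) (hz0 : z0 ≠ 0) : Function.Injective π := by
  have hN : 0 < orderOf ζ := orderOf_pos ζ
  set k := t ^ a with hk
  set z := zz b u t with hzd
  have hkb : Commute k (t ^ b) := (Commute.refl t).pow_pow a b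
  have key : ∀ i, cj z k (i + 1) = t ^ b * cj z k i * (t ^ b)⁻¹ := by
    intro i
    have hc : Commute (k ^ i) (t ^ b) := hkb.pow_left i
    have hc' : (k ^ i)⁻¹ * (t ^ b)⁻¹ = (t ^ b)⁻¹ * (k ^ i)⁻¹ := by rw [← mul_inv_rev, ← mul_inv_rev, hc.eq]
    calc cj z k (i + 1) = k ^ i * (k * z * k⁻¹) * (k ^ i)⁻¹ := by rw [cj, pow_succ]; group
      _ = k ^ i * (t ^ b * z * (t ^ b)⁻¹) * (k ^ i)⁻¹ := by rw [H.r3]
      _ = (k ^ i * t ^ b) * z * ((t ^ b)⁻¹ * (k ^ i)⁻¹) := by group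
      _ = (t ^ b * k ^ i) * z * ((k ^ i)⁻¹ * (t ^ b)⁻¹) := by rw [hc.eq, hc']
      _ = _ := by rw [cj]; group
  have h1 : ∀ i, Commute (cj z k i) u := by
    intro i
    induction i with
    | zero => rw [cj_zero]; exact H.r2
    | succ i ih =>
      have e1 : Commute (cj z k (i + 1)) (k * u * k⁻¹) := by
        rw [← cj_cj]; exact ih.conj k
      have e2 : Commute (cj z k (i + 1)) (t ^ b * u * (t ^ b)⁻¹) := by
        rw [key]; exact ih.conj (t ^ b)
      have e3 : u = (k * u * k⁻¹) * (t ^ b * u * (t ^ b)⁻¹)⁻¹ := by rw [H.r4]; group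
      have := e1.mul_right e2.inv_right
      rwa [← e3] at this
  have h2 : ∀ i, Commute (cj z k i) (t ^ b * u * (t ^ b)⁻¹) := by
    intro i
    have e : cj z k i = cj z k (i + (orderOf ζ - 1) + 1) := by
      rw [add_assoc, Nat.sub_add_cancel hN, hk, period H.r1]
    rw [e, key]
    exact (h1 _).conj (t ^ b)
  have hπz : π z = bu hF (Pc_z hz) := by rw [hzd, map_zz, hpu, hpt, hpz]
  refine fin_inj (hz := hz) hF hgen π hpu hx0 hpt hπz hz0 hN H.r1 rfl h1 h2 H.r5 H.r6 H.r7 H.r8 H.r9 ?_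
  intro Q _ P hP
  have hkb' : Commute (P k) (P (t ^ b)) := hkb.map P
  have e1 : P k * P u * (P k)⁻¹ = P u * (P (t ^ b) * P u * (P (t ^ b))⁻¹) := by
    rw [← map_inv, ← map_inv, ← map_mul, ← map_mul, ← map_mul, ← map_mul, ← map_mul, H.r4]
  refine triangle hkb' e1 ?_
  rw [e1]
  refine (Commute.refl _).mul_right ?_
  have := hP 1
  rw [Psi_one, hzd, zz, map_commutatorElement, commutatorElement_eq_one_iff_commute, map_mul, map_mul, map_inv] at this
  exact this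

end sch

end Cfsg.Agent.GK.T3
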