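import Cfsg.Agent.GK.T3f

/-!
The direct scheme for small degrees.
-/

set_option autoImplicit false
set_option linter.unusedSectionVars false
set_option linter.unusedVariables false
set_option linter.unusedSimpArgs false

namespace Cfsg.Agent.GK.T3

open Subgroup Polynomial Cfsg.Agent.ClBN Cfsg.Agent.Uni
open Cfsg.Agent.GK (Psi XX pw CC cj cj_shift cj_zero pw_succ Psi_add Psi_zero Psi_one Psi_X_mul Psi_X_pow_mul Psi_C_mul Psi_mul Psi_congr XX_add XX_one map_Psi map_pw cj_pow triangle CC_of_deg)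
open scoped commutatorElement

universe v w

section g14
variable {Γ G : Type*} [Group Γ] [Group G] {p : ℕ} [hp : Fact p.Prime]

/-- the fourteen relators -/
noncomputable def g14 (N : ℕ) (m1 m2 f5 f6 : (ZMod p)[X]) (w : Fin 4 → (ZMod p)[X]) (u t : Γ) : Fin 4 ⊕ (Fin 6 ⊕ Fin 4) → Γ :=
  Sum.elim ![t ^ N, u ^ p * (Psi (zz 1 u t) (t ^ 1) f5)⁻¹, Psi u (t ^ 1) m1 * (Psi (zz 1 u t) (t ^ 1) f6)⁻¹, Psi (zz 1 u t) (t ^ 1) m2]
    (Sum.elim (fun i => ⁅cj (zz 1 u t) (t ^ 1) i, u⁆) (fun j => ⁅u, cj u (t ^ 1) (j + 2)⁆ * (Psi (zz 1 u t) (t ^ 1) (w j))⁻¹))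

/-- the fourteen relations -/
structure G14 (N : ℕ) (m1 m2 f5 f6 : (ZMod p)[X]) (w : Fin 4 → (ZMod p)[X]) (u t : Γ) : Prop where
  r1 : t ^ N = 1
  r5 : u ^ p = Psi (zz 1 u t) (t ^ 1) f5
  r6 : Psi u (t ^ 1) m1 = Psi (zz 1 u t) (t ^ 1) f6
  r7 : Psi (zz 1 u t) (t ^ 1) m2 = 1
  r2 : ∀ i, i < 6 → Commute (cj (zz 1 u t) (t ^ 1) i) u
  r3 : ∀ j : Fin 4, ⁅u, cj u (t ^ 1) (j + 2)⁆ = Psi (zz 1 u t) (t ^ 1) (w j)

variable {N : ℕ} {m1 m2 f5 f6 : (ZMod p)[X]} {w : Fin 4 → (ZMod p)[X]} {u t : Γ}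

theorem map_cj (π : Γ →* G) (z k : Γ) (i : ℕ) : π (cj z k i) = cj (π z) (π k) i := by unfold cj; simp

theorem map_g14 (π : Γ →* G) (i) : π (g14 N m1 m2 f5 f6 w u t i) = g14 N m1 m2 f5 f6 w (π u) (π t) i := by
  rcases i with i | i | i
  · fin_cases i <;> simp only [g14, Sum.elim_inl, Fin.zero_eta, Fin.mk_one, Fin.reduceFinMk, Matrix.cons_val_zero, Matrix.cons_val, Matrix.cons_val_one, map_mul, map_inv, map_pow,
      map_commutatorElement, map_Psi, map_zz]
  · simp only [g14, Sum.elim_inr, Sum.elim_inl, map_commutatorElement, map_cj, map_zz, map_pow]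
  · simp only [g14, Sum.elim_inr, map_commutatorElement, map_cj, map_zz, map_pow, map_mul, map_inv, map_Psi]

theorem g14_iff : (∀ i, g14 N m1 m2 f5 f6 w u t i = 1) ↔ G14 N m1 m2 f5 f6 w u t := by
  constructor
  · intro H
    have a0 := H (Sum.inl 0)
    have a1 := H (Sum.inl 1)
    have a2 := H (Sum.inl 2)
    have a3 := H (Sum.inl 3)
    simp only [g14, Sum.elim_inl, Matrix.cons_val_zero, Matrix.cons_val, Matrix.cons_val_one, mul_inv_eq_one] at a0 a1 a2 a3
    refine ⟨a0, a1, a2, a3, ?_, ?_⟩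
    · intro i hi
      have := H (Sum.inr (Sum.inl ⟨i, hi⟩))
      simp only [g14, Sum.elim_inr, Sum.elim_inl, commutatorElement_eq_one_iff_commute] at this
      exact this
    · intro j
      have := H (Sum.inr (Sum.inr j))
      simp only [g14, Sum.elim_inr, mul_inv_eq_one] at this
      exact this
  · rintro ⟨a0, a1, a2, a3, a4, a5⟩ i
    rcases i with i | i | i
    · fin_cases i <;> simp only [g14, Sum.elim_inl, Fin.zero_eta, Fin.mk_one, Fin.reduceFinMk, Matrix.cons_val_zero, Matrix.cons_val, Matrix.cons_val_one, mul_inv_eq_one]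
      · exact a0
      · exact a1
      · exact a2
      · exact a3
    · simp only [g14, Sum.elim_inr, Sum.elim_inl, commutatorElement_eq_one_iff_commute]
      exact a4 i i.2
    · simp only [g14, Sum.elim_inr, mul_inv_eq_one]
      exact a5 i

end g14

section sch
variable {F : Type v} [Field F] [Fintype F] {q : ℕ} (hF : Fintype.card F = q ^ 2)
variable {p : ℕ} [hp : Fact p.Prime] [Algebra (ZMod p) F] [CharP F p]

local notation "SL3" => Matrix.SpecialLinearGroup (Fin 3) F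
local notation "σ" => conjHom hF

theorem deg_le (hfr : Module.finrank (ZMod p) F ≤ 6) (κ : F) : (minpoly (ZMod p) κ).natDegree ≤ 6 :=
  (minpoly.natDegree_le κ).trans hfr

theorem G14.inj (hfr : Module.finrank (ZMod p) F ≤ 6) {Γ : Type w} [Group Γ] {u t : Γ} (hgen : closure {u, t} = ⊤) {ζ : Fˣ} {f5 f6 : (ZMod p)[X]} {w : Fin 4 → (ZMod p)[X]}
    (H : G14 (orderOf ζ) (minpoly (ZMod p) (thU hF (ζ ^ 1) : F)) (minpoly (ZMod p) (nm hF (ζ ^ 1) : F)) f5 f6 w u t)
    (π : Γ →* Bor hF) {x0 y0 : F} {h0 : Pc σ x0 y0} (hpu : π u = bu hF h0) (hx0 : x0 ≠ 0) (hpt : π t = bh hF ζ)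
    {z0 : F} {hz : σ z0 = -z0} (hpz : zz 1 (bu hF h0) (bh hF ζ) = bu hF (Pc_z hz)) (hz0 : z0 ≠ 0) : Function.Injective π := by
  have hN : 0 < orderOf ζ := orderOf_pos ζ
  set z := zz 1 u t with hzd
  have hint : ∀ κ : F, IsIntegral (ZMod p) κ := fun κ => Algebra.IsIntegral.isIntegral κ
  have h1 : ∀ i, Commute (cj z (t ^ 1) i) u := by
    intro i
    have hm := cj_memc (minpoly.monic (hint _)) H.r7 i
    refine (Subgroup.closure_induction (p := fun x _ => Commute x u) ?_ (Commute.one_left _) (fun _ _ _ _ a b => a.mul_left b) (fun _ _ a => a.inv_left) hm)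
    rintro _ ⟨j, hj, rfl⟩
    exact H.r2 j (lt_of_lt_of_le hj (deg_le hfr _))
  have h2 : ∀ i, Commute (cj z (t ^ 1) i) (t ^ 1 * u * (t ^ 1)⁻¹) := by
    intro i
    have e : cj z (t ^ 1) i = cj z (t ^ 1) (i + (orderOf ζ - 1) + 1) := by
      rw [add_assoc, Nat.sub_add_cancel hN, period H.r1]
    rw [e, ← cj_cj]
    exact (h1 _).conj (t ^ 1)
  have hπz : π z = bu hF (Pc_z hz) := by rw [hzd, map_zz, hpu, hpt, hpz]
  have c2 := comm_z rfl h1 h2
  have c1 := z_pow rfl h1 h2 H.r5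
  refine fin_inj (hz := hz) hF hgen π hpu hx0 hpt hπz hz0 hN H.r1 rfl h1 h2 (g := Polynomial.X) (gz := Polynomial.X) (f8 := 0) H.r5 H.r6 H.r7 ?_ ?_ ?_
  · rw [Psi_zero, mul_one, ← mul_one Polynomial.X, Psi_X_mul, Psi_one, pow_one]
  · rw [← mul_one Polynomial.X, Psi_X_mul, Psi_one, pow_one]
  intro Q _ P hP
  have e6 : Psi (P u) (P (t ^ 1)) (minpoly (ZMod p) (thU hF (ζ ^ 1) : F)) = 1 := by rw [← map_Psi, H.r6, hP]
  have hc0 : ∀ d, d < 6 → Commute (P u) (cj (P u) (P (t ^ 1)) d) := by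
    intro d hd
    rcases Nat.lt_or_ge d 2 with h | h
    · interval_cases d
      · rw [cj_zero]
      · have := hP 1
        rw [Psi_one, hzd, zz, map_commutatorElement, commutatorElement_eq_one_iff_commute, map_mul, map_mul, map_inv] at this
        rw [cj, pow_one (P (t ^ 1))]
        exact this
    · obtain ⟨e, rfl⟩ := Nat.exists_eq_add_of_le' h
      have := congrArg P (H.r3 ⟨e, by omega⟩)
      rw [← hzd, hP, map_commutatorElement, commutatorElement_eq_one_iff_commute, map_cj] at this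
      exact this
  have hc : ∀ i d, d < 6 → Commute (cj (P u) (P (t ^ 1)) i) (cj (P u) (P (t ^ 1)) (i + d)) := by
    intro i d hd
    have := (hc0 d hd).conj (P (t ^ 1) ^ i)
    rwa [cj_shift, show P (t ^ 1) ^ i * P u * (P (t ^ 1) ^ i)⁻¹ = cj (P u) (P (t ^ 1)) i from rfl] at this
  have hd6 := deg_le hfr (thU hF (ζ ^ 1) : F)
  refine CC_of_deg (minpoly.monic (hint _)) e6 ?_
  intro i j hi hj
  rcases le_total i j with h | h
  · obtain ⟨d, rfl⟩ := Nat.exists_eq_add_of_le h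
    exact hc i d (by omega)
  · obtain ⟨d, rfl⟩ := Nat.exists_eq_add_of_le h
    exact (hc j d (by omega)).symm

end sch

end Cfsg.Agent.GK.T3
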