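import Cfsg.Agent.GK.T3g

/-!
The relations hold in the Borel subgroup.
-/

set_option autoImplicit false
set_option linter.unusedSectionVars false
set_option linter.unusedVariables false
set_option linter.unusedSimpArgs false

namespace Cfsg.Agent.GK.T3

open Subgroup Polynomial Cfsg.Agent.ClBN Cfsg.Agent.Uni
open Cfsg.Agent.GK (Psi XX pw CC cj cj_shift cj_zero pw_succ Psi_add Psi_zero Psi_one Psi_X_mul Psi_X_pow_mul Psi_C_mul Psi_mul Psi_congr XX_add XX_one map_Psi map_pw cj_pow IsPres isPres_of_inj IsGen)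
open scoped commutatorElement

universe v w

section gen
variable {G : Type*} [Group G]

theorem pw_memc {u k : G} (H : Subgroup G) (hu : u ∈ H) (hk : k ∈ H) (c : ℕ → ℕ) (n : ℕ) : pw u k c n ∈ H := by
  induction n with
  | zero => exact one_mem _
  | succ n ih => exact mul_mem ih (mul_mem (mul_mem (pow_mem hk _) (pow_mem hu _)) (inv_mem (pow_mem hk _)))

/-- presentations from an injectivity statement -/
theorem pres_of {κ : Type*} [Fintype κ] {k : ℕ} (E : κ → FreeGroup (Fin k)) (x : Fin k → G) (hgen : closure (Set.range x) = ⊤)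
    (hE : ∀ i, FreeGroup.lift x (E i) = 1)
    (hinj : ∀ (Γ : Type) [Group Γ] (y : Fin k → Γ), closure (Set.range y) = ⊤ → (∀ i, FreeGroup.lift y (E i) = 1) → ∀ π : Γ →* G, (∀ i, π (y i) = x i) →
      Function.Injective π) : ∃ R : Finset (FreeGroup (Fin k)), R.card ≤ Fintype.card κ ∧ IsPres (R : Set (FreeGroup (Fin k))) x := by
  classical
  refine ⟨Finset.univ.image E, Finset.card_image_le, ?_⟩
  refine isPres_of_inj ?_ hgen ?_
  · intro r hr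
    rw [Finset.coe_image] at hr
    obtain ⟨i, -, rfl⟩ := hr
    exact hE i
  · intro π hπ
    refine hinj _ (fun i => PresentedGroup.of i) ?_ ?_ π hπ
    · exact PresentedGroup.closure_range_of _
    · intro i
      rw [lift_of_eq_mk, PresentedGroup.mk_eq_one_iff]
      exact Subgroup.subset_normalClosure (by rw [Finset.coe_image]; exact ⟨i, Finset.mem_coe.2 (Finset.mem_univ _), rfl⟩)

end gen

section main
variable {F : Type v} [Field F] [Fintype F] {q : ℕ} (hF : Fintype.card F = q ^ 2)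
variable {p : ℕ} [hp : Fact p.Prime] [Algebra (ZMod p) F] [CharP F p]

local notation "SL3" => Matrix.SpecialLinearGroup (Fin 3) F
local notation "σ" => conjHom hF

theorem Pc_zero_iff {c : F} : Pc σ 0 c ↔ σ c = -c := by
  unfold Pc
  rw [zero_mul, add_zero]
  constructor
  · intro h; exact eq_neg_of_add_eq_zero_right h
  · intro h; rw [h]; ring

theorem bu_inv {x y : F} (h : Pc σ x y) : (bu hF h)⁻¹ = bu hF (Pc.inv σ (tt hF) h) := Subtype.ext (uM_inv _ h)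

theorem nm_thU (a : Fˣ) : ((nm hF a : Fˣ) : F) = (thU hF a : F) * σ (thU hF a : F) := by
  have h1 : (a : F) ≠ 0 := a.ne_zero
  have h2 : σ (a : F) ≠ 0 := (map_ne_zero (conjHom hF)).2 h1
  rw [nm_coe, thU_coe, map_mul, map_pow, map_inv₀, tt]
  field_simp

theorem cen {a : ℕ} {ζ : Fˣ} (hδ : ∀ r, σ r = r → ∃ f : (ZMod p)[X], aeval (nm hF (ζ ^ a) : F) f = r) {z0 : F} (hz : σ z0 = -z0) (hz0 : z0 ≠ 0)
    {x c : F} (h : Pc σ x c) (hx : x = 0) :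
    ∃ f : (ZMod p)[X], bu hF h = Psi (bu hF (Pc_z hz)) (bh hF ζ ^ a) f := by
  subst hx
  have hc := (Pc_zero_iff hF).1 h
  obtain ⟨f, hf⟩ := hδ (c / z0) (by rw [map_div₀, hc, hz, neg_div_neg_eq])
  obtain ⟨h', e⟩ := Psi_imgz hF hz (ζ ^ a) f
  refine ⟨f, ?_⟩
  rw [← bh_pow, e]
  exact bu_congr hF _ _ rfl (by rw [hf, div_mul_cancel₀ _ hz0])

theorem expr {a : ℕ} {ζ : Fˣ} (hκ : ∀ s : F, ∃ f : (ZMod p)[X], aeval (thU hF (ζ ^ a) : F) f = s)
    (hδ : ∀ r, σ r = r → ∃ f : (ZMod p)[X], aeval (nm hF (ζ ^ a) : F) f = r) {x0 y0 z0 : F} (h0 : Pc σ x0 y0) (hx0 : x0 ≠ 0) (hz : σ z0 = -z0) (hz0 : z0 ≠ 0)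
    {x y : F} (h : Pc σ x y) : ∃ f f' : (ZMod p)[X], bu hF h = Psi (bu hF h0) (bh hF ζ ^ a) f * Psi (bu hF (Pc_z hz)) (bh hF ζ ^ a) f' := by
  obtain ⟨f, hf⟩ := hκ (x / x0)
  obtain ⟨y1, h1, e1⟩ := Psi_img hF h0 (ζ ^ a) f
  have e2 := bu_mul hF (Pc.inv σ (tt hF) h1) h
  obtain ⟨f', e3⟩ := cen hF hδ hz hz0 (Pc.mul σ (tt hF) (Pc.inv σ (tt hF) h1) h) (by rw [hf, div_mul_cancel₀ _ hx0]; ring)
  refine ⟨f, f', ?_⟩
  rw [← e3, ← e2, ← bh_pow, e1, ← bu_inv hF h1, mul_inv_cancel_left]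

theorem bu_comm {x y x' y' : F} (h : Pc σ x y) (h' : Pc σ x' y') : ∃ hz : σ (x' * σ x - x * σ x') = -(x' * σ x - x * σ x'),
    ⁅bu hF h, bu hF h'⁆ = bu hF (Pc_z hz) := by
  have hz : σ (x' * σ x - x * σ x') = -(x' * σ x - x * σ x') := by
    rw [map_sub, map_mul, map_mul, tt, tt]; ring
  refine ⟨hz, ?_⟩
  have e : bu hF h * bu hF h' = bu hF (Pc_z hz) * (bu hF h' * bu hF h) := by
    rw [bu_mul, bu_mul, bu_mul]
    apply bu_congr
    · ring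
    · ring
  rw [commutatorElement_def, e]; group

theorem bu_zcomm {x y z : F} (hz : σ z = -z) (h : Pc σ x y) : Commute (bu hF (Pc_z hz)) (bu hF h) := by
  change bu hF (Pc_z hz) * bu hF h = bu hF h * bu hF (Pc_z hz)
  rw [bu_mul, bu_mul]
  apply bu_congr
  · ring
  · rw [map_zero]; ring

/-- generation -/
theorem gen_bor {a : ℕ} {ζ : Fˣ} (hζ : IsGen ζ) (hκ : ∀ s : F, ∃ f : (ZMod p)[X], aeval (thU hF (ζ ^ a) : F) f = s)
    (hδ : ∀ r, σ r = r → ∃ f : (ZMod p)[X], aeval (nm hF (ζ ^ a) : F) f = r) {x0 y0 z0 : F} (h0 : Pc σ x0 y0) (hx0 : x0 ≠ 0) (hz : σ z0 = -z0) (hz0 : z0 ≠ 0)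
    {b : ℕ} (hzz : zz b (bu hF h0) (bh hF ζ) = bu hF (Pc_z hz)) : closure (Set.range ![bu hF h0, bh hF ζ]) = ⊤ := by
  rw [eq_top_iff]
  rintro g -
  obtain ⟨x, y, c, hP, e⟩ := g.2
  have e1 : g = bu hF hP * bh hF c := Subtype.ext e
  obtain ⟨n, hn⟩ := hζ c
  obtain ⟨f, f', e2⟩ := expr hF hκ hδ h0 hx0 hz hz0 hP
  set H := closure (Set.range ![bu hF h0, bh hF ζ])
  have m1 : bu hF h0 ∈ H := subset_closure ⟨0, rfl⟩
  have m2 : bh hF ζ ∈ H := subset_closure ⟨1, rfl⟩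
  have m3 : bu hF (Pc_z hz) ∈ H := by
    rw [← hzz, zz, commutatorElement_def]
    have m4 : bh hF ζ ^ b * bu hF h0 * (bh hF ζ ^ b)⁻¹ ∈ H := mul_mem (mul_mem (pow_mem m2 _) m1) (inv_mem (pow_mem m2 _))
    exact mul_mem (mul_mem (mul_mem m1 m4) (inv_mem m1)) (inv_mem m4)
  rw [e1, e2, ← hn, bh_pow]
  exact mul_mem (mul_mem (pw_memc H m1 (pow_mem m2 _) _ _) (pw_memc H m3 (pow_mem m2 _) _ _)) (pow_mem m2 _)

/-- the data -/
structure ED (ζ : Fˣ) (a b : ℕ) (ε : F) : Prop where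
  hb : (thU hF (ζ ^ b) : F) = ε
  ha : (thU hF (ζ ^ a) : F) = 1 + ε
  tr : ε + σ ε = -1
  hκ : ∀ s : F, ∃ f : (ZMod p)[X], aeval (thU hF (ζ ^ a) : F) f = s

/-- a polynomial in `1 + ε` is a combination of `1` and `ε` over the subring of the norm -/
theorem quad {ε δ : F} (h : ε ^ 2 + ε + δ = 0) (f : (ZMod p)[X]) : ∃ f1 f2 : (ZMod p)[X], aeval (1 + ε) f = aeval δ f1 + aeval δ f2 * ε := by
  have hstep : ∀ f1 f2 : (ZMod p)[X], ∃ f1' f2' : (ZMod p)[X], (aeval δ f1 + aeval δ f2 * ε) * (1 + ε) = aeval δ f1' + aeval δ f2' * ε := by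
    intro f1 f2
    refine ⟨f1 - f2 * Polynomial.X, f1, ?_⟩
    rw [map_sub, map_mul, aeval_X]
    linear_combination (aeval δ f2) * h
  induction f using Polynomial.induction_on' with
  | add f g h1 h2 =>
    obtain ⟨f1, f2, e1⟩ := h1
    obtain ⟨g1, g2, e2⟩ := h2
    exact ⟨f1 + g1, f2 + g2, by rw [map_add, e1, e2, map_add, map_add]; ring⟩
  | monomial n c =>
    induction n with
    | zero => exact ⟨C c, 0, by rw [monomial_zero_left, aeval_C, aeval_C, map_zero, zero_mul, add_zero]⟩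
    | succ n ih =>
      obtain ⟨f1, f2, e1⟩ := ih
      obtain ⟨f1', f2', e2⟩ := hstep f1 f2
      refine ⟨f1', f2', ?_⟩
      rw [← e2, ← e1, ← monomial_mul_X, map_mul, aeval_X]

theorem fix_aeval {x : F} (hx : σ x = x) (g : (ZMod p)[X]) : σ (aeval x g) = aeval x g := by
  rw [← sum_aeval, map_sum]
  refine Finset.sum_congr rfl fun i _ => ?_
  rw [map_mul, map_natCast, map_pow, hx]

theorem nm_fix (a : Fˣ) : σ (nm hF a : F) = nm hF a := by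
  rw [nm_coe, map_mul, tt, mul_comm]

theorem range_two {G : Type*} [Group G] (y : Fin 2 → G) : Set.range y = {y 0, y 1} := by
  ext g
  constructor
  · rintro ⟨i, rfl⟩
    fin_cases i
    · exact Or.inl rfl
    · exact Or.inr rfl
  · rintro (rfl | h)
    · exact ⟨0, rfl⟩
    · exact ⟨1, h.symm⟩

theorem zzb {ζ : Fˣ} (b : ℕ) {x0 y0 : F} (h0 : Pc σ x0 y0) : ∃ (z0 : F) (hz : σ z0 = -z0), z0 = (thU hF (ζ ^ b) : F) * x0 * σ x0 - x0 * σ ((thU hF (ζ ^ b) : F) * x0) ∧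
    zz b (bu hF h0) (bh hF ζ) = bu hF (Pc_z hz) := by
  obtain ⟨hz, e⟩ := bu_comm hF h0 (Pc.conj σ (tt hF) h0 (ζ ^ b))
  refine ⟨_, hz, ?_, ?_⟩
  · rw [thU_coe]
  · rw [zz, ← bh_pow, bh_conj, e]

theorem exists_g9 {ζ : Fˣ} (hζ : IsGen ζ) {a b : ℕ} {ε : F} (D : ED (p := p) hF ζ a b ε) :
    ∃ R : Finset (FreeGroup (Fin 2)), ∃ x : Fin 2 → Bor hF, R.card ≤ 9 ∧ IsPres (R : Set (FreeGroup (Fin 2))) x := by
  have h0 : Pc σ 1 (σ ε) := by
    unfold Pc; rw [tt, map_one]; linear_combination D.tr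
  have hnm : ((nm hF (ζ ^ a) : Fˣ) : F) = ((nm hF (ζ ^ b) : Fˣ) : F) := by
    rw [nm_thU, nm_thU, D.ha, D.hb, map_add, map_one]
    linear_combination D.tr
  have hεσ : σ ε = -1 - ε := by linear_combination D.tr
  have hq : ε ^ 2 + ε + ((nm hF (ζ ^ a) : Fˣ) : F) = 0 := by
    rw [hnm, nm_thU, D.hb, hεσ]; ring
  have hfix : ∀ g : (ZMod p)[X], σ (aeval ((nm hF (ζ ^ a) : Fˣ) : F) g) = aeval ((nm hF (ζ ^ a) : Fˣ) : F) g := fix_aeval hF (nm_fix hF _)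
  have hζ1 : σ (ζ : F) ≠ ζ := by
    intro e
    have := (zeta_fix (hF := hF) hζ 1).1 (by rw [pow_one]; exact e)
    have h2 := Nat.le_of_dvd one_pos this
    have := q2 hF
    omega
  have hne : ε - σ ε ≠ 0 := by
    intro e
    have e1 : σ ε = ε := (sub_eq_zero.1 e).symm
    obtain ⟨f, hf⟩ := D.hκ (ζ : F)
    obtain ⟨f1, f2, e2⟩ := quad (p := p) hq f
    rw [D.ha, e2] at hf
    apply hζ1
    rw [← hf, map_add, map_mul, hfix, hfix, e1]
  have hδ : ∀ r, σ r = r → ∃ f : (ZMod p)[X], aeval (nm hF (ζ ^ a) : F) f = r := by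
    intro r hr
    obtain ⟨f, hf⟩ := D.hκ r
    obtain ⟨f1, f2, e2⟩ := quad (p := p) hq f
    rw [D.ha, e2] at hf
    refine ⟨f1, ?_⟩
    have h1 := hr
    rw [← hf, map_add, map_mul, hfix, hfix] at h1
    have h2 : aeval ((nm hF (ζ ^ a) : Fˣ) : F) f2 * (ε - σ ε) = 0 := by linear_combination -h1
    have h3 := (mul_eq_zero.1 h2).resolve_right hne
    rw [← hf, h3, zero_mul, add_zero]
  obtain ⟨z0, hz, hz0', hzz⟩ := zzb hF (ζ := ζ) b h0
  have hz0 : z0 ≠ 0 := by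
    rw [hz0', D.hb, mul_one, map_one, mul_one, one_mul]
    exact hne
  obtain ⟨y', h', e5⟩ := bu_pow hF h0 p
  obtain ⟨f5, e5'⟩ := cen hF hδ hz hz0 h' (by rw [CharP.cast_eq_zero, zero_mul])
  obtain ⟨y'', h'', e6⟩ := Psi_img hF h0 (ζ ^ a) (minpoly (ZMod p) (thU hF (ζ ^ a) : F))
  obtain ⟨f6, e6'⟩ := cen hF hδ hz hz0 h'' (by rw [minpoly.aeval, zero_mul])
  obtain ⟨h7, e7⟩ := Psi_imgz hF hz (ζ ^ a) (minpoly (ZMod p) (nm hF (ζ ^ a) : F))
  obtain ⟨g, f8, e8⟩ := expr hF D.hκ hδ h0 one_ne_zero hz hz0 (Pc.conj σ (tt hF) h0 ζ)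
  obtain ⟨gz, e9⟩ := cen hF hδ hz hz0 (Pc.conj σ (tt hF) (Pc_z hz) ζ) (by rw [mul_zero])
  have HG : G9 (orderOf ζ) a b (minpoly (ZMod p) (thU hF (ζ ^ a) : F)) (minpoly (ZMod p) (nm hF (ζ ^ a) : F)) f5 f6 f8 g gz (bu hF h0) (bh hF ζ) := by
    refine ⟨?_, ?_, ?_, ?_, ?_, ?_, ?_, ?_, ?_⟩
    · rw [← bh_pow, pow_orderOf_eq_one, bh_one]
    · rw [hzz]; exact bu_zcomm hF hz h0
    · rw [hzz, ← bh_pow, ← bh_pow, bh_conj, bh_conj]
      apply bu_congr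
      · rw [mul_zero, mul_zero]
      · rw [← nm_coe, ← nm_coe, hnm]
    · rw [← bh_pow, ← bh_pow, bh_conj, bh_conj, bu_mul]
      have ha := D.ha
      have hb := D.hb
      rw [thU_coe] at ha hb
      apply bu_congr
      · rw [ha, hb]; ring
      · rw [← nm_coe, ← nm_coe, hnm, hb]
        rw [mul_one, one_mul]; ring
    · rw [hzz, e5, e5']
    · rw [hzz, ← bh_pow, e6, e6', bh_pow]
    · rw [hzz, ← bh_pow, e7]
      rw [bu_one_iff]
      exact ⟨rfl, by rw [minpoly.aeval, zero_mul]⟩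
    · rw [hzz, bh_conj, e8]
    · rw [hzz, bh_conj, e9]
  obtain ⟨R, hR, P⟩ := pres_of (g9 (orderOf ζ) a b (minpoly (ZMod p) (thU hF (ζ ^ a) : F)) (minpoly (ZMod p) (nm hF (ζ ^ a) : F)) f5 f6 f8 g gz
    (FreeGroup.of (0 : Fin 2)) (FreeGroup.of 1)) ![bu hF h0, bh hF ζ] (gen_bor hF hζ D.hκ hδ h0 one_ne_zero hz hz0 hzz) (by
      intro i
      rw [map_g9, FreeGroup.lift_apply_of, FreeGroup.lift_apply_of]
      exact g9_iff.2 HG i) (by
      intro Γ _ y hgen hrel π hπ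
      have H' : G9 (orderOf ζ) a b (minpoly (ZMod p) (thU hF (ζ ^ a) : F)) (minpoly (ZMod p) (nm hF (ζ ^ a) : F)) f5 f6 f8 g gz (y 0) (y 1) := by
        rw [← g9_iff]
        intro i
        have := hrel i
        rwa [map_g9, FreeGroup.lift_apply_of, FreeGroup.lift_apply_of] at this
      rw [range_two] at hgen
      exact H'.inj (hz := hz) hF hgen π (hπ 0) one_ne_zero (hπ 1) hzz hz0)
  exact ⟨R, _, by simpa using hR, P⟩

/-- the direct scheme -/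
theorem exists_g14 (hfr : Module.finrank (ZMod p) F ≤ 6) {ζ : Fˣ} (hζ : IsGen ζ) {x0 y0 : F} (h0 : Pc σ x0 y0) (hx0 : x0 ≠ 0)
    (hκ : ∀ s : F, ∃ f : (ZMod p)[X], aeval (thU hF (ζ ^ 1) : F) f = s)
    (hδ : ∀ r, σ r = r → ∃ f : (ZMod p)[X], aeval (nm hF (ζ ^ 1) : F) f = r) :
    ∃ R : Finset (FreeGroup (Fin 2)), ∃ x : Fin 2 → Bor hF, R.card ≤ 14 ∧ IsPres (R : Set (FreeGroup (Fin 2))) x := by
  have hζ1 : σ (ζ : F) ≠ ζ := by
    intro e
    have := (zeta_fix (hF := hF) hζ 1).1 (by rw [pow_one]; exact e)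
    have h2 := Nat.le_of_dvd one_pos this
    have := q2 hF
    omega
  have hne : (thU hF (ζ ^ 1) : F) - σ (thU hF (ζ ^ 1) : F) ≠ 0 := by
    intro e
    obtain ⟨f, hf⟩ := hκ (ζ : F)
    apply hζ1
    rw [← hf]
    exact fix_aeval hF (sub_eq_zero.1 e).symm f
  obtain ⟨z0, hz, hz0', hzz⟩ := zzb hF (ζ := ζ) 1 h0
  have hz0 : z0 ≠ 0 := by
    have : z0 = ((thU hF (ζ ^ 1) : F) - σ (thU hF (ζ ^ 1) : F)) * (x0 * σ x0) := by
      rw [hz0', map_mul]; ring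
    rw [this]
    exact mul_ne_zero hne (mul_ne_zero hx0 ((map_ne_zero (conjHom hF)).2 hx0))
  obtain ⟨y', h', e5⟩ := bu_pow hF h0 p
  obtain ⟨f5, e5'⟩ := cen hF hδ hz hz0 h' (by rw [CharP.cast_eq_zero, zero_mul])
  obtain ⟨y'', h'', e6⟩ := Psi_img hF h0 (ζ ^ 1) (minpoly (ZMod p) (thU hF (ζ ^ 1) : F))
  obtain ⟨f6, e6'⟩ := cen hF hδ hz hz0 h'' (by rw [minpoly.aeval, zero_mul])
  obtain ⟨h7, e7⟩ := Psi_imgz hF hz (ζ ^ 1) (minpoly (ZMod p) (nm hF (ζ ^ 1) : F))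
  have hw : ∀ j : Fin 4, ∃ f : (ZMod p)[X], ⁅bu hF h0, cj (bu hF h0) (bh hF ζ ^ 1) (j + 2)⁆ = Psi (bu hF (Pc_z hz)) (bh hF ζ ^ 1) f := by
    intro j
    have e1 : cj (bu hF h0) (bh hF ζ ^ 1) (j + 2) = bu hF (Pc.conj σ (tt hF) h0 (ζ ^ ((j : ℕ) + 2))) := by
      rw [cj, pow_one (bh hF ζ), ← bh_pow, bh_conj]
    obtain ⟨hz', e2⟩ := bu_comm hF h0 (Pc.conj σ (tt hF) h0 (ζ ^ ((j : ℕ) + 2)))
    obtain ⟨f, e3⟩ := cen hF hδ hz hz0 (Pc_z hz') rfl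
    exact ⟨f, by rw [e1, e2, e3]⟩
  choose w hw using hw
  have HG : G14 (orderOf ζ) (minpoly (ZMod p) (thU hF (ζ ^ 1) : F)) (minpoly (ZMod p) (nm hF (ζ ^ 1) : F)) f5 f6 w (bu hF h0) (bh hF ζ) := by
    refine ⟨?_, ?_, ?_, ?_, ?_, ?_⟩
    · rw [← bh_pow, pow_orderOf_eq_one, bh_one]
    · rw [hzz, e5, e5']
    · rw [hzz, ← bh_pow, e6, e6', bh_pow]
    · rw [hzz, ← bh_pow, e7]
      rw [bu_one_iff]
      exact ⟨rfl, by rw [minpoly.aeval, zero_mul]⟩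
    · intro i _
      rw [hzz, cj, pow_one (bh hF ζ), ← bh_pow, bh_conj]
      have hzi : σ (((ζ ^ i : Fˣ) : F) * σ ((ζ ^ i : Fˣ) : F) * z0) = -(((ζ ^ i : Fˣ) : F) * σ ((ζ ^ i : Fˣ) : F) * z0) := by
        have := Pc.conj σ (tt hF) (Pc_z hz) (ζ ^ i)
        rw [mul_zero] at this
        exact (Pc_zero_iff hF).1 this
      have : bu hF (Pc.conj σ (tt hF) (Pc_z hz) (ζ ^ i)) = bu hF (Pc_z hzi) := bu_congr hF _ _ (mul_zero _) rfl
      rw [this]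
      exact bu_zcomm hF hzi h0
    · intro j
      rw [hzz, hw]
  obtain ⟨R, hR, P⟩ := pres_of (g14 (orderOf ζ) (minpoly (ZMod p) (thU hF (ζ ^ 1) : F)) (minpoly (ZMod p) (nm hF (ζ ^ 1) : F)) f5 f6 w
    (FreeGroup.of (0 : Fin 2)) (FreeGroup.of 1)) ![bu hF h0, bh hF ζ] (gen_bor hF hζ hκ hδ h0 hx0 hz hz0 hzz) (by
      intro i
      rw [map_g14, FreeGroup.lift_apply_of, FreeGroup.lift_apply_of]
      exact g14_iff.2 HG i) (by
      intro Γ _ y hgen hrel π hπ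
      have H' : G14 (orderOf ζ) (minpoly (ZMod p) (thU hF (ζ ^ 1) : F)) (minpoly (ZMod p) (nm hF (ζ ^ 1) : F)) f5 f6 w (y 0) (y 1) := by
        rw [← g14_iff]
        intro i
        have := hrel i
        rwa [map_g14, FreeGroup.lift_apply_of, FreeGroup.lift_apply_of] at this
      rw [range_two] at hgen
      exact H'.inj (hz := hz) hF hfr hgen π (hπ 0) hx0 (hπ 1) hzz hz0)
  exact ⟨R, _, by simpa using hR, P⟩

end main

end Cfsg.Agent.GK.T3
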