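import Cfsg.Agent.GK.T3h

/-!
Field data.
-/

set_option autoImplicit false
set_option linter.unusedSectionVars false
set_option linter.unusedVariables false
set_option linter.unusedSimpArgs false

namespace Cfsg.Agent.GK.T3

open Subgroup Polynomial Cfsg.Agent.ClBN Cfsg.Agent.Uni
open Cfsg.Agent.GK (IsPres IsGen adjoin_cases)

universe v

section main
variable {F : Type v} [Field F] [Fintype F] {q : ℕ} (hF : Fintype.card F = q ^ 2)
variable {p : ℕ} [hp : Fact p.Prime] [Algebra (ZMod p) F] [CharP F p]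

local notation "σ" => conjHom hF

theorem cu_pow_eq (a : Fˣ) : cu hF a = a ^ q := by
  apply Units.ext
  rw [cu_coe, conjHom_apply, Units.val_pow_eq_pow_val]

theorem cu_cu (a : Fˣ) : cu hF (cu hF a) = a := by
  apply Units.ext
  rw [cu_coe, cu_coe, tt]

theorem cu_mul (a b : Fˣ) : cu hF (a * b) = cu hF a * cu hF b := map_mul _ a b

theorem thU_mul (a b : Fˣ) : thU hF (a * b) = thU hF a * thU hF b := by
  unfold thU
  rw [cu_mul, mul_pow, mul_inv]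
  exact mul_mul_mul_comm _ _ _ _

theorem thU_one : thU hF 1 = 1 := by
  have := thU_mul hF 1 1
  rw [mul_one] at this
  exact mul_eq_right.1 this.symm

theorem thU_pow (a : Fˣ) (n : ℕ) : thU hF (a ^ n) = thU hF a ^ n := by
  induction n with
  | zero => rw [pow_zero, pow_zero, thU_one]
  | succ n ih => rw [pow_succ, pow_succ, thU_mul, ih]

theorem thU_inv (a : Fˣ) : thU hF a⁻¹ = (thU hF a)⁻¹ := by
  have := thU_mul hF a a⁻¹
  rw [mul_inv_cancel, thU_one] at this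
  exact (inv_eq_of_mul_eq_one_right this.symm).symm

/-- cubes are factors -/
theorem thU_cube (a : Fˣ) : thU hF (cu hF a * a ^ 2) = a ^ 3 := by
  rw [thU, cu_mul, cu_cu, mul_pow]
  have h2 : cu hF (a ^ 2) = cu hF a ^ 2 := by rw [pow_two, pow_two, cu_mul]
  rw [h2, ← pow_mul]
  have : cu hF a ^ 2 * a ^ (2 * 2) * (a * cu hF a ^ 2)⁻¹ = a ^ 3 := by
    rw [mul_inv_eq_iff_eq_mul]
    rw [show 2 * 2 = 3 + 1 from rfl, pow_succ a 3]
    rw [mul_comm (a ^ 3) (a * cu hF a ^ 2), mul_comm a (cu hF a ^ 2), mul_assoc, mul_comm a (a ^ 3)]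
  exact this

/-- everything is a factor if three does not divide `q + 1` -/
theorem thU_surj (h3 : ¬ 3 ∣ q + 1) (c : Fˣ) : ∃ a, thU hF a = c := by
  have hcase : (∃ r, q = 3 * r) ∨ (∃ r, q = 3 * r + 1) := by
    have : q % 3 = 0 ∨ q % 3 = 1 ∨ q % 3 = 2 := by omega
    rcases this with h | h | h
    · exact Or.inl ⟨q / 3, by omega⟩
    · exact Or.inr ⟨q / 3, by omega⟩
    · exfalso; apply h3; omega
  rcases hcase with ⟨r, hr⟩ | ⟨r, hr⟩
  · -- thU c * c^(3 r) = c ^ 2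
    have e1 : thU hF (c * (cu hF (c ^ r) * (c ^ r) ^ 2)) = c ^ 2 := by
      rw [thU_mul, thU_cube, thU, cu_pow_eq, hr, ← pow_mul, mul_comm r 3]
      group
    refine ⟨(cu hF c * c ^ 2) * (c * (cu hF (c ^ r) * (c ^ r) ^ 2))⁻¹, ?_⟩
    rw [thU_mul, thU_inv, e1, thU_cube]; group
  · refine ⟨c * (cu hF (c ^ r) * (c ^ r) ^ 2), ?_⟩
    rw [thU_mul, thU_cube, thU, cu_pow_eq, hr, ← pow_mul, mul_comm r 3, pow_succ]
    group

omit hF in
theorem sq_fac (hq : 1 ≤ q) : q ^ 2 - 1 = (q + 1) * (q - 1) := by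
  obtain ⟨r, rfl⟩ := Nat.exists_eq_add_of_le hq
  have : 1 + r - 1 = r := by omega
  rw [this]
  have : (1 + r) ^ 2 = (1 + r + 1) * r + 1 := by ring
  omega

/-- the trace of a power of the generator -/
theorem tr_zero {ζ : Fˣ} (hζ : IsGen ζ) {j : ℕ} (h : ((ζ ^ j : Fˣ) : F) + σ ((ζ ^ j : Fˣ) : F) = 0) : q + 1 ∣ 2 * j := by
  rw [← zeta_fix (hF := hF) hζ]
  have h1 : σ ((ζ ^ j : Fˣ) : F) = -((ζ ^ j : Fˣ) : F) := eq_neg_of_add_eq_zero_right h
  rw [mul_comm, pow_mul, Units.val_pow_eq_pow_val, map_pow, h1]; ring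

/-- the element has the required properties -/
theorem exists_eps {ζ : Fˣ} (hζ : IsGen ζ) {j : ℕ} (hj : ¬ q + 1 ∣ 2 * j) (hj' : 3 ∣ q + 1 → 3 ∣ j)
    (hκ : ∀ (T : F), T ≠ 0 → σ T = T → ∀ s : F, ∃ f : (ZMod p)[X], aeval (1 + -(((ζ ^ j : Fˣ) : F) / T)) f = s) : ∃ a b ε, ED (p := p) hF ζ a b ε := by
  set c := ((ζ ^ j : Fˣ) : F) with hc
  have hc0 : c ≠ 0 := (ζ ^ j).ne_zero
  set T := c + σ c with hT
  have hT0 : T ≠ 0 := fun h => hj (tr_zero hF hζ h)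
  have hTσ : σ T = T := by rw [hT, map_add, tt]; ring
  have htr : -(c / T) + σ (-(c / T)) = -1 := by
    rw [map_neg, map_div₀, hTσ]
    field_simp
    rw [hT]; ring
  have hε : 1 + -(c / T) = -σ (-(c / T)) := by linear_combination htr
  -- factors
  have hfac : ∃ w : Fˣ, (thU hF w : F) = -(c / T) := by
    by_cases h3 : 3 ∣ q + 1
    · obtain ⟨m, hm⟩ := hζ (Units.mk0 T hT0)
      have hm' : ((ζ ^ m : Fˣ) : F) = T := by rw [hm]; rfl
      have hd : q + 1 ∣ m := by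
        rw [← zeta_fix (hF := hF) hζ, hm', hTσ]
      obtain ⟨m', rfl⟩ := h3.trans hd
      obtain ⟨j', rfl⟩ := hj' h3
      refine ⟨cu hF (-(ζ ^ j' * (ζ ^ m')⁻¹)) * (-(ζ ^ j' * (ζ ^ m')⁻¹)) ^ 2, ?_⟩
      rw [thU_cube]
      have e1 : T = ((ζ : F) ^ m') ^ 3 := by rw [← hm', mul_comm, pow_mul]; push_cast; rfl
      have e2 : c = ((ζ : F) ^ j') ^ 3 := by rw [hc, mul_comm, pow_mul]; push_cast; rfl
      rw [e1, e2]
      push_cast
      have : (ζ : F) ≠ 0 := ζ.ne_zero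
      field_simp
    · obtain ⟨w, hw⟩ := thU_surj hF h3 (Units.mk0 (-(c / T)) (neg_ne_zero.2 (div_ne_zero hc0 hT0)))
      exact ⟨w, by rw [hw]; rfl⟩
  obtain ⟨w, hw⟩ := hfac
  have hw2 : (thU hF (-cu hF w) : F) = 1 + -(c / T) := by
    rw [hε, ← hw, thU_coe, thU_coe]
    push_cast
    rw [cu_coe, map_neg, map_mul, map_pow, map_inv₀, tt]
    have h1 : (w : F) ≠ 0 := w.ne_zero
    field_simp
  obtain ⟨b, hb⟩ := hζ w
  obtain ⟨a, ha⟩ := hζ (-cu hF w)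
  refine ⟨a, b, -(c / T), ⟨by rw [hb, hw], by rw [ha, hw2], htr, ?_⟩⟩
  rw [ha, hw2]
  exact hκ T hT0 hTσ

end main

end Cfsg.Agent.GK.T3
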