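import Cfsg.Agent.GK.T3i

/-!
Presentations of the Borel subgroup.
-/

set_option autoImplicit false
set_option linter.unusedSectionVars false
set_option linter.unusedVariables false
set_option linter.unusedSimpArgs false

namespace Cfsg.Agent.GK.T3

open Subgroup Polynomial Cfsg.Agent.ClBN Cfsg.Agent.Uni
open Cfsg.Agent.GK (IsPres IsGen adjoin_cases)

universe v

theorem num_one {Q q : ℕ} (h1 : q + 1 ∣ 1 * (Q - 1)) (hQ : 2 ≤ Q) (h2 : Q ^ 3 ≤ q ^ 2) : False := by
  rw [one_mul] at h1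
  have h3 := Nat.le_of_dvd (by omega) h1
  have h4 : q ≤ Q := by omega
  have h5 : q ^ 2 ≤ Q ^ 2 := Nat.pow_le_pow_left h4 2
  have h6 : Q ^ 3 = Q * Q ^ 2 := by ring
  have h7 : 0 < Q ^ 2 := by positivity
  nlinarith

theorem num_three {Q q : ℕ} (h1 : q + 1 ∣ 3 * (Q - 1)) (hQ : 2 ≤ Q) (h2 : Q ^ 3 ≤ q ^ 2) : q = 8 := by
  have h3 := Nat.le_of_dvd (by omega) h1
  obtain ⟨r, rfl⟩ := Nat.exists_eq_add_of_le hQ
  have h4 : q ≤ 3 * r + 2 := by omega
  have h5 : q ^ 2 ≤ (3 * r + 2) ^ 2 := Nat.pow_le_pow_left h4 2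
  have h6 : (2 + r) ^ 3 ≤ (3 * r + 2) ^ 2 := h2.trans h5
  have h7 : r < 3 := by
    by_contra hc
    push Not at hc
    obtain ⟨s, rfl⟩ := Nat.exists_eq_add_of_le hc
    ring_nf at h6
    nlinarith [Nat.zero_le (s ^ 2), Nat.zero_le (s ^ 3), Nat.zero_le s]
  interval_cases r
  · norm_num at h6
  · norm_num at h6
  · have h8 : q ≤ 8 := by omega
    have h9 : 8 ≤ q := by
      by_contra hc
      push Not at hc
      have : q ^ 2 ≤ 7 ^ 2 := Nat.pow_le_pow_left (by omega) 2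
      norm_num at h2 this
      omega
    omega

theorem dv6 {q : ℕ} (h : q + 1 ∣ 2 * 3) (h2 : 2 ≤ q) (n2 : q ≠ 2) (n5 : q ≠ 5) : False := by
  have h6 := Nat.le_of_dvd (by norm_num) h
  have h7 : q ≤ 5 := by omega
  interval_cases q <;> omega

section main
variable {F : Type v} [Field F] [Fintype F] {q : ℕ} (hF : Fintype.card F = q ^ 2)
variable {p : ℕ} [hp : Fact p.Prime] [Algebra (ZMod p) F] [CharP F p]

local notation "σ" => conjHom hF

theorem kap {ζ : Fˣ} (hζ : IsGen ζ) {j : ℕ} (hj : ¬ q + 1 ∣ j) {T : F} (hT0 : T ≠ 0) (hT : σ T = T) :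
    (∀ s : F, ∃ f : (ZMod p)[X], aeval (1 + -(((ζ ^ j : Fˣ) : F) / T)) f = s) ∨ ∃ Q, 2 ≤ Q ∧ Q ^ 3 ≤ q ^ 2 ∧ q + 1 ∣ j * (Q - 1) := by
  rcases adjoin_cases (p := p) (1 + -(((ζ ^ j : Fˣ) : F) / T)) with h | ⟨Q, m, n, hQ, hn, hQ2, hc, hκ⟩
  · exact Or.inl h
  · right
    set c := ((ζ ^ j : Fˣ) : F) with hcd
    have hc0 : c ≠ 0 := (ζ ^ j).ne_zero
    set e := -(c / T) with he
    have he0 : e ≠ 0 := neg_ne_zero.2 (div_ne_zero hc0 hT0)
    have heQ : e ^ Q = e := by
      have : (1 + e) ^ Q = 1 + e ^ Q := by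
        rw [hQ, add_pow_char_pow 1 e p m, one_pow]
      rw [this] at hκ
      exact add_left_cancel hκ
    have heQ1 : e ^ (Q - 1) = 1 := by
      have : e ^ (Q - 1) * e = e := by rw [← pow_succ, Nat.sub_add_cancel (by omega), heQ]
      exact (mul_eq_right₀ he0).1 this
    have hce : c = -(e * T) := by rw [he]; field_simp
    refine ⟨Q, hQ2, ?_, ?_⟩
    · have hn3 : 3 ≤ n := by
        by_contra hcon
        have hn2 : n = 2 := by omega
        rw [hn2, hF] at hc
        have hqQ : q = Q := by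
          exact (Nat.pow_left_injective (by norm_num : 2 ≠ 0)) hc
        apply hj
        rw [← zeta_fix (hF := hF) hζ, ← hcd, hce, map_neg, map_mul, hT]
        have : σ e = e := by rw [conjHom_apply, hqQ, heQ]
        rw [this]
      rw [← hF, hc]
      exact Nat.pow_le_pow_right (by omega) hn3
    · rw [← zeta_fix (hF := hF) hζ, pow_mul, Units.val_pow_eq_pow_val, ← hcd, hce]
      have e1 : (-(e * T)) ^ (Q - 1) = (-T) ^ (Q - 1) := by
        rw [← mul_neg, mul_pow, heQ1, one_mul]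
      rw [e1, map_pow, map_neg, hT]

include hF in
theorem exists_ed {ζ : Fˣ} (hζ : IsGen ζ) (h2 : q ≠ 2) (h5 : q ≠ 5) (h8 : q ≠ 8) : ∃ a b ε, ED (p := p) hF ζ a b ε := by
  have hq := q2 hF
  by_cases h3 : 3 ∣ q + 1
  · have hj : ¬ q + 1 ∣ 2 * 3 := by
      intro h
      exact dv6 h hq h2 h5
    refine exists_eps hF hζ (j := 3) hj (fun _ => dvd_rfl) ?_
    intro T hT0 hT
    rcases kap (p := p) hF hζ (j := 3) (fun h => hj (h.mul_left 2)) hT0 hT with h | ⟨Q, hQ, h4, h6⟩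
    · exact h
    · exact absurd (num_three h6 hQ h4) h8
  · have hj : ¬ q + 1 ∣ 2 * 1 := by
      intro h
      have := Nat.le_of_dvd (by norm_num) h
      omega
    refine exists_eps hF hζ (j := 1) hj (fun h => absurd h h3) ?_
    intro T hT0 hT
    rcases kap (p := p) hF hζ (j := 1) (fun h => hj (h.mul_left 2)) hT0 hT with h | ⟨Q, hQ, h4, h6⟩
    · exact h
    · exact absurd (num_one h6 hQ h4) id

theorem exists_direct (_hpp : p.Prime) (hq : q ≠ 2) (hc : q ^ 2 ≤ 64) {ζ : Fˣ} (hζ : IsGen ζ) :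
    ∃ R : Finset (FreeGroup (Fin 2)), ∃ x : Fin 2 → Bor hF, R.card ≤ 14 ∧ IsPres (R : Set (FreeGroup (Fin 2))) x := by
  have hq2 := q2 hF
  have hfr : Module.finrank (ZMod p) F ≤ 6 := by
    have h1 := Module.card_eq_pow_finrank (K := ZMod p) (V := F)
    rw [ZMod.card, hF] at h1
    have h2 : 2 ^ Module.finrank (ZMod p) F ≤ p ^ Module.finrank (ZMod p) F := Nat.pow_le_pow_left hp.out.two_le _
    by_contra hcon
    push Not at hcon
    have h3 : 2 ^ 7 ≤ 2 ^ Module.finrank (ZMod p) F := Nat.pow_le_pow_right (by norm_num) (by omega)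
    norm_num at h3
    omega
  obtain ⟨e0, he0⟩ := (Un.tauU hF).tr
  have h0 : Pc σ 1 (-e0) := by
    unfold Pc; rw [map_neg, map_one]; linear_combination -he0
  refine exists_g14 (p := p) hF hfr hζ h0 one_ne_zero ?_ ?_
  · intro s
    rcases adjoin_cases (p := p) ((thU hF (ζ ^ 1) : Fˣ) : F) with h | ⟨Q, m, n, hQ, hn, hQ2, hcard, hκ⟩
    · exact h s
    · exfalso
      have h1 : (thU hF (ζ ^ 1)) ^ (Q - 1) = 1 := by
        have : (thU hF (ζ ^ 1)) ^ Q = thU hF (ζ ^ 1) := by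
          ext
          rw [Units.val_pow_eq_pow_val]; exact hκ
        have h2 : (thU hF (ζ ^ 1)) ^ (Q - 1) * thU hF (ζ ^ 1) = thU hF (ζ ^ 1) := by
          rw [← pow_succ, Nat.sub_add_cancel (by omega)]
          exact this
        exact mul_eq_right.1 h2
      have h2 : (ζ ^ 3) ^ (Q - 1) = 1 := by
        have e1 := thU_cube hF ζ
        rw [cu_pow_eq, ← pow_add, thU_pow] at e1
        rw [← e1, ← pow_mul, mul_comm, pow_mul]
        rw [pow_one] at h1
        rw [h1, one_pow]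
      rw [← pow_mul] at h2
      have h3 := orderOf_dvd_of_pow_eq_one h2
      rw [hζ.orderOf, hcard] at h3
      have h4 := Nat.le_of_dvd (by omega) h3
      have h5 : Q ^ 2 ≤ Q ^ n := Nat.pow_le_pow_right (by omega) hn
      have h6 : Q = 2 := by
        by_contra hcon
        have : 3 ≤ Q := by omega
        obtain ⟨r, rfl⟩ := Nat.exists_eq_add_of_le this
        have h7 : (3 + r) ^ 2 = 9 + 6 * r + r ^ 2 := by ring
        rw [h7] at h5
        omega
      subst h6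
      have h7 : n = 2 := by
        by_contra hcon
        have h8 : 2 ^ 3 ≤ 2 ^ n := Nat.pow_le_pow_right (by norm_num) (by omega)
        norm_num at h8
        omega
      rw [hF, h7] at hcard
      exact hq ((Nat.pow_left_injective (by norm_num : 2 ≠ 0)) hcard)
  · intro r hr
    by_cases hr0 : r = 0
    · exact ⟨0, by rw [hr0, map_zero]⟩
    · obtain ⟨n, hn⟩ := hζ (Units.mk0 r hr0)
      have hn' : ((ζ ^ n : Fˣ) : F) = r := by rw [hn]; rfl
      have hd : q + 1 ∣ n := by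
        rw [← zeta_fix (hF := hF) hζ, hn', hr]
      obtain ⟨m, rfl⟩ := hd
      refine ⟨Polynomial.X ^ m, ?_⟩
      rw [map_pow, aeval_X, ← hn', nm, cu_pow_eq, pow_one, pow_mul, pow_succ' ζ q]
      push_cast
      rfl

end main

section fin
variable {F : Type v} [Field F] [Fintype F] {q : ℕ} (hF : Fintype.card F = q ^ 2)

theorem exists_bor (h2 : q ≠ 2) : ∃ R : Finset (FreeGroup (Fin 2)), ∃ x : Fin 2 → Bor hF, R.card ≤ 14 ∧ IsPres (R : Set (FreeGroup (Fin 2))) x := by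
  obtain ⟨p, hc⟩ := CharP.exists F
  have hp : Fact p.Prime := ⟨CharP.char_is_prime F p⟩
  letI : Algebra (ZMod p) F := ZMod.algebra F p
  obtain ⟨ζ, hζ⟩ := Cfsg.Agent.GK.exists_isGen F
  by_cases h5 : q = 5
  · exact exists_direct hF hp.out h2 (by rw [h5]; norm_num) hζ
  by_cases h8 : q = 8
  · exact exists_direct hF hp.out h2 (by rw [h8]; norm_num) hζ
  obtain ⟨a, b, ε, D⟩ := exists_ed (p := p) hF hζ h2 h5 h8
  obtain ⟨R, x, hR, P⟩ := exists_g9 hF hζ D
  exact ⟨R, x, by omega, P⟩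

end fin

end Cfsg.Agent.GK.T3
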