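import Cfsg.Agent.GK.Conc

/-!
Injectivity for the two types of gluing (degree even: type A, degree odd: type B).
-/

set_option autoImplicit false

namespace Cfsg.Agent.GK

open Subgroup Equiv

section T
variable {Λ : Type*} [DecidableEq Λ]

/-- `T` is the identity or the transposition of the extra points, `σ` is its sign -/
def IsT (T : Perm (Option (Option Λ))) (σ : ℤˣ) : Prop := (T = 1 ∧ σ = 1) ∨ (T = tau ∧ σ = -1)

variable {T : Perm (Option (Option Λ))} {σ : ℤˣ}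

theorem IsT.conj_X (h : IsT T σ) (l : Λ) : T * X l * T⁻¹ = X l ^ (σ : ℤ) := by
  rcases h with ⟨rfl, rfl⟩ | ⟨rfl, rfl⟩
  · simp
  · rw [tau_conj_X]; simp

theorem IsT.comm_up (h : IsT T σ) (g : Perm Λ) : Commute T (up g) := by
  rcases h with ⟨rfl, rfl⟩ | ⟨rfl, rfl⟩
  · exact Commute.one_left _
  · exact tau_comm_up g

theorem IsT.comm_tau (h : IsT T σ) : Commute T tau := by
  rcases h with ⟨rfl, rfl⟩ | ⟨rfl, rfl⟩
  · exact Commute.one_left _
  · exact Commute.refl _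

theorem IsT.tau_mul (h : IsT T σ) : IsT (tau * T) (-σ) := by
  rcases h with ⟨rfl, rfl⟩ | ⟨rfl, rfl⟩
  · exact Or.inr ⟨mul_one _, rfl⟩
  · exact Or.inl ⟨tau_mul_tau, by simp⟩

theorem IsT.sign [Fintype Λ] (h : IsT T σ) : Perm.sign T = σ := by
  rcases h with ⟨rfl, rfl⟩ | ⟨rfl, rfl⟩
  · exact map_one _
  · exact sign_tau

theorem IsT.mul_self (h : IsT T σ) : T * T = 1 := by
  rcases h with ⟨rfl, rfl⟩ | ⟨rfl, rfl⟩
  · exact mul_one _
  · exact tau_mul_tau

theorem IsT.conj (h : IsT T σ) (g : Perm Λ) (l : Λ) :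
    (up g * T) * X l * (up g * T)⁻¹ = X (g l) ^ (σ : ℤ) := by
  have : (up g * T) * X l * (up g * T)⁻¹ = up g * (T * X l * T⁻¹) * (up g)⁻¹ := by group
  rw [this, h.conj_X, conj_upow, up_conj_X]

theorem pi_Y {G : Type*} [Group G] {N : ℕ} {S : Type*} [DecidableEq S] {σ : ℤˣ}
    {T : Perm (Option (Option (ZMod N ⊕ S)))} (h : IsT T σ)
    (π : G →* Perm (Option (Option (ZMod N ⊕ S)))) {y c : G} (hy : π y = X (Sum.inl 0))
    (hc : π c = up (cL N S) * T) (n : ℕ) : π (Y c y σ n) = X (Sum.inl (n : ZMod N)) := by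
  induction n with
  | zero => rw [Y_zero, hy]; simp
  | succ n ih =>
    rw [Y_succ', map_zpow, map_mul, map_mul, map_inv, ih, hc, h.conj, upow_upow, cL_inl]
    congr 2
    push_cast; ring

end T

section typeA
variable {G : Type*} [Group G] {p : ℕ} [hp : Fact p.Prime] {r : ZMod p} {m N M : ℕ} [NeZero N] {a z b v c : G}
  {e : ZMod p ↪ ZMod N ⊕ Empty} {π : G →* Perm (Option (Option (ZMod N ⊕ Empty)))} {v0 : Perm (ZMod p)}
  {σ : ℤˣ} {T : Perm (Option (Option (ZMod N ⊕ Empty)))}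

theorem typeA_inj (h : BaseRel p r m a z b) (hb : b ∈ closure ({a, z} : Set G))
    (hv : v ∈ closure ({a, z} : Set G)) (hN : Even N) (hle : N ≤ 2 * (p - 1))
    (r5 : (a⁻¹ * c) * z ^ 4 * (a⁻¹ * c)⁻¹ = z ^ (σ : ℤ)) (r6 : (a⁻¹ * c) * v * (a⁻¹ * c)⁻¹ = v)
    (r7 : c ^ N = (c * z) ^ M)
    (ha : π a = io e (up (rot p))) (hz : π z = io e (X 0)) (hpv : π v = io e (up v0 * tau))
    (hT : IsT T σ) (hc : π c = up (cL N Empty) * T) (he0 : e 0 = Sum.inl 0)
    (hv0 : ∀ k : ℕ, k + 2 ≤ p → (v0 ^ k) 0 = k)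
    (hM : M = N + 1 ∨ M = N + 2 ∧ Perm.sign (π c) = -1)
    (hgen : closure ({a, z, c} : Set G) = ⊤) : Function.Injective π := by
  have z3 := z_cube h r5
  have hd : ∀ k : ℕ, k + 2 ≤ p → (a⁻¹ * c) * xx a z (k : ZMod p) * (a⁻¹ * c)⁻¹ = xx a z (k : ZMod p) ^ (σ : ℤ) := by
    intro k hk
    have := d_xx h hb z3 ha hz hv hpv r5 r6 k
    rwa [hv0 k hk] at this
  have hYx : ∀ k : ℕ, k + 1 ≤ p → Y c z σ k = xx a z (k : ZMod p) := by
    intro k
    induction k with
    | zero => intro _; rw [Y_zero, Nat.cast_zero, xx_zero]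
    | succ k ih =>
      intro hk
      rw [Y_succ', ih (by omega)]
      have h1 : c * xx a z (k : ZMod p) * c⁻¹ = a * ((a⁻¹ * c) * xx a z (k : ZMod p) * (a⁻¹ * c)⁻¹) * a⁻¹ := by
        group
      rw [h1, hd k (by omega), conj_upow, upow_upow]
      have h2 := xx_conj (z := z) h.ap 1 (k : ZMod p)
      rw [al_one h.ap] at h2
      rw [h2]
      congr 1
      push_cast; ring
  have hG : GlueRel N (p - 1) M z c σ (fun s : Empty => s.elim) :=
    { even := hN
      le := hle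
      y3 := z3
      yk := by
        intro k h1 h2
        rw [hYx k (by omega)]
        have hk0 : (k : ZMod p) ≠ 0 := by
          intro h0
          rw [ZMod.natCast_eq_zero_iff] at h0
          exact absurd (Nat.le_of_dvd (by omega) h0) (by omega)
        rw [h.sq0 _ hk0, z3]
      cN := r7
      s3 := fun s => s.elim
      ss := fun s => s.elim
      sy := fun s => s.elim
      cs := fun s => s.elim }
  have hpz : π z = X (Sum.inl 0) := by rw [hz, io_X, he0]
  refine hG.inj π ?_ hM ?_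
  · intro l
    rcases l with i | s
    · change π (Y c z σ i.val) = _
      rw [pi_Y hT π hpz hc, ZMod.natCast_zmod_val]
    · exact s.elim
  · rw [eq_top_iff, ← hgen, closure_le]
    have hB : closure ({a, z} : Set G) ≤ closure (insert c (Set.range (fam N z c σ fun s : Empty => s.elim))) := by
      rw [← h.closure_xx hb, closure_le]
      rintro _ ⟨j, rfl⟩
      have h1 := hYx j.val (by have := j.val_lt; omega)
      rw [ZMod.natCast_zmod_val] at h1
      rw [← h1, hG.fam_nat]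
      exact subset_closure (Or.inr ⟨_, rfl⟩)
    rintro x (rfl | rfl | rfl)
    · exact hB (subset_closure (by simp))
    · exact hB (subset_closure (by simp))
    · exact subset_closure (Or.inl rfl)

end typeA

section typeB
variable {G : Type*} [Group G] {p : ℕ} [hp : Fact p.Prime] {r : ZMod p} {m N M : ℕ} [NeZero N] {a z b v c : G}
  {e : ZMod p ↪ ZMod N ⊕ Unit} {π : G →* Perm (Option (Option (ZMod N ⊕ Unit)))} {v0 : Perm (ZMod p)}
  {σ : ℤˣ} {T : Perm (Option (Option (ZMod N ⊕ Unit)))}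

theorem typeB_inj (h : BaseRel p r m a z b) (hb : b ∈ closure ({a, z} : Set G))
    (hv : v ∈ closure ({a, z} : Set G)) (hN : Even N) (hle : N ≤ 2 * (p - 2))
    (r5 : (b⁻¹ * c) * z ^ 4 * (b⁻¹ * c)⁻¹ = z ^ (((-σ : ℤˣ)) : ℤ)) (r6 : (b⁻¹ * c) * v * (b⁻¹ * c)⁻¹ = v)
    (r7 : c ^ N = (c * (a * z * a⁻¹)) ^ M)
    (ha : π a = io e (up (rot p))) (hz : π z = io e (X 0)) (hpv : π v = io e (up v0 * tau))
    (hT : IsT T σ) (hc : π c = up (cL N Unit) * T) (he0 : e 0 = Sum.inr ()) (he1 : e 1 = Sum.inl 0)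
    (hv0 : ∀ k : ℕ, k + 3 ≤ p → (v0 ^ (k + 1)) 0 = r ^ k)
    (hr1 : ∀ x : ZMod p, x ≠ 0 → ∃ k, k + 2 ≤ p ∧ r ^ k = x)
    (hr2 : ∀ k : ℕ, 1 ≤ k → k + 2 ≤ p → r ^ k ≠ 1)
    (hM : M = N + 1 ∨ M = N + 2 ∧ Perm.sign (π c) = -1)
    (hgen : closure ({a, z, c} : Set G) = ⊤) : Function.Injective π := by
  have z3 := z_cube h r5
  have hx1 : xx a z (1 : ZMod p) = a * z * a⁻¹ := by rw [xx, al_one h.ap]
  have hd : ∀ k : ℕ, k + 3 ≤ p →
      (b⁻¹ * c) * xx a z (r ^ k) * (b⁻¹ * c)⁻¹ = xx a z (r ^ k) ^ (((-σ : ℤˣ)) : ℤ) := by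
    intro k hk
    have := d_xx h hb z3 ha hz hv hpv r5 r6 (k + 1)
    rwa [hv0 k hk] at this
  have hinv : ∀ x : G, (x⁻¹) ^ (((-σ : ℤˣ)) : ℤ) = x ^ (σ : ℤ) := by
    intro x
    rw [Units.val_neg, zpow_neg, inv_zpow, inv_inv]
  have hYx : ∀ k : ℕ, k + 2 ≤ p → Y c (a * z * a⁻¹) σ k = xx a z (r ^ k) := by
    intro k
    induction k with
    | zero => intro _; rw [Y_zero, pow_zero, hx1]
    | succ k ih =>
      intro hk
      rw [Y_succ', ih (by omega)]
      have h1 : c * xx a z (r ^ k) * c⁻¹ = b * ((b⁻¹ * c) * xx a z (r ^ k) * (b⁻¹ * c)⁻¹) * b⁻¹ := by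
        group
      rw [h1, hd k (by omega), conj_upow, h.b_xx, hinv, upow_upow, ← pow_succ']
  have hcz : c * z * c⁻¹ = z ^ (σ : ℤ) := by
    have z4 : z ^ 4 = z := by rw [pow_succ, z3, one_mul]
    rw [z4] at r5
    have h1 : c * z * c⁻¹ = b * ((b⁻¹ * c) * z * (b⁻¹ * c)⁻¹) * b⁻¹ := by group
    rw [h1, r5, conj_upow, h.r4, hinv]
  have hG : GlueRel N (p - 2) M (a * z * a⁻¹) c σ (fun _ : Unit => z) :=
    { even := hN
      le := hle
      y3 := by rw [conj_pow, z3]; group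
      yk := by
        intro k h1 h2
        rw [hYx k (by omega), ← hx1]
        rw [h.sq 1 (r ^ k) (fun hh => hr2 k h1 (by omega) hh.symm), h.cube_eq, z3]
      cN := r7
      s3 := fun _ => z3
      ss := fun s s' hs => absurd rfl hs
      sy := fun _ => by
        rw [← hx1, h.sq0 1 one_ne_zero, z3]
      cs := fun _ => hcz }
  have hpz : π z = X (Sum.inr ()) := by rw [hz, io_X, he0]
  have hpy : π (a * z * a⁻¹) = X (Sum.inl 0) := by
    rw [← hx1, pi_xx ha hz, io_X, he1]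
  refine hG.inj π ?_ hM ?_
  · intro l
    rcases l with i | s
    · change π (Y c (a * z * a⁻¹) σ i.val) = _
      rw [pi_Y hT π hpy hc, ZMod.natCast_zmod_val]
    · exact hpz
  · rw [eq_top_iff, ← hgen, closure_le]
    have hB : closure ({a, z} : Set G) ≤
        closure (insert c (Set.range (fam N (a * z * a⁻¹) c σ fun _ : Unit => z))) := by
      rw [← h.closure_xx hb, closure_le]
      rintro _ ⟨j, rfl⟩
      by_cases hj : j = 0
      · rw [hj, xx_zero]
        exact subset_closure (Or.inr ⟨Sum.inr (), rfl⟩)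
      · obtain ⟨k, hk, rfl⟩ := hr1 j hj
        rw [← hYx k hk, hG.fam_nat]
        exact subset_closure (Or.inr ⟨_, rfl⟩)
    rintro x (rfl | rfl | rfl)
    · exact hB (subset_closure (by simp))
    · exact hB (subset_closure (by simp))
    · exact subset_closure (Or.inl rfl)

end typeB

end Cfsg.Agent.GK
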