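import Cfsg.Agent.Stb.HRel

set_option autoImplicit false
set_option linter.unusedSimpArgs false

/-!
Steinberg relations for hermitian forms of Witt index at least two: a group with such relations which acts
as the isometry group has kernel contained in the torus.
-/

namespace Cfsg.Agent.GK.Un

open Subgroup Cfsg.Agent.Stb
open scoped commutatorElement

variable {I K W Γ : Type*} [InvolutiveNeg I] [DecidableEq I] [Field K] [AddCommGroup W] [Module K W] [Group Γ]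

/-- Steinberg relations of a hermitian form of Witt index at least two. -/
structure HR (τ : K →+* K) (h0 : W → W → K) (P : W → K → Prop) (y : I → I → K → Γ) (z : I → W → K → Γ) : Prop where
  ne : ∀ i : I, -i ≠ i
  two : ∀ i : I, ∃ k, k ≠ i ∧ k ≠ -i
  nt : ∃ w c, P w c ∧ c ≠ 0
  symm : ∀ {i j}, i ≠ j → i ≠ -j → ∀ a, y i j a = y j i (-τ a)
  add : ∀ {i j}, i ≠ j → i ≠ -j → ∀ a b, y i j (a + b) = y i j a * y i j b
  zmul : ∀ i {w c w' c'}, P w c → P w' c' → z i w c * z i w' c' = z i (w + w') (c + c' - h0 w w')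
  c1 : ∀ {i j k : I}, i ≠ j → i ≠ -j → j ≠ k → j ≠ -k → i ≠ k → i ≠ -k → ∀ a b, ⁅y i j a, y (-j) k b⁆ = y i k (a * b)
  c2 : ∀ {i j : I}, i ≠ j → i ≠ -j → ∀ a b, ⁅y i j a, y (-j) i b⁆ = z i 0 (a * b - τ (a * b))
  c3 : ∀ {i j : I}, i ≠ j → i ≠ -j → ∀ {w c}, P w c → ∀ b, ⁅z i w c, y (-i) j b⁆ = y i j (c * b) * z j (b • w) (b * τ b * τ c)
  c4 : ∀ {i j k l : I}, i ≠ j → i ≠ -j → k ≠ l → k ≠ -l → k ≠ -i → k ≠ -j → l ≠ -i → l ≠ -j → ∀ a b, ⁅y i j a, y k l b⁆ = 1
  c5 : ∀ {i k l : I}, k ≠ l → k ≠ -l → k ≠ -i → l ≠ -i → ∀ {w c}, P w c → ∀ a, ⁅z i w c, y k l a⁆ = 1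
  c6 : ∀ {i j : I}, i ≠ j → i ≠ -j → ∀ {w c w' c'}, P w c → P w' c' → ⁅z i w c, z j w' c'⁆ = y i j (-h0 w w')
namespace HR

variable {τ : K →+* K} {h0 : W → W → K} {P : W → K → Prop} (H : HF τ h0 P) {y : I → I → K → Γ} {z : I → W → K → Γ}
  (R : HR τ h0 P y z)

include R

omit [DecidableEq I] in
lemma zero {i j : I} (h : i ≠ j) (h' : i ≠ -j) : y i j 0 = 1 := by
  have := R.add h h' 0 0
  rw [add_zero] at this
  exact mul_eq_left.1 this.symm

omit [DecidableEq I] in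
lemma neg {i j : I} (h : i ≠ j) (h' : i ≠ -j) (a : K) : y i j (-a) = (y i j a)⁻¹ := by
  rw [eq_inv_iff_mul_eq_one, ← R.add h h', neg_add_cancel, R.zero h h']

include H

omit [DecidableEq I] in
lemma zzero (i : I) : z i 0 0 = 1 := by
  have := R.zmul i H.P_zero H.P_zero
  rw [add_zero, add_zero, H.zero_left, sub_zero] at this
  exact mul_eq_left.1 this

omit [DecidableEq I] in
lemma zinv (i : I) {w : W} {c : K} (h : P w c) : (z i w c)⁻¹ = z i (-w) (τ c) := by
  rw [inv_eq_iff_mul_eq_one, R.zmul i h (H.P_inv h), add_neg_cancel, H.neg_right, sub_neg_eq_add, H.P_tr h, R.zzero H]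

omit [DecidableEq I] in
lemma mem_Xl {i : I} {g : Γ} : g ∈ HX P y z i i ↔ ∃ w c, P w c ∧ z i w c = g := by
  constructor
  · intro hg
    unfold HX at hg
    induction hg using closure_induction with
    | mem x hx =>
      rcases hx with ⟨-, h⟩ | ⟨h, -⟩
      · exact h
      · exact absurd rfl h
    | one => exact ⟨0, 0, H.P_zero, R.zzero H i⟩
    | mul a b _ _ ha hb =>
      obtain ⟨w, c, h, rfl⟩ := ha
      obtain ⟨w', c', h', rfl⟩ := hb
      exact ⟨_, _, H.P_mul h h', (R.zmul i h h').symm⟩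
    | inv a _ ha =>
      obtain ⟨w, c, h, rfl⟩ := ha
      exact ⟨_, _, H.P_inv h, (R.zinv H i h).symm⟩
  · rintro ⟨w, c, h, rfl⟩
    exact subset_closure (Or.inl ⟨rfl, w, c, h, rfl⟩)

omit H in
omit [DecidableEq I] in
lemma mem_Xs {i j : I} (h : i ≠ j) (h' : i ≠ -j) {g : Γ} : g ∈ HX P y z i j ↔ ∃ a, y i j a = g := by
  constructor
  · intro hg
    unfold HX at hg
    induction hg using closure_induction with
    | mem x hx =>
      rcases hx with ⟨e, -⟩ | ⟨-, -, h⟩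
      · exact absurd e h
      · exact h
    | one => exact ⟨0, R.zero h h'⟩
    | mul a b _ _ ha hb =>
      obtain ⟨a, rfl⟩ := ha
      obtain ⟨b, rfl⟩ := hb
      exact ⟨a + b, R.add h h' a b⟩
    | inv a _ ha =>
      obtain ⟨a, rfl⟩ := ha
      exact ⟨-a, R.neg h h' a⟩
  · rintro ⟨a, rfl⟩
    exact subset_closure (Or.inr ⟨h, h', a, rfl⟩)

omit R H in
omit [DecidableEq I] [AddCommGroup W] [Module K W] [Field K] in
lemma y_mem {i j : I} (h : i ≠ j) (h' : i ≠ -j) (a : K) : y i j a ∈ HX P y z i j := subset_closure (Or.inr ⟨h, h', a, rfl⟩)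

omit R H in
omit [DecidableEq I] [AddCommGroup W] [Module K W] [Field K] in
lemma z_mem (i : I) {w : W} {c : K} (h : P w c) : z i w c ∈ HX P y z i i := subset_closure (Or.inl ⟨rfl, w, c, h, rfl⟩)

omit [DecidableEq I] in
theorem com : Com (HX P y z) where
  ne := R.ne
  Xs i j := by
    by_cases h : i = j
    · rw [h]
    by_cases h' : i = -j
    · have h'' : j = -i := by rw [h', neg_neg]
      unfold HX
      congr 1
      ext g
      constructor
      · rintro (⟨e, -⟩ | ⟨-, e, -⟩)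
        · exact absurd e h
        · exact absurd h' e
      · rintro (⟨e, -⟩ | ⟨-, e, -⟩)
        · exact absurd e.symm h
        · exact absurd h'' e
    · ext g
      rw [R.mem_Xs h h', R.mem_Xs (Ne.symm h) (by nx)]
      constructor
      · rintro ⟨a, rfl⟩; exact ⟨-τ a, (R.symm h h' a).symm⟩
      · rintro ⟨a, rfl⟩; exact ⟨-τ a, (R.symm (Ne.symm h) (by nx) a).symm⟩
  c1 {i j k} h1 h2 h3 h4 h5 h6 x hx z' hz := by
    obtain ⟨a, rfl⟩ := (R.mem_Xs h1 h2).1 hx
    obtain ⟨b, rfl⟩ := (R.mem_Xs (by nx) (by nx)).1 hz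
    rw [R.c1 h1 h2 h3 h4 h5 h6]
    exact y_mem h5 h6 _
  c2 {i j} h1 h2 x hx z' hz := by
    obtain ⟨a, rfl⟩ := (R.mem_Xs h1 h2).1 hx
    obtain ⟨b, rfl⟩ := (R.mem_Xs (by nx) (by nx)).1 hz
    rw [R.c2 h1 h2]
    exact z_mem i (H.P_skew _)
  c3 {i j} h1 h2 x hx z' hz := by
    obtain ⟨w, c, h, rfl⟩ := (R.mem_Xl H).1 hx
    obtain ⟨b, rfl⟩ := (R.mem_Xs (by nx) (by nx)).1 hz
    rw [R.c3 h1 h2 h]
    exact mul_mem (mem_sup_left (y_mem h1 h2 _)) (mem_sup_right (z_mem j (H.P_smul' h b)))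
  c4 {i j k l} h1 h2 h3 h4 h5 h6 h7 x hx z' hz := by
    by_cases hij : i = j
    · subst hij
      have hkl : k ≠ l := fun e => h7 ⟨rfl, e⟩
      obtain ⟨w, c, h, rfl⟩ := (R.mem_Xl H).1 hx
      obtain ⟨b, rfl⟩ := (R.mem_Xs hkl h2).1 hz
      exact R.c5 hkl h2 h3 h5 h b
    · obtain ⟨a, rfl⟩ := (R.mem_Xs hij h1).1 hx
      by_cases hkl : k = l
      · subst hkl
        obtain ⟨w, c, h, rfl⟩ := (R.mem_Xl H).1 hz
        rw [← commutatorElement_inv, R.c5 hij h1 (by nx) (by nx) h, inv_one]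
      · obtain ⟨b, rfl⟩ := (R.mem_Xs hkl h2).1 hz
        exact R.c4 hij h1 hkl h2 h3 h4 h5 h6 a b
  c5 {i j} h1 h2 x hx z' hz := by
    obtain ⟨w, c, h, rfl⟩ := (R.mem_Xl H).1 hx
    obtain ⟨w', c', h', rfl⟩ := (R.mem_Xl H).1 hz
    rw [R.c6 h1 h2 h h']
    exact y_mem h1 h2 _

end HR

section act

variable [Fintype I] {τ : K →+* K} {h0 : W → W → K} {P : W → K → Prop} (H : HF τ h0 P) {y : I → I → K → Γ} {z : I → W → K → Γ}
  (R : HR τ h0 P y z) {ρ : Γ →* (((I → K) × W) ≃ₗ[K] ((I → K) × W))} (A : HA τ h0 P y z ρ)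

include A in
/-- coordinates not touched by the root groups -/
lemma hcoord_fix {Q : I → I → Prop} {p : I} (hQ : ∀ k l, k ≠ -l → Q k l → k ≠ p ∧ l ≠ p) (R : HR τ h0 P y z) (H : HF τ h0 P)
    {g : Γ} (hg : g ∈ gp (HX P y z) Q) (v : (I → K) × W) : (ρ g v).1 p = v.1 p := by
  unfold gp at hg
  induction hg using closure_induction generalizing v with
  | mem x hx =>
    obtain ⟨k, l, hkl, h, hx⟩ := hx
    obtain ⟨h1, h2⟩ := hQ k l hkl h
    by_cases h3 : k = l
    · subst h3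
      obtain ⟨w, c, hP, rfl⟩ := (R.mem_Xl H).1 hx
      rw [A.act_z k hP]
      simp only
      rw [if_neg (Ne.symm h1), add_zero]
    · obtain ⟨a, rfl⟩ := (R.mem_Xs h3 hkl).1 hx
      rw [A.act_y h3 hkl]
      simp only
      rw [if_neg (Ne.symm h1), if_neg (Ne.symm h2), add_zero, sub_zero]
  | one => simp
  | mul a b _ _ ha hb => rw [map_mul]; simp only [LinearEquiv.mul_apply]; rw [ha, hb]
  | inv a _ ha =>
    have := ha (ρ a⁻¹ v)
    rw [← LinearEquiv.mul_apply, ← map_mul, mul_inv_cancel, map_one, LinearEquiv.coe_one, id] at this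
    exact this.symm

include H R A in
/-- a column element which moves the basis vector only in the direction of the diagonal root group -/
lemma mem_diag {i : I} {t : Γ} (ht : t ∈ gp (HX P y z) (Yp Finset.univ i))
    (h : ∀ j, j ≠ i → j ≠ -i → (ρ t (eh i)).1 j = 0) : t ∈ HX P y z (-i) (-i) := by
  have ne := R.ne
  rcases (R.com H).dich (J := Finset.univ) (fun _ _ => Finset.mem_univ _) (Finset.mem_univ i) ht with h1 | ⟨j, -, h1, h2, x, hx, hx1, t0, ht0, rfl⟩
  · exact h1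
  · exfalso
    have hji : j ≠ - -i := by rw [neg_neg]; exact h1
    obtain ⟨a, rfl⟩ := (R.mem_Xs h2 hji).1 hx
    have k1 : (ρ t0 (eh i)).1 i = 1 := by
      rw [hcoord_fix A (p := i) ?_ R H ht0 (eh i), eh_fst, if_pos rfl]
      intro k l hkl hP
      rcases cf_lt ne hkl hP.2.2.1 with e | e
      · refine ⟨by rw [e]; exact ne i, fun f => hkl ?_⟩
        rw [e, f]
      · refine ⟨fun f => hkl ?_, by rw [e]; exact ne i⟩
        rw [e, f, neg_neg]
    have k2 : (ρ t0 (eh i)).1 j = 0 := by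
      rw [hcoord_fix A (p := j) ?_ R H ht0 (eh i), eh_fst, if_neg h1]
      intro k l hkl hP
      obtain ⟨-, -, q1, q2⟩ := hP
      by_contra hcon
      have h3 : 0 < cf k l j := by
        rcases cf_cases ne hkl j with e | e | e | e | e | e | e
        · omega
        · exfalso; apply hcon; rw [e.2.1, e.2.2]; exact ⟨ne j, ne j⟩
        · omega
        · omega
        · exfalso; apply hcon; rw [e.2.1]; exact ⟨ne j, e.2.2.1⟩
        · exfalso; apply hcon; rw [e.2.1]; exact ⟨e.2.2.1, ne j⟩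
        · exfalso; apply hcon; exact ⟨e.2.1, e.2.2.2.1⟩
      rcases q2 with q2 | q2
      · rcases cf_pm ne hkl h2 q1 h3 with ⟨e, f⟩ | ⟨e, f⟩
        · rw [e, f] at q2
          rw [cf_comm, (cf_self ne h1 h2).1] at q2; omega
        · rw [e, f, (cf_self ne h1 h2).1] at q2; omega
      · omega
    have h3 := h j h1 h2
    rw [hrho_mul, A.act_y h2 hji] at h3
    simp only [neg_neg, k1, k2, if_true, if_neg h2, zero_add, mul_one, sub_zero] at h3
    exact hx1 (by rw [h3, R.zero h2 hji])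

include H R A in
/-- a column element which fixes the basis vector is trivial -/
lemma hinj_Y {i : I} {t : Γ} (ht : t ∈ gp (HX P y z) (Yp Finset.univ i)) (h : ρ t (eh i) = eh i) : t = 1 := by
  have ne := R.ne
  have h1 := mem_diag H R A ht (fun j h1 _ => by rw [h, eh_fst, if_neg h1])
  obtain ⟨w, c, hP, rfl⟩ := (R.mem_Xl H).1 h1
  rw [act_z_ee A H hP, neg_neg, if_pos rfl, if_pos rfl, one_smul] at h
  have h3 := congrFun (congrArg Prod.fst h) (-i)
  have h4 := congrArg Prod.snd h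
  simp only [Prod.fst_add, Prod.smul_fst, Pi.add_apply, Pi.smul_apply, eh_fst, smul_eq_mul, if_true, mul_one, if_neg (ne i),
    zero_add, wh, Pi.zero_apply, add_zero] at h3
  simp only [Prod.snd_add, Prod.smul_snd, eh_snd, wh, smul_zero, zero_add] at h4
  rw [h3, h4, R.zzero H]

include H R A in
/-- conjugating root elements by monomial elements -/
lemma hswap_conj {i j : I} (hij : i ≠ -j) {m : Γ} (hm : m ∈ HSwap ρ i j) {k l : I} (hkl : k ≠ l) (hkl' : k ≠ -l) (a : K) :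
    ∃ a', ρ (m * y k l a * m⁻¹) = ρ (y (rf i j k) (rf i j l) a') := by
  have ne := R.ne
  have hm' := hm
  choose c hc using hm
  have hkl2' := rf_ne_neg ne hij hkl'
  have hkl2 : rf i j k ≠ rf i j l := fun e => hkl ((rf_inj ne hij).1 e)
  refine ⟨a * c k * τ (c l), ?_⟩
  have key : ρ (m * y k l a) = ρ (y (rf i j k) (rf i j l) (a * c k * τ (c l)) * m) := by
    apply LinearEquiv.toLinearMap_injective
    apply ext_eh'
    · intro p
      change ρ (m * y k l a) (eh p) = ρ (y (rf i j k) (rf i j l) (a * c k * τ (c l)) * m) (eh p)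
      rw [hrho_mul, hrho_mul, act_y_ee A hkl hkl', map_sub, map_add, map_smul, map_smul, hc, hc, hc, map_smul,
        act_y_ee A hkl2 hkl2']
      have b1 : (rf i j p = -rf i j l) ↔ (p = -l) := by rw [← rf_neg ne _ _ _ hij, rf_inj ne hij]
      have b2 : (rf i j p = -rf i j k) ↔ (p = -k) := by rw [← rf_neg ne _ _ _ hij, rf_inj ne hij]
      simp only [b1, b2, smul_add, smul_sub, smul_smul]
      have f1 : ∀ q, τ (c q) * c (-q) = 1 := fun q => hform_ee H A m (hc q) (by rw [hc, rf_neg ne _ _ _ hij])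
      congr 1
      · congr 1
        by_cases h : p = -l
        · subst h
          rw [if_pos rfl, if_pos rfl]
          congr 1
          linear_combination (-a * c k) * f1 l
        · rw [if_neg h, if_neg h]; simp
      · by_cases h : p = -k
        · subst h
          rw [if_pos rfl, if_pos rfl]
          congr 1
          rw [map_mul, map_mul, H.ττ]
          linear_combination (-τ a * c l) * f1 k
        · rw [if_neg h, if_neg h]; simp
    · intro w
      change ρ (m * y k l a) (wh w) = ρ (y (rf i j k) (rf i j l) (a * c k * τ (c l)) * m) (wh w)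
      obtain ⟨w', hw'⟩ := hswap_wh H A ne hij hm' w
      rw [hrho_mul, hrho_mul, act_y_wh A hkl hkl', hw', act_y_wh A hkl2 hkl2']
  rw [map_mul, key, ← map_mul, mul_inv_cancel_right]

include H R A in
/-- conjugating diagonal root elements by monomial elements -/
lemma hdiag_coord {i j : I} (hij : i ≠ -j) {m : Γ} (hm : m ∈ HSwap ρ i j) {k : I} {x : Γ} (hx : x ∈ HX P y z k k) (q : I)
    (h1 : q ≠ -rf i j k) (h2 : q ≠ rf i j k) : (ρ (m * x * m⁻¹) (eh (-rf i j k))).1 q = 0 := by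
  have ne := R.ne
  obtain ⟨w, c, hP, rfl⟩ := (R.mem_Xl H).1 hx
  obtain ⟨d, hd⟩ := hswap_inv ne hij hm (-rf i j k)
  rw [rf_neg ne _ _ _ hij, rf_rf ne _ _ _ hij] at hd
  obtain ⟨w', hw'⟩ := hswap_wh H A ne hij hm w
  obtain ⟨e1, he1⟩ := hm (-k)
  obtain ⟨e2, he2⟩ := hm k
  rw [hrho_mul, hrho_mul, hd, map_smul, map_smul, act_z_ee A H hP, if_pos rfl, if_pos rfl, one_smul, map_add, map_add, map_smul,
    hw', he1, he2, rf_neg ne _ _ _ hij]
  simp only [Prod.smul_fst, Prod.fst_add, Pi.smul_apply, Pi.add_apply, eh_fst, if_neg h1, if_neg h2, smul_eq_mul, mul_zero, wh,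
    Pi.zero_apply, add_zero]


include H R in
lemma hnorm0 (l : I) : ∀ x ∈ gp (HX P y z) (fun k' l' => cf k' l' l = 0), ∀ t ∈ gp (HX P y z) (Yp Finset.univ (-l)),
    x * t * x⁻¹ ∈ gp (HX P y z) (Yp Finset.univ (-l)) := by
  refine (R.com H).normP ?_
  rintro k l' hkl a2 k' l'' hkl' ⟨_, _, b2⟩
  rw [cf_neg] at b2
  refine ⟨fun hop => ?_, fun p q hpq => ?_⟩
  · have e1 := Opp.cf R.ne hop l
    omega
  · refine ⟨Finset.mem_univ _, Finset.mem_univ _, ?_⟩
    rw [cf_neg]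
    rcases hpq.2 with e | e | e | ⟨-, -, e⟩
    all_goals
      have e1 := e l
      omega

include H R A in
lemma hM_A {i j : I} (hij : i ≠ -j) {m : Γ} (hm : m ∈ HX P y z i j ⊔ HX P y z (-i) (-j)) (hs : m ∈ HSwap ρ i j) {k l : I}
    (hkl : k ≠ -l) (h1 : l ≠ i) (h2 : l ≠ j) (h3 : l ≠ -i) (h4 : l ≠ -j) {x : Γ} (hx : x ∈ HX P y z k l) :
    m * x * m⁻¹ ∈ HX P y z (rf i j k) (rf i j l) := by
  have ne := R.ne
  have hl : rf i j l = l := rf_of_ne h1 h2 h3 h4
  have c0 : cf i j l = 0 := by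
    have h5 : i ≠ -l := fun e => h3 (by rw [e, neg_neg])
    have h6 : j ≠ -l := fun e => h4 (by rw [e, neg_neg])
    unfold cf; simp [h1.symm, h2.symm, h5, h6]
  have c1 : cf (-i) (-j) l = 0 := by rw [Opp.cf ne (k := i) (l := j) (Or.inl ⟨rfl, rfl⟩), c0, neg_zero]
  have hm' : m ∈ gp (HX P y z) (fun k' l' => cf k' l' l = 0) :=
    (sup_le (X_le_gp hij c0) (X_le_gp (fun e => hij (neg_inj.1 e)) c1) : HX P y z i j ⊔ HX P y z (-i) (-j) ≤ _) hm
  have hkl2 : ∀ {k}, k ≠ -l → Yp Finset.univ (-l) k l := by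
    intro k hkl
    refine ⟨Finset.mem_univ _, Finset.mem_univ _, ?_⟩
    rw [cf_neg]
    rcases cf_cases ne hkl l with e | e | e | e | e | e | e
    · omega
    · exact absurd e.2.2 (ne' ne l)
    · omega
    · omega
    · exact absurd e.2.1 hkl
    · exact absurd e.2.1 (ne' ne l)
    · exact absurd rfl e.2.2.2.1
  have h5 := hnorm0 H R l m hm' x (X_le_gp hkl (hkl2 hkl) hx)
  by_cases hkl3 : k = l
  · subst hkl3
    have h6 := mem_diag H R A h5 (fun q q1 q2 => by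
      have := hdiag_coord H R A hij hs hx q (by rw [hl]; exact q1) (by rw [hl]; rwa [neg_neg] at q2)
      rwa [hl] at this)
    rw [hl]
    rwa [neg_neg] at h6
  · obtain ⟨a, rfl⟩ := (R.mem_Xs hkl3 hkl).1 hx
    obtain ⟨a', ha'⟩ := hswap_conj H R A hij hs hkl3 hkl a
    have k1 : rf i j k ≠ rf i j l := fun e => hkl3 ((rf_inj ne hij).1 e)
    have k2 := rf_ne_neg ne hij hkl
    have h6 : y (rf i j k) (rf i j l) a' ∈ HX P y z (rf i j k) (rf i j l) := HR.y_mem k1 k2 a'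
    have h7 : y (rf i j k) (rf i j l) a' ∈ gp (HX P y z) (Yp Finset.univ (-l)) := by
      rw [hl] at h6 k2 ⊢
      exact X_le_gp k2 (hkl2 k2) h6
    have h8 := hinj_Y H R A (mul_mem h5 (inv_mem h7)) (by rw [map_mul, map_inv, ha', mul_inv_cancel]; rfl)
    rw [mul_inv_eq_one] at h8
    rw [h8]; exact h6

omit [Fintype I] in
lemma hswap_negneg (ne : ∀ i : I, -i ≠ i) {i j : I} (hij : i ≠ -j) {m : Γ} (hm : m ∈ HSwap ρ i j) : m ∈ HSwap ρ (-i) (-j) := by
  intro p
  obtain ⟨c, hc⟩ := hm p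
  refine ⟨c, ?_⟩
  rw [rf_negneg' ne hij]
  exact hc

section rank2

include H R in
omit [Fintype I] in
/-- the root group of `(a, -b)` normalizes the group of the roots `(a, a), (a, b), (b, b)` -/
lemma nrm {a b : I} (hab : a ≠ b) (hab' : a ≠ -b) : ∀ x ∈ HX P y z a (-b), ∀ v ∈ HX P y z a a ⊔ HX P y z a b ⊔ HX P y z b b,
    x * v * x⁻¹ ∈ HX P y z a a ⊔ HX P y z a b ⊔ HX P y z b b := by
  have hC := R.com H
  have ne := R.ne
  intro x hx
  have key : HX P y z a a ⊔ HX P y z a b ⊔ HX P y z b b ≤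
      (HX P y z a a ⊔ HX P y z a b ⊔ HX P y z b b).comap (MulAut.conj x).toMonoidHom := by
    refine sup_le (sup_le ?_ ?_) ?_
    · intro v hv
      rw [mem_comap]
      have h1 := hC.c4 (i := a) (j := -b) (k := a) (l := a) (by rw [neg_neg]; exact hab) (ne' ne a) (ne' ne a)
        (by rw [neg_neg]; exact hab) (ne' ne a) (by rw [neg_neg]; exact hab) (fun e => hab' e.1) x hx v hv
      rw [commutatorElement_eq_one_iff_mul_comm] at h1
      have e : (MulAut.conj x).toMonoidHom v = v := by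
        change x * v * x⁻¹ = v
        rw [h1]; group
      rw [e]
      exact mem_sup_left (mem_sup_left hv)
    · intro v hv
      rw [mem_comap]
      have h1 := hC.c2 (i := a) (j := -b) hab' (by rw [neg_neg]; exact hab) x hx v (by rw [neg_neg, hC.Xs]; exact hv)
      have e : (MulAut.conj x).toMonoidHom v = ⁅x, v⁆ * v := by
        change x * v * x⁻¹ = _
        rw [commutatorElement_def]; group
      rw [e]
      exact mul_mem (mem_sup_left (mem_sup_left h1)) (mem_sup_left (mem_sup_right hv))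
    · intro v hv
      rw [mem_comap]
      have h1 := hC.c3 (i := b) (j := a) hab.symm (fun e => hab' (by rw [e, neg_neg])) v hv x (by rw [hC.Xs]; exact hx)
      have e : (MulAut.conj x).toMonoidHom v = ⁅v, x⁆⁻¹ * v := by
        change x * v * x⁻¹ = _
        rw [commutatorElement_def]; group
      rw [e]
      refine mul_mem (inv_mem ?_) (mem_sup_right hv)
      refine (sup_le ?_ ?_ : HX P y z b a ⊔ HX P y z a a ≤ _) h1
      · rw [hC.Xs]; exact le_sup_right.trans le_sup_left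
      · exact le_sup_left.trans le_sup_left
  intro v hv
  exact key hv

include H R in
omit [Fintype I] in
lemma nrm' {a b : I} (hab : a ≠ b) (hab' : a ≠ -b) : ∀ x ∈ HX P y z a (-b) ⊔ HX P y z (-a) b,
    ∀ v ∈ HX P y z a a ⊔ HX P y z a b ⊔ HX P y z b b,
    x * v * x⁻¹ ∈ HX P y z a a ⊔ HX P y z a b ⊔ HX P y z b b := by
  have hC := R.com H
  set V := HX P y z a a ⊔ HX P y z a b ⊔ HX P y z b b with hV
  have h1 := nrm H R hab hab'
  have h2 := nrm H R (a := b) (b := a) hab.symm (fun e => hab' (by rw [e, neg_neg]))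
  have hV' : HX P y z b b ⊔ HX P y z b a ⊔ HX P y z a a = V := by
    rw [hV, hC.Xs b a]; ac_rfl
  rw [hV', hC.Xs] at h2
  have : HX P y z a (-b) ⊔ HX P y z (-a) b ≤ normalizer (V : Set Γ) := by
    refine sup_le ?_ ?_
    · intro x hx
      rw [mem_normalizer_iff]
      intro v
      refine ⟨fun hv => h1 x hx v hv, fun hv => ?_⟩
      have := h1 x⁻¹ (inv_mem hx) _ hv
      simpa [mul_assoc] using this
    · intro x hx
      rw [mem_normalizer_iff]
      intro v
      refine ⟨fun hv => h2 x hx v hv, fun hv => ?_⟩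
      have := h2 x⁻¹ (inv_mem hx) _ hv
      simpa [mul_assoc] using this
  intro x hx v hv
  exact (mem_normalizer_iff.1 (this hx) v).1 hv

include H R A in
lemma V_fix {a b : I} (hab : a ≠ b) (hab' : a ≠ -b) {v : Γ} (hv : v ∈ HX P y z a a ⊔ HX P y z a b ⊔ HX P y z b b)
    (h : ρ v (eh (-a)) = eh (-a)) : v ∈ HX P y z b b := by
  have hC := R.com H
  have ne := R.ne
  have hnorm : ∀ x ∈ HX P y z b b, ∀ v ∈ HX P y z a a ⊔ HX P y z a b, x * v * x⁻¹ ∈ HX P y z a a ⊔ HX P y z a b := by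
    intro x hx
    have key : HX P y z a a ⊔ HX P y z a b ≤ (HX P y z a a ⊔ HX P y z a b).comap (MulAut.conj x).toMonoidHom := by
      refine sup_le ?_ ?_
      · intro v hv
        rw [mem_comap]
        have h1 := hC.c5 (i := a) (j := b) hab hab' v hv x hx
        have e : (MulAut.conj x).toMonoidHom v = ⁅v, x⁆⁻¹ * v := by
          change x * v * x⁻¹ = _
          rw [commutatorElement_def]; group
        rw [e]
        exact mul_mem (inv_mem (mem_sup_right h1)) (mem_sup_left hv)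
      · intro v hv
        rw [mem_comap]
        have h1 := hC.c4 (i := b) (j := b) (k := a) (l := b) (ne' ne b) hab' hab' hab' (ne' ne b) (ne' ne b)
          (fun e => hab e.2) x hx v hv
        rw [commutatorElement_eq_one_iff_mul_comm] at h1
        have e : (MulAut.conj x).toMonoidHom v = v := by
          change x * v * x⁻¹ = v
          rw [h1]; group
        rw [e]
        exact mem_sup_right hv
    intro v hv
    exact key hv
  have hnorm2 : ∀ x ∈ HX P y z a b, ∀ v ∈ HX P y z a a, x * v * x⁻¹ ∈ HX P y z a a := by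
    intro x hx v hv
    have h1 := hC.c4 (i := a) (j := a) (k := a) (l := b) (ne' ne a) hab' (ne' ne a) (ne' ne a)
      (fun e => hab' (by rw [e, neg_neg])) (fun e => hab' (by rw [e, neg_neg])) (fun e => hab e.2) v hv x hx
    rw [commutatorElement_eq_one_iff_mul_comm] at h1
    rw [← h1]
    simpa using hv
  rw [sup_comm] at hv
  obtain ⟨u, hu, g, hg, rfl⟩ := Cfsg.Agent.ChevGrp.mem_sup_of_normalizes' hnorm hv
  rw [sup_comm] at hu
  obtain ⟨u1, hu1, u2, hu2, rfl⟩ := Cfsg.Agent.ChevGrp.mem_sup_of_normalizes' hnorm2 hu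
  obtain ⟨w, c, hP, rfl⟩ := (R.mem_Xl H).1 hu1
  obtain ⟨e, rfl⟩ := (R.mem_Xs hab hab').1 hu2
  obtain ⟨w', c', hP', rfl⟩ := (R.mem_Xl H).1 hg
  have n1 : -a ≠ -b := fun e => hab (neg_inj.1 e)
  have n2 : b ≠ -a := fun e => hab' (by rw [e, neg_neg])
  rw [hrho_mul, hrho_mul, act_z_ee A H hP', if_neg n1, if_neg n1, zero_smul, zero_smul, add_zero, add_zero,
    act_y_ee A hab hab', if_neg n1, if_pos rfl, zero_smul, add_zero, map_sub, map_smul, act_z_ee A H hP, act_z_ee A H hP,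
    if_pos rfl, if_pos rfl, if_neg n2, if_neg n2, one_smul, zero_smul, zero_smul, add_zero, add_zero] at h
  have h3 := congrFun (congrArg Prod.fst h) a
  have h4 := congrArg Prod.snd h
  have h5 := congrFun (congrArg Prod.fst h) b
  simp only [Prod.fst_add, Prod.fst_sub, Prod.smul_fst, Pi.add_apply, Pi.sub_apply, Pi.smul_apply, eh_fst, smul_eq_mul,
    if_true, mul_one, if_neg (ne' ne a), if_neg hab, zero_add, wh, Pi.zero_apply, add_zero, sub_zero, mul_zero] at h3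
  simp only [Prod.snd_add, Prod.snd_sub, Prod.smul_snd, eh_snd, wh, smul_zero, zero_add, sub_zero] at h4
  simp only [Prod.fst_add, Prod.fst_sub, Prod.smul_fst, Pi.add_apply, Pi.sub_apply, Pi.smul_apply, eh_fst, smul_eq_mul,
    if_true, mul_one, if_neg n2, if_neg hab.symm, zero_add, wh, Pi.zero_apply, add_zero, zero_sub, mul_zero,
    neg_eq_zero] at h5
  have h6 : e = 0 := by
    by_contra he
    exact H.τ_ne he h5
  subst h3 h4 h6
  rw [R.zzero H, R.zero hab hab', one_mul, one_mul]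
  exact HR.z_mem b hP'

include H R A in
lemma V_inj {a b : I} (hab : a ≠ b) (hab' : a ≠ -b) {v : Γ} (hv : v ∈ HX P y z a a ⊔ HX P y z a b ⊔ HX P y z b b)
    (h : ρ v = 1) : v = 1 := by
  have h1 := V_fix H R A hab hab' hv (by rw [h]; rfl)
  obtain ⟨w, c, hP, rfl⟩ := (R.mem_Xl H).1 h1
  have h2 : ρ (z b w c) (eh (-b)) = eh (-b) := by rw [h]; rfl
  rw [act_z_ee A H hP, if_pos rfl, if_pos rfl, one_smul] at h2
  have h3 := congrFun (congrArg Prod.fst h2) b
  have h4 := congrArg Prod.snd h2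
  simp only [Prod.fst_add, Prod.smul_fst, Pi.add_apply, Pi.smul_apply, eh_fst, smul_eq_mul, if_true, mul_one,
    if_neg (ne' R.ne b), zero_add, wh, Pi.zero_apply, add_zero] at h3
  simp only [Prod.snd_add, Prod.smul_snd, eh_snd, wh, smul_zero, zero_add] at h4
  rw [h3, h4, R.zzero H]

include H R A in
lemma T1 {a b : I} (hab : a ≠ b) (hab' : a ≠ -b) {m : Γ} (hm : m ∈ HX P y z a (-b) ⊔ HX P y z (-a) b)
    (hs : m ∈ HSwap ρ a (-b)) :
    (∀ x ∈ HX P y z a a, m * x * m⁻¹ ∈ HX P y z b b) ∧ (∀ x ∈ HX P y z b b, m * x * m⁻¹ ∈ HX P y z a a) ∧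
    (∀ x ∈ HX P y z a b, m * x * m⁻¹ ∈ HX P y z b a) := by
  have hC := R.com H
  have ne := R.ne
  have hab2 : a ≠ - -b := by rw [neg_neg]; exact hab
  have hnrm := nrm' H R hab hab' m hm
  have r1 : rf a (-b) a = b := rf_eq ne hab
  have r2 : rf a (-b) b = a := rf_eq' ne hab
  have fixp : ∀ {x : Γ} {p : I}, ρ x (eh (rf a (-b) p)) = eh (rf a (-b) p) → ρ (m * x * m⁻¹) (eh p) = eh p := by
    intro x p hx
    obtain ⟨d, hd⟩ := hswap_inv ne hab2 hs p
    have hd' := hswap_inv' hd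
    rw [inv_inv] at hd'
    rw [hrho_mul, hrho_mul, hd, map_smul, map_smul, hx, hd', smul_smul, mul_inv_cancel₀ (hswap_ne hd), one_smul]
  have hV' : HX P y z b b ⊔ HX P y z b a ⊔ HX P y z a a = HX P y z a a ⊔ HX P y z a b ⊔ HX P y z b b := by
    rw [hC.Xs b a]; ac_rfl
  have n1 : -a ≠ -b := fun e => hab (neg_inj.1 e)
  refine ⟨fun x hx => ?_, fun x hx => ?_, fun x hx => ?_⟩
  · refine V_fix H R A hab hab' (hnrm x (mem_sup_left (mem_sup_left hx))) (fixp ?_)
    rw [rf_neg ne _ _ _ hab2, r1]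
    obtain ⟨w, c, hP, rfl⟩ := (R.mem_Xl H).1 hx
    rw [act_z_ee A H hP, if_neg n1.symm, if_neg n1.symm, zero_smul, zero_smul, add_zero, add_zero]
  · refine V_fix H R A (a := b) (b := a) hab.symm (fun e => hab' (by rw [e, neg_neg])) ?_ (fixp ?_)
    · rw [hV']
      exact hnrm x (mem_sup_right hx)
    · rw [rf_neg ne _ _ _ hab2, r2]
      obtain ⟨w, c, hP, rfl⟩ := (R.mem_Xl H).1 hx
      rw [act_z_ee A H hP, if_neg n1, if_neg n1, zero_smul, zero_smul, add_zero, add_zero]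
  · obtain ⟨e, rfl⟩ := (R.mem_Xs hab hab').1 hx
    obtain ⟨e', he'⟩ := hswap_conj H R A hab2 hs hab hab' e
    rw [r1, r2] at he'
    have n2 : b ≠ -a := fun e => hab' (by rw [e, neg_neg])
    have h7 : y b a e' ∈ HX P y z b a := HR.y_mem hab.symm n2 e'
    have h8 := V_inj H R A hab hab' (v := m * y a b e * m⁻¹ * (y b a e')⁻¹)
      (mul_mem (hnrm _ (mem_sup_left (mem_sup_right hx))) (inv_mem (mem_sup_left (mem_sup_right (by rw [hC.Xs]; exact h7)))))
      (by rw [map_mul, map_inv, he', mul_inv_cancel])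
    rw [mul_inv_eq_one] at h8
    rw [h8]; exact h7

include H R A in
lemma T2 {a b : I} (hab : a ≠ b) (hab' : a ≠ -b) {m : Γ} (hm : m ∈ HX P y z a (-b) ⊔ HX P y z (-a) b)
    (hs : m ∈ HSwap ρ a (-b)) : ∀ x ∈ HX P y z a (-b), m * x * m⁻¹ ∈ HX P y z b (-a) := by
  have hC := R.com H
  have ne := R.ne
  have hab2 : a ≠ - -b := by rw [neg_neg]; exact hab
  have n1 : -a ≠ -b := fun e => hab (neg_inj.1 e)
  have n2 : b ≠ -a := fun e => hab' (by rw [e, neg_neg])
  have n3 : -a ≠ - -b := by rw [neg_neg]; exact n2.symm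
  have r1 : rf a (-b) a = b := rf_eq ne hab
  have r2 : rf a (-b) b = a := rf_eq' ne hab
  have r3 : rf a (-b) (-b) = -a := by rw [rf_neg ne _ _ _ hab2, r2]
  intro x hx
  obtain ⟨e, rfl⟩ := (R.mem_Xs hab' hab2).1 hx
  obtain ⟨w, c, hP, hc⟩ := R.nt
  -- the pieces
  have s1 := T1 H R A hab hab' hm hs
  have hs' : m ∈ HSwap ρ (-a) (- -b) := hswap_negneg ne hab2 hs
  have hm' : m ∈ HX P y z (-a) (- -b) ⊔ HX P y z (- -a) (-b) := by
    rw [neg_neg, neg_neg, sup_comm]; exact hm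
  have s2 := T1 H R A n1 n3 hm' hs'
  have e1 : y a (-b) e = ⁅z a w c, y (-a) (-b) (c⁻¹ * e)⁆ *
      (z (-b) ((c⁻¹ * e) • w) ((c⁻¹ * e) * τ (c⁻¹ * e) * τ c))⁻¹ := by
    rw [R.c3 hab' hab2 hP, mul_inv_cancel_right, mul_inv_cancel_left₀ hc]
  have a1 := s1.1 _ (HR.z_mem (P := P) (y := y) (z := z) a hP)
  have a2 := s2.2.2 _ (HR.y_mem (P := P) (y := y) (z := z) n1 n3 (c⁻¹ * e))
  have a3 := s2.2.1 _ (HR.z_mem (P := P) (y := y) (z := z) (-b) (H.P_smul' hP (c⁻¹ * e)))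
  have b1 := hC.c3 (i := b) (j := -a) n2 (by rw [neg_neg]; exact hab.symm) _ a1 _ a2
  have e2 : m * y a (-b) e * m⁻¹ = ⁅m * z a w c * m⁻¹, m * y (-a) (-b) (c⁻¹ * e) * m⁻¹⁆ *
      (m * z (-b) ((c⁻¹ * e) • w) ((c⁻¹ * e) * τ (c⁻¹ * e) * τ c) * m⁻¹)⁻¹ := by
    rw [e1]; simp only [commutatorElement_def]; group
  have b2 : m * y a (-b) e * m⁻¹ ∈ HX P y z b b ⊔ HX P y z b (-a) ⊔ HX P y z (-a) (-a) := by
    rw [e2]
    refine mul_mem ?_ (inv_mem (mem_sup_right a3))
    exact (sup_le (le_sup_right.trans le_sup_left) le_sup_right :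
      HX P y z b (-a) ⊔ HX P y z (-a) (-a) ≤ _) b1
  obtain ⟨e', he'⟩ := hswap_conj H R A hab2 hs hab' hab2 e
  rw [r1, r3] at he'
  have n4 : b ≠ - -a := by rw [neg_neg]; exact hab.symm
  have h7 : y b (-a) e' ∈ HX P y z b (-a) := HR.y_mem n2 n4 e'
  have h8 := V_inj H R A n2 n4 (v := m * y a (-b) e * m⁻¹ * (y b (-a) e')⁻¹)
    (mul_mem b2 (inv_mem (mem_sup_left (mem_sup_right h7)))) (by rw [map_mul, map_inv, he', mul_inv_cancel])
  rw [mul_inv_eq_one] at h8
  rw [h8]; exact h7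

end rank2

include H R A in
theorem hM_X {i j : I} (hij : i ≠ -j) {m : Γ} (hm : m ∈ HX P y z i j ⊔ HX P y z (-i) (-j)) (hs : m ∈ HSwap ρ i j) {k l : I}
    (hkl : k ≠ -l) {x : Γ} (hx : x ∈ HX P y z k l) : m * x * m⁻¹ ∈ HX P y z (rf i j k) (rf i j l) := by
  have ne := R.ne
  have hC := R.com H
  have hlk : l ≠ -k := fun e => hkl (by rw [e, neg_neg])
  by_cases hl : l = i ∨ l = j ∨ l = -i ∨ l = -j
  swap
  · push Not at hl
    exact hM_A H R A hij hm hs hkl hl.1 hl.2.1 hl.2.2.1 hl.2.2.2 hx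
  by_cases hk : k = i ∨ k = j ∨ k = -i ∨ k = -j
  swap
  · push Not at hk
    rw [hC.Xs (rf i j k)]
    rw [hC.Xs k] at hx
    exact hM_A H R A hij hm hs hlk hk.1 hk.2.1 hk.2.2.1 hk.2.2.2 hx
  by_cases hij1 : i = j
  · subst hij1
    have hkl0 : l = k ∧ (k = i ∨ k = -i) := by
      rcases hk with rfl | rfl | rfl | rfl <;> rcases hl with rfl | rfl | rfl | rfl
      all_goals first
        | exact ⟨rfl, Or.inl rfl⟩
        | exact ⟨rfl, Or.inr rfl⟩
        | exact absurd rfl hlk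
        | exact absurd rfl hkl
    obtain ⟨rfl, hk0⟩ := hkl0
    -- another index
    obtain ⟨p, p1, p2⟩ := R.two i
    have p3 := p1
    have p4 := p2
    have hpp : ∀ q, (q = i ∨ q = -i) → p ≠ q ∧ p ≠ -q := by
      rintro q (rfl | rfl)
      · exact ⟨p1, p2⟩
      · exact ⟨p2, by rw [neg_neg]; exact p1⟩
    obtain ⟨pk1, pk2⟩ := hpp l hk0
    have hp : rf i i p = p := rf_of_ne p1 p3 p2 p4
    have hnp : rf i i (-p) = -p := by rw [rf_neg ne _ _ _ hij, hp]
    have np1 : -p ≠ i := fun e => p2 (by rw [← e, neg_neg])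
    have np2 : -p ≠ -i := fun e => p1 (neg_inj.1 e)
    have rk1 : rf i i l ≠ p := fun e => pk1 ((rf_inj ne hij).1 (hp.trans e.symm))
    have rk2 : rf i i l ≠ -p := fun e => pk2 (by rw [(rf_inj ne hij).1 (e.trans hnp.symm), neg_neg])
    have hk2 := rf_ne_neg ne hij hkl
    obtain ⟨w, c, hP, rfl⟩ := (R.mem_Xl H).1 hx
    have hP' : P w (τ c) := by
      have := H.P_inv (H.P_smul hP (-1))
      rwa [neg_one_smul, neg_neg, map_neg, map_one, neg_mul_neg, one_mul, one_mul] at this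
    have e1 : z l w c = (y p l (τ c * 1))⁻¹ * ⁅z p w (τ c), y (-p) l 1⁆ := by
      rw [R.c3 pk1 pk2 hP', inv_mul_cancel_left, one_smul, map_one, H.ττ, one_mul, one_mul]
    have a1 := hM_A H R A hij hm hs (k := p) (l := p) (ne' ne p) p1 p3 p2 p4 (HR.z_mem p hP')
    have a2 := hM_A H R A hij hm hs (k := l) (l := -p) (by rw [neg_neg]; exact Ne.symm pk1) np1 np1 np2 np2
      (x := y (-p) l 1) (by rw [hC.Xs]; exact HR.y_mem (by nx) (by nx) _)
    have a3 := hM_A H R A hij hm hs (k := l) (l := p) (by nx) p1 p3 p2 p4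
      (x := y p l (τ c * 1)) (by rw [hC.Xs]; exact HR.y_mem pk1 pk2 _)
    rw [hp] at a1
    rw [hnp, hC.Xs] at a2
    rw [hp] at a3
    have rk3 : p ≠ rf i i l := Ne.symm rk1
    have rk4 : p ≠ -rf i i l := fun e => rk2 (by rw [e, neg_neg])
    have b2 := hC.c3 rk3 rk4 _ a1 _ a2
    have e2 : m * z l w c * m⁻¹ = (m * y p l (τ c * 1) * m⁻¹)⁻¹ * ⁅m * z p w (τ c) * m⁻¹, m * y (-p) l 1 * m⁻¹⁆ := by
      rw [e1]; simp only [commutatorElement_def]; group
    have c1 : cf (rf i i l) (rf i i l) (-rf i i l) < 0 := by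
      rw [cf_neg]; unfold cf; simp [hk2]
    have c2 : cf (rf i i l) p (-rf i i l) < 0 := by
      rw [cf_neg]; unfold cf; simp [hk2, rk3, rk4]
    have b3 : m * z l w c * m⁻¹ ∈ gp (HX P y z) (Yp Finset.univ (-rf i i l)) := by
      rw [e2]
      refine mul_mem (inv_mem (X_le_gp (fun e => rk4 (by rw [e, neg_neg])) ⟨Finset.mem_univ _, Finset.mem_univ _, c2⟩ a3)) ?_
      refine (sup_le (X_le_gp rk4 ⟨Finset.mem_univ _, Finset.mem_univ _, ?_⟩) (X_le_gp hk2 ⟨Finset.mem_univ _, Finset.mem_univ _, c1⟩) :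
        HX P y z p (rf i i l) ⊔ HX P y z (rf i i l) (rf i i l) ≤ _) b2
      rw [cf_comm]; exact c2
    have b4 := mem_diag H R A b3 (fun q q1 q2 => hdiag_coord H R A hij hs hx q q1 (by rwa [neg_neg] at q2))
    rwa [neg_neg] at b4
  -- the short case
  have i1 : i ≠ - -j := by rw [neg_neg]; exact hij1
  have hs1 : m ∈ HSwap ρ i (- -j) := by rw [neg_neg]; exact hs
  have hm1 : m ∈ HX P y z i (- -j) ⊔ HX P y z (-i) (-j) := by rw [neg_neg]; exact hm
  have q1 := T1 H R A (a := i) (b := -j) hij i1 hm1 hs1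
  have q2 := T2 H R A (a := i) (b := -j) hij i1 hm1 hs1
  have i2 : -i ≠ j := fun e => hij (by rw [← e, neg_neg])
  have i3 : -i ≠ -j := fun e => hij1 (neg_inj.1 e)
  have hs2 : m ∈ HSwap ρ (-i) (-j) := hswap_negneg ne hij hs
  have hm2 : m ∈ HX P y z (-i) (-j) ⊔ HX P y z (- -i) j := by rw [neg_neg, sup_comm]; exact hm
  have q3 := T1 H R A (a := -i) (b := j) i2 i3 hm2 hs2
  have q4 := T2 H R A (a := -i) (b := j) i2 i3 hm2 hs2
  have r1 : rf i j i = -j := by unfold rf; simp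
  have r2 : rf i j j = -i := by unfold rf; simp [Ne.symm hij1]
  have r3 : rf i j (-i) = j := by rw [rf_neg ne _ _ _ hij, r1, neg_neg]
  have r4 : rf i j (-j) = i := by rw [rf_neg ne _ _ _ hij, r2, neg_neg]
  simp only [neg_neg] at q1 q2 q3 q4
  rcases hk with rfl | rfl | rfl | rfl <;> rcases hl with rfl | rfl | rfl | rfl
  · rw [r1]; exact q1.1 x hx
  · rw [r1, r2]; exact q2 x hx
  · exact absurd rfl hlk
  · rw [r1, r4]; exact q1.2.2 x hx
  · rw [r1, r2, hC.Xs]; rw [hC.Xs] at hx; exact q2 x hx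
  · rw [r2]; exact q3.2.1 x hx
  · rw [r2, r3, hC.Xs]; rw [hC.Xs] at hx; exact q3.2.2 x hx
  · exact absurd rfl hlk
  · exact absurd rfl hkl
  · rw [r2, r3]; exact q3.2.2 x hx
  · rw [r3]; exact q3.1 x hx
  · rw [r3, r4]; exact q4 x hx
  · rw [r4, r1, hC.Xs]; rw [hC.Xs] at hx; exact q1.2.2 x hx
  · exact absurd rfl hkl
  · rw [r4, r3, hC.Xs]; rw [hC.Xs] at hx; exact q4 x hx
  · rw [r4]; exact q1.2.1 x hx


include H R A in
/-- conjugation by monomial elements of rank one groups, on root elements -/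
lemma rot {i j : I} {a x b : Γ} (hij : i ≠ -j) (ha : a ∈ HX P y z (-i) (-j)) (hx : x ∈ HX P y z i j)
    (hb : b ∈ HX P y z (-i) (-j)) (hs : a * x * b ∈ HSwap ρ i j) :
    ∃ b' ∈ HX P y z i j, a * x * b = x * b * b' := by
  have ne := R.ne
  have hC := R.com H
  have hm : a * x * b ∈ HX P y z i j ⊔ HX P y z (-i) (-j) :=
    mul_mem (mul_mem (mem_sup_right ha) (mem_sup_left hx)) (mem_sup_right hb)
  have hmi : (a * x * b)⁻¹ ∈ HSwap ρ i j := hswap_inv ne hij hs
  have h1 := hM_X H R A hij (inv_mem hm) hmi (k := -i) (l := -j) (fun e => hij (neg_inj.1 e)) ha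
  have e1 : rf i j (-i) = j := by rw [rf_neg ne _ _ _ hij, (rf_self1 hij).1, neg_neg]
  have e2 : rf i j (-j) = i := by rw [rf_neg ne _ _ _ hij, (rf_self1 hij).2, neg_neg]
  rw [inv_inv, e1, e2, hC.Xs] at h1
  refine ⟨_, h1, ?_⟩
  group

/-- the elements inducing the reflections -/
def HMM (P : W → K → Prop) (y : I → I → K → Γ) (z : I → W → K → Γ) (ρ : Γ →* (((I → K) × W) ≃ₗ[K] ((I → K) × W)))
    (i j : I) : Set Γ :=
  {m | (∃ a ∈ HX P y z (-i) (-j), ∃ x ∈ HX P y z i j, ∃ b ∈ HX P y z (-i) (-j), m = a * x * b) ∧ m ∈ HSwap ρ i j}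

omit [Fintype I] in
lemma HMM_sub' {i j : I} {m : Γ} (hm : ∃ a ∈ HX P y z (-i) (-j), ∃ x ∈ HX P y z i j, ∃ b ∈ HX P y z (-i) (-j), m = a * x * b) :
    m ∈ HX P y z i j ⊔ HX P y z (-i) (-j) := by
  obtain ⟨a, ha, x, hx, b, hb, rfl⟩ := hm
  exact mul_mem (mul_mem (mem_sup_right ha) (mem_sup_left hx)) (mem_sup_right hb)

include H R A in
lemma HMM_neg {i j : I} (hij : i ≠ -j) {m : Γ} (hm : m ∈ HMM P y z ρ i j) : m ∈ HMM P y z ρ (-i) (-j) := by
  obtain ⟨⟨a, ha, x, hx, b, hb, rfl⟩, hs⟩ := hm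
  obtain ⟨b', hb', he⟩ := rot H R A hij ha hx hb hs
  refine ⟨⟨x, ?_, b, hb, b', ?_, he⟩, ?_⟩
  · rw [neg_neg, neg_neg]; exact hx
  · rw [neg_neg, neg_neg]; exact hb'
  · exact hswap_negneg R.ne hij hs

include H R A in
theorem hcln : Cln (HX P y z) (HMM P y z ρ) where
  toCom := R.com H
  Ms i j := by
    have hC := R.com H
    ext m
    unfold HMM HSwap
    simp only [Set.mem_ofPred_eq, hC.Xs j i, hC.Xs (-j) (-i), rf_comm' R.ne j i]
  Mn i j hij := by
    ext m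
    refine ⟨fun h => ?_, fun h => HMM_neg H R A hij h⟩
    have := HMM_neg H R A (i := -i) (j := -j) (fun e => hij (neg_inj.1 e)) h
    rwa [neg_neg, neg_neg] at this
  M_inv i j hij m hm := by
    obtain ⟨⟨a, ha, x, hx, b, hb, rfl⟩, hs⟩ := hm
    exact ⟨⟨b⁻¹, inv_mem hb, x⁻¹, inv_mem hx, a⁻¹, inv_mem ha, by group⟩, hswap_inv R.ne hij hs⟩
  M_X i j hij k l hkl m hm x hx := hM_X H R A hij (HMM_sub' hm.1) hm.2 hkl hx
  M_M i j hij k l hkl m hm m' hm' := by
    obtain ⟨⟨a, ha, x, hx, b, hb, rfl⟩, hs⟩ := hm'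
    refine ⟨?_, hswap_conj' R.ne hij hm.2 hs⟩
    have hmkl : -k ≠ - -l := fun e => hkl (neg_inj.1 e)
    have h1 := hM_X H R A hij (HMM_sub' hm.1) hm.2 hmkl ha
    have h2 := hM_X H R A hij (HMM_sub' hm.1) hm.2 hkl hx
    have h3 := hM_X H R A hij (HMM_sub' hm.1) hm.2 hmkl hb
    rw [rf_neg R.ne _ _ _ hij, rf_neg R.ne _ _ _ hij] at h1 h3
    exact ⟨_, h1, _, h2, _, h3, by group⟩
  M_gp i j hij m hm := HMM_sub' hm.1
  rank1 i j hij x hx hx1 := by
    by_cases h1 : i = j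
    · subst h1
      have n2 : -i ≠ - -i := fun e => hij (neg_inj.1 e)
      obtain ⟨w, c, hP, rfl⟩ := (R.mem_Xl H).1 hx
      have hc : c ≠ 0 := by
        rintro rfl
        rw [H.aniso hP, R.zzero H] at hx1
        exact hx1 rfl
      refine ⟨(z (-i) ((-c⁻¹) • w) (τ c)⁻¹)⁻¹, inv_mem (HR.z_mem _ (H.P1 hP hc)), (z (-i) ((-(τ c)⁻¹) • w) (τ c)⁻¹)⁻¹,
        inv_mem (HR.z_mem _ (H.P2 hP hc)), _,
        ⟨⟨_, HR.z_mem _ (H.P1 hP hc), _, hx, _, HR.z_mem _ (H.P2 hP hc), rfl⟩, hn_z_aux H A R.ne hP hc⟩, by group⟩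
    · have m1 : -i ≠ -j := by nx
      have m2 : -i ≠ - -j := by nx
      obtain ⟨a, rfl⟩ := (R.mem_Xs h1 hij).1 hx
      have ha : a ≠ 0 := fun h => hx1 (by rw [h, R.zero h1 hij])
      exact ⟨(y (-i) (-j) (τ a)⁻¹)⁻¹, inv_mem (HR.y_mem m1 m2 _), (y (-i) (-j) (τ a)⁻¹)⁻¹, inv_mem (HR.y_mem m1 m2 _), _,
        ⟨⟨_, HR.y_mem m1 m2 _, _, hx, _, HR.y_mem m1 m2 _, rfl⟩, hn_y_aux H A R.ne h1 hij ha⟩, by group⟩

include H R A in
lemma hT_St (o : I) : (hcln H R A).T ≤ HSt ρ o := by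
  unfold Cln.T
  rw [closure_le]
  rintro _ ⟨i, j, hij, m, hm, m', hm', rfl⟩
  obtain ⟨c, hc⟩ := hm'.2 o
  obtain ⟨d, hd⟩ := hm.2 (rf i j o)
  rw [rf_rf R.ne _ _ _ hij] at hd
  exact ⟨c * d, by rw [hrho_mul, hc, map_smul, hd, smul_smul]⟩

include H R A in
lemma hNN_ee {J : Finset I} {i o : I} {n : Γ} (hn : n ∈ (hcln H R A).NN J i o) : ∃ c : K, ρ n (eh o) = c • eh i := by
  rcases hn with ⟨rfl, hn⟩ | ⟨hio, hn⟩ | ⟨rfl, k, -, hk1, hk2, m1, hm1, m2, hm2, rfl⟩
  · exact hT_St H R A i hn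
  · obtain ⟨c, hc⟩ := hn.2 o
    rw [rf_eq' R.ne hio] at hc
    exact ⟨c, hc⟩
  · obtain ⟨c, hc⟩ := hm2.2 o
    rw [rf_eq' R.ne hk1] at hc
    obtain ⟨d, hd⟩ := hm1.2 k
    rw [(rf_self1 hk2).1] at hd
    exact ⟨c * d, by rw [hrho_mul, hc, map_smul, hd, smul_smul]⟩

include H R A in
/-- an element stabilizing the lines of all basis vectors is in the torus -/
theorem hmem_T {g : Γ} (hg : g ∈ gp (HX P y z) (fun _ _ => True) ⊔ (hcln H R A).T) (h : ∀ o, g ∈ HSt ρ o) :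
    g ∈ (hcln H R A).T := by
  have ne := R.ne
  refine (hcln H R A).descent (HSt ρ) (hT_St H R A) ?_ ?_ _ Finset.univ rfl (fun _ _ => Finset.mem_univ _) g ?_ (fun o _ => h o)
  · intro o k l hkl h0' x hx
    refine ⟨1, ?_⟩
    have h1 : k ≠ -o := by
      rintro rfl
      rcases cf_cases ne hkl o with e | e | e | e | e | e | e
      · exact ne o e.2.1
      · omega
      · exact ne o e.2.1
      · exact e.2.2.2 rfl
      · omega
      · omega
      · exact e.2.2.1 rfl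
    have h2 : l ≠ -o := by
      rintro rfl
      rcases cf_cases ne hkl o with e | e | e | e | e | e | e
      · exact ne o e.2.2
      · omega
      · exact e.2.2.2 rfl
      · exact ne o e.2.1
      · omega
      · omega
      · exact e.2.2.2.2 rfl
    by_cases h3 : k = l
    · subst h3
      obtain ⟨w, c, hP, rfl⟩ := (R.mem_Xl H).1 hx
      rw [act_z_ee A H hP, if_neg (fun e => h1 (by rw [e, neg_neg])), if_neg (fun e => h1 (by rw [e, neg_neg]))]
      simp
    · obtain ⟨a, rfl⟩ := (R.mem_Xs h3 hkl).1 hx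
      rw [act_y_ee A h3 hkl, if_neg (fun e => h2 (by rw [e, neg_neg])), if_neg (fun e => h1 (by rw [e, neg_neg]))]
      simp
  · intro J i o hi ho t ht n hn htn
    have ht' : t ∈ gp (HX P y z) (Yp Finset.univ i) := gp_mono (fun _ _ _ h => ⟨Finset.mem_univ _, Finset.mem_univ _, h.2.2⟩) ht
    obtain ⟨c, hc⟩ := hNN_ee H R A hn
    have hc0 := hswap_ne hc
    obtain ⟨d, hd⟩ := htn
    have h1 : (ρ t (eh i)).1 i = 1 := by
      rw [hcoord_fix A (p := i) ?_ R H ht' (eh i), eh_fst, if_pos rfl]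
      intro k l hkl hP
      rcases cf_lt ne hkl hP.2.2 with e | e
      · refine ⟨by rw [e]; exact ne i, fun f => hkl ?_⟩
        rw [e, f]
      · refine ⟨fun f => hkl ?_, by rw [e]; exact ne i⟩
        rw [e, f, neg_neg]
    have h2 : c • ρ t (eh i) = d • eh o := by rw [← map_smul, ← hc, ← hrho_mul, hd]
    have h3 := congrFun (congrArg Prod.fst h2) i
    rw [Prod.smul_fst, Pi.smul_apply, h1, Prod.smul_fst, Pi.smul_apply, eh_fst, smul_eq_mul, smul_eq_mul, mul_one] at h3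
    by_cases hio : i = o
    · subst hio
      rw [if_pos rfl, mul_one] at h3
      refine ⟨rfl, hinj_Y H R A ht' ?_⟩
      rw [← h3] at h2
      exact smul_right_injective _ hc0 h2
    · rw [if_neg hio, mul_zero] at h3
      exact absurd h3 hc0
  · refine (sup_le_sup_right (gp_mono fun _ _ _ _ => ⟨Finset.mem_univ _, Finset.mem_univ _⟩) _) hg

end act

end Cfsg.Agent.GK.Un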