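import Cfsg.Agent.GK.Un9

/-!
Groups of isometries satisfy the Steinberg relations.
-/

set_option autoImplicit false
set_option linter.unusedSectionVars false
set_option linter.unusedVariables false
set_option linter.unusedSimpArgs false

namespace Cfsg.Agent.GK.Un

open Subgroup Cfsg.Agent.Stb
open scoped commutatorElement

section herm
variable {K W : Type*} [Field K] [AddCommGroup W] [Module K W]

/-- anisotropic hermitian forms -/
structure Herm (τ : K →+* K) (h0 : W → W → K) : Prop where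
  T : Tau τ
  add_right : ∀ w u v, h0 w (u + v) = h0 w u + h0 w v
  smul_right : ∀ w a u, h0 w (a • u) = a * h0 w u
  symm : ∀ w u, τ (h0 w u) = h0 u w
  aniso : ∀ {w}, h0 w w = 0 → w = 0

/-- the full form parameter -/
def PF (τ : K →+* K) (h0 : W → W → K) (w : W) (c : K) : Prop := c + τ c + h0 w w = 0

/-- the form parameter of the nondegenerate part -/
def PZ (τ : K →+* K) (w : W) (c : K) : Prop := w = 0 ∧ c + τ c = 0

variable {τ : K →+* K} {h0 : W → W → K}

theorem Herm.full (H : Herm τ h0) : HF τ h0 (PF τ h0) := by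
  have hal : ∀ u v w, h0 (u + v) w = h0 u w + h0 v w := fun u v w => by
    rw [← H.symm w, H.add_right, map_add, H.symm, H.symm]
  have hsl : ∀ a u w, h0 (a • u) w = τ a * h0 u w := fun a u w => by rw [← H.symm w, H.smul_right, map_mul, H.symm]
  refine ⟨H.T.ττ, H.add_right, H.smul_right, H.symm, ?_, ?_, ?_, ?_, ?_, ?_, ?_⟩
  · have := H.smul_right 0 0 0
    rw [zero_smul, zero_mul] at this
    unfold PF; rw [map_zero, this]; simp
  · intro w c w' c' h h'
    unfold PF at h h' ⊢
    rw [map_sub, map_add, H.symm, H.add_right, hal, hal]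
    linear_combination h + h'
  · intro w c h
    unfold PF at h ⊢
    rw [H.T.ττ, ← neg_one_smul K w, hsl, H.smul_right, map_neg, map_one]
    linear_combination h
  · intro w c h b
    unfold PF at h ⊢
    rw [hsl, H.smul_right, map_mul, map_mul, H.T.ττ]
    linear_combination (b * τ b) * h
  · intro w c h; exact h
  · intro a
    have := H.smul_right 0 0 0
    rw [zero_smul, zero_mul] at this
    unfold PF
    rw [map_sub, H.T.ττ, this]; ring
  · intro w h
    unfold PF at h
    rw [map_zero, add_zero, zero_add] at h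
    exact H.aniso h

theorem Herm.zero (H : Herm τ h0) : HF τ h0 (PZ τ) := by
  have G := H.full
  refine ⟨H.T.ττ, H.add_right, H.smul_right, H.symm, ?_, ?_, ?_, ?_, ?_, ?_, ?_⟩
  · exact ⟨rfl, by rw [map_zero, add_zero]⟩
  · rintro w c w' c' ⟨rfl, h⟩ ⟨rfl, h'⟩
    refine ⟨add_zero 0, ?_⟩
    rw [G.zero_left, sub_zero, map_add]
    linear_combination h + h'
  · rintro w c ⟨rfl, h⟩
    exact ⟨neg_zero, by rw [H.T.ττ, add_comm]; exact h⟩
  · rintro w c ⟨rfl, h⟩ b
    refine ⟨smul_zero b, ?_⟩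
    rw [map_mul, map_mul, H.T.ττ]
    linear_combination (b * τ b) * h
  · rintro w c ⟨rfl, h⟩
    rw [G.zero_left, add_zero]; exact h
  · intro a
    exact ⟨rfl, by rw [map_sub, H.T.ττ]; ring⟩
  · rintro w ⟨rfl, -⟩; rfl

theorem PZ.full (H : Herm τ h0) {w : W} {c : K} (h : PZ τ w c) : PF τ h0 w c := by
  obtain ⟨rfl, h⟩ := h
  unfold PF
  rw [H.full.zero_left, add_zero]; exact h

end herm

section conc
variable {I K W Γ : Type*} [InvolutiveNeg I] [DecidableEq I] [Field K] [AddCommGroup W] [Module K W] [Group Γ] [Fintype I]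
variable {τ : K →+* K} {h0 : W → W → K} {P : W → K → Prop} {y : I → I → K → Γ} {z : I → W → K → Γ}
variable {ρ : Γ →* (((I → K) × W) ≃ₗ[K] ((I → K) × W))}
variable (H : HF τ h0 P) (A : HA τ h0 P y z ρ)

theorem whs (b : K) (u : W) : (wh (b • u) : (I → K) × W) = b • wh u := by
  refine Prod.ext ?_ rfl
  funext q; simp [wh]

theorem wha (u w : W) : (wh (u + w) : (I → K) × W) = wh u + wh w := by
  refine Prod.ext ?_ rfl
  funext q; simp [wh]

theorem wh_fst (w : W) (p : I) : (wh w : (I → K) × W).1 p = 0 := rfl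
theorem wh_snd (w : W) : (wh w : (I → K) × W).2 = w := rfl

include A in
theorem aY {i j : I} (h : i ≠ j) (h' : i ≠ -j) (a : K) (v : (I → K) × W) :
    ρ (y i j a) v = v + (a * v.1 (-j)) • eh i - (τ a * v.1 (-i)) • eh j := by
  rw [A.act_y h h']
  refine Prod.ext ?_ ?_
  · funext p
    simp only [Prod.fst_add, Prod.fst_sub, Prod.smul_fst, Pi.add_apply, Pi.sub_apply, Pi.smul_apply, smul_eq_mul, eh_fst, mul_ite,
      mul_one, mul_zero]
  · simp only [Prod.snd_add, Prod.snd_sub, Prod.smul_snd, eh_snd, smul_zero, add_zero, sub_zero]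

include A in
theorem aZ (i : I) {w : W} {c : K} (hP : P w c) (v : (I → K) × W) :
    ρ (z i w c) v = v + (c * v.1 (-i) - h0 w v.2) • eh i + v.1 (-i) • wh w := by
  rw [A.act_z i hP]
  refine Prod.ext ?_ ?_
  · funext p
    simp only [Prod.fst_add, Prod.smul_fst, Pi.add_apply, Pi.smul_apply, smul_eq_mul, eh_fst, mul_ite,
      mul_one, mul_zero, wh, Pi.zero_apply, add_zero]
  · simp only [Prod.snd_add, Prod.smul_snd, eh_snd, smul_zero, add_zero, wh]

include H A in
/-- the Steinberg relations hold in a faithful group of isometries -/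
theorem hr_of_ha (T : Tau τ) (hρ : Function.Injective ρ) (ne : ∀ i : I, -i ≠ i) (two : ∀ i : I, ∃ k, k ≠ i ∧ k ≠ -i) : HR τ h0 P y z := by
  have n0 : ∀ i : I, i ≠ -i := fun i e => ne i e.symm
  have ni : ∀ {i j : I}, i ≠ j → ¬ (-i = -j) := fun h e => h (neg_inj.1 e)
  have nj : ∀ {i j : I}, i ≠ -j → ¬ (-i = j) := fun h e => h (by rw [← e, neg_neg])
  have nk : ∀ {i j : I}, i ≠ -j → ¬ (j = -i) := fun h e => h (by rw [e, neg_neg])
  have nl : ∀ {i j : I}, i ≠ -j → ¬ (-j = i) := fun h e => h e.symm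
  refine ⟨ne, two, ?_, ?_, ?_, ?_, ?_, ?_, ?_, ?_, ?_, ?_⟩
  · obtain ⟨θ, hθ⟩ := T.nid
    exact ⟨0, θ - τ θ, H.P_skew θ, fun e => hθ (sub_eq_zero.1 e).symm⟩
  · intro i j h h' a
    apply hρ
    apply LinearEquiv.ext
    intro v
    rw [aY A h h', aY A h.symm (nk h'), map_neg, T.ττ]
    module
  · intro i j h h' a b
    apply hρ
    apply LinearEquiv.ext
    intro v
    rw [hrho_mul, aY A h h', aY A h h', aY A h h', map_add]
    simp only [Prod.fst_add, Prod.fst_sub, Prod.smul_fst, Pi.add_apply, Pi.sub_apply, Pi.smul_apply, smul_eq_mul, eh_fst,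
      if_neg (ne j), if_neg (nl h'), if_neg (ne i), if_neg (nj h'), mul_zero, add_zero, sub_zero]
    module
  · intro i w c w' c' hP hP'
    apply hρ
    apply LinearEquiv.ext
    intro v
    rw [hrho_mul, aZ A i hP, aZ A i hP', aZ A i (H.P_mul hP hP'), wha]
    simp only [Prod.fst_add, Prod.fst_sub, Prod.smul_fst, Pi.add_apply, Pi.sub_apply, Pi.smul_apply, smul_eq_mul, eh_fst,
      Prod.snd_add, Prod.smul_snd, eh_snd, smul_zero, wh_fst, wh_snd,
      if_neg (ne i), mul_zero, add_zero, sub_zero, H.add_right, H.smul_right, H.add_left]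
    module
  · intro i j k h1 h1' h2 h2' h3 h3' a b
    rw [comm_iff]
    apply hρ
    apply LinearEquiv.ext
    intro v
    have m1 : -j ≠ k := nj h2'
    have m2 : -j ≠ -k := ni h2
    rw [hrho_mul, hrho_mul, hrho_mul, aY A h1 h1', aY A m1 m2, aY A m1 m2, aY A h1 h1', aY A h3 h3', map_mul]
    simp only [Prod.fst_add, Prod.fst_sub, Prod.smul_fst, Pi.add_apply, Pi.sub_apply, Pi.smul_apply, smul_eq_mul, eh_fst,
      Prod.snd_add, Prod.snd_sub, Prod.smul_snd, eh_snd, smul_zero, neg_neg,
      if_true, if_neg (ne i), if_neg (ne j), if_neg (ne k), if_neg (n0 i), if_neg (n0 j), if_neg (n0 k),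
      if_neg h1, if_neg h1.symm, if_neg (ni h1), if_neg (ni h1.symm), if_neg h1', if_neg (nj h1'), if_neg (nk h1'), if_neg (nl h1'),
      if_neg h2, if_neg h2.symm, if_neg (ni h2), if_neg (ni h2.symm), if_neg h2', if_neg (nj h2'), if_neg (nk h2'), if_neg (nl h2'),
      if_neg h3, if_neg h3.symm, if_neg (ni h3), if_neg (ni h3.symm), if_neg h3', if_neg (nj h3'), if_neg (nk h3'), if_neg (nl h3'),
      mul_zero, add_zero, sub_zero, mul_one, zero_add, zero_sub]
    module
  · intro i j h1 h1' a b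
    rw [comm_iff]
    apply hρ
    apply LinearEquiv.ext
    intro v
    have m1 : -j ≠ i := nl h1'
    have m2 : -j ≠ -i := ni h1.symm
    rw [hrho_mul, hrho_mul, hrho_mul, aY A h1 h1', aY A m1 m2, aY A m1 m2, aY A h1 h1', aZ A i (H.P_skew _), map_mul]
    have w0 : (wh (0 : W) : (I → K) × W) = 0 := rfl
    simp only [Prod.fst_add, Prod.fst_sub, Prod.smul_fst, Pi.add_apply, Pi.sub_apply, Pi.smul_apply, smul_eq_mul, eh_fst,
      Prod.snd_add, Prod.snd_sub, Prod.smul_snd, eh_snd, smul_zero, neg_neg, H.zero_left, w0,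
      if_true, if_neg (ne i), if_neg (ne j), if_neg (n0 i), if_neg (n0 j),
      if_neg h1, if_neg h1.symm, if_neg (ni h1), if_neg (ni h1.symm), if_neg h1', if_neg (nj h1'), if_neg (nk h1'), if_neg (nl h1'),
      mul_zero, add_zero, sub_zero, mul_one, zero_add, zero_sub]
    module
  · intro i j h1 h1' w c hP b
    rw [comm_iff]
    apply hρ
    apply LinearEquiv.ext
    intro v
    have m1 : -i ≠ j := nj h1'
    have m2 : -i ≠ -j := ni h1
    rw [hrho_mul, hrho_mul, hrho_mul, hrho_mul, aZ A i hP, aY A m1 m2, aY A m1 m2, aZ A i hP, aY A h1 h1', aZ A j (H.P_smul' hP b), map_mul]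
    have tr := H.P_tr hP
    have e1 : τ c = -c - h0 w w := by linear_combination tr
    simp only [Prod.fst_add, Prod.fst_sub, Prod.smul_fst, Pi.add_apply, Pi.sub_apply, Pi.smul_apply, smul_eq_mul, eh_fst,
      Prod.snd_add, Prod.snd_sub, Prod.smul_snd, eh_snd, smul_zero, neg_neg, whs, wh_fst, wh_snd, H.add_right, H.smul_right,
      H.smul_left,
      if_true, if_neg (ne i), if_neg (ne j), if_neg (n0 i), if_neg (n0 j),
      if_neg h1, if_neg h1.symm, if_neg (ni h1), if_neg (ni h1.symm), if_neg h1', if_neg (nj h1'), if_neg (nk h1'), if_neg (nl h1'),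
      mul_zero, add_zero, sub_zero, mul_one, zero_add, zero_sub]
    rw [e1]
    module
  · intro i j k m h1 h1' h2 h2' h3 h4 h5 h6 a b
    rw [commutatorElement_eq_one_iff_mul_comm]
    apply hρ
    apply LinearEquiv.ext
    intro v
    rw [hrho_mul, hrho_mul, aY A h1 h1', aY A h2 h2', aY A h2 h2', aY A h1 h1']
    simp only [Prod.fst_add, Prod.fst_sub, Prod.smul_fst, Pi.add_apply, Pi.sub_apply, Pi.smul_apply, smul_eq_mul, eh_fst,
      if_neg h3.symm, if_neg h4.symm, if_neg h5.symm, if_neg h6.symm, if_neg (nl h3), if_neg (nl h4), if_neg (nl h5), if_neg (nl h6),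
      if_neg (nj h3), if_neg (nj h4), if_neg (nj h5), if_neg (nj h6),
      mul_zero, add_zero, sub_zero, mul_one, zero_add, zero_sub]
    module
  · intro i k m h1 h1' h3 h4 w c hP a
    rw [commutatorElement_eq_one_iff_mul_comm]
    apply hρ
    apply LinearEquiv.ext
    intro v
    rw [hrho_mul, hrho_mul, aZ A i hP, aY A h1 h1', aY A h1 h1', aZ A i hP]
    simp only [Prod.fst_add, Prod.fst_sub, Prod.smul_fst, Pi.add_apply, Pi.sub_apply, Pi.smul_apply, smul_eq_mul, eh_fst,
      Prod.snd_add, Prod.snd_sub, Prod.smul_snd, eh_snd, smul_zero, wh_fst, wh_snd,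
      if_neg h3.symm, if_neg h4.symm, if_neg (nl h3), if_neg (nl h4), if_neg (nj h3), if_neg (nj h4),
      mul_zero, add_zero, sub_zero, mul_one, zero_add, zero_sub]
    module
  · intro i j h1 h1' w c w' c' hP hP'
    rw [comm_iff]
    apply hρ
    apply LinearEquiv.ext
    intro v
    rw [hrho_mul, hrho_mul, hrho_mul, aZ A i hP, aZ A j hP', aZ A j hP', aZ A i hP, aY A h1 h1', map_neg, H.symm]
    simp only [Prod.fst_add, Prod.fst_sub, Prod.smul_fst, Pi.add_apply, Pi.sub_apply, Pi.smul_apply, smul_eq_mul, eh_fst,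
      Prod.snd_add, Prod.snd_sub, Prod.smul_snd, eh_snd, smul_zero, neg_neg, wh_fst, wh_snd, H.add_right, H.smul_right,
      H.smul_left,
      if_true, if_neg (ne i), if_neg (ne j), if_neg (n0 i), if_neg (n0 j),
      if_neg h1, if_neg h1.symm, if_neg (ni h1), if_neg (ni h1.symm), if_neg h1', if_neg (nj h1'), if_neg (nk h1'), if_neg (nl h1'),
      mul_zero, add_zero, sub_zero, mul_one, zero_add, zero_sub]
    module

end conc

end Cfsg.Agent.GK.Un
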