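import Cfsg.Agent.GK.Un10

/-!
The special linear group and the flips in a faithful group of isometries.
-/

set_option autoImplicit false
set_option linter.unusedSectionVars false
set_option linter.unusedVariables false
set_option linter.unusedSimpArgs false

namespace Cfsg.Agent.GK.Un

open Subgroup Cfsg.Agent.Stb
open scoped commutatorElement
open Om (Mo_emb2_fst Mo_emb2_snd Mo_emb2_out)

attribute [local instance] Stb.sumNeg

universe v

section lm
variable {F : Type v} [Field F] {l : Type} [Fintype l] [DecidableEq l] {W : Type*} [AddCommGroup W] [Module F W]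

/-- the hyperbolic action of the special linear group -/
def LM (τ : F →+* F) (M : Matrix.SpecialLinearGroup l F) (v : (l ⊕ l → F) × W) : (l ⊕ l → F) × W :=
  (Sum.elim ((M : Matrix l l F).mulVec (fun x => v.1 (Sum.inl x)))
    ((((M⁻¹ : Matrix.SpecialLinearGroup l F) : Matrix l l F).map τ).transpose.mulVec (fun x => v.1 (Sum.inr x))), v.2)

theorem LM_mul (τ : F →+* F) (M N : Matrix.SpecialLinearGroup l F) (v : (l ⊕ l → F) × W) : LM τ (M * N) v = LM τ M (LM τ N v) := by
  refine Prod.ext ?_ rfl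
  funext p
  rcases p with p | p
  · change ((M * N : Matrix.SpecialLinearGroup l F) : Matrix l l F).mulVec _ p = (M : Matrix l l F).mulVec ((N : Matrix l l F).mulVec _) p
    rw [Matrix.mulVec_mulVec, Matrix.SpecialLinearGroup.coe_mul]
  · change (((((M * N : Matrix.SpecialLinearGroup l F))⁻¹ : Matrix.SpecialLinearGroup l F) : Matrix l l F).map τ).transpose.mulVec _ p =
      (((M⁻¹ : Matrix.SpecialLinearGroup l F) : Matrix l l F).map τ).transpose.mulVec
        ((((N⁻¹ : Matrix.SpecialLinearGroup l F) : Matrix l l F).map τ).transpose.mulVec _) p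
    rw [Matrix.mulVec_mulVec, ← Matrix.transpose_mul, ← Matrix.map_mul, ← Matrix.SpecialLinearGroup.coe_mul, mul_inv_rev]

theorem LM_one (τ : F →+* F) (v : (l ⊕ l → F) × W) : LM τ 1 v = v := by
  refine Prod.ext ?_ rfl
  funext p
  rcases p with p | p
  · change ((1 : Matrix.SpecialLinearGroup l F) : Matrix l l F).mulVec _ p = _
    rw [Matrix.SpecialLinearGroup.coe_one, Matrix.one_mulVec]
  · change (((1⁻¹ : Matrix.SpecialLinearGroup l F) : Matrix l l F).map τ).transpose.mulVec _ p = _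
    rw [inv_one, Matrix.SpecialLinearGroup.coe_one, Matrix.map_one _ (map_zero τ) (map_one τ), Matrix.transpose_one, Matrix.one_mulVec]

theorem tvl_mulVec {i j : l} (h : i ≠ j) (a : F) (u : l → F) (x : l) :
    ((tvl h a : Matrix.SpecialLinearGroup l F) : Matrix l l F).mulVec u x = u x + if x = i then a * u j else 0 := by
  rw [tvl_coe, Matrix.transvection, Matrix.add_mulVec, Matrix.one_mulVec, Pi.add_apply]
  congr 1
  by_cases e : x = i
  · subst e
    rw [if_pos rfl]
    simp [Matrix.single_mulVec]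
  · rw [if_neg e]
    simp [Matrix.single_mulVec, Function.update, e]

theorem LM_tvl (τ : F →+* F) {i j : l} (h : i ≠ j) (a : F) (v : (l ⊕ l → F) × W) :
    LM τ (tvl h a) v = v + (a * v.1 (Sum.inl j)) • eh (Sum.inl i) - (τ a * v.1 (Sum.inr i)) • eh (Sum.inr j) := by
  refine Prod.ext ?_ ?_
  · funext p
    simp only [Prod.fst_add, Prod.fst_sub, Prod.smul_fst, Pi.add_apply, Pi.sub_apply, Pi.smul_apply, smul_eq_mul, eh_fst, mul_ite,
      mul_one, mul_zero]
    rcases p with p | p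
    · change ((tvl h a : Matrix.SpecialLinearGroup l F) : Matrix l l F).mulVec _ p = _
      rw [tvl_mulVec, if_neg (Sum.inl_ne_inr : (Sum.inl p : l ⊕ l) ≠ Sum.inr j), sub_zero]
      simp only [Sum.inl.injEq]
    · change ((((tvl h a)⁻¹ : Matrix.SpecialLinearGroup l F) : Matrix l l F).map τ).transpose.mulVec _ p = _
      have e1 : ((((tvl h a)⁻¹ : Matrix.SpecialLinearGroup l F) : Matrix l l F).map τ).transpose =
          ((tvl h.symm (-τ a) : Matrix.SpecialLinearGroup l F) : Matrix l l F) := by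
        rw [← tvl_neg, tvl_coe, tvl_coe]
        ext x y
        simp only [Matrix.transpose_apply, Matrix.map_apply, Matrix.transvection, Matrix.add_apply, Matrix.one_apply, Matrix.single_apply]
        rw [map_add]
        congr 1
        · by_cases e : y = x
          · rw [if_pos e, if_pos e.symm, map_one]
          · rw [if_neg e, if_neg (Ne.symm e), map_zero]
        · by_cases e : i = y ∧ j = x
          · rw [if_pos e, if_pos e.symm, map_neg]
          · rw [if_neg e, if_neg (fun e' => e e'.symm), map_zero]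
      rw [e1, tvl_mulVec, if_neg (Sum.inr_ne_inl : (Sum.inr p : l ⊕ l) ≠ Sum.inl i), add_zero]
      simp only [Sum.inr.injEq]
      by_cases e : p = j
      · rw [if_pos e, if_pos e]; ring
      · rw [if_neg e, if_neg e]; ring
  · simp only [Prod.snd_add, Prod.snd_sub, Prod.smul_snd, eh_snd, smul_zero, add_zero, sub_zero]
    rfl

theorem LM_inl (τ : F →+* F) {M : Matrix.SpecialLinearGroup l F} {i j : l} {c : Fˣ} (h : Mo M i j c) (v : (l ⊕ l → F) × W) :
    (LM τ M v).1 (Sum.inl j) = c * v.1 (Sum.inl i) := by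
  change (M : Matrix l l F).mulVec _ j = _
  rw [Matrix.mulVec, dotProduct, Finset.sum_eq_single i]
  · rw [h.2, if_pos rfl]
  · intro x _ hx; rw [h.2, if_neg hx, zero_mul]
  · intro h; exact absurd (Finset.mem_univ _) h

theorem LM_inr (τ : F →+* F) {M : Matrix.SpecialLinearGroup l F} {i j : l} {c : Fˣ} (h : Mo M i j c) (v : (l ⊕ l → F) × W) :
    (LM τ M v).1 (Sum.inr j) = τ ((c⁻¹ : Fˣ) : F) * v.1 (Sum.inr i) := by
  change (((M⁻¹ : Matrix.SpecialLinearGroup l F) : Matrix l l F).map τ).transpose.mulVec _ j = _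
  have h' := h.inv
  rw [Matrix.mulVec, dotProduct, Finset.sum_eq_single i]
  · rw [Matrix.transpose_apply, Matrix.map_apply, h'.1, if_pos rfl]
  · intro x _ hx
    rw [Matrix.transpose_apply, Matrix.map_apply, h'.1, if_neg hx, map_zero, zero_mul]
  · intro h; exact absurd (Finset.mem_univ _) h

theorem LM_eh_inl (τ : F →+* F) {M : Matrix.SpecialLinearGroup l F} {i j : l} {c : Fˣ} (h : Mo M i j c) :
    LM τ M (eh (Sum.inl i) : (l ⊕ l → F) × W) = (c : F) • eh (Sum.inl j) := by
  refine Prod.ext ?_ ?_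
  · funext p
    rw [Prod.smul_fst, Pi.smul_apply, eh_fst, smul_eq_mul]
    rcases p with p | p
    · change (M : Matrix l l F).mulVec _ p = _
      rw [Matrix.mulVec, dotProduct, Finset.sum_eq_single i]
      · rw [eh_fst, if_pos rfl, h.1]
        simp only [Sum.inl.injEq, mul_one, mul_ite, mul_zero]
      · intro x _ hx
        rw [eh_fst, if_neg (fun e => hx (Sum.inl_injective e)), mul_zero]
      · intro h; exact absurd (Finset.mem_univ _) h
    · change (((M⁻¹ : Matrix.SpecialLinearGroup l F) : Matrix l l F).map τ).transpose.mulVec _ p = _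
      rw [Matrix.mulVec, dotProduct, Finset.sum_eq_zero]
      · rw [if_neg Sum.inr_ne_inl, mul_zero]
      · intro x _
        rw [eh_fst, if_neg Sum.inr_ne_inl, mul_zero]
  · rw [Prod.smul_snd, eh_snd, smul_zero]; rfl

theorem LM_eh_inr (τ : F →+* F) {M : Matrix.SpecialLinearGroup l F} {i j : l} {c : Fˣ} (h : Mo M i j c) :
    LM τ M (eh (Sum.inr i) : (l ⊕ l → F) × W) = (τ ((c⁻¹ : Fˣ) : F)) • eh (Sum.inr j) := by
  have h' := h.inv
  refine Prod.ext ?_ ?_
  · funext p
    rw [Prod.smul_fst, Pi.smul_apply, eh_fst, smul_eq_mul]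
    rcases p with p | p
    · change (M : Matrix l l F).mulVec _ p = _
      rw [Matrix.mulVec, dotProduct, Finset.sum_eq_zero]
      · rw [if_neg Sum.inl_ne_inr, mul_zero]
      · intro x _
        rw [eh_fst, if_neg Sum.inl_ne_inr, mul_zero]
    · change (((M⁻¹ : Matrix.SpecialLinearGroup l F) : Matrix l l F).map τ).transpose.mulVec _ p = _
      rw [Matrix.mulVec, dotProduct, Finset.sum_eq_single i]
      · rw [eh_fst, if_pos rfl, Matrix.transpose_apply, Matrix.map_apply, h'.2]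
        by_cases e : p = j
        · subst e; simp
        · rw [if_neg e, if_neg (fun e' => e (Sum.inr_injective e'))]; simp
      · intro x _ hx
        rw [eh_fst, if_neg (fun e => hx (Sum.inr_injective e)), mul_zero]
      · intro h; exact absurd (Finset.mem_univ _) h
  · rw [Prod.smul_snd, eh_snd, smul_zero]; rfl

/-- linearity -/
theorem LM_add (τ : F →+* F) (M : Matrix.SpecialLinearGroup l F) (u v : (l ⊕ l → F) × W) : LM τ M (u + v) = LM τ M u + LM τ M v := by
  refine Prod.ext ?_ rfl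
  funext p
  rcases p with p | p
  · change (M : Matrix l l F).mulVec ((fun x => u.1 (Sum.inl x)) + fun x => v.1 (Sum.inl x)) p = _
    rw [Matrix.mulVec_add]; rfl
  · change (((M⁻¹ : Matrix.SpecialLinearGroup l F) : Matrix l l F).map τ).transpose.mulVec
      ((fun x => u.1 (Sum.inr x)) + fun x => v.1 (Sum.inr x)) p = _
    rw [Matrix.mulVec_add]; rfl

theorem LM_smul (τ : F →+* F) (M : Matrix.SpecialLinearGroup l F) (b : F) (v : (l ⊕ l → F) × W) : LM τ M (b • v) = b • LM τ M v := by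
  refine Prod.ext ?_ rfl
  funext p
  rcases p with p | p
  · change (M : Matrix l l F).mulVec (b • fun x => v.1 (Sum.inl x)) p = _
    rw [Matrix.mulVec_smul]; rfl
  · change (((M⁻¹ : Matrix.SpecialLinearGroup l F) : Matrix l l F).map τ).transpose.mulVec (b • fun x => v.1 (Sum.inr x)) p = _
    rw [Matrix.mulVec_smul]; rfl

end lm

section fg
variable {F : Type v} [Field F] {l : Type} [Fintype l] [DecidableEq l] {W Γ : Type*} [AddCommGroup W] [Module F W] [Group Γ]
variable {τ : F →+* F} {h0 : W → W → F} {P : W → F → Prop} {y : (l ⊕ l) → (l ⊕ l) → F → Γ} {z : (l ⊕ l) → W → F → Γ}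
variable {ρ : Γ →* (((l ⊕ l → F) × W) ≃ₗ[F] ((l ⊕ l → F) × W))}
variable (H : HF τ h0 P) (A : HA τ h0 P y z ρ) (hρ : Function.Injective ρ)

include A hρ in
/-- the homomorphism from the special linear group -/
theorem exists_sigma : ∃ σ : Matrix.SpecialLinearGroup l F →* Γ, (∀ (i j : l) (h : i ≠ j) (a : F), σ (tvl h a) = y (Sum.inl i) (Sum.inr j) a) ∧
    ∀ M v, ρ (σ M) v = LM τ M v := by
  have ex : ∀ M : Matrix.SpecialLinearGroup l F, ∃ g : Γ, ∀ v, ρ g v = LM τ M v := by
    let K : Subgroup (Matrix.SpecialLinearGroup l F) :=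
      { carrier := {M | ∃ g : Γ, ∀ v, ρ g v = LM τ M v}
        one_mem' := ⟨1, fun v => by rw [map_one, LM_one]; rfl⟩
        mul_mem' := by
          rintro M N ⟨g, hg⟩ ⟨g', hg'⟩
          exact ⟨g * g', fun v => by rw [hrho_mul, hg', hg, LM_mul]⟩
        inv_mem' := by
          rintro M ⟨g, hg⟩
          refine ⟨g⁻¹, fun v => ?_⟩
          have h1 := hg (LM τ M⁻¹ v)
          rw [← LM_mul, mul_inv_cancel, LM_one] at h1
          conv_lhs => rw [← h1]
          rw [← hrho_mul, inv_mul_cancel, map_one]; rfl }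
    have hK : K = ⊤ := by
      apply H40.sl_eq_top_of_transvections
      intro i j hij a
      refine ⟨y (Sum.inl i) (Sum.inr j) a, fun v => ?_⟩
      rw [aY A Sum.inl_ne_inr (lr_ne hij), LM_tvl]; rfl
    intro M
    have : M ∈ K := by rw [hK]; exact mem_top _
    exact this
  choose f hf using ex
  have inj : ∀ {g g' : Γ}, (∀ v, ρ g v = ρ g' v) → g = g' := fun h => hρ (LinearEquiv.ext h)
  refine ⟨MonoidHom.mk' f fun M N => inj fun v => by rw [hrho_mul, hf, hf, hf, LM_mul], fun i j h a => inj fun v => ?_, hf⟩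
  change ρ (f (tvl h a)) v = _
  rw [hf, LM_tvl, aY A Sum.inl_ne_inr (lr_ne h)]; rfl

variable {ν : F}

/-- the action of a flip -/
def fl (ν : F) (i : l) (v : (l ⊕ l → F) × W) : (l ⊕ l → F) × W :=
  v + (-ν⁻¹ * v.1 (Sum.inr i) - v.1 (Sum.inl i)) • eh (Sum.inl i) + (ν * v.1 (Sum.inl i) - v.1 (Sum.inr i)) • eh (Sum.inr i)

theorem fl_inl (i : l) (v : (l ⊕ l → F) × W) : (fl ν i v).1 (Sum.inl i) = -ν⁻¹ * v.1 (Sum.inr i) := by
  unfold fl
  simp only [Prod.fst_add, Prod.smul_fst, Pi.add_apply, Pi.smul_apply, smul_eq_mul, eh_fst, if_true,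
    if_neg (Sum.inl_ne_inr : (Sum.inl i : l ⊕ l) ≠ Sum.inr i)]
  ring

theorem fl_inr (i : l) (v : (l ⊕ l → F) × W) : (fl ν i v).1 (Sum.inr i) = ν * v.1 (Sum.inl i) := by
  unfold fl
  simp only [Prod.fst_add, Prod.smul_fst, Pi.add_apply, Pi.smul_apply, smul_eq_mul, eh_fst, if_true,
    if_neg (Sum.inr_ne_inl : (Sum.inr i : l ⊕ l) ≠ Sum.inl i)]
  ring

theorem fl_out {i : l} {p : l ⊕ l} (h1 : p ≠ Sum.inl i) (h2 : p ≠ Sum.inr i) (v : (l ⊕ l → F) × W) : (fl ν i v).1 p = v.1 p := by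
  unfold fl
  simp only [Prod.fst_add, Prod.smul_fst, Pi.add_apply, Pi.smul_apply, smul_eq_mul, eh_fst, if_neg h1, if_neg h2]
  ring

theorem fl_snd (i : l) (v : (l ⊕ l → F) × W) : (fl ν i v).2 = v.2 := by
  unfold fl
  simp only [Prod.snd_add, Prod.smul_snd, eh_snd, smul_zero, add_zero]

theorem fl_ext {i : l} {u v : (l ⊕ l → F) × W} (h1 : u.1 (Sum.inl i) = -ν⁻¹ * v.1 (Sum.inr i)) (h2 : u.1 (Sum.inr i) = ν * v.1 (Sum.inl i))
    (h3 : ∀ p, p ≠ Sum.inl i → p ≠ Sum.inr i → u.1 p = v.1 p) (h4 : u.2 = v.2) : u = fl ν i v := by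
  refine Prod.ext ?_ (by rw [fl_snd, h4])
  funext p
  by_cases e1 : p = Sum.inl i
  · subst e1; rw [fl_inl, h1]
  by_cases e2 : p = Sum.inr i
  · subst e2; rw [fl_inr, h2]
  · rw [fl_out e1 e2, h3 p e1 e2]

include H A in
theorem act_S (hν : τ ν = -ν) (ν0 : ν ≠ 0) (hPn : P 0 ν) (hPi : P 0 (-ν⁻¹)) (i : l) (v : (l ⊕ l → F) × W) :
    ρ (z (Sum.inl i) 0 (-ν⁻¹) * z (Sum.inr i) 0 ν * z (Sum.inl i) 0 (-ν⁻¹)) v = fl ν i v := by
  have k1 : ∀ v : (l ⊕ l → F) × W, ρ (z (Sum.inl i) 0 (-ν⁻¹)) v = v + (-ν⁻¹ * v.1 (Sum.inr i)) • eh (Sum.inl i) := by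
    intro v
    rw [aZ A _ hPi, H.zero_left, sub_zero]
    change _ + v.1 (-(Sum.inl i)) • (0 : (l ⊕ l → F) × W) = _
    rw [smul_zero, add_zero]; rfl
  have k2 : ∀ v : (l ⊕ l → F) × W, ρ (z (Sum.inr i) 0 ν) v = v + (ν * v.1 (Sum.inl i)) • eh (Sum.inr i) := by
    intro v
    rw [aZ A _ hPn, H.zero_left, sub_zero]
    change _ + v.1 (-(Sum.inr i)) • (0 : (l ⊕ l → F) × W) = _
    rw [smul_zero, add_zero]; rfl
  rw [hrho_mul, hrho_mul, k1, k2, k1]
  unfold fl
  simp only [Prod.fst_add, Prod.smul_fst, Pi.add_apply, Pi.smul_apply, smul_eq_mul, eh_fst, if_true,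
    if_neg (Sum.inl_ne_inr : (Sum.inl i : l ⊕ l) ≠ Sum.inr i), if_neg (Sum.inr_ne_inl : (Sum.inr i : l ⊕ l) ≠ Sum.inl i)]
  have e1 : -ν⁻¹ * (v.1 (Sum.inr i) + -ν⁻¹ * v.1 (Sum.inr i) * 0 + ν * (v.1 (Sum.inl i) + -ν⁻¹ * v.1 (Sum.inr i) * 1) * 1) =
      -v.1 (Sum.inl i) := by field_simp; ring
  have e2 : ν * (v.1 (Sum.inl i) + -ν⁻¹ * v.1 (Sum.inr i) * 1) = ν * v.1 (Sum.inl i) - v.1 (Sum.inr i) := by field_simp; ring
  rw [e1, e2]
  module

/-- flips acting as in the standard situation -/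
theorem fl_Mn (hν : τ ν = -ν) (ν0 : ν ≠ 0) {S : Γ} {i : l} (hS : ∀ v, ρ S v = fl ν i v) :
    Mn ρ S (sk i) (fun p => if p = Sum.inl i then ν else if p = Sum.inr i then -ν⁻¹ else 1) := by
  refine ⟨fun p => sk_neg i p, sk_inj i, fun p => ?_⟩
  rw [hS]
  symm
  have n1 : (Sum.inl i : l ⊕ l) ≠ Sum.inr i := Sum.inl_ne_inr
  by_cases e1 : p = Sum.inl i
  · subst e1
    rw [if_pos rfl, sk_l]
    refine fl_ext ?_ ?_ ?_ ?_
    · simp only [Prod.smul_fst, Pi.smul_apply, smul_eq_mul, eh_fst, if_neg n1, if_neg n1.symm, mul_zero]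
    · simp only [Prod.smul_fst, Pi.smul_apply, smul_eq_mul, eh_fst, if_true, mul_one]
    · intro q h1 h2
      simp only [Prod.smul_fst, Pi.smul_apply, smul_eq_mul, eh_fst, if_neg h1, if_neg h2, mul_zero]
    · simp only [Prod.smul_snd, eh_snd, smul_zero]
  by_cases e2 : p = Sum.inr i
  · subst e2
    rw [if_neg n1.symm, if_pos rfl, sk_r]
    refine fl_ext ?_ ?_ ?_ ?_
    · simp only [Prod.smul_fst, Pi.smul_apply, smul_eq_mul, eh_fst, if_true, mul_one]
    · simp only [Prod.smul_fst, Pi.smul_apply, smul_eq_mul, eh_fst, if_neg n1, if_neg n1.symm, mul_zero]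
    · intro q h1 h2
      simp only [Prod.smul_fst, Pi.smul_apply, smul_eq_mul, eh_fst, if_neg h1, if_neg h2, mul_zero]
    · simp only [Prod.smul_snd, eh_snd, smul_zero]
  · rw [if_neg e1, if_neg e2, one_smul]
    have h3 : i ≠ ab p := by
      rintro rfl
      rcases p with p | p
      · exact e1 rfl
      · exact e2 rfl
    rw [sk_ne h3]
    refine fl_ext ?_ ?_ ?_ ?_
    · simp only [eh_fst, if_neg (Ne.symm e1), if_neg (Ne.symm e2), mul_zero]
    · simp only [eh_fst, if_neg (Ne.symm e1), if_neg (Ne.symm e2), mul_zero]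
    · intro q h1 h2; rfl
    · rfl

end fg

end Cfsg.Agent.GK.Un
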