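import Cfsg.Agent.GK.Un11

/-!
The relations in a faithful group of isometries.
-/

set_option autoImplicit false
set_option linter.unusedSectionVars false
set_option linter.unusedVariables false
set_option linter.unusedSimpArgs false

namespace Cfsg.Agent.GK.Un

open Subgroup Cfsg.Agent.Stb
open scoped commutatorElement
open Om (Mo_emb2_fst Mo_emb2_snd Mo_emb2_out)

attribute [local instance] Stb.sumNeg

universe v

section frel
variable {F : Type v} [Field F] {l : Type*} [Fintype l] [DecidableEq l] {Γ : Type*} [Group Γ]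

/-- the long root element for `o` in terms of the special linear group and the flip -/
def LLe (τ : F →+* F) (μ : Matrix.SpecialLinearGroup l F →* Γ) (s : Γ) {o o' : l} (h : o ≠ o') (e : F) : Γ :=
  ⁅s * μ (tvl h.symm (-τ e)) * s⁻¹, μ (tvl h (-1))⁆

/-- the long root element for `-o` in terms of the special linear group and the flip -/
def RRe (τ : F →+* F) (ν : F) (μ : Matrix.SpecialLinearGroup l F →* Γ) (s : Γ) {o o' : l} (h : o ≠ o') (e : F) : Γ :=
  ⁅μ (tvl h.symm (ν * τ e)), s * μ (tvl h (-ν⁻¹)) * s⁻¹⁆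

/-- the flip as a product of long root elements -/
def FR (τ : F →+* F) (ν : F) (μ : Matrix.SpecialLinearGroup l F →* Γ) (s : Γ) {o o' : l} (h : o ≠ o') (e : F) : Prop :=
  s = LLe τ μ s h e * RRe τ ν μ s h e * LLe τ μ s h e

variable {τ : F →+* F} {ν : F} {μ : Matrix.SpecialLinearGroup l F →* Γ} {s : Γ} {o o' : l} {h : o ≠ o'} {e : F}

theorem comm_conj (g a b : Γ) : g * ⁅a, b⁆ * g⁻¹ = ⁅g * a * g⁻¹, g * b * g⁻¹⁆ := by
  simp only [commutatorElement_def]; group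

theorem yu_lr {S : l → Γ} {i j : l} (h : i ≠ j) (a : F) : yu ν μ S (Sum.inl i) (Sum.inr j) a = μ (tvl h a) := by
  change (1 * 1) * Om.XX μ i j (1 * 1 * a) * (1 * 1)⁻¹ = _
  rw [Om.XX_eq h]; simp

theorem yu_ll {S : l → Γ} {i j : l} (h : i ≠ j) (a : F) : yu ν μ S (Sum.inl i) (Sum.inl j) a = S j * μ (tvl h (ν * a)) * (S j)⁻¹ := by
  change (1 * S j) * Om.XX μ i j (1 * ν * a) * (1 * S j)⁻¹ = _
  rw [Om.XX_eq h, one_mul, one_mul]

theorem yu_rr {S : l → Γ} {i j : l} (h : i ≠ j) (a : F) : yu ν μ S (Sum.inr i) (Sum.inr j) a = S i * μ (tvl h (ν⁻¹ * a)) * (S i)⁻¹ := by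
  change (S i * 1) * Om.XX μ i j (ν⁻¹ * 1 * a) * (S i * 1)⁻¹ = _
  rw [Om.XX_eq h, mul_one, mul_one]

theorem yu_rl {S : l → Γ} {i j : l} (h : i ≠ j) (a : F) (hν : ν ≠ 0) :
    yu ν μ S (Sum.inr i) (Sum.inl j) a = (S i * S j) * μ (tvl h a) * (S i * S j)⁻¹ := by
  change (S i * S j) * Om.XX μ i j (ν⁻¹ * ν * a) * (S i * S j)⁻¹ = _
  rw [Om.XX_eq h, inv_mul_cancel₀ hν, one_mul]

/-- the flips are products of long root elements -/
theorem ff_of {W : Type*} [AddCommGroup W] {z : (l ⊕ l) → W → F → Γ} (B : B0 μ s o) (U : UE τ ν μ (SF μ s o))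
    (hz : ∀ {i j : l ⊕ l}, i ≠ j → i ≠ -j → ∀ a b, ⁅yu ν μ (SF μ s o) i j a, yu ν μ (SF μ s o) (-j) i b⁆ = z i 0 (a * b - τ (a * b)))
    (he : e + τ e = 1) (f : FR τ ν μ s h e) (i : l) :
    SF μ s o i = z (Sum.inl i) 0 (-ν⁻¹) * z (Sum.inr i) 0 ν * z (Sum.inl i) 0 (-ν⁻¹) := by
  have Y := U.y0
  obtain ⟨j, hj⟩ := B.two i
  have hij : i ≠ j := hj.symm
  obtain ⟨M, c, -, hM2, hM1⟩ := exists_mo (F := F) (i := o') (j := o) (i' := j) (j' := i) h.symm hj
  have e1 := SF_eq B hM1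
  have hS : μ M * s * (μ M)⁻¹ = SF μ s o i := e1.symm
  have cj : ∀ {a b : l} {a' b' : l} (h1 : a ≠ b) (h2 : a' ≠ b') {u w : Fˣ} (m1 : Mo M a a' u) (m2 : Mo M b b' w) (x : F),
      μ M * μ (tvl h1 x) * (μ M)⁻¹ = μ (tvl h2 ((u : F) * x * ((w⁻¹ : Fˣ) : F))) := by
    intro a b a' b' h1 h2 u w m1 m2 x
    rw [← map_inv, ← map_mul, ← map_mul, m1.conj m2 h1 h2]
  have cs : ∀ x : Γ, μ M * (s * x * s⁻¹) * (μ M)⁻¹ = SF μ s o i * (μ M * x * (μ M)⁻¹) * (SF μ s o i)⁻¹ := by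
    intro x; rw [← hS]; group
  have hν := U.hν
  have ν0 := U.ν0
  have ττ := U.T.ττ
  have hc := c.ne_zero
  have htc : τ (c : F) ≠ 0 := fun e => hc (by rw [← ττ (c : F), e, map_zero])
  have n1 : (Sum.inl i : l ⊕ l) ≠ Sum.inl j := fun e => hij (Sum.inl_injective e)
  have n2 : (Sum.inl i : l ⊕ l) ≠ -(Sum.inl j) := Sum.inl_ne_inr
  have n3 : (Sum.inr i : l ⊕ l) ≠ Sum.inl j := Sum.inr_ne_inl
  have n4 : (Sum.inr i : l ⊕ l) ≠ -(Sum.inl j) := fun e => hij (Sum.inr_injective e)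
  have n5 : (Sum.inr j : l ⊕ l) ≠ Sum.inl i := Sum.inr_ne_inl
  have n6 : (Sum.inr j : l ⊕ l) ≠ -(Sum.inl i) := fun e => hij (Sum.inr_injective e).symm
  have n7 : (Sum.inr j : l ⊕ l) ≠ Sum.inr i := fun e => hij (Sum.inr_injective e).symm
  have n8 : (Sum.inr j : l ⊕ l) ≠ -(Sum.inr i) := Sum.inr_ne_inl
  have L : μ M * LLe τ μ s h e * (μ M)⁻¹ = z (Sum.inl i) 0 (-ν⁻¹) := by
    unfold LLe
    rw [comm_conj, cs, cj h.symm hj hM2 hM1, cj h hij hM1 hM2]
    have a1 : SF μ s o i * μ (tvl hj ((c : F) * -τ e * ((1⁻¹ : Fˣ) : F))) * (SF μ s o i)⁻¹ =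
        yu ν μ (SF μ s o) (Sum.inl i) (Sum.inl j) (-ν⁻¹ * τ c * e) := by
      rw [Y.symm n1 n2, yu_ll hj]
      congr 4
      rw [map_mul, map_mul, map_neg, map_inv₀, hν, ττ, inv_one, Units.val_one]
      field_simp
    have a2 : μ (tvl hij (((1 : Fˣ) : F) * -1 * ((c⁻¹ : Fˣ) : F))) = yu ν μ (SF μ s o) (-(Sum.inl j)) (Sum.inl i) (τ c)⁻¹ := by
      change _ = yu ν μ (SF μ s o) (Sum.inr j) (Sum.inl i) (τ c)⁻¹
      rw [Y.symm n5 n6, yu_lr hij]
      congr 2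
      rw [map_inv₀, ττ, Units.val_one, Units.val_inv_eq_inv_val]; ring
    rw [a1, a2, hz n1 n2]
    congr 1
    have k1 : -ν⁻¹ * τ (c : F) * e * (τ (c : F))⁻¹ = -ν⁻¹ * e := by field_simp
    rw [k1, map_mul, map_neg, map_inv₀, hν, inv_neg]
    linear_combination (-ν⁻¹) * he
  have Rr : μ M * RRe τ ν μ s h e * (μ M)⁻¹ = z (Sum.inr i) 0 ν := by
    unfold RRe
    rw [comm_conj, cs, cj h.symm hj hM2 hM1, cj h hij hM1 hM2]
    have a1 : μ (tvl hj ((c : F) * (ν * τ e) * ((1⁻¹ : Fˣ) : F))) =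
        yu ν μ (SF μ s o) (Sum.inr i) (Sum.inl j) (ν * τ c * e) := by
      rw [Y.symm n3 n4, yu_lr hj]
      congr 2
      rw [map_mul, map_mul, hν, ττ, inv_one, Units.val_one]
      ring
    have a2 : SF μ s o i * μ (tvl hij (((1 : Fˣ) : F) * -ν⁻¹ * ((c⁻¹ : Fˣ) : F))) * (SF μ s o i)⁻¹ =
        yu ν μ (SF μ s o) (-(Sum.inl j)) (Sum.inr i) (τ c)⁻¹ := by
      change _ = yu ν μ (SF μ s o) (Sum.inr j) (Sum.inr i) (τ c)⁻¹
      rw [Y.symm n7 n8, yu_rr hij]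
      congr 4
      rw [map_inv₀, ττ, Units.val_one, Units.val_inv_eq_inv_val]; ring
    rw [a1, a2, hz n3 n4]
    congr 1
    have k1 : ν * τ (c : F) * e * (τ (c : F))⁻¹ = ν * e := by field_simp
    rw [k1, map_mul, hν]
    linear_combination ν * he
  have f' : s = LLe τ μ s h e * RRe τ ν μ s h e * LLe τ μ s h e := f
  calc SF μ s o i = μ M * s * (μ M)⁻¹ := e1
    _ = μ M * (LLe τ μ s h e * RRe τ ν μ s h e * LLe τ μ s h e) * (μ M)⁻¹ := by rw [← f']
    _ = (μ M * LLe τ μ s h e * (μ M)⁻¹) * (μ M * RRe τ ν μ s h e * (μ M)⁻¹) * (μ M * LLe τ μ s h e * (μ M)⁻¹) := by group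
    _ = _ := by rw [L, Rr]

end frel

section fg
variable {F : Type v} [Field F] {l : Type} [Fintype l] [DecidableEq l] {W Γ : Type*} [AddCommGroup W] [Module F W] [Group Γ]
variable {τ : F →+* F} {h0 : W → W → F} {P : W → F → Prop} {y : (l ⊕ l) → (l ⊕ l) → F → Γ} {z : (l ⊕ l) → W → F → Γ}
variable {ρ : Γ →* (((l ⊕ l → F) × W) ≃ₗ[F] ((l ⊕ l → F) × W))} {ν : F}

theorem fl_LM {M : Matrix.SpecialLinearGroup l F} {o i : l} (h : Mo M o i 1) (v : (l ⊕ l → F) × W) :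
    LM τ M (fl ν o v) = fl ν i (LM τ M v) := by
  unfold fl
  rw [LM_add, LM_add, LM_smul, LM_smul, LM_eh_inl τ h, LM_eh_inr τ h, LM_inl τ h, LM_inr τ h]
  simp

theorem fl_comm {i j : l} (h : i ≠ j) (v : (l ⊕ l → F) × W) : fl ν i (fl ν j v) = fl ν j (fl ν i v) := by
  have n1 : ∀ {i j : l}, i ≠ j → (Sum.inl i : l ⊕ l) ≠ Sum.inl j := fun h e => h (Sum.inl_injective e)
  have n2 : ∀ {i j : l}, i ≠ j → (Sum.inr i : l ⊕ l) ≠ Sum.inr j := fun h e => h (Sum.inr_injective e)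
  symm
  apply fl_ext
  · rw [fl_out (n1 h) Sum.inl_ne_inr, fl_inl, fl_out Sum.inr_ne_inl (n2 h)]
  · rw [fl_out Sum.inr_ne_inl (n2 h), fl_inr, fl_out (n1 h) Sum.inl_ne_inr]
  · intro p h1 h2
    by_cases e1 : p = Sum.inl j
    · subst e1
      rw [fl_inl, fl_inl, fl_out Sum.inr_ne_inl (n2 h.symm)]
    by_cases e2 : p = Sum.inr j
    · subst e2
      rw [fl_inr, fl_inr, fl_out (n1 h.symm) Sum.inl_ne_inr]
    · rw [fl_out e1 e2, fl_out h1 h2, fl_out e1 e2]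
  · rw [fl_snd, fl_snd, fl_snd]

/-- data of a faithful group of isometries -/
structure CG (τ : F →+* F) (ν : F) (h0 : W → W → F) (P : W → F → Prop) (y : (l ⊕ l) → (l ⊕ l) → F → Γ) (z : (l ⊕ l) → W → F → Γ)
    (ρ : Γ →* (((l ⊕ l → F) × W) ≃ₗ[F] ((l ⊕ l → F) × W))) (σ : Matrix.SpecialLinearGroup l F →* Γ) (S : l → Γ) : Prop where
  T : Tau τ
  hν : τ ν = -ν
  ν0 : ν ≠ 0
  two : ∀ i : l, ∃ j, j ≠ i
  H : HF τ h0 P
  A : HA τ h0 P y z ρ
  inj : Function.Injective ρ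
  hσ : ∀ (i j : l) (h : i ≠ j) (a : F), σ (tvl h a) = y (Sum.inl i) (Sum.inr j) a
  act : ∀ M v, ρ (σ M) v = LM τ M v
  hS : ∀ i, S i = z (Sum.inl i) 0 (-ν⁻¹) * z (Sum.inr i) 0 ν * z (Sum.inl i) 0 (-ν⁻¹)

namespace CG
variable {σ : Matrix.SpecialLinearGroup l F →* Γ} {S : l → Γ} (C : CG τ ν h0 P y z ρ σ S)
include C

theorem Pn : P 0 ν := by
  obtain ⟨e, he⟩ := C.T.skew C.hν
  rw [← he]; exact C.H.P_skew e

theorem Pi : P 0 (-ν⁻¹) := by
  have := C.H.P1 C.Pn C.ν0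
  rwa [smul_zero, C.hν, inv_neg] at this

theorem actS (i : l) (v : (l ⊕ l → F) × W) : ρ (S i) v = fl ν i v := by
  rw [C.hS]; exact act_S C.H C.A C.hν C.ν0 C.Pn C.Pi i v

theorem ext {g g' : Γ} (h : ∀ v, ρ g v = ρ g' v) : g = g' := C.inj (LinearEquiv.ext h)

theorem ne (p : l ⊕ l) : -p ≠ p := by
  rcases p with p | p
  · exact Sum.inr_ne_inl
  · exact Sum.inl_ne_inr

theorem hr : HR τ h0 P y z := by
  refine hr_of_ha C.H C.A C.T C.inj C.ne fun p => ?_
  rcases p with p | p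
  · obtain ⟨j, hj⟩ := C.two p
    exact ⟨Sum.inl j, fun e => hj (Sum.inl_injective e), Sum.inl_ne_inr⟩
  · obtain ⟨j, hj⟩ := C.two p
    exact ⟨Sum.inr j, fun e => hj (Sum.inr_injective e), Sum.inr_ne_inl⟩

theorem tr {M : Matrix.SpecialLinearGroup l F} {o i : l} (h : Mo M o i 1) : σ M * S o * (σ M)⁻¹ = S i := by
  rw [mul_inv_eq_iff_eq_mul]
  apply C.ext
  intro v
  rw [hrho_mul, hrho_mul, C.actS, C.actS, C.act, C.act, fl_LM h]

theorem b0 (o : l) : B0 σ (S o) o where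
  two := C.two
  hs M hM := (mul_inv_eq_iff_eq_mul.1 (C.tr hM)).symm

theorem sf (o i : l) : SF σ (S o) o i = S i := by
  obtain ⟨M, hM⟩ := exists_mo1 (F := F) C.two o i
  rw [SF_eq (C.b0 o) hM, C.tr hM]

theorem SS (i j : l) : Commute (S i) (S j) := by
  by_cases h : i = j
  · subst h; exact Commute.refl _
  · apply C.ext
    intro v
    rw [hrho_mul, hrho_mul, C.actS, C.actS, C.actS, C.actS, fl_comm h]

theorem mn (i : l) : Mn ρ (S i) (sk i) (fun p => if p = Sum.inl i then ν else if p = Sum.inr i then -ν⁻¹ else 1) :=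
  fl_Mn C.hν C.ν0 (C.actS i)

/-- conjugation by flips -/
theorem conj (i : l) {p q : l ⊕ l} (h1 : p ≠ q) (h2 : p ≠ -q) (a : F) : S i * y p q a * (S i)⁻¹ =
    y (sk i p) (sk i q) ((if p = Sum.inl i then ν else if p = Sum.inr i then -ν⁻¹ else 1) *
      τ (if q = Sum.inl i then ν else if q = Sum.inr i then -ν⁻¹ else 1) * a) :=
  C.inj ((C.mn i).conj_y C.H C.ne C.A h1 h2 a)

theorem yeq {p q : l ⊕ l} (h1 : p ≠ q) (h2 : p ≠ -q) (a : F) : yu ν σ S p q a = y p q a := by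
  have ν0 := C.ν0
  have e0 : τ (-ν⁻¹) = ν⁻¹ := by rw [map_neg, map_inv₀, C.hν, inv_neg, neg_neg]
  have lr : ∀ i : l, (Sum.inl i : l ⊕ l) ≠ Sum.inr i := fun i => Sum.inl_ne_inr
  have rl : ∀ i j : l, ¬ (Sum.inr i : l ⊕ l) = Sum.inl j := fun i j => Sum.inr_ne_inl
  have lr' : ∀ i j : l, ¬ (Sum.inl i : l ⊕ l) = Sum.inr j := fun i j => Sum.inl_ne_inr
  rcases p with i | i <;> rcases q with j | j
  · have h : i ≠ j := fun e => h1 (by rw [e])
    have h' : ¬ (Sum.inl i : l ⊕ l) = Sum.inl j := fun e => h (Sum.inl_injective e)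
    rw [yu_ll h, C.hσ, C.conj j (lr' i j) (fun e => h (Sum.inl_injective e)), sk_r, sk_l' h.symm, if_neg h', if_neg (lr' i j), if_neg (rl j j), if_pos rfl, e0,
      one_mul, ← mul_assoc, inv_mul_cancel₀ ν0, one_mul]
  · have h : i ≠ j := fun e => h2 (by rw [e]; rfl)
    rw [yu_lr h, C.hσ]
  · have h : i ≠ j := fun e => h2 (by rw [e]; rfl)
    have h' : ¬ (Sum.inl i : l ⊕ l) = Sum.inl j := fun e => h (Sum.inl_injective e)
    have h'' : ¬ (Sum.inr j : l ⊕ l) = Sum.inr i := fun e => h (Sum.inr_injective e).symm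
    rw [yu_rl h _ ν0, C.hσ]
    have e1 : S i * S j * y (Sum.inl i) (Sum.inr j) a * (S i * S j)⁻¹ = S i * (S j * y (Sum.inl i) (Sum.inr j) a * (S j)⁻¹) * (S i)⁻¹ := by group
    rw [e1, C.conj j (lr' i j) (fun e => h (Sum.inl_injective e)), sk_r, sk_l' h.symm, if_neg h', if_neg (lr' i j), if_neg (rl j j), if_pos rfl, e0,
      one_mul, C.conj i h' (lr' i j), sk_l, sk_l' h, if_pos rfl, if_neg (fun e => h' e.symm), if_neg (lr' j i), map_one, mul_one, ← mul_assoc,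
      mul_inv_cancel₀ ν0, one_mul]
  · have h : i ≠ j := fun e => h1 (by rw [e])
    rw [yu_rr h, C.hσ, C.conj i (lr' i j) (fun e => h (Sum.inl_injective e)), sk_l, sk_r' h, if_pos rfl, if_neg (rl j i),
      if_neg (fun e => h (Sum.inr_injective e).symm), map_one, mul_one, ← mul_assoc, mul_inv_cancel₀ ν0, one_mul]

/-- the relations hold -/
theorem fr {o o' : l} (h : o ≠ o') {e : F} (he : e + τ e = 1) : FR τ ν σ (S o) h e := by
  have R := C.hr
  have hν := C.hν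
  have ν0 := C.ν0
  have ττ := C.T.ττ
  have n1 : (Sum.inl o : l ⊕ l) ≠ Sum.inl o' := fun e => h (Sum.inl_injective e)
  have n2 : (Sum.inl o : l ⊕ l) ≠ -(Sum.inl o') := Sum.inl_ne_inr
  have n3 : (Sum.inr o : l ⊕ l) ≠ Sum.inl o' := Sum.inr_ne_inl
  have n4 : (Sum.inr o : l ⊕ l) ≠ -(Sum.inl o') := fun e => h (Sum.inr_injective e)
  have n5 : (Sum.inr o' : l ⊕ l) ≠ Sum.inl o := Sum.inr_ne_inl
  have n6 : (Sum.inr o' : l ⊕ l) ≠ -(Sum.inl o) := fun e => h (Sum.inr_injective e).symm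
  have n7 : (Sum.inr o' : l ⊕ l) ≠ Sum.inr o := fun e => h (Sum.inr_injective e).symm
  have n8 : (Sum.inr o' : l ⊕ l) ≠ -(Sum.inr o) := Sum.inr_ne_inl
  unfold FR
  have L : LLe τ σ (S o) h e = z (Sum.inl o) 0 (-ν⁻¹) := by
    unfold LLe
    have a1 : S o * σ (tvl h.symm (-τ e)) * (S o)⁻¹ = y (Sum.inl o) (Sum.inl o') (-ν⁻¹ * e) := by
      rw [R.symm n1 n2, ← C.yeq n1.symm (fun e => n2 (by rw [e, neg_neg])), yu_ll h.symm]
      congr 3
      rw [map_mul, map_neg, map_inv₀, hν]; field_simp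
    have a2 : σ (tvl h (-1)) = y (-(Sum.inl o')) (Sum.inl o) 1 := by
      change _ = y (Sum.inr o') (Sum.inl o) 1
      rw [R.symm n5 n6, C.hσ, map_one]
    rw [a1, a2, R.c2 n1 n2]
    congr 1
    rw [mul_one, map_mul, map_neg, map_inv₀, hν, inv_neg]
    linear_combination (-ν⁻¹) * he
  have Rr : RRe τ ν σ (S o) h e = z (Sum.inr o) 0 ν := by
    unfold RRe
    have a1 : σ (tvl h.symm (ν * τ e)) = y (Sum.inr o) (Sum.inl o') (ν * e) := by
      rw [R.symm n3 n4, C.hσ]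
      congr 1
      rw [map_mul, hν]; ring
    have a2 : S o * σ (tvl h (-ν⁻¹)) * (S o)⁻¹ = y (-(Sum.inl o')) (Sum.inr o) 1 := by
      change _ = y (Sum.inr o') (Sum.inr o) 1
      rw [R.symm n7 n8, ← C.yeq n7.symm (fun e => n8 (by rw [e, neg_neg])), yu_rr h, map_one]
      congr 3
      ring_nf
    rw [a1, a2, R.c2 n3 n4]
    congr 1
    rw [mul_one, map_mul, hν]
    linear_combination ν * he
  rw [L, Rr]; exact C.hS o

theorem rall {o o' : l} (h : o ≠ o') (a : F) : (S o * S o') * σ (tvl h a) * (S o * S o')⁻¹ = σ (tvl h.symm (-τ a)) := by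
  have n3 : (Sum.inr o : l ⊕ l) ≠ Sum.inl o' := Sum.inr_ne_inl
  have n4 : (Sum.inr o : l ⊕ l) ≠ -(Sum.inl o') := fun e => h (Sum.inr_injective e)
  rw [← yu_rl h a C.ν0, C.yeq n3 n4, C.hr.symm n3 n4, C.hσ]

theorem rsq {o o' : l} (h : o ≠ o') (a : F) : (S o * S o) * σ (tvl h a) * (S o * S o)⁻¹ = σ (tvl h (-a)) := by
  have lr' : ∀ i j : l, ¬ (Sum.inl i : l ⊕ l) = Sum.inr j := fun i j => Sum.inl_ne_inr
  have ν0 := C.ν0
  rw [C.hσ, C.hσ]
  have e1 : S o * S o * y (Sum.inl o) (Sum.inr o') a * (S o * S o)⁻¹ = S o * (S o * y (Sum.inl o) (Sum.inr o') a * (S o)⁻¹) * (S o)⁻¹ := by group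
  have h'' : ¬ (Sum.inr o' : l ⊕ l) = Sum.inr o := fun e => h (Sum.inr_injective e).symm
  rw [e1, C.conj o (lr' o o') (fun e => h (Sum.inl_injective e)), sk_l, sk_r' h, if_pos rfl, if_neg (fun e => lr' o o' e.symm), if_neg h'',
    C.conj o (fun e => h (Sum.inr_injective e)) Sum.inr_ne_inl, sk_r, sk_r' h, if_neg (fun e => lr' o o e.symm), if_pos rfl,
    if_neg (fun e => lr' o o' e.symm), if_neg h'', map_one]
  congr 1
  field_simp

theorem x_mul {i j : l} (h : i ≠ j) (A : Matrix.SpecialLinearGroup (Fin 2) F) :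
    (S i * S j) * σ (emb2 h A) * (S i * S j)⁻¹ = σ (emb2 h (tm * (Matrix.SpecialLinearGroup.map τ A) * tm⁻¹)) := by
  have h1 : MonoidHom.eqLocus ((MulAut.conj (S i * S j)).toMonoidHom.comp (σ.comp (emb2 h)))
      (((σ.comp (emb2 h)).comp (MulAut.conj tm).toMonoidHom).comp (Matrix.SpecialLinearGroup.map τ)) = ⊤ := by
    apply H40.sl_eq_top_of_transvections
    intro i' j' hij' x'
    change (S i * S j) * σ (emb2 h (tvl hij' x')) * (S i * S j)⁻¹ = σ (emb2 h (tm * (Matrix.SpecialLinearGroup.map τ (tvl hij' x')) * tm⁻¹))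
    fin_cases i' <;> fin_cases j'
    · exact absurd rfl hij'
    · rw [show (tvl hij' x' : Matrix.SpecialLinearGroup (Fin 2) F) = xm x' from (xm_tvl x').symm]
      have e1 : tm * (Matrix.SpecialLinearGroup.map τ (xm x')) * tm⁻¹ = ym (-τ x') := by
        rw [mul_inv_eq_iff_eq_mul]
        apply slext
        rw [Matrix.SpecialLinearGroup.coe_mul, Matrix.SpecialLinearGroup.coe_mul, tm_coe, ym_coe, Matrix.SpecialLinearGroup.map_apply_coe, xm_coe]
        ext a b; fin_cases a <;> fin_cases b <;> simp [Matrix.mul_apply, Fin.sum_univ_two]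
      rw [e1, emb2_xm, emb2_ym, C.rall h]
    · rw [show (tvl hij' x' : Matrix.SpecialLinearGroup (Fin 2) F) = ym x' from (ym_tvl x').symm]
      have e1 : tm * (Matrix.SpecialLinearGroup.map τ (ym x')) * tm⁻¹ = xm (-τ x') := by
        rw [mul_inv_eq_iff_eq_mul]
        apply slext
        rw [Matrix.SpecialLinearGroup.coe_mul, Matrix.SpecialLinearGroup.coe_mul, tm_coe, xm_coe, Matrix.SpecialLinearGroup.map_apply_coe, ym_coe]
        ext a b; fin_cases a <;> fin_cases b <;> simp [Matrix.mul_apply, Fin.sum_univ_two]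
      rw [e1, emb2_xm, emb2_ym, (C.SS i j).eq, C.rall h.symm]
    · exact absurd rfl hij'
  have h2 : A ∈ MonoidHom.eqLocus ((MulAut.conj (S i * S j)).toMonoidHom.comp (σ.comp (emb2 h)))
      (((σ.comp (emb2 h)).comp (MulAut.conj tm).toMonoidHom).comp (Matrix.SpecialLinearGroup.map τ)) := by rw [h1]; exact mem_top _
  exact h2

theorem r_hm {i j : l} (h : i ≠ j) (c : Fˣ) :
    (S i * S j) * σ (emb2 h (hm c)) * (S i * S j)⁻¹ = σ (emb2 h (hm (Units.map τ c)⁻¹)) := by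
  rw [C.x_mul h]
  congr 2
  rw [mul_inv_eq_iff_eq_mul]
  apply slext
  rw [Matrix.SpecialLinearGroup.coe_mul, Matrix.SpecialLinearGroup.coe_mul, tm_coe, hm_coe, Matrix.SpecialLinearGroup.map_apply_coe, hm_coe]
  ext a b; fin_cases a <;> fin_cases b <;> simp [Matrix.mul_apply, Fin.sum_univ_two]

/-- the commutator relation for opposite flips -/
theorem star {o o' : l} (h : o ≠ o') {a b : F} (hab : a * τ b = τ a * b) :
    Commute (S o' * σ (tvl h (ν * a)) * (S o')⁻¹) (σ (tvl h b)) := by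
  have R := C.hr
  have n1 : (Sum.inl o : l ⊕ l) ≠ Sum.inl o' := fun e => h (Sum.inl_injective e)
  have n2 : (Sum.inl o : l ⊕ l) ≠ -(Sum.inl o') := Sum.inl_ne_inr
  have n3 : (Sum.inl o : l ⊕ l) ≠ Sum.inr o' := Sum.inl_ne_inr
  have n4 : (Sum.inl o : l ⊕ l) ≠ -(Sum.inr o') := fun e => h (Sum.inl_injective e)
  rw [← yu_ll h a, C.yeq n1 n2, C.hσ, R.symm n3 n4]
  have h1 := R.c2 n1 n2 a (-τ b)
  have e0 : a * -τ b - τ (a * -τ b) = 0 := by
    rw [map_mul, map_neg, C.T.ττ]; linear_combination -hab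
  rw [e0, R.zzero C.H] at h1
  exact commutatorElement_eq_one_iff_commute.1 h1

/-- the relations for rank at least three -/
theorem br {o o' : l} (h : o ≠ o') (ζ : Fˣ) : BR τ ν σ (S o) h ζ where
  toB0 := C.b0 o
  r1 := by rw [C.sf]; exact C.SS _ _
  r2 := by rw [C.sf, C.rall h, map_one]
  r3 := by rw [C.sf, C.r_hm h]
  r4 := C.rsq h 1
  r5 := by
    rw [C.sf]
    have := C.star h (a := 1) (b := 1) (by rw [map_one])
    rwa [mul_one] at this

/-- commuting flips and the special linear group -/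
theorem SX {k i j : l} (h : i ≠ j) (h1 : k ≠ i) (h2 : k ≠ j) (a : F) : Commute (S k) (σ (tvl h a)) := by
  rw [C.hσ]
  have h3 := C.conj k (p := Sum.inl i) (q := Sum.inr j) Sum.inl_ne_inr (fun e => h (Sum.inl_injective e)) a
  rw [sk_l' h1, sk_r' h2, if_neg (fun e => h1 (Sum.inl_injective e).symm), if_neg Sum.inl_ne_inr, if_neg Sum.inr_ne_inl,
    if_neg (fun e => h2 (Sum.inr_injective e).symm), map_one, one_mul, one_mul] at h3
  exact mul_inv_eq_iff_eq_mul.1 h3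

theorem ue : UE τ ν σ S where
  T := C.T
  hν := C.hν
  ν0 := C.ν0
  two := C.two
  SS := C.SS
  SX h h1 h2 a := C.SX h h1 h2 a
  r h a := C.rall h a
  sq h a := C.rsq h a
  c0 h a b hab := C.star h hab

/-- the action of `HH` -/
theorem act_HH {i j : l} (h : i ≠ j) (c : Fˣ) (p : l ⊕ l) : ρ (HH σ S h c) (eh p) =
    (if p = Sum.inl i then (((nn τ c)⁻¹ : Fˣ) : F) else if p = Sum.inr i then ((nn τ c : Fˣ) : F) else 1) • eh p := by
  have ν0 := C.ν0
  have n1 : (Sum.inl i : l ⊕ l) ≠ Sum.inr i := Sum.inl_ne_inr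
  have key : ∀ v, ρ (HH σ S h c) (ρ (σ (emb2 h (hm c))) (ρ (S i) v)) = ρ (S i) (ρ (σ (emb2 h (hm c))) v) := by
    intro v
    unfold HH
    rw [← hrho_mul, ← hrho_mul, ← hrho_mul]
    congr 2; group
  have m1 := Mo_emb2_fst (F := F) h c
  have m2 := Mo_emb2_snd (F := F) h c
  have hcc := c.ne_zero
  have htc : τ (c : F) ≠ 0 := fun e => hcc (by rw [← C.T.ττ (c : F), e, map_zero])
  have fe1 : fl ν i (eh (Sum.inl i) : (l ⊕ l → F) × W) = ν • eh (Sum.inr i) := by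
    rw [← C.actS, (C.mn i).act, if_pos rfl, sk_l]
  have fe2 : fl ν i (eh (Sum.inr i) : (l ⊕ l → F) × W) = (-ν⁻¹) • eh (Sum.inl i) := by
    rw [← C.actS, (C.mn i).act, if_neg n1.symm, if_pos rfl, sk_r]
  by_cases e1 : p = Sum.inl i
  · subst e1
    rw [if_pos rfl]
    have h1 := key ((-ν) • eh (Sum.inr i))
    rw [C.actS, C.actS, C.act, C.act, ← C.actS, ← C.actS, map_smul, C.actS, fe2, smul_smul, neg_mul_neg, mul_inv_cancel₀ ν0, one_smul,
      LM_eh_inl τ m1, LM_smul, LM_eh_inr τ m1, map_smul, map_smul, map_smul, C.actS, fe2, smul_smul, smul_smul] at h1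
    have h2 := congrArg (fun v => ((c : F)⁻¹) • v) h1
    simp only [smul_smul] at h2
    rw [inv_mul_cancel₀ hcc, one_smul] at h2
    rw [h2]
    congr 1
    rw [Units.val_inv_eq_inv_val, Units.val_inv_eq_inv_val, nn_coe, map_inv₀]
    field_simp
  by_cases e2 : p = Sum.inr i
  · subst e2
    rw [if_neg e1, if_pos rfl]
    have h1 := key (ν⁻¹ • eh (Sum.inl i))
    rw [C.actS, C.actS, C.act, C.act, ← C.actS, ← C.actS, map_smul, C.actS, fe1, smul_smul, inv_mul_cancel₀ ν0, one_smul,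
      LM_eh_inr τ m1, LM_smul, LM_eh_inl τ m1, map_smul, map_smul, map_smul, C.actS, fe1, smul_smul, smul_smul] at h1
    have h2 := congrArg (fun v => (τ (c : F)) • v) h1
    simp only [smul_smul] at h2
    rw [Units.val_inv_eq_inv_val, map_inv₀, mul_inv_cancel₀ htc, one_smul] at h2
    rw [h2]
    congr 1
    rw [nn_coe]
    field_simp
  · rw [if_neg e1, if_neg e2, one_smul]
    have f1 : ∀ {x : (l ⊕ l → F) × W}, x.1 (Sum.inl i) = 0 → x.1 (Sum.inr i) = 0 → fl ν i x = x := by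
      intro x h1 h2
      unfold fl
      rw [h1, h2]; simp
    set v : (l ⊕ l → F) × W := ρ (σ (emb2 h (hm c)))⁻¹ (eh p) with hv
    have hLv : LM τ (emb2 h (hm c)) v = eh p := by
      rw [← C.act, hv, ← hrho_mul, mul_inv_cancel, map_one]; rfl
    have v1 : v.1 (Sum.inl i) = 0 := by
      have := LM_inl τ m1 v
      rw [hLv, eh_fst, if_neg (fun e => e1 e.symm)] at this
      exact (mul_eq_zero.1 this.symm).resolve_left hcc
    have v2 : v.1 (Sum.inr i) = 0 := by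
      have := LM_inr τ m1 v
      rw [hLv, eh_fst, if_neg (fun e => e2 e.symm)] at this
      refine (mul_eq_zero.1 this.symm).resolve_left ?_
      rw [Units.val_inv_eq_inv_val, map_inv₀]; exact inv_ne_zero htc
    have h1 := key v
    rw [C.actS, C.actS, C.act, f1 v1 v2, C.act, hLv] at h1
    rw [h1]
    exact f1 (by rw [eh_fst, if_neg (fun e => e1 e.symm)]) (by rw [eh_fst, if_neg (fun e => e2 e.symm)])

end CG

end fg

end Cfsg.Agent.GK.Un
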