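import Cfsg.Agent.GK.Un12

/-!
The relations in rank two.
-/

set_option autoImplicit false
set_option linter.unusedSectionVars false
set_option linter.unusedVariables false
set_option linter.unusedSimpArgs false

namespace Cfsg.Agent.GK.Un

open Subgroup Cfsg.Agent.Stb
open scoped commutatorElement
open Om (Mo_emb2_fst Mo_emb2_snd Mo_emb2_out)

attribute [local instance] Stb.sumNeg

universe v

section gen
variable {F : Type v} [Field F] {l : Type*} [Fintype l] [DecidableEq l] {Γ : Type*} [Group Γ]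
variable {μ : Matrix.SpecialLinearGroup l F →* Γ}

theorem D_tv {i j : l} (h : i ≠ j) (c : Fˣ) (a : F) :
    μ (emb2 h (hm c)) * μ (tvl h a) * (μ (emb2 h (hm c)))⁻¹ = μ (tvl h ((c : F) ^ 2 * a)) := by
  rw [← map_inv, ← map_mul, ← map_mul, ← emb2_xm, ← emb2_xm, ← map_inv, ← map_mul, ← map_mul, hm_xm]

theorem D_tv' {i j : l} (h : i ≠ j) (c : Fˣ) (a : F) :
    μ (emb2 h (hm c)) * μ (tvl h.symm a) * (μ (emb2 h (hm c)))⁻¹ = μ (tvl h.symm (((c⁻¹ : Fˣ) : F) ^ 2 * a)) := by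
  rw [← map_inv, ← map_mul, ← map_mul, ← emb2_ym h, ← emb2_ym h, ← map_inv, ← map_mul, ← map_mul, hm_ym']

/-- extending a relation to all root elements -/
theorem scale_all [Finite F] {ζ : Fˣ} (hζ : IsGen ζ) {i j : l} (h : i ≠ j) {g : Γ} {u : F} (hD : Commute g (μ (emb2 h (hm ζ))))
    (h1 : g * μ (tvl h 1) * g⁻¹ = μ (tvl h u)) (a : F) : g * μ (tvl h a) * g⁻¹ = μ (tvl h (u * a)) := by
  have h2 : ∀ c : Fˣ, Commute g (μ (emb2 h (hm c))) := by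
    intro c
    obtain ⟨n, rfl⟩ := hζ c
    rw [← hm_pow, map_pow, map_pow]; exact hD.pow_right n
  have h3 : ∀ x : F, g * μ (tvl h (x ^ 2)) * g⁻¹ = μ (tvl h (u * x ^ 2)) := by
    intro x
    by_cases hx : x = 0
    · subst hx
      rw [zero_pow two_ne_zero, mul_zero, tvl_zero, map_one]; group
    · have e1 := D_tv (μ := μ) h (Units.mk0 x hx) 1
      have e2 := D_tv (μ := μ) h (Units.mk0 x hx) u
      rw [mul_one, Units.val_mk0] at e1
      rw [Units.val_mk0] at e2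
      have e3 := (h2 (Units.mk0 x hx)).eq
      rw [← e1, mul_comm u, ← e2, ← h1]
      set D := μ (emb2 h (hm (Units.mk0 x hx)))
      calc g * (D * μ (tvl h 1) * D⁻¹) * g⁻¹ = (g * D) * μ (tvl h 1) * (g * D)⁻¹ := by group
        _ = _ := by rw [e3]; group
  obtain ⟨x, y, rfl⟩ := sqs' a
  rw [sub_eq_add_neg, tvl_add, tvl_neg, map_mul, map_inv, mul_add, mul_neg, tvl_add, tvl_neg, map_mul, map_inv, ← h3, ← h3]; group

theorem tm_word : (tm : Matrix.SpecialLinearGroup (Fin 2) F) = xm 1 * ym (-1) * xm 1 := by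
  apply slext
  rw [Matrix.SpecialLinearGroup.coe_mul, Matrix.SpecialLinearGroup.coe_mul, tm_coe, xm_coe, ym_coe, Matrix.mul_fin_two, Matrix.mul_fin_two]
  simp

theorem hm_tm_word (c : Fˣ) : (hm c * tm : Matrix.SpecialLinearGroup (Fin 2) F) = xm (c : F) * ym (-((c⁻¹ : Fˣ) : F)) * xm (c : F) := by
  apply slext
  rw [Matrix.SpecialLinearGroup.coe_mul, Matrix.SpecialLinearGroup.coe_mul, Matrix.SpecialLinearGroup.coe_mul, tm_coe, xm_coe, ym_coe, hm_coe,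
    Matrix.mul_fin_two, Matrix.mul_fin_two, Matrix.mul_fin_two]
  simp

theorem tm_hm (c : Fˣ) : (tm * hm c * tm⁻¹ : Matrix.SpecialLinearGroup (Fin 2) F) = hm c⁻¹ := by
  rw [mul_inv_eq_iff_eq_mul]
  apply slext
  rw [Matrix.SpecialLinearGroup.coe_mul, Matrix.SpecialLinearGroup.coe_mul, tm_coe, hm_coe, hm_coe, Matrix.mul_fin_two, Matrix.mul_fin_two]
  simp

end gen

section two
variable {F : Type v} [Field F] {Γ : Type*} [Group Γ]

/-- the relations in rank two -/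
structure B2 (τ : F →+* F) (ν : F) (μ : Matrix.SpecialLinearGroup (Fin 2) F →* Γ) (s : Γ) (h : (0 : Fin 2) ≠ 1) (ζ : Fˣ) (k : Γ) : Prop where
  hk : s * μ (emb2 h (hm ζ)) * s⁻¹ = k * μ (emb2 h (hm ζ))
  e1 : Commute s (SF μ s 0 1)
  e2 : (s * SF μ s 0 1) * μ (tvl h 1) * (s * SF μ s 0 1)⁻¹ = μ (tvl h.symm (-1))
  e4 : (s * s) * μ (tvl h 1) * (s * s)⁻¹ = μ (tvl h (-1))
  e6 : Commute k (μ (emb2 h (hm ζ)))
  e7 : k * μ (tvl h 1) * k⁻¹ = μ (tvl h ((nn τ ζ)⁻¹ : Fˣ))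
  e8 : Commute (SF μ s 0 1) k
  e9 : k * μ (tvl h.symm 1) * k⁻¹ = μ (tvl h.symm (nn τ ζ : Fˣ))
  st1 : Commute (SF μ s 0 1 * μ (tvl h (ν * 1)) * (SF μ s 0 1)⁻¹) (μ (tvl h 1))
  st2 : Commute (SF μ s 0 1 * μ (tvl h (ν * ζ)) * (SF μ s 0 1)⁻¹) (μ (tvl h (ζ : F)))

variable {τ : F →+* F} {ν : F} {μ : Matrix.SpecialLinearGroup (Fin 2) F →* Γ} {s : Γ} {h : (0 : Fin 2) ≠ 1} {ζ : Fˣ}

theorem Mo_eq_one {M : Matrix.SpecialLinearGroup (Fin 2) F} (hM : Mo M 0 0 1) : M = 1 := by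
  have hd := M.2
  have a1 := hM.1 0
  have a2 := hM.1 1
  have a3 := hM.2 1
  rw [if_pos rfl, Units.val_one] at a1
  rw [if_neg (by decide)] at a2 a3
  apply slext
  rw [Matrix.det_fin_two] at hd
  change (M : Matrix (Fin 2) (Fin 2) F) 0 0 * (M : Matrix (Fin 2) (Fin 2) F) 1 1 -
    (M : Matrix (Fin 2) (Fin 2) F) 0 1 * (M : Matrix (Fin 2) (Fin 2) F) 1 0 = 1 at hd
  rw [a1, a2, a3, one_mul, mul_zero, sub_zero] at hd
  ext i j
  rw [Matrix.SpecialLinearGroup.coe_one]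
  fin_cases i <;> fin_cases j
  · exact a1
  · exact a3
  · exact a2
  · exact hd

theorem two_fin (i : Fin 2) : ∃ j, j ≠ i := by
  fin_cases i
  · exact ⟨1, by decide⟩
  · exact ⟨0, by decide⟩

theorem b0_two : B0 μ s 0 where
  two := two_fin
  hs M hM := by rw [Mo_eq_one hM, map_one]; exact Commute.one_right _

theorem Mo_etm : Mo (emb2 h (tm⁻¹) : Matrix.SpecialLinearGroup (Fin 2) F) 0 1 1 := by
  have := ((Mo_tm (F := F)).inv).emb ![0, 1] (inj2 h)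
  rw [inv_one] at this
  exact this

theorem Mo_etm' : Mo (emb2 h tm : Matrix.SpecialLinearGroup (Fin 2) F) 1 0 1 := (Mo_tm (F := F)).emb ![0, 1] (inj2 h)

theorem SF1 : SF μ s 0 1 = (μ (emb2 h tm))⁻¹ * s * μ (emb2 h tm) := by
  rw [SF_eq b0_two (Mo_etm (h := h)), map_inv, map_inv, inv_inv]

namespace B2
variable {k : Γ} (B : B2 τ ν μ s h ζ k)

/-- the torus element -/
local notation "DD" => μ (emb2 h (hm ζ))
local notation "tt" => μ (emb2 h tm)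

include B

theorem kx [Finite F] (hζ : IsGen ζ) (a : F) : k * μ (tvl h a) * (k)⁻¹ = μ (tvl h (((nn τ ζ)⁻¹ : Fˣ) * a)) :=
  scale_all hζ h B.e6 B.e7 a

theorem ky [Finite F] (hζ : IsGen ζ) (a : F) : k * μ (tvl h.symm a) * (k)⁻¹ = μ (tvl h.symm ((nn τ ζ : Fˣ) * a)) := by
  refine scale_all hζ h.symm ?_ B.e9 a
  rw [emb2_symm_hm h, ← hm_inv, map_inv, map_inv]
  exact B.e6.inv_right

theorem kt [Finite F] (hζ : IsGen ζ) : tt * k * (tt)⁻¹ = μ (emb2 h (hm (nn τ ζ))) * k := by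
  have h1 : k * tt * (k)⁻¹ = μ (emb2 h (hm (nn τ ζ)⁻¹)) * tt := by
    rw [← map_mul μ, ← map_mul (emb2 h), hm_tm_word, tm_word, map_mul, map_mul, map_mul, map_mul, map_mul, map_mul, map_mul, map_mul,
      emb2_xm, emb2_xm, emb2_ym, emb2_ym, inv_inv]
    have e1 := B.kx hζ 1
    have e2 := B.ky hζ (-1)
    rw [mul_one] at e1
    rw [mul_neg_one] at e2
    rw [← e1, ← e2]; group
  rw [← hm_inv, map_inv, map_inv] at h1
  rw [mul_inv_eq_iff_eq_mul, mul_assoc]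
  have h2 : k * tt = (μ (emb2 h (hm (nn τ ζ))))⁻¹ * tt * k := by rw [← h1]; group
  rw [h2]; group

theorem tk [Finite F] (hζ : IsGen ζ) : (tt)⁻¹ * k * tt = μ (emb2 h (hm (nn τ ζ))) * k := by
  have h1 := B.kt hζ
  have h2 : tt * (tt * k * (tt)⁻¹) * (tt)⁻¹ = k := by
    have e1 : tt * tt = μ (emb2 h (hm (-1))) := by rw [← map_mul μ, ← map_mul (emb2 h), tm_sq]
    have e2 : Commute (k) (μ (emb2 h (hm (-1)))) := by
      obtain ⟨n, hn⟩ := hζ (-1)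
      rw [← hn, ← hm_pow, map_pow, map_pow]
      exact B.e6.pow_right n
    calc tt * (tt * k * (tt)⁻¹) * (tt)⁻¹ = (tt * tt) * k * (tt * tt)⁻¹ := by group
      _ = _ := by rw [e1, ← e2.eq]; group
  rw [← h1]
  calc (tt)⁻¹ * k * tt = (tt)⁻¹ * (tt * (tt * k * (tt)⁻¹) * (tt)⁻¹) * tt := by rw [h2]
    _ = _ := by group

theorem sD : s * DD * s⁻¹ = k * DD := B.hk

theorem sDn (n : ℕ) : s * DD ^ n * s⁻¹ = k ^ n * DD ^ n := by
  rw [← conj_pow, B.sD, B.e6.mul_pow]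

variable {q : ℕ} (hq : ∀ a : F, τ a = a ^ q)

theorem hη (hq : ∀ a : F, τ a = a ^ q) : nn τ ζ = ζ ^ (q + 1) := by
  apply Units.ext
  rw [nn_coe, hq, Units.val_pow_eq_pow_val, pow_succ]; ring

theorem sk [Finite F] (hζ : IsGen ζ) (hq : ∀ a : F, τ a = a ^ q) : s * k * s⁻¹ = (k ^ q)⁻¹ := by
  have h1 : Commute s (μ (emb2 h (hm (nn τ ζ))) * k) := by
    have h2 := (Commute.conj_iff tt).2 B.e8
    rw [B.kt hζ, SF1 (h := h)] at h2
    have e : tt * ((tt)⁻¹ * s * tt) * (tt)⁻¹ = s := by group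
    rwa [e] at h2
  have e1 : μ (emb2 h (hm (nn τ ζ))) = DD ^ (q + 1) := by
    rw [hη B hq, ← hm_pow, map_pow, map_pow]
  rw [e1] at h1
  have h2 := B.sDn (q + 1)
  have h3 : s * (DD ^ (q + 1) * k) * s⁻¹ = DD ^ (q + 1) * k := by rw [h1.eq]; group
  have h4 : (s * DD ^ (q + 1) * s⁻¹) * (s * k * s⁻¹) = DD ^ (q + 1) * k := by rw [← h3]; group
  rw [h2] at h4
  have h5 : s * k * s⁻¹ = (k ^ (q + 1) * DD ^ (q + 1))⁻¹ * (DD ^ (q + 1) * k) := by rw [← h4]; group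
  rw [h5]
  have h6 : Commute (k ^ (q + 1)) (DD ^ (q + 1)) := (B.e6.pow_left _).pow_right _
  rw [h6.eq, mul_inv_rev, pow_succ (k) q]
  have h7 : Commute (k) (k ^ q) := (Commute.refl _).pow_right q
  rw [← h7.eq]
  group

theorem s1D [Finite F] (hζ : IsGen ζ) (hq : ∀ a : F, τ a = a ^ q) : SF μ s 0 1 * DD * (SF μ s 0 1)⁻¹ = (k)⁻¹ * (DD ^ q)⁻¹ := by
  have e1 : μ (emb2 h (hm (nn τ ζ))) = DD ^ (q + 1) := by
    rw [hη B hq, ← hm_pow, map_pow, map_pow]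
  have h1 : tt * DD * (tt)⁻¹ = (DD)⁻¹ := by
    rw [← map_inv, ← map_inv, ← map_inv, ← map_inv, ← map_mul, ← map_mul, ← map_mul, ← map_mul, tm_hm, hm_inv]
  have h1' : (tt)⁻¹ * (DD)⁻¹ * tt = DD := by rw [← h1]; group
  have h1'' : (tt)⁻¹ * DD * tt = (DD)⁻¹ := by
    have h0 : ((tt)⁻¹ * (DD)⁻¹ * tt)⁻¹ = (DD)⁻¹ := by rw [h1']
    rw [← h0]; group
  have h2 := B.tk hζ
  rw [e1] at h2
  rw [SF1 (h := h)]
  calc (tt)⁻¹ * s * tt * DD * ((tt)⁻¹ * s * tt)⁻¹ = (tt)⁻¹ * (s * (tt * DD * (tt)⁻¹) * s⁻¹) * tt := by group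
    _ = ((tt)⁻¹ * (s * DD * s⁻¹) * tt)⁻¹ := by rw [h1]; group
    _ = (((tt)⁻¹ * k * tt) * ((tt)⁻¹ * DD * tt))⁻¹ := by rw [B.sD]; group
    _ = (DD ^ (q + 1) * k * (DD)⁻¹)⁻¹ := by rw [h2, h1'']
    _ = _ := by
      have c1 := (B.e6.inv_left).eq
      have c2 : ((DD ^ (q + 1) * k * (DD)⁻¹)⁻¹ : Γ) = (DD * k⁻¹) * (DD ^ (q + 1))⁻¹ := by group
      rw [c2, ← c1, pow_succ']; group

theorem rD [Finite F] (hζ : IsGen ζ) (hq : ∀ a : F, τ a = a ^ q) : (s * SF μ s 0 1) * DD * (s * SF μ s 0 1)⁻¹ = (DD ^ q)⁻¹ := by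
  have h1 := B.s1D hζ hq
  have h2 := B.sk hζ hq
  have h3 := B.sDn q
  calc (s * SF μ s 0 1) * DD * (s * SF μ s 0 1)⁻¹ = s * (SF μ s 0 1 * DD * (SF μ s 0 1)⁻¹) * s⁻¹ := by group
    _ = (s * k * s⁻¹)⁻¹ * (s * DD ^ q * s⁻¹)⁻¹ := by rw [h1]; group
    _ = (DD ^ q)⁻¹ := by
      rw [h2, h3, inv_inv, ((B.e6.pow_left q).pow_right q).eq]; group

/-- the relations of rank at least three also hold -/
theorem br [Finite F] (hζ : IsGen ζ) (hq : ∀ a : F, τ a = a ^ q) : BR τ ν μ s h ζ where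
  toB0 := b0_two
  r1 := B.e1
  r2 := B.e2
  r3 := by
    rw [B.rD hζ hq, ← hm_inv, map_inv, map_inv, ← map_pow, ← map_pow, hm_pow]
    congr 4
    apply Units.ext
    rw [Units.val_pow_eq_pow_val, ← hq]; rfl
  r4 := B.e4
  r5 := by have := B.st1; rwa [mul_one] at this

theorem ssD : (s * s) * DD * (s * s)⁻¹ = (s * k * s⁻¹) * k * DD := by
  have h1 := B.sD
  calc (s * s) * DD * (s * s)⁻¹ = s * (s * DD * s⁻¹) * s⁻¹ := by group
    _ = s * (k * DD) * s⁻¹ := by rw [h1]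
    _ = (s * k * s⁻¹) * (s * DD * s⁻¹) := by group
    _ = (s * k * s⁻¹) * (k * DD) := by rw [h1]
    _ = _ := by group

/-- the square of the flip -/
theorem ssx [Finite F] (T : Tau τ) (hζ : IsGen ζ) (hq : ∀ a : F, τ a = a ^ q) (a : F) : (s * s) * μ (tvl h a) * (s * s)⁻¹ = μ (tvl h (-a)) := by
  have h0 := B.ssD
  rw [B.sk hζ hq] at h0
  set c := (k ^ q)⁻¹ * k with hc
  -- `c` commutes with everything
  have hkn : ∀ (n : ℕ) (a : F), k ^ n * μ (tvl h a) * (k ^ n)⁻¹ = μ (tvl h ((((nn τ ζ)⁻¹ ^ n : Fˣ) : F) * a)) := by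
    intro n
    induction n with
    | zero => intro a; simp
    | succ n ih =>
      intro a
      rw [pow_succ']
      calc k * k ^ n * μ (tvl h a) * (k * k ^ n)⁻¹ = k * (k ^ n * μ (tvl h a) * (k ^ n)⁻¹) * (k)⁻¹ := by group
        _ = _ := by
          rw [ih, B.kx hζ, pow_succ', Units.val_mul, mul_assoc]
  have hη1 : (nn τ ζ) ^ q = nn τ ζ := by
    apply Units.ext
    rw [Units.val_pow_eq_pow_val, ← hq, nn_coe, map_mul, T.ττ, mul_comm]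
  have cx : ∀ a : F, c * μ (tvl h a) * c⁻¹ = μ (tvl h a) := by
    intro a
    have e1 := hkn q (((nn τ ζ : Fˣ) : F) * (((nn τ ζ)⁻¹ : Fˣ) * a))
    have e2 := B.kx hζ a
    rw [inv_pow, hη1] at e1
    have e3 : (((nn τ ζ)⁻¹ : Fˣ) : F) * (((nn τ ζ : Fˣ) : F) * (((nn τ ζ)⁻¹ : Fˣ) * a)) = (((nn τ ζ)⁻¹ : Fˣ) : F) * a := by
      rw [← mul_assoc, ← Units.val_mul, inv_mul_cancel, Units.val_one, one_mul]
    have e4 : (((nn τ ζ : Fˣ) : F) * (((nn τ ζ)⁻¹ : Fˣ) * a)) = a := by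
      rw [← mul_assoc, ← Units.val_mul, mul_inv_cancel, Units.val_one, one_mul]
    rw [e4, e3.symm.trans (by rw [e4])] at e1
    calc c * μ (tvl h a) * c⁻¹ = (k ^ q)⁻¹ * (k * μ (tvl h a) * (k)⁻¹) * k ^ q := by rw [hc]; group
      _ = (k ^ q)⁻¹ * (k ^ q * μ (tvl h a) * (k ^ q)⁻¹) * k ^ q := by rw [e2, e1]
      _ = _ := by group
  have cD : Commute c (DD) := by
    rw [hc]; exact ((B.e6.pow_left q).inv_left).mul_left B.e6
  -- squares
  have h1 : ∀ x : Fˣ, (s * s) * μ (tvl h ((x : F) ^ 2)) * (s * s)⁻¹ = μ (tvl h (-((x : F) ^ 2))) := by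
    intro x
    obtain ⟨n, rfl⟩ := hζ x
    have e1 := D_tv (μ := μ) h (ζ ^ n) 1
    have e2 := D_tv (μ := μ) h (ζ ^ n) (-1)
    rw [← hm_pow, map_pow, map_pow] at e1 e2
    rw [mul_one] at e1
    rw [mul_neg_one] at e2
    have e3 : (s * s) * DD ^ n * (s * s)⁻¹ = c ^ n * DD ^ n := by
      rw [← conj_pow, h0, cD.mul_pow]
    have e4 : c ^ n * μ (tvl h (-(((ζ ^ n : Fˣ) : F) ^ 2))) * (c ^ n)⁻¹ = μ (tvl h (-(((ζ ^ n : Fˣ) : F) ^ 2))) := by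
      have : Commute c (μ (tvl h (-(((ζ ^ n : Fˣ) : F) ^ 2)))) := mul_inv_eq_iff_eq_mul.1 (cx _)
      rw [(this.pow_left n).eq]; group
    rw [← e1, ← e4, ← e2]
    calc (s * s) * (DD ^ n * μ (tvl h 1) * (DD ^ n)⁻¹) * (s * s)⁻¹ =
        ((s * s) * DD ^ n * (s * s)⁻¹) * ((s * s) * μ (tvl h 1) * (s * s)⁻¹) * ((s * s) * DD ^ n * (s * s)⁻¹)⁻¹ := by group
      _ = _ := by rw [e3, B.e4]; group
  have h3 : ∀ x : F, (s * s) * μ (tvl h (x ^ 2)) * (s * s)⁻¹ = μ (tvl h (-(x ^ 2))) := by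
    intro x
    by_cases hx : x = 0
    · subst hx
      rw [zero_pow two_ne_zero, neg_zero, tvl_zero, map_one]; group
    · exact h1 (Units.mk0 x hx)
  obtain ⟨x, y, rfl⟩ := sqs' a
  have e : -(x ^ 2 - y ^ 2) = -(x ^ 2) + -(-(y ^ 2)) := by ring
  rw [e, sub_eq_add_neg, tvl_add, tvl_neg, map_mul, map_inv, tvl_add, tvl_neg h (-(y ^ 2)), map_mul, map_inv, ← h3, ← h3]; group

theorem ssy [Finite F] (T : Tau τ) (hζ : IsGen ζ) (hq : ∀ a : F, τ a = a ^ q) (a : F) :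
    (s * s) * μ (tvl h.symm a) * (s * s)⁻¹ = μ (tvl h.symm (-a)) := by
  have h1 := (B.br hζ hq).rall T hζ (-τ a)
  have h2 := (B.br hζ hq).rall T hζ (τ a)
  rw [map_neg, neg_neg, T.ττ] at h1
  rw [T.ττ] at h2
  have c1 : Commute (s * s) (s * SF μ s 0 1) := by
    exact ((Commute.refl s).mul_left (Commute.refl s)).mul_right (B.e1.mul_left B.e1)
  rw [← h1, ← h2]
  have h3 := B.ssx T hζ hq (-τ a)
  rw [neg_neg] at h3
  rw [← h3]
  set r := s * SF μ s 0 1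
  calc (s * s) * (r * μ (tvl h (-τ a)) * r⁻¹) * (s * s)⁻¹ = ((s * s) * r) * μ (tvl h (-τ a)) * ((s * s) * r)⁻¹ := by group
    _ = _ := by rw [c1.eq]; group

theorem ssc [Finite F] (T : Tau τ) (hζ : IsGen ζ) (hq : ∀ a : F, τ a = a ^ q) : Commute (s * s) (DD) := by
  have : (MulAut.conj (s * s)).toMonoidHom.comp (μ.comp (emb2 h)) = (μ.comp (emb2 h)).comp sgn := by
    apply hom2_ext
    · intro a
      change (s * s) * μ (emb2 h (xm a)) * (s * s)⁻¹ = μ (emb2 h (sgn (xm a)))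
      rw [sgn_xm, emb2_xm, emb2_xm, B.ssx T hζ hq]
    · intro a
      change (s * s) * μ (emb2 h (ym a)) * (s * s)⁻¹ = μ (emb2 h (sgn (ym a)))
      rw [sgn_ym, emb2_ym, emb2_ym, B.ssy T hζ hq]
  have h2 := DFunLike.congr_fun this (hm ζ)
  change (s * s) * μ (emb2 h (hm ζ)) * (s * s)⁻¹ = μ (emb2 h (sgn (hm ζ))) at h2
  rw [sgn_hm] at h2
  exact mul_inv_eq_iff_eq_mul.1 h2

theorem kq [Finite F] (T : Tau τ) (hζ : IsGen ζ) (hq : ∀ a : F, τ a = a ^ q) : k ^ q = k := by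
  have h1 := B.ssD
  rw [B.sk hζ hq] at h1
  have h2 := (B.ssc T hζ hq).eq
  have h3 : (s * s) * DD * (s * s)⁻¹ = DD := by rw [h2]; group
  rw [h3] at h1
  have h4 : (k ^ q)⁻¹ * k = 1 := by
    have := mul_eq_right.1 h1.symm
    exact this
  exact inv_mul_eq_one.1 h4

theorem hhn [Finite F] (n : ℕ) : HH μ (SF μ s 0) h (ζ ^ n) = k ^ n := by
  unfold HH
  rw [← hm_pow, map_pow, map_pow, SF_o b0_two, B.sDn]; group

end B2

end two

end Cfsg.Agent.GK.Un
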