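import Cfsg.Agent.GK.Un13

/-!
The relations in rank two: all relations between flips and the special linear group.
-/

set_option autoImplicit false
set_option linter.unusedSectionVars false
set_option linter.unusedVariables false
set_option linter.unusedSimpArgs false

namespace Cfsg.Agent.GK.Un

open Subgroup Cfsg.Agent.Stb
open scoped commutatorElement
open Om (Mo_emb2_fst Mo_emb2_snd Mo_emb2_out)

attribute [local instance] Stb.sumNeg

universe v

section two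
variable {F : Type v} [Field F] [Fintype F] {Γ : Type*} [Group Γ]
variable {τ : F →+* F} {ν : F} {μ : Matrix.SpecialLinearGroup (Fin 2) F →* Γ} {s : Γ} {h : (0 : Fin 2) ≠ 1} {ζ : Fˣ}

theorem cj2 (t a b x : Γ) : t⁻¹ * ((a * b) * x * (a * b)⁻¹) * t =
    ((t⁻¹ * a * t) * (t⁻¹ * b * t)) * (t⁻¹ * x * t) * ((t⁻¹ * a * t) * (t⁻¹ * b * t))⁻¹ := by group

theorem cj1 (t a x : Γ) : t⁻¹ * (a * x * a⁻¹) * t = (t⁻¹ * a * t) * (t⁻¹ * x * t) * (t⁻¹ * a * t)⁻¹ := by group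

namespace B2
variable {k : Γ} (B : B2 τ ν μ s h ζ k) {q : ℕ}

/-- the torus element -/
local notation "DD" => μ (emb2 h (hm ζ))
local notation "tt" => μ (emb2 h tm)

include B

theorem hh1 (T : Tau τ) (hζ : IsGen ζ) (hq : ∀ a : F, τ a = a ^ q) (hF : Fintype.card F = q ^ 2) {c : Fˣ} (hc : nn τ c = 1) :
    HH μ (SF μ s 0) h c = 1 := by
  obtain ⟨n, rfl⟩ := hζ c
  rw [B.hhn]
  have hq2 : 2 ≤ q := by
    by_contra hcon
    have h1 : q ^ 2 ≤ 1 := by
      have : q ≤ 1 := by omega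
      calc q ^ 2 ≤ 1 ^ 2 := Nat.pow_le_pow_left this 2
        _ = 1 := one_pow 2
    have h2 := Fintype.one_lt_card (α := F)
    omega
  have h1 : (ζ ^ n) ^ (q + 1) = 1 := by
    apply Units.ext
    have := congrArg Units.val hc
    rw [nn_coe, hq] at this
    rw [Units.val_pow_eq_pow_val, pow_succ, mul_comm]; exact this
  rw [← pow_mul] at h1
  have h2 : orderOf ζ ∣ n * (q + 1) := orderOf_dvd_of_pow_eq_one h1
  rw [hζ.orderOf, hF] at h2
  have h3 : q ^ 2 - 1 = (q - 1) * (q + 1) := by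
    obtain ⟨m, rfl⟩ := Nat.exists_eq_add_of_le hq2
    have : (2 + m - 1) * (2 + m + 1) + 1 = (2 + m) ^ 2 := by
      rw [show 2 + m - 1 = m + 1 by omega]; ring
    omega
  rw [h3] at h2
  obtain ⟨d, hd⟩ := Nat.dvd_of_mul_dvd_mul_right (by omega) h2
  have h4 : k ^ (q - 1) = 1 := by
    have h5 := B.kq T hζ hq
    have h6 : q = (q - 1) + 1 := by omega
    rw [h6, pow_succ] at h5
    exact mul_eq_right.1 h5
  rw [hd, pow_mul, h4, one_pow]

theorem sneg (T : Tau τ) (hζ : IsGen ζ) (hq : ∀ a : F, τ a = a ^ q) (hF : Fintype.card F = q ^ 2) :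
    Commute s (μ (emb2 h (hm (-1)))) := by
  have h1 := B.hh1 T hζ hq hF (c := -1) (by
    apply Units.ext
    rw [nn_coe, Units.val_neg, Units.val_one, map_neg, map_one]; ring)
  unfold HH at h1
  rw [SF_o b0_two] at h1
  exact mul_inv_eq_iff_eq_mul.1 (mul_inv_eq_one.1 h1)

/-- conjugation by the Weyl element -/
theorem w_s : (tt)⁻¹ * s * tt = SF μ s 0 1 := SF1.symm

theorem w_s' (T : Tau τ) (hζ : IsGen ζ) (hq : ∀ a : F, τ a = a ^ q) (hF : Fintype.card F = q ^ 2) :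
    (tt)⁻¹ * SF μ s 0 1 * tt = s := by
  have e1 : tt * tt = μ (emb2 h (hm (-1))) := by rw [← map_mul μ, ← map_mul (emb2 h), tm_sq]
  have h1 := (B.sneg T hζ hq hF).eq
  rw [← e1] at h1
  rw [SF1 (h := h)]
  calc (tt)⁻¹ * ((tt)⁻¹ * s * tt) * tt = (tt * tt)⁻¹ * (s * (tt * tt)) := by group
    _ = _ := by rw [h1]; group

theorem w_x (a : F) : (tt)⁻¹ * μ (tvl h a) * tt = μ (tvl h.symm (-a)) := by
  have h1 := tm_ym_xm (F := F) (-a)
  have h2 : (tm⁻¹ * xm a * tm : Matrix.SpecialLinearGroup (Fin 2) F) = ym (-a) := by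
    rw [neg_neg] at h1
    rw [← h1]; group
  rw [← emb2_xm, ← map_inv, ← map_inv, ← map_mul, ← map_mul, ← map_mul, ← map_mul, h2, emb2_ym]

theorem w_y (a : F) : (tt)⁻¹ * μ (tvl h.symm a) * tt = μ (tvl h (-a)) := by
  have h1 := tm_xm_ym (F := F) (-a)
  have h2 : (tm⁻¹ * ym a * tm : Matrix.SpecialLinearGroup (Fin 2) F) = xm (-a) := by
    rw [neg_neg] at h1
    rw [← h1]; group
  rw [← emb2_ym h, ← map_inv, ← map_inv, ← map_mul, ← map_mul, ← map_mul, ← map_mul, h2, emb2_xm]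

theorem w_h (c : Fˣ) : (tt)⁻¹ * μ (emb2 h (hm c)) * tt = μ (emb2 h (hm c⁻¹)) := by
  have h1 := tm_hm (F := F) c⁻¹
  have h2 : (tm⁻¹ * hm c * tm : Matrix.SpecialLinearGroup (Fin 2) F) = hm c⁻¹ := by
    rw [inv_inv] at h1
    rw [← h1]; group
  rw [← map_inv, ← map_inv, ← map_mul, ← map_mul, ← map_mul, ← map_mul, h2]

theorem w_HH (T : Tau τ) (hζ : IsGen ζ) (hq : ∀ a : F, τ a = a ^ q) (hF : Fintype.card F = q ^ 2) (c : Fˣ) :
    (tt)⁻¹ * HH μ (SF μ s 0) h c * tt = HH μ (SF μ s 0) h.symm c := by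
  unfold HH
  rw [emb2_symm_hm h, SF_o b0_two, ← B.w_h, ← B.w_s]; group

theorem ua (T : Tau τ) (hν : τ ν = -ν) (ν0 : ν ≠ 0) (hζ : IsGen ζ) (hq : ∀ a : F, τ a = a ^ q) (hF : Fintype.card F = q ^ 2) :
    UA τ ν μ (SF μ s 0) where
  T := T
  hν := hν
  ν0 := ν0
  two := two_fin
  SS i j := by
    fin_cases i <;> fin_cases j
    · exact Commute.refl _
    · change Commute (SF μ s 0 0) (SF μ s 0 1); rw [SF_o b0_two]; exact B.e1
    · change Commute (SF μ s 0 1) (SF μ s 0 0); rw [SF_o b0_two]; exact B.e1.symm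
    · exact Commute.refl _
  SX {k i j} hij h1 h2 a := by
    exfalso; revert k i j; decide
  r {i j} hij a := by
    have h1 := (B.br hζ hq).rall T hζ a
    have key : (SF μ s 0 1 * SF μ s 0 0) * μ (tvl h.symm a) * (SF μ s 0 1 * SF μ s 0 0)⁻¹ = μ (tvl h (-τ a)) := by
      have h2 := (B.br hζ hq).rall T hζ (-a)
      have h3 := cj2 (tt) s (SF μ s 0 1) (μ (tvl h (-a)))
      rw [h2, B.w_y, B.w_s, B.w_s' T hζ hq hF, B.w_x, neg_neg, map_neg, neg_neg] at h3
      rw [SF_o b0_two]; exact h3.symm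
    fin_cases i <;> fin_cases j
    · exact absurd rfl hij
    · change (SF μ s 0 0 * SF μ s 0 1) * _ * (SF μ s 0 0 * SF μ s 0 1)⁻¹ = _; rw [SF_o b0_two]; exact h1
    · exact key
    · exact absurd rfl hij
  sq {i j} hij a := by
    fin_cases i <;> fin_cases j
    · exact absurd rfl hij
    · change (SF μ s 0 0 * SF μ s 0 0) * _ * (SF μ s 0 0 * SF μ s 0 0)⁻¹ = _; rw [SF_o b0_two]; exact B.ssx T hζ hq a
    · change (SF μ s 0 1 * SF μ s 0 1) * μ (tvl h.symm a) * (SF μ s 0 1 * SF μ s 0 1)⁻¹ = μ (tvl h.symm (-a))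
      have h2 := B.ssx T hζ hq (-a)
      have h3 := cj2 (tt) s s (μ (tvl h (-a)))
      rw [h2, neg_neg, B.w_x, B.w_s, B.w_x, neg_neg] at h3
      exact h3.symm
    · exact absurd rfl hij

theorem kn (hζ : IsGen ζ) (n : ℕ) : (∀ a : F, k ^ n * μ (tvl h a) * (k ^ n)⁻¹ = μ (tvl h ((((nn τ ζ)⁻¹ ^ n : Fˣ) : F) * a))) ∧
    ∀ a : F, k ^ n * μ (tvl h.symm a) * (k ^ n)⁻¹ = μ (tvl h.symm ((((nn τ ζ) ^ n : Fˣ) : F) * a)) := by
  induction n with
  | zero => exact ⟨fun a => by simp, fun a => by simp⟩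
  | succ n ih =>
    constructor
    · intro a
      rw [pow_succ']
      calc k * k ^ n * μ (tvl h a) * (k * k ^ n)⁻¹ = k * (k ^ n * μ (tvl h a) * (k ^ n)⁻¹) * (k)⁻¹ := by group
        _ = _ := by rw [ih.1, B.kx hζ, pow_succ', Units.val_mul, mul_assoc]
    · intro a
      rw [pow_succ']
      calc k * k ^ n * μ (tvl h.symm a) * (k * k ^ n)⁻¹ = k * (k ^ n * μ (tvl h.symm a) * (k ^ n)⁻¹) * (k)⁻¹ := by group
        _ = _ := by rw [ih.2, B.ky hζ, pow_succ', Units.val_mul, mul_assoc]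

theorem nnp (n : ℕ) : nn τ (ζ ^ n) = (nn τ ζ) ^ n := by
  induction n with
  | zero => rw [pow_zero, pow_zero]; apply Units.ext; rw [nn_coe, Units.val_one, map_one, mul_one]
  | succ n ih => rw [pow_succ, nn_mul, ih, pow_succ]

theorem uh (T : Tau τ) (hν : τ ν = -ν) (ν0 : ν ≠ 0) (hζ : IsGen ζ) (hq : ∀ a : F, τ a = a ^ q) (hF : Fintype.card F = q ^ 2) :
    UH τ ν μ (SF μ s 0) where
  toUA := B.ua T hν ν0 hζ hq hF
  hD {i j} hij c c' := by
    have h1 : Commute (HH μ (SF μ s 0) h c) (μ (emb2 h (hm c'))) := by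
      obtain ⟨n, rfl⟩ := hζ c
      obtain ⟨m, rfl⟩ := hζ c'
      rw [B.hhn, ← hm_pow, map_pow, map_pow]
      exact (B.e6.pow_left n).pow_right m
    fin_cases i <;> fin_cases j
    · exact absurd rfl hij
    · exact h1
    · change Commute (HH μ (SF μ s 0) h.symm c) (μ (emb2 h.symm (hm c')))
      have h2 := (Commute.conj_iff (tt)⁻¹).2 h1
      rw [inv_inv, B.w_HH T hζ hq hF, B.w_h] at h2
      rwa [emb2_symm_hm h]
    · exact absurd rfl hij
  hS {i j} hij c := by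
    have h1 : Commute (SF μ s 0 1) (HH μ (SF μ s 0) h c) := by
      obtain ⟨n, rfl⟩ := hζ c
      rw [B.hhn]; exact B.e8.pow_right n
    fin_cases i <;> fin_cases j
    · exact absurd rfl hij
    · exact h1
    · change Commute (SF μ s 0 0) (HH μ (SF μ s 0) h.symm c)
      have h2 := (Commute.conj_iff (tt)⁻¹).2 h1
      rw [inv_inv, B.w_HH T hζ hq hF, B.w_s' T hζ hq hF] at h2
      rwa [SF_o b0_two]
    · exact absurd rfl hij
  hi {i j m} hij him c := by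
    have : j = m := by
      revert hij him; revert i j m; decide
    subst this; rfl
  hX {i j} hij c a := by
    have h1 : ∀ a, HH μ (SF μ s 0) h c * μ (tvl h a) * (HH μ (SF μ s 0) h c)⁻¹ = μ (tvl h (((nn τ c)⁻¹ : Fˣ) * a)) := by
      obtain ⟨n, rfl⟩ := hζ c
      intro a
      rw [B.hhn, (B.kn hζ n).1, B.nnp, inv_pow]
    fin_cases i <;> fin_cases j
    · exact absurd rfl hij
    · exact h1 a
    · change HH μ (SF μ s 0) h.symm c * μ (tvl h.symm a) * (HH μ (SF μ s 0) h.symm c)⁻¹ = μ (tvl h.symm (((nn τ c)⁻¹ : Fˣ) * a))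
      have h3 := cj1 (tt) (HH μ (SF μ s 0) h c) (μ (tvl h (-a)))
      rw [h1, B.w_x, mul_neg, neg_neg, B.w_x, neg_neg, B.w_HH T hζ hq hF] at h3
      exact h3.symm
    · exact absurd rfl hij
  hX' {i j} hij c a := by
    have h1 : ∀ a, HH μ (SF μ s 0) h c * μ (tvl h.symm a) * (HH μ (SF μ s 0) h c)⁻¹ = μ (tvl h.symm ((nn τ c : Fˣ) * a)) := by
      obtain ⟨n, rfl⟩ := hζ c
      intro a
      rw [B.hhn, (B.kn hζ n).2, B.nnp]
    fin_cases i <;> fin_cases j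
    · exact absurd rfl hij
    · exact h1 a
    · change HH μ (SF μ s 0) h.symm c * μ (tvl h a) * (HH μ (SF μ s 0) h.symm c)⁻¹ = μ (tvl h ((nn τ c : Fˣ) * a))
      have h3 := cj1 (tt) (HH μ (SF μ s 0) h c) (μ (tvl h.symm (-a)))
      rw [h1, B.w_y, mul_neg, neg_neg, B.w_y, neg_neg, B.w_HH T hζ hq hF] at h3
      exact h3.symm
    · exact absurd rfl hij

theorem ue (T : Tau τ) (hν : τ ν = -ν) (ν0 : ν ≠ 0) (hζ : IsGen ζ) (hq : ∀ a : F, τ a = a ^ q) (hF : Fintype.card F = q ^ 2)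
    (hn : ∀ r : F, τ r = r → r ≠ 0 → ∃ d : Fˣ, ((nn τ d : Fˣ) : F) = r) : UE τ ν μ (SF μ s 0) where
  toUA := B.ua T hν ν0 hζ hq hF
  c0 {i j} hij a b hab := by
    have h1 := (B.uh T hν ν0 hζ hq hF).c0_of hn hζ h B.st1 B.st2 a b hab
    fin_cases i <;> fin_cases j
    · exact absurd rfl hij
    · exact h1
    · change Commute (SF μ s 0 0 * μ (tvl h.symm (ν * a)) * (SF μ s 0 0)⁻¹) (μ (tvl h.symm b))
      have h0 := (B.uh T hν ν0 hζ hq hF).c0_of hn hζ h B.st1 B.st2 (-a) (-b) (by rw [map_neg, map_neg]; linear_combination hab)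
      have h2 := (Commute.conj_iff (tt)⁻¹).2 h0
      have e1 : -(ν * -a) = ν * a := by ring
      rw [inv_inv, cj1, B.w_x, B.w_x, neg_neg, e1, B.w_s' T hζ hq hF] at h2
      rw [SF_o b0_two]; exact h2
    · exact absurd rfl hij

end B2

end two

end Cfsg.Agent.GK.Un
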