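import Cfsg.Agent.GK.Un14

/-!
The relations in rank two: long root elements.
-/

set_option autoImplicit false
set_option linter.unusedSectionVars false
set_option linter.unusedVariables false
set_option linter.unusedSimpArgs false

namespace Cfsg.Agent.GK.Un

open Subgroup Cfsg.Agent.Stb
open scoped commutatorElement
open Om (Mo_emb2_fst Mo_emb2_snd Mo_emb2_out)

universe v

section md
variable {I K Γ : Type*} [InvolutiveNeg I] [DecidableEq I] [Field K] [Group Γ] {τ : K →+* K} {y : I → I → K → Γ} {z : I → K → Γ}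

/-- monomial elements -/
structure Md (τ : K →+* K) (y : I → I → K → Γ) (g : Γ) (π : I → I) (c : I → K) : Prop where
  neg : ∀ p, π (-p) = -π p
  inj : Function.Injective π
  frm : ∀ p, τ (c p) * c (-p) = 1
  act : ∀ {p q}, p ≠ q → p ≠ -q → ∀ a, g * y p q a * g⁻¹ = y (π p) (π q) (c p * τ (c q) * a)

variable (Y : Y0 τ y) (Z : ZD τ y z)

theorem cm_conj (g a b : Γ) : g * ⁅a, b⁆ * g⁻¹ = ⁅g * a * g⁻¹, g * b * g⁻¹⁆ := by
  simp only [commutatorElement_def]; group

include Y Z in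
theorem Md.zc {g : Γ} {π : I → I} {c : I → K} (M : Md τ y g π c) (p : I) {a : K} (ha : τ a = -a) :
    g * z p a * g⁻¹ = z (π p) (c p * τ (c p) * a) := by
  obtain ⟨q, hq1, hq2⟩ := Y.two p
  have h1 : p ≠ q := hq1.symm
  have h2 : p ≠ -q := fun e => hq2 (by rw [e, neg_neg])
  have h3 : -q ≠ p := fun e => h2 e.symm
  have h4 : -q ≠ -p := fun e => h1 (neg_inj.1 e).symm
  have h1' : π p ≠ π q := fun e => h1 (M.inj e)
  have h2' : π p ≠ -π q := fun e => h2 (M.inj (by rw [e, M.neg]))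
  obtain ⟨u, v, rfl⟩ := Y.T.skew' ha
  have ττ := Y.T.ττ
  rw [← Z.zr h1 h2, cm_conj, M.act h1 h2, M.act h3 h4, M.neg, Z.zr h1' h2']
  congr 1
  have f1 := M.frm q
  have f2 := congrArg τ f1
  rw [map_mul, ττ, map_one] at f2
  simp only [map_mul, ττ]
  linear_combination (c p * τ (c p) * u * v) * f1 - (c p * τ (c p) * τ u * τ v) * f2

include Y Z in
theorem Md.c3 {g : Γ} {π : I → I} {c : I → K} (M : Md τ y g π c) {i j : I} (h1 : i ≠ j) (h2 : i ≠ -j) (h : C3 τ y z i j) :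
    C3 τ y z (π i) (π j) := by
  intro a ha b
  have ττ := Y.T.ττ
  have f1 := M.frm i
  have f2 := congrArg τ f1
  rw [map_mul, ττ, map_one] at f2
  have g1 := M.frm j
  have ne0 : ∀ p, c p ≠ 0 := fun p e => by have := M.frm p; rw [e, map_zero, zero_mul] at this; exact zero_ne_one this
  have ni := ne0 i
  have nj := ne0 j
  have ti : τ (c i) ≠ 0 := fun e => ni (by rw [← ττ (c i), e, map_zero])
  have tj : τ (c j) ≠ 0 := fun e => nj (by rw [← ττ (c j), e, map_zero])
  have m1 : -i ≠ j := fun e => h2 (by rw [← e, neg_neg])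
  have m2 : -i ≠ -j := fun e => h1 (neg_inj.1 e)
  have k1 : c (-i) = (τ (c i))⁻¹ := eq_inv_of_mul_eq_one_right f1
  have ha' : τ ((c i * τ (c i))⁻¹ * a) = -((c i * τ (c i))⁻¹ * a) := by
    rw [map_mul, map_inv₀, map_mul, ττ, ha]; ring
  have e := h ((c i * τ (c i))⁻¹ * a) ha' (τ (c i) * (τ (c j))⁻¹ * b)
  have e1 := congrArg (fun x => g * x * g⁻¹) e
  have ha2 : τ (τ (c i) * (τ (c j))⁻¹ * b * τ (τ (c i) * (τ (c j))⁻¹ * b) * τ ((c i * τ (c i))⁻¹ * a)) =
      -(τ (c i) * (τ (c j))⁻¹ * b * τ (τ (c i) * (τ (c j))⁻¹ * b) * τ ((c i * τ (c i))⁻¹ * a)) := by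
    rw [map_mul, map_mul, ττ, ττ, ha']; ring
  have e2 : ∀ u w : Γ, g * (u * w) * g⁻¹ = (g * u * g⁻¹) * (g * w * g⁻¹) := fun u w => by group
  change g * ⁅_, _⁆ * g⁻¹ = g * (_ * _) * g⁻¹ at e1
  rw [cm_conj, e2, M.zc Y Z i ha', M.act m1 m2, M.act h1 h2, M.zc Y Z j ha2, M.neg, k1] at e1
  have r1 : c i * τ (c i) * ((c i * τ (c i))⁻¹ * a) = a := by field_simp
  have r2 : (τ (c i))⁻¹ * τ (c j) * (τ (c i) * (τ (c j))⁻¹ * b) = b := by field_simp
  have r3 : c i * τ (c j) * ((c i * τ (c i))⁻¹ * a * (τ (c i) * (τ (c j))⁻¹ * b)) = a * b := by field_simp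
  have r4 : c j * τ (c j) * (τ (c i) * (τ (c j))⁻¹ * b * τ (τ (c i) * (τ (c j))⁻¹ * b) * τ ((c i * τ (c i))⁻¹ * a)) =
      b * τ b * τ a := by
    simp only [map_mul, map_inv₀, ττ]; field_simp
  rw [r1, r2, r3, r4] at e1
  exact e1

include Y Z in
/-- additivity in the short root element -/
theorem c3_add {i j : I} (h1 : i ≠ j) (h2 : i ≠ -j) {c : K} (hc : τ c = -c) {b b' : K}
    (e : ⁅z i c, y (-i) j b⁆ = y i j (c * b) * z j (b * τ b * τ c)) (e' : ⁅z i c, y (-i) j b'⁆ = y i j (c * b') * z j (b' * τ b' * τ c)) :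
    ⁅z i c, y (-i) j (b + b')⁆ = y i j (c * (b + b')) * z j ((b + b') * τ (b + b') * τ c) := by
  have ττ := Y.T.ττ
  have m1 : -i ≠ j := fun e => h2 (by rw [← e, neg_neg])
  have m2 : -i ≠ -j := fun e => h1 (neg_inj.1 e)
  have m3 : j ≠ -i := fun e => h2 (by rw [e, neg_neg])
  have sk : ∀ b : K, τ (b * τ b * τ c) = -(b * τ b * τ c) := fun b => by rw [map_mul, map_mul, ττ, ττ, hc]; ring
  rw [comm_iff] at e e' ⊢
  have x1 : y (-i) j b * y i j (c * b') = z j (τ c * (τ b * b' + b * τ b')) * (y i j (c * b') * y (-i) j b) := by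
    have := Z.zr m3 (by rw [neg_neg]; exact h1.symm) (-τ b) (c * b')
    rw [neg_neg, ← Y.symm m1 m2, comm_iff] at this
    rw [this]
    congr 2
    simp only [map_mul, map_neg, ττ]
    rw [hc]; ring
  have skk : τ (τ c * (τ b * b' + b * τ b')) = -(τ c * (τ b * b' + b * τ b')) := by
    simp only [map_mul, map_add, ττ]; rw [hc]; ring
  have x2 : Commute (z j (b' * τ b' * τ c)) (y (-i) j b) := Y.c5 Z m1 m2 m2 (Y.ne j).symm (sk b') b
  have x3 : Commute (z j (b * τ b * τ c)) (y i j (c * b')) := Y.c5 Z h1 h2 h2 (Y.ne j).symm (sk b) _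
  have x4 : Commute (z j (τ c * (τ b * b' + b * τ b'))) (y i j (c * b')) := Y.c5 Z h1 h2 h2 (Y.ne j).symm skk _
  have r1 : (b + b') * τ (b + b') * τ c = b * τ b * τ c + (τ c * (τ b * b' + b * τ b') + b' * τ b' * τ c) := by rw [map_add]; ring
  rw [Y.add m1 m2, mul_add, Y.add h1 h2, r1, Z.add j _ _ (sk b) (by rw [map_add, skk, sk]; ring), Z.add j _ _ skk (sk b')]
  set A := y i j (c * b)
  set A' := y i j (c * b')
  set N := z j (b * τ b * τ c)
  set N' := z j (b' * τ b' * τ c)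
  set Q := z j (τ c * (τ b * b' + b * τ b'))
  set V := y (-i) j b
  set V' := y (-i) j b'
  set C := z i c
  calc C * (V * V') = (C * V) * V' := by group
    _ = A * N * V * (C * V') := by rw [e]; group
    _ = A * N * (V * A') * N' * V' * C := by rw [e']; group
    _ = A * (N * Q) * A' * (V * N') * V' * C := by rw [x1]; group
    _ = A * N * (Q * A') * N' * V * V' * C := by rw [← x2.eq]; group
    _ = A * (N * A') * Q * N' * V * V' * C := by rw [x4.eq]; group
    _ = A * A' * (N * (Q * N')) * (V * V' * C) := by rw [x3.eq]; group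

end md

attribute [local instance] Stb.sumNeg

section fl
variable {F : Type v} [Field F] {l : Type*} [Fintype l] [DecidableEq l] {Γ : Type*} [Group Γ]
variable {τ : F →+* F} {ν : F} {μ : Matrix.SpecialLinearGroup l F →* Γ} {S : l → Γ}

/-- coefficients of a flip -/
def cS (ν : F) (k : l) (p : l ⊕ l) : F := if p = Sum.inl k then ν else if p = Sum.inr k then -ν⁻¹ else 1

theorem cS_l (k : l) : cS ν k (Sum.inl k) = ν := if_pos rfl
theorem cS_r (k : l) : cS ν k (Sum.inr k) = -ν⁻¹ := by unfold cS; rw [if_neg Sum.inr_ne_inl, if_pos rfl]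
theorem cS_o {k : l} {p : l ⊕ l} (h : k ≠ ab p) : cS ν k p = 1 := by
  unfold cS
  rw [if_neg (by rintro rfl; exact h rfl), if_neg (by rintro rfl; exact h rfl)]

theorem XX_sq (U : UE τ ν μ S) {i j : l} (h : i ≠ j) (a : F) : S i * (S i * Om.XX μ i j a * (S i)⁻¹) * (S i)⁻¹ = Om.XX μ i j (-a) := by
  rw [Om.XX_eq h, Om.XX_eq h, ← U.sq h]; group

theorem XX_sq' (U : UE τ ν μ S) {i j : l} (h : i ≠ j) (a : F) : S j * (S j * Om.XX μ i j a * (S j)⁻¹) * (S j)⁻¹ = Om.XX μ i j (-a) := by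
  rw [Om.XX_eq h, Om.XX_eq h, ← U.sq' h]; group

theorem mdS (U : UE τ ν μ S) (k : l) : Md τ (yu ν μ S) (S k) (sk k) (cS ν k) where
  neg p := sk_neg k p
  inj := sk_inj k
  frm p := by
    have n0 := U.ν0
    by_cases h : k = ab p
    · subst h
      rcases p with p | p
      · change τ (cS ν p (Sum.inl p)) * cS ν p (Sum.inr p) = 1
        rw [cS_l, cS_r, U.hν, neg_mul_neg, mul_inv_cancel₀ n0]
      · change τ (cS ν p (Sum.inr p)) * cS ν p (Sum.inl p) = 1
        rw [cS_l, cS_r, map_neg, map_inv₀, U.hν, inv_neg, neg_neg, inv_mul_cancel₀ n0]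
    · have h' : k ≠ ab (-p) := by rw [ab_neg]; exact h
      rw [cS_o h, cS_o h', map_one, one_mul]
  act {p q} h1 h2 a := by
    have n0 := U.ν0
    have hab : ab p ≠ ab q := by
      intro e
      rcases p with p | p <;> rcases q with q | q
      · exact h1 (by rw [show p = q from e])
      · exact h2 (by rw [show p = q from e]; rfl)
      · exact h2 (by rw [show p = q from e]; rfl)
      · exact h1 (by rw [show p = q from e])
    have hc : ∀ r : l ⊕ l, Commute (S k) (sp S r) := fun r => U.sp_comm (Sum.inr k) r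
    have hd : ∀ r : l ⊕ l, Commute (S k) (sq S r) := fun r => U.spq_comm (Sum.inr k) r
    have key : S k * yu ν μ S p q a * (S k)⁻¹ = (sp S p * sq S q) * (S k * Om.XX μ (ab p) (ab q) (kp ν p * kq ν q * a) * (S k)⁻¹) * (sp S p * sq S q)⁻¹ := by
      have h3 : Commute (S k) (sp S p * sq S q) := (hc p).mul_right (hd q)
      unfold yu
      calc S k * ((sp S p * sq S q) * Om.XX μ (ab p) (ab q) (kp ν p * kq ν q * a) * (sp S p * sq S q)⁻¹) * (S k)⁻¹ =
          (S k * (sp S p * sq S q)) * Om.XX μ (ab p) (ab q) (kp ν p * kq ν q * a) * (S k * (sp S p * sq S q))⁻¹ := by group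
        _ = _ := by rw [h3.eq]; group
    rw [key]
    by_cases hk1 : k = ab p
    · have hk2 : k ≠ ab q := by rw [hk1]; exact hab
      rw [sk_ne hk2, cS_o hk2, map_one, mul_one]
      subst hk1
      rcases p with p | p
      · change (1 * sq S q) * (S p * Om.XX μ p (ab q) (1 * kq ν q * a) * (S p)⁻¹) * (1 * sq S q)⁻¹ = yu ν μ S (sk p (Sum.inl p)) q (cS ν p (Sum.inl p) * a)
        rw [sk_l, cS_l]
        change _ = (S p * sq S q) * Om.XX μ p (ab q) (ν⁻¹ * kq ν q * (ν * a)) * (S p * sq S q)⁻¹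
        have hq' : Commute (S p) (sq S q) := hd q
        have e1 : ν⁻¹ * kq ν q * (ν * a) = 1 * kq ν q * a := by field_simp
        rw [e1, hq'.eq]; group
      · change (S p * sq S q) * (S p * Om.XX μ p (ab q) (ν⁻¹ * kq ν q * a) * (S p)⁻¹) * (S p * sq S q)⁻¹ = yu ν μ S (sk p (Sum.inr p)) q (cS ν p (Sum.inr p) * a)
        rw [sk_r, cS_r]
        change _ = (1 * sq S q) * Om.XX μ p (ab q) (1 * kq ν q * (-ν⁻¹ * a)) * (1 * sq S q)⁻¹
        have e1 : 1 * kq ν q * (-ν⁻¹ * a) = -(ν⁻¹ * kq ν q * a) := by ring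
        have hq' : Commute (S p) (sq S q) := hd q
        have hab' : p ≠ ab q := hab
        rw [e1, ← XX_sq U hab', hq'.eq]; group
    by_cases hk2 : k = ab q
    · rw [sk_ne hk1, cS_o hk1, one_mul]
      subst hk2
      rcases q with q | q
      · change (sp S p * S q) * (S q * Om.XX μ (ab p) q (kp ν p * ν * a) * (S q)⁻¹) * (sp S p * S q)⁻¹ = yu ν μ S p (sk q (Sum.inl q)) (τ (cS ν q (Sum.inl q)) * a)
        rw [sk_l, cS_l, U.hν]
        change _ = (sp S p * 1) * Om.XX μ (ab p) q (kp ν p * 1 * (-ν * a)) * (sp S p * 1)⁻¹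
        have e1 : kp ν p * 1 * (-ν * a) = -(kp ν p * ν * a) := by ring
        have hab' : ab p ≠ q := hab
        rw [e1, ← XX_sq' U hab']; group
      · change (sp S p * 1) * (S q * Om.XX μ (ab p) q (kp ν p * 1 * a) * (S q)⁻¹) * (sp S p * 1)⁻¹ = yu ν μ S p (sk q (Sum.inr q)) (τ (cS ν q (Sum.inr q)) * a)
        rw [sk_r, cS_r, map_neg, map_inv₀, U.hν, inv_neg, neg_neg]
        change _ = (sp S p * S q) * Om.XX μ (ab p) q (kp ν p * ν * (ν⁻¹ * a)) * (sp S p * S q)⁻¹
        have e1 : kp ν p * ν * (ν⁻¹ * a) = kp ν p * 1 * a := by field_simp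
        rw [e1]; group
    · rw [sk_ne hk1, sk_ne hk2, cS_o hk1, cS_o hk2, map_one, mul_one, one_mul]
      have h3 : S k * Om.XX μ (ab p) (ab q) (kp ν p * kq ν q * a) * (S k)⁻¹ = Om.XX μ (ab p) (ab q) (kp ν p * kq ν q * a) := by
        rw [Om.XX_eq hab, (U.SX hab hk1 hk2 _).eq]; group
      rw [h3]; rfl

end fl

end Cfsg.Agent.GK.Un
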