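import Cfsg.Agent.GK.Un15

/-!
The relations in rank two: the commutator relation of long and short root elements.
-/

set_option autoImplicit false
set_option linter.unusedSectionVars false
set_option linter.unusedVariables false
set_option linter.unusedSimpArgs false

namespace Cfsg.Agent.GK.Un

open Subgroup Cfsg.Agent.Stb
open scoped commutatorElement
open Om (Mo_emb2_fst Mo_emb2_snd Mo_emb2_out)

attribute [local instance] Stb.sumNeg

universe v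

section two
variable {F : Type v} [Field F] [Fintype F] {Γ : Type*} [Group Γ]
variable {τ : F →+* F} {ν : F} {μ : Matrix.SpecialLinearGroup (Fin 2) F →* Γ} {s : Γ} {h : (0 : Fin 2) ≠ 1} {ζ : Fˣ}

/-- the relation between long and short root elements -/
def C3R (τ : F →+* F) (ν : F) (μ : Matrix.SpecialLinearGroup (Fin 2) F →* Γ) (s : Γ) (h : (0 : Fin 2) ≠ 1) (e b : F) : Prop :=
  ⁅⁅s * μ (tvl h.symm (ν * (ν * e))) * s⁻¹, μ (tvl h.symm (-1))⁆, μ (tvl h (-τ b))⁆ =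
    s * μ (tvl h.symm (ν * (ν * b))) * s⁻¹ * ⁅s * μ (tvl h.symm (ν * (-(b * τ b) * ν * τ e))) * s⁻¹, μ (tvl h (-1))⁆

/-- the relation for general parameters -/
def BC (τ : F →+* F) (y : Fin 2 ⊕ Fin 2 → Fin 2 ⊕ Fin 2 → F → Γ) (z : Fin 2 ⊕ Fin 2 → F → Γ) (c b : F) : Prop :=
  ⁅z (Sum.inl 1) c, y (Sum.inr 1) (Sum.inl 0) b⁆ = y (Sum.inl 1) (Sum.inl 0) (c * b) * z (Sum.inl 0) (b * τ b * τ c)

variable {z : Fin 2 ⊕ Fin 2 → F → Γ}

theorem fin_ne : ((0 : Fin 2) ≠ 1) := by decide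

section
variable {S : Fin 2 → Γ} (U : UE τ ν μ S) (Z : ZD τ (yu ν μ S) z)
include U Z

theorem z1_eq (a b : F) : z (Sum.inl 1) (a * b - τ (a * b)) = ⁅yu ν μ S (Sum.inl 1) (Sum.inl 0) a, μ (tvl h.symm (-τ b))⁆ := by
  have Y := U.y0
  have n1 : (Sum.inl 1 : Fin 2 ⊕ Fin 2) ≠ Sum.inl 0 := by decide
  have n2 : (Sum.inl 1 : Fin 2 ⊕ Fin 2) ≠ -(Sum.inl 0) := Sum.inl_ne_inr
  have n3 : (Sum.inr 0 : Fin 2 ⊕ Fin 2) ≠ Sum.inl 1 := Sum.inr_ne_inl
  have n4 : (Sum.inr 0 : Fin 2 ⊕ Fin 2) ≠ -(Sum.inl 1) := by decide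
  rw [← Z.zr n1 n2, ← yu_lr h.symm]
  congr 1
  exact Y.symm n3 n4 b

theorem z0_eq (a b : F) : z (Sum.inl 0) (a * b - τ (a * b)) = ⁅yu ν μ S (Sum.inl 1) (Sum.inl 0) (-τ a), μ (tvl h (-τ b))⁆ := by
  have Y := U.y0
  have n1 : (Sum.inl 0 : Fin 2 ⊕ Fin 2) ≠ Sum.inl 1 := by decide
  have n2 : (Sum.inl 0 : Fin 2 ⊕ Fin 2) ≠ -(Sum.inl 1) := Sum.inl_ne_inr
  have n3 : (Sum.inr 1 : Fin 2 ⊕ Fin 2) ≠ Sum.inl 0 := Sum.inr_ne_inl
  have n4 : (Sum.inr 1 : Fin 2 ⊕ Fin 2) ≠ -(Sum.inl 0) := by decide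
  rw [← Z.zr n1 n2, ← yu_lr h, ← Y.symm n1 n2]
  congr 1
  exact Y.symm n3 n4 b

theorem BC_iff (e b : F) (he : e + τ e = 1) (h0 : S 0 = s) :
    BC τ (yu ν μ S) z ν b ↔ C3R τ ν μ s h e b := by
  have Y := U.y0
  have hν := U.hν
  have ττ := U.T.ττ
  have n3 : (Sum.inr 1 : Fin 2 ⊕ Fin 2) ≠ Sum.inl 0 := Sum.inr_ne_inl
  have n4 : (Sum.inr 1 : Fin 2 ⊕ Fin 2) ≠ -(Sum.inl 0) := by decide
  have e1 := z1_eq (h := h) U Z (ν * e) 1
  have e2 := z0_eq (h := h) U Z (-(b * τ b) * ν * e) 1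
  have r1 : ν * e * 1 - τ (ν * e * 1) = ν := by
    rw [map_mul, map_mul, hν, map_one]; linear_combination ν * he
  have r2 : -(b * τ b) * ν * e * 1 - τ (-(b * τ b) * ν * e * 1) = b * τ b * τ ν := by
    simp only [map_mul, map_neg, hν, map_one, ττ]; linear_combination (-(b * τ b) * ν) * he
  have r3 : -τ (-(b * τ b) * ν * e) = -(b * τ b) * ν * τ e := by
    simp only [map_mul, map_neg, hν, ττ]; ring
  rw [r1, map_one, yu_ll h.symm] at e1
  rw [r2, r3, map_one, yu_ll h.symm] at e2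
  unfold BC C3R
  rw [e1, e2, Y.symm n3 n4, yu_lr h, yu_ll h.symm, h0]

/-- transport by elements scaling the root elements -/
theorem BC_tr {g : Γ} {α β γ : F} (hx : ∀ a, g * μ (tvl h a) * g⁻¹ = μ (tvl h (α * a)))
    (hy : ∀ a, g * μ (tvl h.symm a) * g⁻¹ = μ (tvl h.symm (β * a)))
    (hQ : ∀ a, g * yu ν μ S (Sum.inl 1) (Sum.inl 0) a * g⁻¹ = yu ν μ S (Sum.inl 1) (Sum.inl 0) (γ * a))
    (h1 : α * β = 1) (h2 : τ (γ * τ β) = γ * τ β) (h3 : τ (γ * α) = γ * α) {c b : F} (hc : τ c = -c) (e : BC τ (yu ν μ S) z c b) :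
    BC τ (yu ν μ S) z (γ * τ β * c) (τ α * b) := by
  have Y := U.y0
  have ττ := U.T.ττ
  have n3 : (Sum.inr 1 : Fin 2 ⊕ Fin 2) ≠ Sum.inl 0 := Sum.inr_ne_inl
  have n4 : (Sum.inr 1 : Fin 2 ⊕ Fin 2) ≠ -(Sum.inl 0) := by decide
  have z1 : ∀ c, τ c = -c → g * z (Sum.inl 1) c * g⁻¹ = z (Sum.inl 1) (γ * τ β * c) := by
    intro c hc
    obtain ⟨u, v, rfl⟩ := U.T.skew' hc
    rw [z1_eq (h := h) U Z, cm_conj, hQ, hy]
    have e1 : β * -τ v = -τ (τ β * v) := by rw [map_mul, ττ]; ring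
    rw [e1, ← z1_eq (h := h) U Z]
    congr 1
    have : γ * τ β * (u * v) - τ (γ * τ β * (u * v)) = γ * τ β * (u * v - τ (u * v)) := by rw [map_mul, h2]; ring
    rw [← this]; congr 1
    · ring
    · congr 1; ring
  have z0 : ∀ c, τ c = -c → g * z (Sum.inl 0) c * g⁻¹ = z (Sum.inl 0) (γ * α * c) := by
    intro c hc
    obtain ⟨u, v, rfl⟩ := U.T.skew' hc
    rw [z0_eq (h := h) U Z, cm_conj, hQ, hx]
    have e1 : α * -τ v = -τ (τ α * v) := by rw [map_mul, ττ]; ring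
    have e2 : γ * -τ u = -τ (τ γ * u) := by rw [map_mul, ττ]; ring
    rw [e1, e2, ← z0_eq (h := h) U Z]
    congr 1
    have e3 : τ γ * u * (τ α * v) = γ * α * (u * v) := by
      have : τ γ * τ α = γ * α := by rw [← map_mul, h3]
      linear_combination (u * v) * this
    rw [e3, map_mul, h3]; ring
  have skb : τ (b * τ b * τ c) = -(b * τ b * τ c) := by rw [map_mul, map_mul, ττ, ττ, hc]; ring
  have e1 : g * ⁅z (Sum.inl 1) c, yu ν μ S (Sum.inr 1) (Sum.inl 0) b⁆ * g⁻¹ =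
      g * (yu ν μ S (Sum.inl 1) (Sum.inl 0) (c * b) * z (Sum.inl 0) (b * τ b * τ c)) * g⁻¹ := by rw [show ⁅z (Sum.inl 1) c, yu ν μ S (Sum.inr 1) (Sum.inl 0) b⁆ = _ from e]
  have e2 : ∀ u w : Γ, g * (u * w) * g⁻¹ = (g * u * g⁻¹) * (g * w * g⁻¹) := fun u w => by group
  have e3 : g * yu ν μ S (Sum.inr 1) (Sum.inl 0) b * g⁻¹ = yu ν μ S (Sum.inr 1) (Sum.inl 0) (τ α * b) := by
    rw [Y.symm n3 n4, yu_lr h, hx, Y.symm n3 n4, yu_lr h]
    congr 2; rw [map_mul, ττ]; ring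
  rw [cm_conj, e2, z1 c hc, e3, hQ, z0 _ skb] at e1
  unfold BC
  rw [e1]
  have h4 : τ α * τ β = 1 := by rw [← map_mul, h1, map_one]
  have h5 : γ * τ β * τ (γ * τ β) = γ * τ β * (γ * τ β) := by rw [h2]
  congr 2
  · linear_combination (-(γ * c * b)) * h4
  · rw [map_mul (τ) (γ * τ β) c, h2, map_mul τ (τ α) b, ττ]
    linear_combination (-(γ * α * b * τ b * τ c)) * h4

end

namespace B2
variable {k : Γ} (B : B2 τ ν μ s h ζ k) {q : ℕ}

include B

theorem c3all (T : Tau τ) (hν : τ ν = -ν) (ν0 : ν ≠ 0) (hζ : IsGen ζ) (hq : ∀ a : F, τ a = a ^ q) (hF : Fintype.card F = q ^ 2)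
    (hn : ∀ r : F, τ r = r → r ≠ 0 → ∃ d : Fˣ, ((nn τ d : Fˣ) : F) = r) (Z : ZD τ (yu ν μ (SF μ s 0)) z) {e : F} (he : e + τ e = 1)
    (r1 : C3R τ ν μ s h e 1) (r2 : C3R τ ν μ s h e ζ) {i j : Fin 2 ⊕ Fin 2} (h1 : i ≠ j) (h2 : i ≠ -j) :
    C3 τ (yu ν μ (SF μ s 0)) z i j := by
  have V := B.uh T hν ν0 hζ hq hF
  have U := B.ue T hν ν0 hζ hq hF hn
  have Y := U.y0
  have ττ := T.ττ
  set S := SF μ s 0 with hS
  have h0 : S 0 = s := SF_o b0_two
  have n1 : (Sum.inl 1 : Fin 2 ⊕ Fin 2) ≠ Sum.inl 0 := by decide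
  have n2 : (Sum.inl 1 : Fin 2 ⊕ Fin 2) ≠ -(Sum.inl 0) := Sum.inl_ne_inr
  have ne0 : ∀ d : Fˣ, τ (d : F) ≠ 0 := fun d e => d.ne_zero (by rw [← ττ (d : F), e, map_zero])
  -- the scaling elements
  have tH : ∀ (d : Fˣ) {c b : F}, τ c = -c → BC τ (yu ν μ S) z c b → BC τ (yu ν μ S) z c (((nn τ d)⁻¹ : Fˣ) * b) := by
    intro d c b hc hb
    have fx : τ (((nn τ d)⁻¹ : Fˣ) : F) = ((nn τ d)⁻¹ : Fˣ) := by
      rw [Units.val_inv_eq_inv_val, map_inv₀, nn_coe, map_mul, ττ, mul_comm]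
    have fx' : τ ((nn τ d : Fˣ) : F) = (nn τ d : Fˣ) := by rw [nn_coe, map_mul, ττ, mul_comm]
    have hh := BC_tr (h := h) U Z (g := HH μ S h d) (α := ((nn τ d)⁻¹ : Fˣ)) (β := (nn τ d : Fˣ)) (γ := ((nn τ d)⁻¹ : Fˣ))
      (V.hX h d) (V.hX' h d) ?_ (by rw [← Units.val_mul, inv_mul_cancel, Units.val_one]) (by rw [map_mul, fx, fx', fx']) (by rw [map_mul, fx]) hc hb
    · rw [fx', ← Units.val_mul, inv_mul_cancel, Units.val_one, one_mul, fx] at hh
      exact hh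
    · intro a
      rw [yu_ll h.symm, yu_ll h.symm]
      have k1 := V.hinv' h d
      have k2 := V.hX' h d (((nn τ d)⁻¹ : Fˣ) * (ν * a))
      have k3 : ((nn τ d : Fˣ) : F) * ((((nn τ d)⁻¹ : Fˣ) : F) * (ν * a)) = ν * a := by
        rw [← mul_assoc, ← Units.val_mul, mul_inv_cancel, Units.val_one, one_mul]
      rw [k3] at k2
      have k4 : ν * ((((nn τ d)⁻¹ : Fˣ) : F) * a) = (((nn τ d)⁻¹ : Fˣ) : F) * (ν * a) := by ring
      rw [k4]
      have k5 : HH μ S h d * S 0 = S 0 * (HH μ S h d)⁻¹ := by rw [← k1]; group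
      calc HH μ S h d * (S 0 * μ (tvl h.symm (ν * a)) * (S 0)⁻¹) * (HH μ S h d)⁻¹ =
          (HH μ S h d * S 0) * μ (tvl h.symm (ν * a)) * (HH μ S h d * S 0)⁻¹ := by group
        _ = S 0 * ((HH μ S h d)⁻¹ * μ (tvl h.symm (ν * a)) * HH μ S h d) * (S 0)⁻¹ := by rw [k5]; group
        _ = _ := by rw [← k2]; group
  have tD : ∀ (d : Fˣ) {c b : F}, τ c = -c → BC τ (yu ν μ S) z c b →
      BC τ (yu ν μ S) z (((nn τ d)⁻¹ : Fˣ) * c) (τ (d : F) ^ 2 * b) := by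
    intro d c b hc hb
    have hd := d.ne_zero
    have htd := ne0 d
    have hh := BC_tr (h := h) U Z (g := μ (emb2 h (hm d))) (α := (d : F) ^ 2) (β := ((d⁻¹ : Fˣ) : F) ^ 2) (γ := ((d⁻¹ : Fˣ) : F) * τ (d : F))
      (D_tv h d) (D_tv' h d) ?_ (by rw [Units.val_inv_eq_inv_val]; field_simp)
      (by rw [Units.val_inv_eq_inv_val, map_mul, map_mul, map_pow, map_pow, ττ, ττ, map_inv₀]; field_simp)
      (by rw [Units.val_inv_eq_inv_val, map_mul, map_mul, map_pow, ττ, map_inv₀]; field_simp) hc hb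
    · have g1 : ((d⁻¹ : Fˣ) : F) * τ (d : F) * τ (((d⁻¹ : Fˣ) : F) ^ 2) * c = (((nn τ d)⁻¹ : Fˣ) : F) * c := by
        rw [Units.val_inv_eq_inv_val, Units.val_inv_eq_inv_val, map_pow, map_inv₀, nn_coe]; field_simp
      rw [g1, map_pow] at hh
      exact hh
    · intro a
      rw [yu_ll h.symm, yu_ll h.symm]
      have k1 := V.hinv' h d
      have k2 := V.hX' h d (((d⁻¹ : Fˣ) : F) ^ 2 * (ν * a))
      have k3 := D_tv' (μ := μ) h d (ν * a)
      have k4 : ν * (((d⁻¹ : Fˣ) : F) * τ (d : F) * a) = ((nn τ d : Fˣ) : F) * (((d⁻¹ : Fˣ) : F) ^ 2 * (ν * a)) := by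
        rw [Units.val_inv_eq_inv_val, nn_coe]; field_simp
      rw [k4, ← k2, ← k3]
      set D := μ (emb2 h (hm d)) with hD
      have k5 : D * S 0 = S 0 * (HH μ S h d) * D := by
        have k6 : (HH μ S h d)⁻¹ = D * S 0 * D⁻¹ * (S 0)⁻¹ := by unfold HH; rw [← hD]; group
        have k7 : D * S 0 = (HH μ S h d)⁻¹ * S 0 * D := by rw [k6]; group
        have k8 : (HH μ S h d)⁻¹ * S 0 = S 0 * HH μ S h d := by
          have k9 : ((S 0)⁻¹ * HH μ S h d * S 0)⁻¹ = HH μ S h d := by rw [k1, inv_inv]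
          have this : (S 0)⁻¹ * (HH μ S h d)⁻¹ * S 0 = HH μ S h d := by
            calc (S 0)⁻¹ * (HH μ S h d)⁻¹ * S 0 = ((S 0)⁻¹ * HH μ S h d * S 0)⁻¹ := by group
              _ = _ := k9
          calc (HH μ S h d)⁻¹ * S 0 = S 0 * ((S 0)⁻¹ * (HH μ S h d)⁻¹ * S 0) := by group
            _ = _ := by rw [this]
        rw [k7, k8]
      calc D * (S 0 * μ (tvl h.symm (ν * a)) * (S 0)⁻¹) * D⁻¹ = (D * S 0) * μ (tvl h.symm (ν * a)) * (D * S 0)⁻¹ := by group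
        _ = _ := by rw [k5]; group
  have B0' : ∀ c : F, BC τ (yu ν μ S) z c 0 := by
    intro c
    unfold BC
    rw [mul_zero, Y.zero (by decide) (by decide), Y.zero n1 n2, zero_mul, zero_mul, Y.z0 Z, commutatorElement_one_right, one_mul]
  have b1 : BC τ (yu ν μ S) z ν 1 := (BC_iff (h := h) U Z e 1 he h0).2 r1
  have b2 : BC τ (yu ν μ S) z ν ζ := (BC_iff (h := h) U Z e ζ he h0).2 r2
  have bk : ∀ (b r : F), τ r = r → BC τ (yu ν μ S) z ν b → BC τ (yu ν μ S) z ν (r * b) := by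
    intro b r hr hb
    by_cases h0 : r = 0
    · rw [h0, zero_mul]; exact B0' ν
    · obtain ⟨d, hd⟩ := hn r⁻¹ (by rw [map_inv₀, hr]) (inv_ne_zero h0)
      have := tH d hν hb
      rwa [Units.val_inv_eq_inv_val, hd, inv_inv] at this
  have ball : ∀ b : F, BC τ (yu ν μ S) z ν b := by
    have hζτ : (ζ : F) - τ (ζ : F) ≠ 0 := by
      intro h0
      obtain ⟨θ, hθ⟩ := T.nid
      apply hθ
      by_cases hθ0 : θ = 0
      · rw [hθ0, map_zero]
      · obtain ⟨n, hn⟩ := hζ (Units.mk0 θ hθ0)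
        have : θ = (ζ : F) ^ n := by rw [← Units.val_pow_eq_pow_val, hn]; rfl
        rw [this, map_pow, ← sub_eq_zero.1 h0]
    intro b
    set r := (b - τ b) / ((ζ : F) - τ (ζ : F)) with hr
    have hr1 : τ r = r := by
      rw [hr, map_div₀, map_sub, map_sub, ττ, ττ, ← neg_sub b, ← neg_sub (ζ : F), neg_div_neg_eq]
    have hr2 : r * ((ζ : F) - τ (ζ : F)) = b - τ b := by rw [hr]; field_simp
    have hs1 : τ (b - r * ζ) = b - r * ζ := by
      rw [map_sub, map_mul, hr1]; linear_combination hr2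
    have e3 := bk 1 _ hs1 b1
    have e4 := bk ζ _ hr1 b2
    rw [mul_one] at e3
    have e5 : BC τ (yu ν μ S) z ν (b - r * ζ + r * ζ) := c3_add Y Z n1 n2 hν e3 e4
    rwa [sub_add_cancel] at e5
  have base : C3 τ (yu ν μ S) z (Sum.inl 1) (Sum.inl 0) := by
    intro c hc b
    by_cases hc0 : c = 0
    · rw [hc0, zero_mul, map_zero, mul_zero, Y.zero n1 n2, Y.z0 Z, Y.z0 Z, commutatorElement_one_left, one_mul]
    · obtain ⟨d, hd⟩ := hn (ν / c) (by rw [map_div₀, hν, hc, neg_div_neg_eq]) (div_ne_zero ν0 hc0)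
      have htd := ne0 d
      have e3 := tD d hν (ball ((τ (d : F) ^ 2)⁻¹ * b))
      have g1 : (((nn τ d)⁻¹ : Fˣ) : F) * ν = c := by
        rw [Units.val_inv_eq_inv_val, hd]; field_simp
      have g2 : τ (d : F) ^ 2 * ((τ (d : F) ^ 2)⁻¹ * b) = b := by field_simp
      rw [g1, g2] at e3
      exact e3
  -- transport
  have m0 := mdS U 0
  have m1 := mdS U 1
  have n3 : (Sum.inl 1 : Fin 2 ⊕ Fin 2) ≠ Sum.inr 0 := Sum.inl_ne_inr
  have n4 : (Sum.inl 1 : Fin 2 ⊕ Fin 2) ≠ -(Sum.inr 0) := by decide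
  have mw : Md τ (yu ν μ S) (μ (emb2 h tm))⁻¹ (Sum.map (Equiv.swap 0 1) (Equiv.swap 0 1)) (fun p => if ab p = 1 then -1 else 1) := by
    refine ⟨?_, ?_, ?_, ?_⟩
    · intro p; rcases p with p | p <;> rfl
    · exact (Equiv.injective _).sumMap (Equiv.injective _)
    · intro p
      simp only [ab_neg]
      by_cases e : ab p = 1
      · rw [if_pos e, map_neg, map_one]; ring
      · rw [if_neg e, map_one]; ring
    · intro p q hp hq' a
      have hab : ab p ≠ ab q := by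
        intro e
        rcases p with p | p <;> rcases q with q | q
        · exact hp (by rw [show p = q from e])
        · exact hq' (by rw [show p = q from e]; rfl)
        · exact hq' (by rw [show p = q from e]; rfl)
        · exact hp (by rw [show p = q from e])
      have w1 : ∀ i : Fin 2, (μ (emb2 h tm))⁻¹ * S i * μ (emb2 h tm) = S (Equiv.swap 0 1 i) := by
        intro i
        fin_cases i
        · change (μ (emb2 h tm))⁻¹ * S 0 * μ (emb2 h tm) = S 1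
          rw [h0]; exact B.w_s
        · change (μ (emb2 h tm))⁻¹ * S 1 * μ (emb2 h tm) = S 0
          rw [h0]; exact B.w_s' T hζ hq hF
      have w2 : ∀ (i j : Fin 2) (hij : i ≠ j) (a : F), (μ (emb2 h tm))⁻¹ * Om.XX μ i j a * μ (emb2 h tm) =
          Om.XX μ (Equiv.swap 0 1 i) (Equiv.swap 0 1 j) (-a) := by
        intro i j hij a
        fin_cases i <;> fin_cases j
        · exact absurd rfl hij
        · change (μ (emb2 h tm))⁻¹ * Om.XX μ 0 1 a * μ (emb2 h tm) = Om.XX μ 1 0 (-a)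
          rw [Om.XX_eq h, Om.XX_eq h.symm]; exact B.w_x a
        · change (μ (emb2 h tm))⁻¹ * Om.XX μ 1 0 a * μ (emb2 h tm) = Om.XX μ 0 1 (-a)
          rw [Om.XX_eq h, Om.XX_eq h.symm]; exact B.w_y a
        · exact absurd rfl hij
      have wsp : (μ (emb2 h tm))⁻¹ * sp S p * μ (emb2 h tm) = sp S (Sum.map (Equiv.swap 0 1) (Equiv.swap 0 1) p) := by
        rcases p with p | p
        · change (μ (emb2 h tm))⁻¹ * 1 * μ (emb2 h tm) = 1; group
        · exact w1 p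
      have wsq : (μ (emb2 h tm))⁻¹ * sq S q * μ (emb2 h tm) = sq S (Sum.map (Equiv.swap 0 1) (Equiv.swap 0 1) q) := by
        rcases q with q | q
        · exact w1 q
        · change (μ (emb2 h tm))⁻¹ * 1 * μ (emb2 h tm) = 1; group
      have abs : ∀ r : Fin 2 ⊕ Fin 2, ab (Sum.map (Equiv.swap 0 1) (Equiv.swap 0 1) r) = Equiv.swap 0 1 (ab r) := by
        intro r; rcases r with r | r <;> rfl
      have kps : ∀ r : Fin 2 ⊕ Fin 2, kp ν (Sum.map (Equiv.swap 0 1) (Equiv.swap 0 1) r) = kp ν r := by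
        intro r; rcases r with r | r <;> rfl
      have kqs : ∀ r : Fin 2 ⊕ Fin 2, Un.kq ν (Sum.map (Equiv.swap 0 1) (Equiv.swap 0 1) r) = Un.kq ν r := by
        intro r; rcases r with r | r <;> rfl
      unfold yu
      rw [inv_inv, cj2, wsp, wsq, w2 _ _ hab, abs, abs, kps, kqs]
      congr 3
      have hs : ((if ab p = 1 then -1 else 1 : F) * τ (if ab q = 1 then -1 else 1)) = -1 := by
        by_cases e1 : ab p = 1
        · have e2 : ab q ≠ 1 := fun e => hab (e1.trans e.symm)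
          rw [if_pos e1, if_neg e2, map_one]; ring
        · have e2 : ab q = 1 := by
            revert hab e1; generalize ab p = x; generalize ab q = y; revert x y; decide
          rw [if_neg e1, if_pos e2, map_neg, map_one]; ring
      rw [hs]; ring
  have t1 : ∀ {i j : Fin 2 ⊕ Fin 2}, i ≠ j → i ≠ -j → C3 τ (yu ν μ S) z i j → C3 τ (yu ν μ S) z (GK.sk 0 i) (GK.sk 0 j) :=
    fun a b c => m0.c3 Y Z a b c
  have t2 : ∀ {i j : Fin 2 ⊕ Fin 2}, i ≠ j → i ≠ -j → C3 τ (yu ν μ S) z i j → C3 τ (yu ν μ S) z (GK.sk 1 i) (GK.sk 1 j) :=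
    fun a b c => m1.c3 Y Z a b c
  have t3 : ∀ {i j : Fin 2 ⊕ Fin 2}, i ≠ j → i ≠ -j → C3 τ (yu ν μ S) z i j →
      C3 τ (yu ν μ S) z (Sum.map (Equiv.swap 0 1) (Equiv.swap 0 1) i) (Sum.map (Equiv.swap 0 1) (Equiv.swap 0 1) j) :=
    fun a b c => mw.c3 Y Z a b c
  have c10 : C3 τ (yu ν μ S) z (Sum.inl 1) (Sum.inl 0) := base
  have c10' : C3 τ (yu ν μ S) z (Sum.inl 1) (Sum.inr 0) := t1 (by decide) (by decide) c10
  have c1'0 : C3 τ (yu ν μ S) z (Sum.inr 1) (Sum.inl 0) := t2 (by decide) (by decide) c10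
  have c1'0' : C3 τ (yu ν μ S) z (Sum.inr 1) (Sum.inr 0) := t2 (by decide) (by decide) c10'
  have c01 : C3 τ (yu ν μ S) z (Sum.inl 0) (Sum.inl 1) := t3 (by decide) (by decide) c10
  have c01' : C3 τ (yu ν μ S) z (Sum.inl 0) (Sum.inr 1) := t3 (by decide) (by decide) c10'
  have c0'1 : C3 τ (yu ν μ S) z (Sum.inr 0) (Sum.inl 1) := t3 (by decide) (by decide) c1'0
  have c0'1' : C3 τ (yu ν μ S) z (Sum.inr 0) (Sum.inr 1) := t3 (by decide) (by decide) c1'0'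
  rcases i with i | i <;> rcases j with j | j <;> fin_cases i <;> fin_cases j <;>
    first
    | exact absurd rfl h1
    | exact absurd rfl h2
    | assumption

end B2

end two

end Cfsg.Agent.GK.Un
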