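import Cfsg.Agent.GK.Un16

/-!
The main theorem in even dimension.
-/

set_option autoImplicit false
set_option linter.unusedSectionVars false
set_option linter.unusedVariables false
set_option linter.unusedSimpArgs false

namespace Cfsg.Agent.GK.Un

open Subgroup Cfsg.Agent.Stb
open scoped commutatorElement
open Om (Mo_emb2_fst Mo_emb2_snd Mo_emb2_out)

universe v

/-- the complete set of relations for the nondegenerate part -/
theorem hr_zero {I K Γ : Type*} [InvolutiveNeg I] [DecidableEq I] [Field K] [Group Γ] {τ : K →+* K} {y : I → I → K → Γ} {z : I → K → Γ}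
    (Y : Y0 τ y) (Z : ZD τ y z) {W : Type*} [AddCommGroup W] [Module K W] {h0 : W → W → K} (H : Herm τ h0)
    (h3 : ∀ {i j}, i ≠ j → i ≠ -j → C3 τ y z i j) : HR τ h0 (PZ τ) y (fun i (_ : W) c => z i c) where
  ne := Y.ne
  two := Y.two
  nt := by
    obtain ⟨θ, hθ⟩ := Y.T.nid
    exact ⟨0, θ - τ θ, H.zero.P_skew θ, fun e => hθ (sub_eq_zero.1 e).symm⟩
  symm := Y.symm
  add := Y.add
  zmul i {w c w' c'} h h' := by
    obtain ⟨rfl, h⟩ := h
    obtain ⟨rfl, h'⟩ := h'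
    rw [H.zero.zero_left, sub_zero]
    exact (Z.add i c c' (eq_neg_of_add_eq_zero_right h) (eq_neg_of_add_eq_zero_right h')).symm
  c1 := Y.c1
  c2 h h' a b := Z.zr h h' a b
  c3 {i j} h h' {w c} hP b := h3 h h' c (eq_neg_of_add_eq_zero_right hP.2) b
  c4 := Y.c4
  c5 {i k l} h1 h2 h3 h4 {w c} hP a :=
    commutatorElement_eq_one_iff_commute.2 (Y.c5 Z h1 h2 h3 h4 (eq_neg_of_add_eq_zero_right hP.2) a)
  c6 {i j} h h' {w c w' c'} hP hP' := by
    obtain ⟨rfl, hP⟩ := hP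
    obtain ⟨rfl, hP'⟩ := hP'
    rw [H.zero.zero_left, neg_zero, Y.zero h h']
    exact commutatorElement_eq_one_iff_commute.2 (Y.c6 Z h h' (h3 h h') (eq_neg_of_add_eq_zero_right hP)
      (eq_neg_of_add_eq_zero_right hP'))

attribute [local instance] Stb.sumNeg

section mp
variable {F : Type v} [Field F] {l : Type*} [Fintype l] [DecidableEq l] {Γ G : Type*} [Group Γ] [Group G]

theorem map_yu (π : Γ →* G) (ν : F) (μ : Matrix.SpecialLinearGroup l F →* Γ) (S : l → Γ) (p q : l ⊕ l) (a : F) :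
    π (yu ν μ S p q a) = yu ν (π.comp μ) (fun i => π (S i)) p q a := by
  have h1 : π (sp S p) = sp (fun i => π (S i)) p := by
    rcases p with p | p
    · exact map_one π
    · rfl
  have h2 : π (sq S q) = sq (fun i => π (S i)) q := by
    rcases q with q | q
    · rfl
    · exact map_one π
  have h3 : ∀ (i j : l) (a : F), π (Om.XX μ i j a) = Om.XX (π.comp μ) i j a := by
    intro i j a
    by_cases h : i ≠ j
    · rw [Om.XX_eq h, Om.XX_eq h]; rfl
    · have e1 : Om.XX μ i j a = 1 := dif_neg h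
      have e2 : Om.XX (π.comp μ) i j a = 1 := dif_neg h
      rw [e1, e2, map_one]
  unfold yu
  rw [map_mul, map_mul, map_inv, map_mul, h1, h2, h3]

theorem map_SF (π : Γ →* G) (μ : Matrix.SpecialLinearGroup l F →* Γ) (s : Γ) (o i : l) : π (SF μ s o i) = SF (π.comp μ) (π s) o i := by
  unfold SF
  split_ifs with h
  · rw [map_mul, map_mul, map_inv]; rfl
  · exact map_one π

end mp

section ev
variable {F : Type v} [Field F] {l : Type} [Fintype l] [DecidableEq l] {W Γ Δ : Type*} [AddCommGroup W] [Module F W] [Group Γ] [Group Δ]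
variable {τ : F →+* F} {ν : F} {h0 : W → W → F} {yG : (l ⊕ l) → (l ⊕ l) → F → Γ} {zG : (l ⊕ l) → W → F → Γ}
variable {ρ : Γ →* (((l ⊕ l → F) × W) ≃ₗ[F] ((l ⊕ l → F) × W))} {σ : Matrix.SpecialLinearGroup l F →* Γ} {SG : l → Γ}
variable {μ : Matrix.SpecialLinearGroup l F →* Δ} {s : Δ} {o : l} {z : l ⊕ l → F → Δ}

/-- the data in the presented group -/
structure EV (τ : F →+* F) (ν : F) (μ : Matrix.SpecialLinearGroup l F →* Δ) (s : Δ) (o : l) (z : l ⊕ l → F → Δ) : Prop where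
  U : UE τ ν μ (SF μ s o)
  V : UH τ ν μ (SF μ s o)
  Z : ZD τ (yu ν μ (SF μ s o)) z
  c3 : ∀ {i j : l ⊕ l}, i ≠ j → i ≠ -j → C3 τ (yu ν μ (SF μ s o)) z i j
  hF : ∀ i, SF μ s o i = z (Sum.inl i) (-ν⁻¹) * z (Sum.inr i) ν * z (Sum.inl i) (-ν⁻¹)
  b0 : B0 μ s o

/-- the data in the target -/
structure PI (C : CG τ ν h0 (PF τ h0) yG zG ρ σ SG) (μ : Matrix.SpecialLinearGroup l F →* Δ) (s : Δ) (o : l) (π : Δ →* Γ) : Prop where
  hμ : ∀ M, π (μ M) = σ M
  hs : π s = SG o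

variable (C : CG τ ν h0 (PF τ h0) yG zG ρ σ SG) {π : Δ →* Γ} (Q : PI C μ s o π) (E : EV τ ν μ s o z) (H : Herm τ h0)

include Q in
theorem PI.sf (i : l) : π (SF μ s o i) = SG i := by
  have e : π.comp μ = σ := MonoidHom.ext Q.hμ
  rw [map_SF, e, Q.hs, C.sf]

include Q in
theorem PI.yy {p q : l ⊕ l} (h1 : p ≠ q) (h2 : p ≠ -q) (a : F) : π (yu ν μ (SF μ s o) p q a) = yG p q a := by
  have e : π.comp μ = σ := MonoidHom.ext Q.hμ
  have e2 : (fun i => π (SF μ s o i)) = SG := funext (PI.sf C Q)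
  rw [map_yu, e, e2, C.yeq h1 h2]

include Q E in
theorem PI.zz (p : l ⊕ l) {c : F} (hc : τ c = -c) : π (z p c) = zG p 0 c := by
  have Y := E.U.y0
  obtain ⟨q, hq1, hq2⟩ := Y.two p
  have h1 : p ≠ q := hq1.symm
  have h2 : p ≠ -q := fun e => hq2 (by rw [e, neg_neg])
  have h3 : -q ≠ p := fun e => h2 e.symm
  have h4 : -q ≠ -p := fun e => h1 (neg_inj.1 e).symm
  obtain ⟨a, b, rfl⟩ := Y.T.skew' hc
  rw [← E.Z.zr h1 h2, map_commutatorElement, Q.yy C h1 h2, Q.yy C h3 h4, C.hr.c2 h1 h2]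

include Q E H in
/-- the action -/
theorem even_ha : HA τ h0 (PZ τ) (yu ν μ (SF μ s o)) (fun p (_ : W) c => z p c) (ρ.comp π) where
  act_y {i j} h1 h2 a v := by
    change ρ (π _) v = _
    rw [Q.yy C h1 h2]; exact C.A.act_y h1 h2 a v
  act_z i {w c} hP v := by
    obtain ⟨rfl, hc⟩ := hP
    change ρ (π (z i c)) v = _
    rw [Q.zz C E i (eq_neg_of_add_eq_zero_right hc)]
    exact C.A.act_z i (PZ.full H ⟨rfl, hc⟩) v
  form g u v := C.A.form (π g) u v

include E H in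
theorem even_hr : HR τ h0 (PZ τ) (yu ν μ (SF μ s o)) (fun p (_ : W) c => z p c) := hr_zero E.U.y0 E.Z H E.c3

include E H in
theorem mu_gp : μ.range ⊔ zpowers s ≤ gp (HX (PZ τ) (yu ν μ (SF μ s o)) (fun p (_ : W) c => z p c)) (fun _ _ => True) := by
  have R := even_hr (W := W) E H
  have hPn : PZ τ (0 : W) ν := ⟨rfl, by rw [E.U.hν]; ring⟩
  have hPi : PZ τ (0 : W) (-ν⁻¹) := ⟨rfl, by rw [map_neg, map_inv₀, E.U.hν, inv_neg]; ring⟩
  refine sup_le ?_ ?_
  · rw [MonoidHom.range_eq_map, map_le_iff_le_comap]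
    have : (gp (HX (PZ τ) (yu ν μ (SF μ s o)) (fun p (_ : W) c => z p c)) (fun _ _ => True)).comap μ = ⊤ := by
      apply H40.sl_eq_top_of_transvections
      intro i j hij a
      rw [mem_comap]
      change μ (tvl hij a) ∈ _
      rw [← yu_lr (ν := ν) (S := SF μ s o) hij]
      exact X_le_gp (lr_ne hij) trivial (HR.y_mem Sum.inl_ne_inr (lr_ne hij) a)
    rw [this]
  · rw [zpowers_le]
    have hso : s = z (Sum.inl o) (-ν⁻¹) * z (Sum.inr o) ν * z (Sum.inl o) (-ν⁻¹) := by rw [← E.hF o, SF_o E.b0]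
    have z1 : ∀ (p : l ⊕ l) {c : F}, PZ τ (0 : W) c → z p c ∈ gp (HX (PZ τ) (yu ν μ (SF μ s o)) (fun p (_ : W) c => z p c)) (fun _ _ => True) := by
      intro p c hc
      refine X_le_gp (k := p) (l := p) (fun e => R.ne p e.symm) trivial ?_
      exact HR.z_mem (z := fun p (_ : W) c => z p c) p hc
    have hm := mul_mem (mul_mem (z1 (Sum.inl o) hPi) (z1 (Sum.inr o) hPn)) (z1 (Sum.inl o) hPi)
    rw [← hso] at hm
    exact hm

include Q E H in
/-- **Injectivity in even dimension.** -/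
theorem even_inj [Nonempty l] (hn : ∀ r : F, τ r = r → r ≠ 0 → ∃ d : Fˣ, ((nn τ d : Fˣ) : F) = r) {g : Δ}
    (hg : g ∈ gp (HX (PZ τ) (yu ν μ (SF μ s o)) (fun p (_ : W) c => z p c)) (fun _ _ => True)) (h1 : π g = 1) : g = 1 := by
  refine ker_even H.zero (even_hr E H) (even_ha C Q E H) E.V E.hF hn (fun w c h => h.1) hg ?_
  change ρ (π g) = 1
  rw [h1, map_one]

end ev

end Cfsg.Agent.GK.Un
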