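import Cfsg.Agent.GK.Un17

/-!
The finite sets of relations, in the presented group and in the concrete group.
-/

set_option autoImplicit false
set_option linter.unusedSectionVars false
set_option linter.unusedVariables false
set_option linter.unusedSimpArgs false

namespace Cfsg.Agent.GK.Un

open Subgroup Cfsg.Agent.Stb
open scoped commutatorElement
open Om (Mo_emb2_fst Mo_emb2_snd Mo_emb2_out)

attribute [local instance] Stb.sumNeg

universe v

section ev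
variable {F : Type v} [Field F] [Fintype F] {l : Type} [Fintype l] [DecidableEq l] {Δ : Type*} [Group Δ]
variable {τ : F →+* F} {ν : F} {μ : Matrix.SpecialLinearGroup l F →* Δ} {s : Δ} {o o' : l} {h : o ≠ o'} {ζ : Fˣ} {e : F}

theorem ev_three (T : Tau τ) (hν : τ ν = -ν) (ν0 : ν ≠ 0) (hζ : IsGen ζ) (hn : ∀ r : F, τ r = r → r ≠ 0 → ∃ d : Fˣ, ((nn τ d : Fˣ) : F) = r)
    (three : ∀ i j : l, ∃ k, k ≠ i ∧ k ≠ j) (he : e + τ e = 1) (B : BR τ ν μ s h ζ) (f : FR τ ν μ s h e) : ∃ z, EV τ ν μ s o z := by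
  obtain ⟨V, U⟩ := B.ue T hν ν0 hζ hn three
  obtain ⟨z, Z⟩ := U.y0.exists_zd
  refine ⟨z, U, V, Z, ?_, ff_of (z := fun p (_ : F) c => z p c) B.toB0 U (fun h1 h2 a b => Z.zr h1 h2 a b) he f, B.toB0⟩
  intro i j h1 h2
  obtain ⟨k, hk1, hk2⟩ := three (ab i) (ab j)
  have g1 : ∀ {p : l ⊕ l}, k ≠ ab p → p ≠ Sum.inl k ∧ p ≠ -(Sum.inl k) := by
    intro p hp
    constructor
    · rintro rfl; exact hp rfl
    · rintro rfl; exact hp rfl
  exact U.y0.c3_of_three Z h1 h2 (g1 hk1).1 (g1 hk1).2 (g1 hk2).1 (g1 hk2).2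

end ev

section ev2
variable {F : Type v} [Field F] [Fintype F] {Δ : Type*} [Group Δ]
variable {τ : F →+* F} {ν : F} {μ : Matrix.SpecialLinearGroup (Fin 2) F →* Δ} {s : Δ} {h : (0 : Fin 2) ≠ 1} {ζ : Fˣ} {e : F}

theorem ev_two {q : ℕ} {k : Δ} (T : Tau τ) (hν : τ ν = -ν) (ν0 : ν ≠ 0) (hζ : IsGen ζ) (hq : ∀ a : F, τ a = a ^ q) (hF : Fintype.card F = q ^ 2)
    (hn : ∀ r : F, τ r = r → r ≠ 0 → ∃ d : Fˣ, ((nn τ d : Fˣ) : F) = r)
    (he : e + τ e = 1) (B : B2 τ ν μ s h ζ k) (f : FR τ ν μ s h e) (r1 : C3R τ ν μ s h e 1) (r2 : C3R τ ν μ s h e ζ) :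
    ∃ z, EV τ ν μ s 0 z := by
  have V := B.uh T hν ν0 hζ hq hF
  have U := B.ue T hν ν0 hζ hq hF hn
  obtain ⟨z, Z⟩ := U.y0.exists_zd
  exact ⟨z, U, V, Z, fun h1 h2 => B.c3all T hν ν0 hζ hq hF hn Z he r1 r2 h1 h2,
    ff_of (z := fun p (_ : F) c => z p c) b0_two U (fun h1 h2 a b => Z.zr h1 h2 a b) he f, b0_two⟩

end ev2

section cg
variable {F : Type v} [Field F] {l : Type} [Fintype l] [DecidableEq l] {W Γ : Type*} [AddCommGroup W] [Module F W] [Group Γ]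
variable {τ : F →+* F} {ν : F} {h0 : W → W → F} {P : W → F → Prop} {yG : (l ⊕ l) → (l ⊕ l) → F → Γ} {zG : (l ⊕ l) → W → F → Γ}
variable {ρ : Γ →* (((l ⊕ l → F) × W) ≃ₗ[F] ((l ⊕ l → F) × W))} {σ : Matrix.SpecialLinearGroup l F →* Γ} {S : l → Γ}

namespace CG
variable (C : CG τ ν h0 P yG zG ρ σ S)
include C

theorem P_sk {c : F} (hc : τ c = -c) : P 0 c := by
  obtain ⟨a, rfl⟩ := C.T.skew hc
  exact C.H.P_skew a

theorem zd : ZD τ (yu ν σ S) (fun p c => zG p 0 c) where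
  zr {i j} h1 h2 a b := by
    have h3 : -j ≠ i := fun e => h2 e.symm
    have h4 : -j ≠ -i := fun e => h1 (neg_inj.1 e).symm
    rw [C.yeq h1 h2, C.yeq h3 h4, C.hr.c2 h1 h2]
  add i c c' hc hc' := by
    have := C.hr.zmul i (C.P_sk hc) (C.P_sk hc')
    rw [add_zero, C.H.zero_left, sub_zero] at this
    exact this.symm

theorem ext_eh {g g' : Γ} (h1 : ∀ p, ρ g (eh p) = ρ g' (eh p)) (h2 : ∀ w, ρ g (wh w) = ρ g' (wh w)) : g = g' := by
  apply C.inj
  apply LinearEquiv.toLinearMap_injective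
  apply ext_eh'
  · exact h1
  · exact h2

theorem S_wh (i : l) (w : W) : ρ (S i) (wh w) = wh w := by
  rw [C.actS]
  symm
  apply fl_ext
  · rw [wh_fst, wh_fst, mul_zero]
  · rw [wh_fst, wh_fst, mul_zero]
  · intro p _ _; rfl
  · rfl

theorem σ_wh (M : Matrix.SpecialLinearGroup l F) (w : W) : ρ (σ M) (wh w) = wh w := by
  rw [C.act]
  refine Prod.ext ?_ rfl
  funext p
  rcases p with p | p
  · change (M : Matrix l l F).mulVec (fun _ => 0) p = 0
    have : (fun _ : l => (0 : F)) = 0 := rfl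
    rw [this, Matrix.mulVec_zero]; rfl
  · change (((M⁻¹ : Matrix.SpecialLinearGroup l F) : Matrix l l F).map τ).transpose.mulVec (fun _ => 0) p = 0
    have : (fun _ : l => (0 : F)) = 0 := rfl
    rw [this, Matrix.mulVec_zero]; rfl

theorem inv_wh {g : Γ} {w : W} (hg : ρ g (wh w) = wh w) : ρ g⁻¹ (wh w) = wh w := by
  have := congrArg (ρ g⁻¹) hg
  rw [← hrho_mul, inv_mul_cancel, map_one] at this
  exact this.symm

theorem H_wh {i j : l} (h : i ≠ j) (c : Fˣ) (w : W) : ρ (HH σ S h c) (wh w) = wh w := by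
  unfold HH
  rw [hrho_mul, hrho_mul, hrho_mul, C.inv_wh (C.σ_wh _ w), C.inv_wh (C.S_wh i w), C.σ_wh, C.S_wh]

theorem HH_mn {i j : l} (h : i ≠ j) (c : Fˣ) : Mn ρ (HH σ S h c) id
    (fun p => if p = Sum.inl i then (((nn τ c)⁻¹ : Fˣ) : F) else if p = Sum.inr i then ((nn τ c : Fˣ) : F) else 1) where
  neg _ := rfl
  inj := Function.injective_id
  act p := C.act_HH h c p

theorem HH_conj {i j : l} (h : i ≠ j) (c : Fˣ) {p q : l ⊕ l} (h1 : p ≠ q) (h2 : p ≠ -q) (a : F) :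
    HH σ S h c * yG p q a * (HH σ S h c)⁻¹ = yG p q ((if p = Sum.inl i then (((nn τ c)⁻¹ : Fˣ) : F) else if p = Sum.inr i then ((nn τ c : Fˣ) : F) else 1) *
      τ (if q = Sum.inl i then (((nn τ c)⁻¹ : Fˣ) : F) else if q = Sum.inr i then ((nn τ c : Fˣ) : F) else 1) * a) :=
  C.inj ((C.HH_mn h c).conj_y C.H C.ne C.A h1 h2 a)

/-- diagonal action of the torus -/
theorem D_eh {i j : l} (h : i ≠ j) (c : Fˣ) (p : l ⊕ l) : ∃ d : F, ρ (σ (emb2 h (hm c))) (eh p) = d • eh p := by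
  by_cases h1 : ab p = i
  · rcases p with p | p
    · change p = i at h1; subst h1
      exact ⟨_, by rw [C.act, LM_eh_inl τ (Mo_emb2_fst h c)]⟩
    · change p = i at h1; subst h1
      exact ⟨_, by rw [C.act, LM_eh_inr τ (Mo_emb2_fst h c)]⟩
  by_cases h2 : ab p = j
  · rcases p with p | p
    · change p = j at h2; subst h2
      exact ⟨_, by rw [C.act, LM_eh_inl τ (Mo_emb2_snd h c)]⟩
    · change p = j at h2; subst h2
      exact ⟨_, by rw [C.act, LM_eh_inr τ (Mo_emb2_snd h c)]⟩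
  · rcases p with p | p
    · have h1' : p ≠ i := h1
      have h2' : p ≠ j := h2
      exact ⟨_, by rw [C.act, LM_eh_inl τ (Mo_emb2_out h h1' h2' (hm c))]⟩
    · have h1' : p ≠ i := h1
      have h2' : p ≠ j := h2
      exact ⟨_, by rw [C.act, LM_eh_inr τ (Mo_emb2_out h h1' h2' (hm c))]⟩

end CG

end cg

section cg2
variable {F : Type v} [Field F] [Fintype F] {W Γ : Type*} [AddCommGroup W] [Module F W] [Group Γ]
variable {τ : F →+* F} {ν : F} {h0 : W → W → F} {P : W → F → Prop} {yG : (Fin 2 ⊕ Fin 2) → (Fin 2 ⊕ Fin 2) → F → Γ} {zG : (Fin 2 ⊕ Fin 2) → W → F → Γ}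
variable {ρ : Γ →* (((Fin 2 ⊕ Fin 2 → F) × W) ≃ₗ[F] ((Fin 2 ⊕ Fin 2 → F) × W))} {σ : Matrix.SpecialLinearGroup (Fin 2) F →* Γ} {S : Fin 2 → Γ}

theorem CG.b2 (C : CG τ ν h0 P yG zG ρ σ S) (h : (0 : Fin 2) ≠ 1) (ζ : Fˣ) : B2 τ ν σ (S 0) h ζ (HH σ S h ζ) where
  hk := by unfold HH; group
  e1 := by rw [C.sf]; exact C.SS _ _
  e2 := by rw [C.sf, C.rall h, map_one]
  e4 := C.rsq h 1
  e6 := by
    apply C.ext_eh
    · intro p
      obtain ⟨d, hd⟩ := C.D_eh h ζ p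
      rw [hrho_mul, hrho_mul, hd, C.act_HH, map_smul, map_smul, C.act_HH, hd, smul_comm]
    · intro w
      rw [hrho_mul, hrho_mul, C.H_wh, C.σ_wh, C.H_wh]
  e7 := by
    rw [C.hσ, C.hσ, C.HH_conj h ζ (by decide) (by decide), if_pos rfl, if_neg (by decide), if_neg (by decide), map_one, mul_one, mul_one]
  e8 := by
    rw [C.sf]
    apply C.ext_eh
    · intro p
      rw [hrho_mul, hrho_mul, (C.mn 1).act, map_smul, C.act_HH, C.act_HH, map_smul, (C.mn 1).act, smul_comm]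
      congr 2
      rcases p with p | p <;> fin_cases p <;> rfl
    · intro w
      rw [hrho_mul, hrho_mul, C.H_wh, C.S_wh, C.H_wh]
  e9 := by
    rw [C.hσ, C.hσ, C.HH_conj h ζ (by decide) (by decide), if_neg (by decide), if_neg (by decide), if_neg (by decide), if_pos rfl, one_mul,
      nn_coe, map_mul, C.T.ττ, mul_one, mul_comm]
  st1 := by rw [C.sf]; exact C.star h (by rw [map_one])
  st2 := by rw [C.sf]; exact C.star h (by ring)

theorem CG.c3r (C : CG τ ν h0 P yG zG ρ σ S) (h : (0 : Fin 2) ≠ 1) {e : F} (he : e + τ e = 1) (b : F) : C3R τ ν σ (S 0) h e b := by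
  refine (BC_iff (h := h) C.ue C.zd e b he rfl).1 ?_
  have n1 : (Sum.inl 1 : Fin 2 ⊕ Fin 2) ≠ Sum.inl 0 := by decide
  have n2 : (Sum.inl 1 : Fin 2 ⊕ Fin 2) ≠ -(Sum.inl 0) := Sum.inl_ne_inr
  have n3 : (Sum.inr 1 : Fin 2 ⊕ Fin 2) ≠ Sum.inl 0 := Sum.inr_ne_inl
  have n4 : (Sum.inr 1 : Fin 2 ⊕ Fin 2) ≠ -(Sum.inl 0) := by decide
  have := C.hr.c3 n1 n2 (C.P_sk C.hν) b
  unfold BC
  rw [C.yeq n1 n2, C.yeq n3 n4]
  rw [smul_zero] at this
  exact this

end cg2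

end Cfsg.Agent.GK.Un
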