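import Cfsg.Agent.GK.Un18

/-!
The double coset of a long root element with nontrivial anisotropic part.
-/

set_option autoImplicit false
set_option linter.unusedSectionVars false
set_option linter.unusedVariables false
set_option linter.unusedSimpArgs false

namespace Cfsg.Agent.GK.Un

open Subgroup Cfsg.Agent.Stb
open scoped commutatorElement

universe v

/-- a function which is almost additive -/
theorem almost_add {V G : Type*} [AddCommGroup V] [Group G] (f : V → G) (hf : ∀ u u', u ≠ 0 → u' ≠ 0 → u + u' ≠ 0 → f u * f u' = f (u + u'))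
    {u u' : V} (h1 : u ≠ 0) (h2 : u' ≠ 0) (h3 : u + u' ≠ 0) (h4 : u - u' ≠ 0) (h5 : u + u' + u' ≠ 0) : f u' * f (-u') = 1 := by
  have hc : ∀ u u', u ≠ 0 → u' ≠ 0 → u + u' ≠ 0 → Commute (f u) (f u') := fun a b ha hb hab => by
    change _ * _ = _ * _
    rw [hf a b ha hb hab, hf b a hb ha (by rwa [add_comm]), add_comm]
  have n1 : -u ≠ 0 := neg_ne_zero.2 h1
  have n2 : -u' ≠ 0 := neg_ne_zero.2 h2
  have n3 : -u - u' ≠ 0 := by
    intro e; apply h3; rw [← neg_eq_zero, neg_add']; exact e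
  -- c(u) = f(-u') f(u')
  have star : ∀ a b : V, a ≠ 0 → b ≠ 0 → a + b ≠ 0 → f a * f (-a) = f (-b) * f b := by
    intro a b ha hb hab
    have m : -a - b ≠ 0 := by intro e; apply hab; rw [← neg_eq_zero, neg_add']; exact e
    have e1 : f (-a - b) * f b = f (-a) := by
      rw [hf _ _ m hb (by rw [sub_add_cancel]; exact neg_ne_zero.2 ha), sub_add_cancel]
    have e2 : f a * f (-a - b) = f (-b) := by
      have k : a + (-a - b) = -b := by abel
      rw [hf _ _ ha m (by rw [k]; exact neg_ne_zero.2 hb), k]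
    rw [← e1, ← mul_assoc, e2]
  have c1 := star u u' h1 h2 h3
  have c2 := star (u + u') u' h3 h2 h5
  have e3 : f (u + u') = f u * f u' := (hf u u' h1 h2 h3).symm
  have e4 : f (-(u + u')) = f (-u') * f (-u) := by
    have k : -(u + u') = -u' + -u := by abel
    rw [k, hf _ _ n2 n1 (by rw [← k]; exact neg_ne_zero.2 h3)]
  rw [e3, e4] at c2
  have hcm1 : Commute (f u) (f u') := hc u u' h1 h2 h3
  have hcm2 : Commute (f u) (f (-u')) := hc u (-u') h1 n2 (by rwa [← sub_eq_add_neg])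
  have e5 : f u * f u' * (f (-u') * f (-u)) = (f u' * f (-u')) * (f u * f (-u)) := by
    calc f u * f u' * (f (-u') * f (-u)) = (f u * (f u' * f (-u'))) * f (-u) := by group
      _ = _ := by rw [(hcm1.mul_right hcm2).eq]; group
  rw [e5, ← c1] at c2
  exact mul_eq_right.1 c2

section env
variable {I K W Δ : Type*} [InvolutiveNeg I] [DecidableEq I] [Field K] [AddCommGroup W] [Module K W] [Group Δ] [Fintype I]
variable {τ : K →+* K} {h0 : W → W → K}

theorem hh_add_left (H : HF τ h0 (PF τ h0)) (u v w : (I → K) × W) : hh τ h0 (u + v) w = hh τ h0 u w + hh τ h0 v w := by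
  unfold hh
  rw [Prod.snd_add, H.add_left]
  have : ∑ p, τ ((u + v).1 p) * w.1 (-p) = ∑ p, τ (u.1 p) * w.1 (-p) + ∑ p, τ (v.1 p) * w.1 (-p) := by
    rw [← Finset.sum_add_distrib]
    exact Finset.sum_congr rfl fun p _ => by rw [Prod.fst_add, Pi.add_apply, map_add, add_mul]
  rw [this]; ring

/-- the environment -/
structure SE (τ : K →+* K) (h0 : W → W → K) (r : Δ →* (((I → K) × W) ≃ₗ[K] ((I → K) × W))) (D0 : Subgroup Δ) (o : I) (v : Δ) (w0 : W) (c0 : K) :
    Prop where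
  H : Herm τ h0
  ne : ∀ i : I, -i ≠ i
  form : ∀ g u w, hh τ h0 (r g u) (r g w) = hh τ h0 u w
  inj0 : ∀ g ∈ D0, r g = 1 → g = 1
  fixW : ∀ g ∈ D0, ∀ w, r g (wh w) = wh w
  hw0 : w0 ≠ 0
  hv : ∀ x, r v x = x + (c0 * x.1 (-o) - h0 w0 x.2) • eh o + x.1 (-o) • wh w0
  c1 : ∀ g ∈ D0, r g (eh o) = eh o → Commute g v
  c2 : ∀ g ∈ D0, ∀ (j : I) (a b : K), j ≠ o → j ≠ -o → b ≠ 0 → r g (eh o) = a • eh o + b • eh j →
    (∃ h ∈ D0, ∃ a' ∈ D0, v * (g * v * g⁻¹) = h * v * h⁻¹ * a') ∨ v * (g * v * g⁻¹) ∈ D0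
  trans : ∀ {i j : I}, i ≠ j → i ≠ -j → ∀ α β : K, ¬ (α = 0 ∧ β = 0) → ∃ g ∈ D0, ∃ j' : I, j' ≠ o ∧ j' ≠ -o ∧
    r g (eh o) = α • eh i + β • eh j ∧ ∃ γ δ : K, r g (eh j') = γ • eh i + δ • eh j

namespace SE
variable {r : Δ →* (((I → K) × W) ≃ₗ[K] ((I → K) × W))} {D0 : Subgroup Δ} {o : I} {v : Δ} {w0 : W} {c0 : K}
variable (E : SE τ h0 r D0 o v w0 c0)

open scoped Classical in
/-- the conjugates of `v` -/
noncomputable def Z (r : Δ →* (((I → K) × W) ≃ₗ[K] ((I → K) × W))) (D0 : Subgroup Δ) (o : I) (v : Δ) (u : (I → K) × W) : Δ :=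
  if h : ∃ g ∈ D0, r g (eh o) = u then h.choose * v * (h.choose)⁻¹ else 1

/-- the orbit -/
def Or (r : Δ →* (((I → K) × W) ≃ₗ[K] ((I → K) × W))) (D0 : Subgroup Δ) (o : I) (u : (I → K) × W) : Prop :=
  u = 0 ∨ ∃ g ∈ D0, r g (eh o) = u

omit [Fintype I] in
theorem Z_zero : Z r D0 o v (0 : (I → K) × W) = 1 := by
  unfold Z
  rw [dif_neg]
  rintro ⟨g, -, hg⟩
  exact eh_ne o ((map_eq_zero_iff (r g) (r g).injective).1 hg)

include E

theorem Z_eq {g : Δ} (hg : g ∈ D0) {u : (I → K) × W} (h : r g (eh o) = u) : Z r D0 o v u = g * v * g⁻¹ := by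
  have hex : ∃ g ∈ D0, r g (eh o) = u := ⟨g, hg, h⟩
  unfold Z
  rw [dif_pos hex]
  obtain ⟨h1, h2⟩ := hex.choose_spec
  set g' := hex.choose
  have h3 : r (g⁻¹ * g') (eh o) = eh o := by
    rw [hrho_mul, h2, ← h, ← hrho_mul, inv_mul_cancel, map_one]; rfl
  have h4 := (E.c1 _ (mul_mem (inv_mem hg) h1) h3).eq
  calc g' * v * g'⁻¹ = g * ((g⁻¹ * g') * v) * g'⁻¹ := by group
    _ = _ := by rw [h4]; group

theorem Or_conj {g : Δ} (hg : g ∈ D0) {u : (I → K) × W} (h : Or r D0 o u) : Or r D0 o (r g u) := by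
  rcases h with rfl | ⟨g', hg', rfl⟩
  · left; exact map_zero _
  · right; exact ⟨g * g', mul_mem hg hg', hrho_mul _ _ _⟩

theorem Z_conj {g : Δ} (hg : g ∈ D0) {u : (I → K) × W} (h : Or r D0 o u) : g * Z r D0 o v u * g⁻¹ = Z r D0 o v (r g u) := by
  rcases h with rfl | ⟨g', hg', rfl⟩
  · rw [map_zero, Z_zero]; group
  · rw [E.Z_eq hg' rfl, E.Z_eq (mul_mem hg hg') (hrho_mul _ _ _)]; group

theorem snd {g : Δ} (hg : g ∈ D0) (u : (I → K) × W) : (r g u).2 = u.2 := by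
  have H := E.H.full
  have key : ∀ (w : W) (x : (I → K) × W), hh τ h0 (wh w) x = h0 w x.2 := by
    intro w x
    unfold hh
    rw [Finset.sum_eq_zero, zero_add]
    · rfl
    · intro p _; rw [wh_fst, map_zero, zero_mul]
  have h1 : ∀ w, h0 w ((r g u).2 - u.2) = 0 := by
    intro w
    have h2 := E.form g (wh w) u
    rw [E.fixW g hg, key, key] at h2
    rw [sub_eq_add_neg, H.add_right, H.neg_right, h2]; ring
  have := E.H.aniso (h1 _)
  exact sub_eq_zero.1 this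

theorem rZ {u : (I → K) × W} (h : Or r D0 o u) (x : (I → K) × W) :
    r (Z r D0 o v u) x = x + (c0 * hh τ h0 u x - h0 w0 x.2) • u + hh τ h0 u x • wh w0 := by
  have H := E.H.full
  rcases h with rfl | ⟨g, hg, rfl⟩
  · rw [Z_zero, map_one]
    have : hh τ h0 (0 : (I → K) × W) x = 0 := by
      have := hh_smul_left H 0 (0 : (I → K) × W) x
      rwa [zero_smul, map_zero, zero_mul] at this
    rw [this, smul_zero, zero_smul, add_zero, add_zero]; rfl
  · rw [E.Z_eq hg rfl, hrho_mul, hrho_mul, E.hv, map_add, map_add, map_smul, map_smul, E.fixW g hg]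
    have e1 : r g (r g⁻¹ x) = x := by rw [← hrho_mul, mul_inv_cancel, map_one]; rfl
    have e2 : hh τ h0 (r g (eh o)) x = (r g⁻¹ x).1 (-o) := by
      calc hh τ h0 (r g (eh o)) x = hh τ h0 (r g (eh o)) (r g (r g⁻¹ x)) := by rw [e1]
        _ = _ := by rw [E.form, hh_eh_left H]
    rw [e1, e2, E.snd (inv_mem hg)]

theorem Or_snd {u : (I → K) × W} (h : Or r D0 o u) : u.2 = 0 := by
  rcases h with rfl | ⟨g, hg, rfl⟩
  · rfl
  · rw [E.snd hg]; rfl

/-- the union of two double cosets -/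
def SS (r : Δ →* (((I → K) × W) ≃ₗ[K] ((I → K) × W))) (D0 : Subgroup Δ) (o : I) (v : Δ) : Set Δ :=
  {x | ∃ u, Or r D0 o u ∧ ∃ a ∈ D0, x = Z r D0 o v u * a}

omit E in
theorem Or_zero : Or r D0 o (0 : (I → K) × W) := Or.inl rfl

omit E in
theorem D0_SS {a : Δ} (ha : a ∈ D0) : a ∈ SS r D0 o v := ⟨0, Or_zero, a, ha, by rw [Z_zero, one_mul]⟩

omit E in
theorem SS_right {x a : Δ} (hx : x ∈ SS r D0 o v) (ha : a ∈ D0) : x * a ∈ SS r D0 o v := by
  obtain ⟨u, hu, b, hb, rfl⟩ := hx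
  exact ⟨u, hu, b * a, mul_mem hb ha, by group⟩

theorem SS_left {x a : Δ} (hx : x ∈ SS r D0 o v) (ha : a ∈ D0) : a * x ∈ SS r D0 o v := by
  obtain ⟨u, hu, b, hb, rfl⟩ := hx
  refine ⟨r a u, E.Or_conj ha hu, a * b, mul_mem ha hb, ?_⟩
  rw [← E.Z_conj ha hu]; group

theorem n0 : h0 w0 w0 ≠ 0 := fun e => E.hw0 (E.H.aniso e)

/-- evaluation -/
theorem ev {u : (I → K) × W} (h : Or r D0 o u) {a : Δ} (ha : a ∈ D0) : r (Z r D0 o v u * a) (wh w0) = wh w0 - h0 w0 w0 • u := by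
  have h1 : hh τ h0 u (wh w0) = 0 := by
    unfold hh
    rw [E.Or_snd h, E.H.full.zero_left, add_zero, Finset.sum_eq_zero]
    intro p _; rw [wh_fst, mul_zero]
  rw [hrho_mul, E.fixW a ha, E.rZ h, h1, wh_snd, mul_zero, zero_sub, zero_smul, add_zero, neg_smul, sub_eq_add_neg]

theorem SS_inj {x x' : Δ} (hx : x ∈ SS r D0 o v) (hx' : x' ∈ SS r D0 o v) (h : r x = r x') : x = x' := by
  obtain ⟨u, hu, a, ha, rfl⟩ := hx
  obtain ⟨u', hu', a', ha', rfl⟩ := hx'
  have h1 := E.ev hu ha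
  rw [h, E.ev hu' ha'] at h1
  have h2 : u' = u := smul_right_injective _ E.n0 (sub_right_injective h1)
  subst h2
  rw [map_mul, map_mul] at h
  have h3 : r a = r a' := mul_left_cancel h
  have h4 : a * a'⁻¹ = 1 := E.inj0 _ (mul_mem ha (inv_mem ha')) (by rw [map_mul, map_inv, h3, mul_inv_cancel])
  rw [mul_inv_eq_one.1 h4]

/-- vectors in a totally isotropic plane -/
def Pl (i j : I) (u : (I → K) × W) : Prop := ∃ α β : K, u = α • eh i + β • eh j

omit E [Fintype I] in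
theorem Pl.add {i j : I} {u u' : (I → K) × W} (h : Pl i j u) (h' : Pl i j u') : Pl i j (u + u') := by
  obtain ⟨a, b, rfl⟩ := h
  obtain ⟨c, d, rfl⟩ := h'
  exact ⟨a + c, b + d, by module⟩

omit E [Fintype I] in
theorem Pl.smul {i j : I} {u : (I → K) × W} (h : Pl i j u) (c : K) : Pl i j (c • u) := by
  obtain ⟨a, b, rfl⟩ := h
  exact ⟨c * a, c * b, by module⟩

omit E [Fintype I] in
theorem Pl.neg {i j : I} {u : (I → K) × W} (h : Pl i j u) : Pl i j (-u) := by
  rw [← neg_one_smul K]; exact h.smul _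

theorem hh_Pl {i j : I} (h1 : i ≠ j) (h2 : i ≠ -j) {u u' : (I → K) × W} (h : Pl i j u) (h' : Pl i j u') : hh τ h0 u u' = 0 := by
  obtain ⟨a, b, rfl⟩ := h
  obtain ⟨c, d, rfl⟩ := h'
  have H := E.H.full
  have n1 : ¬ (-i = i) := E.ne i
  have n2 : ¬ (-j = j) := E.ne j
  have n3 : ¬ (-i = j) := fun e => h2 (by rw [← e, neg_neg])
  have n4 : ¬ (-j = i) := fun e => h2 e.symm
  rw [hh_add_left H, hh_smul_left H, hh_smul_left H, hh_eh_left H, hh_eh_left H]
  simp only [Prod.fst_add, Prod.smul_fst, Pi.add_apply, Pi.smul_apply, smul_eq_mul, eh_fst, if_neg n1, if_neg n2, if_neg n3, if_neg n4,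
    mul_zero, add_zero]

theorem Pl_Or {i j : I} (h1 : i ≠ j) (h2 : i ≠ -j) {u : (I → K) × W} (h : Pl i j u) : Or r D0 o u := by
  obtain ⟨a, b, rfl⟩ := h
  by_cases h0 : a = 0 ∧ b = 0
  · left; rw [h0.1, h0.2, zero_smul, zero_smul, add_zero]
  · obtain ⟨g, hg, -, -, -, he, -⟩ := E.trans h1 h2 a b h0
    exact Or.inr ⟨g, hg, he⟩

/-- the pointwise stabilizer of the plane -/
def AE (r : Δ →* (((I → K) × W) ≃ₗ[K] ((I → K) × W))) (D0 : Subgroup Δ) (i j : I) : Subgroup Δ where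
  carrier := {g | g ∈ D0 ∧ ∀ x, Pl i j x → r g x = x}
  one_mem' := ⟨one_mem _, fun x _ => by rw [map_one]; rfl⟩
  mul_mem' {a b} ha hb := ⟨mul_mem ha.1 hb.1, fun x hx => by rw [hrho_mul, hb.2 x hx, ha.2 x hx]⟩
  inv_mem' {a} ha := ⟨inv_mem ha.1, fun x hx => by
    have := ha.2 x hx
    conv_lhs => rw [← this]
    rw [← hrho_mul, inv_mul_cancel, map_one]; rfl⟩

theorem AE_comm {i j : I} (h1 : i ≠ j) (h2 : i ≠ -j) {a : Δ} (ha : a ∈ AE r D0 i j) {u : (I → K) × W} (hu : Pl i j u) :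
    Commute a (Z r D0 o v u) := by
  have := E.Z_conj ha.1 (E.Pl_Or h1 h2 hu)
  rw [ha.2 u hu] at this
  exact mul_inv_eq_iff_eq_mul.1 this

theorem Z_fix {i j : I} (h1 : i ≠ j) (h2 : i ≠ -j) {u x : (I → K) × W} (hu : Pl i j u) (hx : Pl i j x) : r (Z r D0 o v u) x = x := by
  have hx2 := E.Or_snd (E.Pl_Or h1 h2 hx)
  rw [E.rZ (E.Pl_Or h1 h2 hu), E.hh_Pl h1 h2 hu hx, hx2, E.H.full.zero_right]
  simp

/-- the product of two conjugates -/
def Good (r : Δ →* (((I → K) × W) ≃ₗ[K] ((I → K) × W))) (D0 : Subgroup Δ) (o : I) (v : Δ) (i j : I) (u u' : (I → K) × W) : Prop :=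
  ∃ a ∈ AE r D0 i j, Z r D0 o v u * Z r D0 o v u' = Z r D0 o v (u + u') * a

theorem good_of_SS {i j : I} (h1 : i ≠ j) (h2 : i ≠ -j) {u u' : (I → K) × W} (hu : Pl i j u) (hu' : Pl i j u')
    (h : Z r D0 o v u * Z r D0 o v u' ∈ SS r D0 o v) : Good r D0 o v i j u u' := by
  obtain ⟨x, hx, a, ha, he⟩ := h
  have e1 := E.ev hx ha
  rw [← he, hrho_mul] at e1
  have e2 := E.ev (E.Pl_Or h1 h2 hu') (one_mem D0)
  have e3 := E.ev (E.Pl_Or h1 h2 hu) (one_mem D0)
  rw [mul_one] at e2 e3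
  rw [e2, map_sub, map_smul, e3, E.Z_fix h1 h2 hu hu'] at e1
  have e4 : h0 w0 w0 • (u + u') = h0 w0 w0 • x := by
    have : wh w0 - h0 w0 w0 • (u + u') = wh w0 - h0 w0 w0 • x := by rw [← e1]; module
    exact sub_right_injective this
  have e5 : u + u' = x := smul_right_injective _ E.n0 e4
  subst e5
  refine ⟨a, ⟨ha, ?_⟩, he⟩
  intro y hy
  have e6 : a = (Z r D0 o v (u + u'))⁻¹ * (Z r D0 o v u * Z r D0 o v u') := by rw [he]; group
  have e7 : r (Z r D0 o v (u + u'))⁻¹ y = y := by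
    have := E.Z_fix h1 h2 (hu.add hu') hy
    conv_lhs => rw [← this]
    rw [← hrho_mul, inv_mul_cancel, map_one]; rfl
  rw [e6, hrho_mul, hrho_mul, E.Z_fix h1 h2 hu' hy, E.Z_fix h1 h2 hu hy, e7]

/-- independent vectors -/
def Ind (i j : I) (u u' : (I → K) × W) : Prop := u.1 i * u'.1 j - u.1 j * u'.1 i ≠ 0

theorem good_ind {i j : I} (h1 : i ≠ j) (h2 : i ≠ -j) {u u' : (I → K) × W} (hu : Pl i j u) (hu' : Pl i j u') (hi : Ind i j u u') :
    Good r D0 o v i j u u' := by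
  apply E.good_of_SS h1 h2 hu hu'
  obtain ⟨α, β, rfl⟩ := hu
  obtain ⟨α', β', rfl⟩ := hu'
  have nij : ¬ (i = j) := h1
  have nji : ¬ (j = i) := fun e => h1 e.symm
  unfold Ind at hi
  simp only [Prod.fst_add, Prod.smul_fst, Pi.add_apply, Pi.smul_apply, smul_eq_mul, eh_fst, if_true, if_neg nij, if_neg nji,
    mul_zero, mul_one, add_zero, zero_add] at hi
  obtain ⟨g, hg, j', hj1, hj2, he, γ, δ, hf⟩ := E.trans h1 h2 α β (by rintro ⟨rfl, rfl⟩; simp at hi)
  -- the determinant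
  have hdet : α * δ - β * γ ≠ 0 := by
    intro h0
    have k1 : r g (δ • eh o - β • eh j') = 0 := by
      rw [map_sub, map_smul, map_smul, he, hf]
      have : δ • (α • eh i + β • eh j) - β • (γ • eh i + δ • eh j) = (α * δ - β * γ) • (eh i : (I → K) × W) := by module
      rw [this, h0, zero_smul]
    have k1' : r g (γ • eh o - α • eh j') = 0 := by
      rw [map_sub, map_smul, map_smul, he, hf]
      have : γ • (α • eh i + β • eh j) - α • (γ • eh i + δ • eh j) = (-(α * δ - β * γ)) • (eh j : (I → K) × W) := by module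
      rw [this, h0, neg_zero, zero_smul]
    have k2 := (map_eq_zero_iff (r g) (r g).injective).1 k1
    have k2' := (map_eq_zero_iff (r g) (r g).injective).1 k1'
    have k3 := congrFun (congrArg Prod.fst k2) j'
    have k3' := congrFun (congrArg Prod.fst k2') j'
    have hjo : ¬ (j' = o) := hj1
    simp only [Prod.fst_sub, Prod.smul_fst, Pi.sub_apply, Pi.smul_apply, smul_eq_mul, eh_fst, if_true, if_neg hjo, mul_zero, mul_one,
      zero_sub, Prod.fst_zero, Pi.zero_apply, neg_eq_zero] at k3 k3'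
    rw [k3, k3'] at hi
    simp at hi
  -- solve
  have hs : r g (((α' * δ - β' * γ) / (α * δ - β * γ)) • eh o + ((α * β' - β * α') / (α * δ - β * γ)) • eh j') = α' • eh i + β' • eh j := by
    rw [map_add, map_smul, map_smul, he, hf]
    have e1 : (α' * δ - β' * γ) / (α * δ - β * γ) * α + (α * β' - β * α') / (α * δ - β * γ) * γ = α' := by
      rw [div_mul_eq_mul_div, div_mul_eq_mul_div, ← add_div, div_eq_iff hdet]; ring
    have e2 : (α' * δ - β' * γ) / (α * δ - β * γ) * β + (α * β' - β * α') / (α * δ - β * γ) * δ = β' := by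
      rw [div_mul_eq_mul_div, div_mul_eq_mul_div, ← add_div, div_eq_iff hdet]; ring
    calc _ = ((α' * δ - β' * γ) / (α * δ - β * γ) * α + (α * β' - β * α') / (α * δ - β * γ) * γ) • (eh i : (I → K) × W) +
        ((α' * δ - β' * γ) / (α * δ - β * γ) * β + (α * β' - β * α') / (α * δ - β * γ) * δ) • eh j := by module
      _ = _ := by rw [e1, e2]
  set x := (α' * δ - β' * γ) / (α * δ - β * γ)
  set y := (α * β' - β * α') / (α * δ - β * γ) with hy
  have hy0 : y ≠ 0 := by rw [hy]; exact div_ne_zero hi hdet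
  obtain ⟨g', hg', he'⟩ : ∃ g' ∈ D0, r g' (eh o) = α' • eh i + β' • eh j := by
    rcases E.Pl_Or h1 h2 (u := α' • eh i + β' • eh j) ⟨α', β', rfl⟩ with h | h
    · exfalso
      have k4 := congrFun (congrArg Prod.fst h) i
      have k5 := congrFun (congrArg Prod.fst h) j
      simp only [Prod.fst_add, Prod.smul_fst, Pi.add_apply, Pi.smul_apply, smul_eq_mul, eh_fst, if_true, if_neg nij, if_neg nji,
        mul_zero, mul_one, add_zero, zero_add, Prod.fst_zero, Pi.zero_apply] at k4 k5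
      rw [k4, k5] at hi
      simp at hi
    · exact h
  have h3 : r (g⁻¹ * g') (eh o) = x • eh o + y • eh j' := by
    rw [hrho_mul, he', ← hs, ← hrho_mul, inv_mul_cancel, map_one]; rfl
  rw [E.Z_eq hg he, E.Z_eq hg' he']
  have e3 : g * v * g⁻¹ * (g' * v * g'⁻¹) = g * (v * ((g⁻¹ * g') * v * (g⁻¹ * g')⁻¹)) * g⁻¹ := by group
  rw [e3]
  refine SS_right (E.SS_left ?_ hg) (inv_mem hg)
  rcases E.c2 _ (mul_mem (inv_mem hg) hg') j' x y hj1 hj2 hy0 h3 with ⟨h, hh, a', ha', e⟩ | h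
  · rw [e, ← E.Z_eq hh rfl]
    exact ⟨_, Or.inr ⟨h, hh, rfl⟩, a', ha', rfl⟩
  · exact D0_SS h

omit E [Fintype I] in
theorem Pl.ind {i j : I} (h1 : i ≠ j) {u : (I → K) × W} (hu : Pl i j u) (h0 : u ≠ 0) : ∃ u', Pl i j u' ∧ Ind i j u u' := by
  obtain ⟨a, b, rfl⟩ := hu
  have nij : ¬ (i = j) := h1
  have nji : ¬ (j = i) := fun e => h1 e.symm
  by_cases ha : a = 0
  · have hb : b ≠ 0 := by rintro rfl; apply h0; rw [ha, zero_smul, zero_smul, add_zero]
    refine ⟨eh i, ⟨1, 0, by simp⟩, ?_⟩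
    unfold Ind
    simp only [Prod.fst_add, Prod.smul_fst, Pi.add_apply, Pi.smul_apply, smul_eq_mul, eh_fst, if_true, if_neg nij, if_neg nji,
      mul_zero, mul_one, add_zero, zero_add, zero_sub]
    exact neg_ne_zero.2 hb
  · refine ⟨eh j, ⟨0, 1, by simp⟩, ?_⟩
    unfold Ind
    simp only [Prod.fst_add, Prod.smul_fst, Pi.add_apply, Pi.smul_apply, smul_eq_mul, eh_fst, if_true, if_neg nij, if_neg nji,
      mul_zero, mul_one, add_zero, zero_add, sub_zero]
    exact ha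

omit E [Fintype I] in
theorem Ind.add {i j : I} {u x y : (I → K) × W} (h : Ind i j u x) (h0 : u.1 i * y.1 j - u.1 j * y.1 i = 0) : Ind i j u (x + y) := by
  unfold Ind at h ⊢
  simp only [Prod.fst_add, Pi.add_apply]
  intro e; apply h; linear_combination e - h0

/-- dependent vectors with nonzero sum -/
theorem good_dep {i j : I} (h1 : i ≠ j) (h2 : i ≠ -j) {u u' : (I → K) × W} (hu : Pl i j u) (hu' : Pl i j u') (h0 : u' ≠ 0)
    (h0' : u + u' ≠ 0) (hu0 : u ≠ 0) : Good r D0 o v i j u u' := by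
  by_cases hi : Ind i j u u'
  · exact E.good_ind h1 h2 hu hu' hi
  unfold Ind at hi
  push Not at hi
  obtain ⟨w, hw, hind⟩ := Pl.ind h1 hu hu0
  -- all are multiples of `u`
  have dep : ∃ t : K, u' = t • u := by
    obtain ⟨a, b, rfl⟩ := hu
    obtain ⟨c, d, rfl⟩ := hu'
    have nij : ¬ (i = j) := h1
    have nji : ¬ (j = i) := fun e => h1 e.symm
    simp only [Prod.fst_add, Prod.smul_fst, Pi.add_apply, Pi.smul_apply, smul_eq_mul, eh_fst, if_true, if_neg nij, if_neg nji,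
      mul_zero, mul_one, add_zero, zero_add] at hi
    by_cases ha : a = 0
    · have hb : b ≠ 0 := by rintro rfl; apply hu0; rw [ha, zero_smul, zero_smul, add_zero]
      have hc : c = 0 := by
        rw [ha, zero_mul, zero_sub, neg_eq_zero] at hi
        exact (mul_eq_zero.1 hi).resolve_left hb
      refine ⟨d / b, ?_⟩
      rw [ha, hc]
      simp only [zero_smul, zero_add]
      rw [smul_smul, div_mul_cancel₀ _ hb]
    · refine ⟨c / a, ?_⟩
      rw [smul_add, smul_smul, smul_smul, div_mul_cancel₀ _ ha]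
      have : c / a * b = d := by field_simp; linear_combination -hi
      rw [this]
  obtain ⟨t, rfl⟩ := dep
  have ht : t ≠ 0 := by rintro rfl; exact h0 (zero_smul _ _)
  have ht1 : 1 + t ≠ 0 := by
    intro e; apply h0'
    have : u + t • u = (1 + t) • u := by module
    rw [this, e, zero_smul]
  unfold Ind at hind
  -- the pairs
  obtain ⟨a1, ha1, e1⟩ := E.good_ind h1 h2 (u := t • u + w) (u' := -w) (hu'.add hw) hw.neg (by
    unfold Ind
    simp only [Prod.fst_add, Prod.smul_fst, Prod.fst_neg, Pi.add_apply, Pi.smul_apply, Pi.neg_apply, smul_eq_mul]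
    intro e; apply mul_ne_zero ht hind; linear_combination -e)
  obtain ⟨a2, ha2, e2⟩ := E.good_ind h1 h2 (u := u) (u' := t • u + w) hu (hu'.add hw) (by
    unfold Ind
    simp only [Prod.fst_add, Prod.smul_fst, Pi.add_apply, Pi.smul_apply, smul_eq_mul]
    intro e; apply hind; linear_combination e)
  obtain ⟨a3, ha3, e3⟩ := E.good_ind h1 h2 (u := u + (t • u + w)) (u' := -w) (hu.add (hu'.add hw)) hw.neg (by
    unfold Ind
    simp only [Prod.fst_add, Prod.smul_fst, Prod.fst_neg, Pi.add_apply, Pi.smul_apply, Pi.neg_apply, smul_eq_mul]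
    intro e; apply mul_ne_zero ht1 hind; linear_combination -e)
  have k1 : t • u + w + -w = t • u := by abel
  have k2 : u + (t • u + w) + -w = u + t • u := by abel
  rw [k1] at e1
  rw [k2] at e3
  refine ⟨a3 * a2 * a1⁻¹, mul_mem (mul_mem ha3 ha2) (inv_mem ha1), ?_⟩
  have e4 : Z r D0 o v (t • u) = Z r D0 o v (t • u + w) * Z r D0 o v (-w) * a1⁻¹ := by rw [e1]; group
  have c1 := (E.AE_comm h1 h2 ha2 hw.neg).eq
  calc Z r D0 o v u * Z r D0 o v (t • u) = (Z r D0 o v u * Z r D0 o v (t • u + w)) * Z r D0 o v (-w) * a1⁻¹ := by rw [e4]; group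
    _ = Z r D0 o v (u + (t • u + w)) * (a2 * Z r D0 o v (-w)) * a1⁻¹ := by rw [e2]; group
    _ = (Z r D0 o v (u + (t • u + w)) * Z r D0 o v (-w)) * a2 * a1⁻¹ := by rw [c1]; group
    _ = _ := by rw [e3]; group

/-- opposite vectors -/
theorem good_opp {i j : I} (h1 : i ≠ j) (h2 : i ≠ -j) {u' : (I → K) × W} (hu' : Pl i j u') (h0 : u' ≠ 0) :
    Z r D0 o v u' * Z r D0 o v (-u') ∈ AE r D0 i j := by
  let N : Subgroup Δ := centralizer (AE r D0 i j : Set Δ)
  let A : Subgroup N := (AE r D0 i j).subgroupOf N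
  have hA : A.Normal := ⟨fun a ha n => by
    change (n * a * n⁻¹ : N).1 ∈ AE r D0 i j
    have h3 : n.1 * a.1 = a.1 * n.1 := (mem_centralizer_iff.1 n.2 a.1 ha).symm
    have h4 : (n * a * n⁻¹ : N).1 = a.1 := by
      change n.1 * a.1 * n.1⁻¹ = a.1
      rw [h3]; group
    rw [h4]; exact ha⟩
  have hZN : ∀ x, Pl i j x → Z r D0 o v x ∈ N := fun x hx =>
    mem_centralizer_iff.2 fun a ha => (E.AE_comm h1 h2 ha hx).eq
  -- restrict to the plane
  let V : Submodule K ((I → K) × W) :=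
    { carrier := {x | Pl i j x}
      zero_mem' := ⟨0, 0, by simp⟩
      add_mem' := fun ha hb => Pl.add ha hb
      smul_mem' := fun c x hx => Pl.smul hx c }
  let F' : V → N ⧸ A := fun x => QuotientGroup.mk ⟨Z r D0 o v x.1, hZN x.1 x.2⟩
  obtain ⟨w, hw, hind⟩ := Pl.ind h1 hu' h0
  have hadd : ∀ x y : V, x ≠ 0 → y ≠ 0 → x + y ≠ 0 → F' x * F' y = F' (x + y) := by
    intro x y hx hy hxy
    obtain ⟨a, ha, he⟩ := E.good_dep h1 h2 x.2 y.2 (fun e => hy (Subtype.ext e)) (fun e => hxy (Subtype.ext e)) (fun e => hx (Subtype.ext e))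
    change QuotientGroup.mk ((⟨Z r D0 o v x.1, hZN x.1 x.2⟩ : N) * (⟨Z r D0 o v y.1, hZN y.1 y.2⟩ : N)) =
      QuotientGroup.mk (⟨Z r D0 o v (x.1 + y.1), hZN _ (x + y).2⟩ : N)
    symm
    rw [QuotientGroup.eq]
    change (Z r D0 o v (x.1 + y.1))⁻¹ * (Z r D0 o v x.1 * Z r D0 o v y.1) ∈ AE r D0 i j
    rw [he]
    have : (Z r D0 o v (x.1 + y.1))⁻¹ * (Z r D0 o v (x.1 + y.1) * a) = a := by group
    rw [this]; exact ha
  unfold Ind at hind
  have hw0 : (⟨w, hw⟩ : V) ≠ 0 := by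
    intro e
    have : w = 0 := congrArg Subtype.val e
    rw [this] at hind
    apply hind
    simp
  have g0 : ∀ {x : (I → K) × W} (hx : Pl i j x), (u'.1 i * x.1 j - u'.1 j * x.1 i ≠ 0) → (⟨x, hx⟩ : V) ≠ 0 := by
    intro x hx hn e
    have : x = 0 := congrArg Subtype.val e
    rw [this] at hn
    apply hn
    simp
  have key := almost_add F' hadd (u := ⟨w, hw⟩) (u' := ⟨u', hu'⟩) hw0 (fun e => h0 (congrArg Subtype.val e))
    (g0 (hw.add hu') (by
      simp only [Prod.fst_add, Pi.add_apply]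
      intro e; apply hind; linear_combination e))
    (g0 (x := w - u') (by rw [sub_eq_add_neg]; exact hw.add hu'.neg) (by
      simp only [Prod.fst_sub, Pi.sub_apply]
      intro e; apply hind; linear_combination e))
    (g0 ((hw.add hu').add hu') (by
      simp only [Prod.fst_add, Pi.add_apply]
      intro e; apply hind; linear_combination e))
  change (QuotientGroup.mk ((⟨Z r D0 o v u', hZN u' hu'⟩ : N) * (⟨Z r D0 o v (-u'), hZN (-u') hu'.neg⟩ : N)) : N ⧸ A) = 1 at key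
  rw [QuotientGroup.eq_one_iff] at key
  exact key

/-- all products -/
theorem good_all {i j : I} (h1 : i ≠ j) (h2 : i ≠ -j) {u u' : (I → K) × W} (hu : Pl i j u) (hu' : Pl i j u') : Good r D0 o v i j u u' := by
  by_cases a1 : u = 0
  · subst a1
    exact ⟨1, one_mem _, by rw [Z_zero, zero_add]; group⟩
  by_cases a2 : u' = 0
  · subst a2
    exact ⟨1, one_mem _, by rw [Z_zero, add_zero]⟩
  by_cases a3 : u + u' = 0
  · have : u' = -u := (neg_eq_of_add_eq_zero_right a3).symm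
    subst this
    exact ⟨_, E.good_opp h1 h2 hu a1, by rw [add_neg_cancel, Z_zero, one_mul]⟩
  · exact E.good_dep h1 h2 hu hu' a2 a3 a1

/-- the group belonging to a plane -/
def SP (r : Δ →* (((I → K) × W) ≃ₗ[K] ((I → K) × W))) (D0 : Subgroup Δ) (o : I) (v : Δ) (i j : I) : Set Δ :=
  {x | ∃ u, Pl i j u ∧ ∃ a ∈ D0, (∀ y, Pl i j y → Pl i j (r a y)) ∧ x = Z r D0 o v u * a}

theorem SP_SS {i j : I} (h1 : i ≠ j) (h2 : i ≠ -j) {x : Δ} (hx : x ∈ SP r D0 o v i j) : x ∈ SS r D0 o v := by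
  obtain ⟨u, hu, a, ha, -, rfl⟩ := hx
  exact ⟨u, E.Pl_Or h1 h2 hu, a, ha, rfl⟩

theorem SP_mul {i j : I} (h1 : i ≠ j) (h2 : i ≠ -j) {x x' : Δ} (hx : x ∈ SP r D0 o v i j) (hx' : x' ∈ SP r D0 o v i j) :
    x * x' ∈ SP r D0 o v i j := by
  obtain ⟨u, hu, a, ha, hap, rfl⟩ := hx
  obtain ⟨u', hu', a', ha', hap', rfl⟩ := hx'
  obtain ⟨b, hb, he⟩ := E.good_all h1 h2 hu (hap u' hu')
  refine ⟨u + r a u', hu.add (hap u' hu'), b * a * a', mul_mem (mul_mem hb.1 ha) ha', ?_, ?_⟩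
  · intro y hy
    rw [hrho_mul, hrho_mul, hb.2 _ (hap _ (hap' _ hy))]
    exact hap _ (hap' _ hy)
  · have h3 := E.Z_conj ha (E.Pl_Or h1 h2 hu')
    rw [← h3] at he
    calc Z r D0 o v u * a * (Z r D0 o v u' * a') = (Z r D0 o v u * (a * Z r D0 o v u' * a⁻¹)) * a * a' := by group
      _ = _ := by rw [he]; group

end SE

end env

end Cfsg.Agent.GK.Un
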