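import Cfsg.Agent.GK.Un1

set_option autoImplicit false
set_option linter.unusedSimpArgs false
set_option linter.unusedSectionVars false

/-!
The long root elements of a hermitian form without anisotropic part from the short root elements.
-/

namespace Cfsg.Agent.GK.Un

open Subgroup Cfsg.Agent.Stb
open scoped commutatorElement

/-- the assumptions on the involution -/
structure Tau {K : Type*} [Field K] (τ : K →+* K) : Prop where
  ττ : ∀ a, τ (τ a) = a
  nid : ∃ θ, τ θ ≠ θ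
  tr : ∃ e, e + τ e = 1

theorem ra {Γ : Type*} [Group Γ] {a b c : Γ} (h : a * b = c) (t : Γ) : a * (b * t) = c * t := by rw [← mul_assoc, h]

theorem comm_iff {Γ : Type*} [Group Γ] {a b z : Γ} : ⁅a, b⁆ = z ↔ a * b = z * (b * a) := by
  rw [commutatorElement_def]
  constructor
  · rintro rfl; group
  · intro h; rw [h]; group

section pair
variable {K Γ : Type*} [Field K] [Group Γ] {τ : K →+* K} (T : Tau τ) {A B : K → Γ}
  (hA : ∀ a b, A (a + b) = A a * A b) (hB : ∀ a b, B (a + b) = B a * B b)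
  (h0 : ∀ a b, a * τ b = τ a * b → Commute (A a) (B b))

include hA in
theorem acomm (a b : K) : Commute (A a) (A b) := by
  change A a * A b = A b * A a
  rw [← hA, add_comm, hA]

include hA hB h0 in
theorem lemH1 {r : K} (hr : τ r = r) (u v : K) : ⁅A u, B (r * v)⁆ = ⁅B (r * u), A v⁆ := by
  have k1 : Commute (A (u + v)) (B (r * u + r * v)) := h0 _ _ (by rw [← mul_add, map_mul, hr]; ring)
  rw [hA, hB] at k1
  have c1 : Commute (A u) (A v) := acomm hA u v
  have c2 : Commute (B (r * u)) (B (r * v)) := acomm hB _ _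
  have c3 : Commute (A v) (B (r * v)) := h0 _ _ (by rw [map_mul, hr]; ring)
  have c4 : Commute (A u) (B (r * u)) := h0 _ _ (by rw [map_mul, hr]; ring)
  set g := ⁅A u, B (r * v)⁆ with hg
  set h := ⁅B (r * u), A v⁆ with hh
  have g1 : Commute (A v) g := by
    rw [hg, commutatorElement_def]
    exact ((c1.symm.mul_right c3).mul_right c1.symm.inv_right).mul_right c3.inv_right
  have h1 : Commute (B (r * v)) h := by
    rw [hh, commutatorElement_def]
    exact ((c2.symm.mul_right c3.symm).mul_right c2.symm.inv_right).mul_right c3.symm.inv_right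
  have e1 : A u * B (r * v) = g * (B (r * v) * A u) := comm_iff.1 hg.symm
  have e2 : A v * B (r * u) = h⁻¹ * (B (r * u) * A v) := by
    rw [hh, commutatorElement_def]; group
  have e3 : A u * A v * (B (r * u) * B (r * v)) = g * h⁻¹ * (B (r * u) * B (r * v) * (A u * A v)) := by
    calc A u * A v * (B (r * u) * B (r * v)) = A v * (A u * B (r * v)) * B (r * u) := by
          rw [c1.eq, c2.eq]; group
      _ = A v * g * B (r * v) * (A u * B (r * u)) := by rw [e1]; group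
      _ = A v * g * B (r * v) * (B (r * u) * A u) := by rw [c4.eq]
      _ = g * (A v * B (r * v)) * B (r * u) * A u := by rw [g1.eq]; group
      _ = g * B (r * v) * (A v * B (r * u)) * A u := by rw [c3.eq]; group
      _ = g * (B (r * v) * h⁻¹) * B (r * u) * A v * A u := by rw [e2]; group
      _ = g * h⁻¹ * (B (r * v) * B (r * u)) * (A v * A u) := by rw [h1.inv_right.eq]; group
      _ = _ := by rw [← c1.eq, ← c2.eq]; group
  rw [k1.eq] at e3
  have e4 : g * h⁻¹ = 1 := by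
    have := congrArg (fun t => t * (B (r * u) * B (r * v) * (A u * A v))⁻¹) e3
    simp only [mul_inv_cancel, mul_inv_cancel_right] at this
    exact this.symm
  exact mul_inv_eq_one.1 e4

include T hA hB h0 in
theorem lemH2 (u v w : K) : Commute ⁅A u, B v⁆ (A w) ∧ Commute ⁅A u, B v⁆ (B w) := by
  by_cases huv : u * τ v = τ u * v
  · have : ⁅A u, B v⁆ = 1 := commutatorElement_eq_one_iff_commute.2 (h0 _ _ huv)
    rw [this]
    exact ⟨Commute.one_left _, Commute.one_left _⟩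
  have hd : u * τ v - τ u * v ≠ 0 := sub_ne_zero.2 huv
  have g1 : ∀ r, τ r = r → Commute ⁅A u, B v⁆ (A (r * v)) ∧ Commute ⁅A u, B v⁆ (B (r * u)) := by
    intro r hr
    have c1 : Commute (A (r * v)) (A u) := acomm hA _ _
    have c2 : Commute (A (r * v)) (B v) := h0 _ _ (by rw [map_mul, hr]; ring)
    have c3 : Commute (B (r * u)) (B v) := acomm hB _ _
    have c4 : Commute (B (r * u)) (A u) := (h0 _ _ (by rw [map_mul, hr]; ring)).symm
    rw [commutatorElement_def]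
    exact ⟨(((c1.mul_right c2).mul_right c1.inv_right).mul_right c2.inv_right).symm,
      (((c4.mul_right c3).mul_right c4.inv_right).mul_right c3.inv_right).symm⟩
  have g2 : ∀ r, τ r = r → Commute ⁅A u, B v⁆ (A (r * u)) ∧ Commute ⁅A u, B v⁆ (B (r * v)) := by
    intro r hr
    have e := lemH1 hA hB h0 (r := 1) (map_one τ) u v
    rw [one_mul, one_mul] at e
    have c1 : Commute (A (r * u)) (A v) := acomm hA _ _
    have c2 : Commute (A (r * u)) (B u) := h0 _ _ (by rw [map_mul, hr]; ring)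
    have c3 : Commute (B (r * v)) (B u) := acomm hB _ _
    have c4 : Commute (B (r * v)) (A v) := (h0 _ _ (by rw [map_mul, hr]; ring)).symm
    rw [e, commutatorElement_def]
    exact ⟨(((c2.mul_right c1).mul_right c2.inv_right).mul_right c1.inv_right).symm,
      (((c3.mul_right c4).mul_right c3.inv_right).mul_right c4.inv_right).symm⟩
  have td : τ (u * τ v - τ u * v) = -(u * τ v - τ u * v) := by
    rw [map_sub, map_mul, map_mul, T.ττ, T.ττ]; ring
  have r1 : τ ((w * τ v - τ w * v) / (u * τ v - τ u * v)) = (w * τ v - τ w * v) / (u * τ v - τ u * v) := by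
    rw [map_div₀, td, map_sub, map_mul, map_mul, T.ττ, T.ττ, div_neg, ← neg_div]; ring
  have r2 : τ ((u * τ w - τ u * w) / (u * τ v - τ u * v)) = (u * τ w - τ u * w) / (u * τ v - τ u * v) := by
    rw [map_div₀, td, map_sub, map_mul, map_mul, T.ττ, T.ττ, div_neg, ← neg_div]; ring
  have e : w = (w * τ v - τ w * v) / (u * τ v - τ u * v) * u + (u * τ w - τ u * w) / (u * τ v - τ u * v) * v := by
    rw [div_mul_eq_mul_div, div_mul_eq_mul_div, ← add_div, eq_div_iff hd]; ring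
  rw [e, hA, hB]
  exact ⟨(g2 _ r1).1.mul_right (g1 _ r2).1, (g1 _ r1).2.mul_right (g2 _ r2).2⟩

include T hA hB h0 in
/-- the commutators of the elements of the pair -/
theorem lemH : ∃ z : K → Γ, (∀ a b, ⁅A a, B b⁆ = z (a * τ b - τ a * b)) ∧
    (∀ c c', τ c = -c → τ c' = -c' → z (c + c') = z c * z c') := by
  have al : ∀ u u' v, ⁅A (u + u'), B v⁆ = ⁅A u, B v⁆ * ⁅A u', B v⁆ := by
    intro u u' v
    have h1 := (lemH2 T hA hB h0 u' v u).1
    rw [hA]
    have e1 : A u * B v = ⁅A u, B v⁆ * (B v * A u) := comm_iff.1 rfl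
    have e2 : A u' * B v = ⁅A u', B v⁆ * (B v * A u') := comm_iff.1 rfl
    refine comm_iff.2 ?_
    calc A u * A u' * B v = A u * (A u' * B v) := by group
      _ = A u * ⁅A u', B v⁆ * (B v * A u') := by rw [e2]; group
      _ = ⁅A u', B v⁆ * (A u * B v) * A u' := by rw [← h1.eq]; group
      _ = ⁅A u', B v⁆ * ⁅A u, B v⁆ * (B v * (A u * A u')) := by rw [e1]; group
      _ = _ := by
        congr 1
        rw [commutatorElement_def (A u)]
        exact (((h1.mul_right (lemH2 T hA hB h0 u' v v).2).mul_right h1.inv_right).mul_right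
          (lemH2 T hA hB h0 u' v v).2.inv_right).eq
  have ar : ∀ u v v', ⁅A u, B (v + v')⁆ = ⁅A u, B v⁆ * ⁅A u, B v'⁆ := by
    intro u v v'
    have h1 := (lemH2 T hA hB h0 u v' v).2
    rw [hB]
    have e1 : A u * B v = ⁅A u, B v⁆ * (B v * A u) := comm_iff.1 rfl
    have e2 : A u * B v' = ⁅A u, B v'⁆ * (B v' * A u) := comm_iff.1 rfl
    refine comm_iff.2 ?_
    calc A u * (B v * B v') = (A u * B v) * B v' := by group
      _ = ⁅A u, B v⁆ * B v * (A u * B v') := by rw [e1]; group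
      _ = ⁅A u, B v⁆ * (B v * ⁅A u, B v'⁆) * (B v' * A u) := by rw [e2]; group
      _ = _ := by rw [← h1.eq]; group
  have zl : ∀ v, ⁅A 0, B v⁆ = 1 := fun v => by
    have := al 0 0 v
    rw [add_zero] at this
    exact mul_eq_left.1 this.symm
  have nl : ∀ u v, ⁅A (-u), B v⁆ = ⁅A u, B v⁆⁻¹ := fun u v => by
    rw [eq_inv_iff_mul_eq_one, ← al, neg_add_cancel, zl]
  have zr : ∀ u, ⁅A u, B 0⁆ = 1 := fun v => by
    have := ar v 0 0
    rw [add_zero] at this
    exact mul_eq_left.1 this.symm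
  have nr : ∀ u v, ⁅A u, B (-v)⁆ = ⁅A u, B v⁆⁻¹ := fun u v => by
    rw [eq_inv_iff_mul_eq_one, ← ar, neg_add_cancel, zr]
  have bal : ∀ r u v, τ r = r → ⁅A u, B (r * v)⁆ = ⁅A (r * u), B v⁆ := by
    intro r u v hr
    rw [lemH1 hA hB h0 hr]
    have := lemH1 hA hB h0 (r := 1) (map_one τ) (r * u) v
    rw [one_mul, one_mul] at this
    exact this.symm
  have anti : ∀ u v, ⁅A v, B u⁆ = ⁅A u, B v⁆⁻¹ := by
    intro u v
    have := lemH1 hA hB h0 (r := 1) (map_one τ) u v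
    rw [one_mul, one_mul] at this
    rw [this, commutatorElement_inv]
  obtain ⟨θ, hθ⟩ := T.nid
  have hd : τ θ - θ ≠ 0 := sub_ne_zero.2 hθ
  have td : τ (τ θ - θ) = -(τ θ - θ) := by rw [map_sub, T.ττ]; ring
  refine ⟨fun c => ⁅A 1, B (c / (τ θ - θ) * θ)⁆, ?_, ?_⟩
  · intro u v
    have hx : ∀ u, τ ((u * τ θ - τ u * θ) / (τ θ - θ)) = (u * τ θ - τ u * θ) / (τ θ - θ) := by
      intro u
      rw [map_div₀, td, map_sub, map_mul, map_mul, T.ττ, T.ττ, div_neg, ← neg_div]; ring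
    have hy : ∀ u, τ ((τ u - u) / (τ θ - θ)) = (τ u - u) / (τ θ - θ) := by
      intro u
      rw [map_div₀, td, map_sub, T.ττ, div_neg, ← neg_div]; ring
    have hu : ∀ u, u = (u * τ θ - τ u * θ) / (τ θ - θ) + (τ u - u) / (τ θ - θ) * θ := by
      intro u; field_simp; ring
    obtain ⟨x, y, h1, h2, h3⟩ : ∃ x y, τ x = x ∧ τ y = y ∧ u = x + y * θ := ⟨_, _, hx u, hy u, hu u⟩
    obtain ⟨x', y', h1', h2', h3'⟩ : ∃ x y, τ x = x ∧ τ y = y ∧ v = x + y * θ := ⟨_, _, hx v, hy v, hu v⟩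
    subst h3 h3'
    have e1 : ⁅A x, B x'⁆ = 1 := commutatorElement_eq_one_iff_commute.2 (h0 _ _ (by rw [h1, h1']))
    have e2 : ⁅A (y * θ), B (y' * θ)⁆ = 1 := commutatorElement_eq_one_iff_commute.2 (h0 _ _ (by
      rw [map_mul, map_mul, h2, h2']; ring))
    have e3 : ⁅A x, B (y' * θ)⁆ = ⁅A 1, B (x * y' * θ)⁆ := by
      have := bal x 1 (y' * θ) h1
      rw [mul_one] at this
      rw [← this, mul_assoc]
    have e4 : ⁅A (y * θ), B x'⁆ = ⁅A 1, B (-(x' * y * θ))⁆ := by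
      have k1 := bal x' (y * θ) 1 h1'
      rw [mul_one] at k1
      rw [k1, ← mul_assoc, nr]
      exact anti _ _
    rw [al, ar, ar, e1, e2, one_mul, mul_one, e3, e4, ← ar]
    congr 2
    rw [map_add, map_add, map_mul, map_mul, h1, h2, h1', h2']
    field_simp
    ring
  · intro c c' _ _
    have e : (c + c') / (τ θ - θ) * θ = c / (τ θ - θ) * θ + c' / (τ θ - θ) * θ := by ring
    change ⁅A 1, B ((c + c') / (τ θ - θ) * θ)⁆ = ⁅A 1, B _⁆ * ⁅A 1, B _⁆
    rw [← ar, e]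

end pair

/-- the relations between short root elements -/
structure Y0 {I K Γ : Type*} [InvolutiveNeg I] [Field K] [Group Γ] (τ : K →+* K) (y : I → I → K → Γ) : Prop where
  T : Tau τ
  ne : ∀ i : I, -i ≠ i
  two : ∀ i : I, ∃ k, k ≠ i ∧ k ≠ -i
  symm : ∀ {i j}, i ≠ j → i ≠ -j → ∀ a, y i j a = y j i (-τ a)
  add : ∀ {i j}, i ≠ j → i ≠ -j → ∀ a b, y i j (a + b) = y i j a * y i j b
  c0 : ∀ {i j : I}, i ≠ j → i ≠ -j → ∀ a b, a * b = τ (a * b) → ⁅y i j a, y (-j) i b⁆ = 1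
  c1 : ∀ {i j k : I}, i ≠ j → i ≠ -j → j ≠ k → j ≠ -k → i ≠ k → i ≠ -k → ∀ a b, ⁅y i j a, y (-j) k b⁆ = y i k (a * b)
  c4 : ∀ {i j k l : I}, i ≠ j → i ≠ -j → k ≠ l → k ≠ -l → k ≠ -i → k ≠ -j → l ≠ -i → l ≠ -j → ∀ a b, ⁅y i j a, y k l b⁆ = 1

/-- `z` are long root elements for `i` -/
def ZR {I K Γ : Type*} [InvolutiveNeg I] [Field K] [Group Γ] (τ : K →+* K) (y : I → I → K → Γ) (i j : I) (z : K → Γ) : Prop :=
  ∀ a b, ⁅y i j a, y (-j) i b⁆ = z (a * b - τ (a * b))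

/-- long root elements -/
structure ZD {I K Γ : Type*} [InvolutiveNeg I] [Field K] [Group Γ] (τ : K →+* K) (y : I → I → K → Γ) (z : I → K → Γ) : Prop where
  zr : ∀ {i j}, i ≠ j → i ≠ -j → ZR τ y i j (z i)
  add : ∀ i c c', τ c = -c → τ c' = -c' → z i (c + c') = z i c * z i c'

section y0
variable {I K Γ : Type*} [InvolutiveNeg I] [DecidableEq I] [Field K] [Group Γ] {τ : K →+* K} {y : I → I → K → Γ}

theorem Tau.skew {τ : K →+* K} (T : Tau τ) {c : K} (hc : τ c = -c) : ∃ e, e - τ e = c := by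
  obtain ⟨e, he⟩ := T.tr
  exact ⟨c * e, by rw [map_mul, hc]; linear_combination c * he⟩

theorem Tau.skew' {τ : K →+* K} (T : Tau τ) {c : K} (hc : τ c = -c) : ∃ a b, a * b - τ (a * b) = c := by
  obtain ⟨e, he⟩ := T.skew hc
  exact ⟨e, 1, by rw [mul_one, he]⟩

namespace Y0
variable (Y : Y0 τ y)
include Y

theorem zero {i j : I} (h : i ≠ j) (h' : i ≠ -j) : y i j 0 = 1 := by
  have := Y.add h h' 0 0
  rw [add_zero] at this
  exact mul_eq_left.1 this.symm

theorem neg {i j : I} (h : i ≠ j) (h' : i ≠ -j) (a : K) : y i j (-a) = (y i j a)⁻¹ := by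
  rw [eq_inv_iff_mul_eq_one, ← Y.add h h', neg_add_cancel, Y.zero h h']

theorem nn {i j : I} (h : i ≠ -j) : j ≠ -i := fun e => h (by rw [e, neg_neg])

/-- the pair lemma for root elements -/
theorem pair {i j : I} (h : i ≠ j) (h' : i ≠ -j) : (∃ z : K → Γ, ZR τ y i j z ∧
    (∀ c c', τ c = -c → τ c' = -c' → z (c + c') = z c * z c')) ∧
    (∀ a b c, Commute ⁅y i j a, y (-j) i b⁆ (y i j c) ∧ Commute ⁅y i j a, y (-j) i b⁆ (y (-j) i c)) := by
  have n1 : -j ≠ i := fun e => h' e.symm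
  have n2 : -j ≠ -i := fun e => h (neg_inj.1 e).symm
  have hA := Y.add h h'
  have hB : ∀ a b, y (-j) i (τ (a + b)) = y (-j) i (τ a) * y (-j) i (τ b) := by
    intro a b; rw [map_add, Y.add n1 n2]
  have h0 : ∀ a b, a * τ b = τ a * b → Commute (y i j a) (y (-j) i (τ b)) := by
    intro a b e
    exact commutatorElement_eq_one_iff_commute.1 (Y.c0 h h' _ _ (by rw [map_mul, Y.T.ττ, e]))
  obtain ⟨z, z1, z2⟩ := lemH Y.T hA hB h0
  refine ⟨⟨z, fun a b => ?_, z2⟩, fun a b c => ?_⟩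
  · have := z1 a (τ b)
    rw [Y.T.ττ] at this
    rw [this, map_mul]
  · have k1 := (lemH2 Y.T hA hB h0 a (τ b) c).1
    have k2 := (lemH2 Y.T hA hB h0 a (τ b) (τ c)).2
    rw [Y.T.ττ] at k1 k2
    rw [Y.T.ττ] at k2
    exact ⟨k1, k2⟩

theorem zcomm {i j : I} (h : i ≠ j) (h' : i ≠ -j) {z : K → Γ} (Z : ZR τ y i j z) {c : K} (hc : τ c = -c) (a : K) :
    Commute (z c) (y i j a) ∧ Commute (z c) (y (-j) i a) := by
  obtain ⟨x, x', rfl⟩ := Y.T.skew' hc
  rw [← Z]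
  exact (Y.pair h h').2 x x' a

theorem cc4 {i j k l : I} (h1 : i ≠ j) (h2 : i ≠ -j) (h3 : k ≠ l) (h4 : k ≠ -l) (h5 : k ≠ -i) (h6 : k ≠ -j) (h7 : l ≠ -i)
    (h8 : l ≠ -j) (a b : K) : Commute (y i j a) (y k l b) :=
  commutatorElement_eq_one_iff_commute.1 (Y.c4 h1 h2 h3 h4 h5 h6 h7 h8 a b)

/-- long root elements commute with orthogonal short ones -/
theorem c5b {i k l : I} (h1 : k ≠ l) (h2 : k ≠ -l) (h3 : k ≠ i) (h4 : k ≠ -i) (h5 : l ≠ i) (h6 : l ≠ -i) {z : K → Γ}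
    (Z : ZR τ y i (-k) z) {c : K} (hc : τ c = -c) (a : K) : Commute (y k l a) (z c) := by
  obtain ⟨x, x', rfl⟩ := Y.T.skew' hc
  rw [← Z, neg_neg]
  have n0 : i ≠ -k := fun e => h4 (by rw [e, neg_neg])
  have n1 : -k ≠ -l := fun e => h1 (neg_inj.1 e)
  have n2 : -k ≠ l := fun e => h2 (by rw [← e, neg_neg])
  have n3 : i ≠ - -k := by rw [neg_neg]; exact h3.symm
  have n4 : i ≠ -l := fun e => h6 (by rw [e, neg_neg])
  have e1 := Y.c1 (i := i) (j := -k) (k := l) n0 n3 n2 n1 h5.symm n4 x a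
  rw [neg_neg] at e1
  have e1' := comm_iff.1 e1
  have k1 : Commute (y k l a) (y k i x') := Y.cc4 h1 h2 h3 h4 (Y.ne k).symm h2 n0 n4 _ _
  have k2 : Commute (y i l (x * a)) (y k i x') := Y.cc4 h5.symm n4 h3 h4 h4 h2 (Y.ne i).symm n4 _ _
  have k3 : Commute (y i l (x * a)) (y i (-k) x) :=
    Y.cc4 h5.symm n4 n0 n3 (Y.ne i).symm n4 (fun e => h3 (neg_inj.1 e)) n1 _ _
  set X := y i (-k) x
  set N := y k l a
  set E := y i l (x * a)
  set V := y k i x'
  have e2 : N * X = E⁻¹ * (X * N) := by rw [e1']; group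
  have e3 : N * X⁻¹ = X⁻¹ * (E * N) := by
    have e4 : X * N = E * N * X := by rw [e1']; group
    calc N * X⁻¹ = X⁻¹ * (X * N) * X⁻¹ := by group
      _ = _ := by rw [e4]; group
  change N * ⁅X, V⁆ = ⁅X, V⁆ * N
  rw [commutatorElement_def]
  calc N * (X * V * X⁻¹ * V⁻¹) = (N * X) * V * X⁻¹ * V⁻¹ := by group
    _ = E⁻¹ * X * (N * V) * X⁻¹ * V⁻¹ := by rw [e2]; group
    _ = E⁻¹ * X * V * (N * X⁻¹) * V⁻¹ := by rw [k1.eq]; group
    _ = E⁻¹ * X * V * X⁻¹ * E * (N * V⁻¹) := by rw [e3]; group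
    _ = E⁻¹ * (X * V * X⁻¹ * (E * V⁻¹)) * N := by rw [k1.inv_right.eq]; group
    _ = E⁻¹ * (X * V * X⁻¹ * (V⁻¹ * E)) * N := by rw [k2.inv_right.eq]
    _ = E⁻¹ * ((X * V * X⁻¹ * V⁻¹) * E) * N := by group
    _ = E⁻¹ * (E * (X * V * X⁻¹ * V⁻¹)) * N := by
      congr 2
      exact ((((k3.mul_right k2).mul_right k3.inv_right).mul_right k2.inv_right).eq).symm
    _ = _ := by group

/-- independence of the auxiliary index -/
theorem indep {i j k : I} (hij : i ≠ j) (hij' : i ≠ -j) (hik : i ≠ k) (hik' : i ≠ -k) (hjk : j ≠ k) (hjk' : j ≠ -k)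
    {z : K → Γ} (Z : ZR τ y i k z) : ZR τ y i j z := by
  intro a b
  have m1 : -k ≠ i := fun e => hik' e.symm
  have m2 : -k ≠ -i := fun e => hik (neg_inj.1 e).symm
  have m3 : -k ≠ j := fun e => hjk' e.symm
  have m4 : -k ≠ -j := fun e => hjk (neg_inj.1 e).symm
  have m5 : j ≠ -i := fun e => hij' (by rw [e, neg_neg])
  have m6 : k ≠ -j := fun e => hjk' (by rw [e, neg_neg])
  have m7 : k ≠ -i := fun e => hik' (by rw [e, neg_neg])
  have m8 : -j ≠ i := fun e => hij' e.symm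
  have m9 : -j ≠ -i := fun e => hij (neg_inj.1 e).symm
  have sk : τ (a * b - τ (a * b)) = -(a * b - τ (a * b)) := by rw [map_sub, Y.T.ττ]; ring
  have e1 := Y.c1 (i := i) (j := k) (k := j) hik hik' hjk.symm m6 hij hij' a 1
  rw [mul_one] at e1
  have e2 := Y.c1 (i := -k) (j := j) (k := i) m3 m4 hij.symm m5 m1 m2 1 b
  rw [one_mul] at e2
  have e4 := Z a b
  have h1 : Commute (y i k a) (y (-j) i b) := Y.cc4 hik hik' m8 m9 m9 (fun e => hjk (neg_inj.1 e)) (Y.ne i).symm hik' _ _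
  have h3 : Commute (y (-k) j 1) (y (-k) i b) := by
    refine Y.cc4 m3 m4 m1 m2 ?_ m4 ?_ hij' _ _
    · exact (Y.ne (-k)).symm
    · rw [neg_neg]; exact hik
  have Z' : ZR τ y i (- -k) z := by rw [neg_neg]; exact Z
  have h5 : Commute (y (-k) j 1) (z (a * b - τ (a * b))) := Y.c5b m3 m4 m1 m2 hij.symm m5 Z' sk 1
  obtain ⟨h6, h7⟩ := Y.zcomm hik hik' Z sk a
  have h7 := (Y.zcomm hik hik' Z sk b).2
  rw [comm_iff] at e2 e4
  have e1' := comm_iff.1 e1
  rw [comm_iff]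
  set X := y i k a
  set N := y (-k) j 1
  set U := y (-j) i b
  set V := y (-k) i b
  set ζ := z (a * b - τ (a * b))
  have hE : y i j a = X * N * X⁻¹ * N⁻¹ := by rw [← e1, commutatorElement_def]
  rw [hE]
  have f1 : N⁻¹ * U = V⁻¹ * (U * N⁻¹) := by
    calc N⁻¹ * U = V⁻¹ * (V * N⁻¹) * U := by group
      _ = V⁻¹ * (N⁻¹ * V) * U := by rw [h3.inv_left.eq]
      _ = V⁻¹ * (N⁻¹ * (V * (U * N))) * N⁻¹ := by group
      _ = _ := by rw [← e2]; group
  have f2 : X⁻¹ * V⁻¹ = V⁻¹ * (ζ * X⁻¹) := by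
    have : V * X = ζ⁻¹ * (X * V) := by rw [e4]; group
    calc X⁻¹ * V⁻¹ = (V * X)⁻¹ := by group
      _ = (X * V)⁻¹ * ζ := by rw [this]; group
      _ = V⁻¹ * (X⁻¹ * ζ) := by group
      _ = _ := by rw [h6.inv_right.eq]
  calc X * N * X⁻¹ * N⁻¹ * U = X * N * X⁻¹ * (N⁻¹ * U) := by group
    _ = X * N * (X⁻¹ * V⁻¹) * U * N⁻¹ := by rw [f1]; group
    _ = X * N * V⁻¹ * ζ * (X⁻¹ * U) * N⁻¹ := by rw [f2]; group
    _ = X * (N * V⁻¹) * ζ * U * X⁻¹ * N⁻¹ := by rw [h1.inv_left.eq]; group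
    _ = X * V⁻¹ * (N * ζ) * U * X⁻¹ * N⁻¹ := by rw [h3.inv_right.eq]; group
    _ = X * V⁻¹ * ζ * (N * U) * X⁻¹ * N⁻¹ := by rw [h5.eq]; group
    _ = X * V⁻¹ * (ζ * V) * U * N * X⁻¹ * N⁻¹ := by rw [e2]; group
    _ = X * ζ * U * N * X⁻¹ * N⁻¹ := by rw [h7.eq]; group
    _ = ζ * (X * U) * N * X⁻¹ * N⁻¹ := by rw [← h6.eq]; group
    _ = _ := by rw [h1.eq]; group

theorem indep_neg {i j : I} (hij : i ≠ j) (hij' : i ≠ -j) {z : K → Γ} (Z : ZR τ y i j z)
    (hadd : ∀ c c', τ c = -c → τ c' = -c' → z (c + c') = z c * z c') : ZR τ y i (-j) z := by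
  intro a b
  have m1 : i ≠ - -j := by rw [neg_neg]; exact hij
  have m2 : j ≠ -i := fun e => hij' (by rw [e, neg_neg])
  rw [neg_neg, Y.symm hij' m1, Y.symm hij.symm m2, ← commutatorElement_inv, Z]
  have z0 : z 0 = 1 := by
    have := hadd 0 0 (by simp) (by simp)
    rw [add_zero] at this
    exact mul_eq_left.1 this.symm
  rw [inv_eq_iff_mul_eq_one, ← hadd, map_mul, map_mul, map_neg, map_neg, Y.T.ττ, Y.T.ττ]
  · have : -τ b * -τ a - -b * -a + (a * b - τ a * τ b) = 0 := by ring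
    rw [this, z0]
  · rw [map_sub, Y.T.ττ]; ring
  · rw [map_sub, Y.T.ττ]; ring

theorem exists_zd : ∃ z : I → K → Γ, ZD τ y z := by
  choose k hk1 hk2 using Y.two
  have hk3 : ∀ i, i ≠ -k i := fun i e => hk2 i (by rw [eq_comm, neg_eq_iff_eq_neg]; exact e)
  choose z hz using fun i => (Y.pair (hk1 i).symm (hk3 i)).1
  refine ⟨z, ⟨?_, fun i => (hz i).2⟩⟩
  intro i j h h'
  by_cases e1 : j = k i
  · rw [e1]; exact (hz i).1
  by_cases e2 : j = -k i
  · rw [e2]; exact Y.indep_neg (hk1 i).symm (hk3 i) (hz i).1 (hz i).2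
  exact Y.indep h h' (hk1 i).symm (hk3 i) e1 e2 (hz i).1

variable {z : I → K → Γ} (Z : ZD τ y z)
include Z

theorem z0 (i : I) : z i 0 = 1 := by
  have := Z.add i 0 0 (by simp) (by simp)
  rw [add_zero] at this
  exact mul_eq_left.1 this.symm

theorem zneg (i : I) {c : K} (hc : τ c = -c) : z i (-c) = (z i c)⁻¹ := by
  rw [eq_inv_iff_mul_eq_one, ← Z.add i _ _ (by rw [map_neg, hc]) hc, neg_add_cancel, Y.z0 Z]

theorem zz (i : I) {c c' : K} (hc : τ c = -c) (hc' : τ c' = -c') : Commute (z i c) (z i c') := by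
  change z i c * z i c' = z i c' * z i c
  rw [← Z.add i _ _ hc hc', add_comm, Z.add i _ _ hc' hc]

/-- the relation of long and short root elements not involving the opposite index -/
theorem c5 {i k l : I} (h1 : k ≠ l) (h2 : k ≠ -l) (h3 : k ≠ -i) (h4 : l ≠ -i) {c : K} (hc : τ c = -c) (a : K) :
    Commute (z i c) (y k l a) := by
  by_cases e1 : k = i
  · subst e1
    exact (Y.zcomm h1 h2 (Z.zr h1 h2) hc a).1
  by_cases e2 : l = i
  · subst e2
    rw [Y.symm h1 h2]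
    have n2 : l ≠ -k := fun e => h3 (by rw [e, neg_neg])
    exact (Y.zcomm (Ne.symm h1) n2 (Z.zr (Ne.symm h1) n2) hc _).1
  refine (Y.c5b h1 h2 e1 h3 e2 h4 (Z.zr ?_ ?_) hc a).symm
  · exact fun e => h3 (by rw [e, neg_neg])
  · rw [neg_neg]; exact fun e => e1 e.symm

/-- relation `c3` for one pair of indices -/
def _root_.Cfsg.Agent.GK.Un.C3 {I K Γ : Type*} [InvolutiveNeg I] [Field K] [Group Γ] (τ : K →+* K) (y : I → I → K → Γ) (z : I → K → Γ) (i j : I) : Prop :=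
  ∀ c, τ c = -c → ∀ b, ⁅z i c, y (-i) j b⁆ = y i j (c * b) * z j (b * τ b * τ c)

theorem c3_of_three {i j k : I} (hij : i ≠ j) (hij' : i ≠ -j) (hik : i ≠ k) (hik' : i ≠ -k) (hjk : j ≠ k) (hjk' : j ≠ -k) :
    C3 τ y z i j := by
  intro c hc b
  obtain ⟨a, a', rfl⟩ := Y.T.skew' hc
  have m1 : -k ≠ i := fun e => hik' e.symm
  have m2 : -k ≠ -i := fun e => hik (neg_inj.1 e).symm
  have m3 : -k ≠ j := fun e => hjk' e.symm
  have m4 : -k ≠ -j := fun e => hjk (neg_inj.1 e).symm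
  have m5 : j ≠ -i := fun e => hij' (by rw [e, neg_neg])
  have m6 : k ≠ -j := fun e => hjk' (by rw [e, neg_neg])
  have m7 : k ≠ -i := fun e => hik' (by rw [e, neg_neg])
  have m8 : -j ≠ i := fun e => hij' e.symm
  have m9 : -j ≠ -i := fun e => hij (neg_inj.1 e).symm
  have m10 : j ≠ - -k := by rw [neg_neg]; exact hjk
  have m11 : i ≠ - -k := by rw [neg_neg]; exact hik
  have hz := Z.zr hik hik' a a'
  -- the commutators
  have e1 : ⁅y i k a, y (-i) j b⁆ = y k j (-(τ a * b)) := by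
    rw [Y.symm hik hik', Y.c1 hik.symm m7 hij hij' hjk.symm m6, neg_mul]
  have e2 : ⁅y (-k) i a', y (-i) j b⁆ = y (-k) j (a' * b) := Y.c1 m1 m2 hij hij' m3 m4 a' b
  have hα : ⁅y k j (τ a * b), y (-k) i a'⁆ = y i j (τ a * b * τ a') := by
    rw [Y.symm hjk.symm m6, Y.c1 hjk hjk' hik.symm m7 hij.symm m5, Y.symm hij.symm m5]
    congr 1
    simp only [map_mul, map_neg, Y.T.ττ]; ring
  have hβ : ⁅y i k a, y (-k) j (-(a' * b))⁆ = y i j (-(a * a' * b)) := by
    rw [Y.c1 hik hik' hjk.symm m6 hij hij']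
    congr 1; ring
  have hγ : ⁅y k j (τ a * b), y (-k) j (-(a' * b))⁆ = z j (b * τ b * (a * a' - τ (a * a'))) := by
    rw [Y.symm hjk.symm m6, Z.zr hjk hjk']
    congr 1
    simp only [map_mul, map_neg, Y.T.ττ]; ring
  have skc : τ (b * τ b * (a * a' - τ (a * a'))) = -(b * τ b * (a * a' - τ (a * a'))) := by
    rw [map_mul, hc, map_mul, Y.T.ττ]; ring
  have c_PX : Commute (y k j (τ a * b)) (y i k a) := Y.cc4 hjk.symm m6 hik hik' hik' hij' (Y.ne k).symm m6 _ _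
  have c_QV : Commute (y (-k) j (-(a' * b))) (y (-k) i a') :=
    Y.cc4 m3 m4 m1 m2 (Y.ne (-k)).symm m4 m11 hij' _ _
  have c_βP : Commute (y i j (-(a * a' * b))) (y k j (τ a * b)) :=
    Y.cc4 hij hij' hjk.symm m6 m7 m6 m5 (Y.ne j).symm _ _
  have c_αQ : Commute (y i j (τ a * b * τ a')) (y (-k) j (-(a' * b))) :=
    Y.cc4 hij hij' m3 m4 m2 m4 m5 (Y.ne j).symm _ _
  have c_zQ := Y.c5 Z (i := i) m3 m4 m2 m5 hc (-(a' * b))
  have c_zP := Y.c5 Z (i := i) hjk.symm m6 m7 m5 hc (τ a * b)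
  have c_zα := Y.c5 Z (i := i) hij hij' (Y.ne i).symm m5 hc (τ a * b * τ a')
  have c_γβ := Y.c5 Z (i := j) hij hij' hij' (Y.ne j).symm skc (-(a * a' * b))
  rw [comm_iff] at hz hα hβ hγ e1 e2
  have f1 : y (-i) j b * y i k a = y k j (τ a * b) * (y i k a * y (-i) j b) := by
    rw [Y.neg hjk.symm m6] at e1; rw [e1]; group
  have f2 : y (-i) j b * y (-k) i a' = y (-k) j (-(a' * b)) * (y (-k) i a' * y (-i) j b) := by
    rw [Y.neg m3 m4, e2]; group
  have g1 : y i j ((a * a' - τ (a * a')) * b) = (y i j (τ a * b * τ a'))⁻¹ * (y i j (-(a * a' * b)))⁻¹ := by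
    rw [← Y.neg hij hij', ← Y.neg hij hij', ← Y.add hij hij', map_mul]
    congr 1; ring
  have g2 : z j (b * τ b * τ (a * a' - τ (a * a'))) = (z j (b * τ b * (a * a' - τ (a * a'))))⁻¹ := by
    rw [← Y.zneg Z j skc, hc]
    congr 1; ring
  rw [g1, g2]
  set X := y i k a
  set V := y (-k) i a'
  set w := y (-i) j b
  set Pp := y k j (τ a * b)
  set Q := y (-k) j (-(a' * b))
  set α := y i j (τ a * b * τ a')
  set β := y i j (-(a * a' * b))
  set γ := z j (b * τ b * (a * a' - τ (a * a')))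
  set ζ := z i (a * a' - τ (a * a'))
  have key : Pp * X * (Q * V) = β * γ * ζ * α * (Q * V * (Pp * X)) := by
    calc Pp * X * (Q * V) = Pp * (X * Q) * V := by group
      _ = (Pp * β) * Q * X * V := by rw [hβ]; group
      _ = β * (Pp * Q) * (X * V) := by rw [← c_βP.eq]; group
      _ = β * γ * Q * (Pp * ζ) * V * X := by rw [hγ, hz]; group
      _ = β * γ * (Q * ζ) * (Pp * V) * X := by rw [← c_zP.eq]; group
      _ = β * γ * ζ * (Q * α) * V * Pp * X := by rw [← c_zQ.eq, hα]; group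
      _ = _ := by rw [← c_αQ.eq]; group
  have hzc : ζ = ⁅X, V⁆ := (comm_iff.2 hz).symm
  have hw : w * ζ * w⁻¹ = β * γ * ζ * α := by
    have e5 : w * X * w⁻¹ = Pp * X := by rw [f1]; group
    have e6 : w * V * w⁻¹ = Q * V := by rw [f2]; group
    have e7 : w * ζ * w⁻¹ = (w * X * w⁻¹) * (w * V * w⁻¹) * (w * X * w⁻¹)⁻¹ * (w * V * w⁻¹)⁻¹ := by
      rw [hzc, commutatorElement_def]; group
    rw [e7, e5, e6, key]; group
  rw [comm_iff]
  have h8 : w * ζ = β * γ * ζ * α * w := by rw [← hw]; group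
  rw [h8]
  calc ζ * w = α⁻¹ * (α * ζ) * w := by group
    _ = α⁻¹ * (ζ * α) * w := by rw [c_zα.eq]
    _ = α⁻¹ * (β⁻¹ * γ⁻¹) * (γ * β) * (ζ * α) * w := by group
    _ = α⁻¹ * (β⁻¹ * γ⁻¹) * (β * γ) * (ζ * α) * w := by rw [c_γβ.eq]
    _ = _ := by group

theorem c6 {i j : I} (hij : i ≠ j) (hij' : i ≠ -j) (h3 : C3 τ y z i j) {c c' : K} (hc : τ c = -c) (hc' : τ c' = -c') :
    Commute (z i c) (z j c') := by
  obtain ⟨a, b, rfl⟩ := Y.T.skew' hc'
  have m5 : j ≠ -i := fun e => hij' (by rw [e, neg_neg])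
  rw [← Z.zr hij.symm m5]
  have skc : τ (b * τ b * τ c) = -(b * τ b * τ c) := by
    rw [map_mul, hc, map_mul, Y.T.ττ, map_neg, hc]; ring
  have e1 := h3 c hc b
  rw [comm_iff] at e1
  have k1 : Commute (z i c) (y j i a) := Y.c5 Z hij.symm m5 m5 (Y.ne i).symm hc a
  have k2 : Commute (y j i a) (y i j (c * b)) := by
    rw [Y.symm hij.symm m5]
    change _ * _ = _ * _
    rw [← Y.add hij hij', add_comm, Y.add hij hij']
  have k3 : Commute (z j (b * τ b * τ c)) (y j i a) := Y.c5 Z hij.symm m5 (Y.ne j).symm hij' skc a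
  have k4 : Commute (y i j (c * b)) ⁅y j i a, y (-i) j b⁆ := by
    rw [Z.zr hij.symm m5]
    exact (Y.c5 Z hij hij' hij' (Y.ne j).symm hc' _).symm
  have k5 : Commute (z j (b * τ b * τ c)) ⁅y j i a, y (-i) j b⁆ := by
    rw [Z.zr hij.symm m5]
    exact Y.zz Z j skc hc'
  set ζ := z i c
  set A := y j i a
  set B := y (-i) j b
  set β := y i j (c * b)
  set γ := z j (b * τ b * τ c)
  have e2 : ζ * B * ζ⁻¹ = β * γ * B := by rw [e1]; group
  have e3 : ζ * ⁅A, B⁆ * ζ⁻¹ = ⁅A, B⁆ := by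
    have k6 : Commute (β * γ) A := k2.symm.mul_left k3
    have k7 : Commute (β * γ) ⁅A, B⁆ := k4.mul_left k5
    calc ζ * ⁅A, B⁆ * ζ⁻¹ = ⁅ζ * A * ζ⁻¹, ζ * B * ζ⁻¹⁆ := by simp only [commutatorElement_def]; group
      _ = ⁅A, β * γ * B⁆ := by
        rw [e2, k1.eq]; congr 1; group
      _ = A * (β * γ) * B * A⁻¹ * B⁻¹ * (β * γ)⁻¹ := by rw [commutatorElement_def]; group
      _ = (β * γ) * ⁅A, B⁆ * (β * γ)⁻¹ := by rw [← k6.eq, commutatorElement_def]; group
      _ = _ := by rw [k7.eq]; group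
  exact mul_inv_eq_iff_eq_mul.1 e3

/-- the complete set of relations -/
theorem hr {W : Type*} [AddCommGroup W] [Module K W] [Subsingleton W] (h3 : ∀ {i j}, i ≠ j → i ≠ -j → C3 τ y z i j) :
    HR τ (fun _ _ : W => (0 : K)) (fun _ c => c + τ c = 0) y (fun i (_ : W) c => z i c) where
  ne := Y.ne
  two := Y.two
  nt := by
    obtain ⟨θ, hθ⟩ := Y.T.nid
    refine ⟨0, θ - τ θ, ?_, fun e => hθ (sub_eq_zero.1 e).symm⟩
    rw [map_sub, Y.T.ττ]; ring
  symm := Y.symm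
  add := Y.add
  zmul i {w c w' c'} h h' := by
    rw [sub_zero]
    exact (Z.add i c c' (eq_neg_of_add_eq_zero_right h) (eq_neg_of_add_eq_zero_right h')).symm
  c1 := Y.c1
  c2 h h' a b := Z.zr h h' a b
  c3 {i j} h h' {w c} hP b := h3 h h' c (eq_neg_of_add_eq_zero_right hP) b
  c4 := Y.c4
  c5 {i k l} h1 h2 h3 h4 {w c} hP a :=
    commutatorElement_eq_one_iff_commute.2 (Y.c5 Z h1 h2 h3 h4 (eq_neg_of_add_eq_zero_right hP) a)
  c6 {i j} h h' {w c w' c'} hP hP' := by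
    rw [neg_zero, Y.zero h h']
    exact commutatorElement_eq_one_iff_commute.2 (Y.c6 Z h h' (h3 h h') (eq_neg_of_add_eq_zero_right hP)
      (eq_neg_of_add_eq_zero_right hP'))

end Y0

/-- the form data without anisotropic part -/
theorem hf0 {τ : K →+* K} (T : Tau τ) {W : Type*} [AddCommGroup W] [Module K W] [Subsingleton W] :
    HF τ (fun _ _ : W => (0 : K)) (fun _ c => c + τ c = 0) where
  ττ := T.ττ
  add_right _ _ _ := (add_zero 0).symm
  smul_right _ a _ := (mul_zero a).symm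
  symm _ _ := map_zero τ
  P_zero := by simp
  P_mul {w c w' c'} h h' := by rw [sub_zero, map_add]; linear_combination h + h'
  P_inv {w c} h := by rw [T.ττ, add_comm]; exact h
  P_smul {w c} h b := by rw [map_mul, map_mul, T.ττ]; linear_combination (b * τ b) * h
  P_tr {w c} h := by rw [add_zero]; exact h
  P_skew a := by rw [map_sub, T.ττ]; ring
  aniso {w} _ := Subsingleton.elim _ _

end y0

end Cfsg.Agent.GK.Un
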