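import Cfsg.Agent.GK.Un19

/-!
The Steinberg relations in odd dimension.
-/

set_option autoImplicit false
set_option linter.unusedSectionVars false
set_option linter.unusedVariables false
set_option linter.unusedSimpArgs false

namespace Cfsg.Agent.GK.Un

open Subgroup Cfsg.Agent.Stb
open scoped commutatorElement

universe v

section od
variable {I K W Δ : Type*} [InvolutiveNeg I] [DecidableEq I] [Field K] [AddCommGroup W] [Module K W] [Group Δ] [Fintype I]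
variable {τ : K →+* K} {h0 : W → W → K}
variable {r : Δ →* (((I → K) × W) ≃ₗ[K] ((I → K) × W))} {D0 : Subgroup Δ} {o : I} {v : Δ} {w0 : W} {c0 : K}
variable {y : I → I → K → Δ} {z : I → K → Δ}

/-- data in odd dimension -/
structure OD (τ : K →+* K) (h0 : W → W → K) (r : Δ →* (((I → K) × W) ≃ₗ[K] ((I → K) × W))) (D0 : Subgroup Δ) (o : I) (v : Δ) (w0 : W) (c0 : K)
    (y : I → I → K → Δ) (z : I → K → Δ) : Prop where
  se : SE τ h0 r D0 o v w0 c0
  R : HR τ h0 (PZ τ) y (fun i (_ : W) c => z i c)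
  A : HA τ h0 (PZ τ) y (fun i (_ : W) c => z i c) r
  D_y : ∀ {i j : I}, i ≠ j → i ≠ -j → ∀ a, y i j a ∈ D0
  D_z : ∀ (i : I) {c : K}, c + τ c = 0 → z i c ∈ D0
  hP : PF τ h0 w0 c0
  one : ∀ w : W, ∃ a : K, w = a • w0

namespace OD
variable (O : OD τ h0 r D0 o v w0 c0 y z)

open scoped Classical in
/-- the scalar -/
noncomputable def cw (w0 : W) (w : W) : K := if h : ∃ a : K, w = a • w0 then h.choose else 0

/-- the long root elements -/
noncomputable def zz (τ : K →+* K) (r : Δ →* (((I → K) × W) ≃ₗ[K] ((I → K) × W))) (D0 : Subgroup Δ) (o : I) (v : Δ) (w0 : W) (c0 : K)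
    (z : I → K → Δ) (i : I) (w : W) (c : K) : Δ :=
  SE.Z r D0 o v (τ (cw w0 w) • eh i) * z i (c - c0 * cw w0 w * τ (cw (K := K) w0 w))

include O

theorem cw_eq (w : W) : w = (cw w0 w : K) • w0 := by
  have h := O.one w
  unfold cw
  rw [dif_pos h]
  exact h.choose_spec

theorem cw_zero : (cw w0 (0 : W) : K) = 0 := by
  have h := O.cw_eq 0
  exact (smul_eq_zero.1 h.symm).resolve_right O.se.hw0

theorem zz_zero (i : I) (c : K) : zz τ r D0 o v w0 c0 z i 0 c = z i c := by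
  unfold zz
  rw [O.cw_zero, map_zero, zero_smul, SE.Z_zero, one_mul, mul_zero, sub_zero]

theorem skew {w : W} {c : K} (h : PF τ h0 w c) : (c - c0 * cw w0 w * τ (cw w0 w)) + τ (c - c0 * cw w0 w * τ (cw w0 w)) = 0 := by
  have h1 := O.hP
  have H := O.se.H.full
  have e := O.cw_eq w
  unfold PF at h h1
  set lam : K := cw w0 w
  rw [e, H.smul_left, H.smul_right] at h
  rw [map_sub, map_mul, map_mul, H.ττ]
  linear_combination h - (lam * τ lam) * h1

theorem Or_eh (i : I) (a : K) : SE.Or r D0 o (a • (eh i : (I → K) × W)) := by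
  obtain ⟨k, hk1, hk2⟩ := O.R.two i
  exact O.se.Pl_Or (i := i) (j := k) hk1.symm (fun e => hk2 (by rw [e, neg_neg])) ⟨a, 0, by rw [zero_smul, add_zero]⟩

theorem r_zz (i : I) {w : W} {c : K} (h : PF τ h0 w c) (x : (I → K) × W) :
    r (zz τ r D0 o v w0 c0 z i w c) x = x + (c * x.1 (-i) - h0 w x.2) • eh i + x.1 (-i) • wh w := by
  have H := O.se.H.full
  have hs := O.skew h
  have e := O.cw_eq w
  have ni := O.se.ne i
  unfold zz
  set lam : K := cw w0 w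
  rw [hrho_mul, aZ O.A i (w := (0 : W)) ⟨rfl, hs⟩, O.se.rZ (O.Or_eh i _), hh_smul_left H, hh_eh_left H, H.ττ, e, whs, H.smul_left]
  have z0 : (wh (0 : W) : (I → K) × W) = 0 := rfl
  rw [z0]
  simp only [Prod.fst_add, Prod.smul_fst, Pi.add_apply, Pi.smul_apply, smul_eq_mul, eh_fst, Prod.snd_add, Prod.smul_snd, eh_snd, smul_zero,
    add_zero, if_neg ni, mul_zero, H.zero_left, sub_zero]
  module

omit O [Fintype I] [Group Δ] in
theorem Pl_coord (ne : ∀ i : I, -i ≠ i) {i j : I} (h1 : i ≠ j) (h2 : i ≠ -j) {u : (I → K) × W} (h : SE.Pl i j u) : u.1 (-i) = 0 ∧ u.1 (-j) = 0 := by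
  obtain ⟨a, b, rfl⟩ := h
  have n1 : ¬ (-i = i) := ne i
  have n2 : ¬ (-j = j) := ne j
  have n3 : ¬ (-i = j) := fun e => h2 (by rw [← e, neg_neg])
  have n4 : ¬ (-j = i) := fun e => h2 e.symm
  constructor
  · simp only [Prod.fst_add, Prod.smul_fst, Pi.add_apply, Pi.smul_apply, smul_eq_mul, eh_fst, if_neg n1, if_neg n3, mul_zero, add_zero]
  · simp only [Prod.fst_add, Prod.smul_fst, Pi.add_apply, Pi.smul_apply, smul_eq_mul, eh_fst, if_neg n2, if_neg n4, mul_zero, add_zero]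

omit O [Fintype I] in
theorem SP_D0 {i j : I} {d : Δ} (hd : d ∈ D0) (hst : ∀ x, SE.Pl i j x → SE.Pl i j (r d x)) : d ∈ SE.SP r D0 o v i j :=
  ⟨0, ⟨0, 0, by simp⟩, d, hd, hst, by rw [SE.Z_zero, one_mul]⟩

theorem z_fix {i j : I} (h1 : i ≠ j) (h2 : i ≠ -j) {k : I} (hk : k = i ∨ k = j) {c : K} (hc : c + τ c = 0) {x : (I → K) × W} (hx : SE.Pl i j x) :
    SE.Pl i j (r (z k c) x) := by
  obtain ⟨e1, e2⟩ := Pl_coord O.se.ne h1 h2 hx
  have e3 : x.1 (-k) = 0 := by rcases hk with rfl | rfl <;> assumption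
  have e4 := aZ O.A k (w := (0 : W)) ⟨rfl, hc⟩ x
  rw [e3, mul_zero, O.se.H.full.zero_left, sub_zero, zero_smul, zero_smul, add_zero, add_zero] at e4
  change SE.Pl i j ((r ((fun i (_ : W) c => z i c) k (0 : W) c)) x)
  rw [e4]; exact hx

theorem zz_SP {i j : I} (h1 : i ≠ j) (h2 : i ≠ -j) {k : I} (hk : k = i ∨ k = j) {w : W} {c : K} (h : PF τ h0 w c) :
    zz τ r D0 o v w0 c0 z k w c ∈ SE.SP r D0 o v i j := by
  refine ⟨τ (cw w0 w) • eh k, ?_, _, O.D_z k (O.skew h), fun x hx => O.z_fix h1 h2 hk (O.skew h) hx, rfl⟩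
  rcases hk with rfl | rfl
  · exact ⟨τ (cw w0 w), 0, by rw [zero_smul K (eh j), add_zero]⟩
  · exact ⟨0, τ (cw w0 w), by rw [zero_smul K (eh i), zero_add]⟩

theorem zz_SS (i : I) {w : W} {c : K} (h : PF τ h0 w c) : zz τ r D0 o v w0 c0 z i w c ∈ SE.SS r D0 o v := by
  obtain ⟨k, hk1, hk2⟩ := O.R.two i
  have h1 : i ≠ k := hk1.symm
  have h2 : i ≠ -k := fun e => hk2 (by rw [e, neg_neg])
  exact O.se.SP_SS h1 h2 (O.zz_SP h1 h2 (Or.inl rfl) h)

/-- `y i j` stabilizes the plane -/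
theorem y_SP {i j : I} (h1 : i ≠ j) (h2 : i ≠ -j) (a : K) : y i j a ∈ SE.SP r D0 o v i j := by
  refine SP_D0 (O.D_y h1 h2 a) fun x hx => ?_
  obtain ⟨e1, e2⟩ := Pl_coord O.se.ne h1 h2 hx
  rw [aY O.A h1 h2, e1, e2, mul_zero, mul_zero, zero_smul, zero_smul, add_zero, sub_zero]
  exact hx

/-- `y (-i) j` stabilizes the plane -/
theorem y_SP' {i j : I} (h1 : i ≠ j) (h2 : i ≠ -j) (a : K) : y (-i) j a ∈ SE.SP r D0 o v i j := by
  have n1 : -i ≠ j := fun e => h2 (by rw [← e, neg_neg])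
  have n2 : -i ≠ -j := fun e => h1 (neg_inj.1 e)
  refine SP_D0 (O.D_y n1 n2 a) fun x hx => ?_
  obtain ⟨e1, e2⟩ := Pl_coord O.se.ne h1 h2 hx
  rw [aY O.A n1 n2, e2, mul_zero, zero_smul, add_zero, sub_eq_add_neg]
  exact hx.add (SE.Pl.neg ⟨0, _, by rw [zero_smul, zero_add]⟩)

/-- the relations in the linear group -/
theorem lin : HR τ h0 (PF τ h0) (fun i j a => r.rangeRestrict (y i j a)) (fun i w c => r.rangeRestrict (zz τ r D0 o v w0 c0 z i w c)) := by
  refine hr_of_ha (ρ := r.range.subtype) O.se.H.full ?_ O.se.H.T Subtype.val_injective O.se.ne O.R.two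
  refine ⟨?_, ?_, ?_⟩
  · intro i j h1 h2 a x
    exact O.A.act_y h1 h2 a x
  · intro i w c hP x
    change r _ x = _
    rw [O.r_zz i hP]
    refine Prod.ext ?_ ?_
    · funext p
      simp only [Prod.fst_add, Prod.smul_fst, Pi.add_apply, Pi.smul_apply, smul_eq_mul, eh_fst, mul_ite,
        mul_one, mul_zero, wh, Pi.zero_apply, add_zero]
    · simp only [Prod.snd_add, Prod.smul_snd, eh_snd, smul_zero, add_zero, wh]
  · rintro ⟨_, g, rfl⟩ u x
    exact O.se.form g u x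

theorem eq_of {x x' : Δ} (hx : x ∈ SE.SS r D0 o v) (hx' : x' ∈ SE.SS r D0 o v) (h : r.rangeRestrict x = r.rangeRestrict x') : x = x' :=
  O.se.SS_inj hx hx' (congrArg Subtype.val h)

/-- **The Steinberg relations in odd dimension.** -/
theorem hr : HR τ h0 (PF τ h0) y (zz τ r D0 o v w0 c0 z) where
  ne := O.R.ne
  two := O.R.two
  nt := by
    obtain ⟨w, c, h1, h2⟩ := O.R.nt
    exact ⟨w, c, h1.full O.se.H, h2⟩
  symm := O.R.symm
  add := O.R.add
  zmul i {w c w' c'} hP hP' := by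
    obtain ⟨k, hk1, hk2⟩ := O.R.two i
    have h1 : i ≠ k := hk1.symm
    have h2 : i ≠ -k := fun e => hk2 (by rw [e, neg_neg])
    refine O.eq_of (O.se.SP_SS h1 h2 (O.se.SP_mul h1 h2 (O.zz_SP h1 h2 (Or.inl rfl) hP) (O.zz_SP h1 h2 (Or.inl rfl) hP')))
      (O.zz_SS i (O.se.H.full.P_mul hP hP')) ?_
    rw [map_mul]
    exact O.lin.zmul i hP hP'
  c1 := O.R.c1
  c2 h h' a b := by rw [O.zz_zero]; exact O.R.c2 h h' a b
  c3 {i j} h1 h2 {w c} hP b := by
    have hP2 := O.se.H.full.P_smul' hP b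
    rw [comm_iff]
    have e := O.lin.c3 h1 h2 hP b
    rw [comm_iff] at e
    refine O.eq_of (O.se.SP_SS h1 h2 (O.se.SP_mul h1 h2 (O.zz_SP h1 h2 (Or.inl rfl) hP) (O.y_SP' h1 h2 b)))
      (O.se.SP_SS h1 h2 (O.se.SP_mul h1 h2 (O.se.SP_mul h1 h2 (O.y_SP h1 h2 _) (O.zz_SP h1 h2 (Or.inr rfl) hP2))
        (O.se.SP_mul h1 h2 (O.y_SP' h1 h2 b) (O.zz_SP h1 h2 (Or.inl rfl) hP)))) ?_
    simp only [map_mul]
    exact e
  c4 := O.R.c4
  c5 {i k l} h1 h2 h3 h4 {w c} hP a := by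
    rw [commutatorElement_eq_one_iff_mul_comm]
    have e := O.lin.c5 h1 h2 h3 h4 hP a
    rw [commutatorElement_eq_one_iff_mul_comm] at e
    refine O.eq_of (SE.SS_right (O.zz_SS i hP) (O.D_y h1 h2 a)) (O.se.SS_left (O.zz_SS i hP) (O.D_y h1 h2 a)) ?_
    rw [map_mul, map_mul]; exact e
  c6 {i j} h1 h2 {w c w' c'} hP hP' := by
    rw [comm_iff]
    have e := O.lin.c6 h1 h2 hP hP'
    rw [comm_iff] at e
    refine O.eq_of (O.se.SP_SS h1 h2 (O.se.SP_mul h1 h2 (O.zz_SP h1 h2 (Or.inl rfl) hP) (O.zz_SP h1 h2 (Or.inr rfl) hP')))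
      (O.se.SP_SS h1 h2 (O.se.SP_mul h1 h2 (O.y_SP h1 h2 _) (O.se.SP_mul h1 h2 (O.zz_SP h1 h2 (Or.inr rfl) hP')
        (O.zz_SP h1 h2 (Or.inl rfl) hP)))) ?_
    simp only [map_mul]
    exact e

/-- the action -/
theorem ha : HA τ h0 (PF τ h0) y (zz τ r D0 o v w0 c0 z) r where
  act_y := O.A.act_y
  act_z i {w c} hP x := by
    rw [O.r_zz i hP]
    refine Prod.ext ?_ ?_
    · funext p
      simp only [Prod.fst_add, Prod.smul_fst, Pi.add_apply, Pi.smul_apply, smul_eq_mul, eh_fst, mul_ite,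
        mul_one, mul_zero, wh, Pi.zero_apply, add_zero]
    · simp only [Prod.snd_add, Prod.smul_snd, eh_snd, smul_zero, add_zero, wh]
  form := O.A.form

end OD

end od

end Cfsg.Agent.GK.Un
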