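import Cfsg.Agent.GK.Un20

/-!
The kernel in odd dimension.
-/

set_option autoImplicit false
set_option linter.unusedSectionVars false
set_option linter.unusedVariables false
set_option linter.unusedSimpArgs false

namespace Cfsg.Agent.GK.Un

open Subgroup Cfsg.Agent.Stb
open scoped commutatorElement

universe v

section ok
variable {I K W Γ : Type*} [InvolutiveNeg I] [DecidableEq I] [Field K] [AddCommGroup W] [Module K W] [Group Γ] [Fintype I]
variable {τ : K →+* K} {h0 : W → W → K} {y : I → I → K → Γ} {z : I → W → K → Γ}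
variable {ρ : Γ →* (((I → K) × W) ≃ₗ[K] ((I → K) × W))}

/-- the group generated by the short root elements -/
def Dy (y : I → I → K → Γ) : Subgroup Γ := closure {g | ∃ i j : I, i ≠ j ∧ i ≠ -j ∧ ∃ a, g = y i j a}

theorem Dy_y {i j : I} (h1 : i ≠ j) (h2 : i ≠ -j) (a : K) : y i j a ∈ Dy y := subset_closure ⟨i, j, h1, h2, a, rfl⟩

variable (H : Herm τ h0) (R : HR τ h0 (PF τ h0) y z) (A : HA τ h0 (PF τ h0) y z ρ)

include A in
theorem Dy_fix {g : Γ} (hg : g ∈ Dy y) (w : W) : ρ g (wh w) = wh w := by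
  unfold Dy at hg
  induction hg using closure_induction with
  | mem x hx =>
    obtain ⟨i, j, h1, h2, a, rfl⟩ := hx
    exact act_y_wh A h1 h2 a w
  | one => rw [map_one]; rfl
  | mul a b _ _ ha hb => rw [hrho_mul, hb, ha]
  | inv a _ ha =>
    have := congrArg (ρ a⁻¹) ha
    rw [← hrho_mul, inv_mul_cancel, map_one] at this
    exact this.symm

include H R in
theorem Dy_z (i : I) {c : K} (hc : PF τ h0 0 c) : z i 0 c ∈ Dy y := by
  have hc' : τ c = -c := by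
    unfold PF at hc
    rw [H.full.zero_left, add_zero] at hc
    exact eq_neg_of_add_eq_zero_right hc
  obtain ⟨a, rfl⟩ := H.T.skew hc'
  obtain ⟨k, hk1, hk2⟩ := R.two i
  have h1 : i ≠ k := hk1.symm
  have h2 : i ≠ -k := fun e => hk2 (by rw [e, neg_neg])
  have h3 : -k ≠ i := fun e => h2 e.symm
  have h4 : -k ≠ -i := fun e => h1 (neg_inj.1 e).symm
  have e := R.c2 h1 h2 a 1
  rw [mul_one] at e
  rw [← e, commutatorElement_def]
  exact mul_mem (mul_mem (mul_mem (Dy_y h1 h2 _) (Dy_y h3 h4 _)) (inv_mem (Dy_y h1 h2 _))) (inv_mem (Dy_y h3 h4 _))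

include H R in
theorem Dy_nz (i : I) {e : K} (he : e ≠ 0) (hP : PF τ h0 0 e) : nz τ z i 0 e ∈ Dy y := by
  have h1 := H.full.P1 hP he
  have h2 := H.full.P2 hP he
  rw [smul_zero] at h1 h2
  unfold nz
  rw [smul_zero, smul_zero]
  exact mul_mem (mul_mem (Dy_z H R _ h1) (Dy_z H R _ hP)) (Dy_z H R _ h2)

include H R A in
theorem Dy_conj {i j : I} (hij : i ≠ -j) {m : Γ} (hm : m ∈ HMM (PF τ h0) y z ρ i j) {g : Γ} (hg : g ∈ Dy y) : m * g * m⁻¹ ∈ Dy y := by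
  have C := hcln H.full R A
  have : Dy y ≤ (Dy y).comap (MulAut.conj m).toMonoidHom := by
    refine (closure_le _).2 ?_
    rintro _ ⟨k, l, h1, h2, a, rfl⟩
    change m * y k l a * m⁻¹ ∈ Dy y
    have h3 := C.M_X i j hij k l h2 m hm _ (HR.y_mem h1 h2 a)
    obtain ⟨a', ha'⟩ := (R.mem_Xs (fun e => h1 ((rf_inj R.ne hij).1 e)) (rf_ne_neg R.ne hij h2)).1 h3
    rw [← ha']
    exact Dy_y (fun e => h1 ((rf_inj R.ne hij).1 e)) (rf_ne_neg R.ne hij h2) _
  exact this hg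

include H R A in
theorem Dy_short {i j : I} (h1 : i ≠ j) (h2 : i ≠ -j) {m : Γ} (hm : m ∈ HMM (PF τ h0) y z ρ i j) : m ∈ Dy y := by
  have C := hcln H.full R A
  refine (sup_le ?_ ?_ : HX (PF τ h0) y z i j ⊔ HX (PF τ h0) y z (-i) (-j) ≤ Dy y) (C.M_gp i j h2 m hm)
  · intro x hx
    obtain ⟨a, rfl⟩ := (R.mem_Xs h1 h2).1 hx
    exact Dy_y h1 h2 _
  · intro x hx
    have h3 : -i ≠ -j := fun e => h1 (neg_inj.1 e)
    have h4 : -i ≠ - -j := fun e => h2 (neg_inj.1 e)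
    obtain ⟨a, rfl⟩ := (R.mem_Xs h3 h4).1 hx
    exact Dy_y h3 h4 _

include H R in
theorem nz_inv {i : I} {w : W} {e : K} (hP : PF τ h0 w e) (he : e ≠ 0) : (nz τ z i w e)⁻¹ = nz τ z i (-w) (τ e) := by
  have h1 := H.full.P1 hP he
  have h2 := H.full.P2 hP he
  unfold nz
  rw [mul_inv_rev, mul_inv_rev, R.zinv H.full _ h1, R.zinv H.full _ hP, R.zinv H.full _ h2, map_inv₀, H.T.ττ, ← mul_assoc]
  congr 3
  · module
  · module

include H R A in
/-- exact version -/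
theorem nz_conj' {i : I} {w : W} {e : K} (hP : PF τ h0 w e) (he : e ≠ 0) {t : Γ} {c : I → K} (ht : t ∈ (hcln H.full R A).T) (hc : Mn ρ t id c)
    (hfix : ∀ w, ρ t (wh w) = wh w) :
    PF τ h0 (τ (c i) • w) (c i * τ (c i) * e) ∧ t * nz τ z i w e * t⁻¹ = nz τ z i (τ (c i) • w) (c i * τ (c i) * e) := by
  have C := hcln H.full R A
  have n1 : i ≠ -i := (R.ne i).symm
  have n2 : -i ≠ - -i := by rw [neg_neg]; exact R.ne i
  have hx1 := C.T_X n1 ht _ (HR.z_mem (P := PF τ h0) (y := y) (z := z) i hP)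
  obtain ⟨w', e', hP', e1⟩ := (R.mem_Xl H.full).1 hx1
  have key : e' = c i * τ (c i) * e ∧ w' = τ (c i) • w := by
    have h1 : ρ (t * z i w e * t⁻¹) (eh (-i)) = ρ (z i w' e') (eh (-i)) := by rw [e1]
    have h2 := hswap_inv' (hc.act (-i))
    change ρ t⁻¹ (eh (-i)) = _ • eh (-i) at h2
    have h3 := hc.act i
    have h4 := hc.act (-i)
    change ρ t (eh i) = _ • eh i at h3
    change ρ t (eh (-i)) = _ • eh (-i) at h4
    rw [hrho_mul, hrho_mul, h2, map_smul, map_smul, act_z_ee A H.full hP, act_z_ee A H.full hP', if_pos rfl, if_pos rfl, if_pos rfl,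
      one_smul, one_smul, map_add, map_add, map_smul, h3, h4, hfix] at h1
    have h5 := congrFun (congrArg Prod.fst h1) i
    have h5' := congrArg Prod.snd h1
    simp only [Prod.fst_add, Prod.smul_fst, Pi.add_apply, Pi.smul_apply, eh_fst, smul_eq_mul, if_true, mul_one, if_neg n1,
      mul_zero, add_zero, zero_add, wh, Pi.zero_apply] at h5
    simp only [Prod.snd_add, Prod.smul_snd, eh_snd, wh, smul_zero, zero_add] at h5'
    have h6 := hc.frm H.full A i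
    have h7 := hc.ne0 (-i)
    have h8 : τ (c i) = (c (-i))⁻¹ := eq_inv_of_mul_eq_one_left h6
    constructor
    · rw [← h5, h8]; ring
    · rw [← h5', h8]
  obtain ⟨k1, k2⟩ := key
  subst k1 k2
  refine ⟨hP', ?_⟩
  have hs' := hswap_conj_id R.ne hc (hn_z_aux H.full A R.ne (i := i) hP he)
  have e2 : t * (z (-i) ((-e⁻¹) • w) (τ e)⁻¹ * z i w e * z (-i) ((-(τ e)⁻¹) • w) (τ e)⁻¹) * t⁻¹ =
      (t * z (-i) ((-e⁻¹) • w) (τ e)⁻¹ * t⁻¹) * z i (τ (c i) • w) (c i * τ (c i) * e) * (t * z (-i) ((-(τ e)⁻¹) • w) (τ e)⁻¹ * t⁻¹) := by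
    rw [e1]; group
  rw [e2] at hs'
  obtain ⟨-, h9⟩ := norm_form H.full R A hP' (C.T_X n2 ht _ (HR.z_mem _ (H.full.P1 hP he))) (C.T_X n2 ht _ (HR.z_mem _ (H.full.P2 hP he))) hs'
  rw [← h9]
  unfold nz
  rw [e2]

include H R A in
/-- triangular elements -/
theorem tri {i : I} {t u v : Γ} (ht : t ∈ (hcln H.full R A).T) (hv : v ∈ HX (PF τ h0) y z (-i) (-i)) (hu : u ∈ HX (PF τ h0) y z i i)
    (h : t * v = u) : t = 1 := by
  have ni := R.ne i
  have ni' : ¬ i = -i := fun e => ni e.symm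
  obtain ⟨w, c, hP, e1⟩ := (R.mem_Xl H.full).1 hv
  obtain ⟨w', c', hP', e2⟩ := (R.mem_Xl H.full).1 hu
  obtain ⟨d, hd⟩ := hT_St H.full R A (-i) ht
  obtain ⟨d', hd'⟩ := hT_St H.full R A i ht
  have h1 : ρ u (eh (-i)) = d • eh (-i) := by
    rw [← h, hrho_mul, ← e1, act_z_ee A H.full hP, neg_neg, if_neg ni, if_neg ni, zero_smul, zero_smul, add_zero, add_zero, hd]
  rw [← e2, act_z_ee A H.full hP', if_pos rfl, if_pos rfl, one_smul] at h1
  have h2 : (c' : K) • (eh i : (I → K) × W) + (1 : K) • eh (-i) + wh w' = (0 : K) • eh i + d • eh (-i) + wh 0 := by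
    have : (wh (0 : W) : (I → K) × W) = 0 := rfl
    rw [one_smul, add_comm (c' • _), h1, zero_smul, this, zero_add, add_zero]
  obtain ⟨g1, g2, g3⟩ := coef ni h2
  have hu1 : u = 1 := by rw [← e2, g1, g3, R.zzero H.full]
  have h3 : ρ v (eh i) = d'⁻¹ • eh i := by
    have : t⁻¹ = v := by rw [inv_eq_iff_mul_eq_one, h, hu1]
    rw [← this]
    exact hswap_inv' hd'
  rw [← e1, act_z_ee A H.full hP, neg_neg, if_pos rfl, if_pos rfl, one_smul] at h3
  have h4 : (1 : K) • (eh i : (I → K) × W) + c • eh (-i) + wh w = d'⁻¹ • eh i + (0 : K) • eh (-i) + wh 0 := by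
    have : (wh (0 : W) : (I → K) × W) = 0 := rfl
    rw [one_smul, h3, zero_smul, this, add_zero, add_zero]
  obtain ⟨g4, g5, g6⟩ := coef ni h4
  have hv1 : v = 1 := by rw [← e1, g5, g6, R.zzero H.full]
  rw [hv1, mul_one] at h
  rw [h, hu1]

/-- products of long reflection elements and elements of the group generated by the short ones -/
def TT (τ : K →+* K) (h0 : W → W → K) (y : I → I → K → Γ) (z : I → W → K → Γ) (o : I) : Set Γ :=
  {x | ∃ w e, PF τ h0 w e ∧ e ≠ 0 ∧ ∃ d ∈ Dy y, x = nz τ z o w e * d}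

theorem TT_right {o : I} {x d : Γ} (hx : x ∈ TT τ h0 y z o) (hd : d ∈ Dy y) : x * d ∈ TT τ h0 y z o := by
  obtain ⟨w, e, h1, h2, d', hd', rfl⟩ := hx
  exact ⟨w, e, h1, h2, d' * d, mul_mem hd' hd, by group⟩

include H R A in
theorem nz_norm {o : I} {w : W} {e : K} (h1 : PF τ h0 w e) (h2 : e ≠ 0) {d : Γ} (hd : d ∈ Dy y) :
    nz τ z o w e * d * (nz τ z o w e)⁻¹ ∈ Dy y ∧ (nz τ z o w e)⁻¹ * d * nz τ z o w e ∈ Dy y := by
  have C := hcln H.full R A
  have n1 : o ≠ -o := (R.ne o).symm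
  have hm := nz_mem H.full R A (i := o) h1 h2
  refine ⟨Dy_conj H R A n1 hm hd, ?_⟩
  have := Dy_conj H R A n1 (C.M_inv o o n1 _ hm) hd
  rwa [inv_inv] at this

include H R A in
theorem TT_left {o : I} {x d : Γ} (hx : x ∈ TT τ h0 y z o) (hd : d ∈ Dy y) : d * x ∈ TT τ h0 y z o := by
  obtain ⟨w, e, h1, h2, d', hd', rfl⟩ := hx
  exact ⟨w, e, h1, h2, ((nz τ z o w e)⁻¹ * d * nz τ z o w e) * d', mul_mem (nz_norm H R A h1 h2 hd).2 hd', by group⟩

include H R in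
theorem TT_one {o : I} : (1 : Γ) ∈ TT τ h0 y z o := by
  obtain ⟨θ, hθ⟩ := H.T.nid
  have hP : PF τ h0 0 (θ - τ θ) := H.full.P_skew θ
  have he : θ - τ θ ≠ 0 := fun e => hθ (sub_eq_zero.1 e).symm
  exact ⟨0, _, hP, he, _, inv_mem (Dy_nz H R o he hP), (mul_inv_cancel _).symm⟩

include H R A in
/-- the rank one identity -/
theorem rank1_id {o : I} {w : W} {e1 e2 : K} (h1 : PF τ h0 w e1) (n1 : e1 ≠ 0) (h2 : PF τ h0 (-w) e2) (n2 : e2 ≠ 0) :
    nz τ z o w e1 * nz τ z o (-w) e2 ∈ TT τ h0 y z o := by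
  have HH := H.full
  have C := hcln H.full R A
  have no : o ≠ -o := (R.ne o).symm
  have no' : -o ≠ - -o := by rw [neg_neg]; exact R.ne o
  have hz := R.zmul o h1 h2
  have hPs := HH.P_mul h1 h2
  rw [add_neg_cancel, HH.neg_right, sub_neg_eq_add] at hz hPs
  set s : K := e1 + e2 + h0 w w with hs
  have h1' := h1
  unfold PF at h1'
  have hse : s = e2 - τ e1 := by rw [hs]; linear_combination h1'
  by_cases s0 : s = 0
  · have : e2 = τ e1 := by rw [s0] at hse; exact (sub_eq_zero.1 hse.symm)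
    subst this
    rw [← nz_inv H R h1 n1, mul_inv_cancel]
    exact TT_one H R
  -- notation
  have m1 := nz_mem HH R A (i := o) h1 n1
  have m2 := nz_mem HH R A (i := o) h2 n2
  have q1 := HR.z_mem (y := y) (z := z) (-o) (HH.P1 h1 n1)
  have q2 := HR.z_mem (y := y) (z := z) (-o) (HH.P2 h1 n1)
  have q3 := HR.z_mem (y := y) (z := z) (-o) (HH.P1 h2 n2)
  have q4 := HR.z_mem (y := y) (z := z) (-o) (HH.P2 h2 n2)
  have d1 : nz τ z o w e1 = z (-o) ((-e1⁻¹) • w) (τ e1)⁻¹ * z o w e1 * z (-o) ((-(τ e1)⁻¹) • w) (τ e1)⁻¹ := rfl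
  have d2 : nz τ z o (-w) e2 = z (-o) ((-e2⁻¹) • (-w)) (τ e2)⁻¹ * z o (-w) e2 * z (-o) ((-(τ e2)⁻¹) • (-w)) (τ e2)⁻¹ := rfl
  have hXne : z (-o) ((-e2⁻¹) • (-w)) (τ e2)⁻¹ * z (-o) ((-(τ e1)⁻¹) • w) (τ e1)⁻¹ ≠ 1 := by
    intro hX
    have e3 := eq_inv_of_mul_eq_one_left hX
    rw [R.zinv HH _ (HH.P2 h1 n1)] at e3
    obtain ⟨-, e4⟩ := z_inj HH R A (HH.P1 h2 n2) (HH.P_inv (HH.P2 h1 n1)) (by rw [e3])
    rw [map_inv₀, H.T.ττ, inv_inj] at e4
    apply s0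
    rw [hse, ← e4, H.T.ττ, sub_self]
  generalize hA1 : z (-o) ((-e1⁻¹) • w) (τ e1)⁻¹ = A1 at *
  generalize hB1 : z (-o) ((-(τ e1)⁻¹) • w) (τ e1)⁻¹ = B1 at *
  generalize hA2 : z (-o) ((-e2⁻¹) • (-w)) (τ e2)⁻¹ = A2 at *
  generalize hB2 : z (-o) ((-(τ e2)⁻¹) • (-w)) (τ e2)⁻¹ = B2 at *
  generalize hn1 : nz τ z o w e1 = N1 at *
  generalize hn2 : nz τ z o (-w) e2 = N2 at *
  -- the element Y⁻¹
  have hY : N1 * (A2 * B1) * N1⁻¹ ∈ HX (PF τ h0) y z o o := by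
    have h3 := C.M_X o o no (-o) (-o) no' N1 m1 _ (mul_mem q3 q2)
    have r1 : rf o o (-o) = o := by rw [rf_neg R.ne _ _ _ no, (rf_self1 no).1, neg_neg]
    rw [r1] at h3
    exact h3
  have hYne : N1 * (A2 * B1) * N1⁻¹ ≠ 1 := fun e => hXne (by
    have : A2 * B1 = N1⁻¹ * (N1 * (A2 * B1) * N1⁻¹) * N1 := by group
    rw [this, e]; group)
  obtain ⟨wY, eY, hPY, hYe⟩ := (R.mem_Xl HH).1 hY
  have heY : eY ≠ 0 := by
    rintro rfl
    have := HH.aniso hPY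
    subst this
    exact hYne (by rw [← hYe, R.zzero HH])
  have dY : nz τ z o wY eY = z (-o) ((-eY⁻¹) • wY) (τ eY)⁻¹ * z o wY eY * z (-o) ((-(τ eY)⁻¹) • wY) (τ eY)⁻¹ := rfl
  have dS : nz τ z o 0 s = z (-o) ((-s⁻¹) • (0 : W)) (τ s)⁻¹ * z o 0 s * z (-o) ((-(τ s)⁻¹) • (0 : W)) (τ s)⁻¹ := rfl
  have mY := nz_mem HH R A (i := o) hPY heY
  have mS := nz_mem HH R A (i := o) hPs s0
  have q5 := HR.z_mem (y := y) (z := z) (-o) (HH.P1 hPY heY)
  have q6 := HR.z_mem (y := y) (z := z) (-o) (HH.P2 hPY heY)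
  have q7 := HR.z_mem (y := y) (z := z) (-o) (HH.P1 hPs s0)
  have q8 := HR.z_mem (y := y) (z := z) (-o) (HH.P2 hPs s0)
  refine ⟨wY, eY, hPY, heY, nz τ z o 0 s, Dy_nz H R o s0 hPs, ?_⟩
  rw [hYe] at dY
  rw [← hz] at dS
  generalize hAY : z (-o) ((-eY⁻¹) • wY) (τ eY)⁻¹ = AY at *
  generalize hBY : z (-o) ((-(τ eY)⁻¹) • wY) (τ eY)⁻¹ = BY at *
  generalize hAS : z (-o) ((-s⁻¹) • (0 : W)) (τ s)⁻¹ = AS at *
  generalize hBS : z (-o) ((-(τ s)⁻¹) • (0 : W)) (τ s)⁻¹ = BS at *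
  generalize hnY : nz τ z o wY eY = NY at *
  generalize hnS : nz τ z o 0 s = NS at *
  generalize hZ1 : z o w e1 = Z1 at *
  generalize hZ2 : z o (-w) e2 = Z2 at *
  -- the factorization
  have f1 : N1 * N2 = (N1 * (A2 * B1) * N1⁻¹) * A1 * (Z1 * Z2) * B2 := by
    rw [d2]
    have : N1⁻¹ = B1⁻¹ * Z1⁻¹ * A1⁻¹ := by rw [d1]; group
    rw [this]; group
  have f2 : N1 * (A2 * B1) * N1⁻¹ = AY⁻¹ * NY * BY⁻¹ := by rw [dY]; group
  have f3 : Z1 * Z2 = AS⁻¹ * NS * BS⁻¹ := by rw [dS]; group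
  rw [f2, f3] at f1
  -- the torus element
  have ht1 : N1 * N2 ∈ C.T := C.mul_mem_T no m1 m2
  have ht2 : NY * NS ∈ C.T := C.mul_mem_T no mY mS
  have hV2 : (N1 * N2)⁻¹ * AY * (N1 * N2) ∈ HX (PF τ h0) y z (-o) (-o) := by
    have := C.T_X no' (inv_mem ht1) _ q5
    rwa [inv_inv] at this
  have hU' : NS⁻¹ * (BY⁻¹ * A1 * AS⁻¹) * NS ∈ HX (PF τ h0) y z o o := by
    have h3 := C.M_X o o no (-o) (-o) no' NS⁻¹ (C.M_inv o o no _ mS) _ (mul_mem (mul_mem (inv_mem q6) q1) (inv_mem q7))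
    have r1 : rf o o (-o) = o := by rw [rf_neg R.ne _ _ _ no, (rf_self1 no).1, neg_neg]
    rw [r1, inv_inv] at h3
    exact h3
  have key := tri H R A (i := o) (t := (NY * NS)⁻¹ * (N1 * N2)) (v := (N1 * N2)⁻¹ * AY * (N1 * N2) * (BS⁻¹ * B2)⁻¹)
    (u := NS⁻¹ * (BY⁻¹ * A1 * AS⁻¹) * NS) (mul_mem (inv_mem ht2) ht1) (mul_mem hV2 (inv_mem (mul_mem (inv_mem q8) q4))) hU' (by
      have f4 : AY * (N1 * N2) = NY * BY⁻¹ * A1 * (AS⁻¹ * NS * BS⁻¹) * B2 := by rw [f1]; group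
      calc (NY * NS)⁻¹ * (N1 * N2) * ((N1 * N2)⁻¹ * AY * (N1 * N2) * (BS⁻¹ * B2)⁻¹) = (NY * NS)⁻¹ * (AY * (N1 * N2)) * (BS⁻¹ * B2)⁻¹ := by group
        _ = _ := by rw [f4]; group)
  exact (inv_mul_eq_one.1 key).symm

/-- enough torus elements -/
def Tor (τ : K →+* K) (h0 : W → W → K) (H : HF τ h0 (PF τ h0)) (y : I → I → K → Γ) (z : I → W → K → Γ)
    (ρ : Γ →* (((I → K) × W) ≃ₗ[K] ((I → K) × W))) (R : HR τ h0 (PF τ h0) y z) (A : HA τ h0 (PF τ h0) y z ρ) (o : I) : Prop :=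
  ∀ a : K, a ≠ 0 → ∃ t ∈ Dy y, t ∈ (hcln H R A).T ∧ ∃ c, Mn ρ t id c ∧ c o = a

include H R A in
theorem TT_nn {o : I} (hT : Tor τ h0 H.full y z ρ R A o) (one : ∀ w w' : W, w ≠ 0 → ∃ a : K, w' = a • w)
    {w1 w2 : W} {e1 e2 : K} (h1 : PF τ h0 w1 e1) (n1 : e1 ≠ 0) (h2 : PF τ h0 w2 e2) (n2 : e2 ≠ 0) :
    nz τ z o w1 e1 * nz τ z o w2 e2 ∈ TT τ h0 y z o := by
  by_cases c1 : w1 = 0
  · subst c1
    exact TT_left H R A ⟨w2, e2, h2, n2, 1, one_mem _, by rw [mul_one]⟩ (Dy_nz H R o n1 h1)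
  by_cases c2 : w2 = 0
  · subst c2
    exact ⟨w1, e1, h1, n1, _, Dy_nz H R o n2 h2, rfl⟩
  obtain ⟨a, ha⟩ := one w2 (-w1) c2
  have ha0 : a ≠ 0 := by rintro rfl; rw [zero_smul, neg_eq_zero] at ha; exact c1 ha
  have hta : τ a ≠ 0 := fun e => ha0 (by rw [← H.T.ττ a, e, map_zero])
  obtain ⟨t, ht1, ht2, c, hc, hco⟩ := hT (τ a) hta
  obtain ⟨k1, k2⟩ := nz_conj' H R A h2 n2 ht2 hc (Dy_fix A ht1)
  rw [hco, H.T.ττ, ← ha] at k1 k2
  have k3 := rank1_id H R A (o := o) h1 n1 k1 (mul_ne_zero (mul_ne_zero hta ha0) n2)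
  rw [← k2] at k3
  have k4 := TT_right (TT_left H R A k3 (nz_norm H R A (o := o) h1 n1 (inv_mem ht1)).1) ht1
  convert k4 using 1
  group

include H R A in
/-- the set is a subgroup -/
theorem TT_mul {o : I} (hT : Tor τ h0 H.full y z ρ R A o) (one : ∀ w w' : W, w ≠ 0 → ∃ a : K, w' = a • w) {x x' : Γ}
    (hx : x ∈ TT τ h0 y z o) (hx' : x' ∈ TT τ h0 y z o) : x * x' ∈ TT τ h0 y z o := by
  obtain ⟨w, e, h1, h2, d, hd, rfl⟩ := hx
  obtain ⟨w', e', h1', h2', d', hd', rfl⟩ := hx'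
  have k := TT_right (TT_nn H R A hT one h1 h2 h1' h2') (mul_mem (nz_norm H R A (o := o) h1' h2' hd).2 hd')
  convert k using 1
  group

include H R A in
theorem TT_inv {o : I} {x : Γ} (hx : x ∈ TT τ h0 y z o) : x⁻¹ ∈ TT τ h0 y z o := by
  obtain ⟨w, e, h1, h2, d, hd, rfl⟩ := hx
  have hte : τ e ≠ 0 := fun h => h2 (by rw [← H.T.ττ e, h, map_zero])
  rw [mul_inv_rev]
  refine TT_left H R A ⟨-w, τ e, H.full.P_inv h1, hte, 1, one_mem _, ?_⟩ (inv_mem hd)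
  rw [mul_one, nz_inv H R h1 h2]

include H R A in
theorem T_TT {o : I} (hT : Tor τ h0 H.full y z ρ R A o) (one : ∀ w w' : W, w ≠ 0 → ∃ a : K, w' = a • w) {t : Γ}
    (ht : t ∈ (hcln H.full R A).T) : t ∈ TT τ h0 y z o := by
  have C := hcln H.full R A
  have ne := R.ne
  have D_TT : ∀ d ∈ Dy y, d ∈ TT τ h0 y z o := fun d hd => by
    have := TT_right (TT_one H R (o := o)) hd
    rwa [one_mul] at this
  have key0 : ∀ m ∈ HMM (PF τ h0) y z ρ o o, m ∈ TT τ h0 y z o := by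
    intro m hm
    obtain ⟨w, e, h1, h2, rfl⟩ := exists_nz H.full R A hm
    exact ⟨w, e, h1, h2, 1, one_mem _, by rw [mul_one]⟩
  have key : ∀ i j : I, i ≠ -j → ∀ m ∈ HMM (PF τ h0) y z ρ i j, m ∈ TT τ h0 y z o := by
    intro i j hij m hm
    by_cases h1 : i = j
    · subst h1
      by_cases h2 : i = o
      · subst h2; exact key0 m hm
      by_cases h3 : i = -o
      · subst h3
        have := HMM_neg H.full R A hij hm
        rw [neg_neg] at this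
        exact key0 m this
      · have h4 : i ≠ - -o := by rw [neg_neg]; exact h2
        have hx1 : y i (-o) (1 : K) ≠ 1 := by
          intro e
          have h5 : ρ (y i (-o) 1) (eh o) = eh o := by rw [e, map_one]; rfl
          rw [act_y_ee A h3 h4, neg_neg, if_pos rfl, if_neg (fun e => h3 (by rw [e, neg_neg])), one_smul, zero_smul, sub_zero] at h5
          exact eh_ne i (left_eq_add.1 h5.symm)
        obtain ⟨a, -, b, -, n, hn, -⟩ := C.rank1 i (-o) h4 _ (HR.y_mem h3 h4 1) hx1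
        have hnD := Dy_short H R A h3 h4 hn
        have k1 := C.M_M i (-o) h4 i i hij n hn m hm
        rw [rf_eq ne h2] at k1
        have k2 := TT_right (TT_left H R A (key0 _ k1) (inv_mem hnD)) hnD
        convert k2 using 1
        group
    · exact D_TT m (Dy_short H R A h1 hij hm)
  unfold Cln.T at ht
  induction ht using closure_induction with
  | mem x hx =>
    obtain ⟨i, j, hij, m, hm, m', hm', rfl⟩ := hx
    exact TT_mul H R A hT one (key i j hij m hm) (key i j hij m' hm')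
  | one => exact TT_one H R
  | mul a b _ _ ha hb => exact TT_mul H R A hT one ha hb
  | inv a _ ha => exact TT_inv H R A ha

include H R A in
/-- the action of a long reflection element on the anisotropic part -/
theorem nz_snd {i : I} {w : W} {e : K} (hP : PF τ h0 w e) (he : e ≠ 0) :
    (ρ (nz τ z i w e) (wh w)).2 = (1 + e⁻¹ * h0 w w) • w := by
  have HH := H.full
  have ni := R.ne i
  have ni' : ¬ i = -i := fun e => ni e.symm
  have h1 := HH.P1 hP he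
  have h2 := HH.P2 hP he
  unfold nz
  rw [hrho_mul, hrho_mul, act_z_wh A h2, HH.smul_left, map_neg, map_inv₀, HH.ττ, map_sub, map_smul, act_z_wh A hP, act_z_ee A HH hP, if_pos rfl,
    if_pos rfl, one_smul]
  simp only [map_add, map_sub, map_smul]
  rw [act_z_wh A h1, act_z_ee A HH h1, act_z_ee A HH h1, neg_neg, if_neg ni, if_neg ni, if_pos rfl, if_pos rfl]
  simp only [Prod.snd_add, Prod.snd_sub, Prod.smul_snd, eh_snd, wh_snd, smul_zero, one_smul, sub_zero, zero_add, add_zero]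
  have e1 : e * e⁻¹ = 1 := mul_inv_cancel₀ he
  match_scalars
  linear_combination (-(h0 w w) * e⁻¹) * e1

include H R A in
/-- **The kernel in odd dimension.** -/
theorem odd_ker {o : I} (hT : Tor τ h0 H.full y z ρ R A o) (one : ∀ w w' : W, w ≠ 0 → ∃ a : K, w' = a • w)
    (inj0 : ∀ g ∈ Dy y, ρ g = 1 → g = 1) {g : Γ} (hg : g ∈ gp (HX (PF τ h0) y z) (fun _ _ => True)) (h1 : ρ g = 1) : g = 1 := by
  have h2 : g ∈ (hcln H.full R A).T := by
    refine hmem_T H.full R A (mem_sup_left hg) fun o => ⟨1, ?_⟩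
    rw [h1, one_smul]; rfl
  obtain ⟨w, e, hP, he, d, hd, hgd⟩ := T_TT H R A hT one h2
  have h3 : (ρ g (wh w)).2 = w := by rw [h1]; rfl
  rw [hgd, hrho_mul, Dy_fix A hd, nz_snd H R A hP he] at h3
  have hw : w = 0 := by
    have h4 : (e⁻¹ * h0 w w) • w = 0 := by
      have : (1 + e⁻¹ * h0 w w) • w = w + (e⁻¹ * h0 w w) • w := by rw [add_smul, one_smul]
      rw [this] at h3
      exact add_eq_left.1 h3
    rcases smul_eq_zero.1 h4 with h5 | h5
    · exact H.aniso ((mul_eq_zero.1 h5).resolve_left (inv_ne_zero he))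
    · exact h5
  subst hw
  refine inj0 g ?_ h1
  rw [hgd]
  exact mul_mem (Dy_nz H R o he hP) hd

end ok

end Cfsg.Agent.GK.Un
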