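import Cfsg.Agent.GK.Un21

/-!
The environment in odd dimension; injectivity.
-/

set_option autoImplicit false
set_option linter.unusedSectionVars false
set_option linter.unusedVariables false
set_option linter.unusedSimpArgs false

namespace Cfsg.Agent.GK.Un

open Subgroup Cfsg.Agent.Stb
open scoped commutatorElement
open Om (Mo_emb2_fst Mo_emb2_snd Mo_emb2_out)

attribute [local instance] Stb.sumNeg

universe v

section ev
variable {F : Type v} [Field F] {l : Type} [Fintype l] [DecidableEq l] {W Γ Δ : Type*} [AddCommGroup W] [Module F W] [Group Γ] [Group Δ]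
variable {τ : F →+* F} {ν : F} {h0 : W → W → F} {yG : (l ⊕ l) → (l ⊕ l) → F → Γ} {zG : (l ⊕ l) → W → F → Γ}
variable {ρ : Γ →* (((l ⊕ l → F) × W) ≃ₗ[F] ((l ⊕ l → F) × W))} {σ : Matrix.SpecialLinearGroup l F →* Γ} {SG : l → Γ}
variable {μ : Matrix.SpecialLinearGroup l F →* Δ} {s : Δ} {o : l} {z : l ⊕ l → F → Δ} {v : Δ} {w0 : W} {c0 : F}

/-- the group generated by the root elements of the nondegenerate part -/
noncomputable def D0G (W : Type*) [AddCommGroup W] [Module F W] (τ : F →+* F) (ν : F) (μ : Matrix.SpecialLinearGroup l F →* Δ) (s : Δ) (o : l) (z : l ⊕ l → F → Δ) :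
    Subgroup Δ := gp (HX (PZ τ) (yu ν μ (SF μ s o)) (fun p (_ : W) c => z p c)) (fun _ _ => True)

/-- `v` commutes with the stabilizer of the vector -/
structure V1 (τ : F →+* F) (ν : F) (μ : Matrix.SpecialLinearGroup l F →* Δ) (s : Δ) {o o' : l} (h : o ≠ o') (z : l ⊕ l → F → Δ) (v : Δ) : Prop where
  hM : ∀ M, Mo M o o 1 → Commute v (μ M)
  hy : ∀ {p q : l ⊕ l}, p ≠ q → p ≠ -q → p ≠ Sum.inr o → q ≠ Sum.inr o → ∀ a, Commute v (yu ν μ (SF μ s o) p q a)
  hz : ∀ {p : l ⊕ l}, p ≠ Sum.inr o → ∀ {c}, τ c = -c → Commute v (z p c)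
  hH : ∀ c, Commute v (HH μ (SF μ s o) h.symm c)

variable (C : CG τ ν h0 (PF τ h0) yG zG ρ σ SG) {π : Δ →* Γ} (Q : PI C μ s o π) (E : EV τ ν μ s o z) (H : Herm τ h0)

include Q E H in
theorem c1_of [Nonempty l] {o' : l} {h : o ≠ o'} (V : V1 τ ν μ s h z v) (hn : ∀ r : F, τ r = r → r ≠ 0 → ∃ d : Fˣ, ((nn τ d : Fˣ) : F) = r) {g : Δ}
    (hg : g ∈ D0G W τ ν μ s o z) (h1 : ρ (π g) (eh (Sum.inl o)) = eh (Sum.inl o)) : Commute g v := by
  have R := even_hr (W := W) E H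
  have A := even_ha C Q E H
  have HZ := H.zero
  obtain ⟨x, hx, t, ht, ht1, rfl⟩ := fix_form HZ R A (mem_sup_left hg) h1
  refine Commute.mul_left ?_ ?_
  · clear h1 hg
    unfold FixX gp at hx
    induction hx using closure_induction with
    | mem x hx =>
      obtain ⟨k, l', hkl, hc, hx⟩ := hx
      have ne := R.ne
      have n1 : k ≠ Sum.inr o := by
        change k ≠ -(Sum.inl o)
        rintro rfl
        rcases cf_cases ne hkl (Sum.inl o) with e | e | e | e | e | e | e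
        · exact ne _ e.2.1
        · omega
        · exact ne _ e.2.1
        · exact e.2.2.2 rfl
        · omega
        · omega
        · exact e.2.2.1 rfl
      have n2 : l' ≠ Sum.inr o := by
        change l' ≠ -(Sum.inl o)
        rintro rfl
        rcases cf_cases ne hkl (Sum.inl o) with e | e | e | e | e | e | e
        · exact ne _ e.2.2
        · omega
        · exact e.2.2.2 rfl
        · exact ne _ e.2.1
        · omega
        · omega
        · exact e.2.2.2.2 rfl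
      by_cases h3 : k = l'
      · subst h3
        obtain ⟨w, c, hP, rfl⟩ := (R.mem_Xl HZ).1 hx
        exact (V.hz n1 (eq_neg_of_add_eq_zero_right hP.2)).symm
      · obtain ⟨a, rfl⟩ := (R.mem_Xs h3 hkl).1 hx
        exact (V.hy h3 hkl n1 n2 a).symm
    | one => exact Commute.one_left _
    | mul a b _ _ ha hb => exact ha.mul_left hb
    | inv a _ ha => exact ha.inv_left
  · have h2 := T_le_TS HZ R A E.V E.hF hn (fun w c h => h.1) ht
    obtain ⟨M, hM, c, rfl⟩ := TS_form E.V h.symm h2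
    obtain ⟨u, hu⟩ := DC_mo hM o
    have h3 := H_act HZ R A E.V E.hF h.symm c o
    rw [if_neg h, one_smul] at h3
    rw [hrho_mul, h3] at ht1
    have h4 := DC_act A hu (c := 1) (by rw [ht1, one_smul])
    have h5 : u = 1 := Units.ext h4.symm
    subst h5
    exact (V.hM M hu).symm.mul_left (V.hH c).symm

include Q E H in
theorem fixW_of {g : Δ} (hg : g ∈ D0G W τ ν μ s o z) (w : W) : ρ (π g) (wh w) = wh w := by
  have R := even_hr (W := W) E H
  have A := even_ha C Q E H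
  have HZ := H.zero
  change (ρ.comp π) g (wh w) = wh w
  unfold D0G gp at hg
  induction hg using closure_induction with
  | mem x hx =>
    obtain ⟨k, l', hkl, hc, hx⟩ := hx
    by_cases h3 : k = l'
    · subst h3
      obtain ⟨w', c, hP, rfl⟩ := (R.mem_Xl HZ).1 hx
      obtain ⟨rfl, hP'⟩ := hP
      have := act_z_wh (P := PZ τ) A (i := k) (w := (0 : W)) (c := c) ⟨rfl, hP'⟩ w
      rw [this, HZ.zero_left, zero_smul, sub_zero]
    · obtain ⟨a, rfl⟩ := (R.mem_Xs h3 hkl).1 hx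
      exact act_y_wh A h3 hkl a w
  | one => rw [map_one]; rfl
  | mul a b _ _ ha hb => rw [hrho_mul, hb, ha]
  | inv a _ ha =>
    have := congrArg ((ρ.comp π) a⁻¹) ha
    rw [← hrho_mul, inv_mul_cancel, map_one] at this
    exact this.symm

include E H in
theorem mu_D0 (M : Matrix.SpecialLinearGroup l F) : μ M ∈ D0G W τ ν μ s o z := mu_gp E H (mem_sup_left ⟨M, rfl⟩)

include E H in
theorem s_D0 : s ∈ D0G W τ ν μ s o z := mu_gp E H (mem_sup_right (mem_zpowers s))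

include E H in
theorem SF_D0 (i : l) : SF μ s o i ∈ D0G W τ ν μ s o z := by
  obtain ⟨M, hM⟩ := exists_mo1 (F := F) E.b0.two o i
  rw [SF_eq E.b0 hM]
  exact mul_mem (mul_mem (mu_D0 E H M) (s_D0 E H)) (inv_mem (mu_D0 E H M))

include Q in
theorem mu_actP (M : Matrix.SpecialLinearGroup l F) (x : (l ⊕ l → F) × W) : ρ (π (μ M)) x = LM τ M x := by
  rw [Q.hμ, C.act]

include Q in
theorem SF_actP (i : l) (x : (l ⊕ l → F) × W) : ρ (π (SF μ s o i)) x = fl ν i x := by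
  rw [Q.sf, C.actS]

/-- the sign changes -/
noncomputable def sgE (μ : Matrix.SpecialLinearGroup l F →* Δ) (s : Δ) (o : l) (p : l ⊕ l) : Δ := Sum.elim (fun _ => 1) (fun i => SF μ s o i) p

include Q in
theorem sgE_self (p : l ⊕ l) : ∃ c : F, c ≠ 0 ∧ ρ (π (sgE μ s o p)) (eh (Sum.inl (ab p)) : (l ⊕ l → F) × W) = c • eh p := by
  rcases p with i | i
  · refine ⟨1, one_ne_zero, ?_⟩
    change ρ (π 1) _ = _
    rw [map_one, map_one, one_smul]; rfl
  · refine ⟨ν, C.ν0, ?_⟩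
    change ρ (π (SF μ s o i)) (eh (Sum.inl i)) = _
    rw [Q.sf]
    have := (C.mn i).act (Sum.inl i)
    rw [if_pos rfl, sk_l] at this
    exact this

include Q in
theorem sgE_out {p q : l ⊕ l} (h : ab q ≠ ab p) : ρ (π (sgE μ s o p)) (eh q : (l ⊕ l → F) × W) = eh q := by
  rcases p with i | i
  · change ρ (π 1) _ = _
    rw [map_one, map_one]; rfl
  · change ρ (π (SF μ s o i)) (eh q) = _
    rw [SF_actP C Q]
    have h1 : ¬ (Sum.inl i : l ⊕ l) = q := by rintro rfl; exact h rfl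
    have h2 : ¬ (Sum.inr i : l ⊕ l) = q := by rintro rfl; exact h rfl
    symm
    apply fl_ext
    · rw [eh_fst, eh_fst, if_neg h1, if_neg h2, mul_zero]
    · rw [eh_fst, eh_fst, if_neg h1, if_neg h2, mul_zero]
    · intro p _ _; rfl
    · rfl

include E H in
theorem sgE_D0 (p : l ⊕ l) : sgE μ s o p ∈ D0G W τ ν μ s o z := by
  rcases p with i | i
  · exact one_mem _
  · exact SF_D0 E H i

include Q E H in
theorem trans_of {i j : l ⊕ l} (h1 : i ≠ j) (h2 : i ≠ -j) (α β : F) (hab : ¬ (α = 0 ∧ β = 0)) : ∃ g ∈ D0G W τ ν μ s o z, ∃ j' : l ⊕ l,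
    j' ≠ Sum.inl o ∧ j' ≠ -(Sum.inl o) ∧
    ρ (π g) (eh (Sum.inl o)) = α • (eh i : (l ⊕ l → F) × W) + β • eh j ∧ ∃ γ δ : F, ρ (π g) (eh j') = γ • (eh i : (l ⊕ l → F) × W) + δ • eh j := by
  obtain ⟨o', ho⟩ := E.b0.two o
  have h : o ≠ o' := ho.symm
  have hij : ab i ≠ ab j := by
    intro e
    rcases i with i | i <;> rcases j with j | j
    · exact h1 (congrArg Sum.inl e)
    · exact h2 (congrArg Sum.inl e)
    · exact h2 (congrArg Sum.inr e)
    · exact h1 (congrArg Sum.inr e)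
  obtain ⟨M, c, -, hM2, hM1⟩ := exists_mo (F := F) (i := o') (j := o) (i' := ab j) (j' := ab i) h.symm hij.symm
  obtain ⟨a, ha, ea⟩ := sgE_self C Q i
  obtain ⟨b, hb, eb⟩ := sgE_self C Q j
  set N := sgE μ s o i * sgE μ s o j * μ M with hN
  have N1 : ρ (π N) (eh (Sum.inl o)) = a • (eh i : (l ⊕ l → F) × W) := by
    rw [hN, map_mul, hrho_mul, map_mul, hrho_mul, mu_actP C Q, LM_eh_inl τ hM1, Units.val_one, one_smul,
      sgE_out C Q (p := j) (q := Sum.inl (ab i)) hij, ea]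
  have N2 : ρ (π N) (eh (Sum.inl o')) = (c * b : F) • (eh j : (l ⊕ l → F) × W) := by
    rw [hN, map_mul, hrho_mul, map_mul, hrho_mul, mu_actP C Q, LM_eh_inl τ hM2, map_smul, map_smul, eb, map_smul,
      sgE_out C Q (p := i) (q := j) hij.symm, smul_smul]
  have hND : N ∈ D0G W τ ν μ s o z := mul_mem (mul_mem (sgE_D0 E H i) (sgE_D0 E H j)) (mu_D0 E H M)
  have hcb : (c * b : F) ≠ 0 := mul_ne_zero c.ne_zero hb
  -- the special linear group of the plane
  have key : ∀ x y : F, ¬ (x = 0 ∧ y = 0) → ∃ g ∈ D0G W τ ν μ s o z, ρ (π g) (eh (Sum.inl o)) = x • (eh (Sum.inl o) : (l ⊕ l → F) × W) + y • eh (Sum.inl o') ∧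
      ∃ γ δ : F, ρ (π g) (eh (Sum.inl o')) = γ • (eh (Sum.inl o) : (l ⊕ l → F) × W) + δ • eh (Sum.inl o') := by
    have n1 : ¬ (Sum.inl o : l ⊕ l) = Sum.inl o' := fun e => h (Sum.inl_injective e)
    have n2 : ∀ a b : l, ¬ (Sum.inl a : l ⊕ l) = Sum.inr b := fun a b => Sum.inl_ne_inr
    have n3 : ∀ a b : l, ¬ (Sum.inr a : l ⊕ l) = Sum.inl b := fun a b => Sum.inr_ne_inl
    intro x y hxy
    by_cases hy : y = 0
    · have hx : x ≠ 0 := fun e => hxy ⟨e, hy⟩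
      refine ⟨μ (emb2 h (hm (Units.mk0 x hx))), mu_D0 E H _, ?_, 0, (((Units.mk0 x hx)⁻¹ : Fˣ) : F), ?_⟩
      · rw [mu_actP C Q, LM_eh_inl τ (Mo_emb2_fst h _), hy, zero_smul, add_zero]; rfl
      · rw [mu_actP C Q, LM_eh_inl τ (Mo_emb2_snd h _), zero_smul, zero_add]
    · refine ⟨μ (tvl h ((x - 1) / y)) * μ (tvl h.symm y), mul_mem (mu_D0 E H _) (mu_D0 E H _), ?_, (x - 1) / y, 1, ?_⟩
      · rw [map_mul, hrho_mul, mu_actP C Q, mu_actP C Q, LM_tvl, LM_tvl]
        simp only [Prod.fst_add, Prod.fst_sub, Prod.smul_fst, Pi.add_apply, Pi.sub_apply, Pi.smul_apply, smul_eq_mul, eh_fst, if_true,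
          if_neg n1, if_neg (Ne.symm n1), if_neg (n2 _ _), if_neg (n3 _ _), mul_zero, mul_one, zero_smul, sub_zero, add_zero, zero_add]
        rw [div_mul_cancel₀ _ hy]
        module
      · rw [map_mul, hrho_mul, mu_actP C Q, mu_actP C Q, LM_tvl, LM_tvl]
        simp only [Prod.fst_add, Prod.fst_sub, Prod.smul_fst, Pi.add_apply, Pi.sub_apply, Pi.smul_apply, smul_eq_mul, eh_fst, if_true,
          if_neg n1, if_neg (Ne.symm n1), if_neg (n2 _ _), if_neg (n3 _ _), mul_zero, mul_one, zero_smul, sub_zero, add_zero, zero_add]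
        module
  obtain ⟨g0, hg0, k1, γ, δ, k2⟩ := key (α / a) (β / (c * b)) (by
    rintro ⟨e1, e2⟩
    exact hab ⟨(div_eq_zero_iff.1 e1).resolve_right ha, (div_eq_zero_iff.1 e2).resolve_right hcb⟩)
  refine ⟨N * g0, mul_mem hND hg0, Sum.inl o', fun e => ho (Sum.inl_injective e), Sum.inl_ne_inr, ?_, γ * a, δ * (c * b), ?_⟩
  · rw [map_mul, hrho_mul, k1, map_add, map_smul, map_smul, N1, N2, smul_smul, smul_smul, div_mul_cancel₀ _ ha, div_mul_cancel₀ _ hcb]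
  · rw [map_mul, hrho_mul, k2, map_add, map_smul, map_smul, N1, N2, smul_smul, smul_smul]

include Q E H in
/-- the environment -/
theorem se_of [Nonempty l] {o' : l} {h : o ≠ o'} (V : V1 τ ν μ s h z v) (hn : ∀ r : F, τ r = r → r ≠ 0 → ∃ d : Fˣ, ((nn τ d : Fˣ) : F) = r)
    (hw0 : w0 ≠ 0) (hP : PF τ h0 w0 c0) (hv : π v = zG (Sum.inl o) w0 c0)
    (c2 : ∀ g ∈ D0G W τ ν μ s o z, ∀ (j : l ⊕ l) (a b : F), j ≠ Sum.inl o → j ≠ -(Sum.inl o) → b ≠ 0 →
      ρ (π g) (eh (Sum.inl o)) = a • (eh (Sum.inl o) : (l ⊕ l → F) × W) + b • eh j →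
      (∃ h ∈ D0G W τ ν μ s o z, ∃ a' ∈ D0G W τ ν μ s o z, v * (g * v * g⁻¹) = h * v * h⁻¹ * a') ∨ v * (g * v * g⁻¹) ∈ D0G W τ ν μ s o z) :
    SE τ h0 (ρ.comp π) (D0G W τ ν μ s o z) (Sum.inl o) v w0 c0 where
  H := H
  ne := C.ne
  form g u w := C.A.form (π g) u w
  inj0 g hg h1 := even_inj C Q E H hn hg (C.inj (by rw [map_one]; exact h1))
  fixW g hg w := fixW_of C Q E H hg w
  hw0 := hw0
  hv x := by
    change ρ (π v) x = _
    rw [hv, aZ C.A _ hP]
  c1 g hg h1 := c1_of C Q E H V hn hg h1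
  c2 := c2
  trans h1 h2 α β hab := trans_of C Q E H h1 h2 α β hab

include Q E H in
/-- the data in odd dimension -/
theorem od_of [Nonempty l] {o' : l} {h : o ≠ o'} (V : V1 τ ν μ s h z v) (hn : ∀ r : F, τ r = r → r ≠ 0 → ∃ d : Fˣ, ((nn τ d : Fˣ) : F) = r)
    (hw0 : w0 ≠ 0) (one : ∀ w w' : W, w ≠ 0 → ∃ a : F, w' = a • w) (hP : PF τ h0 w0 c0) (hv : π v = zG (Sum.inl o) w0 c0)
    (c2 : ∀ g ∈ D0G W τ ν μ s o z, ∀ (j : l ⊕ l) (a b : F), j ≠ Sum.inl o → j ≠ -(Sum.inl o) → b ≠ 0 →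
      ρ (π g) (eh (Sum.inl o)) = a • (eh (Sum.inl o) : (l ⊕ l → F) × W) + b • eh j →
      (∃ h ∈ D0G W τ ν μ s o z, ∃ a' ∈ D0G W τ ν μ s o z, v * (g * v * g⁻¹) = h * v * h⁻¹ * a') ∨ v * (g * v * g⁻¹) ∈ D0G W τ ν μ s o z) :
    OD τ h0 (ρ.comp π) (D0G W τ ν μ s o z) (Sum.inl o) v w0 c0 (yu ν μ (SF μ s o)) z where
  se := se_of C Q E H V hn hw0 hP hv c2
  R := even_hr E H
  A := even_ha C Q E H
  D_y {i j} h1 h2 a := X_le_gp h2 trivial (HR.y_mem h1 h2 a)
  D_z i {c} hc := X_le_gp (fun e => C.ne i e.symm) trivial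
    (HR.z_mem (z := fun p (_ : W) c => z p c) i (w := (0 : W)) (⟨rfl, hc⟩ : PZ τ (0 : W) c))
  hP := hP
  one w := one w0 w hw0

include Q E H in
/-- **Injectivity in odd dimension.** -/
theorem odd_inj [Nonempty l] {o' : l} {h : o ≠ o'} (V : V1 τ ν μ s h z v) (hn : ∀ r : F, τ r = r → r ≠ 0 → ∃ d : Fˣ, ((nn τ d : Fˣ) : F) = r)
    (hw0 : w0 ≠ 0) (one : ∀ w w' : W, w ≠ 0 → ∃ a : F, w' = a • w) (hP : PF τ h0 w0 c0) (hv : π v = zG (Sum.inl o) w0 c0)
    (c2 : ∀ g ∈ D0G W τ ν μ s o z, ∀ (j : l ⊕ l) (a b : F), j ≠ Sum.inl o → j ≠ -(Sum.inl o) → b ≠ 0 →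
      ρ (π g) (eh (Sum.inl o)) = a • (eh (Sum.inl o) : (l ⊕ l → F) × W) + b • eh j →
      (∃ h ∈ D0G W τ ν μ s o z, ∃ a' ∈ D0G W τ ν μ s o z, v * (g * v * g⁻¹) = h * v * h⁻¹ * a') ∨ v * (g * v * g⁻¹) ∈ D0G W τ ν μ s o z)
    {g : Δ} (hg : g ∈ μ.range ⊔ zpowers s ⊔ zpowers v) (h1 : π g = 1) : g = 1 := by
  have O := od_of C Q E H V hn hw0 one hP hv c2
  have R := O.hr
  have A := O.ha
  set zq := OD.zz τ (ρ.comp π) (D0G W τ ν μ s o z) (Sum.inl o) v w0 c0 z with hzq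
  -- the subgroup generated by the short root elements
  have hDy : Dy (yu ν μ (SF μ s o)) ≤ D0G W τ ν μ s o z := by
    unfold Dy
    rw [closure_le]
    rintro _ ⟨i, j, h1, h2, a, rfl⟩
    exact O.D_y h1 h2 a
  have hmuD : μ.range ≤ Dy (yu ν μ (SF μ s o)) := by
    rw [MonoidHom.range_eq_map, map_le_iff_le_comap]
    have : (Dy (yu ν μ (SF μ s o))).comap μ = ⊤ := by
      apply H40.sl_eq_top_of_transvections
      intro i j hij a
      rw [mem_comap, ← yu_lr (ν := ν) (S := SF μ s o) hij]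
      exact Dy_y Sum.inl_ne_inr (lr_ne hij) a
    rw [this]
  have hT : Tor τ h0 H.full (yu ν μ (SF μ s o)) zq (ρ.comp π) R A (Sum.inl o) := by
    intro a ha
    obtain ⟨d, hd, hd2⟩ := D_Mn H.full R A (M := emb2 h (hm (Units.mk0 a ha))) (subset_closure ⟨o, o', h, _, rfl⟩)
    exact ⟨_, hmuD ⟨_, rfl⟩, DT H.full R A h _, d, hd, (hd2 o _ (Mo_emb2_fst h _)).1⟩
  have hgp : μ.range ⊔ zpowers s ⊔ zpowers v ≤ gp (HX (PF τ h0) (yu ν μ (SF μ s o)) zq) (fun _ _ => True) := by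
    refine sup_le ((mu_gp (W := W) E H).trans ?_) ?_
    · refine gp_le fun k l' hkl _ x hx => ?_
      by_cases h3 : k = l'
      · subst h3
        obtain ⟨w, c, hPz, rfl⟩ := (O.R.mem_Xl H.zero).1 hx
        obtain ⟨rfl, hc⟩ := hPz
        refine X_le_gp hkl trivial ?_
        have := HR.z_mem (y := yu ν μ (SF μ s o)) (z := zq) k (PZ.full H (⟨rfl, hc⟩ : PZ τ (0 : W) c))
        rw [hzq, O.zz_zero] at this
        exact this
      · obtain ⟨a, rfl⟩ := (O.R.mem_Xs h3 hkl).1 hx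
        exact X_le_gp hkl trivial (HR.y_mem h3 hkl a)
    · rw [zpowers_le]
      have hvv : v = zq (Sum.inl o) w0 c0 := by
        refine O.se.SS_inj ?_ (O.zz_SS _ hP) ?_
        · refine ⟨eh (Sum.inl o), Or.inr ⟨1, one_mem _, by rw [map_one]; rfl⟩, 1, one_mem _, ?_⟩
          rw [O.se.Z_eq (one_mem _) (by rw [map_one]; rfl)]
          group
        · apply LinearEquiv.ext
          intro x
          rw [O.se.hv, O.r_zz _ hP]
      rw [hvv]
      exact X_le_gp (fun e => C.ne _ e.symm) trivial (HR.z_mem _ hP)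
  refine odd_ker H R A hT one (fun g hg h1 => O.se.inj0 g (hDy hg) h1) (hgp hg) ?_
  change ρ (π g) = 1
  rw [h1, map_one]

end ev

end Cfsg.Agent.GK.Un
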