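import Cfsg.Agent.GK.Un22

/-!
The relations for the additional generator in odd dimension, rank at least three.
-/

set_option autoImplicit false
set_option linter.unusedSectionVars false
set_option linter.unusedVariables false
set_option linter.unusedSimpArgs false

namespace Cfsg.Agent.GK.Un

open Subgroup Cfsg.Agent.Stb
open scoped commutatorElement
open Om (Mo_emb2_fst Mo_emb2_snd Mo_emb2_out)

attribute [local instance] Stb.sumNeg

universe v

section v3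
variable {F : Type v} [Field F] {l : Type} [Fintype l] [DecidableEq l] {Δ : Type*} [Group Δ]
variable {τ : F →+* F} {ν : F}
variable {μ : Matrix.SpecialLinearGroup l F →* Δ} {s : Δ} {o : l} {z : l ⊕ l → F → Δ} {v : Δ} {c0 : F}

/-- monomial matrices with prescribed coefficients -/
theorem exists_mo3 (three : ∀ i j : l, ∃ k, k ≠ i ∧ k ≠ j) {i j i' j' : l} (h : i ≠ j) (h' : i' ≠ j') (c : Fˣ) :
    ∃ M : Matrix.SpecialLinearGroup l F, Mo M i i' 1 ∧ Mo M j j' c := by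
  obtain ⟨M, h1, h2⟩ := exists_mo2 (F := F) three h h'
  obtain ⟨k, hk1, hk2⟩ := three i' j'
  refine ⟨emb2 hk2.symm (hm c) * M, ?_, ?_⟩
  · have := (Mo_emb2_out hk2.symm h' hk1.symm (hm c)).mul h1
    rwa [one_mul] at this
  · have := (Mo_emb2_fst hk2.symm c).mul h2
    rwa [mul_one] at this

theorem v1_three [Nonempty l] (E : EV τ ν μ s o z) (three : ∀ i j : l, ∃ k, k ≠ i ∧ k ≠ j) {o' : l} {h : o ≠ o'}
    (hM : ∀ M, Mo M o o 1 → Commute v (μ M)) (hS : Commute v (SF μ s o o')) (hx : Commute v (μ (tvl h 1))) : V1 τ ν μ s h z v := by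
  have cS : ∀ k, k ≠ o → Commute v (SF μ s o k) := by
    intro k hk
    obtain ⟨M, h1, h2⟩ := exists_mo2 (F := F) three h hk.symm
    rw [← SF_tr E.b0 h2]
    exact ((hM M h1).mul_right hS).mul_right (hM M h1).inv_right
  have cX : ∀ (k : l) (hk : o ≠ k) (a : F), Commute v (μ (tvl hk a)) := by
    intro k hk a
    by_cases ha : a = 0
    · subst ha; rw [tvl_zero, map_one]; exact Commute.one_right _
    obtain ⟨M, h1, h2⟩ := exists_mo3 (F := F) three h hk (Units.mk0 a ha)⁻¹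
    have e := h1.conj h2 h hk (1 : F)
    have e2 : μ (tvl hk a) = μ M * μ (tvl h 1) * (μ M)⁻¹ := by
      rw [← map_inv, ← map_mul, ← map_mul, e]
      congr 2
      simp
    rw [e2]
    exact ((hM M h1).mul_right hx).mul_right (hM M h1).inv_right
  have cT : ∀ {i j : l} (hij : i ≠ j), j ≠ o → ∀ a : F, Commute v (μ (tvl hij a)) := by
    intro i j hij hj a
    by_cases hi : i = o
    · subst hi; exact cX j hij a
    · exact hM _ (Mo.tv hij (Ne.symm hi) (Ne.symm hj) a)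
  have hy : ∀ {p q : l ⊕ l}, p ≠ q → p ≠ -q → p ≠ Sum.inr o → q ≠ Sum.inr o → ∀ a, Commute v (yu ν μ (SF μ s o) p q a) := by
    intro p q h1 h2 h3 h4 a
    have ν0 := E.U.ν0
    rcases p with i | i <;> rcases q with j | j
    · have hij : i ≠ j := fun e => h1 (by rw [e])
      by_cases hj : j = o
      · subst hj
        rw [E.U.y0.symm h1 h2, yu_ll hij.symm]
        exact ((cS i hij).mul_right (cT hij.symm hij _)).mul_right (cS i hij).inv_right
      · rw [yu_ll hij]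
        exact ((cS j hj).mul_right (cT hij hj _)).mul_right (cS j hj).inv_right
    · have hij : i ≠ j := fun e => h2 (by rw [e]; rfl)
      have hj : j ≠ o := fun e => h4 (by rw [e])
      rw [yu_lr hij]
      exact cT hij hj _
    · have hij : i ≠ j := fun e => h2 (by rw [e]; rfl)
      have hi : i ≠ o := fun e => h3 (by rw [e])
      rw [E.U.y0.symm h1 h2, yu_lr hij.symm]
      exact cT hij.symm hi _
    · have hij : i ≠ j := fun e => h1 (by rw [e])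
      have hi : i ≠ o := fun e => h3 (by rw [e])
      have hj : j ≠ o := fun e => h4 (by rw [e])
      rw [yu_rr hij]
      exact ((cS i hi).mul_right (cT hij hj _)).mul_right (cS i hi).inv_right
  refine ⟨hM, hy, ?_, ?_⟩
  · intro p hp c hc
    obtain ⟨a, rfl⟩ := E.U.T.skew hc
    obtain ⟨k, hk1, hk2⟩ := three (ab p) o
    have g1 : p ≠ Sum.inl k ∧ p ≠ -(Sum.inl k) := ⟨fun e => hk1 (by rw [e]; rfl), fun e => hk1 (by rw [e]; rfl)⟩
    have g3 : -(Sum.inl k) ≠ p := fun e => g1.2 e.symm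
    have g4 : -(Sum.inl k) ≠ -p := fun e => g1.1 (neg_inj.1 e).symm
    have e := E.Z.zr g1.1 g1.2 a 1
    rw [mul_one] at e
    rw [← e, commutatorElement_def]
    have k1 := hy g1.1 g1.2 hp Sum.inl_ne_inr a
    have k2 := hy g3 g4 (fun e => hk2 (Sum.inr_injective e)) hp 1
    exact ((k1.mul_right k2).mul_right k1.inv_right).mul_right k2.inv_right
  · intro c
    obtain ⟨k, hk1, hk2⟩ := three o' o
    rw [E.V.hi h.symm hk1.symm c]
    unfold HH
    have k1 := cS o' h.symm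
    have k2 := hM _ (Mo_emb2_out hk1.symm h hk2.symm (hm c))
    exact ((k1.mul_right k2).mul_right k1.inv_right).mul_right k2.inv_right

end v3

section ev
variable {F : Type v} [Field F] {l : Type} [Fintype l] [DecidableEq l] {W Γ Δ : Type*} [AddCommGroup W] [Module F W] [Group Γ] [Group Δ]
variable {τ : F →+* F} {ν : F} {h0 : W → W → F} {yG : (l ⊕ l) → (l ⊕ l) → F → Γ} {zG : (l ⊕ l) → W → F → Γ}
variable {ρ : Γ →* (((l ⊕ l → F) × W) ≃ₗ[F] ((l ⊕ l → F) × W))} {σ : Matrix.SpecialLinearGroup l F →* Γ} {SG : l → Γ}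
variable {μ : Matrix.SpecialLinearGroup l F →* Δ} {s : Δ} {o : l} {z : l ⊕ l → F → Δ} {v : Δ} {w0 : W} {c0 : F}
variable (C : CG τ ν h0 (PF τ h0) yG zG ρ σ SG) {π : Δ →* Γ} (Q : PI C μ s o π) (E : EV τ ν μ s o z) (H : Herm τ h0)

/-- the product relation -/
def R2 (W : Type*) [AddCommGroup W] [Module F W] (τ : F →+* F) (ν : F) (μ : Matrix.SpecialLinearGroup l F →* Δ) (s : Δ) (o : l) (z : l ⊕ l → F → Δ) (v K : Δ) : Prop :=
  (∃ h ∈ D0G W τ ν μ s o z, ∃ a' ∈ D0G W τ ν μ s o z, v * (K * v * K⁻¹) = h * v * h⁻¹ * a')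

include Q E H in
theorem c2_core [Nonempty l] {o' : l} {h : o ≠ o'} (V : V1 τ ν μ s h z v) (hn : ∀ r : F, τ r = r → r ≠ 0 → ∃ d : Fˣ, ((nn τ d : Fˣ) : F) = r)
    (B : ∀ (j : l ⊕ l) (a b : F), j ≠ Sum.inl o → j ≠ -(Sum.inl o) → b ≠ 0 → ∃ g1 ∈ D0G W τ ν μ s o z, ∃ K ∈ D0G W τ ν μ s o z,
      R2 W τ ν μ s o z v K ∧ ρ (π g1) (eh (Sum.inl o)) = (eh (Sum.inl o) : (l ⊕ l → F) × W) ∧
      ρ (π (g1 * K)) (eh (Sum.inl o)) = a • (eh (Sum.inl o) : (l ⊕ l → F) × W) + b • eh j) :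
    ∀ g ∈ D0G W τ ν μ s o z, ∀ (j : l ⊕ l) (a b : F), j ≠ Sum.inl o → j ≠ -(Sum.inl o) → b ≠ 0 →
      ρ (π g) (eh (Sum.inl o)) = a • (eh (Sum.inl o) : (l ⊕ l → F) × W) + b • eh j →
      (∃ h ∈ D0G W τ ν μ s o z, ∃ a' ∈ D0G W τ ν μ s o z, v * (g * v * g⁻¹) = h * v * h⁻¹ * a') ∨ v * (g * v * g⁻¹) ∈ D0G W τ ν μ s o z := by
  intro g hg j a b hj1 hj2 hb he
  obtain ⟨g1, hg1, K, hK, ⟨t, ht, d, hd, hR⟩, k1, k2⟩ := B j a b hj1 hj2 hb
  have c1 := (c1_of C Q E H V hn hg1 k1).eq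
  have c2 := (c1_of C Q E H V hn (mul_mem (inv_mem (mul_mem hg1 hK)) hg) (by
    rw [map_mul, hrho_mul, he, ← k2, ← hrho_mul, ← map_mul, inv_mul_cancel, map_one, map_one]; rfl)).eq
  left
  refine ⟨g1 * t, mul_mem hg1 ht, g1 * d * g1⁻¹, mul_mem (mul_mem hg1 hd) (inv_mem hg1), ?_⟩
  have e1 : g * v * g⁻¹ = g1 * (K * v * K⁻¹) * g1⁻¹ := by
    calc g * v * g⁻¹ = (g1 * K) * (((g1 * K)⁻¹ * g) * v) * g⁻¹ := by group
      _ = _ := by rw [c2]; group
  calc v * (g * v * g⁻¹) = (v * g1) * (K * v * K⁻¹) * g1⁻¹ := by rw [e1]; group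
    _ = g1 * (v * (K * v * K⁻¹)) * g1⁻¹ := by rw [← c1]; group
    _ = _ := by rw [hR]; group

include Q E H in
/-- moving the second vector -/
theorem move [Nonempty l] {o' : l} {h : o ≠ o'} {j : l ⊕ l} (hj1 : j ≠ Sum.inl o) (hj2 : j ≠ -(Sum.inl o)) (a b : F) (hb : b ≠ 0) :
    ∃ b0 : F, b0 ≠ 0 ∧ ∀ (M : Matrix.SpecialLinearGroup l F) (β c : Fˣ), Mo M o o 1 → Mo M o' (ab j) β → (β : F) * c = b0 →
    ∃ g1 ∈ D0G W τ ν μ s o z, ρ (π g1) (eh (Sum.inl o)) = (eh (Sum.inl o) : (l ⊕ l → F) × W) ∧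
      ρ (π g1) ((c : F) • eh (Sum.inl o')) = a • (eh (Sum.inl o) : (l ⊕ l → F) × W) + b • eh j := by
  obtain ⟨γ, hγ, eγ⟩ := sgE_self C Q j
  refine ⟨b / γ, div_ne_zero hb hγ, ?_⟩
  intro M β c h1 h2 hβ
  have n1 : (Sum.inl o : l ⊕ l) ≠ -j := fun e => hj2 (by rw [e, neg_neg])
  have n2 : (Sum.inl o : l ⊕ l) ≠ - -j := by rw [neg_neg]; exact hj1.symm
  have hab : ab j ≠ o := by
    intro e
    rcases j with j | j
    · exact hj1 (congrArg Sum.inl e)
    · exact hj2 (congrArg Sum.inr e)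
  have no : ¬ (-(Sum.inl o) : l ⊕ l) = Sum.inl o := Sum.inr_ne_inl
  have A := even_ha C Q E H
  refine ⟨yu ν μ (SF μ s o) (Sum.inl o) (-j) (a / b) * sgE μ s o j * μ M, mul_mem (mul_mem (X_le_gp n2 trivial (HR.y_mem n1 n2 _)) (sgE_D0 E H j)) (mu_D0 E H M), ?_, ?_⟩
  · rw [map_mul, hrho_mul, map_mul, hrho_mul, mu_actP C Q, LM_eh_inl τ h1, Units.val_one, one_smul,
      sgE_out C Q (p := j) (q := Sum.inl o) hab.symm]
    have e1 := act_y_ee A n1 n2 (a / b) (Sum.inl o)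
    rw [if_neg n2, if_neg (fun e => no e.symm), zero_smul, zero_smul, add_zero, sub_zero] at e1
    exact e1
  · rw [map_mul, hrho_mul, map_mul, hrho_mul, mu_actP C Q, LM_smul, LM_eh_inl τ h2]
    simp only [map_smul]
    rw [eγ]
    have e1 := act_y_ee A n1 n2 (a / b) j
    rw [if_pos (neg_neg j).symm, if_neg hj2, zero_smul, sub_zero] at e1
    simp only [map_smul]
    have e2 : ρ (π (yu ν μ (SF μ s o) (Sum.inl o) (-j) (a / b))) (eh j) = (eh j : (l ⊕ l → F) × W) + (a / b) • eh (Sum.inl o) := e1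
    rw [e2, smul_smul, smul_smul, smul_add, smul_smul]
    have e3 : (c : F) * (β * γ) = b := by
      have : (c : F) * (β * γ) = (β * c) * γ := by ring
      rw [this, hβ, div_mul_cancel₀ _ hγ]
    have e4 : (c : F) * β * γ = b := by rw [← e3]; ring
    rw [e4, mul_div_cancel₀ _ hb]; module

include Q E H in
theorem c2_three [Nonempty l] {o' : l} {h : o ≠ o'} (three : ∀ i j : l, ∃ k, k ≠ i ∧ k ≠ j) (V : V1 τ ν μ s h z v)
    (hn : ∀ r : F, τ r = r → r ≠ 0 → ∃ d : Fˣ, ((nn τ d : Fˣ) : F) = r) {K : Matrix.SpecialLinearGroup l F} (hK : Mo K o o' 1)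
    (hR : v * (μ K * v * (μ K)⁻¹) = (μ (tvl h.symm 1) * v * (μ (tvl h.symm 1))⁻¹) *
      (SF μ s o o' * μ (tvl h (ν * τ (1 * c0))) * (SF μ s o o')⁻¹)) :
    ∀ g ∈ D0G W τ ν μ s o z, ∀ (j : l ⊕ l) (a b : F), j ≠ Sum.inl o → j ≠ -(Sum.inl o) → b ≠ 0 →
      ρ (π g) (eh (Sum.inl o)) = a • (eh (Sum.inl o) : (l ⊕ l → F) × W) + b • eh j →
      (∃ h ∈ D0G W τ ν μ s o z, ∃ a' ∈ D0G W τ ν μ s o z, v * (g * v * g⁻¹) = h * v * h⁻¹ * a') ∨ v * (g * v * g⁻¹) ∈ D0G W τ ν μ s o z := by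
  refine c2_core C Q E H V hn ?_
  intro j a b hj1 hj2 hb
  have hab : ab j ≠ o := by
    intro e
    rcases j with j | j
    · exact hj1 (congrArg Sum.inl e)
    · exact hj2 (congrArg Sum.inr e)
  obtain ⟨b0, hb0, key⟩ := move C Q E H (h := h) hj1 hj2 a b hb
  obtain ⟨M, h1, h2⟩ := exists_mo3 (F := F) three h hab.symm (Units.mk0 b0 hb0)
  obtain ⟨g1, hg1, k1, k2⟩ := key M _ 1 h1 h2 (by rw [Units.val_one, mul_one]; rfl)
  refine ⟨g1, hg1, μ K, mu_D0 E H K, ⟨_, mu_D0 E H _, _, mul_mem (mul_mem (SF_D0 E H _) (mu_D0 E H _)) (inv_mem (SF_D0 E H _)), hR⟩, k1, ?_⟩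
  rw [map_mul, hrho_mul, mu_actP C Q, LM_eh_inl τ hK]
  exact k2

end ev

end Cfsg.Agent.GK.Un
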