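import Cfsg.Agent.GK.Un23

/-!
Rank two, odd dimension: the additional torus element.
-/

set_option autoImplicit false
set_option linter.unusedSectionVars false
set_option linter.unusedVariables false
set_option linter.unusedSimpArgs false

namespace Cfsg.Agent.GK.Un

open Subgroup Cfsg.Agent.Stb
open scoped commutatorElement
open Om (Mo_emb2_fst Mo_emb2_snd Mo_emb2_out)

attribute [local instance] Stb.sumNeg

universe v

section kr
variable {F : Type v} [Field F] {Γ : Type*} [Group Γ]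

/-- relations of the additional torus element -/
structure KR (μ : Matrix.SpecialLinearGroup (Fin 2) F →* Γ) (s : Γ) (h : (0 : Fin 2) ≠ 1) (ζ : Fˣ) (kk : Γ) : Prop where
  k1 : Commute kk (μ (emb2 h (hm ζ)))
  k2 : kk * μ (tvl h 1) * kk⁻¹ = μ (tvl h ((ζ⁻¹ : Fˣ) : F))
  k3 : kk * μ (tvl h.symm 1) * kk⁻¹ = μ (tvl h.symm (ζ : F))
  k4 : Commute kk s

variable {τ : F →+* F} {ν : F} {μ : Matrix.SpecialLinearGroup (Fin 2) F →* Γ} {s : Γ} {h : (0 : Fin 2) ≠ 1} {ζ : Fˣ} {kk : Γ}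

namespace KR
variable (B : KR μ s h ζ kk)
include B

theorem x [Finite F] (hζ : IsGen ζ) (a : F) : kk * μ (tvl h a) * kk⁻¹ = μ (tvl h (((ζ⁻¹ : Fˣ) : F) * a)) := scale_all hζ h B.k1 B.k2 a

theorem y [Finite F] (hζ : IsGen ζ) (a : F) : kk * μ (tvl h.symm a) * kk⁻¹ = μ (tvl h.symm ((ζ : F) * a)) := by
  refine scale_all hζ h.symm ?_ B.k3 a
  rw [emb2_symm_hm h, ← hm_inv, map_inv, map_inv]
  exact B.k1.inv_right

theorem t [Finite F] (hζ : IsGen ζ) : kk * μ (emb2 h tm) * kk⁻¹ = (μ (emb2 h (hm ζ)))⁻¹ * μ (emb2 h tm) := by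
  rw [← map_inv, ← map_inv, hm_inv, ← map_mul μ, ← map_mul (emb2 h), hm_tm_word, tm_word, map_mul, map_mul, map_mul, map_mul, map_mul, map_mul,
    map_mul, map_mul, emb2_xm, emb2_xm, emb2_ym, emb2_ym, inv_inv]
  have e1 := B.x hζ 1
  have e2 := B.y hζ (-1)
  rw [mul_one] at e1
  rw [mul_neg_one] at e2
  rw [← e1, ← e2]; group

theorem S1 [Finite F] (hζ : IsGen ζ) : kk * SF μ s 0 1 * kk⁻¹ = (μ (emb2 h (hm ζ)))⁻¹ * SF μ s 0 1 * μ (emb2 h (hm ζ)) := by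
  have h1 := B.t hζ
  have h2 := B.k4.eq
  set D := μ (emb2 h (hm ζ)) with hD
  set t := μ (emb2 h tm) with ht
  have h3 : t * D * t⁻¹ = D⁻¹ := by
    rw [ht, hD, ← map_inv, ← map_inv, ← map_inv, ← map_inv, ← map_mul, ← map_mul, ← map_mul, ← map_mul, tm_hm, hm_inv]
  rw [SF1 (h := h), ← ht]
  have h4 : kk * (t⁻¹ * s * t) * kk⁻¹ = (kk * t * kk⁻¹)⁻¹ * (kk * s * kk⁻¹) * (kk * t * kk⁻¹) := by group
  have h5 : kk * s * kk⁻¹ = s := by rw [h2]; group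
  have h6 : D⁻¹ * t = t * D := by rw [← h3]; group
  rw [h4, h1, h5, h6]; group

theorem st2 [Finite F] (hζ : IsGen ζ) (st1 : Commute (SF μ s 0 1 * μ (tvl h (ν * 1)) * (SF μ s 0 1)⁻¹) (μ (tvl h 1))) :
    Commute (SF μ s 0 1 * μ (tvl h (ν * ζ)) * (SF μ s 0 1)⁻¹) (μ (tvl h (ζ : F))) := by
  have h1 := B.S1 hζ
  have e1 := B.x hζ (ν * 1)
  have e2 := B.x hζ 1
  have e3 := D_tv (μ := μ) h ζ (((ζ⁻¹ : Fˣ) : F) * (ν * 1))
  have e4 := D_tv (μ := μ) h ζ (((ζ⁻¹ : Fˣ) : F) * 1)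
  have hz := ζ.ne_zero
  have a3 : (ζ : F) ^ 2 * (((ζ⁻¹ : Fˣ) : F) * (ν * 1)) = ν * ζ := by rw [Units.val_inv_eq_inv_val]; field_simp
  have a4 : (ζ : F) ^ 2 * (((ζ⁻¹ : Fˣ) : F) * 1) = ζ := by rw [Units.val_inv_eq_inv_val]; field_simp
  rw [a3] at e3
  rw [a4] at e4
  set D := μ (emb2 h (hm ζ)) with hD
  have c := (Commute.conj_iff (D * kk)).2 st1
  have f1 : (D * kk) * (SF μ s 0 1 * μ (tvl h (ν * 1)) * (SF μ s 0 1)⁻¹) * (D * kk)⁻¹ = SF μ s 0 1 * μ (tvl h (ν * ζ)) * (SF μ s 0 1)⁻¹ := by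
    calc (D * kk) * (SF μ s 0 1 * μ (tvl h (ν * 1)) * (SF μ s 0 1)⁻¹) * (D * kk)⁻¹ =
        D * ((kk * SF μ s 0 1 * kk⁻¹) * (kk * μ (tvl h (ν * 1)) * kk⁻¹) * (kk * SF μ s 0 1 * kk⁻¹)⁻¹) * D⁻¹ := by group
      _ = SF μ s 0 1 * (D * μ (tvl h (((ζ⁻¹ : Fˣ) : F) * (ν * 1))) * D⁻¹) * (SF μ s 0 1)⁻¹ := by rw [h1, e1]; group
      _ = _ := by rw [e3]
  have f2 : (D * kk) * μ (tvl h 1) * (D * kk)⁻¹ = μ (tvl h (ζ : F)) := by
    calc (D * kk) * μ (tvl h 1) * (D * kk)⁻¹ = D * (kk * μ (tvl h 1) * kk⁻¹) * D⁻¹ := by group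
      _ = _ := by rw [e2, e4]
  rw [f1, f2] at c
  exact c

theorem norm [Finite F] (hζ : IsGen ζ) {g : Γ} (hg : g ∈ μ.range ⊔ zpowers s) : kk * g * kk⁻¹ ∈ μ.range ⊔ zpowers s := by
  have key : μ.range ⊔ zpowers s ≤ (μ.range ⊔ zpowers s).comap (MulAut.conj kk).toMonoidHom := by
    refine sup_le ?_ ?_
    · rw [MonoidHom.range_eq_map, map_le_iff_le_comap]
      have : (((μ.range ⊔ zpowers s).comap (MulAut.conj kk).toMonoidHom).comap μ) = ⊤ := by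
        apply H40.sl_eq_top_of_transvections
        intro i j hij a
        rw [mem_comap, mem_comap]
        change kk * μ (tvl hij a) * kk⁻¹ ∈ _
        fin_cases i <;> fin_cases j
        · exact absurd rfl hij
        · rw [B.x hζ]; exact mem_sup_left ⟨_, rfl⟩
        · rw [B.y hζ]; exact mem_sup_left ⟨_, rfl⟩
        · exact absurd rfl hij
      rw [MonoidHom.range_eq_map] at this
      rw [this]
    · rw [zpowers_le, mem_comap]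
      change kk * s * kk⁻¹ ∈ _
      rw [B.k4.eq, mul_inv_cancel_right]
      exact mem_sup_right (mem_zpowers s)
  exact key hg

theorem xn [Finite F] (hζ : IsGen ζ) (n : ℕ) (a : F) : kk ^ n * μ (tvl h a) * (kk ^ n)⁻¹ = μ (tvl h (((ζ⁻¹ ^ n : Fˣ) : F) * a)) := by
  induction n generalizing a with
  | zero => rw [pow_zero, pow_zero, Units.val_one, one_mul]; group
  | succ n ih =>
    calc kk ^ (n + 1) * μ (tvl h a) * (kk ^ (n + 1))⁻¹ = kk ^ n * (kk * μ (tvl h a) * kk⁻¹) * (kk ^ n)⁻¹ := by rw [pow_succ]; group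
      _ = _ := by rw [B.x hζ, ih, pow_succ, Units.val_mul, mul_assoc]

theorem yn [Finite F] (hζ : IsGen ζ) (n : ℕ) (a : F) : kk ^ n * μ (tvl h.symm a) * (kk ^ n)⁻¹ = μ (tvl h.symm (((ζ ^ n : Fˣ) : F) * a)) := by
  induction n generalizing a with
  | zero => rw [pow_zero, pow_zero, Units.val_one, one_mul]; group
  | succ n ih =>
    calc kk ^ (n + 1) * μ (tvl h.symm a) * (kk ^ (n + 1))⁻¹ = kk ^ n * (kk * μ (tvl h.symm a) * kk⁻¹) * (kk ^ n)⁻¹ := by rw [pow_succ]; group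
      _ = _ := by rw [B.y hζ, ih, pow_succ, Units.val_mul, mul_assoc]

end KR

/-- the torus acts on the remaining root elements -/
theorem D_yu (V : UH τ ν μ (SF μ s 0)) (d : Fˣ) (a : F) :
    μ (emb2 h (hm d)) * yu ν μ (SF μ s 0) (Sum.inl 1) (Sum.inl 0) a * (μ (emb2 h (hm d)))⁻¹ =
      yu ν μ (SF μ s 0) (Sum.inl 1) (Sum.inl 0) (((d⁻¹ : Fˣ) : F) * τ (d : F) * a) := by
  have hd := d.ne_zero
  set S := SF μ s 0 with hS
  rw [yu_ll h.symm, yu_ll h.symm]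
  have k1 := V.hinv' h d
  have k2 := V.hX' h d (((d⁻¹ : Fˣ) : F) ^ 2 * (ν * a))
  have k3 := D_tv' (μ := μ) h d (ν * a)
  have k4 : ν * (((d⁻¹ : Fˣ) : F) * τ (d : F) * a) = ((nn τ d : Fˣ) : F) * (((d⁻¹ : Fˣ) : F) ^ 2 * (ν * a)) := by
    rw [Units.val_inv_eq_inv_val, nn_coe]; field_simp
  rw [k4, ← k2, ← k3]
  set D := μ (emb2 h (hm d)) with hD
  have k5 : D * S 0 = S 0 * (HH μ S h d) * D := by
    have k6 : (HH μ S h d)⁻¹ = D * S 0 * D⁻¹ * (S 0)⁻¹ := by unfold HH; rw [← hD]; group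
    have k7 : D * S 0 = (HH μ S h d)⁻¹ * S 0 * D := by rw [k6]; group
    have k8 : (HH μ S h d)⁻¹ * S 0 = S 0 * HH μ S h d := by
      have k9 : ((S 0)⁻¹ * HH μ S h d * S 0)⁻¹ = HH μ S h d := by rw [k1, inv_inv]
      have this : (S 0)⁻¹ * (HH μ S h d)⁻¹ * S 0 = HH μ S h d := by
        calc (S 0)⁻¹ * (HH μ S h d)⁻¹ * S 0 = ((S 0)⁻¹ * HH μ S h d * S 0)⁻¹ := by group
          _ = _ := k9
      calc (HH μ S h d)⁻¹ * S 0 = S 0 * ((S 0)⁻¹ * (HH μ S h d)⁻¹ * S 0) := by group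
        _ = _ := by rw [this]
    rw [k7, k8]
  calc D * (S 0 * μ (tvl h.symm (ν * a)) * (S 0)⁻¹) * D⁻¹ = (D * S 0) * μ (tvl h.symm (ν * a)) * (D * S 0)⁻¹ := by group
    _ = _ := by rw [k5]; group

/-- the second commutator relation follows -/
theorem KR.c3r [Fintype F] (B : KR μ s h ζ kk) (hζ : IsGen ζ) {q : ℕ} (hq : ∀ a : F, τ a = a ^ q) {z : Fin 2 ⊕ Fin 2 → F → Γ} {e : F} (he : e + τ e = 1)
    (U : UE τ ν μ (SF μ s 0)) (V : UH τ ν μ (SF μ s 0)) (Z : ZD τ (yu ν μ (SF μ s 0)) z) (r1 : C3R τ ν μ s h e 1) : C3R τ ν μ s h e ζ := by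
  have h0 : SF μ s 0 0 = s := SF_o b0_two
  have ττ := U.T.ττ
  have hz := ζ.ne_zero
  have htz : τ (ζ : F) ≠ 0 := fun e => hz (by rw [← ττ (ζ : F), e, map_zero])
  set d : Fˣ := Units.map (τ : F →* F) ζ with hd
  have hdc : (d : F) = τ (ζ : F) := rfl
  have hqz : ((ζ ^ q : Fˣ) : F) = τ (ζ : F) := by rw [Units.val_pow_eq_pow_val, hq]
  have hqz' : ((ζ⁻¹ ^ q : Fˣ) : F) = (τ (ζ : F))⁻¹ := by rw [inv_pow, Units.val_inv_eq_inv_val, hqz]
  have b1 : BC τ (yu ν μ (SF μ s 0)) z ν 1 := (BC_iff (h := h) U Z e 1 he h0).2 r1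
  have key := BC_tr (h := h) U Z (g := μ (emb2 h (hm d)) * kk ^ q) (α := τ (ζ : F)) (β := (τ (ζ : F))⁻¹) (γ := (ζ : F)) ?_ ?_ ?_
    (mul_inv_cancel₀ htz) (by rw [map_inv₀, ττ, mul_inv_cancel₀ hz, map_one]) (by rw [map_mul, ττ, mul_comm]) U.hν b1
  · rw [map_inv₀, ττ, mul_inv_cancel₀ hz, one_mul, mul_one] at key
    exact (BC_iff (h := h) U Z e ζ he h0).1 key
  · intro a
    calc μ (emb2 h (hm d)) * kk ^ q * μ (tvl h a) * (μ (emb2 h (hm d)) * kk ^ q)⁻¹ =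
        μ (emb2 h (hm d)) * (kk ^ q * μ (tvl h a) * (kk ^ q)⁻¹) * (μ (emb2 h (hm d)))⁻¹ := by group
      _ = _ := by
        rw [B.xn hζ, D_tv, hqz', hdc]
        congr 2
        field_simp
  · intro a
    calc μ (emb2 h (hm d)) * kk ^ q * μ (tvl h.symm a) * (μ (emb2 h (hm d)) * kk ^ q)⁻¹ =
        μ (emb2 h (hm d)) * (kk ^ q * μ (tvl h.symm a) * (kk ^ q)⁻¹) * (μ (emb2 h (hm d)))⁻¹ := by group
      _ = _ := by
        rw [B.yn hζ, D_tv', hqz, Units.val_inv_eq_inv_val, hdc]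
        congr 2
        field_simp
  · intro a
    have c1 : Commute (kk ^ q) s := B.k4.pow_left q
    have e1 : kk ^ q * yu ν μ (SF μ s 0) (Sum.inl 1) (Sum.inl 0) a * (kk ^ q)⁻¹ = yu ν μ (SF μ s 0) (Sum.inl 1) (Sum.inl 0) (τ (ζ : F) * a) := by
      rw [yu_ll h.symm, yu_ll h.symm, h0]
      have e2 := B.yn hζ q (ν * a)
      rw [hqz] at e2
      calc kk ^ q * (s * μ (tvl h.symm (ν * a)) * s⁻¹) * (kk ^ q)⁻¹ = (kk ^ q * s) * μ (tvl h.symm (ν * a)) * (kk ^ q * s)⁻¹ := by group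
        _ = s * (kk ^ q * μ (tvl h.symm (ν * a)) * (kk ^ q)⁻¹) * s⁻¹ := by rw [c1.eq]; group
        _ = _ := by rw [e2]; congr 4; ring
    calc μ (emb2 h (hm d)) * kk ^ q * yu ν μ (SF μ s 0) (Sum.inl 1) (Sum.inl 0) a * (μ (emb2 h (hm d)) * kk ^ q)⁻¹ =
        μ (emb2 h (hm d)) * (kk ^ q * yu ν μ (SF μ s 0) (Sum.inl 1) (Sum.inl 0) a * (kk ^ q)⁻¹) * (μ (emb2 h (hm d)))⁻¹ := by group
      _ = _ := by
        rw [e1, D_yu V, Units.val_inv_eq_inv_val, hdc, ττ]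
        congr 1
        field_simp

end kr

end Cfsg.Agent.GK.Un
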