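import Cfsg.Agent.GK.Un24

/-!
Rank two, odd dimension: injectivity.
-/

set_option autoImplicit false
set_option linter.unusedSectionVars false
set_option linter.unusedVariables false
set_option linter.unusedSimpArgs false

namespace Cfsg.Agent.GK.Un

open Subgroup Cfsg.Agent.Stb
open scoped commutatorElement
open Om (Mo_emb2_fst Mo_emb2_snd Mo_emb2_out)

attribute [local instance] Stb.sumNeg

universe v

section d0
variable {F : Type v} [Field F] {l : Type} [Fintype l] [DecidableEq l] {W Δ : Type*} [AddCommGroup W] [Module F W] [Group Δ]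
variable {τ : F →+* F} {ν : F} {h0 : W → W → F}
variable {μ : Matrix.SpecialLinearGroup l F →* Δ} {s : Δ} {o : l} {z : l ⊕ l → F → Δ} {v : Δ}
variable (E : EV τ ν μ s o z) (H : Herm τ h0)

include E in
theorem SF_le (i : l) : SF μ s o i ∈ μ.range ⊔ zpowers s := by
  obtain ⟨M, hM⟩ := exists_mo1 (F := F) E.b0.two o i
  rw [SF_eq E.b0 hM]
  exact mul_mem (mul_mem (mem_sup_left ⟨M, rfl⟩) (mem_sup_right (mem_zpowers s))) (inv_mem (mem_sup_left ⟨M, rfl⟩))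

include E in
theorem yu_le {p q : l ⊕ l} (h1 : p ≠ q) (h2 : p ≠ -q) (a : F) : yu ν μ (SF μ s o) p q a ∈ μ.range ⊔ zpowers s := by
  have ν0 := E.U.ν0
  have hS := SF_le E
  have hT : ∀ {i j : l} (hij : i ≠ j) (a : F), μ (tvl hij a) ∈ μ.range ⊔ zpowers s := fun hij a => mem_sup_left ⟨_, rfl⟩
  rcases p with i | i <;> rcases q with j | j
  · have hij : i ≠ j := fun e => h1 (by rw [e])
    rw [yu_ll hij]
    exact mul_mem (mul_mem (hS j) (hT hij _)) (inv_mem (hS j))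
  · have hij : i ≠ j := fun e => h2 (by rw [e]; rfl)
    rw [yu_lr hij]; exact hT hij _
  · have hij : i ≠ j := fun e => h2 (by rw [e]; rfl)
    rw [E.U.y0.symm h1 h2, yu_lr hij.symm]; exact hT hij.symm _
  · have hij : i ≠ j := fun e => h1 (by rw [e])
    rw [yu_rr hij]
    exact mul_mem (mul_mem (hS i) (hT hij _)) (inv_mem (hS i))

include E H in
theorem D0_le : D0G W τ ν μ s o z ≤ μ.range ⊔ zpowers s := by
  have R := even_hr (W := W) E H
  unfold D0G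
  refine gp_le fun k l' hkl _ x hx => ?_
  by_cases h3 : k = l'
  · subst h3
    obtain ⟨w, c, hP, rfl⟩ := (R.mem_Xl H.zero).1 hx
    obtain ⟨a, rfl⟩ := E.U.T.skew (eq_neg_of_add_eq_zero_right hP.2)
    obtain ⟨q, hq1, hq2⟩ := R.two k
    have g1 : k ≠ q := hq1.symm
    have g2 : k ≠ -q := fun e => hq2 (by rw [e, neg_neg])
    have g3 : -q ≠ k := fun e => g2 e.symm
    have g4 : -q ≠ -k := fun e => g1 (neg_inj.1 e).symm
    have e := E.Z.zr g1 g2 a 1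
    rw [mul_one] at e
    rw [← e, commutatorElement_def]
    exact mul_mem (mul_mem (mul_mem (yu_le E g1 g2 _) (yu_le E g3 g4 _)) (inv_mem (yu_le E g1 g2 _))) (inv_mem (yu_le E g3 g4 _))
  · obtain ⟨a, rfl⟩ := (R.mem_Xs h3 hkl).1 hx
    exact yu_le E h3 hkl a

include E H in
theorem D0_eq : D0G W τ ν μ s o z = μ.range ⊔ zpowers s := le_antisymm (D0_le E H) (mu_gp E H)

include E in
theorem hy_of (cS : ∀ k, k ≠ o → Commute v (SF μ s o k)) (cT : ∀ {i j : l} (hij : i ≠ j), j ≠ o → ∀ a : F, Commute v (μ (tvl hij a)))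
    {p q : l ⊕ l} (h1 : p ≠ q) (h2 : p ≠ -q) (h3 : p ≠ Sum.inr o) (h4 : q ≠ Sum.inr o) (a : F) : Commute v (yu ν μ (SF μ s o) p q a) := by
  have ν0 := E.U.ν0
  rcases p with i | i <;> rcases q with j | j
  · have hij : i ≠ j := fun e => h1 (by rw [e])
    by_cases hj : j = o
    · subst hj
      rw [E.U.y0.symm h1 h2, yu_ll hij.symm]
      exact ((cS i hij).mul_right (cT hij.symm hij _)).mul_right (cS i hij).inv_right
    · rw [yu_ll hij]
      exact ((cS j hj).mul_right (cT hij hj _)).mul_right (cS j hj).inv_right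
  · have hij : i ≠ j := fun e => h2 (by rw [e]; rfl)
    have hj : j ≠ o := fun e => h4 (by rw [e])
    rw [yu_lr hij]
    exact cT hij hj _
  · have hij : i ≠ j := fun e => h2 (by rw [e]; rfl)
    have hi : i ≠ o := fun e => h3 (by rw [e])
    rw [E.U.y0.symm h1 h2, yu_lr hij.symm]
    exact cT hij.symm hi _
  · have hij : i ≠ j := fun e => h1 (by rw [e])
    have hi : i ≠ o := fun e => h3 (by rw [e])
    have hj : j ≠ o := fun e => h4 (by rw [e])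
    rw [yu_rr hij]
    exact ((cS i hi).mul_right (cT hij hj _)).mul_right (cS i hi).inv_right

end d0

/-- the matrix exchanging the basis vectors -/
noncomputable def KK {F : Type v} [Field F] (h : (0 : Fin 2) ≠ 1) (b : Fˣ) : Matrix.SpecialLinearGroup (Fin 2) F := emb2 h tm⁻¹ * emb2 h (hm b)

theorem Mo_KK {F : Type v} [Field F] (h : (0 : Fin 2) ≠ 1) (b : Fˣ) : Mo (KK h b) 0 1 b := by
  have := (Mo_etm (F := F) (h := h)).mul (Mo_emb2_fst h b)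
  rwa [one_mul] at this

section two
variable {F : Type v} [Field F] {Δ : Type*} [Group Δ]

/-- the relations for the additional generator in rank two -/
structure VR (τ : F →+* F) (ν : F) (μ : Matrix.SpecialLinearGroup (Fin 2) F →* Δ) (s : Δ) (h : (0 : Fin 2) ≠ 1) (ζ : Fˣ) (e c0 : F) (kk v : Δ) : Prop where
  v1 : Commute v (μ (tvl h 1))
  v2 : Commute v (μ (tvl h (ζ : F)))
  v3 : Commute v (SF μ s 0 1)
  v4 : Commute v (HH μ (SF μ s 0) h.symm ζ)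
  v5 : Commute v ⁅s * μ (tvl h.symm e) * s⁻¹, μ (tvl h.symm 1)⁆
  v6 : kk * v * kk⁻¹ = μ (emb2 h (hm (ζ * (Units.map (τ : F →* F) ζ)⁻¹))) * v * (μ (emb2 h (hm (ζ * (Units.map (τ : F →* F) ζ)⁻¹))))⁻¹
  r2 : ∀ i < 5, v * (μ (KK h (ζ ^ i)) * v * (μ (KK h (ζ ^ i)))⁻¹) =
    (μ (tvl h.symm ((ζ ^ i : Fˣ) : F)) * v * (μ (tvl h.symm ((ζ ^ i : Fˣ) : F)))⁻¹) *
      (SF μ s 0 1 * μ (tvl h (ν * τ (((ζ ^ i : Fˣ) : F) * c0))) * (SF μ s 0 1)⁻¹)

end two

section ev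
variable {F : Type v} [Field F] [Fintype F] {W Γ Δ : Type*} [AddCommGroup W] [Module F W] [Group Γ] [Group Δ]
variable {τ : F →+* F} {ν : F} {h0 : W → W → F} {yG : (Fin 2 ⊕ Fin 2) → (Fin 2 ⊕ Fin 2) → F → Γ} {zG : (Fin 2 ⊕ Fin 2) → W → F → Γ}
variable {ρ : Γ →* (((Fin 2 ⊕ Fin 2 → F) × W) ≃ₗ[F] ((Fin 2 ⊕ Fin 2 → F) × W))} {σ : Matrix.SpecialLinearGroup (Fin 2) F →* Γ} {SG : Fin 2 → Γ}
variable {μ : Matrix.SpecialLinearGroup (Fin 2) F →* Δ} {s : Δ} {z : Fin 2 ⊕ Fin 2 → F → Δ} {v kk : Δ} {w0 : W} {c0 e : F} {h : (0 : Fin 2) ≠ 1} {ζ : Fˣ}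
variable (C : CG τ ν h0 (PF τ h0) yG zG ρ σ SG) {π : Δ →* Γ} (Q : PI C μ s 0 π) (E : EV τ ν μ s 0 z) (H : Herm τ h0)

include C Q E H in
theorem v1_two (hζ : IsGen ζ) (hn : ∀ r : F, τ r = r → r ≠ 0 → ∃ d : Fˣ, ((nn τ d : Fˣ) : F) = r) (he : e + τ e = 1)
    (B : VR τ ν μ s h ζ e c0 kk v) : V1 τ ν μ s h z v := by
  have T := E.U.T
  have ττ := T.ττ
  have hν := E.U.hν
  have ν0 := E.U.ν0
  have h0' : SF μ s 0 0 = s := SF_o b0_two
  have V := E.V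
  have cH : ∀ c, Commute v (HH μ (SF μ s 0) h.symm c) := by
    intro c
    obtain ⟨n, rfl⟩ := hζ c
    have e1 : HH μ (SF μ s 0) h.symm (ζ ^ n) = (HH μ (SF μ s 0) h.symm ζ) ^ n := by
      induction n with
      | zero => rw [pow_zero, pow_zero, H_one V]
      | succ n ih => rw [pow_succ, pow_succ, V.hmul, ih]
    rw [e1]; exact B.v4.pow_right n
  have cr : ∀ (r a : F), τ r = r → Commute v (μ (tvl h a)) → Commute v (μ (tvl h (r * a))) := by
    intro r a hr hc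
    by_cases hr0 : r = 0
    · rw [hr0, zero_mul, tvl_zero, map_one]; exact Commute.one_right _
    obtain ⟨d, hd⟩ := hn r hr hr0
    have e1 := V.hX' h.symm d a
    rw [hd] at e1
    have e2 : μ (tvl h (r * a)) = HH μ (SF μ s 0) h.symm d * μ (tvl h a) * (HH μ (SF μ s 0) h.symm d)⁻¹ := e1.symm
    rw [e2]
    exact ((cH d).mul_right hc).mul_right (cH d).inv_right
  have hζτ : (ζ : F) - τ (ζ : F) ≠ 0 := by
    intro h0
    obtain ⟨θ, hθ⟩ := T.nid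
    apply hθ
    by_cases hθ0 : θ = 0
    · rw [hθ0, map_zero]
    · obtain ⟨n, hn⟩ := hζ (Units.mk0 θ hθ0)
      have : θ = (ζ : F) ^ n := by rw [← Units.val_pow_eq_pow_val, hn]; rfl
      rw [this, map_pow, ← sub_eq_zero.1 h0]
  have cX : ∀ a : F, Commute v (μ (tvl h a)) := by
    intro a
    set r := (a - τ a) / ((ζ : F) - τ (ζ : F)) with hr
    have hr1 : τ r = r := by
      rw [hr, map_div₀, map_sub, map_sub, ττ, ττ, ← neg_sub (a : F), ← neg_sub (ζ : F), neg_div_neg_eq]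
    have hr2 : r * ((ζ : F) - τ (ζ : F)) = a - τ a := by rw [hr, div_mul_cancel₀ _ hζτ]
    have hx : τ (a - r * ζ) = a - r * ζ := by
      rw [map_sub, map_mul, hr1]; linear_combination hr2
    have e1 := cr (a - r * ζ) 1 hx B.v1
    have e2 := cr r ζ hr1 B.v2
    rw [mul_one] at e1
    have e3 : a = (a - r * ζ) + r * ζ := by ring
    rw [e3, tvl_add, map_mul]
    exact e1.mul_right e2
  have cS : ∀ k, k ≠ 0 → Commute v (SF μ s 0 k) := by
    intro k hk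
    fin_cases k
    · exact absurd rfl hk
    · exact B.v3
  have cT : ∀ {i j : Fin 2} (hij : i ≠ j), j ≠ 0 → ∀ a : F, Commute v (μ (tvl hij a)) := by
    intro i j hij hj a
    fin_cases i <;> fin_cases j
    · exact absurd rfl hij
    · exact cX a
    · exact absurd rfl hj
    · exact absurd rfl hij
  have hy := fun {p q : Fin 2 ⊕ Fin 2} (h1 : p ≠ q) (h2 : p ≠ -q) (h3 : p ≠ Sum.inr 0) (h4 : q ≠ Sum.inr 0) (a : F) =>
    hy_of E cS cT h1 h2 h3 h4 a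
  have Y := E.U.y0
  -- long root elements
  have z1 : ∀ n : F, τ n = n → Commute v (z (Sum.inl 1) (n ^ 2 * (-ν⁻¹))) := by
    intro n hn'
    by_cases hn0 : n = 0
    · rw [hn0, zero_pow two_ne_zero, zero_mul, Y.z0 E.Z]; exact Commute.one_right _
    obtain ⟨d, hd⟩ := hn n⁻¹ (by rw [map_inv₀, hn']) (inv_ne_zero hn0)
    have e1 := z1_eq (h := h) E.U E.Z (ν⁻¹ * (n * e)) (-n)
    have e2 : ν⁻¹ * (n * e) * (-n) - τ (ν⁻¹ * (n * e) * (-n)) = n ^ 2 * (-ν⁻¹) := by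
      simp only [map_mul, map_neg, map_inv₀, hν, hn']
      field_simp
      linear_combination (-1 : F) * he
    rw [e2, yu_ll h.symm, h0'] at e1
    have e3 : -τ (-n) = n * 1 := by rw [map_neg, hn', neg_neg, mul_one]
    have e4 : ν * (ν⁻¹ * (n * e)) = n * e := by field_simp
    rw [e3, e4] at e1
    have k1 := V.hX h.symm d e
    have k2 := V.hX h.symm d 1
    have k3 : (((nn τ d)⁻¹ : Fˣ) : F) = n := by rw [Units.val_inv_eq_inv_val, hd, inv_inv]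
    rw [k3] at k1 k2
    have k4 := (V.hS h.symm d).eq
    rw [h0'] at k4
    set G := HH μ (SF μ s 0) h.symm d
    have e5 : z (Sum.inl 1) (n ^ 2 * (-ν⁻¹)) = G * ⁅s * μ (tvl h.symm e) * s⁻¹, μ (tvl h.symm 1)⁆ * G⁻¹ := by
      rw [e1, comm_conj, k2]
      congr 1
      calc s * μ (tvl h.symm (n * e)) * s⁻¹ = (s * G) * μ (tvl h.symm e) * (s * G)⁻¹ := by rw [← k1]; group
        _ = _ := by rw [k4]; group
    rw [e5]
    exact ((cH d).mul_right B.v5).mul_right (cH d).inv_right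
  have zl : ∀ {c : F}, τ c = -c → Commute v (z (Sum.inl 1) c) := by
    intro c hc
    obtain ⟨x, w, hx, hw, hxw⟩ := T.sqs (r := -ν * c) (by rw [map_mul, map_neg, hν, hc]; ring)
    have e1 : c = x ^ 2 * (-ν⁻¹) + -(w ^ 2 * (-ν⁻¹)) := by
      have : x ^ 2 * (-ν⁻¹) + -(w ^ 2 * (-ν⁻¹)) = (x ^ 2 - w ^ 2) * (-ν⁻¹) := by ring
      rw [this, ← hxw]; field_simp
    have s1 : ∀ n : F, τ n = n → τ (n ^ 2 * (-ν⁻¹)) = -(n ^ 2 * (-ν⁻¹)) := by
      intro n hn'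
      rw [map_mul, map_pow, hn', map_neg, map_inv₀, hν, inv_neg]; ring
    rw [e1, E.Z.add _ _ _ (s1 x hx) (by rw [map_neg, s1 w hw]), Y.zneg E.Z _ (s1 w hw)]
    exact (z1 x hx).mul_right (z1 w hw).inv_right
  refine ⟨?_, hy, ?_, cH⟩
  · intro M hM
    rw [Mo_eq_one hM, map_one]; exact Commute.one_right _
  · intro p hp c hc
    rcases p with i | i
    · fin_cases i
      · obtain ⟨a, rfl⟩ := T.skew hc
        have g1 : (Sum.inl 0 : Fin 2 ⊕ Fin 2) ≠ Sum.inl 1 := by decide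
        have g2 : (Sum.inl 0 : Fin 2 ⊕ Fin 2) ≠ -(Sum.inl 1) := Sum.inl_ne_inr
        have g3 : (Sum.inr 1 : Fin 2 ⊕ Fin 2) ≠ Sum.inl 0 := Sum.inr_ne_inl
        have g4 : (Sum.inr 1 : Fin 2 ⊕ Fin 2) ≠ -(Sum.inl 0) := by decide
        have e := E.Z.zr g1 g2 a 1
        rw [mul_one] at e
        change Commute v (z (Sum.inl 0) (a - τ a))
        rw [← e, commutatorElement_def]
        have k1 := hy g1 g2 Sum.inl_ne_inr Sum.inl_ne_inr a
        have k2 := hy g3 g4 (by decide) Sum.inl_ne_inr 1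
        exact ((k1.mul_right k2).mul_right k1.inv_right).mul_right k2.inv_right
      · exact zl hc
    · fin_cases i
      · exact absurd rfl hp
      · -- use the flip
        have hPc : PZ τ (0 : W) c := ⟨rfl, by rw [hc]; ring⟩
        have hc' : τ (-ν⁻¹ * τ (-ν⁻¹) * c) = -(-ν⁻¹ * τ (-ν⁻¹) * c) := by
          simp only [map_mul, map_neg, map_inv₀, hν, hc, inv_neg]; ring
        have e1 : SF μ s 0 1 * z (Sum.inr 1) c * (SF μ s 0 1)⁻¹ = z (Sum.inl 1) (-ν⁻¹ * τ (-ν⁻¹) * c) := by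
          have hz : ∀ (p : Fin 2 ⊕ Fin 2) {c : F}, τ c = -c → z p c ∈ D0G W τ ν μ s 0 z := by
            intro p c hc
            exact X_le_gp (k := p) (l := p) (fun e => C.ne p e.symm) trivial
              (HR.z_mem (z := fun p (_ : W) c => z p c) p (w := (0 : W)) (⟨rfl, by rw [hc]; ring⟩ : PZ τ (0 : W) c))
          have hm1 := mul_mem (mul_mem (mul_mem (SF_D0 (W := W) E H 1) (hz (Sum.inr 1) hc)) (inv_mem (SF_D0 (W := W) E H 1)))
            (inv_mem (hz (Sum.inl 1) hc'))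
          refine mul_inv_eq_one.1 (even_inj C Q E H hn hm1 ?_)
          rw [map_mul, map_inv, mul_inv_eq_one, map_mul, map_mul, map_inv, Q.sf C, Q.zz C E _ hc, Q.zz C E _ hc']
          have e2 : (ρ (SG 1) (Stb.wh (0 : W))).2 = 0 := by
            have : (Stb.wh (0 : W) : (Fin 2 ⊕ Fin 2 → F) × W) = 0 := rfl
            rw [this, map_zero]; rfl
          have e3 := C.inj ((C.mn 1).conj_z C.H C.ne C.A (Sum.inr 1) (PZ.full H hPc) (by
            rw [e2, smul_zero]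
            rw [if_neg (by decide), if_pos rfl]
            exact PZ.full H ⟨rfl, by rw [hc']; ring⟩))
          rw [e2, smul_zero, if_neg (by decide), if_pos rfl, sk_r] at e3
          exact e3
        have e4 : z (Sum.inr 1) c = (SF μ s 0 1)⁻¹ * z (Sum.inl 1) (-ν⁻¹ * τ (-ν⁻¹) * c) * SF μ s 0 1 := by rw [← e1]; group
        change Commute v (z (Sum.inr 1) c)
        rw [e4]
        exact (B.v3.inv_right.mul_right (zl hc')).mul_right B.v3

include C Q E H in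
theorem c2_two (hζ : IsGen ζ) (hn : ∀ r : F, τ r = r → r ≠ 0 → ∃ d : Fˣ, ((nn τ d : Fˣ) : F) = r) (hK : KR μ s h ζ kk)
    (B : VR τ ν μ s h ζ e c0 kk v) (V : V1 τ ν μ s h z v)
    (hk0 : ρ (π kk) (eh (Sum.inl 0)) = (eh (Sum.inl 0) : (Fin 2 ⊕ Fin 2 → F) × W))
    (hk1 : ρ (π kk) (eh (Sum.inl 1)) = (ζ : F) • (eh (Sum.inl 1) : (Fin 2 ⊕ Fin 2 → F) × W)) :
    ∀ g ∈ D0G W τ ν μ s 0 z, ∀ (j : Fin 2 ⊕ Fin 2) (a b : F), j ≠ Sum.inl 0 → j ≠ -(Sum.inl 0) → b ≠ 0 →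
      ρ (π g) (eh (Sum.inl 0)) = a • (eh (Sum.inl 0) : (Fin 2 ⊕ Fin 2 → F) × W) + b • eh j →
      (∃ h ∈ D0G W τ ν μ s 0 z, ∃ a' ∈ D0G W τ ν μ s 0 z, v * (g * v * g⁻¹) = h * v * h⁻¹ * a') ∨ v * (g * v * g⁻¹) ∈ D0G W τ ν μ s 0 z := by
  have T := E.U.T
  have ττ := T.ττ
  have hz := ζ.ne_zero
  have htz : τ (ζ : F) ≠ 0 := fun e => hz (by rw [← ττ (ζ : F), e, map_zero])
  have inv_act : ∀ {g : Δ} {x y : (Fin 2 ⊕ Fin 2 → F) × W}, ρ (π g) x = y → ρ (π g⁻¹) y = x := by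
    intro g x y hg
    rw [← hg, ← hrho_mul, ← map_mul, inv_mul_cancel, map_one, map_one]; rfl
  -- the first family
  have base : ∀ i < 5, ∃ K ∈ D0G W τ ν μ s 0 z, R2 W τ ν μ s 0 z v K ∧
      ρ (π K) (eh (Sum.inl 0)) = ((ζ ^ i : Fˣ) : F) • (eh (Sum.inl 1) : (Fin 2 ⊕ Fin 2 → F) × W) := by
    intro i hi
    refine ⟨μ (KK h (ζ ^ i)), mu_D0 E H _, ⟨_, mu_D0 E H _, _, mul_mem (mul_mem (SF_D0 E H _) (mu_D0 E H _)) (inv_mem (SF_D0 E H _)), B.r2 i hi⟩, ?_⟩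
    rw [mu_actP C Q, LM_eh_inl τ (Mo_KK h _)]
  -- norms
  have stepB : ∀ (c : Fˣ) (b : F), (∃ K ∈ D0G W τ ν μ s 0 z, R2 W τ ν μ s 0 z v K ∧ ρ (π K) (eh (Sum.inl 0)) = b • (eh (Sum.inl 1) : (Fin 2 ⊕ Fin 2 → F) × W)) →
      ∃ K ∈ D0G W τ ν μ s 0 z, R2 W τ ν μ s 0 z v K ∧ ρ (π K) (eh (Sum.inl 0)) = (((nn τ c : Fˣ) : F) * b) • (eh (Sum.inl 1) : (Fin 2 ⊕ Fin 2 → F) × W) := by
    rintro c b ⟨K, hKD, ⟨t, ht, a', ha', e1⟩, e2⟩
    have hGD : HH μ (SF μ s 0) h.symm c⁻¹ ∈ D0G W τ ν μ s 0 z := by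
      unfold HH
      exact mul_mem (mul_mem (mul_mem (SF_D0 E H _) (mu_D0 E H _)) (inv_mem (SF_D0 E H _))) (inv_mem (mu_D0 E H _))
    have hG := (V.hH c⁻¹).eq
    have hact := H_act H.zero (even_hr (W := W) E H) (even_ha C Q E H) E.V E.hF h.symm c⁻¹ 1
    rw [if_pos rfl, nn_inv, inv_inv] at hact
    change ρ (π (HH μ (SF μ s 0) h.symm c⁻¹)) (eh (Sum.inl 1)) = _ at hact
    set G := HH μ (SF μ s 0) h.symm c⁻¹
    refine ⟨G * K, mul_mem hGD hKD, ⟨G * t, mul_mem hGD ht, G * a' * G⁻¹, mul_mem (mul_mem hGD ha') (inv_mem hGD), ?_⟩, ?_⟩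
    · calc v * (G * K * v * (G * K)⁻¹) = (v * G) * (K * v * K⁻¹) * G⁻¹ := by group
        _ = G * (v * (K * v * K⁻¹)) * G⁻¹ := by rw [hG]; group
        _ = _ := by rw [e1]; group
    · rw [map_mul, hrho_mul, e2, map_smul, hact, smul_smul, mul_comm]
  -- the additional torus element
  set d : Fˣ := ζ * (Units.map (τ : F →* F) ζ)⁻¹ with hd
  have hdc : (d : F) = ζ * (τ (ζ : F))⁻¹ := by rw [hd, Units.val_mul, Units.val_inv_eq_inv_val]; rfl
  have stepA : ∀ (b : F), (∃ K ∈ D0G W τ ν μ s 0 z, R2 W τ ν μ s 0 z v K ∧ ρ (π K) (eh (Sum.inl 0)) = b • (eh (Sum.inl 1) : (Fin 2 ⊕ Fin 2 → F) × W)) →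
      ∃ K ∈ D0G W τ ν μ s 0 z, R2 W τ ν μ s 0 z v K ∧ ρ (π K) (eh (Sum.inl 0)) = ((d : F) ^ 2 * ζ * b) • (eh (Sum.inl 1) : (Fin 2 ⊕ Fin 2 → F) × W) := by
    rintro b ⟨K, hKD, ⟨t, ht, a', ha', e1⟩, e2⟩
    have hv6 := B.v6
    rw [← hd] at hv6
    have aD0 : ρ (π (μ (emb2 h (hm d)))) (eh (Sum.inl 0)) = (d : F) • (eh (Sum.inl 0) : (Fin 2 ⊕ Fin 2 → F) × W) := by
      rw [mu_actP C Q, LM_eh_inl τ (Mo_emb2_fst h d)]
    have aD1 : ρ (π (μ (emb2 h (hm d)))) (eh (Sum.inl 1)) = ((d⁻¹ : Fˣ) : F) • (eh (Sum.inl 1) : (Fin 2 ⊕ Fin 2 → F) × W) := by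
      rw [mu_actP C Q, LM_eh_inl τ (Mo_emb2_snd h d)]
    have hDm : μ (emb2 h (hm d)) ∈ μ.range ⊔ zpowers s := mem_sup_left ⟨_, rfl⟩
    set D := μ (emb2 h (hm d)) with hD
    have hcm : (D⁻¹ * kk) * v * (D⁻¹ * kk)⁻¹ = v := by
      calc (D⁻¹ * kk) * v * (D⁻¹ * kk)⁻¹ = D⁻¹ * (kk * v * kk⁻¹) * D := by group
        _ = v := by rw [hv6]; group
    have hnorm : ∀ x ∈ D0G W τ ν μ s 0 z, (D⁻¹ * kk) * x * (D⁻¹ * kk)⁻¹ ∈ D0G W τ ν μ s 0 z := by
      intro x hx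
      rw [D0_eq E H] at hx ⊢
      have := mul_mem (mul_mem (inv_mem hDm) (hK.norm hζ hx)) hDm
      convert this using 1
      group
    have iG : ρ (π (D⁻¹ * kk)⁻¹) (eh (Sum.inl 0)) = (d : F) • (eh (Sum.inl 0) : (Fin 2 ⊕ Fin 2 → F) × W) := by
      rw [mul_inv_rev, inv_inv, map_mul, hrho_mul, aD0, map_smul, inv_act hk0]
    have aG : ρ (π (D⁻¹ * kk)) (eh (Sum.inl 1)) = ((ζ : F) * d) • (eh (Sum.inl 1) : (Fin 2 ⊕ Fin 2 → F) × W) := by
      rw [map_mul, hrho_mul, hk1, map_smul]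
      have e3 := inv_act aD1
      rw [map_smul] at e3
      have e4 : ρ (π D⁻¹) (eh (Sum.inl 1)) = (d : F) • (eh (Sum.inl 1) : (Fin 2 ⊕ Fin 2 → F) × W) := by
        have e5 := congrArg (fun x => (d : F) • x) e3
        simp only [smul_smul] at e5
        rwa [← Units.val_mul, mul_inv_cancel, Units.val_one, one_smul] at e5
      rw [e4, smul_smul]
    set G := D⁻¹ * kk with hG
    refine ⟨G * K * G⁻¹, hnorm K hKD, ⟨G * t * G⁻¹, hnorm t ht, G * a' * G⁻¹, hnorm a' ha', ?_⟩, ?_⟩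
    · have e3 : G⁻¹ * v * G = v := by
        calc G⁻¹ * v * G = G⁻¹ * (G * v * G⁻¹) * G := by rw [hcm]
          _ = v := by group
      calc v * (G * K * G⁻¹ * v * (G * K * G⁻¹)⁻¹) = G * ((G⁻¹ * v * G) * (K * (G⁻¹ * v * G) * K⁻¹)) * G⁻¹ := by group
        _ = G * (v * (K * v * K⁻¹)) * G⁻¹ := by rw [e3]
        _ = G * (t * (G⁻¹ * v * G) * t⁻¹ * a') * G⁻¹ := by rw [e1, e3]
        _ = _ := by group
    · rw [map_mul, hrho_mul, map_mul, hrho_mul, iG, map_smul, map_smul, e2, map_smul, aG, smul_smul, smul_smul]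
      congr 1; ring
  have all : ∀ n : ℕ, ∃ K ∈ D0G W τ ν μ s 0 z, R2 W τ ν μ s 0 z v K ∧
      ρ (π K) (eh (Sum.inl 0)) = ((ζ ^ n : Fˣ) : F) • (eh (Sum.inl 1) : (Fin 2 ⊕ Fin 2 → F) × W) := by
    intro n
    induction n using Nat.strong_induction_on with
    | _ n ih =>
      by_cases hn5 : n < 5
      · exact base n hn5
      · have h1 := stepB ζ _ (stepB ζ _ (stepA _ (ih (n - 5) (by omega))))
        have h2 : ((nn τ ζ : Fˣ) : F) * (((nn τ ζ : Fˣ) : F) * ((d : F) ^ 2 * ζ * ((ζ ^ (n - 5) : Fˣ) : F))) = ((ζ ^ n : Fˣ) : F) := by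
          have h3 : n = 5 + (n - 5) := by omega
          rw [Units.val_pow_eq_pow_val, Units.val_pow_eq_pow_val, nn_coe, hdc]
          conv_rhs => rw [h3, pow_add]
          field_simp
        rw [h2] at h1
        exact h1
  refine c2_core C Q E H V hn ?_
  intro j a b hj1 hj2 hb
  have hab : ab j = 1 := by
    rcases j with j | j
    · fin_cases j
      · exact absurd rfl hj1
      · rfl
    · fin_cases j
      · exact absurd rfl hj2
      · rfl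
  obtain ⟨b0, hb0, key⟩ := move C Q E H (h := h) hj1 hj2 a b hb
  obtain ⟨g1, hg1, k1, k2⟩ := key 1 1 (Units.mk0 b0 hb0) (Mo.one 0) (by rw [hab]; exact Mo.one 1) (by rw [Units.val_one, one_mul]; rfl)
  obtain ⟨n, hn'⟩ := hζ (Units.mk0 b0 hb0)
  obtain ⟨K, hKD, hR, hKe⟩ := all n
  refine ⟨g1, hg1, K, hKD, hR, k1, ?_⟩
  rw [map_mul, hrho_mul, hKe, hn']
  exact k2

end ev

end Cfsg.Agent.GK.Un
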