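import Cfsg.Agent.GK.Un25

/-!
The relations in odd dimension hold in the concrete group.
-/

set_option autoImplicit false
set_option linter.unusedSectionVars false
set_option linter.unusedVariables false
set_option linter.unusedSimpArgs false

namespace Cfsg.Agent.GK.Un

open Subgroup Cfsg.Agent.Stb
open scoped commutatorElement
open Om (Mo_emb2_fst Mo_emb2_snd Mo_emb2_out)

attribute [local instance] Stb.sumNeg

universe v

section cg
variable {F : Type v} [Field F] {l : Type} [Fintype l] [DecidableEq l] {W Γ : Type*} [AddCommGroup W] [Module F W] [Group Γ]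
variable {τ : F →+* F} {ν : F} {h0 : W → W → F} {yG : (l ⊕ l) → (l ⊕ l) → F → Γ} {zG : (l ⊕ l) → W → F → Γ}
variable {ρ : Γ →* (((l ⊕ l → F) × W) ≃ₗ[F] ((l ⊕ l → F) × W))} {σ : Matrix.SpecialLinearGroup l F →* Γ} {S : l → Γ}
variable {w0 : W} {c0 : F}

namespace CG
variable (C : CG τ ν h0 (PF τ h0) yG zG ρ σ S) (H : Herm τ h0)
include C H

theorem snd_fix {g : Γ} (hg : ∀ w, ρ g (wh w) = wh w) (u : (l ⊕ l → F) × W) : (ρ g u).2 = u.2 := by
  have HH := H.full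
  have key : ∀ (w : W) (x : (l ⊕ l → F) × W), hh τ h0 (wh w) x = h0 w x.2 := by
    intro w x
    unfold hh
    rw [Finset.sum_eq_zero, zero_add]
    · rfl
    · intro p _; rw [wh_fst, map_zero, zero_mul]
  have h1 : ∀ w, h0 w ((ρ g u).2 - u.2) = 0 := by
    intro w
    have h2 := C.A.form g (wh w) u
    rw [hg, key, key] at h2
    rw [sub_eq_add_neg, HH.add_right, HH.neg_right, h2]; ring
  have := H.aniso (h1 _)
  exact sub_eq_zero.1 this

theorem vact {g : Γ} (hg : ∀ w, ρ g (wh w) = wh w) (hP : PF τ h0 w0 c0) (o : l) (x : (l ⊕ l → F) × W) :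
    ρ (g * zG (Sum.inl o) w0 c0 * g⁻¹) x = x + (c0 * hh τ h0 (ρ g (eh (Sum.inl o))) x - h0 w0 x.2) • ρ g (eh (Sum.inl o)) +
      hh τ h0 (ρ g (eh (Sum.inl o))) x • wh w0 := by
  have HH := H.full
  have e1 : ρ g (ρ g⁻¹ x) = x := by rw [← hrho_mul, mul_inv_cancel, map_one]; rfl
  have hgi : ∀ w, ρ g⁻¹ (wh w) = wh w := fun w => C.inv_wh (hg w)
  have e2 : hh τ h0 (ρ g (eh (Sum.inl o))) x = (ρ g⁻¹ x).1 (-(Sum.inl o)) := by
    calc hh τ h0 (ρ g (eh (Sum.inl o))) x = hh τ h0 (ρ g (eh (Sum.inl o))) (ρ g (ρ g⁻¹ x)) := by rw [e1]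
      _ = _ := by rw [C.A.form, hh_eh_left HH]
  rw [hrho_mul, hrho_mul, aZ C.A _ hP, map_add, map_add, map_smul, map_smul, hg, e1, e2, C.snd_fix H hgi]

theorem vconj {g g' : Γ} (hg : ∀ w, ρ g (wh w) = wh w) (hg' : ∀ w, ρ g' (wh w) = wh w) (hP : PF τ h0 w0 c0) (o : l)
    (h : ρ g (eh (Sum.inl o)) = ρ g' (eh (Sum.inl o))) : g * zG (Sum.inl o) w0 c0 * g⁻¹ = g' * zG (Sum.inl o) w0 c0 * g'⁻¹ := by
  apply C.ext
  intro x
  rw [C.vact H hg hP, C.vact H hg' hP, h]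

theorem vcomm {g : Γ} (hg : ∀ w, ρ g (wh w) = wh w) (hP : PF τ h0 w0 c0) (o : l)
    (h : ρ g (eh (Sum.inl o)) = eh (Sum.inl o)) : Commute (zG (Sum.inl o) w0 c0) g := by
  have := C.vconj H hg (g' := 1) (fun w => by rw [map_one]; rfl) hP o (by rw [h, map_one]; rfl)
  rw [one_mul, inv_one, mul_one] at this
  exact (mul_inv_eq_iff_eq_mul.1 this).symm

theorem r2 {K t : Γ} (hK : ∀ w, ρ K (wh w) = wh w) (ht : ∀ w, ρ t (wh w) = wh w) (hP : PF τ h0 w0 c0) {o o' : l} (h : o ≠ o') (b : F)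
    (e1 : ρ K (eh (Sum.inl o)) = b • eh (Sum.inl o')) (e2 : ρ t (eh (Sum.inl o)) = eh (Sum.inl o) + b • eh (Sum.inl o')) :
    zG (Sum.inl o) w0 c0 * (K * zG (Sum.inl o) w0 c0 * K⁻¹) = (t * zG (Sum.inl o) w0 c0 * t⁻¹) * yG (Sum.inl o) (Sum.inl o') (τ (b * c0)) := by
  have HH := H.full
  have n1 : (Sum.inl o : l ⊕ l) ≠ Sum.inl o' := fun e => h (Sum.inl_injective e)
  have n2 : (Sum.inl o : l ⊕ l) ≠ -(Sum.inl o') := Sum.inl_ne_inr
  have n3 : ∀ a b : l, ¬ (-(Sum.inl a) : l ⊕ l) = Sum.inl b := fun a b => Sum.inr_ne_inl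
  have hn : h0 w0 w0 = -(c0 + τ c0) := by unfold PF at hP; linear_combination hP
  apply C.ext
  intro x
  have a1 : ρ (zG (Sum.inl o) w0 c0 * (K * zG (Sum.inl o) w0 c0 * K⁻¹)) x =
    ρ (zG (Sum.inl o) w0 c0) (ρ (K * zG (Sum.inl o) w0 c0 * K⁻¹) x) := hrho_mul _ _ _
  have a2 : ρ ((t * zG (Sum.inl o) w0 c0 * t⁻¹) * yG (Sum.inl o) (Sum.inl o') (τ (b * c0))) x =
    ρ (t * zG (Sum.inl o) w0 c0 * t⁻¹) (ρ (yG (Sum.inl o) (Sum.inl o') (τ (b * c0))) x) := hrho_mul _ _ _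
  rw [a1, a2, C.vact H hK hP, C.vact H ht hP, e1, e2, aZ C.A _ hP, aY C.A n1 n2]
  rw [hh_add_left HH, hh_smul_left HH, hh_smul_left HH, hh_eh_left HH, hh_eh_left HH, hh_eh_left HH]
  simp only [Prod.fst_add, Prod.fst_sub, Prod.smul_fst, Pi.add_apply, Pi.sub_apply, Pi.smul_apply, smul_eq_mul, eh_fst,
    Prod.snd_add, Prod.snd_sub, Prod.smul_snd, eh_snd, smul_zero, wh_fst, wh_snd, HH.add_right, HH.smul_right, if_neg (n3 _ _),
    mul_zero, add_zero, sub_zero, zero_add, map_mul, HH.ττ, hn]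
  module

theorem tvl_fix {i j : l} (h : i ≠ j) (a : F) : ρ (σ (tvl h a)) (eh (Sum.inl i)) = eh (Sum.inl i) := by
  have n1 : ¬ (Sum.inl j : l ⊕ l) = Sum.inl i := fun e => h (Sum.inl_injective e).symm
  have n2 : ¬ (Sum.inr i : l ⊕ l) = Sum.inl i := Sum.inr_ne_inl
  rw [C.act, LM_tvl, eh_fst, eh_fst, if_neg n1, if_neg n2]
  module

theorem tvl_mv {i j : l} (h : i ≠ j) (a : F) : ρ (σ (tvl h.symm a)) (eh (Sum.inl i)) = eh (Sum.inl i) + a • eh (Sum.inl j) := by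
  have n2 : ¬ (Sum.inr j : l ⊕ l) = Sum.inl i := Sum.inr_ne_inl
  rw [C.act, LM_tvl, eh_fst, eh_fst, if_pos rfl, if_neg n2]
  module

theorem S_out {i : l} {p : l ⊕ l} (h1 : p ≠ Sum.inl i) (h2 : p ≠ Sum.inr i) : ρ (S i) (eh p) = eh p := by
  have e := (C.mn i).act p
  rw [if_neg h1, if_neg h2, one_smul] at e
  rw [e]
  congr 1
  rcases p with p | p
  · exact sk_l' (fun e => h1 (by rw [e]))
  · exact sk_r' (fun e => h2 (by rw [e]))

theorem y_form {o o' : l} (h : o ≠ o') (c : F) : yG (Sum.inl o) (Sum.inl o') c = SF σ (S o) o o' * σ (tvl h (ν * c)) * (SF σ (S o) o o')⁻¹ := by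
  have n1 : (Sum.inl o : l ⊕ l) ≠ Sum.inl o' := fun e => h (Sum.inl_injective e)
  have n2 : (Sum.inl o : l ⊕ l) ≠ -(Sum.inl o') := Sum.inl_ne_inr
  rw [← C.yeq n1 n2, yu_ll h, C.sf]

theorem v_M (hP : PF τ h0 w0 c0) {o : l} {M : Matrix.SpecialLinearGroup l F} (hM : Mo M o o 1) : Commute (zG (Sum.inl o) w0 c0) (σ M) := by
  refine C.vcomm H (C.σ_wh M) hP o ?_
  rw [C.act, LM_eh_inl τ hM, Units.val_one, one_smul]

theorem v_S (hP : PF τ h0 w0 c0) {o o' : l} (h : o ≠ o') : Commute (zG (Sum.inl o) w0 c0) (SF σ (S o) o o') := by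
  rw [C.sf]
  exact C.vcomm H (C.S_wh o') hP o (C.S_out H (fun e => h (Sum.inl_injective e)) Sum.inl_ne_inr)

theorem v_x (hP : PF τ h0 w0 c0) {o o' : l} (h : o ≠ o') (a : F) : Commute (zG (Sum.inl o) w0 c0) (σ (tvl h a)) :=
  C.vcomm H (C.σ_wh _) hP o (C.tvl_fix H h a)

theorem v_r2 (hP : PF τ h0 w0 c0) {o o' : l} (h : o ≠ o') (b : Fˣ) {K : Matrix.SpecialLinearGroup l F} (hK : Mo K o o' b) :
    zG (Sum.inl o) w0 c0 * (σ K * zG (Sum.inl o) w0 c0 * (σ K)⁻¹) =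
      (σ (tvl h.symm (b : F)) * zG (Sum.inl o) w0 c0 * (σ (tvl h.symm (b : F)))⁻¹) *
      (SF σ (S o) o o' * σ (tvl h (ν * τ ((b : F) * c0))) * (SF σ (S o) o o')⁻¹) := by
  rw [← C.y_form H h]
  refine C.r2 H (C.σ_wh K) (C.σ_wh _) hP h (b : F) ?_ (C.tvl_mv H h _)
  rw [C.act, LM_eh_inl τ hK]

end CG

end cg

section cg2
variable {F : Type v} [Field F] [Fintype F] {W Γ : Type*} [AddCommGroup W] [Module F W] [Group Γ]
variable {τ : F →+* F} {ν : F} {h0 : W → W → F} {yG : (Fin 2 ⊕ Fin 2) → (Fin 2 ⊕ Fin 2) → F → Γ} {zG : (Fin 2 ⊕ Fin 2) → W → F → Γ}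
variable {ρ : Γ →* (((Fin 2 ⊕ Fin 2 → F) × W) ≃ₗ[F] ((Fin 2 ⊕ Fin 2 → F) × W))} {σ : Matrix.SpecialLinearGroup (Fin 2) F →* Γ} {S : Fin 2 → Γ}
variable {w0 : W} {c0 e : F} {ζ : Fˣ} {kk : Γ}

/-- the action of the additional torus element -/
structure KA (τ : F →+* F) (ρ : Γ →* (((Fin 2 ⊕ Fin 2 → F) × W) ≃ₗ[F] ((Fin 2 ⊕ Fin 2 → F) × W))) (ζ : Fˣ) (kk : Γ) : Prop where
  act : ∀ p, ρ kk (eh p) = (if p = Sum.inl 1 then (ζ : F) else if p = Sum.inr 1 then (τ (ζ : F))⁻¹ else 1) • eh p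
  wh : ∀ w, ρ kk (wh w) = Stb.wh ((τ (ζ : F) * (ζ : F)⁻¹) • w)

theorem KA.mn (K : KA τ ρ ζ kk) : Mn ρ kk id (fun p => if p = Sum.inl 1 then (ζ : F) else if p = Sum.inr 1 then (τ (ζ : F))⁻¹ else 1) where
  neg _ := rfl
  inj := Function.injective_id
  act := K.act

namespace CG
variable (C : CG τ ν h0 (PF τ h0) yG zG ρ σ S) (H : Herm τ h0)
include C

theorem kr (K : KA τ ρ ζ kk) (h : (0 : Fin 2) ≠ 1) : KR σ (S 0) h ζ kk where
  k1 := by
    apply C.ext_eh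
    · intro p
      obtain ⟨d, hd⟩ := C.D_eh h ζ p
      rw [hrho_mul, hrho_mul, hd, K.act, map_smul, map_smul, K.act, hd, smul_comm]
    · intro w
      rw [hrho_mul, hrho_mul, K.wh, C.σ_wh, C.σ_wh, K.wh]
  k2 := by
    have e := C.inj (K.mn.conj_y C.H C.ne C.A (p := Sum.inl 0) (q := Sum.inr 1) (by decide) (by decide) 1)
    rw [if_neg (by decide), if_neg (by decide), if_neg (by decide), if_pos rfl, one_mul, mul_one, map_inv₀, C.T.ττ] at e
    rw [C.hσ, C.hσ, Units.val_inv_eq_inv_val]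
    exact e
  k3 := by
    have e := C.inj (K.mn.conj_y C.H C.ne C.A (p := Sum.inl 1) (q := Sum.inr 0) (by decide) (by decide) 1)
    rw [if_pos rfl, if_neg (by decide), if_neg (by decide), map_one, mul_one, mul_one] at e
    rw [C.hσ, C.hσ]
    exact e
  k4 := by
    apply C.ext_eh
    · intro p
      have hs : ∀ p : Fin 2 ⊕ Fin 2, (sk 0 p = Sum.inl 1 ↔ p = Sum.inl 1) ∧ (sk 0 p = Sum.inr 1 ↔ p = Sum.inr 1) := by decide
      rw [hrho_mul, hrho_mul, (C.mn 0).act, map_smul, K.act, K.act, map_smul, (C.mn 0).act, smul_comm]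
      simp only [(hs p).1, (hs p).2]
    · intro w
      rw [hrho_mul, hrho_mul, K.wh, C.S_wh, C.S_wh, K.wh]

include H in
theorem vr (K : KA τ ρ ζ kk) (h : (0 : Fin 2) ≠ 1) (he : e + τ e = 1) (hP : PF τ h0 w0 c0) :
    VR τ ν σ (S 0) h ζ e c0 kk (zG (Sum.inl 0) w0 c0) where
  v1 := C.v_x H hP h 1
  v2 := C.v_x H hP h ζ
  v3 := C.v_S H hP h
  v4 := by
    have e : SF σ (S 0) 0 = S := funext (C.sf 0)
    rw [e]
    refine C.vcomm H (C.H_wh h.symm ζ) hP 0 ?_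
    rw [C.act_HH, if_neg (by decide), if_neg (by decide), one_smul]
  v5 := by
    have ν0 := C.ν0
    have hν := C.hν
    have e1 := z1_eq (h := h) C.ue C.zd (ν⁻¹ * e) (-1)
    have e3 : -τ (-1 : F) = 1 := by rw [map_neg, map_one, neg_neg]
    have e4 : ν * (ν⁻¹ * e) = e := by field_simp
    have e2 : ν⁻¹ * e * (-1) - τ (ν⁻¹ * e * (-1)) = -ν⁻¹ := by
      simp only [map_mul, map_neg, map_inv₀, hν, map_one]
      field_simp
      linear_combination (-1 : F) * he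
    rw [e2, yu_ll h.symm, e3, e4] at e1
    rw [← e1]
    have hPi : PF τ h0 0 (-ν⁻¹) := C.Pi
    refine C.vcomm H (fun w => ?_) hP 0 ?_
    · rw [act_z_wh C.A hPi, C.H.zero_left, zero_smul, sub_zero]
    · rw [act_z_ee C.A C.H hPi, if_neg (by decide), if_neg (by decide), zero_smul, zero_smul, add_zero, add_zero]
  v6 := by
    have ττ := C.T.ττ
    have hz := ζ.ne_zero
    have htz : τ (ζ : F) ≠ 0 := fun e => hz (by rw [← ττ (ζ : F), e, map_zero])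
    set d : Fˣ := ζ * (Units.map (τ : F →* F) ζ)⁻¹ with hd
    have hdc : (d : F) = ζ * (τ (ζ : F))⁻¹ := by rw [hd, Units.val_mul, Units.val_inv_eq_inv_val]; rfl
    have htd : τ (d : F) = τ (ζ : F) * (ζ : F)⁻¹ := by rw [hdc, map_mul, map_inv₀, ττ]
    have hdd : (d : F) * τ (d : F) = 1 := by rw [htd, hdc]; field_simp
    apply C.ext
    intro x
    have hfix : ∀ w, ρ (σ (emb2 h (hm d))) (Stb.wh w) = Stb.wh w := fun w => C.σ_wh _ w
    rw [C.vact H hfix hP, C.act, LM_eh_inl τ (Mo_emb2_fst h d), hh_smul_left C.H, hh_eh_left C.H, htd]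
    have e1 : (ρ kk (Stb.wh w0)).2 = (τ (ζ : F) * (ζ : F)⁻¹) • w0 := by rw [K.wh]; rfl
    have hPw : PF τ h0 ((τ (ζ : F) * (ζ : F)⁻¹) • w0) c0 := by
      have := C.H.P_smul hP (τ (ζ : F) * (ζ : F)⁻¹)
      have e2 : (τ (ζ : F) * (ζ : F)⁻¹) * τ (τ (ζ : F) * (ζ : F)⁻¹) * c0 = c0 := by
        rw [map_mul, ττ, map_inv₀]; field_simp
      rwa [e2] at this
    have e3 := C.inj (K.mn.conj_z C.H C.ne C.A (Sum.inl 0) hP (by
      rw [e1, if_neg (by decide), if_neg (by decide), map_one, one_smul, one_mul, one_mul]; exact hPw))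
    rw [e1, if_neg (by decide), if_neg (by decide), map_one, one_smul, one_mul, one_mul] at e3
    change kk * zG (Sum.inl 0) w0 c0 * kk⁻¹ = zG (Sum.inl 0) _ _ at e3
    rw [e3, aZ C.A _ hPw, whs, C.H.smul_left]
    rw [← htd] at *
    rw [ττ]
    have e4 : (c0 * (τ (d : F) * x.1 (-Sum.inl 0)) - h0 w0 x.2) • (d : F) • (eh (Sum.inl 0) : (Fin 2 ⊕ Fin 2 → F) × W) =
        (c0 * x.1 (-Sum.inl 0) - (d : F) * h0 w0 x.2) • eh (Sum.inl 0) := by
      rw [smul_smul]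
      congr 1
      linear_combination (c0 * x.1 (-Sum.inl 0)) * hdd
    rw [e4]
    module
  r2 i hi := C.v_r2 H hP h _ (Mo_KK h _)

end CG

end cg2

end Cfsg.Agent.GK.Un
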