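import Cfsg.Agent.GK.Un26
import Cfsg.Agent.ClBN.UniI
import Cfsg.Agent.Uni.Simple

/-!
The special unitary groups as groups of isometries of a hyperbolic form.
-/

set_option autoImplicit false
set_option linter.unusedSectionVars false
set_option linter.unusedVariables false
set_option linter.unusedSimpArgs false

namespace Cfsg.Agent.GK.Un

open Subgroup Cfsg.Agent.Stb Cfsg.Agent.ClBN Cfsg.Agent.Uni
open scoped commutatorElement
open Om (Mo_emb2_fst Mo_emb2_snd Mo_emb2_out)

attribute [local instance] Stb.sumNeg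

universe v

section conc
variable {F : Type v} [Field F] [Fintype F] {q : ℕ}

theorem tauU (hF : Fintype.card F = q ^ 2) : Tau (conjHom hF) where
  ττ := conjHom_involutive hF
  nid := exists_conj_ne hF
  tr := by
    obtain ⟨y, hy⟩ := exists_trace_ne hF
    have ht : conjHom hF (y + conjHom hF y) = y + conjHom hF y := by rw [map_add, conjHom_involutive, add_comm]
    refine ⟨y / (y + conjHom hF y), ?_⟩
    rw [map_div₀, ht, ← add_div, div_self hy]

variable {κ : Type} [Fintype κ] [Subsingleton κ] [DecidableEq κ] {m : ℕ}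

/-- the anisotropic form -/
noncomputable def h0U (hF : Fintype.card F = q ^ 2) (w u : κ → F) : F := ∑ z, conjHom hF (w z) * u z

theorem hermU (hF : Fintype.card F = q ^ 2) : Herm (conjHom hF) (h0U (κ := κ) hF) where
  T := tauU hF
  add_right w u v := by
    unfold h0U
    rw [← Finset.sum_add_distrib]
    exact Finset.sum_congr rfl fun z _ => by rw [Pi.add_apply, mul_add]
  smul_right w a u := by
    unfold h0U
    rw [Finset.mul_sum]
    exact Finset.sum_congr rfl fun z _ => by rw [Pi.smul_apply, smul_eq_mul]; ring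
  symm w u := by
    unfold h0U
    rw [map_sum]
    exact Finset.sum_congr rfl fun z _ => by rw [map_mul, conjHom_involutive, mul_comm]
  aniso {w} h := by
    funext z
    unfold h0U at h
    rw [Fintype.sum_subsingleton _ z] at h
    rcases mul_eq_zero.1 h with h1 | h1
    · have h2 := congrArg (conjHom hF) h1
      rwa [conjHom_involutive, map_zero] at h2
    · exact h1

theorem normU (hF : Fintype.card F = q ^ 2) (r : F) (hr : conjHom hF r = r) (h0 : r ≠ 0) :
    ∃ d : Fˣ, ((nn (conjHom hF) d : Fˣ) : F) = r := by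
  obtain ⟨x, hx⟩ := exists_norm_eq hF (c := r) hr
  have hx0 : x ≠ 0 := by
    rintro rfl
    rw [zero_pow (by omega)] at hx
    exact h0 hx.symm
  refine ⟨Units.mk0 x hx0, ?_⟩
  rw [nn_coe, Units.val_mk0, ← hx, pow_succ]
  change x * x ^ q = _
  ring

variable (F κ m) in
/-- coordinates -/
noncomputable def phiU : (Ix m κ → F) ≃ₗ[F] ((Fin m ⊕ Fin m → F) × (κ → F)) := LinearEquiv.sumArrowLequivProdArrow (Fin m ⊕ Fin m) κ F F

theorem phiU_fst (u : Ix m κ → F) (p : Fin m ⊕ Fin m) : (phiU F κ m u).1 p = u (Sum.inl p) := rfl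
theorem phiU_snd (u : Ix m κ → F) (z : κ) : (phiU F κ m u).2 z = u (Sum.inr z) := rfl
theorem phiU_symm_inl (v : (Fin m ⊕ Fin m → F) × (κ → F)) (p : Fin m ⊕ Fin m) : (phiU F κ m).symm v (Sum.inl p) = v.1 p := rfl
theorem phiU_symm_inr (v : (Fin m ⊕ Fin m → F) × (κ → F)) (z : κ) : (phiU F κ m).symm v (Sum.inr z) = v.2 z := rfl

/-- the representation -/
noncomputable def rhoU : GL (Ix m κ) F →* (((Fin m ⊕ Fin m → F) × (κ → F)) ≃ₗ[F] ((Fin m ⊕ Fin m → F) × (κ → F))) where
  toFun g :=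
    { toFun := fun v => phiU F κ m (PolD.ac g ((phiU F κ m).symm v))
      map_add' := fun u v => by rw [map_add, PolD.ac_add, map_add]
      map_smul' := fun c v => by rw [map_smul, PolD.ac_smul, map_smul]; rfl
      invFun := fun v => phiU F κ m (PolD.ac g⁻¹ ((phiU F κ m).symm v))
      left_inv := fun v => by
        simp only [LinearEquiv.symm_apply_apply]
        rw [← PolD.ac_mul, inv_mul_cancel, PolD.ac_one, LinearEquiv.apply_symm_apply]
      right_inv := fun v => by
        simp only [LinearEquiv.symm_apply_apply]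
        rw [← PolD.ac_mul, mul_inv_cancel, PolD.ac_one, LinearEquiv.apply_symm_apply] }
  map_one' := by
    apply LinearEquiv.ext
    intro v
    change phiU F κ m (PolD.ac 1 ((phiU F κ m).symm v)) = v
    rw [PolD.ac_one, LinearEquiv.apply_symm_apply]
  map_mul' g h := by
    apply LinearEquiv.ext
    intro v
    change phiU F κ m (PolD.ac (g * h) ((phiU F κ m).symm v)) =
      phiU F κ m (PolD.ac g ((phiU F κ m).symm (phiU F κ m (PolD.ac h ((phiU F κ m).symm v)))))
    rw [LinearEquiv.symm_apply_apply, PolD.ac_mul]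

theorem rhoU_apply (g : GL (Ix m κ) F) (v : (Fin m ⊕ Fin m → F) × (κ → F)) :
    rhoU g v = phiU F κ m (PolD.ac g ((phiU F κ m).symm v)) := rfl

theorem rhoU_inj : Function.Injective (rhoU (F := F) (κ := κ) (m := m)) := by
  intro g h hgh
  apply PolD.ext_ac
  intro i
  have h1 := congrArg (fun f => f (phiU F κ m (PolD.E i))) hgh
  simp only [rhoU_apply, LinearEquiv.symm_apply_apply] at h1
  exact (phiU F κ m).injective h1

theorem hh_B (hF : Fintype.card F = q ^ 2) (u v : Ix m κ → F) :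
    hh (conjHom hF) (h0U hF) (phiU F κ m u) (phiU F κ m v) = (polU κ hF).B v u := by
  unfold hh PolD.B
  congr 1
  · rw [← Equiv.sum_comp (Equiv.ofBijective (opp (m := m)) ⟨opp_injective, fun p => ⟨opp p, opp_opp p⟩⟩)]
    refine Finset.sum_congr rfl fun p _ => ?_
    change conjHom hF (u (Sum.inl (opp p))) * v (Sum.inl (-(opp p))) = _
    have e1 : -(opp p) = p := by rcases p with p | p <;> rfl
    have e2 : (polU κ hF).b p = 1 := by rcases p with p | p <;> rfl
    rw [e1, e2, one_mul, mul_comm]; rfl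
  · change h0U hF _ _ = ∑ z, _
    unfold h0U
    exact Finset.sum_congr rfl fun z _ => mul_comm _ _

/-- existence of the short root elements -/
theorem exY (hF : Fintype.card F = q ^ 2) {i j : Fin m ⊕ Fin m} (h : i ≠ j) (h' : i ≠ -j) (a : F) :
    ∃ g : GL (Ix m κ) F, g ∈ Good.KK (rsB m) (polU κ hF) ∧ ∀ u, PolD.ac g u = (polU κ hF).FL i (opp j) a u := by
  have hj : ∀ j : Fin m ⊕ Fin m, -j = opp j := fun j => by rcases j with j | j <;> rfl
  have h1 : i ≠ opp j := by rw [← hj]; exact h'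
  have h2 : i ≠ opp (opp j) := by rw [opp_opp]; exact h
  obtain ⟨g, hg, e⟩ := (polU κ hF).exists_xL h1 h2 a
  refine ⟨g, ?_, e⟩
  obtain ⟨r, hr⟩ := (rsB m).exists_vv (x := wP i - wP (opp j)) (Or.inl ⟨i, opp j, h1, h2, rfl⟩)
  exact Good.XX_le_KK r ((Good.mem_XX hr).2 ⟨hg, PolD.uu_xL e⟩)

/-- existence of the long root elements -/
theorem exZ (hF : Fintype.card F = q ^ 2) (i : Fin m ⊕ Fin m) {w : κ → F} {c : F} (hP : PF (conjHom hF) (h0U hF) w c) :
    ∃ g : GL (Ix m κ) F, g ∈ Good.KK (rsB m) (polU κ hF) ∧ ∀ u, PolD.ac g u = (polU κ hF).FS i w (conjHom hF c) u := by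
  have hd : (polU κ hF).τ (conjHom hF c) + (polU κ hF).q0 w = 0 := by
    change conjHom hF c + conjHom hF (conjHom hF c) + ∑ z, w z * conjHom hF (w z) = 0
    unfold PF h0U at hP
    rw [conjHom_involutive, ← hP, add_comm (conjHom hF c)]
    congr 1
    exact Finset.sum_congr rfl fun z _ => mul_comm _ _
  obtain ⟨g, hg, e⟩ := (polU κ hF).exists_xS i w _ hd
  refine ⟨g, ?_, e⟩
  obtain ⟨r, hr⟩ := (rsB m).exists_vv (x := wP i) (Or.inr ⟨i, rfl⟩)
  exact Good.XX_le_KK r ((Good.mem_XX hr).2 ⟨hg, PolD.uu_xS e⟩)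

theorem KK_le' (hF : Fintype.card F = q ^ 2) : Good.KK (rsB m) (polU κ hF) ≤ G0U κ m hF := by
  obtain ⟨p, hp⟩ := CharP.exists F
  have : Fact p.Prime := ⟨CharP.char_is_prime F p⟩
  exact KK_le_G0U (p := p) hF

open scoped Classical in
/-- short root elements -/
noncomputable def yC (κ : Type) [Fintype κ] [Subsingleton κ] [DecidableEq κ] (m : ℕ) (hF : Fintype.card F = q ^ 2) (i j : Fin m ⊕ Fin m) (a : F) :
    ↥(G0U κ m hF) :=
  if h : i ≠ j ∧ i ≠ -j then ⟨(exY (κ := κ) hF h.1 h.2 a).choose, KK_le' hF (exY (κ := κ) hF h.1 h.2 a).choose_spec.1⟩ else 1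

open scoped Classical in
/-- long root elements -/
noncomputable def zC (κ : Type) [Fintype κ] [Subsingleton κ] [DecidableEq κ] (m : ℕ) (hF : Fintype.card F = q ^ 2) (i : Fin m ⊕ Fin m) (w : κ → F) (c : F) :
    ↥(G0U κ m hF) :=
  if h : PF (conjHom hF) (h0U hF) w c then ⟨(exZ (m := m) hF i h).choose, KK_le' hF (exZ (m := m) hF i h).choose_spec.1⟩ else 1

variable (κ m) in
/-- the representation of the special unitary group -/
noncomputable def rhoC (hF : Fintype.card F = q ^ 2) : ↥(G0U κ m hF) →* (((Fin m ⊕ Fin m → F) × (κ → F)) ≃ₗ[F] ((Fin m ⊕ Fin m → F) × (κ → F))) :=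
  rhoU.comp (G0U κ m hF).subtype

theorem rhoC_inj (hF : Fintype.card F = q ^ 2) : Function.Injective (rhoC κ m hF) := rhoU_inj.comp Subtype.val_injective

theorem haC (hF : Fintype.card F = q ^ 2) : HA (conjHom hF) (h0U (κ := κ) hF) (PF (conjHom hF) (h0U hF)) (yC κ m hF) (zC κ m hF) (rhoC κ m hF) where
  act_y {i j} h h' a v := by
    have hj : ∀ j : Fin m ⊕ Fin m, opp j = -j := fun j => by rcases j with j | j <;> rfl
    have e0 : ((yC κ m hF i j a : ↥(G0U κ m hF)) : GL (Ix m κ) F) = (exY (κ := κ) hF h h' a).choose := by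
      unfold yC; rw [dif_pos ⟨h, h'⟩]
    have hb : ∀ p : Fin m ⊕ Fin m, (polU κ hF).b p = 1 := fun p => by rcases p with p | p <;> rfl
    change rhoU ((yC κ m hF i j a : ↥(G0U κ m hF)) : GL (Ix m κ) F) v = _
    rw [e0, rhoU_apply, (exY (κ := κ) hF h h' a).choose_spec.2]
    have hσ : ∀ x, (polU κ hF).σ x = conjHom hF x := fun _ => rfl
    refine Prod.ext ?_ ?_
    · funext p
      rw [phiU_fst]
      unfold PolD.FL
      simp only [Pi.add_apply, Pi.smul_apply, smul_eq_mul, PolD.E_apply, phiU_symm_inl, hb, hσ, opp_opp, Sum.inl.injEq, mul_one, mul_ite, mul_zero]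
      rw [hj, hj]
      split_ifs <;> ring
    · funext z
      rw [phiU_snd]
      unfold PolD.FL
      simp [PolD.E_apply, phiU_symm_inr]
  act_z i {w c} hP v := by
    have hj : ∀ j : Fin m ⊕ Fin m, opp j = -j := fun j => by rcases j with j | j <;> rfl
    have e0 : ((zC κ m hF i w c : ↥(G0U κ m hF)) : GL (Ix m κ) F) = (exZ (m := m) hF i hP).choose := by
      unfold zC; rw [dif_pos hP]
    have hb : ∀ p : Fin m ⊕ Fin m, (polU κ hF).b p = 1 := fun p => by rcases p with p | p <;> rfl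
    change rhoU ((zC κ m hF i w c : ↥(G0U κ m hF)) : GL (Ix m κ) F) v = _
    rw [e0, rhoU_apply, (exZ (m := m) hF i hP).choose_spec.2]
    have hσ : ∀ x, (polU κ hF).σ x = conjHom hF x := fun _ => rfl
    have hε : (polU κ hF).ε = 1 := rfl
    have hB : (polU κ hF).B0 (PolD.r0 ((phiU F κ m).symm v)) w = h0U hF w v.2 := by
      change ∑ z, _ = ∑ z, _
      exact Finset.sum_congr rfl fun z _ => mul_comm _ _
    refine Prod.ext ?_ ?_
    · funext p
      rw [phiU_fst]
      unfold PolD.FS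
      rw [hB]
      simp only [Pi.add_apply, Pi.smul_apply, smul_eq_mul, PolD.E_apply, PolD.ex_inl, phiU_symm_inl, hb, hσ, hε, Sum.inl.injEq, mul_one, one_mul,
        mul_ite, mul_zero, zero_add, conjHom_involutive]
      rw [hj]
      split_ifs <;> ring
    · funext z
      rw [phiU_snd]
      unfold PolD.FS
      simp [PolD.E_apply, phiU_symm_inr, phiU_symm_inl, hj]
  form g u v := by
    change hh _ _ (rhoU (g : GL (Ix m κ) F) u) (rhoU (g : GL (Ix m κ) F) v) = _
    rw [rhoU_apply, rhoU_apply, hh_B, PolD.Γ_B (polU κ hF) (Subgroup.mem_inf.1 g.2).1, ← hh_B, LinearEquiv.apply_symm_apply, LinearEquiv.apply_symm_apply]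

/-- the data of the special unitary group -/
theorem exists_CG (κ : Type) [Fintype κ] [Subsingleton κ] [DecidableEq κ] (hm : 2 ≤ m) (hF : Fintype.card F = q ^ 2) {ν : F} (hν : conjHom hF ν = -ν) (ν0 : ν ≠ 0) :
    ∃ (σ : Matrix.SpecialLinearGroup (Fin m) F →* ↥(G0U κ m hF)) (S : Fin m → ↥(G0U κ m hF)),
      CG (conjHom hF) ν (h0U (κ := κ) hF) (PF (conjHom hF) (h0U hF)) (yC κ m hF) (zC κ m hF) (rhoC κ m hF) σ S := by
  obtain ⟨σ, h1, h2⟩ := exists_sigma (haC (κ := κ) (m := m) hF) (rhoC_inj hF)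
  exact ⟨σ, fun i => zC κ m hF (Sum.inl i) 0 (-ν⁻¹) * zC κ m hF (Sum.inr i) 0 ν * zC κ m hF (Sum.inl i) 0 (-ν⁻¹), {
    T := tauU hF
    hν := hν
    ν0 := ν0
    two := fun i => by
      by_cases hi : i = ⟨0, by omega⟩
      · exact ⟨⟨1, by omega⟩, fun e => by rw [hi] at e; simp at e⟩
      · exact ⟨⟨0, by omega⟩, fun e => hi e.symm⟩
    H := (hermU hF).full
    A := haC hF
    inj := rhoC_inj hF
    hσ := h1
    act := h2
    hS := fun _ => rfl }⟩

theorem ext_rho (hF : Fintype.card F = q ^ 2) {g g' : GL (Ix m κ) F} (h : ∀ u, PolD.ac g u = PolD.ac g' u) : g = g' :=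
  PolD.ext_ac fun i => h _

/-- the root elements generate the group generated by the root groups -/
theorem KK_le_gp (hF : Fintype.card F = q ^ 2) : Good.KK (rsB m) (polU κ hF) ≤
    (gp (HX (PF (conjHom hF) (h0U hF)) (yC κ m hF) (zC κ m hF)) (fun _ _ => True)).map (G0U κ m hF).subtype := by
  have hj : ∀ j : Fin m ⊕ Fin m, opp j = -j := fun j => by rcases j with j | j <;> rfl
  rw [Good.KK_le]
  intro r x hx
  rcases (rsB m).ls _ ((rsB m).vv_R r) with ⟨p, s, h1, h2, h3⟩ | ⟨p, h3⟩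
  · obtain ⟨hx1, hx2⟩ := (Good.mem_XX h3).1 hx
    obtain ⟨t, ht⟩ := PolD.form_long h1 h2 hx1 hx2
    have g1 : p ≠ opp s := h2
    have g2 : p ≠ -(opp s) := by rw [← hj, opp_opp]; exact h1
    refine ⟨yC κ m hF p (opp s) t, X_le_gp g2 trivial (HR.y_mem g1 g2 t), ?_⟩
    apply ext_rho hF
    intro u
    have e0 : ((yC κ m hF p (opp s) t : ↥(G0U κ m hF)) : GL (Ix m κ) F) = (exY (κ := κ) hF g1 g2 t).choose := by
      unfold yC; rw [dif_pos ⟨g1, g2⟩]
    change PolD.ac ((yC κ m hF p (opp s) t : ↥(G0U κ m hF)) : GL (Ix m κ) F) u = _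
    rw [e0, (exY (κ := κ) hF g1 g2 t).choose_spec.2, opp_opp, ht]
  · obtain ⟨hx1, hx2⟩ := (Good.mem_XX h3).1 hx
    obtain ⟨w, d, hd, ht⟩ := PolD.form_short hx1 hx2
    have hP : PF (conjHom hF) (h0U hF) w (conjHom hF d) := by
      have hd' : d + conjHom hF d + ∑ z, w z * conjHom hF (w z) = 0 := hd
      unfold PF h0U
      rw [conjHom_involutive, add_comm (conjHom hF d), ← hd']
      congr 1
      exact Finset.sum_congr rfl fun z _ => mul_comm _ _
    refine ⟨zC κ m hF p w (conjHom hF d), X_le_gp (fun e => ne_opp p (e.trans (hj p).symm)) trivial (HR.z_mem p hP), ?_⟩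
    apply ext_rho hF
    intro u
    have e0 : ((zC κ m hF p w (conjHom hF d) : ↥(G0U κ m hF)) : GL (Ix m κ) F) = (exZ (m := m) hF p hP).choose := by
      unfold zC; rw [dif_pos hP]
    change PolD.ac ((zC κ m hF p w (conjHom hF d) : ↥(G0U κ m hF)) : GL (Ix m κ) F) u = _
    rw [e0, (exZ (m := m) hF p hP).choose_spec.2, conjHom_involutive, ht]

/-- **Generation by root elements** -/
theorem gp_top (hm : 2 ≤ m) (hF : Fintype.card F = q ^ 2) :
    gp (HX (PF (conjHom hF) (h0U (κ := κ) hF)) (yC κ m hF) (zC κ m hF)) (fun _ _ => True) = ⊤ := by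
  set T := gp (HX (PF (conjHom hF) (h0U (κ := κ) hF)) (yC κ m hF) (zC κ m hF)) (fun _ _ => True) with hT
  have hj : ∀ j : Fin m ⊕ Fin m, opp j = -j := fun j => by rcases j with j | j <;> rfl
  obtain ⟨θ, hθ⟩ := (tauU hF).nid
  have hν : conjHom hF (θ - conjHom hF θ) = -(θ - conjHom hF θ) := by rw [map_sub, conjHom_involutive]; ring
  have ν0 : θ - conjHom hF θ ≠ 0 := fun e => hθ (sub_eq_zero.1 e).symm
  obtain ⟨σ, S, C⟩ := exists_CG κ hm hF hν ν0
  have R := C.hr
  have hTle : T.map (G0U κ m hF).subtype = Good.KK (rsB m) (polU κ hF) := by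
    refine le_antisymm ?_ (KK_le_gp hF)
    rw [map_le_iff_le_comap, hT]
    refine gp_le fun k l hkl _ x hx => ?_
    rw [mem_comap]
    by_cases h3 : k = l
    · subst h3
      obtain ⟨w, c, hP, rfl⟩ := (R.mem_Xl C.H).1 hx
      have e0 : ((zC κ m hF k w c : ↥(G0U κ m hF)) : GL (Ix m κ) F) = (exZ (m := m) hF k hP).choose := by
        unfold zC; rw [dif_pos hP]
      change ((zC κ m hF k w c : ↥(G0U κ m hF)) : GL (Ix m κ) F) ∈ _
      rw [e0]
      exact (exZ (m := m) hF k hP).choose_spec.1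
    · obtain ⟨a, rfl⟩ := (R.mem_Xs h3 hkl).1 hx
      have e0 : ((yC κ m hF k l a : ↥(G0U κ m hF)) : GL (Ix m κ) F) = (exY (κ := κ) hF h3 hkl a).choose := by
        unfold yC; rw [dif_pos ⟨h3, hkl⟩]
      change ((yC κ m hF k l a : ↥(G0U κ m hF)) : GL (Ix m κ) F) ∈ _
      rw [e0]
      exact (exY (κ := κ) hF h3 hkl a).choose_spec.1
  -- normality
  have hHH : ∀ g ∈ Good.HH m (polU κ hF), ∀ x ∈ Good.KK (rsB m) (polU κ hF), g * x * g⁻¹ ∈ Good.KK (rsB m) (polU κ hF) := by
    intro g hg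
    have : Good.KK (rsB m) (polU κ hF) ≤ (Good.KK (rsB m) (polU κ hF)).comap (MulAut.conj g).toMonoidHom := by
      rw [Good.KK_le]
      intro r x hx
      exact Good.XX_le_KK r (Good.HH_X hg r hx)
    exact fun x hx => this hx
  have hN : ∀ g ∈ (polU κ hF).Γ m, ∀ x ∈ Good.KK (rsB m) (polU κ hF), g * x * g⁻¹ ∈ Good.KK (rsB m) (polU κ hF) := by
    intro g hg x hx
    obtain ⟨t, ht, htg⟩ := (good_U m hF).gen_B (fun p => Or.inr ⟨p, rfl⟩) hg
    have h1 := hHH _ htg x hx
    have h2 := mul_mem (mul_mem (inv_mem ht) h1) ht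
    convert h2 using 1
    group
  have hTN : T.Normal := ⟨fun t ht g => by
    have h1 : ((g * t * g⁻¹ : ↥(G0U κ m hF)) : GL (Ix m κ) F) ∈ T.map (G0U κ m hF).subtype := by
      rw [hTle]
      refine hN g.1 (Subgroup.mem_inf.1 g.2).1 t.1 ?_
      rw [← hTle]; exact ⟨t, ht, rfl⟩
    obtain ⟨t', ht', e⟩ := h1
    have e' : t' = g * t * g⁻¹ := Subtype.ext e
    rw [← e']; exact ht'⟩
  have hcard : 4 ≤ Fintype.card (Ix m κ) := by
    rw [Fintype.card_sum, Fintype.card_sum, Fintype.card_fin]; omega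
  obtain ⟨e⟩ := exists_suEquiv (m := m) (κ := κ) hF (n := Fintype.card (Ix m κ)) rfl
  have hTN' : (T.map e.toMonoidHom).Normal := hTN.map _ e.surjective
  rcases normal_le_center_or_top hF (n := Fintype.card (Ix m κ)) (by omega) (by omega) (T.map e.toMonoidHom) with h | h
  · exfalso
    have n1 : (Sum.inl ⟨0, by omega⟩ : Fin m ⊕ Fin m) ≠ Sum.inl ⟨1, by omega⟩ := fun e => by
      have := Sum.inl_injective e
      simp at this
    have n2 : (Sum.inl ⟨0, by omega⟩ : Fin m ⊕ Fin m) ≠ -(Sum.inl ⟨1, by omega⟩) := Sum.inl_ne_inr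
    set i : Fin m ⊕ Fin m := Sum.inl ⟨0, by omega⟩
    set j : Fin m ⊕ Fin m := Sum.inl ⟨1, by omega⟩
    have n3 : -j ≠ i := fun e => n2 e.symm
    have n4 : -j ≠ -i := fun e => n1 (neg_inj.1 e).symm
    have h1 := R.c2 n1 n2 θ 1
    have hyT : yC κ m hF i j θ ∈ T := X_le_gp n2 trivial (HR.y_mem n1 n2 θ)
    have h2 := h (mem_map_of_mem e.toMonoidHom hyT)
    have h3 : Commute (yC κ m hF i j θ) (yC κ m hF (-j) i 1) := by
      apply e.injective
      rw [map_mul, map_mul]
      exact ((Subgroup.mem_center_iff.1 h2) (e (yC κ m hF (-j) i 1))).symm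
    rw [commutatorElement_eq_one_iff_commute.2 h3, mul_one] at h1
    have hP0 : PF (conjHom hF) (h0U (κ := κ) hF) 0 (θ - conjHom hF θ) := C.H.P_skew θ
    have h4 : rhoC κ m hF (zC κ m hF i 0 (θ - conjHom hF θ)) = rhoC κ m hF (zC κ m hF i 0 0) := by
      rw [← h1, R.zzero C.H]
    obtain ⟨-, h5⟩ := z_inj C.H R C.A hP0 C.H.P_zero h4
    exact ν0 h5
  · have h1 : T.map e.toMonoidHom = (⊤ : Subgroup _).map e.toMonoidHom := by
      rw [h]; symm; exact map_top_of_surjective _ e.surjective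
    exact map_injective e.injective h1

end conc

end Cfsg.Agent.GK.Un
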