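import Cfsg.Agent.GK.Un27

/-!
Generation of the concrete group by the special linear group, a flip and a long root element.
-/

set_option autoImplicit false
set_option linter.unusedSectionVars false
set_option linter.unusedVariables false
set_option linter.unusedSimpArgs false

namespace Cfsg.Agent.GK.Un

open Subgroup Cfsg.Agent.Stb
open scoped commutatorElement
open Om (Mo_emb2_fst Mo_emb2_snd Mo_emb2_out)

attribute [local instance] Stb.sumNeg

universe v

section cg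
variable {F : Type v} [Field F] {l : Type} [Fintype l] [DecidableEq l] {W Γ : Type*} [AddCommGroup W] [Module F W] [Group Γ]
variable {τ : F →+* F} {ν : F} {h0 : W → W → F} {yG : (l ⊕ l) → (l ⊕ l) → F → Γ} {zG : (l ⊕ l) → W → F → Γ}
variable {ρ : Γ →* (((l ⊕ l → F) × W) ≃ₗ[F] ((l ⊕ l → F) × W))} {σ : Matrix.SpecialLinearGroup l F →* Γ} {S : l → Γ}
variable {w0 : W} {c0 : F}

namespace CG
variable (C : CG τ ν h0 (PF τ h0) yG zG ρ σ S) (H : Herm τ h0)
include C

theorem S_le (o i : l) : S i ∈ σ.range ⊔ zpowers (S o) := by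
  obtain ⟨M, hM⟩ := exists_mo1 (F := F) C.two o i
  rw [← C.tr hM]
  exact mul_mem (mul_mem (mem_sup_left ⟨M, rfl⟩) (mem_sup_right (mem_zpowers _))) (inv_mem (mem_sup_left ⟨M, rfl⟩))

theorem y_le (o : l) {p q : l ⊕ l} (h1 : p ≠ q) (h2 : p ≠ -q) (a : F) : yG p q a ∈ σ.range ⊔ zpowers (S o) := by
  have ν0 := C.ν0
  rw [← C.yeq h1 h2]
  have hS := C.S_le o
  have hT : ∀ {i j : l} (hij : i ≠ j) (a : F), σ (tvl hij a) ∈ σ.range ⊔ zpowers (S o) := fun hij a => mem_sup_left ⟨_, rfl⟩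
  rcases p with i | i <;> rcases q with j | j
  · have hij : i ≠ j := fun e => h1 (by rw [e])
    rw [yu_ll hij]
    exact mul_mem (mul_mem (hS j) (hT hij _)) (inv_mem (hS j))
  · have hij : i ≠ j := fun e => h2 (by rw [e]; rfl)
    rw [yu_lr hij]; exact hT hij _
  · have hij : i ≠ j := fun e => h2 (by rw [e]; rfl)
    rw [yu_rl hij _ ν0]; exact mul_mem (mul_mem (mul_mem (hS i) (hS j)) (hT hij _)) (inv_mem (mul_mem (hS i) (hS j)))
  · have hij : i ≠ j := fun e => h1 (by rw [e])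
    rw [yu_rr hij]
    exact mul_mem (mul_mem (hS i) (hT hij _)) (inv_mem (hS i))

theorem z0_le (o : l) (p : l ⊕ l) {c : F} (hc : τ c = -c) : zG p 0 c ∈ σ.range ⊔ zpowers (S o) := by
  obtain ⟨a, rfl⟩ := C.T.skew hc
  obtain ⟨q, hq1, hq2⟩ := C.hr.two p
  have g1 : p ≠ q := hq1.symm
  have g2 : p ≠ -q := fun e => hq2 (by rw [e, neg_neg])
  have g3 : -q ≠ p := fun e => g2 e.symm
  have g4 : -q ≠ -p := fun e => g1 (neg_inj.1 e).symm
  have e := C.hr.c2 g1 g2 a 1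
  rw [mul_one] at e
  rw [← e, commutatorElement_def]
  exact mul_mem (mul_mem (mul_mem (C.y_le o g1 g2 _) (C.y_le o g3 g4 _)) (inv_mem (C.y_le o g1 g2 _))) (inv_mem (C.y_le o g3 g4 _))

/-- transitivity on the coordinate vectors -/
theorem exists_to (o : l) (p : l ⊕ l) {β : F} (hβ : β ≠ 0) : ∃ g ∈ σ.range ⊔ zpowers (S o),
    ρ g (eh (Sum.inl o)) = β • (eh p : (l ⊕ l → F) × W) ∧ ∀ w, ρ g (wh w) = wh w := by
  have hMM : ∀ (i : l) {β : F}, β ≠ 0 → ∃ M : Matrix.SpecialLinearGroup l F, ρ (σ M) (eh (Sum.inl o)) = β • (eh (Sum.inl i) : (l ⊕ l → F) × W) := by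
    intro i β hβ
    obtain ⟨M, hM⟩ := exists_mo1 (F := F) C.two o i
    obtain ⟨j, hj⟩ := C.two i
    refine ⟨emb2 hj.symm (hm (Units.mk0 β hβ)) * M, ?_⟩
    have := (Mo_emb2_fst hj.symm (Units.mk0 β hβ)).mul hM
    rw [mul_one] at this
    rw [C.act, LM_eh_inl τ this, Units.val_mk0]
  rcases p with i | i
  · obtain ⟨M, hM⟩ := hMM i hβ
    exact ⟨σ M, mem_sup_left ⟨M, rfl⟩, hM, C.σ_wh M⟩
  · obtain ⟨M, hM⟩ := hMM i (div_ne_zero hβ C.ν0)
    refine ⟨S i * σ M, mul_mem (C.S_le o i) (mem_sup_left ⟨M, rfl⟩), ?_, ?_⟩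
    · rw [hrho_mul, hM, map_smul, (C.mn i).act, if_pos rfl, smul_smul, div_mul_cancel₀ _ C.ν0, sk_l]
    · intro w
      rw [hrho_mul, C.σ_wh, C.S_wh]

include H in
theorem zv_le (o : l) (one : ∀ w : W, ∃ a : F, w = a • w0) (hP : PF τ h0 w0 c0) (p : l ⊕ l) {w : W} {c : F} (hPw : PF τ h0 w c) :
    zG p w c ∈ σ.range ⊔ zpowers (S o) ⊔ zpowers (zG (Sum.inl o) w0 c0) := by
  have ττ := C.T.ττ
  obtain ⟨a, ha⟩ := one w
  by_cases hw : w = 0
  · subst hw
    refine mem_sup_left (C.z0_le o p ?_)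
    unfold PF at hPw
    rw [C.H.zero_left] at hPw
    linear_combination hPw
  have ha0 : a ≠ 0 := by rintro rfl; exact hw (by rw [ha, zero_smul])
  have hta0 : τ a ≠ 0 := fun e => ha0 (by rw [← ττ a, e, map_zero])
  obtain ⟨g, hg, g1, g2⟩ := C.exists_to o p hta0
  have hP2 : PF τ h0 w (a * τ a * c0) := by
    rw [ha]; exact C.H.P_smul hP a
  have e1 : g * zG (Sum.inl o) w0 c0 * g⁻¹ = zG p w (a * τ a * c0) := by
    apply C.ext
    intro x
    rw [C.vact H g2 hP, g1, aZ C.A _ hP2, hh_smul_left C.H, hh_eh_left C.H, ττ, ha, C.H.smul_left, whs]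
    module
  have hsk : τ (c - a * τ a * c0) = -(c - a * τ a * c0) := by
    unfold PF at hPw hP2
    rw [map_sub]
    linear_combination hPw - hP2
  have e2 : zG p w c = zG p w (a * τ a * c0) * zG p 0 (c - a * τ a * c0) := by
    rw [C.hr.zmul p hP2 (C.P_sk hsk), add_zero, C.H.zero_right]
    congr 1
    ring
  rw [e2, ← e1]
  have k1 := mem_sup_left (T := zpowers (zG (Sum.inl o) w0 c0)) hg
  exact mul_mem (mul_mem (mul_mem k1 (mem_sup_right (mem_zpowers _))) (inv_mem k1)) (mem_sup_left (C.z0_le o p hsk))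

/-- generation in even dimension -/
theorem gen_even (o : l) (triv : ∀ w : W, w = 0) (top : gp (HX (PF τ h0) yG zG) (fun _ _ => True) = ⊤) : σ.range ⊔ zpowers (S o) = ⊤ := by
  refine top_le_iff.1 (top.symm.le.trans (gp_le fun k l' hkl _ x hx => ?_))
  by_cases h3 : k = l'
  · subst h3
    obtain ⟨w, c, hP, rfl⟩ := (C.hr.mem_Xl C.H).1 hx
    obtain rfl := triv w
    refine C.z0_le o k ?_
    unfold PF at hP
    rw [C.H.zero_left] at hP
    linear_combination hP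
  · obtain ⟨a, rfl⟩ := (C.hr.mem_Xs h3 hkl).1 hx
    exact C.y_le o h3 hkl a

include H in
/-- generation in odd dimension -/
theorem gen_odd (o : l) (one : ∀ w : W, ∃ a : F, w = a • w0) (hP : PF τ h0 w0 c0) (top : gp (HX (PF τ h0) yG zG) (fun _ _ => True) = ⊤) :
    σ.range ⊔ zpowers (S o) ⊔ zpowers (zG (Sum.inl o) w0 c0) = ⊤ := by
  refine top_le_iff.1 (top.symm.le.trans (gp_le fun k l' hkl _ x hx => ?_))
  by_cases h3 : k = l'
  · subst h3
    obtain ⟨w, c, hPw, rfl⟩ := (C.hr.mem_Xl C.H).1 hx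
    exact C.zv_le H o one hP k hPw
  · obtain ⟨a, rfl⟩ := (C.hr.mem_Xs h3 hkl).1 hx
    exact mem_sup_left (C.y_le o h3 hkl a)

end CG

end cg

end Cfsg.Agent.GK.Un
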