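import Cfsg.Agent.GK.Un28

/-!
The additional torus element in rank two.
-/

set_option autoImplicit false
set_option linter.unusedSectionVars false
set_option linter.unusedVariables false
set_option linter.unusedSimpArgs false

namespace Cfsg.Agent.GK.Un

open Subgroup Cfsg.Agent.Stb Cfsg.Agent.ClBN Cfsg.Agent.Uni
open scoped commutatorElement

attribute [local instance] Stb.sumNeg

universe v

section conc
variable {F : Type v} [Field F] [Fintype F] {q : ℕ}

/-- the diagonal entries -/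
noncomputable def dU (hF : Fintype.card F = q ^ 2) (ζ : Fˣ) (i : Ix 2 Unit) : Fˣ :=
  Sum.elim (fun p => if p = Sum.inl 1 then ζ else if p = Sum.inr 1 then (Units.map ((conjHom hF : F →+* F) : F →* F) ζ)⁻¹ else 1)
    (fun _ => Units.map ((conjHom hF : F →+* F) : F →* F) ζ * ζ⁻¹) i

/-- the diagonal matrix -/
noncomputable def kU (hF : Fintype.card F = q ^ 2) (ζ : Fˣ) : GL (Ix 2 Unit) F where
  val := Matrix.diagonal fun i => (dU hF ζ i : F)
  inv := Matrix.diagonal fun i => (((dU hF ζ i)⁻¹ : Fˣ) : F)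
  val_inv := by simp
  inv_val := by simp

theorem kU_ac (hF : Fintype.card F = q ^ 2) (ζ : Fˣ) (u : Ix 2 Unit → F) (i : Ix 2 Unit) : PolD.ac (kU hF ζ) u i = (dU hF ζ i : F) * u i := by
  change (Matrix.diagonal fun i => (dU hF ζ i : F)).mulVec u i = _
  rw [Matrix.mulVec_diagonal]

theorem dU_in (hF : Fintype.card F = q ^ 2) (ζ : Fˣ) (p : Fin 2 ⊕ Fin 2) : (dU hF ζ (Sum.inl p) : F) =
    if p = Sum.inl 1 then (ζ : F) else if p = Sum.inr 1 then (conjHom hF (ζ : F))⁻¹ else 1 := by
  unfold dU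
  rw [Sum.elim_inl]
  split_ifs
  · rfl
  · rw [Units.val_inv_eq_inv_val]; rfl
  · rfl

theorem dU_out (hF : Fintype.card F = q ^ 2) (ζ : Fˣ) (z : Unit) : (dU hF ζ (Sum.inr z) : F) = conjHom hF (ζ : F) * (ζ : F)⁻¹ := by
  unfold dU
  rw [Sum.elim_inr, Units.val_mul, Units.val_inv_eq_inv_val]; rfl

theorem exists_kk (hF : Fintype.card F = q ^ 2) (ζ : Fˣ) : ∃ kk : ↥(G0U Unit 2 hF), KA (conjHom hF) (rhoC Unit 2 hF) ζ kk := by
  have ττ := conjHom_involutive hF
  have hζ := ζ.ne_zero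
  have htζ : conjHom hF (ζ : F) ≠ 0 := fun e => hζ (by rw [← ττ (ζ : F), e, map_zero])
  have hB : ∀ u w, (polU Unit hF).B (PolD.ac (kU hF ζ) u) (PolD.ac (kU hF ζ) w) = (polU Unit hF).B u w := by
    intro u w
    unfold PolD.B
    congr 1
    · refine Finset.sum_congr rfl fun p _ => ?_
      have hσ : ∀ x, (polU Unit hF).σ x = conjHom hF x := fun _ => rfl
      rw [kU_ac, kU_ac, hσ, hσ, map_mul]
      have key : (dU hF ζ (Sum.inl p) : F) * conjHom hF (dU hF ζ (Sum.inl (opp p)) : F) = 1 := by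
        rw [dU_in, dU_in]
        rcases p with p | p
        · by_cases hp : p = 1
          · subst hp
            rw [if_pos rfl, if_neg (show ¬ (opp (Sum.inl 1) : Fin 2 ⊕ Fin 2) = Sum.inl 1 from Sum.inr_ne_inl),
              if_pos (show (opp (Sum.inl 1) : Fin 2 ⊕ Fin 2) = Sum.inr 1 from rfl), map_inv₀, ττ, mul_inv_cancel₀ hζ]
          · rw [if_neg (fun e => hp (Sum.inl_injective e)), if_neg Sum.inl_ne_inr,
              if_neg (show ¬ (opp (Sum.inl p) : Fin 2 ⊕ Fin 2) = Sum.inl 1 from Sum.inr_ne_inl),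
              if_neg (show ¬ (opp (Sum.inl p) : Fin 2 ⊕ Fin 2) = Sum.inr 1 from fun e => hp (Sum.inr_injective e)), map_one, mul_one]
        · by_cases hp : p = 1
          · subst hp
            rw [if_neg Sum.inr_ne_inl, if_pos rfl, if_pos (show (opp (Sum.inr 1) : Fin 2 ⊕ Fin 2) = Sum.inl 1 from rfl), inv_mul_cancel₀ htζ]
          · rw [if_neg Sum.inr_ne_inl, if_neg (fun e => hp (Sum.inr_injective e)),
              if_neg (show ¬ (opp (Sum.inr p) : Fin 2 ⊕ Fin 2) = Sum.inl 1 from fun e => hp (Sum.inl_injective e)),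
              if_neg (show ¬ (opp (Sum.inr p) : Fin 2 ⊕ Fin 2) = Sum.inr 1 from Sum.inl_ne_inr), map_one, mul_one]
      linear_combination ((polU Unit hF).b p * u (Sum.inl p) * conjHom hF (w (Sum.inl (opp p)))) * key
    · change ∑ z : Unit, PolD.ac (kU hF ζ) u (Sum.inr z) * conjHom hF (PolD.ac (kU hF ζ) w (Sum.inr z)) = ∑ z : Unit, u (Sum.inr z) * conjHom hF (w (Sum.inr z))
      refine Finset.sum_congr rfl fun z _ => ?_
      rw [kU_ac, kU_ac, map_mul]
      have key : (dU hF ζ (Sum.inr z) : F) * conjHom hF (dU hF ζ (Sum.inr z) : F) = 1 := by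
        rw [dU_out, map_mul, map_inv₀, ττ]; field_simp
      linear_combination (u (Sum.inr z) * conjHom hF (w (Sum.inr z))) * key
  have hmem : kU hF ζ ∈ G0U Unit 2 hF := by
    refine Subgroup.mem_inf.2 ⟨⟨hB, fun u => ?_⟩, ?_⟩
    · rw [q_polU, q_polU]; exact hB u u
    · rw [MonoidHom.mem_ker]
      apply Units.ext
      have e1 : ((kU hF ζ : GL (Ix 2 Unit) F) : Matrix (Ix 2 Unit) (Ix 2 Unit) F) = Matrix.diagonal fun i => (dU hF ζ i : F) := rfl
      rw [Matrix.GeneralLinearGroup.val_det_apply, e1, Matrix.det_diagonal, Units.val_one, Fintype.prod_sum_type, Fintype.prod_sum_type, Fin.prod_univ_two, Fin.prod_univ_two, dU_in, dU_in, dU_in, dU_in,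
        Fintype.prod_unique, dU_out]
      rw [if_neg (by decide), if_neg (by decide), if_pos rfl, if_neg (by decide), if_neg (by decide), if_neg (by decide), if_pos rfl]
      field_simp
  refine ⟨⟨kU hF ζ, hmem⟩, ?_, ?_⟩
  · intro p
    change rhoU (kU hF ζ) _ = _
    rw [rhoU_apply]
    refine Prod.ext ?_ ?_
    · funext p'
      rw [phiU_fst, kU_ac, phiU_symm_inl, Prod.smul_fst, Pi.smul_apply, eh_fst, smul_eq_mul]
      by_cases h : p' = p
      · subst h
        rw [if_pos rfl, mul_one, mul_one, dU_in]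
      · rw [if_neg h, mul_zero, mul_zero]
    · funext z
      rw [phiU_snd, kU_ac, phiU_symm_inr, Prod.smul_snd, Pi.smul_apply, eh_snd, smul_eq_mul, Pi.zero_apply, mul_zero, mul_zero]
  · intro w
    change rhoU (kU hF ζ) _ = _
    rw [rhoU_apply]
    refine Prod.ext ?_ ?_
    · funext p'
      rw [phiU_fst, kU_ac, phiU_symm_inl, wh_fst, wh_fst, mul_zero]
    · funext z
      rw [phiU_snd, kU_ac, phiU_symm_inr, wh_snd, wh_snd, Pi.smul_apply, smul_eq_mul, dU_out]

end conc

end Cfsg.Agent.GK.Un
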