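import Cfsg.Agent.GK.Un2
import Cfsg.Agent.GK.Om2

/-!
Short root elements from a special linear group and flips.
-/

set_option autoImplicit false
set_option linter.unusedSectionVars false
set_option linter.unusedVariables false
set_option linter.unusedSimpArgs false

namespace Cfsg.Agent.GK.Un

open Subgroup Cfsg.Agent.Stb
open scoped commutatorElement

attribute [local instance] Stb.sumNeg

universe v

section ue
variable {F : Type v} [Field F] {l : Type*} [Fintype l] [DecidableEq l] {Γ : Type*} [Group Γ]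

/-- flips on the left index -/
def sp (S : l → Γ) : l ⊕ l → Γ := Sum.elim (fun _ => 1) S
/-- flips on the right index -/
def sq (S : l → Γ) : l ⊕ l → Γ := Sum.elim S (fun _ => 1)
/-- coefficients -/
def kp (ν : F) : l ⊕ l → F := Sum.elim (fun _ => 1) (fun _ => ν⁻¹)
/-- coefficients -/
def kq (ν : F) : l ⊕ l → F := Sum.elim (fun _ => ν) (fun _ => 1)

/-- the short root elements -/
def yu (ν : F) (ρ : Matrix.SpecialLinearGroup l F →* Γ) (S : l → Γ) (p q : l ⊕ l) (a : F) : Γ :=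
  (sp S p * sq S q) * Om.XX ρ (ab p) (ab q) (kp ν p * kq ν q * a) * (sp S p * sq S q)⁻¹

/-- the relations between the flips and the special linear group -/
structure UA (τ : F →+* F) (ν : F) (ρ : Matrix.SpecialLinearGroup l F →* Γ) (S : l → Γ) : Prop where
  T : Tau τ
  hν : τ ν = -ν
  ν0 : ν ≠ 0
  two : ∀ i : l, ∃ j, j ≠ i
  SS : ∀ i j, Commute (S i) (S j)
  SX : ∀ {k i j : l} (h : i ≠ j), k ≠ i → k ≠ j → ∀ a, Commute (S k) (ρ (tvl h a))
  r : ∀ {i j : l} (h : i ≠ j) (a : F), (S i * S j) * ρ (tvl h a) * (S i * S j)⁻¹ = ρ (tvl h.symm (-τ a))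
  sq : ∀ {i j : l} (h : i ≠ j) (a : F), (S i * S i) * ρ (tvl h a) * (S i * S i)⁻¹ = ρ (tvl h (-a))

/-- the relations between the flips and the special linear group -/
structure UE (τ : F →+* F) (ν : F) (ρ : Matrix.SpecialLinearGroup l F →* Γ) (S : l → Γ) : Prop extends UA τ ν ρ S where
  c0 : ∀ {i j : l} (h : i ≠ j) (a b : F), a * τ b = τ a * b → Commute (S j * ρ (tvl h (ν * a)) * (S j)⁻¹) (ρ (tvl h b))

variable {τ : F →+* F} {ν : F} {ρ : Matrix.SpecialLinearGroup l F →* Γ} {S : l → Γ}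

theorem xx_add {i j : l} (h : i ≠ j) (a b : F) : Om.XX ρ i j (a + b) = Om.XX ρ i j a * Om.XX ρ i j b := by
  rw [Om.XX_eq h, Om.XX_eq h, Om.XX_eq h, tvl_add, map_mul]

theorem kpq (ν0 : ν ≠ 0) (q : l ⊕ l) : kp ν (-q) * kq ν q = 1 := by
  rcases q with q | q
  · exact inv_mul_cancel₀ ν0
  · exact one_mul 1

theorem spn (q : l ⊕ l) : sp S (-q) = sq S q := by rcases q with q | q <;> rfl

theorem sqn (q : l ⊕ l) : sq S (-q) = sp S q := by rcases q with q | q <;> rfl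

/-- the square of the other flip -/
theorem UA.sq' (U : UA τ ν ρ S) {i j : l} (h : i ≠ j) (a : F) : (S j * S j) * ρ (tvl h a) * (S j * S j)⁻¹ = ρ (tvl h (-a)) := by
  have h1 := U.r h (-a)
  have h2 := U.r h.symm (-τ (-a))
  have h3 := U.sq h (-a)
  rw [neg_neg] at h3
  rw [← (U.SS i j).eq] at h2
  simp only [neg_neg, map_neg, U.T.ττ] at h1 h2
  have e : (S i * S j) * (S i * S j) = (S j * S j) * (S i * S i) := by
    calc (S i * S j) * (S i * S j) = (S i * S j) * (S j * S i) := by rw [(U.SS i j).eq]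
      _ = S i * (S j * S j) * S i := by group
      _ = _ := by rw [((U.SS i j).mul_right (U.SS i j)).eq]; group
  have e2 : (S j * S j) * ((S i * S i) * ρ (tvl h (-a)) * (S i * S i)⁻¹) * (S j * S j)⁻¹ = ρ (tvl h (-a)) := by
    calc _ = ((S j * S j) * (S i * S i)) * ρ (tvl h (-a)) * ((S j * S j) * (S i * S i))⁻¹ := by group
      _ = (S i * S j) * ((S i * S j) * ρ (tvl h (-a)) * (S i * S j)⁻¹) * (S i * S j)⁻¹ := by rw [← e]; group
      _ = _ := by rw [h1, h2]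
  rw [h3] at e2
  exact e2

namespace UE

variable (U : UE τ ν ρ S)
include U

theorem sp_comm (p q : l ⊕ l) : Commute (sp S p) (sp S q) := by
  rcases p with p | p <;> rcases q with q | q
  · exact Commute.one_left _
  · exact Commute.one_left _
  · exact Commute.one_right _
  · exact U.SS _ _

theorem spq_comm (p q : l ⊕ l) : Commute (sp S p) (Un.sq S q) := by rw [← spn]; exact U.sp_comm _ _
theorem sq_comm (p q : l ⊕ l) : Commute (Un.sq S p) (Un.sq S q) := by rw [← spn]; exact U.spq_comm _ _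

theorem spX {p : l ⊕ l} {i j : l} (h1 : ab p ≠ i) (h2 : ab p ≠ j) (a : F) : Commute (sp S p) (Om.XX ρ i j a) := by
  rcases p with p | p
  · exact Commute.one_left _
  · by_cases h : i ≠ j
    · rw [Om.XX_eq h]; exact U.SX h h1 h2 a
    · have : Om.XX ρ i j a = 1 := dif_neg h
      rw [this]; exact Commute.one_right _

theorem sqX {p : l ⊕ l} {i j : l} (h1 : ab p ≠ i) (h2 : ab p ≠ j) (a : F) : Commute (Un.sq S p) (Om.XX ρ i j a) := by
  rw [← spn]; exact U.spX (by rwa [ab_neg]) (by rwa [ab_neg]) a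

theorem yadd {p q : l ⊕ l} (h : ab p ≠ ab q) (a b : F) : yu ν ρ S p q (a + b) = yu ν ρ S p q a * yu ν ρ S p q b := by
  unfold yu
  rw [mul_add, xx_add h]; group

theorem conj_mul {g t x : Γ} (h : Commute t g) : t * (g * x * g⁻¹) * t⁻¹ = (g * t) * x * (g * t)⁻¹ := by
  rw [← h.eq]; group

theorem ysymm {p q : l ⊕ l} (h : ab p ≠ ab q) (a : F) : yu ν ρ S p q a = yu ν ρ S q p (-τ a) := by
  have n0 := U.ν0
  have nl := U.hν
  rcases p with i | i <;> rcases q with j | j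
  · change l at i j
    have h' : i ≠ j := h
    change (1 * S j) * Om.XX ρ i j (1 * ν * a) * (1 * S j)⁻¹ = (1 * S i) * Om.XX ρ j i (1 * ν * (-τ a)) * (1 * S i)⁻¹
    rw [Om.XX_eq h', Om.XX_eq h'.symm, one_mul, one_mul, one_mul]
    have h1 := U.r h' (-(ν * a))
    have h2 := U.sq h' (-(ν * a))
    rw [neg_neg] at h2
    have e : -τ (-(ν * a)) = ν * -τ a := by rw [map_neg, map_mul, nl]; ring
    rw [e] at h1
    rw [← h1, ← h2]
    have c : S j * (S i * S i) = S i * (S i * S j) := by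
      rw [((U.SS j i).mul_right (U.SS j i)).eq, mul_assoc]
    calc _ = (S j * (S i * S i)) * ρ (tvl h' (-(ν * a))) * (S j * (S i * S i))⁻¹ := by group
      _ = _ := by rw [c]; group
  · change l at i j
    have h' : i ≠ j := h
    change (1 * 1) * Om.XX ρ i j (1 * 1 * a) * (1 * 1)⁻¹ = (S j * S i) * Om.XX ρ j i (ν⁻¹ * ν * (-τ a)) * (S j * S i)⁻¹
    rw [Om.XX_eq h', Om.XX_eq h'.symm, inv_mul_cancel₀ n0, U.r h'.symm, map_mul, map_one, map_neg, U.T.ττ]
    simp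
  · change l at i j
    have h' : i ≠ j := h
    change (S i * S j) * Om.XX ρ i j (ν⁻¹ * ν * a) * (S i * S j)⁻¹ = (1 * 1) * Om.XX ρ j i (1 * 1 * (-τ a)) * (1 * 1)⁻¹
    rw [Om.XX_eq h', Om.XX_eq h'.symm, inv_mul_cancel₀ n0, U.r h']
    simp
  · change l at i j
    have h' : i ≠ j := h
    change (S i * 1) * Om.XX ρ i j (ν⁻¹ * 1 * a) * (S i * 1)⁻¹ = (S j * 1) * Om.XX ρ j i (ν⁻¹ * 1 * (-τ a)) * (S j * 1)⁻¹
    rw [Om.XX_eq h', Om.XX_eq h'.symm, mul_one, mul_one, mul_one]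
    have h1 := U.r h' (-(ν⁻¹ * a))
    have h2 := U.toUA.sq' h' (-(ν⁻¹ * a))
    rw [neg_neg] at h2
    have e : -τ (-(ν⁻¹ * a)) = ν⁻¹ * -τ a := by rw [map_neg, map_mul, map_inv₀, nl]; field_simp
    rw [e] at h1
    rw [← h1, ← h2]
    have c : S i * (S j * S j) = S j * (S i * S j) := by
      rw [← mul_assoc, (U.SS i j).eq, mul_assoc, (U.SS i j).eq]
    calc _ = (S i * (S j * S j)) * ρ (tvl h' (-(ν⁻¹ * a))) * (S i * (S j * S j))⁻¹ := by group
      _ = _ := by rw [c]; group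

theorem P_eq {p q : l ⊕ l} (g : Γ) (hg : Commute g (sp S p * Un.sq S q)) (a : F)
    (hx : Commute g (Om.XX ρ (ab p) (ab q) (kp ν p * kq ν q * a))) :
    yu ν ρ S p q a = (g * (sp S p * Un.sq S q)) * Om.XX ρ (ab p) (ab q) (kp ν p * kq ν q * a) * (g * (sp S p * Un.sq S q))⁻¹ := by
  unfold yu
  apply Om.conj_eq_of_commute
  have e : (g * (sp S p * Un.sq S q))⁻¹ * (sp S p * Un.sq S q) = g⁻¹ := by
    rw [hg.eq]; group
  rw [e]
  exact hx.inv_left

theorem yc1 {p q r : l ⊕ l} (hpq : ab p ≠ ab q) (hqr : ab q ≠ ab r) (hpr : ab p ≠ ab r) (a b : F) :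
    ⁅yu ν ρ S p q a, yu ν ρ S (-q) r b⁆ = yu ν ρ S p r (a * b) := by
  have c1 := U.sp_comm
  have c2 := U.sq_comm
  have c3 := U.spq_comm
  rw [U.P_eq (p := p) (q := q) (Un.sq S r) ((c3 p r).symm.mul_right (c2 r q)) a (U.sqX hpr.symm hqr.symm _),
    U.P_eq (p := -q) (q := r) (sp S p) ((c1 p (-q)).mul_right (c3 p r)) b (U.spX (by rwa [ab_neg]) hpr _),
    U.P_eq (p := p) (q := r) (Un.sq S q) ((c3 p q).symm.mul_right (c2 q r)) (a * b) (U.sqX hpq.symm hqr _), spn]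
  have e1 : sp S p * (Un.sq S q * Un.sq S r) = Un.sq S r * (sp S p * Un.sq S q) := by
    rw [← mul_assoc, (((c3 p r).mul_left (c2 q r)).eq)]
  have e2 : Un.sq S q * (sp S p * Un.sq S r) = Un.sq S r * (sp S p * Un.sq S q) := by
    rw [← e1, ← mul_assoc, ← mul_assoc, (c3 p q).eq]
  rw [e1, e2, ← conj_com, ab_neg, Om.XX_eq hpq, Om.XX_eq hqr, Om.XX_eq hpr, ← map_commutatorElement, tvl_com hpq hqr hpr]
  congr 4
  have := kpq U.ν0 q
  linear_combination (kp ν p * kq ν r * a * b) * this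

theorem ysame {p q : l ⊕ l} (h : ab p ≠ ab q) (a b : F) : Commute (yu ν ρ S p q a) (yu ν ρ S p q b) := by
  change _ * _ = _ * _
  rw [← U.yadd h, add_comm, U.yadd h]

/-- disjoint or partially disjoint indices -/
theorem yc4a {p q r s : l ⊕ l} (hpq : ab p ≠ ab q) (hrs : ab r ≠ ab s) (h1 : ab p ≠ ab r) (h2 : ab p ≠ ab s) (h3 : ab q ≠ ab r)
    (h4 : ab q ≠ ab s) (a b : F) : Commute (yu ν ρ S p q a) (yu ν ρ S r s b) := by
  have c1 := U.sp_comm
  have c2 := U.sq_comm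
  have c3 := U.spq_comm
  rw [U.P_eq (p := p) (q := q) (sp S r * Un.sq S s) (((c1 r p).mul_right (c3 r q)).mul_left ((c3 p s).symm.mul_right (c2 s q))) a
      ((U.spX h1.symm h3.symm _).mul_left (U.sqX h2.symm h4.symm _)),
    U.P_eq (p := r) (q := s) (sp S p * Un.sq S q) (((c1 p r).mul_right (c3 p s)).mul_left ((c3 r q).symm.mul_right (c2 q s))) b
      ((U.spX h1 h2 _).mul_left (U.sqX h3 h4 _))]
  have e1 : sp S p * Un.sq S q * (sp S r * Un.sq S s) = sp S r * Un.sq S s * (sp S p * Un.sq S q) :=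
    (((c1 p r).mul_right (c3 p s)).mul_left ((c3 r q).symm.mul_right (c2 q s))).eq
  rw [e1, Om.XX_eq hpq, Om.XX_eq hrs, Commute.conj_iff]
  exact (tv_comm hpq hrs h3 h2 _ _ : Commute _ _).map ρ

/-- common first index -/
theorem yc4b {p q s : l ⊕ l} (hpq : ab p ≠ ab q) (hps : ab p ≠ ab s) (hqs : ab q ≠ ab s) (a b : F) :
    Commute (yu ν ρ S p q a) (yu ν ρ S p s b) := by
  have c1 := U.sp_comm
  have c2 := U.sq_comm
  have c3 := U.spq_comm
  rw [U.P_eq (p := p) (q := q) (Un.sq S s) ((c3 p s).symm.mul_right (c2 s q)) a (U.sqX hps.symm hqs.symm _),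
    U.P_eq (p := p) (q := s) (Un.sq S q) ((c3 p q).symm.mul_right (c2 q s)) b (U.sqX hpq.symm hqs _)]
  have e1 : Un.sq S q * (sp S p * Un.sq S s) = Un.sq S s * (sp S p * Un.sq S q) := by
    rw [← mul_assoc, ← (c3 p q).eq, mul_assoc, (c2 q s).eq, ← mul_assoc, (c3 p s).eq, mul_assoc]
  rw [e1, Om.XX_eq hpq, Om.XX_eq hps, Commute.conj_iff]
  exact (tv_comm hpq hps hpq.symm hps _ _ : Commute _ _).map ρ

/-- common second index -/
theorem yc4c {p q r : l ⊕ l} (hpq : ab p ≠ ab q) (hrq : ab r ≠ ab q) (hpr : ab p ≠ ab r) (a b : F) :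
    Commute (yu ν ρ S p q a) (yu ν ρ S r q b) := by
  have c1 := U.sp_comm
  have c2 := U.sq_comm
  have c3 := U.spq_comm
  rw [U.P_eq (p := p) (q := q) (sp S r) ((c1 r p).mul_right (c3 r q)) a (U.spX hpr.symm hrq _),
    U.P_eq (p := r) (q := q) (sp S p) ((c1 p r).mul_right (c3 p q)) b (U.spX hpr hpq _)]
  have e1 : sp S r * (sp S p * Un.sq S q) = sp S p * (sp S r * Un.sq S q) := by
    rw [← mul_assoc, (c1 r p).eq, mul_assoc]
  rw [e1, Om.XX_eq hpq, Om.XX_eq hrq, Commute.conj_iff]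
  exact (tv_comm hpq hrq hrq.symm hpq _ _ : Commute _ _).map ρ

theorem yc4 {p q r s : l ⊕ l} (h1 : ab p ≠ ab q) (h2 : ab r ≠ ab s) (h3 : r ≠ -p) (h4 : r ≠ -q) (h5 : s ≠ -p) (h6 : s ≠ -q)
    (a b : F) : Commute (yu ν ρ S p q a) (yu ν ρ S r s b) := by
  by_cases e1 : r = p
  · subst e1
    by_cases e2 : s = q
    · subst e2; exact U.ysame h1 a b
    · exact U.yc4b h1 h2 (ab_ne e2 h6).symm a b
  by_cases e2 : r = q
  · subst e2
    rw [U.ysymm h1]
    by_cases e3 : s = p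
    · subst e3; exact U.ysame h1.symm _ b
    · exact U.yc4b h1.symm h2 (ab_ne e3 h5).symm _ b
  by_cases e3 : s = p
  · subst e3
    rw [U.ysymm h2]
    exact U.yc4b h1 h2.symm (ab_ne e2 h4).symm a _
  by_cases e4 : s = q
  · subst e4
    exact U.yc4c h1 h2 (ab_ne e1 h3).symm a b
  exact U.yc4a h1 h2 (ab_ne e1 h3).symm (ab_ne e3 h5).symm (ab_ne e2 h4).symm (ab_ne e4 h6).symm a b

theorem yc0 {p q : l ⊕ l} (hpq : ab p ≠ ab q) (a b : F) (h : a * b = τ (a * b)) :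
    Commute (yu ν ρ S p q a) (yu ν ρ S (-q) p b) := by
  have hκ : kp ν p * τ (kp ν p) = τ (kp ν p * τ (kp ν p)) := by
    rw [map_mul, U.T.ττ, mul_comm]
  rw [U.ysymm (p := -q) (q := p) (by rw [ab_neg]; exact hpq.symm)]
  unfold yu
  have key : ∀ (g : Γ) (x : Γ), (sp S p * g) * x * (sp S p * g)⁻¹ = sp S p * (g * x * g⁻¹) * (sp S p)⁻¹ := by
    intro g x; group
  rw [key, key, Commute.conj_iff, ab_neg]
  rcases q with j | j
  · change Commute (S j * Om.XX ρ (ab p) (ab (Sum.inl j)) (kp ν p * ν * a) * (S j)⁻¹)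
      (1 * Om.XX ρ (ab p) (ab (Sum.inl j)) (kp ν p * 1 * -τ b) * 1⁻¹)
    rw [Om.XX_eq hpq, Om.XX_eq hpq, inv_one, one_mul, mul_one, mul_one]
    have e : kp ν p * ν * a = ν * (kp ν p * a) := by ring
    rw [e]
    refine U.c0 hpq _ _ ?_
    rw [map_mul, map_mul, map_neg, U.T.ττ]
    rw [map_mul] at h
    linear_combination (-kp ν p * τ (kp ν p)) * h
  · change Commute (1 * Om.XX ρ (ab p) (ab (Sum.inr j)) (kp ν p * 1 * a) * 1⁻¹)
      (S j * Om.XX ρ (ab p) (ab (Sum.inr j)) (kp ν p * ν * -τ b) * (S j)⁻¹)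
    rw [Om.XX_eq hpq, Om.XX_eq hpq, inv_one, one_mul, mul_one, mul_one]
    have e : kp ν p * ν * -τ b = ν * (kp ν p * -τ b) := by ring
    rw [e]
    refine (U.c0 hpq _ _ ?_).symm
    rw [map_mul, map_mul, map_neg, U.T.ττ]
    rw [map_mul] at h
    linear_combination (kp ν p * τ (kp ν p)) * h

/-- all relations between short root elements -/
theorem y0 : Y0 τ (yu ν ρ S) where
  T := U.T
  ne := neg_ne_self
  two p := by
    obtain ⟨j, hj⟩ := U.two (ab p)
    refine ⟨Sum.inl j, fun e => hj ?_, fun e => hj ?_⟩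
    · rw [← e]; rfl
    · rw [← ab_neg p, ← e]; rfl
  symm h h' a := U.ysymm (ab_ne h h') a
  add h h' a b := U.yadd (ab_ne h h') a b
  c0 h h' a b e := commutatorElement_eq_one_iff_commute.2 (U.yc0 (ab_ne h h') a b e)
  c1 h1 h2 h3 h4 h5 h6 a b := U.yc1 (ab_ne h1 h2) (ab_ne h3 h4) (ab_ne h5 h6) a b
  c4 h1 h2 h3 h4 h5 h6 h7 h8 a b := commutatorElement_eq_one_iff_commute.2 (U.yc4 (ab_ne h1 h2) (ab_ne h3 h4) h5 h6 h7 h8 a b)

end UE
end ue

end Cfsg.Agent.GK.Un
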