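import Cfsg.Agent.GK.Un3
import Cfsg.Agent.GK.SpD
import Cfsg.Agent.GK.Om4

/-!
The torus part of the flips.
-/

set_option autoImplicit false
set_option linter.unusedSectionVars false
set_option linter.unusedVariables false
set_option linter.unusedSimpArgs false

namespace Cfsg.Agent.GK.Un

open Subgroup Cfsg.Agent.Stb
open scoped commutatorElement

attribute [local instance] Stb.sumNeg

universe v

section tau
variable {F : Type v} [Field F] {τ : F →+* F}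

/-- Hilbert 90 -/
theorem Tau.h90 (T : Tau τ) {c : F} (hc : c * τ c = 1) : ∃ d : F, d ≠ 0 ∧ d = c * τ d := by
  by_cases h : c = -1
  · subst h
    obtain ⟨θ, hθ⟩ := T.nid
    refine ⟨θ - τ θ, fun e => hθ (sub_eq_zero.1 e).symm, ?_⟩
    rw [map_sub, T.ττ]; ring
  · refine ⟨1 + c, fun e => h (by linear_combination e), ?_⟩
    rw [map_add, map_one]; linear_combination -hc

/-- differences of squares -/
theorem Tau.sqs [Finite F] (T : Tau τ) {r : F} (hr : τ r = r) : ∃ x y, τ x = x ∧ τ y = y ∧ r = x ^ 2 - y ^ 2 := by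
  by_cases h2 : (2 : F) = 0
  · have : CharP F 2 := by
      have := CharTwo.of_one_ne_zero_of_two_eq_zero (R := F) one_ne_zero h2
      exact this
    obtain ⟨x, hx⟩ := FiniteField.isSquare_of_char_two (F := F) (ringChar.eq F 2).symm.symm r
    refine ⟨x, 0, ?_, map_zero τ, by rw [hx]; ring⟩
    have h1 : (τ x - x) ^ 2 = 0 := by
      have h3 : τ x * τ x = x * x := by rw [← map_mul, ← hx, hr]
      linear_combination h3 - (τ x * x - x ^ 2) * h2
    exact sub_eq_zero.1 (pow_eq_zero_iff two_ne_zero |>.1 h1)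
  · have h3 : τ (2 : F) = 2 := map_ofNat τ 2
    refine ⟨(r + 1) / 2, (r - 1) / 2, ?_, ?_, ?_⟩
    · rw [map_div₀, map_add, hr, map_one, h3]
    · rw [map_div₀, map_sub, hr, map_one, h3]
    · field_simp; ring

/-- sign change on `SL₂` -/
def sgn : Matrix.SpecialLinearGroup (Fin 2) F →* Matrix.SpecialLinearGroup (Fin 2) F :=
  MonoidHom.mk' (fun A => ⟨!![A.1 0 0, -A.1 0 1; -A.1 1 0, A.1 1 1], by
    have := A.2
    rw [Matrix.det_fin_two] at this
    rw [Matrix.det_fin_two_of, neg_mul_neg]; exact this⟩) (by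
    intro A B
    apply slext
    refine Eq.trans ?_ (Matrix.SpecialLinearGroup.coe_mul _ _).symm
    change !![(A.1 * B.1) 0 0, -(A.1 * B.1) 0 1; -(A.1 * B.1) 1 0, (A.1 * B.1) 1 1] =
      !![A.1 0 0, -A.1 0 1; -A.1 1 0, A.1 1 1] * !![B.1 0 0, -B.1 0 1; -B.1 1 0, B.1 1 1]
    rw [Matrix.mul_fin_two]
    simp only [Matrix.mul_apply, Fin.sum_univ_two]
    ext i j
    fin_cases i <;> fin_cases j <;> simp <;> ring)

theorem sgn_xm (a : F) : sgn (xm a) = xm (-a) := by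
  apply slext
  change !![(1 : F), -a; -0, 1] = !![1, -a; 0, 1]
  rw [neg_zero]

theorem sgn_ym (a : F) : sgn (ym a) = ym (-a) := by
  apply slext
  change !![(1 : F), -0; -a, 1] = !![1, 0; -a, 1]
  rw [neg_zero]

theorem sgn_hm (a : Fˣ) : sgn (hm a) = hm a := by
  apply slext
  change !![(a : F), -0; -0, ((a⁻¹ : Fˣ) : F)] = !![(a : F), 0; 0, ((a⁻¹ : Fˣ) : F)]
  rw [neg_zero]

variable (τ) in
/-- inverse transpose conjugate -/
def itc : Matrix.SpecialLinearGroup (Fin 2) F →* Matrix.SpecialLinearGroup (Fin 2) F :=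
  (MulAut.conj (tm : Matrix.SpecialLinearGroup (Fin 2) F)).toMonoidHom.comp (Matrix.SpecialLinearGroup.map τ)

theorem itc_xm (a : F) : itc τ (xm a) = ym (-τ a) := by
  have : (Matrix.SpecialLinearGroup.map τ) (xm a) = xm (τ a) := by
    apply slext
    rw [Matrix.SpecialLinearGroup.map_apply_coe, RingHom.mapMatrix_apply, xm_coe, xm_coe]
    ext i j
    fin_cases i <;> fin_cases j <;> simp
  change tm * (Matrix.SpecialLinearGroup.map τ) (xm a) * tm⁻¹ = _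
  rw [this, tm_xm_ym]

theorem itc_ym (a : F) : itc τ (ym a) = xm (-τ a) := by
  have : (Matrix.SpecialLinearGroup.map τ) (ym a) = ym (τ a) := by
    apply slext
    rw [Matrix.SpecialLinearGroup.map_apply_coe, RingHom.mapMatrix_apply, ym_coe, ym_coe]
    ext i j
    fin_cases i <;> fin_cases j <;> simp
  change tm * (Matrix.SpecialLinearGroup.map τ) (ym a) * tm⁻¹ = _
  rw [this, tm_ym_xm]

theorem itc_hm (a : Fˣ) : itc τ (hm a) = hm (Units.map τ a)⁻¹ := by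
  have : (Matrix.SpecialLinearGroup.map τ) (hm a) = hm (Units.map τ a) := by
    apply slext
    rw [Matrix.SpecialLinearGroup.map_apply_coe, RingHom.mapMatrix_apply, hm_coe, hm_coe]
    ext i j
    fin_cases i <;> fin_cases j <;> simp
  change tm * (Matrix.SpecialLinearGroup.map τ) (hm a) * tm⁻¹ = _
  rw [this]
  apply slext
  rw [Matrix.SpecialLinearGroup.coe_mul, Matrix.SpecialLinearGroup.coe_mul, Matrix.SpecialLinearGroup.coe_inv, hm_coe, hm_coe, tm_coe,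
    Matrix.adjugate_fin_two_of, Matrix.mul_fin_two, Matrix.mul_fin_two]
  simp

end tau


section ua
variable {F : Type v} [Field F] {l : Type*} [Fintype l] [DecidableEq l] {Γ : Type*} [Group Γ]
variable {τ : F →+* F} {ν : F} {ρ : Matrix.SpecialLinearGroup l F →* Γ} {S : l → Γ}

variable (τ) in
/-- the norm -/
def nn (c : Fˣ) : Fˣ := c * Units.map τ c

theorem nn_coe (c : Fˣ) : ((nn τ c : Fˣ) : F) = (c : F) * τ c := rfl

theorem nn_mul (c d : Fˣ) : nn τ (c * d) = nn τ c * nn τ d := by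
  unfold nn; rw [map_mul]; exact mul_mul_mul_comm _ _ _ _

theorem nn_inv (c : Fˣ) : nn τ c⁻¹ = (nn τ c)⁻¹ := by
  unfold nn; rw [map_inv, mul_inv]

variable (ρ S) in
/-- the torus elements of the flips -/
noncomputable def HH {i j : l} (h : i ≠ j) (c : Fˣ) : Γ := S i * ρ (emb2 h (hm c)) * (S i)⁻¹ * (ρ (emb2 h (hm c)))⁻¹

namespace UA
variable (U : UA τ ν ρ S)
include U

theorem rE {i j : l} (h : i ≠ j) (A : Matrix.SpecialLinearGroup (Fin 2) F) :
    (S i * S j) * ρ (emb2 h A) * (S i * S j)⁻¹ = ρ (emb2 h (itc τ A)) := by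
  have : (MulAut.conj (S i * S j)).toMonoidHom.comp (ρ.comp (emb2 h)) = (ρ.comp (emb2 h)).comp (itc τ) := by
    apply hom2_ext
    · intro a
      change (S i * S j) * ρ (emb2 h (xm a)) * (S i * S j)⁻¹ = ρ (emb2 h (itc τ (xm a)))
      rw [itc_xm, emb2_xm, emb2_ym, U.r h]
    · intro a
      change (S i * S j) * ρ (emb2 h (ym a)) * (S i * S j)⁻¹ = ρ (emb2 h (itc τ (ym a)))
      rw [itc_ym, emb2_xm, emb2_ym, (U.SS i j).eq, U.r h.symm]
  exact DFunLike.congr_fun this A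

theorem sqE {i j : l} (h : i ≠ j) (A : Matrix.SpecialLinearGroup (Fin 2) F) :
    (S i * S i) * ρ (emb2 h A) * (S i * S i)⁻¹ = ρ (emb2 h (sgn A)) := by
  have : (MulAut.conj (S i * S i)).toMonoidHom.comp (ρ.comp (emb2 h)) = (ρ.comp (emb2 h)).comp sgn := by
    apply hom2_ext
    · intro a
      change (S i * S i) * ρ (emb2 h (xm a)) * (S i * S i)⁻¹ = ρ (emb2 h (sgn (xm a)))
      rw [sgn_xm, emb2_xm, emb2_xm, U.sq h]
    · intro a
      change (S i * S i) * ρ (emb2 h (ym a)) * (S i * S i)⁻¹ = ρ (emb2 h (sgn (ym a)))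
      rw [sgn_ym, emb2_ym, emb2_ym, U.sq' h.symm]
  exact DFunLike.congr_fun this A

theorem sqE' {i j : l} (h : i ≠ j) (A : Matrix.SpecialLinearGroup (Fin 2) F) :
    (S j * S j) * ρ (emb2 h A) * (S j * S j)⁻¹ = ρ (emb2 h (sgn A)) := by
  have : (MulAut.conj (S j * S j)).toMonoidHom.comp (ρ.comp (emb2 h)) = (ρ.comp (emb2 h)).comp sgn := by
    apply hom2_ext
    · intro a
      change (S j * S j) * ρ (emb2 h (xm a)) * (S j * S j)⁻¹ = ρ (emb2 h (sgn (xm a)))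
      rw [sgn_xm, emb2_xm, emb2_xm, U.sq' h]
    · intro a
      change (S j * S j) * ρ (emb2 h (ym a)) * (S j * S j)⁻¹ = ρ (emb2 h (sgn (ym a)))
      rw [sgn_ym, emb2_ym, emb2_ym, U.sq h.symm]
  exact DFunLike.congr_fun this A

theorem sqD {i j : l} (h : i ≠ j) (c : Fˣ) : Commute (S i * S i) (ρ (emb2 h (hm c))) := by
  have := U.sqE h (hm c)
  rw [sgn_hm] at this
  exact mul_inv_eq_iff_eq_mul.1 this

theorem sqD' {i j : l} (h : i ≠ j) (c : Fˣ) : Commute (S j * S j) (ρ (emb2 h (hm c))) := by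
  have := U.sqE' h (hm c)
  rw [sgn_hm] at this
  exact mul_inv_eq_iff_eq_mul.1 this

theorem rD {i j : l} (h : i ≠ j) (c : Fˣ) : (S i * S j) * ρ (emb2 h (hm c)) * (S i * S j)⁻¹ = ρ (emb2 h (hm (Units.map τ c)⁻¹)) := by
  rw [U.rE, itc_hm]

/-- `S` inverts the torus element of the flip -/
theorem hinv {i j : l} (h : i ≠ j) (c : Fˣ) : S i * HH ρ S h c * (S i)⁻¹ = (HH ρ S h c)⁻¹ := by
  have h1 := (U.sqD h c).eq
  unfold HH
  set D := ρ (emb2 h (hm c))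
  calc S i * (S i * D * (S i)⁻¹ * D⁻¹) * (S i)⁻¹ = (S i * S i) * D * (S i)⁻¹ * D⁻¹ * (S i)⁻¹ := by group
    _ = _ := by rw [h1]; group

theorem hinv' {i j : l} (h : i ≠ j) (c : Fˣ) : (S i)⁻¹ * HH ρ S h c * S i = (HH ρ S h c)⁻¹ := by
  have := U.hinv h c
  have h2 : HH ρ S h c = (S i)⁻¹ * (HH ρ S h c)⁻¹ * S i := by rw [← this]; group
  calc (S i)⁻¹ * HH ρ S h c * S i = ((S i)⁻¹ * (HH ρ S h c)⁻¹ * S i)⁻¹ := by group
    _ = _ := by rw [← h2]

theorem conjD {i j : l} (h : i ≠ j) (c : Fˣ) : S i * ρ (emb2 h (hm c)) * (S i)⁻¹ = HH ρ S h c * ρ (emb2 h (hm c)) := by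
  unfold HH; group

end UA

theorem emb2_symm_hm {i j : l} (h : i ≠ j) (c : Fˣ) : (emb2 h.symm (hm c) : Matrix.SpecialLinearGroup l F) = emb2 h (hm c⁻¹) := by
  have key : ∀ A, (emb2 h.symm A : Matrix.SpecialLinearGroup l F) = emb2 h ((MulAut.conj tm).toMonoidHom (sgn A)) := by
    intro A
    have : (emb2 h.symm : Matrix.SpecialLinearGroup (Fin 2) F →* Matrix.SpecialLinearGroup l F) =
        (emb2 h).comp ((MulAut.conj tm).toMonoidHom.comp sgn) := by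
      apply hom2_ext
      · intro a
        change _ = emb2 h (tm * sgn (xm a) * tm⁻¹)
        rw [sgn_xm, tm_xm_ym, neg_neg, emb2_xm, emb2_ym]
      · intro a
        change _ = emb2 h (tm * sgn (ym a) * tm⁻¹)
        rw [sgn_ym, tm_ym_xm, neg_neg, emb2_xm, emb2_ym]
    rw [this]; rfl
  rw [key, sgn_hm]
  congr 1
  change tm * hm c * tm⁻¹ = _
  apply slext
  rw [Matrix.SpecialLinearGroup.coe_mul, Matrix.SpecialLinearGroup.coe_mul, Matrix.SpecialLinearGroup.coe_inv, hm_coe, hm_coe, tm_coe,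
    Matrix.adjugate_fin_two_of, Matrix.mul_fin_two, Matrix.mul_fin_two]
  simp

/-- the relation between two torus elements -/
theorem UA.hrel (U : UA τ ν ρ S) {i j : l} (h : i ≠ j) {c : Fˣ} (hS : Commute (S i) (HH ρ S h.symm c⁻¹)) : HH ρ S h.symm c⁻¹ * HH ρ S h c = ρ (emb2 h (hm (nn τ c)⁻¹)) := by
  have h1 := U.rD h c
  have h2 := U.conjD h.symm c⁻¹
  rw [emb2_symm_hm h, inv_inv] at h2
  have h3 := U.conjD h c
  have h4 := hS.eq
  have h5 : (S i * S j) * ρ (emb2 h (hm c)) * (S i * S j)⁻¹ = S i * (S j * ρ (emb2 h (hm c)) * (S j)⁻¹) * (S i)⁻¹ := by group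
  have h6 : (nn τ c)⁻¹ = (Units.map τ c)⁻¹ * c⁻¹ := by rw [nn, mul_inv, mul_comm]
  rw [h5, h2] at h1
  have h7 : S i * (HH ρ S h.symm c⁻¹ * ρ (emb2 h (hm c))) * (S i)⁻¹ = HH ρ S h.symm c⁻¹ * HH ρ S h c * ρ (emb2 h (hm c)) := by
    calc _ = (S i * HH ρ S h.symm c⁻¹) * ρ (emb2 h (hm c)) * (S i)⁻¹ := by group
      _ = HH ρ S h.symm c⁻¹ * (S i * ρ (emb2 h (hm c)) * (S i)⁻¹) := by rw [h4]; group
      _ = _ := by rw [h3]; group
  rw [h7] at h1
  rw [h6, hm_mul, map_mul, map_mul, ← h1, ← hm_inv, map_inv, map_inv]; group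

/-- the torus relations -/
structure UH (τ : F →+* F) (ν : F) (ρ : Matrix.SpecialLinearGroup l F →* Γ) (S : l → Γ) : Prop extends UA τ ν ρ S where
  hD : ∀ {i j : l} (h : i ≠ j) (c c' : Fˣ), Commute (HH ρ S h c) (ρ (emb2 h (hm c')))
  hS : ∀ {i j : l} (h : i ≠ j) (c : Fˣ), Commute (S j) (HH ρ S h c)
  hi : ∀ {i j k : l} (h : i ≠ j) (h' : i ≠ k) (c : Fˣ), HH ρ S h c = HH ρ S h' c
  hX : ∀ {i j : l} (h : i ≠ j) (c : Fˣ) (a : F), HH ρ S h c * ρ (tvl h a) * (HH ρ S h c)⁻¹ = ρ (tvl h (((nn τ c)⁻¹ : Fˣ) * a))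
  hX' : ∀ {i j : l} (h : i ≠ j) (c : Fˣ) (a : F), HH ρ S h c * ρ (tvl h.symm a) * (HH ρ S h c)⁻¹ = ρ (tvl h.symm ((nn τ c : Fˣ) * a))

namespace UH
variable (U : UH τ ν ρ S)
include U

theorem hmul {i j : l} (h : i ≠ j) (c d : Fˣ) : HH ρ S h (c * d) = HH ρ S h c * HH ρ S h d := by
  have h1 := U.hD h d c
  have e1 : S i * ρ (emb2 h (hm d)) * (S i)⁻¹ = HH ρ S h d * ρ (emb2 h (hm d)) := U.conjD h d
  have e2 : S i * ρ (emb2 h (hm c)) * (S i)⁻¹ = HH ρ S h c * ρ (emb2 h (hm c)) := U.conjD h c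
  calc HH ρ S h (c * d) = (S i * ρ (emb2 h (hm c)) * (S i)⁻¹) * (S i * ρ (emb2 h (hm d)) * (S i)⁻¹) *
        (ρ (emb2 h (hm c)) * ρ (emb2 h (hm d)))⁻¹ := by
        unfold HH; rw [hm_mul, map_mul, map_mul]; group
    _ = HH ρ S h c * (ρ (emb2 h (hm c)) * HH ρ S h d) * (ρ (emb2 h (hm c)))⁻¹ := by rw [e1, e2]; group
    _ = _ := by rw [← h1.eq]; group

/-- the relation between two torus elements -/
theorem hrel {i j : l} (h : i ≠ j) (c : Fˣ) : HH ρ S h.symm c⁻¹ * HH ρ S h c = ρ (emb2 h (hm (nn τ c)⁻¹)) :=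
  U.toUA.hrel h (U.hS h.symm c⁻¹)

/-- norm one elements act trivially -/
theorem h_one {i j : l} (h : i ≠ j) {c : Fˣ} (hc : nn τ c = 1) : HH ρ S h c = 1 := by
  have key : ∀ d : Fˣ, HH ρ S h (d * (Units.map τ d)⁻¹) = 1 := by
    intro d
    have h1 := U.hrel h d
    have h2 := (U.hS h.symm d⁻¹).eq
    have h3 : HH ρ S h d = (HH ρ S h.symm d⁻¹)⁻¹ * ρ (emb2 h (hm (nn τ d)⁻¹)) := by rw [← h1]; group
    have h4 := U.hinv h d
    have h5 : S i * HH ρ S h d * (S i)⁻¹ = HH ρ S h (nn τ d)⁻¹ * HH ρ S h d := by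
      conv_lhs => rw [h3]
      have h6 := U.conjD h (nn τ d)⁻¹
      calc S i * ((HH ρ S h.symm d⁻¹)⁻¹ * ρ (emb2 h (hm (nn τ d)⁻¹))) * (S i)⁻¹
          = (S i * (HH ρ S h.symm d⁻¹)⁻¹) * ρ (emb2 h (hm (nn τ d)⁻¹)) * (S i)⁻¹ := by group
        _ = (HH ρ S h.symm d⁻¹)⁻¹ * (S i * ρ (emb2 h (hm (nn τ d)⁻¹)) * (S i)⁻¹) := by
          rw [((U.hS h.symm d⁻¹).inv_right).eq]; group
        _ = (HH ρ S h.symm d⁻¹)⁻¹ * (HH ρ S h (nn τ d)⁻¹ * ρ (emb2 h (hm (nn τ d)⁻¹))) := by rw [h6]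
        _ = HH ρ S h d * (ρ (emb2 h (hm (nn τ d)⁻¹)))⁻¹ * (HH ρ S h (nn τ d)⁻¹ * ρ (emb2 h (hm (nn τ d)⁻¹))) := by
          rw [h3]; group
        _ = HH ρ S h d * ((ρ (emb2 h (hm (nn τ d)⁻¹)))⁻¹ * HH ρ S h (nn τ d)⁻¹) * ρ (emb2 h (hm (nn τ d)⁻¹)) := by group
        _ = HH ρ S h d * HH ρ S h (nn τ d)⁻¹ := by rw [← (U.hD h (nn τ d)⁻¹ (nn τ d)⁻¹).inv_right.eq]; group
        _ = _ := by rw [← U.hmul, ← U.hmul, mul_comm]
    rw [h5] at h4
    have h7 : HH ρ S h (nn τ d)⁻¹ * HH ρ S h d * HH ρ S h d = 1 := by rw [h4]; group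
    rw [← U.hmul, ← U.hmul] at h7
    rw [← h7]
    congr 1
    unfold nn
    rw [mul_inv]
    calc d * (Units.map (τ : F →* F) d)⁻¹ = (d⁻¹ * d) * (Units.map (τ : F →* F) d)⁻¹ * d := by rw [inv_mul_cancel, one_mul, mul_comm]
      _ = _ := by
        rw [mul_comm d⁻¹ d]
        simp only [mul_comm, mul_left_comm, mul_assoc]
  obtain ⟨d, hd0, hd⟩ := U.T.h90 (c := (c : F)) (by rw [← nn_coe, hc]; rfl)
  have : c = Units.mk0 d hd0 * (Units.map τ (Units.mk0 d hd0))⁻¹ := by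
    rw [eq_mul_inv_iff_mul_eq]
    apply Units.ext
    exact hd.symm
  rw [this]
  exact key _

/-- torus action on the flipped elements -/
theorem torS {i j : l} (h : i ≠ j) (c : Fˣ) (b : F) :
    ρ (emb2 h (hm c)) * (S j * ρ (tvl h b) * (S j)⁻¹) * (ρ (emb2 h (hm c)))⁻¹ =
      S j * ρ (tvl h ((c : F) * τ ((c⁻¹ : Fˣ) : F) * b)) * (S j)⁻¹ := by
  have h1 := U.hinv' h.symm c⁻¹
  have h2 := U.conjD h.symm c⁻¹
  rw [emb2_symm_hm h, inv_inv] at h2
  set D := ρ (emb2 h (hm c)) with hD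
  set H := HH ρ S h.symm c⁻¹ with hH
  have h3 : D * S j = S j * (H * D) := by
    have e1 : D = (S j)⁻¹ * (H * D) * S j := by rw [← h2]; group
    have e2 : (S j)⁻¹ * D * S j = H * D := by
      have : D = ((S j)⁻¹ * H * S j) * ((S j)⁻¹ * D * S j) := by
        calc D = (S j)⁻¹ * (H * D) * S j := e1
          _ = _ := by group
      rw [h1] at this
      calc (S j)⁻¹ * D * S j = H * (H⁻¹ * ((S j)⁻¹ * D * S j)) := by group
        _ = _ := by rw [← this]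
    rw [← e2]; group
  have h4 : D * ρ (tvl h b) * D⁻¹ = ρ (tvl h ((c : F) ^ 2 * b)) := by
    rw [hD, ← map_inv, ← map_mul, ← map_mul, ← emb2_xm, ← emb2_xm, ← map_inv, ← map_mul, ← map_mul, hm_xm]
  have h5 := U.hX' h.symm c⁻¹ ((c : F) ^ 2 * b)
  calc D * (S j * ρ (tvl h b) * (S j)⁻¹) * D⁻¹ = (D * S j) * ρ (tvl h b) * (D * S j)⁻¹ := by group
    _ = S j * (H * (D * ρ (tvl h b) * D⁻¹) * H⁻¹) * (S j)⁻¹ := by rw [h3]; group
    _ = _ := by
      have h6 := c.ne_zero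
      have h7 : τ (c : F) ≠ 0 := (map_ne_zero τ).2 h6
      have e7 : ((nn τ c⁻¹ : Fˣ) : F) * ((c : F) ^ 2 * b) = (c : F) * τ ((c⁻¹ : Fˣ) : F) * b := by
        rw [nn_coe, Units.val_inv_eq_inv_val, map_inv₀]
        field_simp
      rw [h4, h5, e7]

end UH

end ua

end Cfsg.Agent.GK.Un
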