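import Cfsg.Agent.GK.Un4

/-!
Torus relations in rank at least three; commuting short root elements.
-/

set_option autoImplicit false
set_option linter.unusedSectionVars false
set_option linter.unusedVariables false
set_option linter.unusedSimpArgs false

namespace Cfsg.Agent.GK.Un

open Subgroup Cfsg.Agent.Stb
open scoped commutatorElement
open Om (Mo_emb2_fst Mo_emb2_snd Mo_emb2_out)

attribute [local instance] Stb.sumNeg

universe v

section ua
variable {F : Type v} [Field F] {l : Type*} [Fintype l] [DecidableEq l] {Γ : Type*} [Group Γ]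
variable {τ : F →+* F} {ν : F} {ρ : Matrix.SpecialLinearGroup l F →* Γ} {S : l → Γ}

/-- commuting with an embedded `SL₂` -/
theorem comm_emb2 {x : Γ} {i j : l} (h : i ≠ j) (h1 : ∀ a, Commute x (ρ (tvl h a))) (h2 : ∀ a, Commute x (ρ (tvl h.symm a)))
    (A : Matrix.SpecialLinearGroup (Fin 2) F) : Commute x (ρ (emb2 h A)) := by
  have : (MulAut.conj x).toMonoidHom.comp (ρ.comp (emb2 h)) = ρ.comp (emb2 h) := by
    apply hom2_ext
    · intro a
      change x * ρ (emb2 h (xm a)) * x⁻¹ = ρ (emb2 h (xm a))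
      rw [emb2_xm, (h1 a).eq]; group
    · intro a
      change x * ρ (emb2 h (ym a)) * x⁻¹ = ρ (emb2 h (ym a))
      rw [emb2_ym, (h2 a).eq]; group
  exact mul_inv_eq_iff_eq_mul.1 (DFunLike.congr_fun this A)

theorem Dcomm {i j k m : l} (h : i ≠ j) (h' : k ≠ m) (c d : Fˣ) :
    Commute (emb2 h (hm c) : Matrix.SpecialLinearGroup l F) (emb2 h' (hm d)) := by
  have hM : ∀ (a b : l) (hab : a ≠ b) (c : Fˣ) (x : l), ∃ u, Mo (emb2 hab (hm c) : Matrix.SpecialLinearGroup l F) x x u := by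
    intro a b hab c x
    by_cases h1 : x = a
    · subst h1; exact ⟨c, Mo_emb2_fst hab c⟩
    by_cases h2 : x = b
    · subst h2; exact ⟨c⁻¹, Mo_emb2_snd hab c⟩
    exact ⟨1, Mo_emb2_out hab h1 h2 _⟩
  change _ * _ = _ * _
  apply Subtype.ext
  ext x y
  obtain ⟨u, hu⟩ := hM i j h c y
  obtain ⟨v, hv⟩ := hM k m h' d y
  rw [(hu.mul hv).1, (hv.mul hu).1, mul_comm]

theorem Dtv {i j k m : l} (h : i ≠ j) (h' : k ≠ m) (c : Fˣ) {u v : Fˣ} (hu : Mo (emb2 h (hm c) : Matrix.SpecialLinearGroup l F) k k u)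
    (hv : Mo (emb2 h (hm c) : Matrix.SpecialLinearGroup l F) m m v) (a : F) :
    ρ (emb2 h (hm c)) * ρ (tvl h' a) * (ρ (emb2 h (hm c)))⁻¹ = ρ (tvl h' (u * a * ((v⁻¹ : Fˣ) : F))) := by
  rw [← map_inv, ← map_mul, ← map_mul, hu.conj hv h' h']

theorem emb2_split {i j k : l} (hij : i ≠ j) (hik : i ≠ k) (hkj : k ≠ j) (c : Fˣ) :
    (emb2 hij (hm c) : Matrix.SpecialLinearGroup l F) = emb2 hkj (hm c) * emb2 hik (hm c) := by
  apply Subtype.ext
  ext x y
  by_cases h1 : y = i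
  · subst h1
    rw [(Mo_emb2_fst hij c).1, ((Mo_emb2_out hkj hik hij (hm c)).mul (Mo_emb2_fst hik c)).1, one_mul]
  by_cases h2 : y = j
  · subst h2
    rw [(Mo_emb2_snd hij c).1, ((Mo_emb2_snd hkj c).mul (Mo_emb2_out hik h1 hkj.symm (hm c))).1, mul_one]
  by_cases h3 : y = k
  · subst h3
    rw [(Mo_emb2_out hij h1 h2 (hm c)).1, ((Mo_emb2_fst hkj c).mul (Mo_emb2_snd hik c)).1, mul_inv_cancel]
  rw [(Mo_emb2_out hij h1 h2 (hm c)).1, ((Mo_emb2_out hkj h3 h2 (hm c)).mul (Mo_emb2_out hik h1 h3 (hm c))).1, one_mul]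

namespace UA
variable (U : UA τ ν ρ S)
include U

theorem SE {i j k : l} (h : j ≠ k) (h1 : i ≠ j) (h2 : i ≠ k) (A : Matrix.SpecialLinearGroup (Fin 2) F) : Commute (S i) (ρ (emb2 h A)) :=
  comm_emb2 h (U.SX h h1 h2) (U.SX h.symm h2 h1) A

theorem h_indep {i j k : l} (hij : i ≠ j) (hik : i ≠ k) (hjk : j ≠ k) (c : Fˣ) : HH ρ S hij c = HH ρ S hik c := by
  have h1 : Commute (S i) (ρ (emb2 hjk.symm (hm c))) := U.SE hjk.symm hik hij _
  have h2 : Commute (ρ (emb2 hjk.symm (hm c))) (ρ (emb2 hik (hm c))) := (Dcomm (F := F) hjk.symm hik c c).map ρ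
  unfold HH
  rw [emb2_split hij hik hjk.symm c, map_mul]
  set E := ρ (emb2 hjk.symm (hm c))
  set D := ρ (emb2 hik (hm c))
  calc S i * (E * D) * (S i)⁻¹ * (E * D)⁻¹ = (S i * E) * D * (S i)⁻¹ * D⁻¹ * E⁻¹ := by group
    _ = E * (S i * D * (S i)⁻¹ * D⁻¹) * E⁻¹ := by rw [h1.eq]; group
    _ = _ := by
      have : Commute E (S i * D * (S i)⁻¹ * D⁻¹) :=
        ((h1.symm.mul_right h2).mul_right h1.symm.inv_right).mul_right h2.inv_right
      rw [this.eq]; group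

theorem h_out {i j k : l} (hij : i ≠ j) (hik : i ≠ k) (hjk : j ≠ k) (c : Fˣ) (A : Matrix.SpecialLinearGroup (Fin 2) F) :
    Commute (HH ρ S hij c) (ρ (emb2 hjk A)) := by
  have key : ∀ (x : Γ) (u v : Γ), Commute (S i) u → ρ (emb2 hij (hm c)) * u * (ρ (emb2 hij (hm c)))⁻¹ = v → Commute (S i) v →
      Commute (HH ρ S hij c) v := by
    intro x u v h1 h2 h3
    have h4 : (ρ (emb2 hij (hm c)))⁻¹ * v * ρ (emb2 hij (hm c)) = u := by rw [← h2]; group
    change HH ρ S hij c * v = v * HH ρ S hij c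
    rw [← mul_inv_eq_iff_eq_mul]
    unfold HH
    set D := ρ (emb2 hij (hm c))
    calc S i * D * (S i)⁻¹ * D⁻¹ * v * (S i * D * (S i)⁻¹ * D⁻¹)⁻¹ = S i * D * (S i)⁻¹ * (D⁻¹ * v * D) * S i * D⁻¹ * (S i)⁻¹ := by group
      _ = S i * D * (S i)⁻¹ * (u * S i) * D⁻¹ * (S i)⁻¹ := by rw [h4]; group
      _ = S i * (D * u * D⁻¹) * (S i)⁻¹ := by rw [← h1.eq]; group
      _ = _ := by rw [h2, h3.eq]; group
  have hj := Mo_emb2_snd (F := F) hij c
  have hk : Mo (emb2 hij (hm c) : Matrix.SpecialLinearGroup l F) k k 1 := Mo_emb2_out hij hik.symm hjk.symm _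
  apply comm_emb2
  · intro a
    refine key 1 (ρ (tvl hjk ((c : F) * a))) _ (U.SX hjk hij hik _) ?_ (U.SX hjk hij hik _)
    rw [Dtv hij hjk c hj hk, inv_one, Units.val_one, mul_one, Units.inv_mul_cancel_left]
  · intro a
    refine key 1 (ρ (tvl hjk.symm (a * ((c⁻¹ : Fˣ) : F)))) _ (U.SX hjk.symm hik hij _) ?_ (U.SX hjk.symm hik hij _)
    rw [Dtv hij hjk.symm c hk hj, Units.val_one, one_mul, inv_inv, mul_assoc, Units.inv_mul, mul_one]

theorem hS_of {i j k : l} (hij : i ≠ j) (hik : i ≠ k) (hjk : j ≠ k) (c : Fˣ) : Commute (S j) (HH ρ S hij c) := by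
  rw [U.h_indep hij hik hjk]
  have h1 : Commute (S j) (ρ (emb2 hik (hm c))) := U.SE hik hij.symm hjk _
  unfold HH
  exact (((U.SS j i).mul_right h1).mul_right (U.SS j i).inv_right).mul_right h1.inv_right

theorem h_eq {i j k : l} (hij : i ≠ j) (hik : i ≠ k) (hjk : j ≠ k) (c : Fˣ) :
    HH ρ S hij c = (HH ρ S hij.symm c⁻¹)⁻¹ * ρ (emb2 hij (hm (nn τ c)⁻¹)) := by
  rw [← U.hrel hij (U.hS_of hij.symm hjk hik c⁻¹)]; group

theorem uh (three : ∀ i j : l, ∃ k, k ≠ i ∧ k ≠ j) : UH τ ν ρ S where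
  toUA := U
  hS {i j} h c := by
    obtain ⟨k, h1, h2⟩ := three i j
    exact U.hS_of h h1.symm h2.symm c
  hi {i j k} h h' c := by
    by_cases e : j = k
    · subst e; rfl
    · exact U.h_indep h h' e c
  hD {i j} h c c' := by
    obtain ⟨k, h1, h2⟩ := three i j
    rw [emb2_split h h1.symm h2, map_mul]
    refine Commute.mul_right ?_ ?_
    · have := U.h_out h h1.symm h2.symm c (hm c'⁻¹)
      rwa [emb2_symm_hm h2, inv_inv] at this
    · rw [U.h_eq h h1.symm h2.symm]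
      refine Commute.mul_left ?_ ?_
      · exact (U.h_out h.symm h2.symm h1.symm c⁻¹ (hm c')).inv_left
      · exact (Dcomm h h1.symm _ _).map ρ
  hX {i j} h c a := by
    obtain ⟨k, h1, h2⟩ := three i j
    have e1 : Commute (HH ρ S h1 c⁻¹) (ρ (tvl h a)) := by
      have := U.h_out h1 h2 h c⁻¹ (xm a)
      rwa [emb2_xm] at this
    rw [U.h_indep h h1.symm h2.symm, U.h_eq h1.symm h h2]
    have e2 := Dtv (ρ := ρ) h1.symm h (nn τ c)⁻¹ (Mo_emb2_fst h1.symm _) (Mo_emb2_out h1.symm h.symm h2.symm _) a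
    rw [inv_one, Units.val_one, mul_one] at e2
    set H := HH ρ S h1 c⁻¹ with hH
    set D := ρ (emb2 h1.symm (hm (nn τ c)⁻¹)) with hDd
    have e3 : Commute H (ρ (tvl h (((nn τ c)⁻¹ : Fˣ) * a))) := by
      have := U.h_out h1 h2 h c⁻¹ (xm (((nn τ c)⁻¹ : Fˣ) * a))
      rwa [emb2_xm] at this
    calc H⁻¹ * D * ρ (tvl h a) * (H⁻¹ * D)⁻¹ = H⁻¹ * (D * ρ (tvl h a) * D⁻¹) * H := by group
      _ = H⁻¹ * (H * ρ (tvl h (((nn τ c)⁻¹ : Fˣ) * a))) := by rw [e2, e3.eq]; group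
      _ = _ := by group
  hX' {i j} h c a := by
    obtain ⟨k, h1, h2⟩ := three i j
    rw [U.h_indep h h1.symm h2.symm, U.h_eq h1.symm h h2]
    have e2 := Dtv (ρ := ρ) h1.symm h.symm (nn τ c)⁻¹ (Mo_emb2_out h1.symm h.symm h2.symm _) (Mo_emb2_fst h1.symm _) a
    rw [inv_inv, Units.val_one, one_mul, mul_comm a] at e2
    set H := HH ρ S h1 c⁻¹ with hH
    set D := ρ (emb2 h1.symm (hm (nn τ c)⁻¹)) with hDd
    have e3 : Commute H (ρ (tvl h.symm ((nn τ c : Fˣ) * a))) := by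
      have := U.h_out h1 h2 h c⁻¹ (ym ((nn τ c : Fˣ) * a))
      rwa [emb2_ym] at this
    calc H⁻¹ * D * ρ (tvl h.symm a) * (H⁻¹ * D)⁻¹ = H⁻¹ * (D * ρ (tvl h.symm a) * D⁻¹) * H := by group
      _ = H⁻¹ * (H * ρ (tvl h.symm ((nn τ c : Fˣ) * a))) := by rw [e2, e3.eq]; group
      _ = _ := by group

end UA

/-- the torus elements commute -/
theorem UH.hC (U : UH τ ν ρ S) {i j : l} (h : i ≠ j) (c : Fˣ) {a b : l} (h' : a ≠ b) (c' : Fˣ) :
    Commute (HH ρ S h c) (ρ (emb2 h' (hm c'))) := by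
  by_cases e1 : a = i
  · subst e1
    rw [U.hi h h']; exact U.hD h' c c'
  by_cases e2 : b = i
  · subst e2
    rw [U.hi h h'.symm]
    have := U.hD h'.symm c c'⁻¹
    rwa [emb2_symm_hm h', inv_inv] at this
  rw [U.hi h (Ne.symm e1)]
  exact U.toUA.h_out (Ne.symm e1) (Ne.symm e2) h' c _

/-- commuting short root elements from two relations -/
theorem UH.c0_of [Finite F] (U : UH τ ν ρ S) (hn : ∀ r : F, τ r = r → r ≠ 0 → ∃ d : Fˣ, ((nn τ d : Fˣ) : F) = r) {ζ : Fˣ} (hζ : IsGen ζ)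
    {i j : l} (h : i ≠ j) (h1 : Commute (S j * ρ (tvl h (ν * 1)) * (S j)⁻¹) (ρ (tvl h 1)))
    (h2 : Commute (S j * ρ (tvl h (ν * ζ)) * (S j)⁻¹) (ρ (tvl h (ζ : F)))) (a b : F) (hab : a * τ b = τ a * b) :
    Commute (S j * ρ (tvl h (ν * a)) * (S j)⁻¹) (ρ (tvl h b)) := by
  let P : F → F → Prop := fun a b => Commute (S j * ρ (tvl h (ν * a)) * (S j)⁻¹) (ρ (tvl h b))
  have cj : ∀ {g x y x' y' : Γ}, g * x * g⁻¹ = x' → g * y * g⁻¹ = y' → Commute x y → Commute x' y' := by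
    rintro g x y _ _ rfl rfl h; exact (Commute.conj_iff g).2 h
  have pD : ∀ (c : Fˣ) a b, P a b → P ((c : F) * τ ((c⁻¹ : Fˣ) : F) * a) ((c : F) ^ 2 * b) := by
    intro c a b hp
    refine cj (g := ρ (emb2 h (hm c))) ?_ ?_ hp
    · rw [U.torS h]; congr 4; ring
    · rw [← map_inv, ← map_mul, ← map_mul, ← emb2_xm, ← emb2_xm, ← map_inv, ← map_mul, ← map_mul, hm_xm]
  have pI : ∀ (c : Fˣ) a b, P a b → P ((nn τ c : Fˣ) * a) ((nn τ c : Fˣ) * b) := by
    intro c a b hp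
    have e1 := U.hX h c⁻¹ (ν * a)
    have e2 := U.hX h c⁻¹ b
    have e3 := (U.hS h c⁻¹).eq
    rw [nn_inv, inv_inv] at e1 e2
    refine cj (g := HH ρ S h c⁻¹) ?_ e2 hp
    have e4 : ν * ((nn τ c : Fˣ) * a) = (nn τ c : Fˣ) * (ν * a) := by ring
    rw [e4, ← e1]
    calc _ = (HH ρ S h c⁻¹ * S j) * ρ (tvl h (ν * a)) * (HH ρ S h c⁻¹ * S j)⁻¹ := by group
      _ = _ := by rw [← e3]; group
  have pJ : ∀ (c : Fˣ) a b, P a b → P (((nn τ c)⁻¹ : Fˣ) * a) ((nn τ c : Fˣ) * b) := by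
    intro c a b hp
    have e2 := U.hX' h.symm c b
    have e1 := U.hX' h.symm c⁻¹ (ν * a)
    rw [nn_inv] at e1
    have e3 := U.hinv' h.symm c
    have e5 : HH ρ S h.symm c⁻¹ = (HH ρ S h.symm c)⁻¹ := by
      rw [eq_inv_iff_mul_eq_one, ← U.hmul, inv_mul_cancel]
      unfold HH; rw [hm_one, map_one, map_one]; group
    refine cj (g := HH ρ S h.symm c) ?_ e2 hp
    have e4 : ν * (((nn τ c)⁻¹ : Fˣ) * a) = ((nn τ c)⁻¹ : Fˣ) * (ν * a) := by ring
    rw [e4, ← e1, e5]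
    have e6 : HH ρ S h.symm c * S j = S j * (HH ρ S h.symm c)⁻¹ := by rw [← e3]; group
    calc _ = (HH ρ S h.symm c * S j) * ρ (tvl h (ν * a)) * (HH ρ S h.symm c * S j)⁻¹ := by group
      _ = _ := by rw [e6]; group
  have padd : ∀ a b b', P a b → P a b' → P a (b - b') := by
    intro a b b' hp hp'
    change Commute _ (ρ (tvl h (b - b')))
    rw [sub_eq_add_neg, tvl_add, tvl_neg, map_mul, map_inv]
    exact hp.mul_right hp'.inv_right
  have p0 : ∀ a, P a 0 := by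
    intro a
    change Commute _ (ρ (tvl h 0))
    rw [tvl_zero, map_one]; exact Commute.one_right _
  change P a b
  by_cases ha : a = 0
  · subst ha
    change Commute (S j * ρ (tvl h (ν * 0)) * (S j)⁻¹) _
    rw [mul_zero, tvl_zero, map_one, mul_one, mul_inv_cancel]
    exact Commute.one_left _
  obtain ⟨n, hk⟩ := hζ (Units.mk0 a ha)
  have hae : ∃ (e : F) (c : Fˣ), P e e ∧ a = (c : F) ^ 2 * e := by
    rcases Nat.even_or_odd' n with ⟨k, hk' | hk'⟩
    · refine ⟨1, ζ ^ k, h1, ?_⟩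
      have := congrArg Units.val hk
      rw [hk'] at this
      rw [mul_one, ← Units.val_pow_eq_pow_val, ← pow_mul, mul_comm k, this]; rfl
    · refine ⟨ζ, ζ ^ k, h2, ?_⟩
      have := congrArg Units.val hk
      rw [hk'] at this
      rw [← Units.val_pow_eq_pow_val, ← Units.val_mul, ← pow_mul, mul_comm k, ← pow_succ, this]; rfl
  obtain ⟨e, c, he, hac⟩ := hae
  have hc := c.ne_zero
  have htc : τ (c : F) ≠ 0 := (map_ne_zero τ).2 hc
  have q1 : P a ((nn τ c : Fˣ) * a) := by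
    have := pI c _ _ (pD c e e he)
    have e1 : ((nn τ c : Fˣ) : F) * ((c : F) * τ ((c⁻¹ : Fˣ) : F) * e) = a := by
      rw [hac, nn_coe, Units.val_inv_eq_inv_val, map_inv₀]; field_simp
    rw [e1, ← hac] at this
    exact this
  have q2 : ∀ x, τ x = x → P a ((nn τ c : Fˣ) * x ^ 2 * a) := by
    intro x hx
    by_cases hx0 : x = 0
    · subst hx0
      have : ((nn τ c : Fˣ) : F) * 0 ^ 2 * a = 0 := by ring
      rw [this]; exact p0 a
    obtain ⟨d, hd⟩ := hn x hx hx0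
    have := pI d _ _ (pJ d _ _ q1)
    rw [Units.mul_inv_cancel_left, hd] at this
    have e1 : ((nn τ c : Fˣ) : F) * x ^ 2 * a = x * (x * ((nn τ c : Fˣ) * a)) := by ring
    rw [e1]; exact this
  have hr : τ (b / a / (nn τ c : Fˣ)) = b / a / (nn τ c : Fˣ) := by
    have hta : τ a ≠ 0 := (map_ne_zero τ).2 ha
    rw [map_div₀, map_div₀, nn_coe, map_mul, U.T.ττ, mul_comm (τ (c : F))]
    congr 1
    rw [div_eq_div_iff hta ha]
    linear_combination hab
  obtain ⟨x, y, hx, hy, hxy⟩ := U.T.sqs hr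
  have e2 : b = (nn τ c : Fˣ) * x ^ 2 * a - (nn τ c : Fˣ) * y ^ 2 * a := by
    have h3 : b = (b / a / (nn τ c : Fˣ)) * (nn τ c : Fˣ) * a := by
      have h4 := (nn τ c).ne_zero
      field_simp
    rw [hxy] at h3
    rw [h3]; ring
  rw [e2]
  exact padd _ _ _ (q2 x hx) (q2 y hy)

end ua

end Cfsg.Agent.GK.Un
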