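import Cfsg.Agent.GK.Un5

/-!
Flips from one flip; the relations in rank at least three.
-/

set_option autoImplicit false
set_option linter.unusedSectionVars false
set_option linter.unusedVariables false
set_option linter.unusedSimpArgs false

namespace Cfsg.Agent.GK.Un

open Subgroup Cfsg.Agent.Stb
open scoped commutatorElement
open Om (Mo_emb2_fst Mo_emb2_snd Mo_emb2_out)

attribute [local instance] Stb.sumNeg

universe v

section base
variable {F : Type v} [Field F] {l : Type*} [Fintype l] [DecidableEq l] {Γ : Type*} [Group Γ]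
variable {τ : F →+* F} {ν : F} {ρ : Matrix.SpecialLinearGroup l F →* Γ} {s : Γ} {o : l}

/-- a flip commuting with the stabilizer -/
structure B0 (ρ : Matrix.SpecialLinearGroup l F →* Γ) (s : Γ) (o : l) : Prop where
  two : ∀ i : l, ∃ j, j ≠ i
  hs : ∀ M, Mo M o o 1 → Commute s (ρ M)

theorem exists_mo1 (two : ∀ i : l, ∃ j, j ≠ i) (i j : l) : ∃ M : Matrix.SpecialLinearGroup l F, Mo M i j 1 := by
  obtain ⟨i', hi⟩ := two i
  obtain ⟨j', hj⟩ := two j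
  obtain ⟨g, c, -, -, h⟩ := exists_mo (F := F) hi hj
  exact ⟨g, h⟩

theorem exists_mo2 (three : ∀ i j : l, ∃ k, k ≠ i ∧ k ≠ j) {i j i' j' : l} (h : i ≠ j) (h' : i' ≠ j') :
    ∃ M : Matrix.SpecialLinearGroup l F, Mo M i i' 1 ∧ Mo M j j' 1 := by
  obtain ⟨g, c, hc, h1, h2⟩ := exists_mo (F := F) h h'
  obtain ⟨k, hk1, hk2⟩ := three i j
  refine ⟨g * emb2 hk1.symm (hm c), ?_, ?_⟩
  · have := h1.mul (Mo_emb2_fst hk1.symm c)
    rwa [hc] at this
  · have := h2.mul (Mo_emb2_out hk1.symm h.symm hk2.symm (hm c))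
    rwa [one_mul] at this

open scoped Classical in
/-- the flips -/
noncomputable def SF (ρ : Matrix.SpecialLinearGroup l F →* Γ) (s : Γ) (o i : l) : Γ :=
  if h : ∃ M : Matrix.SpecialLinearGroup l F, Mo M o i 1 then ρ h.choose * s * (ρ h.choose)⁻¹ else 1

theorem SF_eq (B : B0 ρ s o) {M : Matrix.SpecialLinearGroup l F} {i : l} (hM : Mo M o i 1) : SF ρ s o i = ρ M * s * (ρ M)⁻¹ := by
  have h : ∃ M : Matrix.SpecialLinearGroup l F, Mo M o i 1 := ⟨M, hM⟩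
  unfold SF
  rw [dif_pos h]
  apply Om.conj_eq_of_commute
  rw [← map_inv, ← map_mul]
  have := hM.inv.mul h.choose_spec
  rw [inv_one, one_mul] at this
  exact (B.hs _ this).symm

theorem SF_o (B : B0 ρ s o) : SF ρ s o o = s := by
  rw [SF_eq B (Mo.one o), map_one]; group

theorem SF_tr (B : B0 ρ s o) {M : Matrix.SpecialLinearGroup l F} {i j : l} (hM : Mo M i j 1) :
    ρ M * SF ρ s o i * (ρ M)⁻¹ = SF ρ s o j := by
  obtain ⟨g, hg⟩ := exists_mo1 (F := F) B.two o i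
  have h1 := hM.mul hg
  rw [one_mul] at h1
  rw [SF_eq B hg, SF_eq B h1, map_mul]; group

theorem SF_comm (B : B0 ρ s o) {M : Matrix.SpecialLinearGroup l F} {i : l} (hM : Mo M i i 1) : Commute (SF ρ s o i) (ρ M) :=
  (mul_inv_eq_iff_eq_mul.1 (SF_tr B hM)).symm

theorem tv_tr {M : Matrix.SpecialLinearGroup l F} {i j i' j' : l} (h : i ≠ j) (h' : i' ≠ j') (h1 : Mo M i i' 1) (h2 : Mo M j j' 1) (a : F) :
    ρ M * ρ (tvl h a) * (ρ M)⁻¹ = ρ (tvl h' a) := by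
  rw [← map_inv, ← map_mul, ← map_mul, h1.conj h2 h h', inv_one, Units.val_one, one_mul, mul_one]

/-- every element is a difference of squares -/
theorem sqs' [Finite F] (r : F) : ∃ x y : F, r = x ^ 2 - y ^ 2 := by
  by_cases h2 : (2 : F) = 0
  · have : CharP F 2 := CharTwo.of_one_ne_zero_of_two_eq_zero (R := F) one_ne_zero h2
    obtain ⟨x, hx⟩ := FiniteField.isSquare_of_char_two (F := F) (ringChar.eq F 2).symm.symm r
    exact ⟨x, 0, by rw [hx]; ring⟩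
  · exact ⟨(r + 1) / 2, (r - 1) / 2, by field_simp; ring⟩

/-- the relations for the base pair, common to all ranks -/
structure BR (τ : F →+* F) (ν : F) (ρ : Matrix.SpecialLinearGroup l F →* Γ) (s : Γ) {o o' : l} (h : o ≠ o') (ζ : Fˣ) : Prop
    extends B0 ρ s o where
  r1 : Commute s (SF ρ s o o')
  r2 : (s * SF ρ s o o') * ρ (tvl h 1) * (s * SF ρ s o o')⁻¹ = ρ (tvl h.symm (-1))
  r3 : (s * SF ρ s o o') * ρ (emb2 h (hm ζ)) * (s * SF ρ s o o')⁻¹ = ρ (emb2 h (hm (Units.map τ ζ)⁻¹))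
  r4 : (s * s) * ρ (tvl h 1) * (s * s)⁻¹ = ρ (tvl h (-1))
  r5 : Commute (SF ρ s o o' * ρ (tvl h ν) * (SF ρ s o o')⁻¹) (ρ (tvl h 1))

variable {o' : l} {h : o ≠ o'} {ζ : Fˣ}

theorem BR.rall [Finite F] (T : Tau τ) (hζ : IsGen ζ) (B : BR τ ν ρ s h ζ) (a : F) :
    (s * SF ρ s o o') * ρ (tvl h a) * (s * SF ρ s o o')⁻¹ = ρ (tvl h.symm (-τ a)) := by
  set r := s * SF ρ s o o' with hr
  have h1 : ∀ c : Fˣ, r * ρ (emb2 h (hm c)) * r⁻¹ = ρ (emb2 h (hm (Units.map τ c)⁻¹)) := by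
    intro c
    obtain ⟨n, rfl⟩ := hζ c
    rw [← hm_pow, map_pow, map_pow, conj_pow.symm, B.r3, map_pow, ← inv_pow, ← hm_pow, map_pow, map_pow]
  have r2 := B.r2
  rw [← hr] at r2
  have h2 : ∀ c : Fˣ, r * ρ (tvl h ((c : F) ^ 2)) * r⁻¹ = ρ (tvl h.symm (-τ ((c : F) ^ 2))) := by
    intro c
    have e1 : ρ (tvl h ((c : F) ^ 2)) = ρ (emb2 h (hm c)) * ρ (tvl h 1) * (ρ (emb2 h (hm c)))⁻¹ := by
      rw [← map_inv, ← map_mul, ← map_mul, ← emb2_xm, ← emb2_xm, ← map_inv, ← map_mul, ← map_mul, hm_xm, mul_one]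
    have e2 : ρ (tvl h.symm (-τ ((c : F) ^ 2))) = ρ (emb2 h (hm (Units.map τ c)⁻¹)) * ρ (tvl h.symm (-1)) *
        (ρ (emb2 h (hm (Units.map τ c)⁻¹)))⁻¹ := by
      have e3 : -τ ((c : F) ^ 2) = ((((Units.map (τ : F →* F) c)⁻¹)⁻¹ : Fˣ) : F) ^ 2 * -1 := by
        rw [inv_inv, map_pow]
        change _ = (τ (c : F)) ^ 2 * -1
        ring
      rw [e3]
      set u : Fˣ := (Units.map (τ : F →* F) c)⁻¹
      rw [← map_inv, ← map_mul, ← map_mul, ← emb2_ym h, ← emb2_ym h, ← map_inv, ← map_mul, ← map_mul, hm_ym']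
    rw [e1, e2, ← h1, ← r2]; group
  obtain ⟨x, y, rfl⟩ := sqs' a
  have h3 : ∀ x : F, r * ρ (tvl h (x ^ 2)) * r⁻¹ = ρ (tvl h.symm (-τ (x ^ 2))) := by
    intro x
    by_cases hx : x = 0
    · subst hx
      rw [zero_pow two_ne_zero, tvl_zero, map_zero, neg_zero, tvl_zero, map_one, mul_one, mul_inv_cancel]
    · exact h2 (Units.mk0 x hx)
  rw [sub_eq_add_neg, tvl_add, tvl_neg, map_mul, map_inv, map_add, map_neg]
  have e : -(τ (x ^ 2) + -τ (y ^ 2)) = -τ (x ^ 2) + -(-τ (y ^ 2)) := by ring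
  rw [e, tvl_add, tvl_neg h.symm (-τ (y ^ 2)), map_mul, map_inv, ← h3, ← h3]; group

/-- the relations in rank at least three -/
theorem BR.ua [Finite F] (T : Tau τ) (hν : τ ν = -ν) (ν0 : ν ≠ 0) (hζ : IsGen ζ) (three : ∀ i j : l, ∃ k, k ≠ i ∧ k ≠ j)
    (B : BR τ ν ρ s h ζ) : UA τ ν ρ (SF ρ s o) where
  T := T
  hν := hν
  ν0 := ν0
  two := B.two
  SS i j := by
    by_cases hij : i = j
    · subst hij; exact Commute.refl _
    obtain ⟨M, h1, h2⟩ := exists_mo2 (F := F) three h hij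
    have := (Commute.conj_iff (ρ M)).2 B.r1
    rwa [← SF_o B.toB0, SF_tr B.toB0 h1, SF_o B.toB0, SF_tr B.toB0 h2] at this
  SX {k i j} hij h1 h2 a := SF_comm B.toB0 (Mo.tv hij h1 h2 a)
  r {i j} hij a := by
    obtain ⟨M, h1, h2⟩ := exists_mo2 (F := F) three h hij
    have e := B.rall T hζ a
    have e1 := SF_tr B.toB0 h1
    have e2 := SF_tr B.toB0 h2
    rw [SF_o B.toB0] at e1
    rw [← tv_tr (ρ := ρ) h hij h1 h2, ← tv_tr (ρ := ρ) h.symm hij.symm h2 h1, ← e, ← e1, ← e2]; group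
  sq {i j} hij a := by
    obtain ⟨M, h1, h2⟩ := exists_mo2 (F := F) three h hij
    have e1 := SF_tr B.toB0 h1
    rw [SF_o B.toB0] at e1
    have e : (s * s) * ρ (tvl h a) * (s * s)⁻¹ = ρ (tvl h (-a)) := by
      by_cases ha : a = 0
      · subst ha; rw [neg_zero, tvl_zero, map_one, mul_one, mul_inv_cancel]
      obtain ⟨k, hk1, hk2⟩ := three o o'
      have c1 : Commute s (ρ (emb2 hk2 (hm (Units.mk0 a ha)))) := B.hs _ (Mo_emb2_out hk2 hk1.symm h _)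
      have d1 : ∀ b : F, ρ (emb2 hk2 (hm (Units.mk0 a ha))) * ρ (tvl h b) * (ρ (emb2 hk2 (hm (Units.mk0 a ha))))⁻¹ =
          ρ (tvl h (b * a)) := by
        intro b
        rw [Dtv hk2 h _ (Mo_emb2_out hk2 hk1.symm h _) (Mo_emb2_snd hk2 _), Units.val_one, one_mul, inv_inv]; rfl
      have e3 := d1 1
      have e4 := d1 (-1)
      rw [one_mul] at e3
      rw [neg_one_mul] at e4
      have c2 : Commute (s * s) (ρ (emb2 hk2 (hm (Units.mk0 a ha)))) := c1.mul_left c1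
      set D := ρ (emb2 hk2 (hm (Units.mk0 a ha)))
      calc (s * s) * ρ (tvl h a) * (s * s)⁻¹ = ((s * s) * D) * ρ (tvl h 1) * ((s * s) * D)⁻¹ := by rw [← e3]; group
        _ = D * ((s * s) * ρ (tvl h 1) * (s * s)⁻¹) * D⁻¹ := by rw [c2.eq]; group
        _ = _ := by rw [B.r4, e4]
    rw [← tv_tr (ρ := ρ) h hij h1 h2, ← tv_tr (ρ := ρ) h hij h1 h2, ← e, ← e1]; group

/-- the complete relations in rank at least three -/
theorem BR.ue [Finite F] (T : Tau τ) (hν : τ ν = -ν) (ν0 : ν ≠ 0) (hζ : IsGen ζ)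
    (hn : ∀ r : F, τ r = r → r ≠ 0 → ∃ d : Fˣ, ((nn τ d : Fˣ) : F) = r) (three : ∀ i j : l, ∃ k, k ≠ i ∧ k ≠ j)
    (B : BR τ ν ρ s h ζ) : UH τ ν ρ (SF ρ s o) ∧ UE τ ν ρ (SF ρ s o) := by
  have A := B.ua T hν ν0 hζ three
  have H := A.uh three
  refine ⟨H, { toUA := A, c0 := ?_ }⟩
  intro i j hij a b hab
  obtain ⟨M, h1, h2⟩ := exists_mo2 (F := F) three h hij
  have e1 := SF_tr B.toB0 h1
  have e2 := SF_tr B.toB0 h2
  -- transport
  rw [← tv_tr (ρ := ρ) h hij h1 h2, ← tv_tr (ρ := ρ) h hij h1 h2, ← e2]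
  have e3 : ρ M * SF ρ s o o' * (ρ M)⁻¹ * (ρ M * ρ (tvl h (ν * a)) * (ρ M)⁻¹) * (ρ M * SF ρ s o o' * (ρ M)⁻¹)⁻¹ =
      ρ M * (SF ρ s o o' * ρ (tvl h (ν * a)) * (SF ρ s o o')⁻¹) * (ρ M)⁻¹ := by group
  rw [e3, Commute.conj_iff]
  refine H.c0_of hn hζ h ?_ ?_ a b hab
  · rw [mul_one]; exact B.r5
  · obtain ⟨k, hk1, hk2⟩ := three o o'
    have c1 : Commute (SF ρ s o o') (ρ (emb2 hk1.symm (hm ζ))) := SF_comm B.toB0 (Mo_emb2_out hk1.symm h.symm hk2.symm _)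
    have d1 : ∀ b : F, ρ (emb2 hk1.symm (hm ζ)) * ρ (tvl h b) * (ρ (emb2 hk1.symm (hm ζ)))⁻¹ = ρ (tvl h (ζ * b)) := by
      intro b
      rw [Dtv hk1.symm h _ (Mo_emb2_fst hk1.symm _) (Mo_emb2_out hk1.symm h.symm hk2.symm _), inv_one, Units.val_one, mul_one]
    have e4 := d1 ν
    have e5 := d1 1
    have e6 := (Commute.conj_iff (ρ (emb2 hk1.symm (hm ζ)))).2 B.r5
    rw [mul_one] at e5
    rw [e5] at e6
    rw [mul_comm ν, ← e4]
    set D := ρ (emb2 hk1.symm (hm ζ))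
    have e7 : SF ρ s o o' * (D * ρ (tvl h ν) * D⁻¹) * (SF ρ s o o')⁻¹ = D * (SF ρ s o o' * ρ (tvl h ν) * (SF ρ s o o')⁻¹) * D⁻¹ := by
      calc _ = (SF ρ s o o' * D) * ρ (tvl h ν) * (SF ρ s o o' * D)⁻¹ := by group
        _ = _ := by rw [c1.eq]; group
    rw [e7]
    exact e6

end base

end Cfsg.Agent.GK.Un
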