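import Cfsg.Agent.GK.Un6

/-!
The torus in the presence of the special linear group and flips.
-/

set_option autoImplicit false
set_option linter.unusedSectionVars false
set_option linter.unusedVariables false
set_option linter.unusedSimpArgs false

namespace Cfsg.Agent.GK.Un

open Subgroup Cfsg.Agent.Stb
open scoped commutatorElement
open Om (Mo_emb2_fst Mo_emb2_snd Mo_emb2_out)

universe v

section mon
variable {I K W Γ : Type*} [InvolutiveNeg I] [DecidableEq I] [Field K] [AddCommGroup W] [Module K W] [Group Γ] [Fintype I]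
variable {τ : K →+* K} {h0 : W → W → K} {P : W → K → Prop} {y : I → I → K → Γ} {z : I → W → K → Γ}
variable {ρ : Γ →* (((I → K) × W) ≃ₗ[K] ((I → K) × W))}

/-- monomial action on the frame -/
structure Mn (ρ : Γ →* (((I → K) × W) ≃ₗ[K] ((I → K) × W))) (g : Γ) (π : I → I) (c : I → K) : Prop where
  neg : ∀ p, π (-p) = -π p
  inj : Function.Injective π
  act : ∀ p, ρ g (eh p) = c p • eh (π p)

theorem Mn.ne0 {g : Γ} {π : I → I} {c : I → K} (M : Mn ρ g π c) (p : I) : c p ≠ 0 := hswap_ne (M.act p)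

theorem Mn.frm (H : HF τ h0 P) (A : HA τ h0 P y z ρ) {g : Γ} {π : I → I} {c : I → K} (M : Mn ρ g π c) (p : I) :
    τ (c p) * c (-p) = 1 := hform_ee H A g (M.act p) (by rw [M.act, M.neg])

theorem Mn.wh (H : HF τ h0 P) (A : HA τ h0 P y z ρ) {g : Γ} {π : I → I} {c : I → K} (M : Mn ρ g π c) (w : W) :
    ρ g (wh w) = wh (ρ g (wh w)).2 := by
  refine Prod.ext ?_ rfl
  funext q
  obtain ⟨p, hp⟩ := (Finite.injective_iff_surjective.1 M.inj) (-q)
  have h1 := A.form g (eh p) (Stb.wh w)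
  rw [M.act, hh_smul_left H, hh_eh_left H, hh_eh_left H, hp, neg_neg] at h1
  have h2 : (Stb.wh w : (I → K) × W).1 (-p) = 0 := rfl
  rw [h2] at h1
  exact (mul_eq_zero.1 h1).resolve_left (H.τ_ne (M.ne0 p))

theorem Mn.conj_y (H : HF τ h0 P) (ne : ∀ i : I, -i ≠ i) (A : HA τ h0 P y z ρ) {g : Γ} {π : I → I} {c : I → K} (M : Mn ρ g π c) {p q : I} (h1 : p ≠ q)
    (h2 : p ≠ -q) (a : K) : ρ (g * y p q a * g⁻¹) = ρ (y (π p) (π q) (c p * τ (c q) * a)) := by
  have h1' : π p ≠ π q := fun e => h1 (M.inj e)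
  have h2' : π p ≠ -π q := fun e => h2 (M.inj (by rw [e, M.neg]))
  have key : ρ (g * y p q a) = ρ (y (π p) (π q) (c p * τ (c q) * a) * g) := by
    apply LinearEquiv.toLinearMap_injective
    apply ext_eh'
    · intro x
      change ρ (g * y p q a) (eh x) = ρ (y (π p) (π q) (c p * τ (c q) * a) * g) (eh x)
      rw [hrho_mul, hrho_mul, act_y_ee A h1 h2, map_sub, map_add, map_smul, map_smul, M.act, M.act, M.act, map_smul,
        act_y_ee A h1' h2']
      have b1 : (π x = -π q) ↔ (x = -q) := by rw [← M.neg, M.inj.eq_iff]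
      have b2 : (π x = -π p) ↔ (x = -p) := by rw [← M.neg, M.inj.eq_iff]
      simp only [b1, b2, smul_add, smul_sub, smul_smul]
      have f1 := M.frm H A
      congr 1
      · congr 1
        by_cases h : x = -q
        · subst h
          rw [if_pos rfl, if_pos rfl]
          congr 1
          linear_combination (-a * c p) * f1 q
        · rw [if_neg h, if_neg h]; simp
      · by_cases h : x = -p
        · subst h
          rw [if_pos rfl, if_pos rfl]
          congr 1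
          rw [map_mul, map_mul, H.ττ]
          linear_combination (-τ a * c q) * f1 p
        · rw [if_neg h, if_neg h]; simp
    · intro w
      change ρ (g * y p q a) (Stb.wh w) = ρ (y (π p) (π q) (c p * τ (c q) * a) * g) (Stb.wh w)
      rw [hrho_mul, hrho_mul, act_y_wh A h1 h2, M.wh H A, act_y_wh A h1' h2']
  rw [map_mul, key, ← map_mul, mul_inv_cancel_right]

theorem Mn.conj_z (H : HF τ h0 P) (ne : ∀ i : I, -i ≠ i) (A : HA τ h0 P y z ρ) {g : Γ} {π : I → I} {c : I → K} (M : Mn ρ g π c) (p : I) {w : W} {e : K}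
    (hP : P w e) (hP' : P (τ (c p) • (ρ g (Stb.wh w)).2) (c p * τ (c p) * e)) :
    ρ (g * z p w e * g⁻¹) = ρ (z (π p) (τ (c p) • (ρ g (Stb.wh w)).2) (c p * τ (c p) * e)) := by
  have key : ρ (g * z p w e) = ρ (z (π p) (τ (c p) • (ρ g (Stb.wh w)).2) (c p * τ (c p) * e) * g) := by
    have f1 := M.frm H A
    have f2 : c p * τ (c (-p)) = 1 := by
      have := f1 (-p)
      rw [neg_neg] at this
      rw [mul_comm]; exact this
    apply LinearEquiv.toLinearMap_injective
    apply ext_eh'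
    · intro x
      change ρ (g * z p w e) (eh x) = ρ (z (π p) (τ (c p) • (ρ g (Stb.wh w)).2) (c p * τ (c p) * e) * g) (eh x)
      rw [hrho_mul, hrho_mul, act_z_ee A H hP, map_add, map_add, map_smul, map_smul, M.act, M.act, map_smul,
        act_z_ee A H hP', M.wh H A w]
      have b1 : (π x = -π p) ↔ (x = -p) := by rw [← M.neg, M.inj.eq_iff]
      simp only [b1, smul_add, smul_smul]
      have whs : ∀ (b : K) (u : W), (Stb.wh (b • u) : (I → K) × W) = b • Stb.wh u := by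
        intro b u
        refine Prod.ext ?_ rfl
        funext q; simp [Stb.wh]
      by_cases h : x = -p
      · subst h
        simp only [if_true, whs, smul_smul]
        have e1 : c (-p) * (c p * τ (c p) * e) = c p * e := by linear_combination (c p * e) * f1 p
        have e2 : c (-p) * 1 * τ (c p) = 1 := by linear_combination f1 p
        rw [e1, e2, one_smul, mul_comm e, one_smul]
        rfl
      · simp only [if_neg h, mul_zero, zero_smul, zero_mul]
    · intro u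
      change ρ (g * z p w e) (Stb.wh u) = ρ (z (π p) (τ (c p) • (ρ g (Stb.wh w)).2) (c p * τ (c p) * e) * g) (Stb.wh u)
      have h3 := A.form g (Stb.wh w) (Stb.wh u)
      rw [M.wh H A w, M.wh H A u] at h3
      have h4 : ∀ a b : W, hh τ h0 (Stb.wh a : (I → K) × W) (Stb.wh b) = h0 a b := by
        intro a b
        unfold hh
        rw [Finset.sum_eq_zero, zero_add]
        · rfl
        · intro i _
          change τ 0 * 0 = 0
          rw [mul_zero]
      rw [h4, h4] at h3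
      rw [hrho_mul, hrho_mul, act_z_wh A hP, map_sub, map_smul, M.act, M.wh H A u, act_z_wh A hP', H.smul_left, H.ττ, h3,
        smul_smul, mul_comm (h0 w u)]
  rw [map_mul, key, ← map_mul, mul_inv_cancel_right]

end mon

attribute [local instance] Stb.sumNeg

section ts
variable {F : Type v} [Field F] {l : Type} [Fintype l] [DecidableEq l] {W Δ : Type*} [AddCommGroup W] [Module F W] [Group Δ]
variable {τ : F →+* F} {ν : F} {μ : Matrix.SpecialLinearGroup l F →* Δ} {S : l → Δ}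
variable {h0 : W → W → F} {P : W → F → Prop} {z : (l ⊕ l) → W → F → Δ}
variable {ρ : Δ →* (((l ⊕ l → F) × W) ≃ₗ[F] ((l ⊕ l → F) × W))}

theorem y_lr {i j : l} (h : i ≠ j) (a : F) : yu ν μ S (Sum.inl i) (Sum.inr j) a = μ (tvl h a) := by
  change (1 * 1) * Om.XX μ i j (1 * 1 * a) * (1 * 1)⁻¹ = _
  rw [Om.XX_eq h]; simp

variable (H : HF τ h0 P) (R : HR τ h0 P (yu ν μ S) z) (A : HA τ h0 P (yu ν μ S) z ρ)

include R in
theorem y_rl {i j : l} (h : i ≠ j) (a : F) : yu ν μ S (Sum.inr i) (Sum.inl j) a = μ (tvl h.symm (-τ a)) := by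
  rw [R.symm Sum.inr_ne_inl (rl_ne h), y_lr h.symm]

include A in
theorem mu_act (M : Matrix.SpecialLinearGroup l F) (v : (l ⊕ l → F) × W) :
    (fun x => (ρ (μ M) v).1 (Sum.inl x)) = (M : Matrix l l F).mulVec (fun x => v.1 (Sum.inl x)) := by
  let K : Subgroup (Matrix.SpecialLinearGroup l F) :=
    { carrier := {M | ∀ v : (l ⊕ l → F) × W, (fun x => (ρ (μ M) v).1 (Sum.inl x)) = (M : Matrix l l F).mulVec (fun x => v.1 (Sum.inl x))}
      one_mem' := by
        intro v
        rw [map_one, map_one, Matrix.SpecialLinearGroup.coe_one, Matrix.one_mulVec]; rfl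
      mul_mem' := by
        intro M N hM hN v
        rw [map_mul, hrho_mul, hM, hN, Matrix.SpecialLinearGroup.coe_mul, Matrix.mulVec_mulVec]
      inv_mem' := by
        intro M hM v
        have h1 := hM (ρ (μ M⁻¹) v)
        have h2 : ρ (μ M) (ρ (μ M⁻¹) v) = v := by
          rw [← hrho_mul, ← map_mul, mul_inv_cancel, map_one, map_one]; rfl
        rw [h2] at h1
        rw [h1, Matrix.mulVec_mulVec, ← Matrix.SpecialLinearGroup.coe_mul, inv_mul_cancel, Matrix.SpecialLinearGroup.coe_one,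
          Matrix.one_mulVec] }
  have hK : K = ⊤ := by
    apply H40.sl_eq_top_of_transvections
    intro i j hij a v
    change (fun x => (ρ (μ (tvl hij a)) v).1 (Sum.inl x)) = _
    rw [← y_lr (ν := ν) (S := S) hij, A.act_y Sum.inl_ne_inr (lr_ne hij)]
    funext x
    have hx : (Sum.inl x : l ⊕ l) ≠ Sum.inr j := Sum.inl_ne_inr
    simp only [if_neg hx, sub_zero]
    change _ = (Matrix.transvection i j a).mulVec (fun x => v.1 (Sum.inl x)) x
    rw [Matrix.transvection, Matrix.add_mulVec, Matrix.one_mulVec, Pi.add_apply]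
    congr 1
    by_cases e : x = i
    · subst e
      rw [if_pos rfl]
      simp [Matrix.single_mulVec]
      exact Or.inl rfl
    · rw [if_neg (fun e' => e (Sum.inl_injective e'))]
      simp [Matrix.single_mulVec, Function.update, e]
  have : M ∈ K := by rw [hK]; exact mem_top _
  exact this v

include H R A in
theorem nM {i j : l} (h : i ≠ j) (c : Fˣ) :
    μ (emb2 h (xm (c : F) * ym (-(c : F)⁻¹) * xm (c : F))) ∈ HMM P (yu ν μ S) z ρ (Sum.inl i) (Sum.inr j) := by
  have hc := c.ne_zero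
  have htc : τ (c : F) ≠ 0 := H.τ_ne hc
  have n1 : (Sum.inr i : l ⊕ l) ≠ Sum.inl j := Sum.inr_ne_inl
  have n2 : (Sum.inr i : l ⊕ l) ≠ -(Sum.inl j) := rl_ne h
  have h1 := hn_y_aux H A R.ne (i := Sum.inr i) (j := Sum.inl j) n1 n2 (a := (τ (c : F))⁻¹) (inv_ne_zero htc)
  have e1 : (τ (τ (c : F))⁻¹)⁻¹ = c := by rw [map_inv₀, H.ττ, inv_inv]
  rw [e1] at h1
  have e2 : yu ν μ S (-(Sum.inr i)) (-(Sum.inl j)) (c : F) = μ (emb2 h (xm (c : F))) := by
    rw [emb2_xm]; exact y_lr h _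
  have e3 : yu ν μ S (Sum.inr i) (Sum.inl j) (τ (c : F))⁻¹ = μ (emb2 h (ym (-(c : F)⁻¹))) := by
    rw [y_rl R h, emb2_ym, map_inv₀, H.ττ]
  have h2 : μ (emb2 h (xm (c : F) * ym (-(c : F)⁻¹) * xm (c : F))) ∈ HMM P (yu ν μ S) z ρ (Sum.inr i) (Sum.inl j) := by
    rw [map_mul, map_mul, map_mul, map_mul, ← e2, ← e3]
    exact ⟨⟨_, HR.y_mem (fun e => Sum.inl_ne_inr e) (lr_ne h) _, _, HR.y_mem n1 n2 _, _, HR.y_mem (fun e => Sum.inl_ne_inr e) (lr_ne h) _, rfl⟩, h1⟩
  exact HMM_neg H R A n2 h2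

include H R A in
theorem DT {i j : l} (h : i ≠ j) (c : Fˣ) : μ (emb2 h (hm c)) ∈ (hcln H R A).T := by
  rw [Or.hm_word, map_mul, map_mul]
  have h1 := nM H R A h c
  have h2 := nM H R A h (-1)
  refine (hcln H R A).mul_mem_T (lr_ne h) h1 ?_
  convert h2 using 6
  · simp
  · simp
  · simp

/-- flips in terms of long root elements -/
def FF (ν : F) (S : l → Δ) (z : (l ⊕ l) → W → F → Δ) : Prop :=
  ∀ i, S i = z (Sum.inl i) 0 (-ν⁻¹) * z (Sum.inr i) 0 ν * z (Sum.inl i) 0 (-ν⁻¹)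

include H R A in
theorem S_M (T : Tau τ) (hν : τ ν = -ν) (ν0 : ν ≠ 0) (hF : FF ν S z) (i : l) : S i ∈ HMM P (yu ν μ S) z ρ (Sum.inl i) (Sum.inl i) := by
  have n1 : (Sum.inr i : l ⊕ l) ≠ -(Sum.inr i) := rr_ne i i
  have hP0 : P 0 ν := by
    obtain ⟨e, he⟩ := T.skew hν
    rw [← he]; exact H.P_skew e
  have hn := hn_z_aux H A R.ne (i := Sum.inr i) hP0 ν0
  rw [smul_zero, smul_zero, hν, inv_neg] at hn
  have h2 : S i ∈ HMM P (yu ν μ S) z ρ (Sum.inr i) (Sum.inr i) := by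
    rw [hF i]
    have hP1 : P 0 (-ν⁻¹) := by
      have := H.P1 hP0 ν0
      rwa [smul_zero, hν, inv_neg] at this
    exact ⟨⟨_, HR.z_mem _ hP1, _, HR.z_mem _ hP0, _, HR.z_mem _ hP1, rfl⟩, hn⟩
  exact HMM_neg H R A n1 h2

/-- the short torus -/
def TS (μ : Matrix.SpecialLinearGroup l F →* Δ) (S : l → Δ) : Subgroup Δ :=
  closure ({g | ∃ (i j : l) (h : i ≠ j) (c : Fˣ), μ (emb2 h (hm c)) = g} ∪ {g | ∃ (i j : l) (h : i ≠ j) (c : Fˣ), HH μ S h c = g})

theorem D_TS {i j : l} (h : i ≠ j) (c : Fˣ) : μ (emb2 h (hm c)) ∈ TS μ S := subset_closure (Or.inl ⟨i, j, h, c, rfl⟩)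
theorem H_TS {i j : l} (h : i ≠ j) (c : Fˣ) : HH μ S h c ∈ TS μ S := subset_closure (Or.inr ⟨i, j, h, c, rfl⟩)

include H R A in
/-- products of elements inducing a short reflection, positive case -/
theorem short1 {i j : l} (h : i ≠ j) {m m' : Δ} (hm1 : m ∈ HMM P (yu ν μ S) z ρ (Sum.inl i) (Sum.inr j))
    (hm2 : m' ∈ HMM P (yu ν μ S) z ρ (Sum.inl i) (Sum.inr j)) : ∃ c : Fˣ, m * m' = μ (emb2 h (hm c)) := by
  have n1 : (Sum.inl i : l ⊕ l) ≠ -(Sum.inr j) := lr_ne h
  have key : ∀ m ∈ HMM P (yu ν μ S) z ρ (Sum.inl i) (Sum.inr j), ∃ B, m = μ (emb2 h B) := by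
    rintro m ⟨⟨a, ha, x, hx, b, hb, rfl⟩, -⟩
    have f1 : ∀ a ∈ HX P (yu ν μ S) z (-(Sum.inl i)) (-(Sum.inr j)), ∃ B, a = μ (emb2 h B) := by
      intro a ha
      obtain ⟨u, rfl⟩ := (R.mem_Xs (fun e => Sum.inr_ne_inl e) (rl_ne h)).1 ha
      exact ⟨ym (-τ u), by rw [emb2_ym]; exact y_rl R h u⟩
    obtain ⟨A1, e1⟩ := f1 a ha
    obtain ⟨A3, e3⟩ := f1 b hb
    obtain ⟨u, rfl⟩ := (R.mem_Xs Sum.inl_ne_inr n1).1 hx
    refine ⟨A1 * xm u * A3, ?_⟩
    rw [e1, e3, y_lr h, ← emb2_xm h, map_mul, map_mul, map_mul, map_mul]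
  obtain ⟨B1, e1⟩ := key m hm1
  obtain ⟨B2, e2⟩ := key m' hm2
  have hst : ∀ o, m * m' ∈ HSt ρ o := fun o => hT_St H R A o ((hcln H R A).mul_mem_T n1 hm1 hm2)
  set B := B1 * B2 with hB
  have e3 : m * m' = μ (emb2 h B) := by rw [e1, e2, hB, map_mul, map_mul]
  have col : ∀ x y : l, x ≠ y → (emb2 h B : Matrix.SpecialLinearGroup l F) x y = 0 := by
    intro x y hxy
    obtain ⟨c, hc⟩ := hst (Sum.inl y)
    have h4 := congrFun (mu_act A (emb2 h B) (eh (Sum.inl y))) x
    rw [← e3, hc] at h4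
    have h5 : (fun x' => (eh (Sum.inl y) : (l ⊕ l → F) × W).1 (Sum.inl x')) = Pi.single y 1 := by
      funext x'
      rw [eh_fst, Pi.single_apply]
      simp only [Sum.inl.injEq]
    rw [h5, Matrix.mulVec_single_one] at h4
    rw [Prod.smul_fst, Pi.smul_apply, eh_fst, if_neg (fun e => hxy (Sum.inl_injective e)), smul_zero] at h4
    exact h4.symm
  have b01 : (B : Matrix (Fin 2) (Fin 2) F) 0 1 = 0 := by
    have := col i j h
    have e4 := emb_apply ![i, j] (inj2 h) B 0 1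
    rw [← e4]; exact this
  have b10 : (B : Matrix (Fin 2) (Fin 2) F) 1 0 = 0 := by
    have := col j i h.symm
    have e4 := emb_apply ![i, j] (inj2 h) B 1 0
    rw [← e4]; exact this
  have hdet := B.2
  rw [Matrix.det_fin_two] at hdet
  have b01' : B.1 0 1 = 0 := b01
  rw [b01', zero_mul, sub_zero] at hdet
  have ha : B.1 0 0 ≠ 0 := fun e => by rw [e, zero_mul] at hdet; exact zero_ne_one hdet
  refine ⟨Units.mk0 _ ha, ?_⟩
  rw [e3]
  congr 2
  apply slext
  ext x y
  fin_cases x <;> fin_cases y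
  · rfl
  · exact b01
  · exact b10
  · change B.1 1 1 = ((Units.mk0 _ ha)⁻¹ : Fˣ)
    rw [Units.val_inv_eq_inv_val]
    exact eq_inv_of_mul_eq_one_right hdet

variable (U : UH τ ν μ S)

include H R A U in
/-- products of elements inducing a short reflection, second case -/
theorem short2 (hF : FF ν S z) {i j : l} (h : i ≠ j) {m m' : Δ} (hm1 : m ∈ HMM P (yu ν μ S) z ρ (Sum.inl i) (Sum.inl j))
    (hm2 : m' ∈ HMM P (yu ν μ S) z ρ (Sum.inl i) (Sum.inl j)) : m * m' ∈ TS μ S := by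
  have hj := S_M H R A U.T U.hν U.ν0 hF j
  have C := hcln H R A
  have n1 : (Sum.inl j : l ⊕ l) ≠ -(Sum.inl j) := ll_ne j j
  have n2 : (Sum.inl i : l ⊕ l) ≠ -(Sum.inl j) := ll_ne i j
  have e1 : rf (Sum.inl j : l ⊕ l) (Sum.inl j) (Sum.inl i) = Sum.inl i :=
    rf_of_ne (fun e => h (Sum.inl_injective e)) (fun e => h (Sum.inl_injective e)) n2 n2
  have e2 : rf (Sum.inl j : l ⊕ l) (Sum.inl j) (Sum.inl j) = Sum.inr j := by unfold rf; rw [if_pos rfl]; rfl
  have key : ∀ m ∈ HMM P (yu ν μ S) z ρ (Sum.inl i) (Sum.inl j), (S j)⁻¹ * m * S j ∈ HMM P (yu ν μ S) z ρ (Sum.inl i) (Sum.inr j) := by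
    intro m hm
    have := C.M_M _ _ n1 _ _ n2 (S j)⁻¹ (C.M_inv _ _ n1 _ hj) m hm
    rw [e1, e2, inv_inv] at this
    exact this
  obtain ⟨c, hc⟩ := short1 H R A h (key m hm1) (key m' hm2)
  have e3 : m * m' = S j * μ (emb2 h (hm c)) * (S j)⁻¹ := by rw [← hc]; group
  have e4 := U.conjD h.symm c⁻¹
  rw [emb2_symm_hm h, inv_inv] at e4
  rw [e3, e4]
  exact mul_mem (H_TS h.symm _) (D_TS h c)

include H R A U in
theorem short (hF : FF ν S z) {k k' : l ⊕ l} (h1 : k ≠ k') (h2 : k ≠ -k') {m m' : Δ} (hm1 : m ∈ HMM P (yu ν μ S) z ρ k k')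
    (hm2 : m' ∈ HMM P (yu ν μ S) z ρ k k') : m * m' ∈ TS μ S := by
  have C := hcln H R A
  rcases k with i | i <;> rcases k' with j | j
  · exact short2 H R A U hF (fun e => h1 (by rw [e])) hm1 hm2
  · have h : i ≠ j := fun e => h2 (by rw [e]; rfl)
    obtain ⟨c, hc⟩ := short1 H R A h hm1 hm2
    rw [hc]; exact D_TS h c
  · have h : i ≠ j := fun e => h2 (by rw [e]; rfl)
    have e := C.Mn (Sum.inl i) (Sum.inr j) (lr_ne h)
    have hm1' : m ∈ HMM P (yu ν μ S) z ρ (Sum.inl i) (Sum.inr j) := by rw [← e]; exact hm1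
    have hm2' : m' ∈ HMM P (yu ν μ S) z ρ (Sum.inl i) (Sum.inr j) := by rw [← e]; exact hm2
    obtain ⟨c, hc⟩ := short1 H R A h hm1' hm2'
    rw [hc]; exact D_TS h c
  · have h : i ≠ j := fun e => h1 (by rw [e])
    have e := C.Mn (Sum.inl i) (Sum.inl j) (ll_ne i j)
    have hm1' : m ∈ HMM P (yu ν μ S) z ρ (Sum.inl i) (Sum.inl j) := by rw [← e]; exact hm1
    have hm2' : m' ∈ HMM P (yu ν μ S) z ρ (Sum.inl i) (Sum.inl j) := by rw [← e]; exact hm2
    exact short2 H R A U hF h hm1' hm2'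

/-- diagonal matrices -/
def DC (l : Type) [Fintype l] [DecidableEq l] (F : Type v) [Field F] : Subgroup (Matrix.SpecialLinearGroup l F) :=
  closure {g | ∃ (i j : l) (h : i ≠ j) (c : Fˣ), emb2 h (hm c) = g}

theorem DC_mo {M : Matrix.SpecialLinearGroup l F} (hM : M ∈ DC l F) (x : l) : ∃ u : Fˣ, Mo M x x u := by
  unfold DC at hM
  induction hM using closure_induction with
  | mem M hM =>
    obtain ⟨i, j, h, c, rfl⟩ := hM
    by_cases h1 : x = i
    · subst h1; exact ⟨c, Mo_emb2_fst h c⟩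
    by_cases h2 : x = j
    · subst h2; exact ⟨c⁻¹, Mo_emb2_snd h c⟩
    exact ⟨1, Mo_emb2_out h h1 h2 _⟩
  | one => exact ⟨1, Mo.one x⟩
  | mul a b _ _ ha hb =>
    obtain ⟨u, hu⟩ := ha
    obtain ⟨v, hv⟩ := hb
    exact ⟨u * v, hu.mul hv⟩
  | inv a _ ha =>
    obtain ⟨u, hu⟩ := ha
    exact ⟨u⁻¹, hu.inv⟩

include U in
theorem DC_comm {i j : l} (h : i ≠ j) (c : Fˣ) {M : Matrix.SpecialLinearGroup l F} (hM : M ∈ DC l F) :
    Commute (HH μ S h c) (μ M) := by
  unfold DC at hM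
  induction hM using closure_induction with
  | mem M hM =>
    obtain ⟨a, b, h', c', rfl⟩ := hM
    exact U.hC h c h' c'
  | one => rw [map_one]; exact Commute.one_right _
  | mul a b _ _ ha hb => rw [map_mul]; exact ha.mul_right hb
  | inv a _ ha => rw [map_inv]; exact ha.inv_right

include U in
theorem H_one {i j : l} (h : i ≠ j) : HH μ S h 1 = 1 := by
  unfold HH; rw [hm_one, map_one, map_one]; group

include U in
theorem H_inv {i j : l} (h : i ≠ j) (c : Fˣ) : (HH μ S h c)⁻¹ = HH μ S h c⁻¹ := by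
  rw [inv_eq_iff_mul_eq_one, ← U.hmul, mul_inv_cancel, H_one U h]

include U in
theorem TS_form {o o' : l} (h : o ≠ o') {g : Δ} (hg : g ∈ TS μ S) : ∃ M ∈ DC l F, ∃ c : Fˣ, g = μ M * HH μ S h c := by
  have hgen : ∀ {i j : l} (h' : i ≠ j) (c : Fˣ), ∃ M ∈ DC l F, ∃ d : Fˣ, HH μ S h' c = μ M * HH μ S h d := by
    intro i j h' c
    by_cases e : i = o
    · subst e
      exact ⟨1, one_mem _, c, by rw [map_one, one_mul]; exact U.hi h' h c⟩
    · have e1 := U.hrel (Ne.symm e) c⁻¹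
      rw [inv_inv] at e1
      refine ⟨emb2 (Ne.symm e) (hm (nn τ c⁻¹)⁻¹), subset_closure ⟨o, i, Ne.symm e, _, rfl⟩, c, ?_⟩
      rw [U.hi h' e, ← e1, U.hi h (Ne.symm e), mul_assoc, ← U.hmul, inv_mul_cancel, H_one U, mul_one]
  unfold TS at hg
  induction hg using closure_induction with
  | mem x hx =>
    rcases hx with ⟨i, j, h', c, rfl⟩ | ⟨i, j, h', c, rfl⟩
    · exact ⟨_, subset_closure ⟨i, j, h', c, rfl⟩, 1, by rw [H_one U, mul_one]⟩
    · exact hgen h' c
  | one => exact ⟨1, one_mem _, 1, by rw [H_one U, map_one, mul_one]⟩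
  | mul a b _ _ ha hb =>
    obtain ⟨M, hM, c, rfl⟩ := ha
    obtain ⟨N, hN, d, rfl⟩ := hb
    refine ⟨M * N, mul_mem hM hN, c * d, ?_⟩
    rw [U.hmul, map_mul]
    calc μ M * HH μ S h c * (μ N * HH μ S h d) = μ M * (HH μ S h c * μ N) * HH μ S h d := by group
      _ = _ := by rw [(DC_comm U h c hN).eq]; group
  | inv a _ ha =>
    obtain ⟨M, hM, c, rfl⟩ := ha
    refine ⟨M⁻¹, inv_mem hM, c⁻¹, ?_⟩
    rw [mul_inv_rev, H_inv U, ← map_inv, (DC_comm U h c⁻¹ (inv_mem hM)).eq]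

include A in
theorem DC_act {M : Matrix.SpecialLinearGroup l F} {x : l} {u : Fˣ} (hu : Mo M x x u) {c : F}
    (hc : ρ (μ M) (eh (Sum.inl x)) = c • eh (Sum.inl x)) : c = u := by
  have h4 := congrFun (mu_act A M (eh (Sum.inl x))) x
  rw [hc] at h4
  have h5 : (fun x' => (eh (Sum.inl x) : (l ⊕ l → F) × W).1 (Sum.inl x')) = Pi.single x 1 := by
    funext x'
    rw [eh_fst, Pi.single_apply]
    simp only [Sum.inl.injEq]
  rw [h5, Matrix.mulVec_single_one] at h4
  rw [Prod.smul_fst, Pi.smul_apply, eh_fst, if_pos rfl, smul_eq_mul, mul_one] at h4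
  rw [h4]
  change (M : Matrix l l F) x x = u
  rw [hu.1, if_pos rfl]

include H R A in
/-- the monomial action of the diagonal elements -/
theorem D_Mn {M : Matrix.SpecialLinearGroup l F} (hM : M ∈ DC l F) : ∃ c : l ⊕ l → F, Mn ρ (μ M) id c ∧
    ∀ (x : l) (u : Fˣ), Mo M x x u → c (Sum.inl x) = u ∧ c (Sum.inr x) = (τ (u : F))⁻¹ := by
  have hT : μ M ∈ (hcln H R A).T := by
    unfold DC at hM
    induction hM using closure_induction with
    | mem M hM =>
      obtain ⟨a, b, h', c', rfl⟩ := hM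
      exact DT H R A h' c'
    | one => rw [map_one]; exact one_mem _
    | mul a b _ _ ha hb => rw [map_mul]; exact mul_mem ha hb
    | inv a _ ha => rw [map_inv]; exact inv_mem ha
  have hst : ∀ o, ∃ c : F, ρ (μ M) (eh o) = c • eh o := fun o => hT_St H R A o hT
  choose c hc using hst
  have hMn : Mn ρ (μ M) id c := ⟨fun _ => rfl, Function.injective_id, hc⟩
  refine ⟨c, hMn, fun x u hu => ?_⟩
  have h1 := DC_act A hu (hc (Sum.inl x))
  refine ⟨h1, ?_⟩
  have h2 := hMn.frm H A (Sum.inl x)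
  rw [h1] at h2
  exact eq_inv_of_mul_eq_one_right h2

include H R A U in
theorem H_act (hF : FF ν S z) {o o' : l} (h : o ≠ o') (c : Fˣ) (x : l) :
    ρ (HH μ S h c) (eh (Sum.inl x)) = (if x = o then (((nn τ c)⁻¹ : Fˣ) : F) else 1) • eh (Sum.inl x) := by
  obtain ⟨d, hd, hd2⟩ := D_Mn H R A (M := emb2 h (hm c)) (subset_closure ⟨o, o', h, c, rfl⟩)
  have hS := (S_M H R A U.T U.hν U.ν0 hF o).2
  choose e he using hS
  have hSn := fun p => hswap_inv' (he p)
  have hDn := fun p => hswap_inv' (hd.act p)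
  have e0 := fun p => hswap_ne (he p)
  have d0 := fun p => hswap_ne (hd.act p)
  unfold HH
  rw [hrho_mul, hrho_mul, hrho_mul]
  have hxx := hDn (Sum.inl x)
  change ρ (μ (emb2 h (hm c)))⁻¹ (eh (Sum.inl x)) = _ • eh (Sum.inl x) at hxx
  rw [hxx, map_smul, map_smul, map_smul]
  by_cases hx : x = o
  · subst hx
    have r1 : rf (Sum.inl x : l ⊕ l) (Sum.inl x) (Sum.inr x) = Sum.inl x := by unfold rf; simp; rfl
    have s1 := hSn (Sum.inr x)
    have s2 := he (Sum.inr x)
    rw [r1] at s1 s2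
    have s3 := hd.act (Sum.inr x)
    change ρ (μ (emb2 h (hm c))) (eh (Sum.inr x)) = _ • eh (Sum.inr x) at s3
    rw [s1, map_smul, map_smul, s3, map_smul, s2, if_pos rfl]
    obtain ⟨k1, k2⟩ := hd2 x c (Mo_emb2_fst h c)
    rw [smul_smul, smul_smul, smul_smul, k1, k2]
    congr 1
    have := e0 (Sum.inr x)
    rw [Units.val_inv_eq_inv_val, nn_coe, mul_inv]
    field_simp
  · have r1 : rf (Sum.inl o : l ⊕ l) (Sum.inl o) (Sum.inl x) = Sum.inl x :=
      rf_of_ne (fun e => hx (Sum.inl_injective e)) (fun e => hx (Sum.inl_injective e)) (ll_ne x o) (ll_ne x o)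
    have s1 := hSn (Sum.inl x)
    have s2 := he (Sum.inl x)
    rw [r1] at s1 s2
    have s3 := hd.act (Sum.inl x)
    change ρ (μ (emb2 h (hm c))) (eh (Sum.inl x)) = _ • eh (Sum.inl x) at s3
    rw [s1, map_smul, map_smul, s3, map_smul, s2, if_neg hx, smul_smul, smul_smul, smul_smul]
    congr 1
    have k1 := e0 (Sum.inl x)
    have k2 := d0 (Sum.inl x)
    field_simp

include H R A U in
/-- the short torus acts faithfully -/
theorem TS_inj (hF : FF ν S z) {g : Δ} (hg : g ∈ TS μ S) (h1 : ∀ x : l, ρ g (eh (Sum.inl x)) = eh (Sum.inl x)) [Nonempty l] : g = 1 := by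
  obtain ⟨o⟩ := (inferInstance : Nonempty l)
  obtain ⟨o', ho'⟩ := U.two o
  obtain ⟨M, hM, c, rfl⟩ := TS_form U ho'.symm hg
  obtain ⟨d, hd, hd2⟩ := D_Mn H R A hM
  have hu := DC_mo hM
  choose u hu using hu
  have key : ∀ x : l, (u x : F) = if x = o then ((nn τ c : Fˣ) : F) else 1 := by
    intro x
    have h2 := h1 x
    have h3 := hd.act (Sum.inl x)
    change ρ (μ M) (eh (Sum.inl x)) = _ • eh (Sum.inl x) at h3
    rw [hrho_mul, H_act H R A U hF, map_smul, h3, (hd2 x (u x) (hu x)).1, smul_smul] at h2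
    have h4 := congrFun (congrArg Prod.fst h2) (Sum.inl x)
    rw [Prod.smul_fst, Pi.smul_apply, eh_fst, if_pos rfl, smul_eq_mul, mul_one] at h4
    by_cases hx : x = o
    · rw [if_pos hx] at h4 ⊢
      have := congrArg (fun t => ((nn τ c : Fˣ) : F) * t) h4
      simp only [mul_one] at this
      rwa [← mul_assoc, Units.mul_inv, one_mul] at this
    · rw [if_neg hx] at h4 ⊢
      rwa [one_mul] at h4
  have hMd : (M : Matrix l l F) = Matrix.diagonal (fun x => (u x : F)) := by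
    ext x y
    rw [(hu y).1, Matrix.diagonal_apply]
    by_cases e : x = y
    · rw [if_pos e, if_pos e, e]
    · rw [if_neg e, if_neg e]
  have hdet := M.2
  have hMd' : M.1 = Matrix.diagonal (fun x => (u x : F)) := hMd
  rw [hMd', Matrix.det_diagonal] at hdet
  simp only [key] at hdet
  rw [Finset.prod_ite_eq' Finset.univ o, if_pos (Finset.mem_univ _)] at hdet
  have hn : nn τ c = 1 := Units.ext hdet
  have hM1 : M = 1 := by
    apply Subtype.ext
    rw [hMd']
    simp only [key, hn, Units.val_one, ite_self]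
    rw [Matrix.SpecialLinearGroup.coe_one, Matrix.diagonal_one]
  rw [hM1, U.h_one _ hn, map_one, one_mul]

end ts

end Cfsg.Agent.GK.Un
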