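import Cfsg.Agent.GK.Un7

/-!
Elements inducing long reflections; the torus without anisotropic part.
-/

set_option autoImplicit false
set_option linter.unusedSectionVars false
set_option linter.unusedVariables false
set_option linter.unusedSimpArgs false

namespace Cfsg.Agent.GK.Un

open Subgroup Cfsg.Agent.Stb
open scoped commutatorElement
open Om (Mo_emb2_fst Mo_emb2_snd Mo_emb2_out)

universe v

section lg
variable {I K W Γ : Type*} [InvolutiveNeg I] [DecidableEq I] [Field K] [AddCommGroup W] [Module K W] [Group Γ] [Fintype I]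
variable {τ : K →+* K} {h0 : W → W → K} {P : W → K → Prop} {y : I → I → K → Γ} {z : I → W → K → Γ}
variable {ρ : Γ →* (((I → K) × W) ≃ₗ[K] ((I → K) × W))}
variable (H : HF τ h0 P) (R : HR τ h0 P y z) (A : HA τ h0 P y z ρ)

/-- the long reflection elements -/
def nz (τ : K →+* K) (z : I → W → K → Γ) (i : I) (w : W) (e : K) : Γ :=
  z (-i) ((-e⁻¹) • w) (τ e)⁻¹ * z i w e * z (-i) ((-(τ e)⁻¹) • w) (τ e)⁻¹

/-- coefficients in a three dimensional space -/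
theorem coef {i : I} (ne : -i ≠ i) {a b a' b' : K} {w w' : W}
    (h : a • (eh i : (I → K) × W) + b • eh (-i) + wh w = a' • eh i + b' • eh (-i) + wh w') : a = a' ∧ b = b' ∧ w = w' := by
  have h1 := congrFun (congrArg Prod.fst h) i
  have h2 := congrFun (congrArg Prod.fst h) (-i)
  have h3 := congrArg Prod.snd h
  simp only [Prod.fst_add, Prod.smul_fst, Pi.add_apply, Pi.smul_apply, eh_fst, smul_eq_mul, if_true, mul_one, if_neg ne,
    if_neg ne.symm, mul_zero, add_zero, zero_add, wh, Pi.zero_apply] at h1 h2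
  simp only [Prod.snd_add, Prod.smul_snd, eh_snd, wh, smul_zero, zero_add] at h3
  exact ⟨h1, h2, h3⟩

include A H R in
theorem z_inj {i : I} {w w' : W} {e e' : K} (hP : P w e) (hP' : P w' e') (h : ρ (z i w e) = ρ (z i w' e')) : w = w' ∧ e = e' := by
  have h1 : ρ (z i w e) (eh (-i)) = ρ (z i w' e') (eh (-i)) := by rw [h]
  rw [act_z_ee A H hP, act_z_ee A H hP'] at h1
  simp only [if_true, one_smul] at h1
  have h2 : e • (eh i : (I → K) × W) + (1 : K) • eh (-i) + wh w = e' • eh i + (1 : K) • eh (-i) + wh w' := by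
    rw [one_smul, add_comm (e • _), add_comm (e' • _)]; exact h1
  obtain ⟨a1, -, a3⟩ := coef (R.ne i) h2
  exact ⟨a3, a1⟩

include A H R in
theorem norm_form {i : I} {w : W} {e : K} (hP : P w e) {a b : Γ} (ha : a ∈ HX P y z (-i) (-i)) (hb : b ∈ HX P y z (-i) (-i))
    (hs : a * z i w e * b ∈ HSwap ρ i i) : e ≠ 0 ∧ a * z i w e * b = nz τ z i w e := by
  have ne := R.ne i
  have n1 : i ≠ -i := ne.symm
  have whs : ∀ (b : K) (u : W), (wh (b • u) : (I → K) × W) = b • wh u := by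
    intro b u
    refine Prod.ext ?_ rfl
    funext q; simp [wh]
  obtain ⟨w1, α, hP1, e1⟩ := (R.mem_Xl H).1 (inv_mem ha)
  obtain ⟨w2, β, hP2, e2⟩ := (R.mem_Xl H).1 hb
  obtain ⟨r1, -⟩ := rf_self1 (I := I) (i := i) (j := i) n1
  have r2 : rf i i (-i) = i := by rw [rf_neg R.ne _ _ _ n1, r1, neg_neg]
  -- the image of `-i`
  obtain ⟨k, hk⟩ := hs (-i)
  rw [r2] at hk
  have f1 : ρ b (eh (-i)) = eh (-i) := by
    rw [← e2, act_z_ee A H hP2, neg_neg, if_neg ne, if_neg ne]; simp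
  have f2 : ρ (z i w e) (eh (-i)) = k • ρ a⁻¹ (eh i) := by
    rw [← map_smul, ← hk, ← hrho_mul, ← f1, ← hrho_mul]
    rw [show a⁻¹ * (a * z i w e * b) = z i w e * b by group, f1]
  rw [← e1, act_z_ee A H hP, act_z_ee A H hP1, neg_neg] at f2
  simp only [if_true, one_smul] at f2
  have f3 : e • (eh i : (I → K) × W) + (1 : K) • eh (-i) + wh w = k • eh i + (k * α) • eh (-i) + wh (k • w1) := by
    rw [one_smul, add_comm (e • _), f2, whs, smul_add, smul_add, smul_smul]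
  obtain ⟨g1, g2, g3⟩ := coef ne f3
  have he : e ≠ 0 := by
    intro h0
    rw [g1] at h0
    rw [h0, zero_mul] at g2
    exact one_ne_zero g2
  have hα : α = e⁻¹ := by rw [← g1] at g2; exact (eq_inv_of_mul_eq_one_right g2.symm)
  have hw1 : w1 = e⁻¹ • w := by rw [g3, ← g1, smul_smul, inv_mul_cancel₀ he, one_smul]
  -- the image of `i`
  obtain ⟨k', hk'⟩ := hs i
  rw [r1] at hk'
  have f4 : ρ b (eh i) = k' • ρ (z i w e)⁻¹ (eh (-i)) := by
    have f5 : ρ a⁻¹ (eh (-i)) = eh (-i) := by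
      rw [← e1, act_z_ee A H hP1, neg_neg, if_neg ne, if_neg ne]; simp
    rw [← f5, ← map_smul, ← map_smul, ← hk', ← hrho_mul, ← hrho_mul]
    congr 2; group
  rw [R.zinv H i hP, ← e2, act_z_ee A H hP2, act_z_ee A H (H.P_inv hP), neg_neg] at f4
  simp only [if_true, one_smul] at f4
  have f6 : (1 : K) • (eh i : (I → K) × W) + β • eh (-i) + wh w2 = (k' * τ e) • eh i + k' • eh (-i) + wh (k' • (-w)) := by
    rw [one_smul, f4, whs, smul_add, smul_add, smul_smul, add_comm (k' • eh (-i))]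
  obtain ⟨g4, g5, g6⟩ := coef ne f6
  have hk2 : k' = (τ e)⁻¹ := eq_inv_of_mul_eq_one_left g4.symm
  refine ⟨he, ?_⟩
  unfold nz
  congr 1
  · congr 1
    rw [← inv_inv a, ← e1, R.zinv H _ hP1, hw1, hα, map_inv₀, neg_smul]
  · rw [← e2, g5, g6, hk2, smul_neg, neg_smul]

include A H R in
theorem nz_mem {i : I} {w : W} {e : K} (hP : P w e) (he : e ≠ 0) : nz τ z i w e ∈ HMM P y z ρ i i :=
  ⟨⟨_, HR.z_mem _ (H.P1 hP he), _, HR.z_mem _ hP, _, HR.z_mem _ (H.P2 hP he), rfl⟩, hn_z_aux H A R.ne hP he⟩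

include A H R in
theorem exists_nz {i : I} {m : Γ} (hm : m ∈ HMM P y z ρ i i) : ∃ w e, P w e ∧ e ≠ 0 ∧ m = nz τ z i w e := by
  obtain ⟨⟨a, ha, x, hx, b, hb, rfl⟩, hs⟩ := hm
  obtain ⟨w, e, hP, rfl⟩ := (R.mem_Xl H).1 hx
  obtain ⟨h1, h2⟩ := norm_form H R A hP ha hb hs
  exact ⟨w, e, hP, h1, h2⟩

/-- monomial elements normalizing the root groups -/
theorem hswap_conj_id (ne : ∀ i : I, -i ≠ i) {i : I} {g m : Γ} {c : I → K} (hg : Mn ρ g id c) (hm : m ∈ HSwap ρ i i) :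
    g * m * g⁻¹ ∈ HSwap ρ i i := by
  intro p
  obtain ⟨d, hd⟩ := hm p
  have h1 := hswap_inv' (hg.act p)
  have h2 := hg.act (rf i i p)
  change ρ g⁻¹ (eh p) = _ • eh p at h1
  change ρ g (eh (rf i i p)) = _ • eh (rf i i p) at h2
  exact ⟨_, by rw [hrho_mul, hrho_mul, h1, map_smul, map_smul, hd, map_smul, h2, smul_smul, smul_smul]⟩

include H R A in
/-- conjugating the long reflection elements by torus elements -/
theorem nz_conj {i : I} {w : W} {e : K} (hP : P w e) (he : e ≠ 0) {t : Γ} {c : I → K} (ht : t ∈ (hcln H R A).T) (hc : Mn ρ t id c) :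
    ∃ w', P w' (c i * τ (c i) * e) ∧ t * nz τ z i w e * t⁻¹ = nz τ z i w' (c i * τ (c i) * e) := by
  have C := hcln H R A
  have n1 : i ≠ -i := (R.ne i).symm
  have n2 : -i ≠ - -i := by rw [neg_neg]; exact R.ne i
  have hx1 := C.T_X n1 ht _ (HR.z_mem (P := P) (y := y) (z := z) i hP)
  obtain ⟨w', e', hP', e1⟩ := (R.mem_Xl H).1 hx1
  have key : e' = c i * τ (c i) * e := by
    -- compare the actions
    have h1 : ρ (t * z i w e * t⁻¹) (eh (-i)) = ρ (z i w' e') (eh (-i)) := by rw [e1]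
    have h2 := hswap_inv' (hc.act (-i))
    change ρ t⁻¹ (eh (-i)) = _ • eh (-i) at h2
    have h3 := hc.act i
    have h4 := hc.act (-i)
    change ρ t (eh i) = _ • eh i at h3
    change ρ t (eh (-i)) = _ • eh (-i) at h4
    rw [hrho_mul, hrho_mul, h2, map_smul, map_smul, act_z_ee A H hP, act_z_ee A H hP', if_pos rfl, if_pos rfl, if_pos rfl,
      one_smul, one_smul, map_add, map_add, map_smul, h3, h4, hc.wh H A] at h1
    have h5 := congrFun (congrArg Prod.fst h1) i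
    simp only [Prod.fst_add, Prod.smul_fst, Pi.add_apply, Pi.smul_apply, eh_fst, smul_eq_mul, if_true, mul_one, if_neg n1,
      mul_zero, add_zero, zero_add, wh, Pi.zero_apply] at h5
    have h6 := hc.frm H A i
    have h7 := hc.ne0 (-i)
    have h8 : τ (c i) = (c (-i))⁻¹ := eq_inv_of_mul_eq_one_left h6
    rw [← h5, h8]; ring
  refine ⟨w', by rw [← key]; exact hP', ?_⟩
  have hs' := hswap_conj_id R.ne hc (hn_z_aux H A R.ne (i := i) hP he)
  have e2 : t * (z (-i) ((-e⁻¹) • w) (τ e)⁻¹ * z i w e * z (-i) ((-(τ e)⁻¹) • w) (τ e)⁻¹) * t⁻¹ =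
      (t * z (-i) ((-e⁻¹) • w) (τ e)⁻¹ * t⁻¹) * z i w' e' * (t * z (-i) ((-(τ e)⁻¹) • w) (τ e)⁻¹ * t⁻¹) := by
    rw [e1]; group
  rw [e2] at hs'
  obtain ⟨-, h9⟩ := norm_form H R A hP' (C.T_X n2 ht _ (HR.z_mem _ (H.P1 hP he))) (C.T_X n2 ht _ (HR.z_mem _ (H.P2 hP he))) hs'
  rw [← key, ← h9]
  unfold nz
  rw [e2]

end lg

attribute [local instance] Stb.sumNeg

section ev
variable {F : Type v} [Field F] {l : Type} [Fintype l] [DecidableEq l] {W Δ : Type*} [AddCommGroup W] [Module F W] [Group Δ]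
variable {τ : F →+* F} {ν : F} {μ : Matrix.SpecialLinearGroup l F →* Δ} {S : l → Δ}
variable {h0 : W → W → F} {P : W → F → Prop} {z : (l ⊕ l) → W → F → Δ}
variable {ρ : Δ →* (((l ⊕ l → F) × W) ≃ₗ[F] ((l ⊕ l → F) × W))}
variable (H : HF τ h0 P) (R : HR τ h0 P (yu ν μ S) z) (A : HA τ h0 P (yu ν μ S) z ρ) (U : UH τ ν μ S)

include H in
theorem w_zero (T : Tau τ) {w : W} {e : F} (hP : P w e) (he : τ e = -e) : w = 0 := by
  obtain ⟨a, ha⟩ := T.skew (c := -e) (by rw [map_neg, he])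
  have h1 := H.P_mul hP (H.P_skew a)
  rw [ha, H.zero_right, add_zero, add_neg_cancel, sub_zero] at h1
  exact H.aniso h1

include H R A U in
theorem S_nz (hF : FF ν S z) (i : l) : S i = nz τ z (Sum.inl i) 0 (-ν⁻¹) := by
  obtain ⟨w0, e0, hP0, he0, hS⟩ := exists_nz H R A (S_M H R A U.T U.hν U.ν0 hF i)
  have n1 : (Sum.inl i : l ⊕ l) ≠ -(Sum.inl i) := ll_ne i i
  have n2 : (Sum.inr i : l ⊕ l) ≠ -(Sum.inr i) := rr_ne i i
  have nn1 : -(Sum.inl i : l ⊕ l) = Sum.inr i := rfl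
  have nn2 : -(Sum.inr i : l ⊕ l) = Sum.inl i := rfl
  have hPn : P 0 ν := by
    obtain ⟨e, he⟩ := U.T.skew U.hν
    rw [← he]; exact H.P_skew e
  have hPi : P 0 (-ν⁻¹) := by
    have := H.P1 hPn U.ν0
    rwa [smul_zero, U.hν, inv_neg] at this
  have z0 : (wh (0 : W) : (l ⊕ l → F) × W) = 0 := rfl
  have a1 : ∀ {c : F}, P 0 c → ρ (z (Sum.inl i) 0 c) (eh (Sum.inr i)) = eh (Sum.inr i) + c • eh (Sum.inl i) := by
    intro c hc
    rw [act_z_ee A H hc, nn1, if_pos rfl, if_pos rfl, z0, smul_zero, add_zero]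
  have a2 : ∀ {c : F}, P 0 c → ρ (z (Sum.inr i) 0 c) (eh (Sum.inl i)) = eh (Sum.inl i) + c • eh (Sum.inr i) := by
    intro c hc
    rw [act_z_ee A H hc, nn2, if_pos rfl, if_pos rfl, z0, smul_zero, add_zero]
  have a3 : ∀ {c : F}, P 0 c → ρ (z (Sum.inl i) 0 c) (eh (Sum.inl i)) = eh (Sum.inl i) := by
    intro c hc
    rw [act_z_ee A H hc, nn1, if_neg Sum.inl_ne_inr, if_neg Sum.inl_ne_inr, z0, smul_zero, add_zero, zero_smul, add_zero]
  have a4 : ∀ {c : F}, P 0 c → ρ (z (Sum.inr i) 0 c) (eh (Sum.inr i)) = eh (Sum.inr i) := by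
    intro c hc
    rw [act_z_ee A H hc, nn2, if_neg Sum.inr_ne_inl, if_neg Sum.inr_ne_inl, z0, smul_zero, add_zero, zero_smul, add_zero]
  have h1 : ρ (S i) (eh (Sum.inr i)) = (-ν⁻¹) • eh (Sum.inl i) := by
    rw [hF i, hrho_mul, hrho_mul, a1 hPi, map_add, map_smul, a4 hPn, a2 hPn]
    simp only [map_add, map_smul, smul_add, a1 hPi, a3 hPi]
    have k : ν⁻¹ * ν = 1 := inv_mul_cancel₀ U.ν0
    have k2 : (-ν⁻¹) • (ν • (-ν⁻¹) • (eh (Sum.inl i) : (l ⊕ l → F) × W)) = ν⁻¹ • eh (Sum.inl i) := by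
      rw [smul_smul, smul_smul]; congr 1; rw [neg_mul, neg_mul, k]; ring
    have k3 : (-ν⁻¹) • (ν • (eh (Sum.inr i) : (l ⊕ l → F) × W)) = -eh (Sum.inr i) := by
      rw [smul_smul, neg_mul, k]; simp
    rw [k2, k3]
    module
  have h2 : ρ (nz τ z (Sum.inl i) w0 e0) (eh (Sum.inr i)) = e0 • eh (Sum.inl i) := by
    obtain ⟨k, hk⟩ := hn_z_aux H A R.ne (i := Sum.inl i) hP0 he0 (Sum.inr i)
    have hr : rf (Sum.inl i : l ⊕ l) (Sum.inl i) (Sum.inr i) = Sum.inl i := by unfold rf; simp; rfl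
    rw [hr] at hk
    change ρ (nz τ z (Sum.inl i) w0 e0) (eh (Sum.inr i)) = _ at hk
    rw [hk]
    have hk' := hk
    unfold nz at hk'
    rw [hrho_mul, hrho_mul, act_z_ee A H (H.P2 hP0 he0), nn1, nn2, if_neg Sum.inr_ne_inl, if_neg Sum.inr_ne_inl, zero_smul,
      zero_smul, add_zero, add_zero, act_z_ee A H hP0, nn1, if_pos rfl, if_pos rfl, one_smul, map_add, map_add, map_smul,
      act_z_ee A H (H.P1 hP0 he0), act_z_ee A H (H.P1 hP0 he0), nn2, if_neg Sum.inr_ne_inl, if_neg Sum.inr_ne_inl,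
      if_pos rfl, if_pos rfl, act_z_wh A (H.P1 hP0 he0)] at hk'
    have h5 := congrFun (congrArg Prod.fst hk') (Sum.inl i)
    simp only [Prod.fst_add, Prod.fst_sub, Prod.smul_fst, Pi.add_apply, Pi.sub_apply, Pi.smul_apply, eh_fst, smul_eq_mul, if_true, mul_one,
      if_neg (Sum.inl_ne_inr : (Sum.inl i : l ⊕ l) ≠ Sum.inr i), mul_zero, add_zero, zero_add, sub_zero, wh, Pi.zero_apply] at h5
    rw [h5]
  rw [hS, h2] at h1
  have h3 := congrFun (congrArg Prod.fst h1) (Sum.inl i)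
  rw [Prod.smul_fst, Prod.smul_fst, Pi.smul_apply, Pi.smul_apply, eh_fst, if_pos rfl, smul_eq_mul, smul_eq_mul, mul_one, mul_one] at h3
  rw [hS, h3]
  congr 1
  exact w_zero H U.T hP0 (by rw [h3, map_neg, map_inv₀, U.hν, inv_neg])

include H R A U in
/-- long reflection elements with vanishing anisotropic part -/
theorem long0 (hF : FF ν S z) (hn : ∀ r : F, τ r = r → r ≠ 0 → ∃ d : Fˣ, ((nn τ d : Fˣ) : F) = r)
    {i j : l} (h : i ≠ j) {e : F} (hse : τ e = -e) (he : e ≠ 0) :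
    ∃ c : Fˣ, nz τ z (Sum.inl i) 0 e = μ (emb2 h (hm c)) * S i * (μ (emb2 h (hm c)))⁻¹ := by
  have hν := U.ν0
  have hPn : P 0 ν := by
    obtain ⟨e, he⟩ := U.T.skew U.hν
    rw [← he]; exact H.P_skew e
  have hPi : P 0 (-ν⁻¹) := by
    have := H.P1 hPn U.ν0
    rwa [smul_zero, U.hν, inv_neg] at this
  obtain ⟨c, hc⟩ := hn (-ν * e) (by rw [map_mul, map_neg, U.hν, hse]; ring) (mul_ne_zero (neg_ne_zero.2 hν) he)
  obtain ⟨d, hd, hd2⟩ := D_Mn H R A (M := emb2 h (hm c)) (subset_closure ⟨i, j, h, c, rfl⟩)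
  obtain ⟨w', hw', e1⟩ := nz_conj H R A hPi (neg_ne_zero.2 (inv_ne_zero hν)) (DT H R A h c) hd
  have k1 := (hd2 i c (Mo_emb2_fst h c)).1
  have e2 : d (Sum.inl i) * τ (d (Sum.inl i)) * -ν⁻¹ = e := by
    rw [k1, ← nn_coe, hc]; field_simp
  rw [e2] at hw' e1
  refine ⟨c, ?_⟩
  rw [S_nz H R A U hF i, e1, w_zero H U.T hw' hse]

include H R in
theorem nz_inv0 {i : l ⊕ l} {e : F} (T : Tau τ) (hP : P 0 e) (he : e ≠ 0) : (nz τ z i 0 e)⁻¹ = nz τ z i 0 (τ e) := by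
  have h1 := H.P1 hP he
  have h2 := H.P2 hP he
  rw [smul_zero] at h1 h2
  unfold nz
  rw [mul_inv_rev, mul_inv_rev, smul_zero, smul_zero, smul_zero, R.zinv H _ h1, R.zinv H _ hP, neg_zero, map_inv₀, T.ττ, mul_assoc]

include H R A U in
/-- products of long reflection elements with vanishing anisotropic part -/
theorem long0_TS (hF : FF ν S z) (hn : ∀ r : F, τ r = r → r ≠ 0 → ∃ d : Fˣ, ((nn τ d : Fˣ) : F) = r)
    (i : l) {e e' : F} (hse : τ e = -e) (he : e ≠ 0) (hse' : τ e' = -e') (he' : e' ≠ 0) :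
    nz τ z (Sum.inl i) 0 e * nz τ z (Sum.inl i) 0 e' ∈ TS μ S := by
  obtain ⟨j, hj⟩ := U.two i
  have h := hj.symm
  obtain ⟨c, hc⟩ := long0 H R A U hF hn h hse he
  obtain ⟨c', hc'⟩ := long0 H R A U hF hn h hse' he'
  have hSi : ∃ d : Fˣ, (S i)⁻¹ = μ (emb2 h (hm d)) * S i * (μ (emb2 h (hm d)))⁻¹ := by
    have hPi : P 0 (-ν⁻¹) := by
      obtain ⟨a, ha⟩ := U.T.skew (c := -ν⁻¹) (by rw [map_neg, map_inv₀, U.hν, inv_neg])
      rw [← ha]; exact H.P_skew a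
    have hne : (-ν⁻¹ : F) ≠ 0 := neg_ne_zero.2 (inv_ne_zero U.ν0)
    rw [S_nz H R A U hF i, nz_inv0 H R U.T hPi hne, ← S_nz H R A U hF i]
    exact long0 H R A U hF hn h (by rw [U.T.ττ, map_neg, map_inv₀, U.hν, inv_neg]; ring) (by rw [map_neg, map_inv₀, U.hν, inv_neg]; simpa using U.ν0)
  obtain ⟨d, hd⟩ := hSi
  have e1 : nz τ z (Sum.inl i) 0 e * nz τ z (Sum.inl i) 0 e' = μ (emb2 h (hm c)) * (S i * μ (emb2 h (hm (c⁻¹ * c'))) * (S i)⁻¹) *
      (S i * μ (emb2 h (hm d)) * (S i)⁻¹) * (μ (emb2 h (hm d)))⁻¹ * (μ (emb2 h (hm c')))⁻¹ := by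
    have e2 : S i * S i = S i * μ (emb2 h (hm d)) * (S i)⁻¹ * (μ (emb2 h (hm d)))⁻¹ := by
      have h3 : ((S i)⁻¹)⁻¹ = (μ (emb2 h (hm d)) * S i * (μ (emb2 h (hm d)))⁻¹)⁻¹ := congrArg Inv.inv hd
      rw [inv_inv] at h3
      conv_lhs => rw [h3]
      rw [mul_inv_rev, mul_inv_rev, inv_inv]
      have h4 : μ (emb2 h (hm d)) * ((S i)⁻¹ * (μ (emb2 h (hm d)))⁻¹) * (μ (emb2 h (hm d)) * ((S i)⁻¹ * (μ (emb2 h (hm d)))⁻¹)) =
          S i * (μ (emb2 h (hm d)) * ((S i)⁻¹ * (μ (emb2 h (hm d)))⁻¹)) := by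
        rw [mul_inv_rev, mul_inv_rev, inv_inv] at h3
        rw [← h3]
      rw [h4]; group
    rw [hc, hc', hm_mul, map_mul, map_mul, ← hm_inv, map_inv, map_inv]
    calc _ = μ (emb2 h (hm c)) * S i * (μ (emb2 h (hm c)))⁻¹ * μ (emb2 h (hm c')) * (S i)⁻¹ * (S i * S i) * (μ (emb2 h (hm c')))⁻¹ := by group
      _ = _ := by rw [e2]; group
  rw [e1, U.conjD, U.conjD]
  exact mul_mem (mul_mem (mul_mem (mul_mem (D_TS h _) (mul_mem (H_TS h _) (D_TS h _))) (mul_mem (H_TS h _) (D_TS h _)))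
    (inv_mem (D_TS h _))) (inv_mem (D_TS h _))

end ev

end Cfsg.Agent.GK.Un
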