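import Cfsg.Agent.GK.Un8

/-!
The kernel in even dimension; stabilizers of vectors.
-/

set_option autoImplicit false
set_option linter.unusedSectionVars false
set_option linter.unusedVariables false
set_option linter.unusedSimpArgs false

namespace Cfsg.Agent.GK.Un

open Subgroup Cfsg.Agent.Stb
open scoped commutatorElement
open Om (Mo_emb2_fst Mo_emb2_snd Mo_emb2_out)

universe v

section par
variable {I K W Γ : Type*} [InvolutiveNeg I] [DecidableEq I] [Field K] [AddCommGroup W] [Module K W] [Group Γ] [Fintype I]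
variable {τ : K →+* K} {h0 : W → W → K} {P : W → K → Prop} {y : I → I → K → Γ} {z : I → W → K → Γ}
variable {ρ : Γ →* (((I → K) × W) ≃ₗ[K] ((I → K) × W))}
variable (H : HF τ h0 P) (R : HR τ h0 P y z) (A : HA τ h0 P y z ρ)

include H R A in
/-- root elements of the parabolic subgroup fix the vector -/
theorem fix_par {o k l : I} (hkl : k ≠ -l) (h0' : 0 ≤ cf k l o) {x : Γ} (hx : x ∈ HX P y z k l) : ρ x (eh o) = eh o := by
  have ne := R.ne
  have h1 : k ≠ -o := by
    rintro rfl
    rcases cf_cases ne hkl o with e | e | e | e | e | e | e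
    · exact ne o e.2.1
    · omega
    · exact ne o e.2.1
    · exact e.2.2.2 rfl
    · omega
    · omega
    · exact e.2.2.1 rfl
  have h2 : l ≠ -o := by
    rintro rfl
    rcases cf_cases ne hkl o with e | e | e | e | e | e | e
    · exact ne o e.2.2
    · omega
    · exact e.2.2.2 rfl
    · exact ne o e.2.1
    · omega
    · omega
    · exact e.2.2.2.2 rfl
  by_cases h3 : k = l
  · subst h3
    obtain ⟨w, c, hP, rfl⟩ := (R.mem_Xl H).1 hx
    rw [act_z_ee A H hP, if_neg (fun e => h1 (by rw [e, neg_neg])), if_neg (fun e => h1 (by rw [e, neg_neg]))]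
    simp
  · obtain ⟨a, rfl⟩ := (R.mem_Xs h3 hkl).1 hx
    rw [act_y_ee A h3 hkl, if_neg (fun e => h2 (by rw [e, neg_neg])), if_neg (fun e => h1 (by rw [e, neg_neg]))]
    simp

include H R A in
/-- an element stabilizing a line is in the parabolic subgroup -/
theorem hmem_Par {g : Γ} (hg : g ∈ gp (HX P y z) (fun _ _ => True) ⊔ (hcln H R A).T) {o : I} (h : g ∈ HSt ρ o) :
    g ∈ (hcln H R A).Par Finset.univ o := by
  have ne := R.ne
  have hP : (hcln H R A).Par Finset.univ o ≤ HSt ρ o := sup_le (gp_le fun k l hkl h x hx =>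
    ⟨1, by rw [fix_par H R A hkl h.2.2 hx, one_smul]⟩) (hT_St H R A o)
  have hg' : g ∈ gp (HX P y z) (fun k l => k ∈ Finset.univ ∧ l ∈ Finset.univ) ⊔ (hcln H R A).T :=
    (sup_le_sup_right (gp_mono fun _ _ _ _ => ⟨Finset.mem_univ _, Finset.mem_univ _⟩) _) hg
  obtain ⟨i, hi, t, ht, n, hn, p, hp, he⟩ := (hcln H R A).gp_sub_XX (J := Finset.univ) (fun _ _ => Finset.mem_univ _)
    (o := o) (Finset.mem_univ _) hg'
  have htn : t * n ∈ HSt ρ o := by
    have : t * n = g * p⁻¹ := by rw [he]; group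
    rw [this]; exact mul_mem h (inv_mem (hP hp))
  have ht' : t ∈ gp (HX P y z) (Yp Finset.univ i) := gp_mono (fun _ _ _ h => ⟨Finset.mem_univ _, Finset.mem_univ _, h.2.2⟩) ht
  obtain ⟨c, hc⟩ := hNN_ee H R A hn
  have hc0 := hswap_ne hc
  obtain ⟨d, hd⟩ := htn
  have h1 : (ρ t (eh i)).1 i = 1 := by
    rw [hcoord_fix A (p := i) ?_ R H ht' (eh i), eh_fst, if_pos rfl]
    intro k l hkl hP
    rcases cf_lt ne hkl hP.2.2 with e | e
    · refine ⟨by rw [e]; exact ne i, fun f => hkl ?_⟩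
      rw [e, f]
    · refine ⟨fun f => hkl ?_, by rw [e]; exact ne i⟩
      rw [e, f, neg_neg]
  have h2 : c • ρ t (eh i) = d • eh o := by rw [← map_smul, ← hc, ← hrho_mul, hd]
  have h3 := congrFun (congrArg Prod.fst h2) i
  rw [Prod.smul_fst, Pi.smul_apply, h1, Prod.smul_fst, Pi.smul_apply, eh_fst, smul_eq_mul, smul_eq_mul, mul_one] at h3
  by_cases hio : i = o
  · subst hio
    rw [if_pos rfl, mul_one] at h3
    have ht1 : t = 1 := by
      refine hinj_Y H R A ht' ?_
      rw [← h3] at h2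
      exact smul_right_injective _ hc0 h2
    have hn' : n ∈ (hcln H R A).T := by
      rcases hn with ⟨_, hn⟩ | ⟨hn, _⟩ | ⟨hn, _⟩
      · exact hn
      · exact absurd rfl hn
      · exact absurd hn.symm (ne i)
    rw [he, ht1, one_mul]; exact mul_mem (mem_sup_right hn') hp
  · rw [if_neg hio, mul_zero] at h3
    exact absurd h3 hc0

/-- the root groups fixing a vector -/
def FixX (P : W → K → Prop) (y : I → I → K → Γ) (z : I → W → K → Γ) (o : I) : Subgroup Γ :=
  gp (HX P y z) (fun k l => 0 ≤ cf k l o)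

include H R A in
/-- the stabilizer of a vector -/
theorem fix_form {g : Γ} (hg : g ∈ gp (HX P y z) (fun _ _ => True) ⊔ (hcln H R A).T) {o : I} (h : ρ g (eh o) = eh o) :
    ∃ x ∈ FixX P y z o, ∃ t ∈ (hcln H R A).T, ρ t (eh o) = eh o ∧ g = x * t := by
  have h1 := hmem_Par H R A hg (o := o) ⟨1, by rw [h, one_smul]⟩
  have h2 : (hcln H R A).Par Finset.univ o ≤ FixX P y z o ⊔ (hcln H R A).T :=
    sup_le_sup_right (gp_mono fun _ _ _ h => h.2.2) _
  have h3 := h2 h1
  have h4 : ∀ t ∈ (hcln H R A).T, ∀ x ∈ FixX P y z o, t * x * t⁻¹ ∈ FixX P y z o := fun t ht x hx => (hcln H R A).T_gp ht x hx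
  rw [sup_comm] at h3
  obtain ⟨x, hx, t, ht, he⟩ := Cfsg.Agent.ChevGrp.mem_sup_of_normalizes' h4 h3
  have hfx : ∀ x ∈ FixX P y z o, ρ x (eh o) = eh o := by
    intro x hx
    unfold FixX gp at hx
    induction hx using closure_induction with
    | mem x hx =>
      obtain ⟨k, l, hkl, h, hx⟩ := hx
      exact fix_par H R A hkl h hx
    | one => rw [map_one]; rfl
    | mul a b _ _ ha hb => rw [hrho_mul, hb, ha]
    | inv a _ ha =>
      have := congrArg (ρ a⁻¹) ha
      rw [← hrho_mul, inv_mul_cancel, map_one] at this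
      exact this.symm
  refine ⟨x, hx, t, ht, ?_, he⟩
  rw [he] at h
  have h5 := hfx x⁻¹ (inv_mem hx)
  have e1 : t = x⁻¹ * (x * t) := by group
  rw [e1, hrho_mul, h, h5]

end par

attribute [local instance] Stb.sumNeg

section ev
variable {F : Type v} [Field F] {l : Type} [Fintype l] [DecidableEq l] {W Δ : Type*} [AddCommGroup W] [Module F W] [Group Δ]
variable {τ : F →+* F} {ν : F} {μ : Matrix.SpecialLinearGroup l F →* Δ} {S : l → Δ}
variable {h0 : W → W → F} {P : W → F → Prop} {z : (l ⊕ l) → W → F → Δ}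
variable {ρ : Δ →* (((l ⊕ l → F) × W) ≃ₗ[F] ((l ⊕ l → F) × W))}
variable (H : HF τ h0 P) (R : HR τ h0 P (yu ν μ S) z) (A : HA τ h0 P (yu ν μ S) z ρ) (U : UH τ ν μ S)

include H R A U in
theorem T_le_TS (hF : FF ν S z) (hn : ∀ r : F, τ r = r → r ≠ 0 → ∃ d : Fˣ, ((nn τ d : Fˣ) : F) = r)
    (hP0 : ∀ w c, P w c → w = 0) : (hcln H R A).T ≤ TS μ S := by
  unfold Cln.T
  rw [closure_le]
  rintro _ ⟨k, k', hkk, m, hm, m', hm', rfl⟩
  by_cases h1 : k = k'
  · subst h1
    have key : ∀ i : l, ∀ m ∈ HMM P (yu ν μ S) z ρ (Sum.inl i) (Sum.inl i), ∀ m' ∈ HMM P (yu ν μ S) z ρ (Sum.inl i) (Sum.inl i),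
        m * m' ∈ TS μ S := by
      intro i m hm m' hm'
      obtain ⟨w, e, hP, he, rfl⟩ := exists_nz H R A hm
      obtain ⟨w', e', hP', he', rfl⟩ := exists_nz H R A hm'
      have e1 := hP0 _ _ hP
      have e2 := hP0 _ _ hP'
      subst e1; subst e2
      have s1 : τ e = -e := by
        have := H.P_tr hP
        rw [H.zero_left, add_zero] at this
        exact eq_neg_of_add_eq_zero_right this
      have s2 : τ e' = -e' := by
        have := H.P_tr hP'
        rw [H.zero_left, add_zero] at this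
        exact eq_neg_of_add_eq_zero_right this
      exact long0_TS H R A U hF hn i s1 he s2 he'
    rcases k with i | i
    · exact key i m hm m' hm'
    · have e1 : (Sum.inl i : l ⊕ l) = -(Sum.inr i) := rfl
      have h2 := HMM_neg H R A hkk hm
      have h3 := HMM_neg H R A hkk hm'
      exact key i m h2 m' h3
  · exact short H R A U hF h1 hkk hm hm'

include H R A U in
/-- faithfulness in even dimension -/
theorem ker_even [Nonempty l] (hF : FF ν S z) (hn : ∀ r : F, τ r = r → r ≠ 0 → ∃ d : Fˣ, ((nn τ d : Fˣ) : F) = r)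
    (hP0 : ∀ w c, P w c → w = 0) {g : Δ} (hg : g ∈ gp (HX P (yu ν μ S) z) (fun _ _ => True)) (h1 : ρ g = 1) : g = 1 := by
  have h2 : g ∈ (hcln H R A).T := by
    refine hmem_T H R A (mem_sup_left hg) fun o => ⟨1, ?_⟩
    rw [h1, one_smul]; rfl
  have h3 := T_le_TS H R A U hF hn hP0 h2
  exact TS_inj H R A U hF h3 fun x => by rw [h1]; rfl

end ev

end Cfsg.Agent.GK.Un
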